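import Mathlib
import Cfsg.Statements.S0934
import Cfsg.Agent.Blk.OmInd
import Cfsg.Agent.S0913

set_option autoImplicit false
open Cfsg

namespace Cfsg.Agent.S0934

open Cfsg.Agent.Ch Cfsg.Agent.Blk.Om

/-- Let H be a subgroup of the finite group G and fix a maximal ideal M of the algebraic integers containing the prime p. If the block b of H induces the block B of G and ξ ∈ b, then there is χ ∈ B whose restriction to H has nonzero inner product with ξ. -/
theorem result {G : Type*} [Group G] [Fintype G] (p : ℕ) [Fact p.Prime] (M : Ideal Cfsg.AlgInt) (hM : Cfsg.IsPModular p M) (H : Subgroup G) [Fintype H] (b : Set (Cfsg.IrrCharacter H)) (B : Set (Cfsg.IrrCharacter G)) (hind : Cfsg.IsInducedBlock M H b B) (ξ : Cfsg.IrrCharacter H) (hξ : ξ ∈ b) : ∃ χ ∈ B, Cfsg.classInner (fun h : H => (χ : G → ℂ) h) (ξ : H → ℂ) ≠ 0 := by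
  classical
  haveI := hM.isMaximal
  by_contra hcon
  push Not at hcon
  obtain ⟨χ, hχ⟩ := block_nonempty hind.2.1
  have h := indAlong_of_isInducedBlock hind ξ hξ χ hχ _ (isClassFunction_blockCoeff B)
    (S0913.result p M hM B hind.2.1)
  rw [om_blockCoeff_of_mem hχ] at h
  have h0 : om (ξ : H → ℂ) (fun h => blockCoeff B (H.subtype h)) = 0 := by
    have := om_indFun H (ξ : H → ℂ) (isClassFunction_blockCoeff B)
    simp only [Subgroup.coe_subtype]
    rw [← this, om_eq_sum, sum_blockCoeff_mul, Finset.sum_eq_zero, zero_div]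
    intro ψ _
    split_ifs with hψ
    · rw [classInner_indFun_left H _ ψ.isClassFunction, classInner_eq_zero_comm.1 (hcon ψ hψ),
        mul_zero]
    · rfl
  rw [h0, zero_sub] at h
  exact MemLocalIdeal.not_one (M := M) (by simpa using h.neg)

end Cfsg.Agent.S0934
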