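import Mathlib
import Cfsg.Statements.S4487
import Cfsg.Agent.Blk.Defect
import Cfsg.Agent.Blk.BlockOrth2
import Cfsg.Agent.GT.Cores

set_option autoImplicit false
open Cfsg

namespace Cfsg.Agent.S4487

/-- Let G be a finite group and p a prime such that G has no non-trivial normal subgroup of order prime to p and C_G(O_p(G)) ≤ O_p(G). Then G has a single p-block: any two irreducible characters lie in the same block relative to every maximal ideal M of the algebraic integers containing p. -/
theorem result {G : Type*} [Group G] [Finite G] (p : ℕ) [Fact p.Prime] (M : Ideal Cfsg.AlgInt) (hM : Cfsg.IsPModular p M) (hcore : Cfsg.pPrimeCore p G = ⊥) (hconstr : Subgroup.centralizer ((Cfsg.pCore p G) : Set G) ≤ Cfsg.pCore p G) (χ ψ : Cfsg.IrrCharacter G) : Cfsg.SameBlock M (χ : G → ℂ) (ψ : G → ℂ) := by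
  have := hM.isMaximal
  have hC := hconstr
  have key : ∀ B : Set (IrrCharacter G), IsPBlock M B → ∀ g : G, g ≠ 1 →
      (Agent.Blk.eps M B).coeff g = 0 := by
    intro B hB g hg
    by_contra h
    have h1 := hC (hB.mem_centralizer_of_coeff_eps hM (Agent.GT.isPGroup_pCore p) h)
    obtain ⟨k, hk⟩ := (IsPGroup.iff_orderOf.1 (Agent.GT.isPGroup_pCore (G := G) p)) ⟨g, h1⟩
    rw [Subgroup.orderOf_mk] at hk
    have h2 : p ∣ orderOf g := by
      rw [hk]
      refine dvd_pow_self p fun h0 => hg ?_
      rw [h0, pow_zero, orderOf_eq_one_iff] at hk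
      exact hk
    have h3 := Agent.Blk.blockCoeff_eq_zero_of_dvd hM hB.blockCoeff_mem h2
    exact (Agent.Blk.coeff_eps_ne_zero_iff.1 h).2 (by rw [h3]; exact .zero)
  have hB := Agent.Blk.isPBlock_blockOf (M := M) χ
  have e : Agent.Blk.eps M (blockOf M (χ : G → ℂ)) =
      (Agent.Blk.eps M (blockOf M (χ : G → ℂ))).coeff 1 • (1 : MonoidAlgebra (Agent.Blk.Res M) G) := by
    refine Agent.Blk.ext_coeff fun g => ?_
    by_cases hg : g = 1
    · subst hg; simp
    · classical
      rw [key _ hB g hg, Agent.Blk.coeff_smul_eq, Agent.Blk.coeff_one_eq, if_neg hg, mul_zero]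
  have h1 := hB.lam_eps_of_mem (Agent.Blk.mem_blockOf_self χ)
  by_contra hne
  have h2 := hB.lam_eps_of_not_mem (χ := ψ) hne
  rw [e, map_smul] at h1 h2
  simp at h1 h2
  exact one_ne_zero (h1.symm.trans h2)

end Cfsg.Agent.S4487
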