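import Mathlib
import Cfsg.Statements.S2345
import Cfsg.Agent.Cl.RepOf

set_option autoImplicit false
open Cfsg

namespace Cfsg.Agent.S2345

/-- For a finite field F with q > 3 elements and n ≥ 4, every irreducible complex representation of degree at least 2 of Ω⁺_{2n}(F) (the commutator subgroup of the isometry group of the hyperbolic quadratic form x₁y₁ + ⋯ + x_ny_n) has degree at least (q^n − 1)(q^{n−1} + q)/(q² − 1). -/
theorem result {F : Type*} [Field F] [Fintype F] (n : ℕ) (hn : 4 ≤ n) (h3 : 3 < Fintype.card F) :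
    (∀ (k : ℕ) (ρ : Representation ℂ (Cfsg.Omega F (Cfsg.quadFormPlus n F)) (Fin k → ℂ)), ρ.IsIrreducible → 2 ≤ k → (Fintype.card F ^ n - 1) * (Fintype.card F ^ (n - 1) + Fintype.card F) / (Fintype.card F ^ 2 - 1) ≤ k) := by
  obtain ⟨m, rfl⟩ : ∃ m, n = m + 4 := ⟨n - 4, by omega⟩
  have hP := Cl.quad_plus_nondeg (m := m + 4) (F := F)
  refine Cl.RO.LB.omega hP (by rw [Cl.o_finrank_plus]; omega) ?_
  rw [← Nat.card_eq_fintype_card] at h3 ⊢
  rw [Nat.cast_mul, Nat.cast_sub (Nat.one_le_pow _ _ Nat.card_pos), Nat.cast_add, Nat.cast_pow,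
    Nat.cast_pow, Nat.cast_one]
  exact Cl.RO.lb_plus hP Cl.o_finrank_plus h3 (Cl.ozeros_plus _)

end Cfsg.Agent.S2345
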