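import Mathlib
import Cfsg.Statements.S2420
import Cfsg.Agent.Cl.LinearSylow

set_option autoImplicit false
open scoped MatrixGroups
open Cfsg

namespace Cfsg.Agent.S2420

theorem card_label_lt {n : ℕ} (μ : Fin n → ℕ) (hμ : ∑ i, μ i = n) (m : ℕ) (hm : m ≤ n) :
    (Finset.univ.filter fun i : Fin n => compLabel μ i < m).card =
      ∑ k ∈ Finset.univ.filter (fun k : Fin n => (k : ℕ) < m), μ k := by
  rcases Nat.eq_zero_or_pos m with rfl | h0
  · simp
  obtain ⟨a, rfl⟩ : ∃ a, m = a + 1 := ⟨m - 1, by omega⟩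
  have e : Finset.univ.filter (fun k : Fin n => (k : ℕ) < a + 1) =
      Finset.univ.filter (fun k : Fin n => k ≤ ⟨a, hm⟩) := by
    ext k; simp [Fin.le_def, Nat.lt_succ_iff]
  have hle : ∑ k ∈ Finset.univ.filter (fun k : Fin n => k ≤ ⟨a, hm⟩), μ k ≤ n :=
    (Finset.sum_le_sum_of_subset (Finset.filter_subset _ _)).trans hμ.le
  rw [e, ← min_eq_right hle, ← Fin.card_filter_val_lt]
  congr 1
  ext i
  have := Fin.lt_card_filter_univ_iff_apply_of_imp (j := ⟨a, hm⟩)
    (fun j : Fin n => (∑ k ∈ Finset.univ.filter (fun k : Fin n => k ≤ j), μ k) ≤ i.val)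
    (fun x y hxy h => (Finset.sum_le_sum_of_subset fun k hk => by
      simp only [Finset.mem_filter, Finset.mem_univ, true_and] at hk ⊢
      exact hk.trans hxy).trans h)
  simp only [Finset.mem_filter, Finset.mem_univ, true_and]
  rw [← not_le, ← not_le, ← this]
  rfl

theorem card_label {n : ℕ} (μ : Fin n → ℕ) (hμ : ∑ i, μ i = n) (a : Fin n) :
    Fintype.card {i : Fin n // compLabel μ i = a} = μ a := by
  have h1 := card_label_lt μ hμ (a + 1) a.2
  have h2 := card_label_lt μ hμ a a.2.le
  have e1 : Finset.univ.filter (fun k : Fin n => (k : ℕ) < a + 1) =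
      insert a (Finset.univ.filter fun k : Fin n => (k : ℕ) < a) := by
    ext k; simp [Fin.ext_iff]; omega
  have e2 : (Finset.univ.filter fun i : Fin n => compLabel μ i < a + 1) =
      (Finset.univ.filter fun i : Fin n => compLabel μ i = a) ∪
        Finset.univ.filter fun i : Fin n => compLabel μ i < a := by
    ext k; simp; omega
  rw [e1, Finset.sum_insert (by simp), e2, Finset.card_union_of_disjoint (by
    rw [Finset.disjoint_filter]; intro x _ h; omega), h2] at h1
  rw [Fintype.card_subtype]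
  omega

theorem label_lt {n : ℕ} (μ : Fin n → ℕ) (hμ : ∑ i, μ i = n) (i : Fin n) : compLabel μ i < n := by
  have h1 := card_label_lt μ hμ n le_rfl
  rw [Finset.filter_true_of_mem (p := fun k : Fin n => (k : ℕ) < n) (fun k _ => k.2), hμ] at h1
  have : (Finset.univ.filter fun i : Fin n => compLabel μ i < n) = Finset.univ :=
    Finset.eq_univ_of_card _ (by rw [h1, Fintype.card_fin])
  have h2 := Finset.mem_univ i
  rw [← this] at h2
  exact (Finset.mem_filter.1 h2).2

theorem card_gl_eq {F ι : Type*} [Field F] [Finite F] [Fintype ι] [DecidableEq ι] :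
    Nat.card (GL ι F) = Nat.card F ^ (Fintype.card ι * (Fintype.card ι - 1) / 2) *
      (Nat.card F - 1) ^ Fintype.card ι *
      ∏ j ∈ Finset.range (Fintype.card ι), ∑ l ∈ Finset.range (j + 1), Nat.card F ^ l := by
  rw [Cl.card_gl', mul_assoc, mul_comm (_ ^ Fintype.card ι)]
  congr 1
  nth_rw 3 [← Finset.card_range (Fintype.card ι)]
  rw [Finset.prod_mul_pow_card]
  exact Finset.prod_congr rfl fun j _ => (geom_sum_mul_of_one_le Nat.card_pos _).symm

theorem two_mul_half (m : ℕ) : 2 * (m * (m - 1) / 2) + m = m ^ 2 := by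
  rw [Nat.mul_div_cancel' (even_iff_two_dvd.1 (Nat.even_mul_pred_self m))]
  rcases m with _ | m
  · rfl
  · rw [Nat.add_sub_cancel]; ring

/-- The number of partial flags of a given type: for a composition `μ` of `n` (with `n` parts, zeros allowed) and a field with `q` elements, the index of the standard parabolic subgroup `P_μ` in `GL_n(q)` times `∏_i {μ_i}` equals `{n}`, where `{r}` denotes the product over `k = 1, …, r` of the q-integers `1 + q + ⋯ + q^(k−1)`. -/
theorem result {F : Type*} [Field F] [Fintype F] {q : ℕ} (hq : Fintype.card F = q) {n : ℕ} (μ : Fin n → ℕ) (hμ : ∑ i, μ i = n) :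
    Nat.card (GL (Fin n) F ⧸ Cfsg.parabolicGL n F μ) * ∏ i : Fin n, ∏ j ∈ Finset.range (μ i), ∑ l ∈ Finset.range (j + 1), q ^ l =
      ∏ j ∈ Finset.range n, ∑ l ∈ Finset.range (j + 1), q ^ l := by
  have hP : Cfsg.parabolicGL n F μ = Cl.parab F (compLabel μ) := rfl
  have hq' : Nat.card F = q := by rw [Nat.card_eq_fintype_card, hq]
  have h1 := (Cl.parab F (compLabel μ)).card_mul_index
  have hs : ∀ i, compLabel μ i ∈ Finset.range n := fun i => Finset.mem_range.2 (label_lt μ hμ i)
  have h2 := Cl.card_sq_eq_upPairs (compLabel μ) _ hs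
  rw [Cl.card_parab (compLabel μ) _ hs, card_gl_eq,
    ← Fin.prod_univ_eq_prod_range (fun a => Nat.card (GL {i // compLabel μ i = a} F))] at h1
  rw [← Fin.sum_univ_eq_sum_range (fun a => Fintype.card {i // compLabel μ i = a} ^ 2)] at h2
  simp only [card_gl_eq, card_label μ hμ, Fintype.card_fin, hq', Finset.prod_mul_distrib,
    Finset.prod_pow_eq_pow_sum, hμ] at h1 h2
  have h3 : Cl.upPairs (compLabel μ) + ∑ i, μ i * (μ i - 1) / 2 = n * (n - 1) / 2 := by
    have h4 := two_mul_half n
    have h5 : ∑ i, μ i ^ 2 = 2 * ∑ i, μ i * (μ i - 1) / 2 + ∑ i, μ i := by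
      rw [Finset.mul_sum, ← Finset.sum_add_distrib]
      exact Finset.sum_congr rfl fun i _ => (two_mul_half _).symm
    omega
  have hq2 : 2 ≤ q := hq ▸ Fintype.one_lt_card
  have hq3 : 0 < q := lt_of_lt_of_le two_pos hq2
  have hq4 : 0 < q - 1 := Nat.sub_pos_of_lt hq2
  rw [hP, ← Subgroup.index_eq_card]
  refine Nat.eq_of_mul_eq_mul_left
    (Nat.mul_pos (pow_pos hq3 (n * (n - 1) / 2)) (pow_pos hq4 n)) ?_
  rw [← h1, ← h3, pow_add]
  ring

end Cfsg.Agent.S2420
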