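import Mathlib
import Cfsg.Statements.S0276
import Cfsg.Agent.Cl.PSL2Class

set_option autoImplicit false
open Cfsg

set_option linter.unusedVariables false

namespace Cfsg.Agent.S0276

open Cfsg.Agent.Cl.L2 Matrix MulAction
open scoped MatrixGroups

/-- For q = 3 or 5 mod 8 the Sylow 2-subgroups of PSL_2(q) are elementary abelian of order 4. -/
theorem result {F : Type*} [Field F] [Fintype F] {q : ℕ} (hF : Fintype.card F = q) (hq : q % 8 = 3 ∨ q % 8 = 5) (P : Sylow 2 (Matrix.ProjectiveSpecialLinearGroup (Fin 2) F)) : IsKleinFour (P : Subgroup (Matrix.ProjectiveSpecialLinearGroup (Fin 2) F)) := by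
  have hq' : Nat.card F = q := by rw [Nat.card_eq_fintype_card, hF]
  subst hq'
  have h2 : (2 : F) ≠ 0 := two_ne_zero_iff_odd.2 (by omega)
  obtain ⟨V, hV⟩ := exists_kleinS h2
  obtain ⟨T, hT⟩ := (Inv.Fz.klein_isPGroup hV).exists_le_sylow
  obtain ⟨k, hk⟩ := T.2.exists_card_eq
  have h8 : ¬ 2 ^ 3 ∣ 2 ^ k := fun h => by
    have := (sixteen_dvd_iff (two_ne_zero_iff_odd.1 h2)).1 (card_PSL_two h2 ▸
      Nat.mul_dvd_mul_right ((h.trans hk.symm.dvd).trans (Subgroup.card_subgroup_dvd_card _)) 2)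
    omega
  have hk' : k ≤ 2 := by
    by_contra h; exact h8 (pow_dvd_pow 2 (by omega))
  have := Subgroup.eq_of_le_of_card_ge hT
    (by rw [hk, hV.card_four]; exact Nat.pow_le_pow_right two_pos hk')
  exact Inv.Fz.isKleinFour_of_equiv (Sylow.equiv T P) (this ▸ hV)

end Cfsg.Agent.S0276
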