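import Cfsg.Statements.S2040
import Cfsg.Agent.Spor.MX.J2Gen
import Cfsg.Agent.Spor.MX.SuzCov

set_option autoImplicit false
open Cfsg

namespace Cfsg.Agent.S2040

open Cfsg.Agent.Spor Cfsg.Agent.Spor.MX

/-- The Schur multiplier of the Hall–Janko group J₂ (the icosian reflection group modulo its centre) is cyclic of order 2; here the Schur multiplier is described through stem extensions, as in the definitions: surjective homomorphisms onto the group from a finite group, whose kernel is central in that finite group and contained in that finite group's commutator subgroup. -/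
theorem result : Cfsg.HasCyclicSchurMultiplier Cfsg.Spor.J2 2 := by
  exact cyclic_top (cyclic_of_bounds j2m_gen.2.2 [(2, 7, 1), (3, 3, 0), (5, 2, 0)] [7] (by decide +kernel)
    (forall_mem_cons' (j2m_gen.not_dvd 2 2 (j2_l4 j2m_gen.2.1) (by decide +kernel))
      (forall_mem_cons' (j2m_gen.not_dvd 3 1 ((j2_l9 j2m_gen.2.1).of_dvd (by decide)) (by decide +kernel))
      (forall_mem_cons' (j2m_gen.not_dvd 5 1 (j2_l5 j2m_gen.2.1) (by decide +kernel))
      forall_mem_nil')))
    (j22_cover j2m_gen ((j2m_link.words j2m_w).commute j2m_c0)))

end Cfsg.Agent.S2040
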