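import Cfsg.Statements.S4798
import Cfsg.Agent.Deg.Basic
-- import your own Cfsg.Agent.* helpers here

set_option autoImplicit false
open Cfsg

namespace Cfsg.Agent.S4798

open Cfsg.Agent.Ch Cfsg.Agent.Deg
open scoped ComplexConjugate

/-- Let p be a prime and χ a faithful irreducible complex character of the finite group G (χ(g) = χ(1) only for g = 1), so that its codegree is #G / χ(1). Then #G / χ(1) is a power of p if and only if χ is induced from a character of a Sylow p-subgroup of G. -/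
theorem result {G : Type*} [Group G] [Fintype G] (p : ℕ) [Fact p.Prime] (χ : Cfsg.IrrCharacter G) (hfaith : ∀ g : G, (χ : G → ℂ) g = (χ : G → ℂ) 1 → g = 1) : (∃ k : ℕ, Nat.card G = p ^ k * Cfsg.charDegree (χ : G → ℂ)) ↔ ∃ (P : Sylow p G) (θ : ↥(P : Subgroup G) → ℂ), Cfsg.IsCharacter ↥(P : Subgroup G) θ ∧ (χ : G → ℂ) = Cfsg.indFun (P : Subgroup G) θ := by
  classical
  constructor
  · rintro ⟨k, hk⟩
    obtain ⟨P⟩ : Nonempty (Sylow p G) := inferInstance
    obtain ⟨n, hn⟩ := IsPGroup.iff_card.1 P.isPGroup'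
    have hcop : (p ^ k).Coprime (P : Subgroup G).index :=
      Nat.Coprime.pow_left _ ((Nat.Prime.coprime_iff_not_dvd Fact.out).2 P.not_dvd_index)
    have hG : Nat.card G = p ^ n * (P : Subgroup G).index := by
      rw [← hn, Subgroup.card_mul_index]
    have hkn : k ≤ n := by
      have : p ^ k ∣ p ^ n * (P : Subgroup G).index := hG ▸ ⟨_, hk⟩
      exact (Nat.pow_dvd_pow_iff_le_right (Fact.out : p.Prime).one_lt).1
        (hcop.dvd_of_dvd_mul_right this)
    have hdeg : charDegree (χ : G → ℂ) = p ^ (n - k) * (P : Subgroup G).index := by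
      apply Nat.eq_of_mul_eq_mul_left (pow_pos (Fact.out : p.Prime).pos k)
      rw [← hk, hG, ← mul_assoc, ← pow_add, Nat.add_sub_cancel' hkn]
    have hnd : ¬ p ^ (n - k + 1) ∣ charDegree (fun x : (P : Subgroup G) => (χ : G → ℂ) x) := by
      rw [charDegree_restrict, hdeg, pow_succ]
      intro h
      exact P.not_dvd_index (Nat.dvd_of_mul_dvd_mul_left (pow_pos (Fact.out : p.Prime).pos _) h)
    obtain ⟨θ, hθ, hθ1, hθ2⟩ : ∃ θ, IsIrrCharacter (P : Subgroup G) θ ∧
        classInner (fun x : (P : Subgroup G) => (χ : G → ℂ) x) θ ≠ 0 ∧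
        ¬ p ^ (n - k + 1) ∣ charDegree θ := by
      by_contra hc
      push Not at hc
      exact hnd (dvd_charDegree_of_forall_constituent (χ.isCharacter.restrict _) hc)
    obtain ⟨j, hj⟩ := exists_charDegree_eq_pow P.isPGroup' hθ
    have hjle : j ≤ n - k := by
      by_contra hlt
      exact hθ2 (hj ▸ pow_dvd_pow p (by omega))
    refine ⟨P, θ, hθ.isCharacter, ?_⟩
    have hind := isCharacter_indFun (P : Subgroup G) hθ.isCharacter
    have hne : classInner (indFun (P : Subgroup G) θ) χ ≠ 0 := by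
      rwa [classInner_indFun_eq_res _ hθ.isCharacter χ.isCharacter]
    refine (hind.eq_irr_of_apply_one χ.2 hne ?_).symm
    rw [← hind.coe_charDegree, ← χ.2.coe_charDegree]
    congr 1
    refine le_antisymm ?_ (hind.charDegree_irr_le χ.2 hne)
    rw [charDegree_indFun _ hθ.isCharacter, hdeg, hj, mul_comm]
    exact Nat.mul_le_mul_right _ (Nat.pow_le_pow_right (Fact.out : p.Prime).pos hjle)
  · rintro ⟨P, θ, hθ, h⟩
    obtain ⟨n, hn⟩ := IsPGroup.iff_card.1 P.isPGroup'
    have h1 := χ.2.charDegree_dvd_card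
    have h2 : charDegree (χ : G → ℂ) = (P : Subgroup G).index * charDegree θ := by
      rw [h, charDegree_indFun _ hθ]
    obtain ⟨c, hc⟩ := h1
    have h3 : c ∣ p ^ n := by
      refine ⟨charDegree θ, ?_⟩
      apply Nat.eq_of_mul_eq_mul_left (Nat.pos_of_ne_zero (P : Subgroup G).index_ne_zero_of_finite)
      rw [← hn, Subgroup.index_mul_card, hc, h2]; ring
    obtain ⟨k, -, rfl⟩ := (Nat.dvd_prime_pow Fact.out).1 h3
    exact ⟨k, by rw [hc, mul_comm]⟩

end Cfsg.Agent.S4798
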