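import Mathlib
import Cfsg.Statements.S3908
import Cfsg.Agent.FG.H92Basic
import Cfsg.Agent.GT.PGroupCyclicNormal

set_option autoImplicit false
open Cfsg

namespace Cfsg.Agent.S3908

section aux

open Subgroup Cfsg.Agent.GT Cfsg.Agent.FG Cfsg.Agent.FG.H92
open scoped commutatorElement

theorem pow_eq_one {G : Type*} [Group G] [Finite G] (hB : ∀ A B : Subgroup G, IsMulCommutative ↥A → IsMulCommutative ↥B → Nat.card ↥A = Nat.card ↥B → ∃ g : G, B = A.map (MulAut.conj g).toMonoidHom)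
    {p : ℕ} [hp : Fact p.Prime] {E : Subgroup G} (hE : IsElementaryAbelian p E)
    (hc : Nat.card E = p ^ 2) {x : G} (hx : ∃ k, orderOf x = p ^ k) : x ^ p = 1 := by
  obtain ⟨k, hk⟩ := hx
  by_cases hk2 : 2 ≤ k
  · have h1 : orderOf (x ^ p ^ (k - 2)) = p ^ 2 := by
      rw [PG.orderOf_pow_prime_pow hp.out.pos hk (by omega)]; congr 1; omega
    obtain ⟨g, hg⟩ := hB E (zpowers (x ^ p ^ (k - 2))) hE.1 inferInstance
      (by rw [Nat.card_zpowers, h1, hc])
    have h2 := orderOf_dvd_of_pow_eq_one ((hE.map _).2 _ (hg ▸ mem_zpowers _))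
    rw [h1] at h2
    have := (Nat.pow_dvd_pow_iff_le_right hp.out.one_lt (k := 2) (l := 1)).1 (by simpa using h2)
    omega
  · rw [← orderOf_dvd_iff_pow_eq_one, hk]
    simpa using pow_dvd_pow p (show k ≤ 1 by omega)

theorem rank_one_or {G : Type*} [Group G] [Finite G] (hB : ∀ A B : Subgroup G, IsMulCommutative ↥A → IsMulCommutative ↥B → Nat.card ↥A = Nat.card ↥B → ∃ g : G, B = A.map (MulAut.conj g).toMonoidHom)
    {p : ℕ} [hp : Fact p.Prime] (P : Sylow p G) :
    PRankLE p 1 (P : Subgroup G) ∨ ∀ x : G, (∃ k, orderOf x = p ^ k) → x ^ p = 1 := by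
  by_cases h : PRankLE p 1 (P : Subgroup G)
  · exact Or.inl h
  · obtain ⟨E, -, hE, hc⟩ := PG.not_pRankLE_subgroup_iff.1 h
    exact Or.inr fun x hx => pow_eq_one hB hE hc hx

end aux

open Subgroup Cfsg.Agent.GT Cfsg.Agent.FG Cfsg.Agent.FG.H92 in
open scoped commutatorElement in
/-- Let G be a finite group in which any two abelian subgroups of the same order are conjugate. Then a Sylow 2-subgroup of G is cyclic, elementary abelian or generalized quaternion, and for an odd prime p a Sylow p-subgroup of G is cyclic or has exponent dividing p. -/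
theorem result {G : Type*} [Group G] [Finite G] (hB : ∀ A B : Subgroup G, IsMulCommutative ↥A → IsMulCommutative ↥B → Nat.card ↥A = Nat.card ↥B → ∃ g : G, B = A.map (MulAut.conj g).toMonoidHom) :
    (∀ P : Sylow 2 G, IsCyclic ↥(P : Subgroup G) ∨ Cfsg.IsElementaryAbelian 2 (P : Subgroup G) ∨ ∃ k : ℕ, Nonempty (↥(P : Subgroup G) ≃* QuaternionGroup (2 ^ k))) ∧
    ∀ (p : ℕ) [Fact p.Prime], p ≠ 2 → ∀ P : Sylow p G, IsCyclic ↥(P : Subgroup G) ∨ ∀ x ∈ (P : Subgroup G), x ^ p = 1 := by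
  refine ⟨fun P => ?_, fun p _ hp P => ?_⟩
  · rcases rank_one_or hB P with h | h
    · rcases PG.isCyclic_or_quaternion_of_pRankLE_one P.isPGroup' h with h | ⟨-, m, -, h⟩
      · exact Or.inl h
      · exact Or.inr (Or.inr ⟨m, h⟩)
    · have h1 : ∀ x ∈ (P : Subgroup G), x ^ 2 = 1 := fun x hx =>
        h x (CI.orderOf_of_mem P.isPGroup' hx)
      refine Or.inr (Or.inl ⟨isMulCommutative_of_comm fun a ha b hb => ?_, h1⟩)
      have h2 : ∀ x ∈ (P : Subgroup G), x⁻¹ = x := fun x hx =>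
        inv_eq_of_mul_eq_one_right (by rw [← pow_two]; exact h1 x hx)
      rw [← h2 _ ((P : Subgroup G).mul_mem ha hb), mul_inv_rev, h2 a ha, h2 b hb]
  · rcases rank_one_or hB P with h | h
    · exact Or.inl (PG.isCyclic_of_pRankLE_one_of_odd hp P.isPGroup' h)
    · exact Or.inr fun x hx => h x (CI.orderOf_of_mem P.isPGroup' hx)

end Cfsg.Agent.S3908
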