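import Mathlib
-- Template for statement S4291 (row 4291; see /opt/grader/pristine/manifest.json for weights).
-- Copy to Cfsg/Agent/S4291.lean and replace the sorry. The statement below is byte-identical to the frozen
-- statement Cfsg.CfsgFrozen.S4291 (Cfsg/Statements/S4291.lean; the theorem Cfsg.fg18_frobenius_complement_core_quotient_six_types);
-- the grader kernel-checks Cfsg.Agent.S4291.result against that frozen type. Keep the theorem IN THIS FILE
-- (a `result` declared elsewhere and merely imported here is not credited); helpers may live anywhere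
-- under Cfsg/Agent/.
import Cfsg.Statements.S4291
import Cfsg.Agent.GT.ZassenhausThm
import Cfsg.Agent.Sym.Basic
-- import your own Cfsg.Agent.* helpers here

set_option autoImplicit false
open Cfsg

namespace Cfsg.Agent.S4291

open Equiv

theorem klein : ¬ IsZGroup (DihedralGroup 2) := fun _ => by
  have := IsZGroup.exponent_eq_card (DihedralGroup 2)
  rw [DihedralGroup.exponent, DihedralGroup.nat_card] at this
  exact absurd this (by decide)

def iota : DihedralGroup 2 →* Perm (Fin 4) :=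
  MonoidHom.mk' (fun x => match x with
    | .r i => (swap 0 1 * swap 2 3) ^ i.val
    | .sr i => swap 0 2 * swap 1 3 * (swap 0 1 * swap 2 3) ^ i.val) (by decide +kernel)

theorem four (K : Subgroup (Perm (Fin 4))) (hK : ∀ g ∈ alternatingGroup (Fin 4), ∀ x ∈ K,
    g * x * g⁻¹ ∈ K) (hZ : IsZGroup K) : K = ⊥ := by
  by_contra h
  obtain ⟨⟨x, hx⟩, hx1⟩ := Subgroup.ne_bot_iff_exists_ne_one.mp h
  have h1 : ∀ x : Perm (Fin 4), x ≠ 1 → ∀ y, iota y = 1 ∨ ∃ g : Perm (Fin 4),
      iota y = g * g * x * (g * g)⁻¹ ∨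
        ∃ h : Perm (Fin 4), iota y = g * g * x * (g * g)⁻¹ * (h * h * x * (h * h)⁻¹)⁻¹ := by
    decide +kernel
  have h2 : ∀ g : Perm (Fin 4), g * g * x * (g * g)⁻¹ ∈ K := fun g => hK _ (by simp) x hx
  refine klein (IsZGroup.of_injective (f := iota.codRestrict K fun y => ?_)
    ((MonoidHom.injective_codRestrict _ _ _).mpr (by decide +kernel)))
  rcases h1 x (fun e => hx1 (Subtype.ext e)) y with e | ⟨g, e | ⟨h, e⟩⟩ <;> rw [e]
  exacts [K.one_mem, h2 g, K.mul_mem (h2 g) (K.inv_mem (h2 h))]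

theorem five (K : Subgroup (Perm (Fin 5))) (hK : ∀ g ∈ alternatingGroup (Fin 5), ∀ x ∈ K,
    g * x * g⁻¹ ∈ K) (hZ : IsZGroup K) : K = ⊥ := by
  have h1 : (K.subgroupOf (alternatingGroup (Fin 5))).Normal := ⟨fun x hx g => hK g g.2 x hx⟩
  rcases h1.eq_bot_or_eq_top with h2 | h2
  · refine eq_bot_iff.mpr fun x hx => ?_
    apply Sym.conjNormal_alternating_injective (by simp)
    ext1 g
    have : (⟨x * g * x⁻¹ * g⁻¹, mul_mem (Subgroup.Normal.conj_mem inferInstance _ g.2 x)
        (inv_mem g.2)⟩ : alternatingGroup (Fin 5)) ∈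
        K.subgroupOf (alternatingGroup (Fin 5)) := by
      have := K.mul_mem hx (hK g g.2 _ (K.inv_mem hx))
      simpa [Subgroup.mem_subgroupOf, mul_assoc] using this
    rw [h2, Subgroup.mem_bot, Subtype.ext_iff] at this
    exact Subtype.ext (by simpa using mul_inv_eq_one.mp this)
  · have := IsZGroup.of_injective
      (Subgroup.inclusion_injective (Subgroup.subgroupOf_eq_top.mp h2))
    exact absurd (IsSimpleGroup.comm_iff_isSolvable.mpr inferInstance)
      (fun h : ∀ a b : alternatingGroup (Fin 5), a * b = b * a => absurd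
        (congrArg Subtype.val (h ⟨swap 0 1 * swap 0 2, by simp⟩ ⟨swap 0 1 * swap 0 3, by simp⟩))
        (by decide))

theorem le_ker {n : ℕ} (h : ∀ (K : Subgroup (Perm (Fin n))), (∀ g ∈ alternatingGroup (Fin n),
    ∀ x ∈ K, g * x * g⁻¹ ∈ K) → IsZGroup K → K = ⊥) {G : Type*} [Group G] [Finite G]
    {φ : G →* Perm (Fin n)} (hφ : alternatingGroup _ ≤ φ.range) (N : Subgroup G) [hN : N.Normal]
    [IsZGroup N] : N ≤ φ.ker := by
  refine (Subgroup.map_eq_bot_iff N).mp (h _ ?_ (IsZGroup.of_surjective (φ.subgroupMap_surjective N)))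
  rintro g hg _ ⟨x, hx, rfl⟩
  obtain ⟨g, rfl⟩ := hφ hg
  exact ⟨_, hN.conj_mem x hx g, by simp⟩

theorem alt_iff {n : ℕ} {G : Type*} [Group G] {N : Subgroup G} :
    (∃ φ : G →* Perm (Fin n), alternatingGroup _ ≤ φ.range ∧ φ.ker = N) ↔
      (∃ f : G →* alternatingGroup (Fin n), Function.Surjective f ∧ f.ker = N) ∨
      (∃ f : G →* Perm (Fin n), Function.Surjective f ∧ f.ker = N) := by
  constructor
  · rintro ⟨φ, h, rfl⟩
    rcases Sym.eq_alternatingGroup_or_eq_top_of_le h with e | e
    · exact Or.inl ⟨φ.codRestrict _ fun x => e ▸ ⟨x, rfl⟩, fun ⟨y, hy⟩ => by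
        obtain ⟨x, rfl⟩ := h hy; exact ⟨x, rfl⟩, MonoidHom.ker_codRestrict _ _ _⟩
    · exact Or.inr ⟨φ, MonoidHom.range_eq_top.mp e, rfl⟩
  · rintro (⟨f, h, rfl⟩ | ⟨f, h, rfl⟩)
    · exact ⟨(Subgroup.subtype _).comp f, fun y hy => by
        obtain ⟨x, e⟩ := h ⟨y, hy⟩; exact ⟨x, congrArg Subtype.val e⟩,
        MonoidHom.ker_comp_of_injective _ _ (Subgroup.subtype_injective _)⟩
    · exact ⟨f, MonoidHom.range_eq_top.mpr h ▸ le_top, rfl⟩

open scoped IsMulCommutative in
theorem index_le {G : Type*} [Group G] (h : GT.Frob.HasFpfAction G)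
    (f f' : G →* DihedralGroup 2) : (f.ker ⊓ f'.ker).index ≤ 4 := by
  classical
  have := h.finite
  rw [← MonoidHom.ker_prod, Subgroup.index_ker]
  have h1 : ∀ x : DihedralGroup 2 × DihedralGroup 2, x ^ 2 = 1 := by decide
  have h2 : ∀ x y : DihedralGroup 2 × DihedralGroup 2, x * y = y * x := by decide
  have : IsMulCommutative (f.prod f').range := ⟨⟨fun x y => Subtype.ext (h2 _ _)⟩⟩
  have h3 := card_dvd_exponent_pow_rank' (f.prod f').range (n := 2) fun x => Subtype.ext (h1 _)
  refine (Nat.le_of_dvd (by positivity) h3).trans (Nat.pow_le_pow_right two_pos (j := 2) ?_)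
  have h4 : IsPGroup 2 (f.prod f').range := fun x => ⟨1, Subtype.ext (h1 _)⟩
  obtain ⟨P⟩ : Nonempty (Sylow 2 G) := inferInstance
  have h5 := (P.mapSurjective (f.prod f').rangeRestrict_surjective).3 (h4.to_subgroup ⊤) le_top
  refine (Group.rank_le_of_surjective ((f.prod f').rangeRestrict.comp P.1.subtype) ?_).trans ?_
  · rw [← MonoidHom.range_eq_top, MonoidHom.range_comp, Subgroup.range_subtype]
    exact h5.symm
  rcases (h.subgroup P).isCyclic_or_quaternion P.2 with h6 | ⟨-, n, ⟨e⟩⟩
  · obtain ⟨a, ha⟩ := isCyclic_iff_exists_zpowers_eq_top.mp h6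
    exact (Group.rank_le (S := {a}) (by simpa [Subgroup.zpowers_eq_closure] using ha)).trans
      (by simp)
  · obtain ⟨a, b, -, h6, h7, -⟩ := GT.PG.exists_generators_of_quaternion e
    refine (Group.rank_le (S := {a, b}) ?_).trans Finset.card_le_two
    have h8 : Subgroup.zpowers a ≤ Subgroup.closure (({a, b} : Finset P) : Set P) :=
      Subgroup.zpowers_le.mpr (Subgroup.subset_closure (by simp))
    rw [← Subgroup.index_eq_one]
    have h11 := Subgroup.index_dvd_of_le h8
    rw [h6] at h11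
    refine ((Nat.dvd_prime Nat.prime_two).mp h11).resolve_right fun h9 => h7 ?_
    have h10 := Subgroup.relIndex_mul_index h8
    rw [h6, h9] at h10
    exact Subgroup.relIndex_eq_one.mp (Nat.eq_of_mul_eq_mul_right two_pos h10)
      (Subgroup.subset_closure (by simp))


/-- Let G be a finite group that occurs as a Frobenius complement. Then G has exactly one normal subgroup N such that every Sylow subgroup of N is cyclic and the quotient of G by N is trivial or isomorphic to one of the following five groups: the Klein four-group, the alternating group of degree 4, the symmetric group of degree 4, the alternating group of degree 5, the symmetric group of degree 5. (The quotient is described by a surjective homomorphism with kernel N; the Klein four-group is written as the dihedral group of order 4.) -/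
theorem result {G : Type*} [Group G] [Finite G]
    (hFC : (∃ (L : Type) (_ : Group L) (_ : Finite L) (H : Subgroup L), Cfsg.IsFrobeniusComplement H ∧ Nonempty (G ≃* H))) :
    ∃! N : Subgroup G, N.Normal ∧ (∀ (p : ℕ) [Fact p.Prime] (P : Sylow p N), IsCyclic P) ∧
      (N = ⊤ ∨
        (∃ f : G →* DihedralGroup 2, Function.Surjective f ∧ f.ker = N) ∨
        (∃ f : G →* alternatingGroup (Fin 4), Function.Surjective f ∧ f.ker = N) ∨
        (∃ f : G →* Equiv.Perm (Fin 4), Function.Surjective f ∧ f.ker = N) ∨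
        (∃ f : G →* alternatingGroup (Fin 5), Function.Surjective f ∧ f.ker = N) ∨
        (∃ f : G →* Equiv.Perm (Fin 5), Function.Surjective f ∧ f.ker = N)) := by
  have h := (GT.Frob.hasFpfAction_of_exists hFC).1
  have hZ : ∀ {N : Subgroup G}, (∀ (p : ℕ) [Fact p.Prime] (P : Sylow p N), IsCyclic P) ↔
      IsZGroup N := ⟨fun h => ⟨fun p hp P => have := Fact.mk hp; h p P⟩,
        fun _ _ _ _ => inferInstance⟩
  have ha : ∀ {a b c d : Prop}, a ∨ b ∨ c ∨ d ↔ (a ∨ b) ∨ c ∨ d := or_assoc.symm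
  conv => enter [1, N, 2, 2, 2, 2]; rw [ha, ← alt_iff, ← alt_iff]
  simp only [hZ]
  refine existsUnique_of_exists_of_unique ?_ ?_
  · by_cases hs : Group.IsSolvable G
    · rcases h.solvable_cases with h1 | ⟨f, h1, h2⟩ | ⟨f, h1, h2⟩
      · exact ⟨⊤, inferInstance, inferInstance, Or.inl rfl⟩
      · exact ⟨_, inferInstance, h2, Or.inr (Or.inl ⟨f, h1, rfl⟩)⟩
      · exact ⟨_, inferInstance, h2, Or.inr (Or.inr (Or.inl ⟨f, h1, rfl⟩))⟩
    · obtain ⟨S, -, φ, -, h1, -, h2, -⟩ := h.nonsolvable hs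
      exact ⟨_, inferInstance, h2, Or.inr (Or.inr (Or.inr ⟨φ, h1 ▸ S.map_le_range φ, rfl⟩))⟩
  have key : ∀ N N' : Subgroup G, N.Normal → IsZGroup N →
      ((∃ φ : G →* Equiv.Perm (Fin 4), alternatingGroup _ ≤ φ.range ∧ φ.ker = N') ∨
      (∃ φ : G →* Equiv.Perm (Fin 5), alternatingGroup _ ≤ φ.range ∧ φ.ker = N')) →
      N ≤ N' ∧ 12 ≤ N'.index := by
    rintro N _ _ _ (⟨φ, hφ, rfl⟩ | ⟨φ, hφ, rfl⟩)
    · refine ⟨le_ker four hφ N, ?_⟩
      rw [Subgroup.index_ker]
      refine le_trans ?_ (Subgroup.card_le_of_le hφ)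
      rw [nat_card_alternatingGroup]; simp [Nat.factorial]
    · refine ⟨le_ker five hφ N, ?_⟩
      rw [Subgroup.index_ker]
      refine le_trans ?_ (Subgroup.card_le_of_le hφ)
      rw [nat_card_alternatingGroup]; simp [Nat.factorial]
  have key2 : ∀ f : G →* DihedralGroup 2, Function.Surjective f → f.ker.index = 4 := fun f hf => by
    rw [Subgroup.index_ker, MonoidHom.range_eq_top.mpr hf, Subgroup.card_top,
      DihedralGroup.nat_card]
  have key3 : ∀ f : G →* DihedralGroup 2, Function.Surjective f → ¬ IsZGroup (⊤ : Subgroup G) :=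
    fun f hf _ => klein (IsZGroup.of_surjective (f := f.comp (⊤ : Subgroup G).subtype)
      (hf.comp Subgroup.topEquiv.surjective))
  have key4 : ∀ {N N' : Subgroup G}, N ≤ N' → N'.index ≤ N.index := fun h =>
    Nat.le_of_dvd (Nat.pos_of_ne_zero Subgroup.index_ne_zero_of_finite)
      (Subgroup.index_dvd_of_le h)
  rintro N N' ⟨h1, h2, rfl | ⟨f, hf, rfl⟩ | h3⟩ ⟨h1', h2', rfl | ⟨f', hf', rfl⟩ | h3'⟩
  · rfl
  · exact absurd h2 (key3 f' hf')
  · exact (top_le_iff.mp (key _ _ h1 h2 h3').1).symm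
  · exact absurd h2' (key3 f hf)
  · have h4 := index_le h f f'
    have h5 : ∀ g : G →* DihedralGroup 2, Function.Surjective g → f.ker ⊓ f'.ker ≤ g.ker →
        f.ker ⊓ f'.ker = g.ker := fun g hg hle => by
      have h6 := Subgroup.relIndex_mul_index hle
      have h7 : (f.ker ⊓ f'.ker).index ≠ 0 := Subgroup.index_ne_zero_of_finite
      rw [key2 g hg] at h6
      exact le_antisymm hle (Subgroup.relIndex_eq_one.mp (by omega))
    exact (h5 f hf inf_le_left).symm.trans (h5 f' hf' inf_le_right)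
  · obtain ⟨h4, h5⟩ := key _ _ h1 h2 h3'
    have := key4 h4
    rw [key2 f hf] at this
    omega
  · exact top_le_iff.mp (key _ _ h1' h2' h3).1
  · obtain ⟨h4, h5⟩ := key _ _ h1' h2' h3
    have := key4 h4
    rw [key2 f' hf'] at this
    omega
  · exact le_antisymm (key _ _ h1 h2 h3').1 (key _ _ h1' h2' h3).1
end Cfsg.Agent.S4291
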