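import Mathlib
import Cfsg.Statements.S3074
import Cfsg.Agent.GT.PiGroups
import Cfsg.Agent.GT.PGroupFrattini
import Cfsg.Agent.Cl.LinearBasic

set_option autoImplicit false
open Cfsg

namespace Cfsg.Agent.S3074

open Cfsg.Agent.GT

/-- A nonabelian group of order `p ^ 3` is extraspecial. -/
theorem isExtraspecial_of_card_cube {P : Type*} [Group P] {p : ℕ} [hp : Fact p.Prime]
    (hc : Nat.card P = p ^ 3) (hna : ¬ IsMulCommutative P) : IsExtraspecial p P := by
  have hp1 := hp.out.one_lt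
  have : Finite P := Nat.finite_of_card_ne_zero (by rw [hc]; positivity)
  have hP : IsPGroup p P := IsPGroup.of_card hc
  have hnt : Nontrivial P := by
    rw [← Finite.one_lt_card_iff_nontrivial, hc]; exact Nat.one_lt_pow (by norm_num) hp1
  have hmul := (Subgroup.center P).card_mul_index
  obtain ⟨k, hk⟩ := IsPGroup.iff_card.mp (hP.to_subgroup (Subgroup.center P))
  obtain ⟨j, hj⟩ := hP.index (Subgroup.center P)
  have hkj : k + j = 3 := by
    rw [hk, hj, hc, ← pow_add] at hmul
    exact Nat.pow_right_injective hp1 hmul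
  have hk0 : k ≠ 0 := by
    rintro rfl
    have := hP.center_nontrivial
    rw [← Finite.one_lt_card_iff_nontrivial, hk] at this
    simp at this
  have hj2 : 2 ≤ j := by
    by_contra h
    apply hna
    have : IsCyclic (P ⧸ Subgroup.center P) := by
      refine isCyclic_of_card_dvd_prime (p := p) ?_
      rw [← Subgroup.index_eq_card, hj]
      exact (pow_dvd_pow p (by omega : j ≤ 1)).trans (by simp)
    exact isMulCommutative_of_isCyclic_quotient_center_self P
  obtain rfl : k = 1 := by omega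
  obtain rfl : j = 2 := by omega
  rw [pow_one] at hk
  have hq : IsMulCommutative (P ⧸ Subgroup.center P) :=
    IsPGroup.isMulCommutative_of_card_eq_prime_sq (p := p) (by rw [← Subgroup.index_eq_card, hj])
  have hcz : commutator P ≤ Subgroup.center P :=
    Subgroup.Normal.quotient_commutative_iff_commutator_le.mp hq
  have hcz' : commutator P = Subgroup.center P := by
    have hrel : (⊥ : Subgroup P).relIndex (Subgroup.center P) = p := by simpa using hk
    rcases PG.eq_or_eq_of_relIndex_prime hp.out bot_le hcz hrel with h | h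
    · exact absurd ((commutator_eq_bot_iff P).mp h) hna
    · exact h
  refine ⟨⟨hP, ?_, hcz'⟩, hk⟩
  symm
  refine PG.eq_of_le_of_card_le (hcz' ▸ PG.commutator_le_frattini hP) ?_
  obtain ⟨m, hm⟩ := PG.sq_dvd_index_frattini_of_not_isCyclic hP
    (fun h => hna inferInstance)
  have h2 := (frattini P).card_mul_index
  rw [hm, hc] at h2
  rw [hk]
  refine Nat.le_of_dvd hp.out.pos ⟨m, ?_⟩
  have : p ^ 2 * p = p ^ 2 * (Nat.card (frattini P) * m) := by rw [← pow_succ, ← h2]; ring
  exact Nat.eq_of_mul_eq_mul_left (by positivity) this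

/-- unitriangular matrices -/
def u {R : Type*} [CommRing R] (a b c : R) : Matrix.SpecialLinearGroup (Fin 3) R :=
  ⟨!![1, a, c; 0, 1, b; 0, 0, 1], by simp [Matrix.det_fin_three]⟩

theorem u_mul {R : Type*} [CommRing R] (a b c a' b' c' : R) :
    u a b c * u a' b' c' = u (a + a') (b + b') (c + c' + a * b') := by
  apply Subtype.ext
  show (!![1, a, c; 0, 1, b; 0, 0, 1] : Matrix (Fin 3) (Fin 3) R) * !![1, a', c'; 0, 1, b'; 0, 0, 1] =
    !![1, a + a', c + c' + a * b'; 0, 1, b + b'; 0, 0, 1]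
  ext i j
  fin_cases i <;> fin_cases j <;> simp [Matrix.mul_apply, Fin.sum_univ_three] <;> ring

theorem u_zero {R : Type*} [CommRing R] : u (0 : R) 0 0 = 1 := by
  ext i j
  fin_cases i <;> fin_cases j <;> simp [u]

theorem u_inj {R : Type*} [CommRing R] {a b c a' b' c' : R} (h : u a b c = u a' b' c') :
    a = a' ∧ b = b' ∧ c = c' := by
  have h1 := congrArg (fun M : Matrix.SpecialLinearGroup (Fin 3) R => M.1 0 1) h
  have h2 := congrArg (fun M : Matrix.SpecialLinearGroup (Fin 3) R => M.1 1 2) h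
  have h3 := congrArg (fun M : Matrix.SpecialLinearGroup (Fin 3) R => M.1 0 2) h
  simp [u] at h1 h2 h3
  exact ⟨h1, h2, h3⟩

theorem u_pow {R : Type*} [CommRing R] (a b c : R) (n : ℕ) :
    u a b c ^ n = u (n * a) (n * b) (n * c + (n.choose 2 : ℕ) * (a * b)) := by
  induction n with
  | zero => simp [u_zero]
  | succ n ih =>
    rw [pow_succ, ih, u_mul, Nat.choose_succ_succ' n 1]
    congr 1
    · push_cast; ring
    · push_cast; ring
    · rw [Nat.choose_one_right]; push_cast; ring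

/-- the unitriangular group -/
def U (R : Type*) [CommRing R] : Subgroup (Matrix.SpecialLinearGroup (Fin 3) R) where
  carrier := Set.range fun x : R × R × R => u x.1 x.2.1 x.2.2
  one_mem' := ⟨(0, 0, 0), u_zero⟩
  mul_mem' := by
    rintro _ _ ⟨⟨a, b, c⟩, rfl⟩ ⟨⟨a', b', c'⟩, rfl⟩
    exact ⟨(a + a', b + b', c + c' + a * b'), (u_mul ..).symm⟩
  inv_mem' := by
    rintro _ ⟨⟨a, b, c⟩, rfl⟩
    refine ⟨(-a, -b, a * b - c), ?_⟩
    symm
    rw [inv_eq_iff_mul_eq_one, u_mul, ← u_zero]
    congr 1 <;> ring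

theorem card_U (R : Type*) [CommRing R] : Nat.card (U R) = Nat.card R ^ 3 := by
  have : Nat.card (U R) = Nat.card (R × R × R) := by
    refine Nat.card_range_of_injective (f := fun x : R × R × R => u x.1 x.2.1 x.2.2) ?_
    rintro ⟨a, b, c⟩ ⟨a', b', c'⟩ h
    obtain ⟨rfl, rfl, rfl⟩ := u_inj h
    rfl
  rw [this, Nat.card_prod, Nat.card_prod]; ring


/-- Let p be an odd prime. A Sylow p-subgroup of Qd(p), the split extension of an elementary abelian group of order p² by SL₂(p) acting naturally, is extraspecial of order p³ and exponent p. -/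
theorem result (p : ℕ) [Fact p.Prime] (hp : p ≠ 2) (P : Sylow p ↥(Cfsg.qd p)) :
    Cfsg.IsExtraspecial p ↥P ∧ Nat.card P = p ^ 3 ∧ Monoid.exponent ↥P = p := by
  have hpp : p.Prime := Fact.out
  have hUq : U (ZMod p) ≤ qd p := by
    rintro _ ⟨⟨a, b, c⟩, rfl⟩
    exact Subgroup.subset_closure ⟨by simp [u], by simp [u], by simp [u]⟩
  have hcU : Nat.card ((U (ZMod p)).subgroupOf (qd p)) = p ^ 3 := by
    rw [card_subgroupOf_of_le hUq, card_U, Nat.card_zmod]
  obtain ⟨Q, hQ⟩ := (IsPGroup.of_card hcU).exists_le_sylow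
  have hQc : Nat.card Q ≤ p ^ 3 := by
    obtain ⟨k, hk⟩ := IsPGroup.iff_card.mp Q.isPGroup'
    have h1 : p ^ k ∣ p ^ 3 * ((p ^ 2 - 1) * (p ^ 3 - 1)) := by
      have := Cl.card_sl_three (F := ZMod p)
      rw [Nat.card_zmod, mul_assoc] at this
      rw [← hk, ← this]
      exact (Subgroup.card_subgroup_dvd_card _).trans (Subgroup.card_subgroup_dvd_card _)
    have h2 : ∀ n, n ≠ 0 → p.Coprime (p ^ n - 1) := fun n hn => by
      have h3 : 1 ≤ p ^ n := Nat.one_le_pow _ _ hpp.pos
      rw [Nat.Prime.coprime_iff_not_dvd hpp]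
      intro hd
      have h4 := (Nat.dvd_sub_iff_right h3 (dvd_pow_self p hn)).mp hd
      exact hpp.one_lt.ne' (Nat.dvd_one.mp h4)
    have h3 : (p ^ k).Coprime ((p ^ 2 - 1) * (p ^ 3 - 1)) :=
      Nat.Coprime.pow_left _ (Nat.Coprime.mul_right (h2 2 (by norm_num)) (h2 3 (by norm_num)))
    rw [hk]
    exact Nat.le_of_dvd (by have := hpp.pos; positivity) (h3.dvd_of_dvd_mul_right h1)
  have hQU : (U (ZMod p)).subgroupOf (qd p) = Q := PG.eq_of_le_of_card_le hQ (hcU ▸ hQc)
  let e : P ≃* Q := P.equiv Q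
  have hcP : Nat.card P = p ^ 3 := by
    rw [Nat.card_congr e.toEquiv, ← hcU, hQU]
  have hmem : ∀ a b c : ZMod p, ∃ x : Q, ((x : qd p) : Matrix.SpecialLinearGroup (Fin 3) (ZMod p))
      = u a b c := fun a b c =>
    ⟨⟨⟨u a b c, hUq ⟨(a, b, c), rfl⟩⟩, hQ ⟨(a, b, c), rfl⟩⟩, rfl⟩
  have hna : ¬ IsMulCommutative P := by
    intro h
    obtain ⟨x, hx⟩ := hmem 1 0 0
    obtain ⟨y, hy⟩ := hmem 0 1 0
    have h1 : x * y = y * x := by
      have := congrArg e (h.is_comm.comm (e.symm x) (e.symm y))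
      simpa using this
    have h2 := congrArg (fun z : Q => ((z : qd p) : Matrix.SpecialLinearGroup (Fin 3) (ZMod p))) h1
    change ((x : qd p) : Matrix.SpecialLinearGroup (Fin 3) (ZMod p)) * (y : qd p) =
      ((y : qd p) : Matrix.SpecialLinearGroup (Fin 3) (ZMod p)) * (x : qd p) at h2
    rw [hx, hy, u_mul, u_mul] at h2
    simpa using (u_inj h2).2.2
  refine ⟨isExtraspecial_of_card_cube hcP hna, hcP, ?_⟩
  have hnt : Nontrivial P := by
    rw [← Finite.one_lt_card_iff_nontrivial, hcP]; exact Nat.one_lt_pow (by norm_num) hpp.one_lt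
  rw [Monoid.exponent_eq_prime_iff hpp]
  intro g hg
  refine orderOf_eq_prime ?_ hg
  apply e.injective
  rw [map_pow, map_one]
  have h1 : (e g : qd p) ∈ (U (ZMod p)).subgroupOf (qd p) := by
    rw [hQU]; exact (e g).2
  obtain ⟨⟨a, b, c⟩, h2⟩ := h1
  ext1; ext1
  have h3 : ((p.choose 2 : ℕ) : ZMod p) = 0 :=
    (ZMod.natCast_eq_zero_iff _ _).mpr (hpp.dvd_choose_self (by norm_num)
      (lt_of_le_of_ne hpp.two_le (Ne.symm hp)))
  show (qd p).subtype (e g) ^ p = 1
  rw [← h2, u_pow, h3]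
  simp [u_zero]

end Cfsg.Agent.S3074
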