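import Mathlib
import Cfsg.Statements.S4781
import Cfsg.Agent.Deg.NdC
import Cfsg.Agent.Deg.GraphA

set_option autoImplicit false
open Cfsg

namespace Cfsg.Agent.S4781

open Cfsg.Agent.Ch Cfsg.Agent.Deg Cfsg.Agent.Deg.Gr Cfsg.Agent.Deg.Nd Subgroup

theorem of_one {G : Type*} [Group G] (a : ℕ)
    (h : ∀ v : degreePrimes G,
      ∃ ha : a ∈ degreePrimes G, ((degreeGraph G).induce (degreePrimes G)).Reachable v ⟨a, ha⟩) :
    Nat.card ((Cfsg.degreeGraph G).induce (Cfsg.degreePrimes G)).ConnectedComponent ≠ 2 := fun e => by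
  obtain ⟨c, d, hne, -⟩ := Nat.card_eq_two_iff.1 e
  induction c using SimpleGraph.ConnectedComponent.ind with | _ u
  induction d using SimpleGraph.ConnectedComponent.ind with | _ v
  obtain ⟨_, h1⟩ := h u
  obtain ⟨_, h2⟩ := h v
  exact hne (SimpleGraph.ConnectedComponent.eq.2 (h1.trans h2.symm))

theorem nd_of {G : Type*} [Group G] [Finite G]
    (hnd : ∀ a ∈ Cfsg.charDegrees G, ∀ b ∈ Cfsg.charDegrees G, 1 < a → a < b → ¬ a ∣ b) : ND G :=
  fun χ ψ hχ hψ h1 h2 => by_contra fun h3 => hnd _ (mem_charDegrees.2 ⟨χ, hχ, rfl⟩) _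
    (mem_charDegrees.2 ⟨ψ, hψ, rfl⟩) (by have := hχ.charDegree_pos; omega)
    (lt_of_le_of_ne (Nat.le_of_dvd hψ.charDegree_pos h2) h3) h2

theorem exists_elt {G : Type*} [Group G] [Finite G] {N : Subgroup G} {r : ℕ} (hr : r.Prime)
    [N.Normal] (h : r ∣ N.index) : ∃ g ∉ N, ∃ k, g ^ r ^ k = 1 := by
  have := Fact.mk hr
  obtain ⟨P⟩ : Nonempty (Sylow r G) := inferInstance
  by_contra! H
  refine P.not_dvd_index (h.trans (index_dvd_of_le fun g hg => by_contra fun hg' => ?_))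
  obtain ⟨k, hk⟩ := P.isPGroup' ⟨g, hg⟩
  exact H g hg' k (congrArg Subtype.val hk)

/-- Let G be a finite solvable group in which no irreducible complex character degree a with 1 < a divides a larger irreducible character degree, and suppose the character degree graph of G (primes dividing some degree, distinct primes adjacent when their product divides a degree) has exactly two connected components. Then G has exactly three distinct irreducible character degrees. -/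
theorem result {G : Type*} [Group G] [Finite G] [Group.IsSolvable G] (hnd : ∀ a ∈ Cfsg.charDegrees G, ∀ b ∈ Cfsg.charDegrees G, 1 < a → a < b → ¬ a ∣ b) (htwo : Nat.card ((Cfsg.degreeGraph G).induce (Cfsg.degreePrimes G)).ConnectedComponent = 2) : Nat.card ↥(Cfsg.charDegrees G) = 3 := by
  have hd := nd_of hnd
  by_cases h1 : commutator G ≤ ⁅commutator G, ⊤⁆
  swap
  · obtain ⟨θ, hθ, h4, -, h5⟩ := deg12_exists_vanish h1
    obtain ⟨a, ha, haθ⟩ := Nat.exists_prime_and_dvd h4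
    refine absurd htwo (of_one a ?_)
    rintro ⟨p, hp⟩
    obtain ⟨hpp, d, hd, hpd⟩ := id hp
    obtain ⟨χ, hχ, rfl⟩ := Deg.mem_charDegrees.1 hd
    by_cases hc : (charDegree θ).Coprime (charDegree χ)
    · have := hθ.isCharacter.charCenter_normal
      have h6 := res_irr_dgr (charCenter θ) hχ (by
        rw [← Deg.sq_charDegree_eq_index hθ _ le_rfl h5]
        exact hc.pow_left 2)
      have h7 := deg12_mul_irr_of_vanish hθ le_rfl h5 hχ.isCharacter h6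
      refine reach_of_dvd hp ha (Deg.mem_charDegrees.2 ⟨_, h7, rfl⟩) ?_ ?_
      · rw [hθ.isCharacter.charDegree_mul hχ.isCharacter]
        exact hpd.mul_left _
      · rw [hθ.isCharacter.charDegree_mul hχ.isCharacter]
        exact haθ.mul_right _
    · obtain ⟨s, hs, hs1, hs2⟩ := Nat.Prime.not_coprime_iff_dvd.1 hc
      obtain ⟨hs', h6⟩ := reach_of_dvd hp hs hd hpd hs2
      obtain ⟨ha', h7⟩ := reach_of_dvd hs' ha (Deg.mem_charDegrees.2 ⟨θ, hθ, rfl⟩) hs1 haθ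
      exact ⟨ha', h6.trans h7⟩
  by_cases h2 : commutator G ≤ ⁅commutator G, commutator G⁆
  · have h3 : commutator G = ⊥ := by
      by_contra h3
      exact (Group.IsSolvable.commutator_lt_of_ne_bot h3).not_ge h2
    refine absurd htwo (of_one 0 ?_)
    rintro ⟨p, hp, d, hd, hpd⟩
    obtain ⟨χ, hχ, rfl⟩ := Deg.mem_charDegrees.1 hd
    rw [(Deg.charDegree_eq_one_iff_commutator_le hχ).2 (h3 ▸ bot_le)] at hpd
    exact absurd (Nat.dvd_one.1 hpd) hp.ne_one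
  obtain ⟨N, K, hN, hK, -, hF⟩ := deg12_exists_frobSec h1 h2
  have := Fintype.ofFinite N
  have := Fintype.ofFinite G
  have hf1 : N.index ≠ 1 := mt Subgroup.index_eq_one.1 hF.ne_top
  have hk1 : K.relIndex N ≠ 1 := fun h => hF.lt.not_ge (Subgroup.relIndex_eq_one.1 h)
  obtain ⟨r, hr, hrN⟩ := Nat.exists_prime_and_dvd hf1
  obtain ⟨p, hp, hpK⟩ := Nat.exists_prime_and_dvd hk1
  obtain ⟨ξ, hξ, hξ1⟩ := hF.exists_charDegree_eq
  have hξ2 := mem_charDegrees.2 ⟨ξ, hξ, hξ1⟩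
  have a1 : ∀ ψ, IsIrrCharacter N ψ → charDegree ψ ≠ 1 → p ∣ charDegree ψ := fun ψ hψ h3 => by
    rcases hF.exists_or_dvd hψ with ⟨χ, hχ, h4⟩ | h4
    · have h5 := hd ξ χ hξ hχ (hξ1 ▸ hf1) (by rw [hξ1, h4]; exact Dvd.intro _ rfl)
      rw [hξ1, h4] at h5
      exact absurd ((Nat.mul_eq_left index_ne_zero_of_finite).1 h5.symm) h3
    · exact hp.dvd_of_dvd_pow (hpK.trans h4)
  have a2 : ∀ χ, IsIrrCharacter G χ → charDegree χ ≠ 1 → charDegree χ = N.index ∨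
      ∃ ψ, IsIrrCharacter N ψ ∧ charDegree ψ ≠ 1 ∧ classInner (fun n : N => χ n) ψ ≠ 0 := fun χ hχ h3 => by
    obtain ⟨ψ, hψ, hne⟩ := exists_irr_under N hχ
    by_cases h4 : charDegree ψ = 1
    · obtain ⟨e, he, h5⟩ := exists_deg_eq hχ hψ hne
      rw [h4, mul_one] at h5
      exact Or.inl (hξ1 ▸ hd χ ξ hχ hξ h3 (by rw [h5, hξ1]; exact he))
    · exact Or.inr ⟨ψ, hψ, h4, hne⟩
  have a3 : ∀ ψ, IsIrrCharacter N ψ → charDegree ψ ≠ 1 → ∀ χ, IsIrrCharacter G χ →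
      classInner (fun n : N => χ n) ψ ≠ 0 → N.index.Coprime (charDegree χ) := fun ψ hψ h3 χ hχ hne => by
    by_contra hc
    obtain ⟨s, hs, hs1, hs2⟩ := Nat.Prime.not_coprime_iff_dvd.1 hc
    refine of_one s ?_ htwo
    rintro ⟨q, hq⟩
    obtain ⟨hqq, d, hd', hqd⟩ := id hq
    obtain ⟨η, hη, rfl⟩ := Deg.mem_charDegrees.1 hd'
    rcases a2 η hη (fun e => hqq.ne_one (Nat.dvd_one.1 (e ▸ hqd))) with h4 | ⟨φ, hφ, h4, h5⟩
    · exact reach_of_dvd hq hs hξ2 (h4 ▸ hqd) hs1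
    · obtain ⟨hp', h6⟩ := reach_of_dvd hq hp hd' hqd ((a1 φ hφ h4).trans (charDegree_dvd_of_under hη hφ h5))
      obtain ⟨hs', h7⟩ := reach_of_dvd hp' hs (mem_charDegrees.2 ⟨χ, hχ, rfl⟩)
        ((a1 ψ hψ h3).trans (charDegree_dvd_of_under hχ hψ hne)) hs2
      exact ⟨hs', h6.trans h7⟩
  have a4 : ∀ ψ, IsIrrCharacter N ψ → charDegree ψ ≠ 1 → ∀ χ, IsIrrCharacter G χ →
      classInner (fun n : N => χ n) ψ ≠ 0 → (fun n : N => χ n) = ψ := fun ψ hψ h3 χ hχ hne =>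
    (res_irr_dgr N hχ (a3 ψ hψ h3 χ hχ hne)).eq_of_classInner_ne_zero hψ hne
  have a5 : ∀ ψ, IsIrrCharacter N ψ → charDegree ψ ≠ 1 → ∃ χ, IsIrrCharacter G χ ∧
      (fun n : N => χ n) = ψ ∧ charDegree χ = charDegree ψ ∧ N.index.Coprime (charDegree ψ) := fun ψ hψ h3 => by
    obtain ⟨χ, hχ, hne⟩ := exists_irr_over N hψ
    have h4 := a4 ψ hψ h3 χ hχ hne
    have h5 : charDegree χ = charDegree ψ := charDegree_congr (congrFun h4 1)
    exact ⟨χ, hχ, h4, h5, h5 ▸ a3 ψ hψ h3 χ hχ hne⟩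
  obtain ⟨ψ₀, h0, h0'⟩ : ∃ ψ, IsIrrCharacter N ψ ∧ charDegree ψ ≠ 1 := by
    by_contra! H
    refine of_one r ?_ htwo
    rintro ⟨q, hq⟩
    obtain ⟨hqq, d, hd', hqd⟩ := id hq
    obtain ⟨η, hη, rfl⟩ := Deg.mem_charDegrees.1 hd'
    rcases a2 η hη (fun e => hqq.ne_one (Nat.dvd_one.1 (e ▸ hqd))) with h4 | ⟨φ, hφ, h4, -⟩
    · exact reach_of_dvd hq hr hξ2 (h4 ▸ hqd) hrN
    · exact absurd (H φ hφ) h4
  obtain ⟨g, hg, k, hk⟩ := exists_elt hr hrN
  have hy : Hy (MulAut.conjNormal g : MulAut N) r :=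
    { nd := fun φ ψ hφ hψ h3 h4 => by
        have h5 : charDegree ψ ≠ 1 := fun e => h3 (Nat.dvd_one.1 (e ▸ h4))
        obtain ⟨χ, hχ, -, e1, -⟩ := a5 φ hφ h3
        obtain ⟨η, hη, -, e2, -⟩ := a5 ψ hψ h5
        rw [← e1, ← e2]
        exact hd χ η hχ hη (e1 ▸ h3) (e1 ▸ e2 ▸ h4)
      prime := hr
      pow := ⟨k, by rw [← map_pow, hk, map_one]⟩
      inv := fun ψ hψ h3 x => by
        obtain ⟨χ, hχ, rfl, -⟩ := a5 ψ hψ h3
        exact hχ.isClassFunction x g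
      cop := fun ψ hψ h3 e => by
        obtain ⟨χ, -, -, -, h4⟩ := a5 ψ hψ h3
        exact hr.ne_one (Nat.eq_one_of_dvd_coprimes h4 hrN e)
      ne := fun e => h0' ((charDegree_eq_one_iff_commutator_le h0).2 (e ▸ bot_le)) }
  obtain ⟨a, ha⟩ := hy.two fun e => by
    obtain ⟨n, hn, hn'⟩ := SetLike.exists_of_lt hF.lt
    obtain ⟨f, f1, f2⟩ := hF.exists_hom (n := ⟨n, hn⟩) hn'
    refine f2 (by
      rw [hF.eq_one hg f1 (MonoidHom.ext fun x => ?_)]
      · rfl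
      · have h3 : f _ = 1 := Abelianization.commutator_subset_ker f (mem_CC.1 (e.ge (mem_top x)))
        rw [map_mul, map_inv, mul_inv_eq_one] at h3
        exact h3)
  obtain ⟨χ₀, b1, -, b2, b3⟩ := a5 ψ₀ h0 h0'
  rw [ha ψ₀ h0 h0'] at b2 b3 h0'
  have h3 : charDegrees G = {1, N.index, a} := by
    ext d
    rw [mem_charDegrees]
    constructor
    · rintro ⟨χ, hχ, rfl⟩
      by_cases h3 : charDegree χ = 1
      · exact Or.inl h3
      · rcases a2 χ hχ h3 with h4 | ⟨ψ, hψ, h4, h5⟩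
        · exact Or.inr (Or.inl h4)
        · exact Or.inr (Or.inr ((charDegree_congr (congrFun (a4 ψ hψ h4 χ hχ h5) 1)).trans (ha ψ hψ h4)))
    · rintro (rfl | rfl | rfl)
      exacts [⟨_, IsIrrCharacter.one, charDegree_one⟩, ⟨ξ, hξ, hξ1⟩, ⟨χ₀, b1, b2⟩]
  rw [h3, Nat.card_coe_set_eq]
  exact Set.ncard_eq_three.2 ⟨_, _, _, hf1.symm, h0'.symm, fun e => hf1 (by simpa [← e] using b3), rfl⟩

end Cfsg.Agent.S4781
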