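import Mathlib
import Cfsg.Statements.S4221
import Cfsg.Agent.Perm.HallFour2
import Cfsg.Agent.S0415

set_option autoImplicit false
open Cfsg

namespace Cfsg.Agent.S4221

/-- Let `G` be a `4`-fold transitive permutation group on a finite set of `n` points in which the pointwise stabilizer of some four distinct points has odd order. Then `n = 4` or `n = 5` with `G` the full symmetric group, or `n = 6` or `n = 7` with `G` the alternating group, or `n = 11` and `G` has order `7920`. -/
theorem result {α : Type*} [Fintype α] [DecidableEq α] (G : Subgroup (Equiv.Perm α)) (hG : MulAction.IsMultiplyPretransitive G α 4) (x : Fin 4 ↪ α) (hodd : Odd (Nat.card (MulAction.stabilizer G x))) : ((Fintype.card α = 4 ∨ Fintype.card α = 5) ∧ G = ⊤) ∨ ((Fintype.card α = 6 ∨ Fintype.card α = 7) ∧ G = alternatingGroup α) ∨ (Fintype.card α = 11 ∧ Nat.card G = 7920) := by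
  classical
  have h4 : 4 ≤ Fintype.card α := by simpa using Fintype.card_le_of_embedding x
  have hx : [x 0, x 1, x 2, x 3].Nodup := by simp
  have e : MulAction.stabilizer G x = Perm.Hall4.S4 G (x 0) (x 1) (x 2) (x 3) := by
    ext g
    rw [Perm.Hall4.mem_S4, MulAction.mem_stabilizer_iff]
    constructor
    · intro e
      exact ⟨DFunLike.congr_fun e 0, DFunLike.congr_fun e 1, DFunLike.congr_fun e 2,
        DFunLike.congr_fun e 3⟩
    · rintro ⟨h0, h1, h2, h3⟩
      ext i
      fin_cases i
      exacts [h0, h1, h2, h3]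
  rw [e] at hodd
  have h : Perm.Hall4.H4 G α := ⟨hG, fun t ht a b c d hn h1 h2 h3 h4 => by
    by_contra hne
    have ho := Perm.Hall4.card_S4_eq hG hx hn ▸ hodd
    exact Inv.odd_card_iff_no_involution.mp ho t (Perm.Hall4.mem_S4.mpr ⟨h1, h2, h3, h4⟩)
      (Inv.orderOf_two_of ht hne)⟩
  have hc := Perm.Hall4.card_eq_S4 hG hx
  have hi := Subgroup.index_mul_card G
  rw [Nat.card_eq_fintype_card (α := Equiv.Perm α), Fintype.card_perm, hc] at hi
  by_cases h8 : 8 ≤ Fintype.card α
  · exact Or.inr (Or.inr (Perm.Hall4.main h h8))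
  by_cases h5 : Fintype.card α ≤ 5
  · refine Or.inl ⟨by omega, Equiv.Perm.eq_top_of_isMultiplyPretransitive ?_⟩
    exact MulAction.isMultiplyPretransitive_of_le (n := 4)
      (by rw [Nat.card_eq_fintype_card]; omega) (by rw [Nat.card_eq_fintype_card]; omega)
  refine Or.inr (Or.inl ⟨by omega, Equiv.Perm.eq_alternatingGroup_of_index_eq_two ?_⟩)
  obtain ⟨j, hj⟩ := hodd
  by_cases h6 : Fintype.card α = 6
  · rw [h6, hj, show Nat.factorial 6 = 360 * 2 by decide, show Nat.choose 6 4 * 24 = 360 by decide,
      mul_left_comm] at hi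
    have hi := Nat.eq_of_mul_eq_mul_left (by norm_num) hi
    have : 2 * j + 1 ≤ 2 := Nat.le_of_dvd (by norm_num) (Dvd.intro_left _ hi)
    have : j = 0 := by omega
    subst this
    omega
  · have h7 : Fintype.card α = 7 := by omega
    rw [h7, hj, show Nat.factorial 7 = 840 * 6 by decide, show Nat.choose 7 4 * 24 = 840 by decide,
      mul_left_comm] at hi
    have hi := Nat.eq_of_mul_eq_mul_left (by norm_num) hi
    have : 2 * j + 1 ≤ 6 := Nat.le_of_dvd (by norm_num) (Dvd.intro_left _ hi)
    have hj2 : j ≤ 2 := by omega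
    interval_cases j
    · exfalso
      have := S0415.result G h4 (fun y => by
        have hy : [y 0, y 1, y 2, y 3].Nodup := by simp
        have hb : Perm.Hall4.S4 G (y 0) (y 1) (y 2) (y 3) = ⊥ :=
          Subgroup.card_eq_one.mp ((Perm.Hall4.card_S4_eq hG hx hy).symm.trans hj)
        rw [eq_bot_iff, ← hb]
        intro g e
        exact Perm.Hall4.mem_S4.mpr ⟨DFunLike.congr_fun e 0, DFunLike.congr_fun e 1,
          DFunLike.congr_fun e 2, DFunLike.congr_fun e 3⟩)
      omega
    · omega
    · omega

end Cfsg.Agent.S4221
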