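import Mathlib
import Cfsg.Statements.S0019
import Cfsg.Agent.GT.ComplementSystem

set_option autoImplicit false
open Cfsg

namespace Cfsg.Agent.S0019

universe u

theorem normalClosure_le {G : Type*} [Group G] [Finite G] {H₁ H₂ A : Subgroup G} {p : ℕ}
    (hp : p.Prime) (hA : IsPGroup p A) (hn : H₁ ≤ Subgroup.normalizer (A : Set G))
    (h12 : ∀ g : G, ∃ x ∈ H₁, ∃ y ∈ H₂, g = x * y) (hd : ¬ p ∣ H₂.index) :
    Subgroup.normalClosure (A : Set G) ≤ H₂ := by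
  have := Fact.mk hp
  obtain ⟨Q, hQH, hQ, hQi⟩ := GT.HT.exists_sylow_le p H₂
  obtain ⟨g, -, hg⟩ := GT.HT.exists_conj_le_of_isPGroup (L := ⊤) le_top hA hQ (by
    rw [Subgroup.relIndex_top_right, ← Subgroup.relIndex_mul_index hQH]
    exact fun h => ((Nat.Prime.dvd_mul hp).mp h).elim hQi hd)
  have key : ∀ g : G, ∃ y ∈ H₂, ∀ a ∈ A, ∃ a' ∈ A, g * a * g⁻¹ = y * a' * y⁻¹ := by
    intro g
    obtain ⟨x, hx, y, hy, h⟩ := h12 g⁻¹
    refine ⟨y⁻¹, H₂.inv_mem hy, fun a ha => ⟨x⁻¹ * a * x⁻¹⁻¹,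
      (Subgroup.mem_normalizer_iff.mp (hn (H₁.inv_mem hx)) a).mp ha, ?_⟩⟩
    rw [← inv_inv g, h]; group
  have hAH : A ≤ H₂ := by
    obtain ⟨x, hx, y, hy, h⟩ := h12 g⁻¹
    intro a ha
    have h1 := hQH (hg (GT.HT.conj_mem_conj_smul g
      ((Subgroup.mem_normalizer_iff.mp (hn hx) a).mp ha)))
    have h2 : a = y * (g * (x * a * x⁻¹) * g⁻¹) * y⁻¹ := by
      rw [← inv_inv g, h]; group
    rw [h2]
    exact H₂.mul_mem (H₂.mul_mem hy h1) (H₂.inv_mem hy)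
  rw [Subgroup.normalClosure, Subgroup.closure_le]
  intro z hz
  obtain ⟨a, ha, hc⟩ := Group.mem_conjugatesOfSet_iff.mp hz
  obtain ⟨c, rfl⟩ := isConj_iff.mp hc
  obtain ⟨y, hy, h⟩ := key c
  obtain ⟨a', ha', h1⟩ := h a ha
  rw [h1]
  exact H₂.mul_mem (H₂.mul_mem hy (hAH ha')) (H₂.inv_mem hy)

theorem aux (G : Type u) [Group G] [Finite G] : ∀ (H₁ H₂ H₃ : Subgroup G),
    Group.IsSolvable H₁ → Group.IsSolvable H₂ → Group.IsSolvable H₃ →
    (∀ g : G, ∃ x ∈ H₁, ∃ y ∈ H₂, g = x * y) → (∀ g : G, ∃ x ∈ H₁, ∃ y ∈ H₃, g = x * y) →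
    H₂.index.Coprime H₃.index → Group.IsSolvable G := by
  induction hn : Nat.card G using Nat.strong_induction_on generalizing G with
  | _ n ih =>
  subst hn
  intro H₁ H₂ H₃ h₁ h₂ h₃ h12 h13 hcop
  by_cases hb : H₁ = ⊥
  · refine Group.isSolvable_of_surjective (f := H₂.subtype) fun g => ?_
    obtain ⟨x, hx, y, hy, rfl⟩ := h12 g
    rw [hb, Subgroup.mem_bot] at hx
    exact ⟨⟨y, hy⟩, by simp [hx]⟩
  obtain ⟨p, hp, A, -, hn, hA, -, hAp⟩ :=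
    GT.HT.exists_comm_pGroup_le_of_solvable H₁ H₁ Subgroup.le_normalizer h₁ hb
  set N := Subgroup.normalClosure (A : Set G)
  have hN : Group.IsSolvable N := by
    by_cases hd : p ∣ H₂.index
    · exact GT.HT.isSolvable_of_le (normalClosure_le hp hAp hn h13 fun h =>
        hp.one_lt.ne' (Nat.eq_one_of_dvd_coprimes hcop hd h)) h₃
    · exact GT.HT.isSolvable_of_le (normalClosure_le hp hAp hn h12 hd) h₂
  have hNb : N ≠ ⊥ := ne_bot_of_le_ne_bot hA Subgroup.le_normalClosure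
  have hf := QuotientGroup.mk'_surjective N
  have hprod : ∀ H : Subgroup G, (∀ g : G, ∃ x ∈ H₁, ∃ y ∈ H, g = x * y) →
      ∀ g : G ⧸ N, ∃ x ∈ H₁.map (QuotientGroup.mk' N), ∃ y ∈ H.map (QuotientGroup.mk' N),
        g = x * y := by
    intro H h g
    obtain ⟨g, rfl⟩ := hf g
    obtain ⟨x, hx, y, hy, rfl⟩ := h g
    exact ⟨_, ⟨x, hx, rfl⟩, _, ⟨y, hy, rfl⟩, map_mul _ _ _⟩
  exact (Group.isSolvable_iff_subgroup_quotient N).mpr ⟨hN, ih _ (GT.card_quotient_lt hNb) _ rfl _ _ _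
    (GT.HT.isSolvable_map _ h₁) (GT.HT.isSolvable_map _ h₂) (GT.HT.isSolvable_map _ h₃)
    (hprod _ h12) (hprod _ h13) (hcop.of_dvd (H₂.index_map_dvd hf) (H₃.index_map_dvd hf))⟩


/-- A finite group that factorises as H₁H₂ and as H₁H₃ with all three subgroups solvable and the indices of H₂ and H₃ coprime is solvable. -/
theorem result {G : Type*} [Group G] [Finite G] (H₁ H₂ H₃ : Subgroup G)
    (h₁ : Group.IsSolvable H₁) (h₂ : Group.IsSolvable H₂) (h₃ : Group.IsSolvable H₃)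
    (h12 : ∀ g : G, ∃ x ∈ H₁, ∃ y ∈ H₂, g = x * y) (h13 : ∀ g : G, ∃ x ∈ H₁, ∃ y ∈ H₃, g = x * y)
    (hcop : H₂.index.Coprime H₃.index) : Group.IsSolvable G := by
  exact aux G H₁ H₂ H₃ h₁ h₂ h₃ h12 h13 hcop

end Cfsg.Agent.S0019
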