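import Mathlib
import Cfsg.Statements.S0006
import Cfsg.Agent.GT.ComplementSystem
import Cfsg.Agent.S0019
import Cfsg.Agent.S0144

set_option autoImplicit false
open Cfsg

namespace Cfsg.Agent.S0006

universe u

theorem aux (G : Type u) [Group G] [Finite G] :
    (∀ p : ℕ, p.Prime → ∃ H : Subgroup G, IsPiHall {p}ᶜ H) → Group.IsSolvable G := by
  induction hn : Nat.card G using Nat.strong_induction_on generalizing G with
  | _ n ih =>
  subst hn
  intro h
  have hidx : ∀ {p : ℕ} {H : Subgroup G}, IsPiHall {p}ᶜ H → GT.IsPiNum {p} H.index :=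
    fun hH => by simpa using hH.index
  have hsolv : ∀ {p : ℕ} {H : Subgroup G}, p.Prime → p ∣ Nat.card G → IsPiHall {p}ᶜ H →
      Group.IsSolvable H := by
    intro p H hp hd hH
    refine ih _ (GT.card_lt_of_ne_top ?_) H rfl fun q hq => ?_
    · rintro rfl
      exact hH.card p hp (by simpa using hd) rfl
    by_cases hpq : q = p
    · subst hpq
      exact ⟨⊤, GT.isPiHall_iff.mpr ⟨by simpa using hH.card, by simpa using GT.isPiNum_one _⟩⟩
    obtain ⟨K, hK⟩ := h q hq
    refine ⟨K.subgroupOf H, GT.isPiHall_iff.mpr ⟨hK.card.card_subgroupOf H, ?_⟩⟩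
    have := GT.HT.relIndex_eq_index_of_coprime ((hidx hK).coprime_of_disjoint (hidx hH)
      (Set.disjoint_singleton.mpr hpq))
    rw [Subgroup.relIndex] at this
    rw [this]
    exact hK.index
  by_cases h3 : ∃ p q r : ℕ, p.Prime ∧ q.Prime ∧ r.Prime ∧ p ∣ Nat.card G ∧ q ∣ Nat.card G ∧
      r ∣ Nat.card G ∧ p ≠ q ∧ p ≠ r ∧ q ≠ r
  · obtain ⟨p, q, r, hp, hq, hr, hp', hq', hr', hpq, hpr, hqr⟩ := h3
    obtain ⟨P, hP⟩ := h p hp
    obtain ⟨Q, hQ⟩ := h q hq
    obtain ⟨R, hR⟩ := h r hr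
    exact S0019.result P Q R (hsolv hp hp' hP) (hsolv hq hq' hQ) (hsolv hr hr' hR)
      (GT.HT.exists_mul_of_coprime_index
        ((hidx hP).coprime_of_disjoint (hidx hQ) (Set.disjoint_singleton.mpr hpq)))
      (GT.HT.exists_mul_of_coprime_index
        ((hidx hP).coprime_of_disjoint (hidx hR) (Set.disjoint_singleton.mpr hpr)))
      ((hidx hQ).coprime_of_disjoint (hidx hR) (Set.disjoint_singleton.mpr hqr))
  · have key : ∃ p q : ℕ, p.Prime ∧ q.Prime ∧ ∀ r : ℕ, r.Prime → r ∣ Nat.card G → r = p ∨ r = q := by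
      by_cases h1 : ∃ p : ℕ, p.Prime ∧ p ∣ Nat.card G
      · obtain ⟨p, hp, hp'⟩ := h1
        by_cases h2 : ∃ q : ℕ, q.Prime ∧ q ∣ Nat.card G ∧ p ≠ q
        · obtain ⟨q, hq, hq', hpq⟩ := h2
          refine ⟨p, q, hp, hq, fun r hr hr' => ?_⟩
          by_contra hcon
          rw [not_or] at hcon
          exact h3 ⟨p, q, r, hp, hq, hr, hp', hq', hr', hpq, Ne.symm hcon.1, Ne.symm hcon.2⟩
        · refine ⟨p, p, hp, hp, fun r hr hr' => Or.inl ?_⟩
          by_contra hcon
          exact h2 ⟨r, hr, hr', Ne.symm hcon⟩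
      · exact ⟨2, 2, Nat.prime_two, Nat.prime_two, fun r hr hr' => absurd ⟨r, hr, hr'⟩ h1⟩
    obtain ⟨p, q, hp, hq, hpq⟩ := key
    obtain ⟨a, b, ha, hb, hab⟩ := GT.exists_piPart {p} (Nat.card_pos (α := G)).ne'
    have hb0 : b ≠ 0 := fun h0 => Nat.card_pos.ne' (by rw [hab, h0, mul_zero])
    have ha0 : a ≠ 0 := fun h0 => Nat.card_pos.ne' (by rw [hab, h0, zero_mul])
    obtain ⟨i, hi⟩ := (GT.isPiNum_singleton_iff hp ha0).mp ha
    obtain ⟨j, hj⟩ := (GT.isPiNum_singleton_iff hq hb0).mp fun r hr hd =>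
      (hpq r hr (hab ▸ hd.mul_left a)).resolve_left (hb r hr hd)
    exact S0144.result p q i j hp hq (by rw [hab, hi, hj])


/-- Converse of Hall's Theorem: if for every prime p a finite group has a subgroup of index equal to the p-part of the group order (a Hall p-complement), then the group is solvable. -/
theorem result {G : Type*} [Group G] [Finite G]
    (h : ∀ p : ℕ, p.Prime → ∃ H : Subgroup G, H.index = p ^ (Nat.card G).factorization p) :
    Group.IsSolvable G := by
  exact aux G fun p hp => (h p hp).imp fun H hH =>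
    (GT.isPiHall_compl_singleton_iff_index hp).mpr hH

end Cfsg.Agent.S0006
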