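import Mathlib
import Cfsg.Statements.S0078
import Cfsg.Agent.GT.TransferEval
-- import your own Cfsg.Agent.* helpers here

set_option autoImplicit false
open Cfsg

namespace Cfsg.Agent.S0078

open Cfsg.Agent.GT.Tr

/-- In a p-normal group, a Sylow p-subgroup P meets O^p(G) exactly where it meets O^p(V), for any subgroup V containing the normalizer of the centre of P. -/
theorem result {G : Type*} [Group G] [Finite G] {p : ℕ} [Fact p.Prime] (P : Sylow p G) (hn : ∀ Q : Sylow p G, (P : Subgroup G) ⊓ Subgroup.centralizer (P : Set G) ≤ (Q : Subgroup G) → (Q : Subgroup G) ⊓ Subgroup.centralizer (Q : Set G) = (P : Subgroup G) ⊓ Subgroup.centralizer (P : Set G)) (V : Subgroup G) (hV : Subgroup.normalizer (((P : Subgroup G) ⊓ Subgroup.centralizer (P : Set G) : Subgroup G) : Set G) ≤ V) : (P : Subgroup G) ⊓ Cfsg.pResidual p G = (P : Subgroup G) ⊓ (Cfsg.pResidual p V).map V.subtype := by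
  set Z : Subgroup G := (P : Subgroup G) ⊓ Subgroup.centralizer (P : Set G) with hZ
  have hW : IsWeaklyClosed Z (P : Subgroup G) := by
    refine ⟨inf_le_left, fun g hg => ?_⟩
    have h1 := hn (g⁻¹ • P) (fun z hz => by
      rw [mem_smul_sylow]
      simpa using map_conj_le_iff.1 hg z hz)
    rw [← Sylow.coe_coe, coe_smul_sylow, centralizer_map_conj, ← map_conj_inf] at h1
    have h2 : g⁻¹ ∈ Subgroup.normalizer (Z : Set G) := map_conj_eq_iff.1 h1
    exact map_conj_eq_iff.2 (by simpa using h2)
  refine sylow_inf_pResidual_eq_of_controls_fusion P (fun x hx g hg => ?_)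
    (hW.le_normalizer.trans hV)
  have hPZ : (P : Subgroup G) ≤ Subgroup.centralizer (Z : Set G) :=
    Subgroup.le_centralizer_iff.1 inf_le_right
  obtain ⟨h, hh, h1⟩ := hW.exists_conj_eq (A := {x}) (g := g)
    (fun a ha => by rw [ha]; exact hPZ hx) (fun a ha => by rw [ha]; exact hPZ hg)
  exact ⟨h, hV hh, (h1 x rfl).symm⟩

end Cfsg.Agent.S0078
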