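import Mathlib
import Cfsg.Statements.S0089
import Cfsg.Agent.GT.TransferEval
-- import your own Cfsg.Agent.* helpers here

set_option autoImplicit false
open Cfsg

namespace Cfsg.Agent.S0089

open Cfsg.Agent.GT.Tr

/-- When all Sylow subgroups are abelian, the derived subgroup meets the centre trivially. -/
theorem result {G : Type*} [Group G] [Finite G] (h : ∀ p : ℕ, p.Prime → ∀ P : Sylow p G, IsMulCommutative P) : commutator G ⊓ Subgroup.center G = ⊥ := by
  by_contra hne
  obtain ⟨q, hq, hd⟩ := Nat.exists_prime_and_dvd (mt Subgroup.card_eq_one.1 hne)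
  have := Fact.mk hq
  obtain ⟨x, hx⟩ := exists_prime_orderOf_dvd_card' q hd
  rw [← Subgroup.orderOf_coe] at hx
  obtain ⟨P, hP⟩ := (IsPGroup.of_card (p := q) (n := 1)
    ((Nat.card_zpowers (x : G)).trans (hx.trans (pow_one q).symm))).exists_le_sylow
  have h1 := sylow_inf_commutator_inf_center_le P ⟨⟨hP (Subgroup.mem_zpowers _), x.2.1⟩, x.2.2⟩
  rw [Subgroup.commutator_self_eq_bot_iff.2 (h q hq P), Subgroup.mem_bot] at h1
  rw [h1, orderOf_one] at hx
  exact hq.ne_one hx.symm

end Cfsg.Agent.S0089
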