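import Mathlib
import Cfsg.Statements.S0436
import Cfsg.Agent.Inv.Basic

set_option autoImplicit false
open Cfsg

namespace Cfsg.Agent.S0436

theorem braid {G : Type*} [Group G] {E : Set G} (hE : Cfsg.IsThreeTranspositionSet E) {a e : G}
    (ha : a ∈ E) (he : e ∈ E) (h : ¬ Commute e a) : e * a * e = a * e * a := by
  have ha2 := Inv.mul_self_of_two (hE.1 a ha)
  have he2 := Inv.mul_self_of_two (hE.1 e he)
  rcases hE.2 e he a ha with h2 | h3
  · exact absurd ((Inv.commute_iff_mul_sq he2 ha2).2 (by rwa [pow_two] at h2)) h
  · have h4 : (e * a * e) * (a * e * a) = 1 := by rw [← h3, pow_succ, pow_two]; group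
    have h5 : (a * e * a) * (a * e * a) = 1 := by
      calc (a * e * a) * (a * e * a) = a * e * (a * a) * e * a := by group
        _ = 1 := by rw [ha2, mul_one, Inv.mul_mul_cancel_of_mul_self' he2, ha2]
    exact mul_right_cancel (h4.trans h5.symm)

theorem aux {G : Type*} [Group G] {E : Set G} (hE : Cfsg.IsThreeTranspositionSet E) {a b e : G}
    (ha : a ∈ E) (hb : b ∈ E) (he : e ∈ E) (hab : a ≠ b) (h : Commute e (a * b)) : Commute e a := by
  by_contra hea
  have ha2 := Inv.mul_self_of_two (hE.1 a ha)
  have he2 := Inv.mul_self_of_two (hE.1 e he)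
  have h1 := braid hE ha he hea
  have h2 : e * b * e = a * e * b := by
    calc e * b * e = e * a * (a * b * e) := by
          rw [← mul_assoc, ← mul_assoc, Inv.mul_mul_cancel_of_mul_self' ha2]
      _ = (e * a * e) * (a * b) := by rw [← h.eq]; group
      _ = a * e * (a * a) * b := by rw [h1]; group
      _ = a * e * b := by rw [ha2, mul_one]
  by_cases heb : Commute e b
  · rw [heb.eq, Inv.mul_mul_cancel_of_mul_self' he2] at h2
    have h3 : a * e = 1 := by simpa using h2.symm
    apply hea
    rw [eq_inv_of_mul_eq_one_left h3]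
    exact (Commute.refl e).inv_right
  · rw [braid hE hb he heb] at h2
    exact hab (mul_right_cancel (mul_right_cancel h2)).symm

/-- For distinct commuting members a, b of a set of 3-transpositions E, a member e of E centralises the product a * b if and only if it centralises both a and b. -/
theorem result {G : Type*} [Group G] {E : Set G} (hE : Cfsg.IsThreeTranspositionSet E) {a b e : G} (ha : a ∈ E) (hb : b ∈ E) (he : e ∈ E) (hab : a ≠ b) (hcomm : Commute a b) : Commute e (a * b) ↔ (Commute e a ∧ Commute e b) := by
  exact ⟨fun h => ⟨aux hE ha hb he hab h, aux hE hb ha he hab.symm (hcomm.eq ▸ h)⟩,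
    fun h => h.1.mul_right h.2⟩

end Cfsg.Agent.S0436
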