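import Mathlib
import Cfsg.Statements.S0437
import Cfsg.Agent.Inv.Basic
import Cfsg.Agent.S0436

set_option autoImplicit false
open Cfsg

namespace Cfsg.Agent.S0437

theorem aux {G : Type*} [Group G] {E : Set G} (hE : Cfsg.IsThreeTranspositionSet E) {a b c e : G} (ha : a ∈ E) (hb : b ∈ E) (hc : c ∈ E) (he : e ∈ E) (hab : a ≠ b)  (h₁ : Commute a b) (h : Commute e (a * b * c)) (hec : Commute e c) : Commute e a ∧ Commute e b := by
  have : Commute e (a * b) := by simpa using h.mul_right hec.inv_right
  exact (S0436.result hE ha hb he hab h₁).1 this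

/-- For three distinct, pairwise commuting members a, b, c of a set of 3-transpositions E, a member e of E centralises a * b * c if and only if it centralises each of a, b and c. -/
theorem result {G : Type*} [Group G] {E : Set G} (hE : Cfsg.IsThreeTranspositionSet E) {a b c e : G} (ha : a ∈ E) (hb : b ∈ E) (hc : c ∈ E) (he : e ∈ E) (hab : a ≠ b) (hac : a ≠ c) (hbc : b ≠ c) (h₁ : Commute a b) (h₂ : Commute a c) (h₃ : Commute b c) : Commute e (a * b * c) ↔ (Commute e a ∧ Commute e b ∧ Commute e c) := by
  refine ⟨fun h => ?_, fun h => (h.1.mul_right h.2.1).mul_right h.2.2⟩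
  by_cases hec : Commute e c
  · have := aux hE ha hb hc he hab h₁ h hec
    exact ⟨this.1, this.2, hec⟩
  by_cases heb : Commute e b
  · have := aux hE ha hc hb he hac h₂ (by rwa [mul_assoc, ← h₃.eq, ← mul_assoc]) heb
    exact absurd this.2 hec
  by_cases hea : Commute e a
  · have := aux hE hb hc ha he hbc h₃ (by rwa [← (h₁.mul_right h₂).eq, ← mul_assoc]) hea
    exact absurd this.2 hec
  exfalso
  have ha2 := Inv.mul_self_of_two (hE.1 a ha)
  have hb2 := Inv.mul_self_of_two (hE.1 b hb)
  have hc2 := Inv.mul_self_of_two (hE.1 c hc)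
  have he2 := Inv.mul_self_of_two (hE.1 e he)
  have k1 := S0436.braid hE ha he hea
  have k2 := S0436.braid hE hb he heb
  have k3 := S0436.braid hE hc he hec
  have e1 : (a * e * a) * (b * e * b) * (c * e * c) = a * b * c := by
    rw [← k1, ← k2, ← k3]
    calc e * a * e * (e * b * e) * (e * c * e) = e * a * (e * e) * b * (e * e) * c * e := by group
      _ = e * (a * b * c) * e := by rw [he2]; group
      _ = a * b * c := by rw [h.eq, Inv.mul_mul_cancel_of_mul_self' he2]
  have e2 : e * (a * b * e * b * c) * e = b := by
    apply mul_left_cancel (a := a)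
    apply mul_right_cancel (b := c)
    rw [← e1]; group
  have e3 : a * b * e * b * c = b * e * b := by
    rw [← k2]
    calc a * b * e * b * c = (e * e) * (a * b * e * b * c) * (e * e) := by rw [he2]; group
      _ = e * (e * (a * b * e * b * c) * e) * e := by group
      _ = e * b * e := by rw [e2]
  have e4 : a * e * c = e := by
    apply mul_left_cancel (a := b)
    apply mul_right_cancel (b := b)
    rw [← e3, h₁.eq]
    calc b * (a * e * c) * b = b * a * e * (c * b) := by group
      _ = b * a * e * b * c := by rw [← h₃.eq]; group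
  have e5 : e * a * e = c := by
    calc e * a * e = e * (a * e * c) * c := by
          rw [← mul_assoc, ← mul_assoc, Inv.mul_mul_cancel_of_mul_self' hc2]
      _ = c := by rw [e4, he2, one_mul]
  have e6 : e = c := by
    rw [k1] at e5
    calc e = (a * a) * e * (a * a) := by rw [ha2]; group
      _ = a * (a * e * a) * a := by group
      _ = c := by rw [e5, h₂.eq, Inv.mul_mul_cancel_of_mul_self' ha2]
  exact hec (e6 ▸ Commute.refl e)

end Cfsg.Agent.S0437
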