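import Cfsg.Statements.S0447
import Cfsg.Agent.Sym.CoverEx

set_option autoImplicit false
open Cfsg

namespace Cfsg.Agent.S0447

/-- Involutions in double covers of alternating groups: for n ≤ 7, a finite non-split double cover of the alternating group of degree n has exactly one element of order 2 (the central one); for degree 8 there is a non-split double cover with two distinct involutions. -/
theorem result : (∀ (n : ℕ) (H : Type) (_ : Group H) (_ : Finite H), n ≤ 7 → Cfsg.IsNonsplitDoubleCover H (alternatingGroup (Fin n)) → ∀ x y : H, orderOf x = 2 → orderOf y = 2 → x = y) ∧ ∃ (H : Type) (_ : Group H) (_ : Finite H), Cfsg.IsNonsplitDoubleCover H (alternatingGroup (Fin 8)) ∧ ∃ x y : H, x ≠ y ∧ orderOf x = 2 ∧ orderOf y = 2 := by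
  constructor
  · rintro n H _ _ hn ⟨h2, ⟨e⟩, hns⟩
    let σ := e.toMonoidHom.comp (QuotientGroup.mk' (Subgroup.center H))
    have hs : Function.Surjective σ := e.surjective.comp (QuotientGroup.mk'_surjective _)
    have hk : σ.ker = Subgroup.center H := by
      ext x; simp [σ, MonoidHom.mem_ker]
    by_cases h4 : 4 ≤ n
    swap
    · haveI : IsCyclic (alternatingGroup (Fin n)) :=
        alternatingGroup.isCyclic_of_card_le_three (by simp; omega)
      have hc : Subgroup.center H = ⊤ := by
        rw [eq_top_iff]
        intro x _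
        exact Subgroup.mem_center_iff.2 fun y => commutative_of_cyclic_center_quotient σ hk.le y x
      exact (hns ⊥ (hc ▸ Subgroup.isComplement'_top_bot)).elim
    have hk' := (Sym.ker_subtype_comp σ).trans hk
    have hr := Sym.range_subtype_comp hs
    have hsq : ∀ z ∈ Subgroup.center H, z ^ 2 = 1 := fun z hz => by
      have := pow_card_eq_one' (x := (⟨z, hz⟩ : Subgroup.center H))
      rw [h2] at this
      exact congrArg Subtype.val this
    obtain ⟨ζ, hζ⟩ := Sym.exists_isZeta hk'.le hr (by simpa using h4)
    haveI : Nontrivial (Fin n) := Fin.nontrivial_iff_two_le.2 (by omega)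
    have hζ1 := hζ.ne_one_of_not_isComplement' hk'.le hr (fun z hz => by
      rw [show 4 = 2 * 2 from rfl, pow_mul, hsq z (hk' ▸ hz), one_pow]) (hk' ▸ hns)
    have key : ∀ x : H, orderOf x = 2 → x ∈ Subgroup.center H := by
      intro x hx
      by_contra hxc
      have hx2 : x ^ 2 = 1 := hx ▸ pow_orderOf_eq_one x
      haveI : Fact (Nat.Prime 2) := ⟨Nat.prime_two⟩
      have ho : orderOf ((alternatingGroup (Fin n)).subtype.comp σ x) = 2 :=
        orderOf_eq_prime (by rw [← map_pow, hx2, map_one]) (fun h => hxc (hk' ▸ h))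
      obtain ⟨k, hk2⟩ := Equiv.Perm.cycleType_prime_order (ho ▸ Nat.prime_two)
      rw [ho] at hk2
      have h5 := Equiv.Perm.sum_cycleType_le ((alternatingGroup (Fin n)).subtype.comp σ x)
      have h6 := Sym.sign_lift hr x
      rw [Equiv.Perm.sign_of_cycleType] at h6
      rw [hk2] at h5 h6
      simp only [Multiset.sum_replicate, smul_eq_mul, Fintype.card_fin,
        Multiset.card_replicate] at h5 h6
      have hk1 : k = 1 := by
        have : k ≤ 2 := by omega
        interval_cases k
        · exact absurd h6 (by decide)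
        · rfl
        · exact absurd h6 (by decide)
      subst hk1
      obtain ⟨a, b, c, d, hab, hac, had, hbc, hbd, hcd, hx'⟩ :=
        Sym.exists_eq_swap_mul_swap_of_cycleType hk2
      obtain ⟨t, ht, e⟩ := hζ.sq_lift hk'.le hr hab hac had hbc hbd hcd hx'
      rw [hx2, hsq t (hk' ▸ ht), mul_one] at e
      exact hζ1 e.symm
    intro x y hx hy
    obtain ⟨w, -, hw⟩ := (Nat.card_eq_two_iff' (1 : Subgroup.center H)).1 h2
    have h1 := hw ⟨x, key x hx⟩ (fun h => by
      rw [show x = 1 from congrArg Subtype.val h] at hx; simp at hx)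
    have h2 := hw ⟨y, key y hy⟩ (fun h => by
      rw [show y = 1 from congrArg Subtype.val h] at hy; simp at hy)
    exact congrArg Subtype.val (h1.trans h2.symm)
  · obtain ⟨Γ, _, _, σ, z, h1, h2, h3, h4, h5, hζ⟩ :=
      Sym.exists_double_cover (α := Fin 8) (by simp)
    have hk : σ.ker = Subgroup.center Γ := by
      refine le_antisymm (h2 ▸ Subgroup.zpowers_le_of_mem h3) fun x hx => ?_
      have : σ x ∈ Subgroup.center (alternatingGroup (Fin 8)) := by
        rw [Subgroup.mem_center_iff]
        intro g
        obtain ⟨g, rfl⟩ := h1 g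
        rw [← map_mul, ← map_mul, Subgroup.mem_center_iff.1 hx g]
      rwa [alternatingGroup.center_eq_bot (by simp)] at this
    have hk' := (Sym.ker_subtype_comp σ).trans hk
    have hr := Sym.range_subtype_comp h1
    have hcard : Nat.card (Subgroup.center Γ) = 2 := by rw [← hk, h2, Nat.card_zpowers, h4]
    have hsq : ∀ z ∈ Subgroup.center Γ, z ^ 2 = 1 := fun z hz => by
      have := pow_card_eq_one' (x := (⟨z, hz⟩ : Subgroup.center Γ))
      rw [hcard] at this
      exact congrArg Subtype.val this
    refine ⟨Γ, inferInstance, inferInstance, ⟨hcard, ⟨(QuotientGroup.quotientMulEquivOfEq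
      hk.symm).trans (QuotientGroup.quotientKerEquivOfSurjective σ h1)⟩, fun L hL => ?_⟩, ?_⟩
    · have hle := Sym.commutator_le_of_forall_exists hk'.le (H := L) fun g => by
        obtain ⟨⟨⟨c, hc⟩, ⟨l, hl⟩⟩, rfl⟩ := hL.2 g
        rw [← hk'] at hc
        exact ⟨l, hl, by rw [map_mul, MonoidHom.mem_ker.1 hc, one_mul]⟩
      have := Subgroup.disjoint_def.1 hL.disjoint h3 (hle h5)
      rw [this] at h4
      simp at h4
    · obtain ⟨u, hu⟩ := Sym.exists_lift hr
        (Sym.sign_swap_mul_swap (a := 0) (b := 1) (c := 2) (d := 3) (by decide) (by decide))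
      obtain ⟨v, hv⟩ := Sym.exists_lift hr
        (Sym.sign_swap_mul_swap (a := 4) (b := 5) (c := 6) (d := 7) (by decide) (by decide))
      obtain ⟨t, ht, e1⟩ := hζ.sq_lift hk'.le hr (by decide) (by decide) (by decide) (by decide)
        (by decide) (by decide) hu
      obtain ⟨s, hs, e2⟩ := hζ.sq_lift hk'.le hr (by decide) (by decide) (by decide) (by decide)
        (by decide) (by decide) hv
      have hc : Commute u v := Sym.commute_lift_swap_mul_swap hk'.le hr (by decide) (by decide)
        (by decide) (by decide) (by decide) (by decide) hu (by rw [hv]; decide)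
        (by rw [hv]; decide) (by rw [hv]; decide) (by rw [hv]; decide)
      have hne : (alternatingGroup (Fin 8)).subtype.comp σ (u * v) ≠ 1 := by
        rw [map_mul, hu, hv]; decide
      haveI : Fact (Nat.Prime 2) := ⟨Nat.prime_two⟩
      refine ⟨u * v, z, fun h => hne (h ▸ hζ.1), orderOf_eq_prime ?_ (fun h => hne ?_), h4⟩
      · rw [hc.mul_pow, e1, e2, hsq t (hk' ▸ ht), hsq s (hk' ▸ hs), mul_one, ← pow_two, hζ.2.1]
      · rw [h, map_one]

end Cfsg.Agent.S0447
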