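import Cfsg.Statements.S0454
import Cfsg.Agent.Spor.Ly.Cent
import Cfsg.Agent.Spor.NM.Struct

set_option autoImplicit false
open Cfsg

namespace Cfsg.Agent.S0454

/-- Existence of the Lyons group: there is a transitive permutation group of degree 8835156, simple of order 51765179004000000, whose point stabiliser is simple of the order of a group of type G2, and which has an involution whose centraliser is a non-split double cover of the alternating group of degree 11. -/
theorem result : ∃ H : Subgroup (Equiv.Perm (Fin 8835156)), Cfsg.IsLy H ∧ MulAction.IsPretransitive H (Fin 8835156) ∧ Cfsg.IsG2 (MulAction.stabilizer H (0 : Fin 8835156)) ∧ ∃ t : H, orderOf t = 2 ∧ Cfsg.IsNonsplitDoubleCover (Subgroup.centralizer ({t} : Set H)) (alternatingGroup (Fin 11)) := by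
  obtain ⟨H, e, h1, h2⟩ := Spor.NM.exists_perm_rep _ Spor.MLy.index_eq (by norm_num)
  obtain ⟨t, h3, h4⟩ := Spor.MLy.invol
  have f := (MonoidHom.ofInjective Spor.MLy.psi_inj).trans (e.subgroupMap Spor.MLy.psi.range)
  refine ⟨H, ⟨e.symm.isSimpleGroup, by rw [← Nat.card_congr e.toEquiv, Spor.MLy.card]⟩, h1, ?_, e t,
    by rw [e.orderOf_eq, h3], ?_⟩
  · rw [h2]
    exact ⟨f.symm.isSimpleGroup, 5, Nat.prime_five.isPrimePow, by norm_num,
      (Nat.card_congr f.toEquiv).symm.trans Spor.MLy.cardH⟩
  · rw [Spor.NM.centralizer_map_equiv]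
    exact Spor.IsNonsplitDoubleCover.of_equiv h4 (e.subgroupMap _)

end Cfsg.Agent.S0454
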