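import Mathlib
import Cfsg.Statements.S0489
import Cfsg.Agent.Flv.TwoGenC
import Cfsg.Agent.Ch.Burnside

set_option autoImplicit false
open Cfsg

namespace Cfsg.Agent.S0489

universe u

open Subgroup in
theorem aux (n : ℕ) : ∀ (G : Type u) [Group G] [Finite G], Nat.card G = n →
    (∀ a b : G, Group.IsSolvable (closure ({a, b} : Set G))) → Group.IsSolvable G := by
  induction n using Nat.strong_induction_on with
  | _ n ih =>
  intro G _ _ hn h
  by_contra hG
  have hsub : ∀ H : Subgroup G, H ≠ ⊤ → Group.IsSolvable H := fun H hH => by
    refine ih _ ?_ H rfl fun a b => ?_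
    · rw [← hn, ← card_top (G := G)]; exact GT.PG.card_lt_of_lt (lt_top_iff_ne_top.2 hH)
    · have := h a b
      have e : (closure ({a, b} : Set H)).map H.subtype = closure ({(a : G), (b : G)} : Set G) := by
        rw [MonoidHom.map_closure, Set.image_pair]; rfl
      rw [← e] at this
      exact Group.isSolvable_of_surjective
        (f := (equivMapOfInjective _ _ H.subtype_injective).symm.toMonoidHom)
        (MulEquiv.surjective _)
  have hnt : Nontrivial G := by
    by_contra hs
    rw [not_nontrivial_iff_subsingleton] at hs
    exact hG inferInstance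
  have hsimple : IsSimpleGroup G := ⟨fun N hN => by
    by_contra hc
    push Not at hc
    refine hG ((Group.isSolvable_iff_subgroup_quotient N).2 ⟨hsub N hc.2, ih _ ?_ _ rfl
      fun a b => ?_⟩)
    · rw [← hn, ← N.index_mul_card]
      exact lt_mul_of_one_lt_right Nat.card_pos ((one_lt_card_iff_ne_bot N).2 hc.1)
    · obtain ⟨a, rfl⟩ := QuotientGroup.mk'_surjective N a
      obtain ⟨b, rfl⟩ := QuotientGroup.mk'_surjective N b
      have := h a b
      rw [← Set.image_pair, ← MonoidHom.map_closure]
      exact Group.isSolvable_of_surjective (MonoidHom.subgroupMap_surjective _ _)⟩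
  obtain ⟨p, hp, hd, h5⟩ : ∃ p, p.Prime ∧ p ∣ Nat.card G ∧ 5 ≤ p := by
    by_contra hc
    push Not at hc
    refine hG (Ch.burnside_isSolvable_of_primes (p := 2) Nat.prime_three fun r hr hd => ?_)
    have h1 := hc r hr hd
    have h2 := hr.two_le
    interval_cases r
    · exact Or.inl rfl
    · exact Or.inr rfl
    · exact absurd hr (by decide)
  have : Fact p.Prime := ⟨hp⟩
  exact Flv.MC.false ⟨hsimple, hG, hsub, h, hd, h5⟩

/-- A finite group in which every two elements generate a solvable subgroup is solvable. -/
theorem result {G : Type*} [Group G] [Finite G]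
    (h : ∀ a b : G, Group.IsSolvable (Subgroup.closure ({a, b} : Set G))) : Group.IsSolvable G := by
  exact aux _ G rfl h

end Cfsg.Agent.S0489
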