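import Mathlib
import Cfsg.Statements.S0556
import Cfsg.Agent.GT.NilpotentMaximal

set_option autoImplicit false
open Cfsg

namespace Cfsg.Agent.S0556

/-- If a finite group has a maximal subgroup that is abelian, then the third term of its derived series is trivial (so the group is solvable of derived length at most three). -/
theorem result {G : Type*} [Group G] [Finite G] (A : Subgroup G) (hA : IsCoatom A) [IsMulCommutative A] : derivedSeries G 3 = ⊥ := by

  have hAA : ⁅A, A⁆ = ⊥ := Subgroup.commutator_eq_bot_iff_le_centralizer.2 A.le_centralizer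
  have : Group.IsNilpotent A := GT.isNilpotent_of_isMulCommutative
  have := GT.NM.isSolvable_of_class_two hA (hAA ▸ bot_le)
  obtain ⟨L, hL, -⟩ := GT.exists_isChiefFactor_above (U := ⊤) (W := A.normalCore)
    (lt_of_le_of_lt A.normalCore_le hA.lt_top)
  have hLn : L.Normal := hL.2.1
  have h1 : L ⊔ A = ⊤ := hA.2 _ (lt_of_le_of_ne le_sup_right fun e =>
    hL.1.not_ge (Subgroup.normal_le_normalCore.2 (e ▸ le_sup_left)))
  have h2 : ⁅(⊤ : Subgroup G), (⊤ : Subgroup G)⁆ ≤ L := by
    rw [GT.commutator_le_iff_map_mk', ← h1, sup_comm, GT.map_mk'_sup, ← Subgroup.map_commutator, hAA,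
      Subgroup.map_bot]
  have h3 : ⁅⁅(⊤ : Subgroup G), (⊤ : Subgroup G)⁆, ⁅(⊤ : Subgroup G), (⊤ : Subgroup G)⁆⁆ ≤ A :=
    (Subgroup.commutator_mono h2 h2).trans (hL.elementary.1.trans A.normalCore_le)
  exact eq_bot_iff.2 ((Subgroup.commutator_mono h3 h3).trans hAA.le)

end Cfsg.Agent.S0556
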