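import Mathlib
import Cfsg.Statements.S0618
import Cfsg.Agent.Loc.FFSep
import Cfsg.Agent.S0608

set_option autoImplicit false
open Cfsg

namespace Cfsg.Agent.S0618

/-- A p-separable group with trivial p'-core in which the Thompson factorization fails has p = 2 or 3, and J(G) induces on the normal closure of Ω₁(Z(S)) a group containing a normal SL(2, p). -/
theorem result {G : Type*} [Group G] [Finite G] {p : ℕ} [Fact p.Prime] (hsep : Cfsg.IsPSolvable p G) (hO : Cfsg.pPrimeCore p G = ⊥) (hnf : ¬ Cfsg.IsThompsonFactorizable p G) : (p = 2 ∨ p = 3) ∧ ∃ E : Subgroup G, Subgroup.centralizer ((⨆ S : Sylow p G, Cfsg.omegaOne p ((S : Subgroup G) ⊓ Subgroup.centralizer ((S : Subgroup G) : Set G))) : Set G) ≤ E ∧ E ≤ Cfsg.thompsonSubgroup p G ⊔ Subgroup.centralizer ((⨆ S : Sylow p G, Cfsg.omegaOne p ((S : Subgroup G) ⊓ Subgroup.centralizer ((S : Subgroup G) : Set G))) : Set G) ∧ Cfsg.thompsonSubgroup p G ⊔ Subgroup.centralizer ((⨆ S : Sylow p G, Cfsg.omegaOne p ((S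 : Subgroup G) ⊓ Subgroup.centralizer ((S : Subgroup G) : Set G))) : Set G) ≤ Subgroup.normalizer (E : Set G) ∧ ∃ hn : ((Subgroup.centralizer ((⨆ S : Sylow p G, Cfsg.omegaOne p ((S : Subgroup G) ⊓ Subgroup.centralizer ((S : Subgroup G) : Set G))) : Set G)).subgroupOf E).Normal, Nonempty ((↥E ⧸ (Subgroup.centralizer ((⨆ S : Sylow p G, Cfsg.omegaOne p ((S : Subgroup G) ⊓ Subgroup.centralizer ((S : Subgroup G) : Set G))) : Set G)).subgroupOf E) ≃* Matrix.SpecialLinearGroup (Fin 2) (ZMod p)) := by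
  open Subgroup Cfsg.Agent.Loc.Am Cfsg.Agent.Loc.FF Cfsg.Agent.GT in
  rw [S0608.result hO] at hnf
  have e : centralizer ((⨆ S : Sylow p G, Cfsg.omegaOne p ((S : Subgroup G) ⊓
      centralizer ((S : Subgroup G) : Set G))) : Set G) = centralizer (thV p G : Set G) := by
    rw [thV, iSup_eq_closure, centralizer_closure]
    rfl
  rw [e]
  have hc := hsep.centralizer_pCore_le hO
  have h : RF p (thV p G) (thJ p ⊤) := rf_thJ (thV_elem hc) le_top le_normalizer_of_normal
    (hsep.subgroup _) fun D _ hn _ hpow => by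
      have : D.Normal := normalizer_eq_top_iff.mp (top_le_iff.mp hn)
      exact (le_thOp hpow).trans thOp_thV_le
  rw [thompsonSubgroup_eq] at hnf ⊢
  obtain ⟨a, ha, hta⟩ := h.exists_rTv hnf
  have hle : centralizer (thV p G : Set G) ≤ rE p (thV p G) (thJ p ⊤) a :=
    centralizer_le_rQ.trans rQ_le_rE
  refine ⟨(h.tvData ha hta).h23, rE p (thV p G) (thJ p ⊤) a, hle, h.rE_le ha,
    sup_le (h.le_normalizer_rE ha hta) (hle.trans le_normalizer), inferInstance, h.sl2 ha hta⟩

end Cfsg.Agent.S0618
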