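import Mathlib
import Cfsg.Statements.S0621
import Cfsg.Agent.Loc.FFSep
import Cfsg.Agent.S0608

set_option autoImplicit false
open Cfsg

namespace Cfsg.Agent.S0621

/-- Let K be p-separable with O_p'(K) = 1, normalized by an elementary abelian q-group X for a prime q not dividing the order of K. If the Thompson factorization fails in K, then p is 2 or 3 and the fixed points of X contain a plane W of order p² and a subgroup inducing SL(2, p) on it. -/
theorem result {G : Type*} [Group G] [Finite G] {p : ℕ} [Fact p.Prime] {q : ℕ} [Fact q.Prime] (K X : Subgroup G) (hXK : X ≤ Subgroup.normalizer (K : Set G)) (hX : Cfsg.IsElementaryAbelian q X) (hq : ¬ q ∣ Nat.card K) (hsep : Cfsg.IsPSolvable p ↥K) (hO : Cfsg.pPrimeCore p ↥K = ⊥) (hnf : ¬ Cfsg.IsThompsonFactorizable p ↥K) : (p = 2 ∨ p = 3) ∧ ∃ W D : Subgroup G, W ≤ K ⊓ Subgroup.centralizer (X : Set G) ∧ D ≤ K ⊓ Subgroup.centralizer (X : Set G) ∧ Cfsg.IsElementaryAbelian p W ∧ Nat.card W = p ^ 2 ∧ D ≤ Subgroup.normalizer (W : Set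 G) ∧ ∃ hn : ((Subgroup.centralizer (W : Set G)).subgroupOf D).Normal, Nonempty ((↥D ⧸ (Subgroup.centralizer (W : Set G)).subgroupOf D) ≃* Matrix.SpecialLinearGroup (Fin 2) (ZMod p)) := by
  open Subgroup Cfsg.Agent.Loc.Am Cfsg.Agent.Loc.FF Cfsg.Agent.GT in
  have h := rf_scc hsep hO
  rw [S0608.result hO, thompsonSubgroup_eq] at hnf
  set V := sylowCenterClosure p K with hV
  have hJ : thJ p K ≤ K := thJ_le p K
  obtain ⟨a, ha, hta⟩ := h.exists_rTv fun hc => hnf fun j hj z hz => Subtype.ext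
    (hc (thJ_top_map p K ▸ ⟨j, hj, rfl⟩) z (hV.trans (map_thV K).symm ▸ ⟨z, hz, rfl⟩))
  have hd : ¬ q ∣ Nat.card (thJ p K) := fun hc => hq (hc.trans (card_dvd_of_le hJ))
  have hXJ := hXK.trans (normalizer_le_normalizer_thJ p K)
  have hXV := hXK.trans (normalizer_le_normalizer_scc p K)
  obtain ⟨W, w1, w2, w3, w4⟩ := h.exists_plane ha hta hX.isPGroup hd
    (fun hc => hq (hc.trans (card_dvd_of_le (scc_le p K)))) hXJ hXV
  have k := h.rE_le_fixed_sup ha hta hX.isPGroup hX.1 hd hXJ hXV
  set U := rW p V (thJ p K) a with hU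
  set E := rE p V (thJ p K) a with hE
  have hDU : thJ p K ⊓ centralizer (X : Set G) ≤ normalizer (U : Set G) :=
    inf_le_left.trans (h.le_normalizer_rW ha hta)
  have hEU : E ≤ normalizer (U : Set G) := rE_le_normalizer_rW
  have n : ∀ {A B : Subgroup G}, A ≤ normalizer (B : Set G) →
      ((centralizer (B : Set G)).subgroupOf A).Normal := fun hA =>
    normal_subgroupOf_of_le_normalizer (le_normalizer_centralizer hA)
  have n1 := n w3
  have n2 := n hDU
  have n3 := n hEU
  have n4 := n (rE_le_normalizer : E ≤ normalizer (V : Set G))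
  refine ⟨(h.tvData ha hta).h23, W, thJ p K ⊓ centralizer (X : Set G),
    w1.trans (inf_le_inf_right _ (scc_le p K)), inf_le_inf_right _ hJ,
    h.hV.mono (w1.trans inf_le_left), w2, w3, n1, ?_⟩
  obtain ⟨e1⟩ := nonempty_quotient_equiv hDU
  obtain ⟨e2⟩ := nonempty_quotient_equiv hEU
  obtain ⟨e3⟩ := h.sl2 ha hta
  have q1 : (centralizer (W : Set G)).subgroupOf (thJ p K ⊓ centralizer (X : Set G)) =
      (centralizer (U : Set G)).subgroupOf (thJ p K ⊓ centralizer (X : Set G)) :=
    Subgroup.ext fun d => w4 d d.2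
  have q2 : (centralizer (U : Set G)).subgroupOf E = (centralizer (V : Set G)).subgroupOf E := by
    rw [← h.rE_inf ha hta, inf_subgroupOf_left]
  have q3 : bar U (thJ p K ⊓ centralizer (X : Set G)) = bar U E := by
    refine le_antisymm ((bar_le_bar_iff hDU hEU).mpr (inf_le_left.trans ((h.gen (K := E ⊔
      centralizer (U : Set G)) fun b hb htb => ?_).trans (sup_le le_rfl
        (le_sup_of_le_right (GT.centralizer_anti rW_le)))))) ((bar_le_bar_iff hEU hDU).mpr k)
    by_cases e : E = rE p V (thJ p K) b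
    · exact mem_sup_left (e ▸ mem_rE htb.1)
    · exact mem_sup_right ((h.cases_of_ne ha hta hb htb e).1 (mem_rE htb.1))
  exact ⟨(QuotientGroup.quotientMulEquivOfEq q1).trans (e1.trans ((MulEquiv.subgroupCongr q3).trans
    (e2.symm.trans ((QuotientGroup.quotientMulEquivOfEq q2).trans e3))))⟩

end Cfsg.Agent.S0621
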