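import Mathlib
import Cfsg.Agent.Perm.PrimeDegree
import Cfsg.Statements.S0675

set_option autoImplicit false
open Cfsg

namespace Cfsg.Agent.S0675

/-- Burnside's Theorem on permutation groups of prime degree: a transitive permutation group of prime degree that is not solvable is doubly transitive. -/
theorem result {α : Type*} [Fintype α] [DecidableEq α] (hα : (Fintype.card α).Prime) (G : Subgroup (Equiv.Perm α)) [MulAction.IsPretransitive G α] : Group.IsSolvable G ∨ MulAction.IsMultiplyPretransitive G α 2 := by
  haveI : Fact (Fintype.card α).Prime := ⟨hα⟩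
  obtain ⟨P⟩ : Nonempty (Sylow (Fintype.card α) G) := inferInstance
  have hcard : Nat.card α = Fintype.card α := Nat.card_eq_fintype_card
  obtain ⟨a⟩ : Nonempty α := Fintype.card_pos_iff.1 hα.pos
  obtain ⟨τ, -, -, e, -, he⟩ := Cfsg.Agent.Perm.exists_coord_sylow hcard P a
  rcases Cfsg.Agent.Perm.affine_or_two_pretransitive he with h | h
  · exact Or.inl (Cfsg.Agent.Perm.isSolvable_of_affine h)
  · exact Or.inr h

end Cfsg.Agent.S0675
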