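import Cfsg.Statements.S0698
import Mathlib
import Cfsg.Agent.Perm.Multi
-- import your own Cfsg.Agent.* helpers here

set_option autoImplicit false
open Cfsg

namespace Cfsg.Agent.S0698

open MulAction Cfsg.Agent.Perm

/-- Jordan's Theorem on normal subgroups of multiply transitive groups: if `G` is `k`-transitive (`k > 1`) of degree greater than `k`, a non-trivial normal subgroup is `(k-1)`-transitive, except possibly for `k = 3` when it may be an elementary abelian 2-group. -/
theorem result {α : Type*} [Fintype α] [DecidableEq α] (G : Subgroup (Equiv.Perm α)) {k : ℕ} (hk : 1 < k) (hdeg : k < Fintype.card α) (hG : MulAction.IsMultiplyPretransitive G α k) (N : Subgroup G) [N.Normal] (hN : N ≠ ⊥) : MulAction.IsMultiplyPretransitive N α (k - 1) ∨ (k = 3 ∧ IsMulCommutative N ∧ ∀ n ∈ N, n ^ 2 = 1) := by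
  rw [← Nat.card_eq_fintype_card] at hdeg
  have h2 : IsMultiplyPretransitive G α 2 := isMultiplyPretransitive_of_le (n := k) hk hdeg.le
  have hp : IsPreprimitive G α := isPreprimitive_of_is_two_pretransitive h2
  have ht := isPretransitive_of_normal_ne_bot hp N hN
  by_cases hreg : ∀ a : α, stabilizer N a = ⊥
  · rcases Nat.lt_or_ge k 3 with h3 | h3
    · left
      obtain rfl : k = 2 := by omega
      exact is_one_pretransitive_iff.2 ht
    have : Nontrivial α := Finite.one_lt_card_iff_nontrivial.1 (by omega)
    obtain ⟨a, b, hab⟩ := exists_pair_ne α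
    have p1 := fix_prim_of_trans hG hdeg.le {a} (by simp; omega)
    rw [Finset.coe_singleton] at p1
    have h := (regular_normal_two_prim a p1 N (hreg a)).resolve_left (by omega)
    rcases h3.eq_or_lt with h3 | h3
    · exact Or.inr ⟨h3.symm, isMulCommutative_of_sq N h, h⟩
    · have p2 := fix_prim_of_trans hG hdeg.le {a, b} (by rw [Finset.card_pair hab]; omega)
      rw [Finset.coe_pair] at p2
      have := regular_normal_three_prim hab (by omega) p2 N hreg h
      omega
  left
  push Not at hreg
  apply normal_isMultiplyPretransitive N (by omega)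
    (fun s hs => fix_prim_of_trans hG hdeg.le s (by omega)) hN hreg (fun j _ hj => by omega)
  intro t ht a b hab hsw s hs
  have h1 : 1 < (sᶜ).card := by
    rw [Finset.card_compl, ← Nat.card_eq_fintype_card]; omega
  obtain ⟨c, hc, d, hd, hcd⟩ := Finset.one_lt_card.1 h1
  obtain ⟨g, rfl, rfl⟩ := exists_smul_eq_two h2 hab hcd
  refine ⟨g * t * g⁻¹, Subgroup.Normal.conj_mem inferInstance t ht g, fun e => ?_, fun x hx => ?_⟩
  · have := conj_smul_smul g t a
    rw [e, one_smul, hsw, Equiv.swap_apply_left] at this
    exact hcd this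
  · rw [mul_smul, mul_smul, hsw, Equiv.swap_apply_of_ne_of_ne, smul_inv_smul]
    · rintro rfl
      simp [hx] at hc
    · rintro rfl
      simp [hx] at hd

end Cfsg.Agent.S0698
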