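import Cfsg.Statements.S0699
import Mathlib
import Cfsg.Agent.Perm.Generous
import Cfsg.Agent.S0698
-- import your own Cfsg.Agent.* helpers here

set_option autoImplicit false
open Cfsg

namespace Cfsg.Agent.S0699

open MulAction Cfsg.Agent.Perm SubMulAction

theorem induces_of_swap {G X : Type*} [Group G] [MulAction G X] [DecidableEq X] (s : Finset X)
    (h : ∀ a ∈ s, ∀ b ∈ s, a ≠ b → ∃ g : G, ∀ x ∈ s, g • x = Equiv.swap a b x) (σ : Equiv.Perm s) :
    ∃ g : G, ∀ x : s, g • (x : X) = σ x := by
  induction σ using Equiv.Perm.swap_induction_on with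
  | one => exact ⟨1, fun x => by simp⟩
  | swap_mul f x y hxy ih =>
    obtain ⟨g, hg⟩ := ih
    obtain ⟨u, hu⟩ := h x x.2 y y.2 (fun e => hxy (Subtype.ext e))
    refine ⟨u * g, fun z => ?_⟩
    rw [mul_smul, hg, hu _ (f z).2, Equiv.Perm.mul_apply]
    exact (Subtype.val_injective.map_swap x y (f z)).symm

theorem orbit_dvd {G X : Type*} [Group G] [MulAction G X] (s : Set X)
    (ht : ∀ a ∉ s, ∀ b ∉ s, ∃ g : G, (∀ x ∈ s, g • x = x) ∧ g • a = b) (N : Subgroup G) [N.Normal]
    {b : X} (hb : b ∉ s) : (orbit (fixingSubgroup N s) b).ncard ∣ (sᶜ).ncard := by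
  have := (fix_isPretransitive_iff s).2 ht
  have hb := (IsBlock.orbit_of_normal (N := N.subgroupOf (fixingSubgroup G s))
    (⟨b, hb⟩ : ofFixingSubgroup G s)).ncard_dvd_card ⟨_, mem_orbit_self _⟩
  rw [← Set.ncard_image_of_injective _ Subtype.val_injective] at hb
  change _ ∣ Nat.card (ofFixingSubgroup G s)
  convert hb using 2
  ext x
  simp only [mem_orbit_subgroup_iff, Set.mem_image]
  constructor
  · rintro ⟨n, h1, rfl⟩
    exact ⟨_, ⟨⟨n, h1⟩, n.2, rfl⟩, rfl⟩
  · rintro ⟨_, ⟨n, hn, rfl⟩, rfl⟩
    exact ⟨⟨n, hn⟩, n.2, rfl⟩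


/-- Wagner's Theorem: a non-trivial normal subgroup of a triply transitive permutation group of odd degree at least 5 is triply transitive. -/
theorem result {α : Type*} [Fintype α] [DecidableEq α] (G : Subgroup (Equiv.Perm α)) (hodd : Odd (Fintype.card α)) (h5 : 5 ≤ Fintype.card α) (hG : MulAction.IsMultiplyPretransitive G α 3) (N : Subgroup G) [N.Normal] (hN : N ≠ ⊥) : MulAction.IsMultiplyPretransitive N α 3 := by
  have h2 : IsMultiplyPretransitive N α 2 := by
    rcases S0698.result G (k := 3) (by omega) (by omega) hG N hN with h | ⟨-, h1, h2⟩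
    · exact h
    · exfalso
      have hG2 : IsMultiplyPretransitive G α 2 :=
        isMultiplyPretransitive_of_le (n := 3) (by omega) (by rw [Nat.card_eq_fintype_card]; omega)
      have := isPretransitive_of_normal_ne_bot (isPreprimitive_of_is_two_pretransitive hG2) N hN
      have := nontrivial_of_ne_bot (X := α) hN
      obtain ⟨a⟩ : Nonempty α := inferInstance
      obtain ⟨m, hm⟩ := card_eq_prime_pow_of_forall_pow N Nat.prime_two h2
      rw [card_subgroup_eq_of_regular N a (stabilizer_eq_bot_of_comm N h1 a),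
        Nat.card_eq_fintype_card] at hm
      rw [hm] at hodd h5
      rcases m with _ | m
      · omega
      · exact (Nat.not_even_iff_odd.2 hodd) (by rw [pow_succ]; exact even_two.mul_left _)
  rw [← Nat.card_eq_fintype_card] at hodd h5
  have : Nontrivial α := Finite.one_lt_card_iff_nontrivial.1 (by omega)
  obtain ⟨a, b, hab⟩ := exists_pair_ne α
  obtain ⟨t, ht1, ht2⟩ := exists_smul_eq_two h2 hab hab.symm
  obtain ⟨m, k, hm, hk⟩ := exists_pow_pPart Nat.prime_two t
  obtain ⟨c, -, hc⟩ := exists_fixed_of_pow Nat.prime_two hk (Set.univ : Set α) (Set.toFinite _)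
    (fun _ _ => trivial) (by rw [Set.ncard_univ]; exact hodd.not_two_dvd_nat)
  obtain ⟨j, rfl⟩ : Odd m := Nat.odd_iff.2 (by omega)
  have hsq : ∀ x : α, (t * t) • x = x → t ^ (2 * j + 1) • x = t • x := by
    intro x hx
    have : (t ^ 2) ^ j ∈ stabilizer N x := Subgroup.pow_mem _ (by rw [pow_two]; exact hx) j
    rw [pow_succ', pow_mul, mul_smul, this]
  have hu1 := hsq a (by rw [mul_smul, ht1, ht2])
  have hu2 := hsq b (by rw [mul_smul, ht2, ht1])
  rw [ht1] at hu1
  rw [ht2] at hu2
  generalize t ^ (2 * j + 1) = u at hu1 hu2 hc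
  have hca : c ≠ a := by rintro rfl; exact hab (hc.symm.trans hu1)
  have hcb : c ≠ b := by rintro rfl; exact hab (hu2.symm.trans hc)
  have hgen : IsGenerous N α 2 := by
    refine isGenerous_of_subtype fun s hs => induces_of_swap s fun x hx y hy hxy => ?_
    obtain ⟨z, hz⟩ : ∃ z, (s.erase x).erase y = {z} := by
      rw [← Finset.card_eq_one, Finset.card_erase_of_mem (by simp [hy, hxy.symm]),
        Finset.card_erase_of_mem hx, hs]
    have hz' : z ∈ (s.erase x).erase y := hz ▸ Finset.mem_singleton_self z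
    simp only [Finset.mem_erase] at hz'
    obtain ⟨g, h1, h2, h3⟩ := exists_smul_eq_three hG (a := a) (b := b) (c := c) (a' := x) (b' := y)
      (c' := z) (by simp [hab, hca.symm, hcb.symm]) (by simp [hxy, hz'.1.symm, hz'.2.1.symm])
    refine ⟨⟨g * u * g⁻¹, Subgroup.Normal.conj_mem inferInstance _ u.2 g⟩, fun w hw => ?_⟩
    change (g * u * g⁻¹) • w = _
    by_cases hwx : w = x
    · rw [hwx, Equiv.swap_apply_left, ← h1, conj_smul_smul, ← h2]
      exact congrArg _ hu1
    by_cases hwy : w = y
    · rw [hwy, Equiv.swap_apply_right, ← h2, conj_smul_smul, ← h1]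
      exact congrArg _ hu2
    have : w ∈ (s.erase x).erase y := by simp [hw, hwx, hwy]
    rw [hz, Finset.mem_singleton] at this
    rw [Equiv.swap_apply_of_ne_of_ne hwx hwy, this, ← h3, conj_smul_smul]
    exact congrArg _ hc
  apply isMultiplyPretransitive_succ_of_forall_fix h2
  intro s hs x hx y hy
  by_contra hne
  have hxy : y ∉ orbit (fixingSubgroup N (s : Set α)) x := by
    rintro ⟨g, hg⟩
    exact hne ⟨g, (mem_fixingSubgroup_iff N).1 g.2, hg⟩
  obtain ⟨i, hi⟩ := hgen.exists_dvd (by omega) Nat.prime_two le_rfl s hs ![x, y]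
    (fun i => by fin_cases i <;> assumption) (fun i j hij => by
      fin_cases i <;> fin_cases j
      · exact absurd rfl hij
      · exact hxy
      · exact fun h => hxy (mem_orbit_symm.1 h)
      · exact absurd rfl hij)
  have h3 := orbit_dvd (s : Set α) (fun a ha b hb => exists_fix_smul hG (by omega) s (by omega) ha hb)
    N (b := ![x, y] i) (by fin_cases i <;> assumption)
  have h4 := ncard_compl_finset s
  have h5 := hi.trans h3
  obtain ⟨r, hr⟩ := hodd
  omega

end Cfsg.Agent.S0699
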