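import Mathlib
import Cfsg.Agent.Perm.TwoP
import Cfsg.Statements.S0720

set_option autoImplicit false
open Cfsg

namespace Cfsg.Agent.S0720

open MulAction Perm Perm.TwoP in
theorem aux {G Ω : Type*} [Group G] [MulAction G Ω] [FaithfulSMul G Ω] [Fintype Ω]
    [DecidableEq Ω] {p : ℕ} [Fact p.Prime] (hΩ : Fintype.card Ω = 2 * p)
    (hG : IsPreprimitive G Ω) (h2 : ¬ IsMultiplyPretransitive G Ω 2) (a : Ω) :
    ∃ (b c : Ω) (s : ℤ), b ≠ a ∧ c ≠ a ∧ c ∉ orbit (stabilizer G a) b ∧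
      (Nat.card (orbit (stabilizer G a) b) : ℤ) = s * (2 * s + 1) ∧
      (Nat.card (orbit (stabilizer G a) c) : ℤ) = (s + 1) * (2 * s + 1) ∧
      ∀ y, y = a ∨ y ∈ orbit (stabilizer G a) b ∨ y ∈ orbit (stabilizer G a) c := by
  haveI : Finite G := finite_of_faithful (X := Ω)
  obtain ⟨τ, φ, hφ⟩ := exists_coord hΩ hG h2
  obtain ⟨E, hE⟩ := exists_proj hφ
  have ht := hE.trace_eq hφ hG h2
  have key : ∀ b, b ≠ a → ∃ s : ℤ, (Nat.card (orbit (stabilizer G a) b) : ℚ) = s * (2 * s + 1) ∧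
      2 * (2 * s + 1) * E a b = 1 := fun b hb => by
    obtain ⟨s, hs⟩ := exists_int_ev (G := G) (φ := φ) a b
    have h1 := hE.ev_ne_zero hφ ht (two_le_card_orbit hΩ hG) hb
    have h3 := hE.card_eq hφ ht hb h1
    have h4 := hE.card_mul_entry ht a b
    rw [show ev φ (orbMat G ℚ a b) = s from hs] at h1 h3 h4
    exact ⟨s, h3, mul_left_cancel₀ h1 (by rw [h3] at h4; linarith)⟩
  have hpt : ∀ i, ∃ b, b ≠ a ∧ E a b = E (φ (i, 0)) (φ (i, 1)) := fun i => by
    obtain ⟨g, hg⟩ := exists_smul_eq G (φ (i, 0)) a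
    exact ⟨g • φ (i, 1), fun e => by simpa using smul_left_cancel g (e.trans hg.symm),
      by rw [← hg, hE.inv]⟩
  obtain ⟨b, hb, hb'⟩ := hpt 0
  obtain ⟨c, hc, hc'⟩ := hpt 1
  have h1 := IsProj.add_eq ht 1
  rw [← hb', ← hc', if_neg zero_ne_one] at h1
  obtain ⟨s, hs, hs'⟩ := key b hb
  obtain ⟨t, ht1, ht'⟩ := key c hc
  have h0 : E a b ≠ 0 := fun e => by simp [e] at hs'
  have hst : (t : ℚ) = -s - 1 := mul_right_cancel₀ h0 (by
    rw [show E a c = -E a b by linarith] at ht'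
    linarith)
  have horb : ∀ x y : Ω, y ∈ orbit (stabilizer G a) x ↔ ∃ g : G, g • a = a ∧ g • x = y :=
    fun x y => mem_orbit_subgroup_iff
  have hval : ∀ x y, (∃ g : G, g • a = a ∧ g • x = y) → E a y = E a x := by
    rintro x _ ⟨g, hg, rfl⟩
    rw [← hE.inv g a x, hg]
  refine ⟨b, c, s, hb, hc, fun e => h0 ?_, by exact_mod_cast hs, ?_, fun y => ?_⟩
  · linarith [hval _ _ ((horb _ _).1 e)]
  · rw [hst] at ht1
    exact_mod_cast ht1.trans (by ring : _ = ((s : ℚ) + 1) * (2 * s + 1))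
  by_contra hy
  simp only [not_or, horb] at hy
  have h3 := congrFun (congrFun hE.mul_self a) a
  have h4 : ∑ w, ((if w = a then 1 / 4 else 0) + (if w = y then E a y ^ 2 else 0) +
      orbMat G ℚ a b a w * E a b ^ 2 + orbMat G ℚ a c a w * E a b ^ 2) ≤ ∑ w, E a w * E w a := by
    refine Finset.sum_le_sum fun w _ => ?_
    rw [hE.symm' w a]
    by_cases e1 : w = a
    · rw [e1, if_pos rfl, if_neg (Ne.symm hy.1), orbMat_diag hb, orbMat_diag hc, hE.diag ht]
      norm_num
    by_cases e2 : w = y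
    · rw [if_neg e1, if_pos e2, e2, orbMat_of_not_mem hy.2.1, orbMat_of_not_mem hy.2.2]
      simp [sq]
    rw [if_neg e1, if_neg e2]
    rcases IsProj.orbMat_cases (G := G) a b a w with e | ⟨e, f⟩ <;>
      rcases IsProj.orbMat_cases (G := G) a c a w with e' | ⟨e', f'⟩ <;> rw [e, e']
    · simpa using mul_self_nonneg _
    · rw [hval _ _ f', show E a c = -E a b by linarith]
      simp [sq]
    · simp [hval _ _ f, sq]
    · exact absurd (by linarith [hval _ _ f, hval _ _ f']) h0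
  rw [← Matrix.mul_apply, h3, hE.diag ht] at h4
  simp only [Finset.sum_add_distrib, Finset.sum_ite_eq', Finset.mem_univ, if_true,
    ← Finset.sum_mul, sum_orbMat, hs, ht1, hst] at h4
  obtain ⟨u, -, hu⟩ := key y hy.1
  have h5 : 0 < E a y ^ 2 := by
    have : E a y ≠ 0 := fun e => by simp [e] at hu
    positivity
  have h6 : (2 * (2 * (s : ℚ) + 1) * E a b) ^ 2 = 1 := by rw [hs', one_pow]
  nlinarith


/-- Wielandt's Theorem on primitive groups of degree `2p`: such a group is doubly transitive, or it has rank 3, `p = 2a² + 2a + 1`, and subdegrees `a(2a+1)` and `(a+1)(2a+1)`. -/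
theorem result {α : Type*} [Fintype α] [DecidableEq α] {p : ℕ} (hp : p.Prime) (hα : Fintype.card α = 2 * p) (G : Subgroup (Equiv.Perm α)) (hG : MulAction.IsPreprimitive G α) (a₀ : α) : MulAction.IsMultiplyPretransitive G α 2 ∨ (Nat.card (MulAction.orbitRel.Quotient (MulAction.stabilizer G a₀) α) = 3 ∧ ∃ a : ℕ, 0 < a ∧ p = 2 * a ^ 2 + 2 * a + 1 ∧ ∀ b : α, b ≠ a₀ → Nat.card (MulAction.orbit (MulAction.stabilizer G a₀) b) = a * (2 * a + 1) ∨ Nat.card (MulAction.orbit (MulAction.stabilizer G a₀) b) = (a + 1) * (2 * a + 1)) := by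
  haveI : Fact p.Prime := ⟨hp⟩
  refine or_iff_not_imp_left.2 fun h2 => ?_
  obtain ⟨b, c, s, hb, hc, hbc, h3, h4, hall⟩ := aux hα hG h2 a₀
  have hne : ∀ x, x ≠ a₀ → a₀ ∉ MulAction.orbit (MulAction.stabilizer G a₀) x :=
    fun x hx ⟨g, hg⟩ => hx (smul_left_cancel (g : G) (hg.trans g.2.symm))
  have hcard : (2 * p : ℤ) = 1 + s * (2 * s + 1) + (s + 1) * (2 * s + 1) := by
    have h5 : (Set.univ : Set α) = insert a₀ (MulAction.orbit (MulAction.stabilizer G a₀) b ∪
      MulAction.orbit (MulAction.stabilizer G a₀) c) := (Set.eq_univ_of_forall hall).symm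
    have h6 := congrArg Set.ncard h5
    have h7 : Disjoint (MulAction.orbit (MulAction.stabilizer G a₀) b)
        (MulAction.orbit (MulAction.stabilizer G a₀) c) :=
      Set.disjoint_left.2 fun x h1 h2 => hbc (MulAction.orbit_eq_iff.2 h1 ▸
        MulAction.mem_orbit_symm.1 h2)
    rw [Set.ncard_univ, Nat.card_eq_fintype_card, hα, Set.ncard_insert_of_notMem
      (by rintro (e | e); exacts [hne b hb e, hne c hc e]), Set.ncard_union_eq h7] at h6
    rw [← h3, ← h4, Nat.card_coe_set_eq, Nat.card_coe_set_eq]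
    omega
  have hsub : ∀ y, y ≠ a₀ →
      (Nat.card (MulAction.orbit (MulAction.stabilizer G a₀) y) : ℤ) = s * (2 * s + 1) ∨
      (Nat.card (MulAction.orbit (MulAction.stabilizer G a₀) y) : ℤ) = (s + 1) * (2 * s + 1) :=
    fun y hy => ((hall y).resolve_left hy).imp (fun h => by rw [MulAction.orbit_eq_iff.2 h, h3])
      fun h => by rw [MulAction.orbit_eq_iff.2 h, h4]
  have h7 := hp.two_le
  constructor
  · rw [← Set.ncard_univ, Set.ncard_eq_three]
    refine ⟨Quotient.mk'' a₀, Quotient.mk'' b, Quotient.mk'' c,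
      fun e => hne b hb (Quotient.exact' e), fun e => hne c hc (Quotient.exact' e),
      fun e => hbc (Quotient.exact' e.symm), (Set.eq_univ_of_forall fun q => ?_).symm⟩
    induction q using Quotient.inductionOn' with
    | h y => exact (hall y).imp (congrArg _) (Or.imp Quotient.sound' Quotient.sound')
  rcases le_or_gt 0 s with h8 | h8
  · lift s to ℕ using h8
    refine ⟨s, Nat.pos_of_ne_zero (by rintro rfl; omega), by zify; nlinarith, fun y hy => ?_⟩
    exact_mod_cast hsub y hy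
  · obtain ⟨t, rfl⟩ : ∃ t : ℕ, s = -t - 1 := ⟨(-s - 1).toNat, by omega⟩
    refine ⟨t, Nat.pos_of_ne_zero (by rintro rfl; omega), by zify; nlinarith, fun y hy => ?_⟩
    refine (hsub y hy).symm.imp (fun h => ?_) fun h => ?_ <;> zify <;> linarith

end Cfsg.Agent.S0720
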