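import Mathlib
import Cfsg.Statements.S0824
import Cfsg.Agent.Cl.QuadSym
import Cfsg.Agent.S0288
import Cfsg.Agent.Cl.Transport

set_option autoImplicit false
open Cfsg

namespace Cfsg.Agent.S0824

open Cfsg.Agent.Cl


/-- O⁻_4(2) ≅ S_5: the isometry group of the form x y + z_1² + z_1 z_2 + z_2² over the field with 2 elements is isomorphic to the symmetric group on 5 letters. -/
theorem result {F : Type*} [Field F] [Fintype F] (hF : Fintype.card F = 2) : Nonempty (↥(Cfsg.isometryGroup F (Cfsg.quadFormMinus 1 F 1 1)) ≃* Equiv.Perm (Fin 5)) := by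
  classical
  obtain ⟨σ⟩ := nonempty_ringEquiv_zmod (F := F) 2 hF
  have hnd := quad_evenForm_nondeg (ι := Fin 5) (by decide)
  have hdim : Module.finrank (ZMod 2) (quad_even (Fin 5)) = 2 * 2 := by
    have := quad_finrank_even (ι := Fin 5)
    rw [Fintype.card_fin] at this
    omega
  obtain ⟨g, hg⟩ := quad_minus_of_gauss_neg hnd (by omega) hdim (by
    rw [quad_gauss_evenForm]; decide)
  let e := (OG.congr (Q' := quad_minus 1 (ZMod 2) 1 1) g hg).trans (omatEquiv _).symm
  let φ := e.toMonoidHom.comp (quad_evenPerm (Fin 5))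
  have h1 := S0288.result (ZMod.card 2) 2 (by norm_num) 1 1 (by decide)
  have hb : Function.Bijective φ := (Nat.bijective_iff_injective_and_card φ).2
    ⟨e.injective.comp (quad_evenPerm_injective (by simp)), by
      refine Eq.trans ?_ h1.symm
      rw [Nat.card_perm, Nat.card_fin]; rfl⟩
  refine ⟨(isometryGroupMapEquiv σ fun v => ?_).trans (MulEquiv.ofBijective φ hb).symm⟩
  have := quadFormMinus_comp 1 σ 1 1 v
  rwa [map_one] at this

end Cfsg.Agent.S0824
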