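import Mathlib
import Cfsg.Statements.S0927
import Cfsg.Agent.Blk.DefectVanish

set_option autoImplicit false
open Cfsg

namespace Cfsg.Agent.S0927


/-- Let B be a block of the finite group G relative to a maximal ideal M of the algebraic integers containing p, let y represent a defect class of B and let P be a Sylow p-subgroup of the centralizer of y. (a) If x ∈ P and χ ∈ B has height zero, then χ (x * y) is not in the local ideal at M. (b) If x lies in the centre of P, then for every χ ∈ B the central character of χ at x * y is not in the local ideal at M. -/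
theorem result {G : Type*} [Group G] [Finite G] (p : ℕ) [Fact p.Prime] (M : Ideal Cfsg.AlgInt) (hM : Cfsg.IsPModular p M) (B : Set (Cfsg.IrrCharacter G)) (hB : Cfsg.IsPBlock M B) (y : G) (hy : Cfsg.IsDefectClass M B y) (P : Sylow p (Subgroup.centralizer ({y} : Set G))) (x : Subgroup.centralizer ({y} : Set G)) (hx : x ∈ (P : Subgroup (Subgroup.centralizer ({y} : Set G)))) : (∀ χ ∈ B, Cfsg.blockHeight p B (χ : G → ℂ) = 0 → ¬ Cfsg.MemLocalIdeal M ((χ : G → ℂ) ((x : G) * y))) ∧ ((∀ w ∈ (P : Subgroup (Subgroup.centralizer ({y} : Set G))), x * w = w * x) → ∀ χ ∈ B, ¬ Cfsg.MemLocalIdeal M (Cfsg.centralChar (χ : G → ℂ) ((x : G) * y))) := by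
  have := hM.isMaximal
  have hx' : ∃ k : ℕ, orderOf (x : G) = p ^ k := by
    obtain ⟨k, hk⟩ := (IsPGroup.iff_orderOf.1 P.isPGroup') ⟨x, hx⟩
    refine ⟨k, ?_⟩
    rw [← hk, Subgroup.orderOf_coe, ← Subgroup.orderOf_coe (⟨x, hx⟩ : (P : Subgroup _))]
  have hc : (x : G) * y = y * x := (Blk.mem_centralizer_singleton_iff' y _).1 x.2
  refine ⟨fun χ hχ h0 => Blk.not_mem_irr_mul_of_isDefectClass hM hB hy hx' hc hχ h0,
    fun hw χ hχ hmem => ?_⟩
  obtain ⟨χ₀, hχ₀, h0⟩ := Blk.Om.exists_height_zero (p := p) hB.nonempty
  have hmem₀ : MemLocalIdeal M (centralChar (χ₀ : G → ℂ) (x * y)) := by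
    have h1 := ((hB.sameBlock hχ₀ hχ) ((x : G) * y)).add hmem
    rwa [sub_add_cancel] at h1
  have hy' := Blk.Om.not_dvd_orderOf_of_isDefectClass hM hB hy
  -- the centralizer of `x * y` has the same `p`-part as that of `y`
  have hfac : (Nat.card (Subgroup.centralizer ({(x : G) * y} : Set G))).factorization p =
      blockDefect p B := by
    rw [← Blk.factorization_centralizer_of_isDefectClass hM hB hy]
    have hle : Subgroup.centralizer ({(x : G) * y} : Set G) ≤
        Subgroup.centralizer ({y} : Set G) := by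
      intro g hg
      rw [Blk.mem_centralizer_singleton_iff'] at hg ⊢
      have hmem := (Ch.mem_zpowers_mul_of_coprime (u := (x : G)) (v := y) hc
        (Ch.coprime_of_pow_of_not_dvd hM.prime hx' hy')).2
      obtain ⟨n, hn⟩ := hmem
      have : Commute g ((x : G) * y) := hg
      rw [← hn]
      exact (this.zpow_right n).eq
    have hP : (P : Subgroup (Subgroup.centralizer ({y} : Set G))).map
        (Subgroup.centralizer ({y} : Set G)).subtype ≤
        Subgroup.centralizer ({(x : G) * y} : Set G) := by
      rintro _ ⟨w, hwP, rfl⟩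
      rw [Blk.mem_centralizer_singleton_iff']
      have h1 : (x : G) * w = w * x := congrArg Subtype.val (hw w hwP)
      have h2 : (w : G) * y = y * w := (Blk.mem_centralizer_singleton_iff' y _).1 w.2
      show (w : G) * (x * y) = x * y * w
      rw [← mul_assoc, ← h1, mul_assoc, h2, mul_assoc]
    apply le_antisymm
    · exact (Nat.factorization_le_iff_dvd Nat.card_pos.ne' Nat.card_pos.ne').2
        (Subgroup.card_dvd_of_le hle) p
    · have h1 := Subgroup.card_dvd_of_le hP
      rw [Subgroup.card_map_of_injective (Subgroup.subtype_injective _), P.card_eq_multiplicity]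
        at h1
      exact (hM.prime.pow_dvd_iff_le_factorization Nat.card_pos.ne').1 h1
  exact Blk.not_mem_irr_mul_of_isDefectClass hM hB hy hx' hc hχ₀ h0
    ((Blk.centralChar_mem_iff_of_height_zero hM hχ₀ h0 hfac).1 hmem₀)

end Cfsg.Agent.S0927
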