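import Cfsg.Statements.S0989
import Cfsg.Agent.Sym.Aut
import Cfsg.Agent.Sym.Order

set_option autoImplicit false
open Cfsg

namespace Cfsg.Agent.S0989

/-- In the symmetric group on p or p + 1 letters, p a prime, the normalizer of a Sylow p-subgroup has order p * (p - 1). -/
theorem result {α : Type*} [Fintype α] [DecidableEq α] (p : ℕ) [Fact p.Prime] (hα : Fintype.card α = p ∨ Fintype.card α = p + 1) (P : Sylow p (Equiv.Perm α)) : Nat.card ↥(Subgroup.normalizer ((P : Subgroup (Equiv.Perm α)) : Set (Equiv.Perm α))) = p * (p - 1) := by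
  have hp : p.Prime := Fact.out
  have hP : Nat.card P = p := by
    rw [P.card_eq_multiplicity, Nat.card_perm, Nat.card_eq_fintype_card,
      Sym.factorization_factorial_of_lt_sq hp (by have := hp.two_le; rcases hα with h | h <;>
        nlinarith)]
    have : Fintype.card α / p = 1 := by
      have := hp.two_le
      rw [Nat.div_eq_iff (by omega)]; omega
    rw [this, pow_one]
  haveI : IsCyclic P := isCyclic_of_prime_card hP
  obtain ⟨g, hg⟩ := IsCyclic.exists_generator (α := P)
  have hct : ∀ x : P, x ≠ 1 → (x : Equiv.Perm α).cycleType = Multiset.replicate 1 p := by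
    intro x hx
    have h1 : orderOf (x : Equiv.Perm α) = p := by
      rw [Subgroup.orderOf_coe]
      exact orderOf_eq_prime ((congrArg (x ^ ·) hP).symm.trans pow_card_eq_one') hx
    obtain ⟨k, h2, h3, h4⟩ := Sym.exists_cycleType_of_orderOf_prime hp h1
    have : k = 1 := by
      have := hp.two_le
      rcases hα with h | h <;> nlinarith
    rw [h4, this]
  have hg1 : g ≠ 1 := by
    rintro rfl
    have := orderOf_eq_card_of_forall_mem_zpowers hg
    rw [hP, orderOf_one] at this
    exact hp.one_lt.ne this
  have hPz : (P : Subgroup (Equiv.Perm α)) = Subgroup.zpowers (g : Equiv.Perm α) := by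
    refine le_antisymm (fun x hx => ?_) (Subgroup.zpowers_le_of_mem g.2)
    obtain ⟨k, hk⟩ := hg ⟨x, hx⟩
    exact ⟨k, congrArg Subtype.val hk⟩
  have hsurj : Function.Surjective (P : Subgroup (Equiv.Perm α)).normalizerMonoidHom := by
    intro φ
    have h1 : φ g ≠ 1 := by simpa using hg1
    obtain ⟨σ, hσ⟩ := isConj_iff.1
      (Equiv.Perm.isConj_iff_cycleType_eq.2 ((hct g hg1).trans (hct _ h1).symm))
    have hN : σ ∈ Subgroup.normalizer ((P : Subgroup (Equiv.Perm α)) : Set (Equiv.Perm α)) := by
      apply Subgroup.mem_normalizer_fintype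
      intro x hx
      obtain ⟨k, hk⟩ := hg ⟨x, hx⟩
      obtain rfl : (g : Equiv.Perm α) ^ k = x := congrArg Subtype.val hk
      rw [← conj_zpow, hσ]
      exact Subgroup.zpow_mem _ (φ g).2 k
    refine ⟨⟨σ, hN⟩, ?_⟩
    ext x : 1
    obtain ⟨k, rfl⟩ := hg x
    simp only [map_zpow]
    congr 1
    exact Subtype.ext hσ
  have h1 := Subgroup.card_mul_index (P : Subgroup (Equiv.Perm α)).normalizerMonoidHom.ker
  rw [Subgroup.index_ker, MonoidHom.range_eq_top.2 hsurj, Subgroup.card_top, IsCyclic.card_mulAut,
    hP, Nat.totient_prime hp, Subgroup.normalizerMonoidHom_ker,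
    Nat.card_congr (Subgroup.subgroupOfEquivOfLe (Subgroup.centralizer_le_normalizer _)).toEquiv]
    at h1
  rw [← h1, hPz, Subgroup.zpowers_eq_closure, Subgroup.centralizer_closure,
    Sym.card_centralizer_of_cycleType_replicate (hct g hg1)]
  rcases hα with h | h <;> simp [h]

end Cfsg.Agent.S0989
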