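import Mathlib
import Cfsg.Statements.S1093
import Cfsg.Agent.Chev.WeylPoinc
import Cfsg.Agent.Chev.Good

set_option autoImplicit false
open Cfsg

namespace Cfsg.Agent.S1093

open Cfsg.Agent.Chev

theorem card_group {B W : Type*} [Group W] {M : CoxeterMatrix B} (cs : CoxeterSystem M W) :
    Nat.card M.Group = Nat.card W := Nat.card_congr cs.mulEquiv.toEquiv.symm

/-- `|W(E₆)| = 51840`, `|W(E₇)| = 2903040`, `|W(E₈)| = 696729600` for Mathlib's presented Coxeter groups. -/
theorem result (p : (Σ n : ℕ, CoxeterMatrix (Fin n)) × ℕ)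
    (hp : p ∈ [(⟨6, CoxeterMatrix.E₆⟩, 51840), (⟨7, CoxeterMatrix.E₇⟩, 2903040), (⟨8, CoxeterMatrix.E₈⟩, 696729600)]) :
    Nat.card p.1.2.Group = p.2 := by
  simp only [List.mem_cons, List.not_mem_nil, or_false] at hp
  rcases hp with rfl | rfl | rfl
  · exact (card_group exists_weylCs_E6.choose).trans card_weyl_E6
  · exact (card_group exists_weylCs_E7.choose).trans card_weyl_E7
  · exact (card_group exists_weylCs_E8.choose).trans card_weyl_E8

end Cfsg.Agent.S1093
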