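import Mathlib
-- Template for statement S1234 (row 1234; see /opt/grader/pristine/manifest.json for weights).
-- Copy to Cfsg/Agent/S1234.lean and replace the sorry. The statement below is byte-identical to the frozen
-- statement Cfsg.CfsgFrozen.S1234 (Cfsg/Statements/S1234.lean; the theorem Cfsg.four_group_wreath_two_self_centralizing_center_sectional_rank);
-- the grader kernel-checks Cfsg.Agent.S1234.result against that frozen type. Keep the theorem IN THIS FILE
-- (a `result` declared elsewhere and merely imported here is not credited); helpers may live anywhere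
-- under Cfsg/Agent/.
import Cfsg.Statements.S1234
import Cfsg.Agent.Inv.Harada
-- import your own Cfsg.Agent.* helpers here

set_option autoImplicit false
open Cfsg

namespace Cfsg.Agent.S1234

open Cfsg.Agent.Inv Cfsg.Agent.Inv.Fz Subgroup

/-- Let S be a finite 2-group and Q ≤ S a subgroup of order 32 having an elementary abelian subgroup E of order 16 and an involution s ∉ E whose centralizer in E has order 4 (so Q ≅ (Z₂ × Z₂) ≀ Z₂). If C_S(Z(Q)) = Q, then every section of S has 2-rank at most 4. -/
theorem result {S : Type*} [Group S] [Finite S] (hS : IsPGroup 2 S) (Q E : Subgroup S) (hEQ : E ≤ Q) (hE : Cfsg.IsElementaryAbelian 2 E) (hE16 : Nat.card E = 16) (hQ32 : Nat.card Q = 32) (s : S) (hsQ : s ∈ Q) (hsE : s ∉ E) (hs : orderOf s = 2) (hfix : Nat.card ↥(E ⊓ Subgroup.centralizer ({s} : Set S)) = 4) (hC : Subgroup.centralizer (((Subgroup.center Q).map Q.subtype : Subgroup S) : Set S) = Q) : Cfsg.SectionalPRankLE 2 4 S := by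
  have : Fact (Nat.Prime 2) := ⟨Nat.prime_two⟩
  have h2 : E.relIndex Q = 2 := by
    have := GT.PG.relIndex_mul_card hEQ
    rw [hE16, hQ32] at this; omega
  have hQ := GT.PG.sup_zpowers_eq_of_relIndex_prime Nat.prime_two hEQ h2 hsQ hsE
  refine Sec.W2.sec (s := s) ⟨hS, hE, hE16,
    GT.PG.le_normalizer_of_relIndex_prime (hS.to_subgroup Q) hEQ h2 hsQ,
    by rw [mul_self_of_two hs]; exact one_mem _, hfix, ?_⟩
  rw [hQ, ← hC]
  refine centralizer_le fun x hx => ?_
  obtain ⟨hx1, hx2⟩ := ST.mem_center_map_iff.1 hx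
  refine ⟨by_contra fun hxE => ?_, Sec.mem_cen.2 (hx2 s hsQ).symm⟩
  have h3 : E ⊓ centralizer {s} = E := inf_eq_left.2 fun y hy => Sec.mem_cen.2 (by
    have h4 := Sec.mul_mem_of_relIndex_le_two h2.le hsQ hx1 hsE hxE
    have h5 := hE.comm hy h4
    rwa [← mul_assoc, mul_assoc s, ← hx2 y (hEQ hy), ← mul_assoc, mul_left_inj] at h5)
  rw [h3] at hfix
  omega

end Cfsg.Agent.S1234
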