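import Mathlib
import Cfsg.Statements.S1349
import Cfsg.Agent.FG.DihLemma
import Cfsg.Agent.GT.Fitting
import Cfsg.Agent.Inv.Dihedral

set_option autoImplicit false
open Cfsg

namespace Cfsg.Agent.S1349


/-- Let G be finite, L ≤ G solvable of odd order, and A an elementary abelian 2-subgroup of order 2^d (d ≥ 1) normalizing L with C_A(L) = 1. Then there are subgroups A_1, …, A_d of A of order 2 generating A and subgroups L_1, …, L_d of L such that each A_i ⊔ L_i is dihedral of order 2 n_i with n_i odd and at least 3, and A_i ⊔ L_i commutes elementwise with A_j ⊔ L_j for i ≠ j. -/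
theorem result {G : Type*} [Group G] [Finite G] (L A : Subgroup G) (hLs : Group.IsSolvable ↥L) (hLodd : Odd (Nat.card ↥L)) (hA : Cfsg.IsElementaryAbelian 2 A) (d : ℕ) (hd : 1 ≤ d) (hAd : Nat.card ↥A = 2 ^ d) (hAL : A ≤ Subgroup.normalizer (L : Set G)) (hfaith : A ⊓ Subgroup.centralizer (L : Set G) = ⊥) : ∃ (Ai : Fin d → Subgroup G) (Li : Fin d → Subgroup G) (n : Fin d → ℕ), (∀ i, Ai i ≤ A ∧ Nat.card ↥(Ai i) = 2 ∧ Li i ≤ L ∧ Odd (n i) ∧ 3 ≤ n i ∧ Nonempty (↥(Ai i ⊔ Li i) ≃* DihedralGroup (n i))) ∧ (⨆ i, Ai i) = A ∧ ∀ i j, i ≠ j → ∀ x ∈ Ai i ⊔ Li i, ∀ y ∈ Ai j ⊔ Li j, x * y = y * x := by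
  have _ := hd
  have hF : Odd (Nat.card (fittingOf L)) :=
    hLodd.of_dvd_nat (Subgroup.card_dvd_of_le (GT.fittingOf_le L))
  have hAF := hAL.trans (GT.normalizer_le_normalizer_fittingOf L)
  have hcop : (Nat.card A).Coprime (Nat.card (fittingOf L)) := by
    rw [hAd]; exact (Nat.coprime_two_left.2 hF).pow_left d
  obtain ⟨a, x, h1, h2, h3, -, -⟩ := FG.DL.dihedral_lemma (fittingOf L) d A hA hAd
    inferInstance hF hAF (eq_bot_iff.2 fun c hc => by
      rw [← hfaith]
      refine ⟨hc.1, ?_⟩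
      have hcA : Subgroup.zpowers c ≤ A := Subgroup.zpowers_le.2 hc.1
      refine GT.CopAct.le_centralizer_of_commutator_le (A := Subgroup.zpowers c)
        (GT.CopAct.coprime_mono hcop hcA le_rfl) (le_trans (le_inf
          (GT.CopAct.commutator_le_of_le_normalizer (hcA.trans hAL))
          (GT.CopAct.commutator_le_centralizer_of_normalizer (GT.le_normalizer_fittingOf L)
            (Subgroup.zpowers_le.2 hc.2))) (GT.inf_centralizer_fittingOf_le L))
        (Subgroup.zpowers_le.2 hc.2) (Subgroup.mem_zpowers c))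
  have hc : ∀ b ∈ A, ∀ c ∈ A, b * c = c * b := fun b hb c hc =>
    congrArg Subtype.val (hA.1.is_comm.comm (⟨b, hb⟩ : A) ⟨c, hc⟩)
  have haa : ∀ i, a i * a i = 1 := fun i => by rw [← pow_two]; exact hA.2 _ (h1 i).1
  have hx1 : ∀ i, x i ≠ 1 := fun i h => (h1 i).2.2.1.one_lt.ne' (by rw [h, orderOf_one])
  have hnc : ∀ i, ¬ Commute (a i) (x i) := fun i h => hx1 i (FG.DL.eq_one_of_sq hF (h1 i).2.1 (by
    have := (h1 i).2.2.2
    rw [h.eq, mul_inv_cancel_right] at this
    exact mul_eq_one_iff_eq_inv.2 this))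
  refine ⟨fun i => Subgroup.zpowers (a i), fun i => Subgroup.zpowers (x i), fun i => orderOf (x i),
    fun i => ?_, h3, fun i j hij => ?_⟩
  · have ho : Odd (orderOf (x i)) := hF.of_dvd_nat (Subgroup.orderOf_dvd_natCard _ (h1 i).2.1)
    refine ⟨Subgroup.zpowers_le.2 (h1 i).1, ?_, Subgroup.zpowers_le.2 (GT.fittingOf_le L (h1 i).2.1),
      ho, ?_, ?_⟩
    · rw [Nat.card_zpowers]
      exact orderOf_eq_prime (by rw [pow_two, haa]) fun h => hnc i (h ▸ Commute.one_left _)
    · have := (h1 i).2.2.1.two_le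
      obtain ⟨k, hk⟩ := ho
      show 3 ≤ orderOf (x i)
      omega
    · obtain ⟨e⟩ := Inv.nonempty_closure_equiv_dihedral (haa i) (h1 i).2.2.2
        (fun ⟨k, hk⟩ => hnc i (hk ▸ (Commute.refl _).zpow_left k)) rfl
      refine ⟨(MulEquiv.subgroupCongr ?_).trans e⟩
      rw [Set.insert_eq, Subgroup.closure_union, sup_comm, ← Subgroup.zpowers_eq_closure,
        ← Subgroup.zpowers_eq_closure]
  · have key : Subgroup.zpowers (a j) ⊔ Subgroup.zpowers (x j) ≤ Subgroup.centralizer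
        ((Subgroup.zpowers (a i) ⊔ Subgroup.zpowers (x i) : Subgroup G) : Set G) := by
      rw [Subgroup.le_centralizer_iff]
      refine sup_le ?_ ?_ <;> rw [Subgroup.le_centralizer_iff] <;> refine sup_le ?_ ?_ <;>
        rw [Subgroup.zpowers_le] <;> rintro _ ⟨k, rfl⟩
      · exact hc _ (zpow_mem (h1 i).1 k) _ (h1 j).1
      · exact ((h2 i j hij).1.zpow_left k).eq
      · exact ((h2 j i hij.symm).1.symm.zpow_left k).eq
      · exact ((h2 i j hij).2.zpow_left k).eq
    exact fun x hx y hy => key hy x hx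

end Cfsg.Agent.S1349
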