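import Cfsg.Statements.S1534
import Cfsg.Agent.Ch.FeitOdd

set_option autoImplicit false
open Cfsg

namespace Cfsg.Agent.S1534

open Cfsg.Agent.FT Cfsg.Agent.Ch Cfsg.Agent.Ch.Feit

/-- Let G be a finite group and K a nontrivial nilpotent subgroup whose underlying set is a TI-subset of G, properly contained in its set normaliser N, with C_G(k) ≤ K for every non-identity k ∈ K; let e be the index of K in N and S the set of irreducible characters χ of N with χ k ≠ χ 1 for some k ∈ K. Then one of: S has exactly one member, Nat.card K = e + 1 and K is an elementary abelian p-group for some prime p; or K is a Sylow 2-subgroup of G (Nat.card K is the largest power of 2 dividing Nat.card G) and [K : [K,K]] < 4e²; or (S, N minus 1, induction to G) is coherent. -/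
theorem result {G : Type*} [Group G] [Fintype G] (K : Subgroup G) (hK1 : K ≠ ⊥) (hnil : Group.IsNilpotent K) (hTI : Cfsg.IsTISubset (K : Set G)) (hlt : K < Subgroup.normalizer (K : Set G)) (hC : ∀ k ∈ K, k ≠ 1 → Subgroup.centralizer ({k} : Set G) ≤ K) [Fintype ↥(Subgroup.normalizer (K : Set G))] : (Nat.card {χ : ↥(Subgroup.normalizer (K : Set G)) → ℂ // Cfsg.IsIrrCharacter ↥(Subgroup.normalizer (K : Set G)) χ ∧ ∃ k : ↥(Subgroup.normalizer (K : Set G)), (k : G) ∈ K ∧ χ k ≠ χ 1} = 1 ∧ Nat.card K = (K.subgroupOf (Subgroup.normalizer (K : Set G))).index + 1 ∧ ∃ p : ℕ, p.Prime ∧ Cfsg.IsElementaryAbelian p K) ∨ (Nat.card K = 2 ^ (Nat.card G).factorization 2 ∧ (⁅K, K⁆.subgroupOf K).index < 4 * (K.subgroupOf (Subgroup.normalizer (K : Set G))).index ^ 2) ∨ Cfsg.IsCoherent {χ : ↥(Subgroup.normalizer (K : Set G)) → ℂ | Cfsg.IsIrrCharacter ↥(Subgroup.normalizer (K : Set G)) χ ∧ ∃ k : ↥(Subgroup.normalizer (K : Set G)), (k : G) ∈ K ∧ χ k ≠ χ 1} {1}ᶜ (fun α => Cfsg.indFun (Subgroup.normalizer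 (K : Set G)) α) := by
  have hC' := cent_subgroupOf (N := Subgroup.normalizer (K : Set G)) hC
  have hcard : Nat.card (K.subgroupOf (Subgroup.normalizer (K : Set G))) = Nat.card K :=
    Nat.card_congr (Subgroup.subgroupOfEquivOfLe hlt.le).toEquiv
  have htop : K.subgroupOf (Subgroup.normalizer (K : Set G)) ≠ ⊤ := fun e =>
    hlt.not_ge (Subgroup.subgroupOf_eq_top.mp e)
  have := isNilpotent_of_cent hC' htop
  have h1 : K.subgroupOf (Subgroup.normalizer (K : Set G)) ≠ ⊥ := by
    rw [← Subgroup.one_lt_card_iff_ne_bot, hcard, Subgroup.one_lt_card_iff_ne_bot]; exact hK1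
  by_cases he : Nat.card (K.subgroupOf (Subgroup.normalizer (K : Set G))) =
      (K.subgroupOf (Subgroup.normalizer (K : Set G))).index + 1
  · obtain ⟨h2, q, hq, -, h3⟩ := of_card_eq hC' h1 he
    rw [SK_bot] at h2
    exact Or.inl ⟨h2, hcard ▸ he, q, hq, isElementaryAbelian_of_subgroupOf hlt.le h3⟩
  obtain ⟨χ, hχ, φ, hφ, hne⟩ := exists_ne_mem_SK hC' h1 he
  have hI := iso_indFun hTI hC
  suffices h : Coherent (SK (K.subgroupOf (Subgroup.normalizer (K : Set G))) ⊥)
      (fun α => indFun (Subgroup.normalizer (K : Set G)) α) ∨ _ by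
    rcases h with h | h
    · have h2 := hI.isCoherent h hχ hφ hne
      rw [SK_bot] at h2
      exact Or.inr (Or.inr h2)
    · exact Or.inr (Or.inl h)
  rcases Nat.even_or_odd (Nat.card K) with hev | hodd
  swap
  · exact Or.inl (coherent_of_odd hK1 hTI hlt hC hodd)
  refine (coherent_or hC' h1 htop hI).imp_right ?_
  rintro ⟨⟨p, hp, hP⟩, -, h3⟩
  have := Fact.mk hp
  obtain ⟨n, hn⟩ := hP.exists_card_eq
  rw [hcard] at hn
  have hp2 : 2 = p := (Nat.prime_dvd_prime_iff_eq Nat.prime_two hp).mp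
    (Nat.prime_two.dvd_of_dvd_pow (hn ▸ hev.two_dvd))
  subst hp2
  have hd := TI.index_dvd_card_sub_one _ hC'
  rw [hcard] at hd
  have hpos : 0 < Nat.card K := Nat.card_pos
  have heo : ¬ 2 ∣ (K.subgroupOf (Subgroup.normalizer (K : Set G))).index := fun e => by
    have := e.trans hd
    have := hev.two_dvd
    omega
  have he1 := Subgroup.one_lt_index_of_ne_top htop
  constructor
  · obtain ⟨P, hKP⟩ := (IsPGroup.of_card hn).exists_le_sylow
    rw [← P.card_eq_multiplicity]
    refine congrArg (fun X : Subgroup G => Nat.card X) (le_antisymm hKP ?_)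
    by_contra hPK
    have := P.isPGroup'.isNilpotent
    obtain ⟨x, hx, hx'⟩ := SetLike.exists_of_lt (Group.normalizerCondition_of_isNilpotent
      (K.subgroupOf (P : Subgroup G)) (lt_top_iff_ne_top.mpr fun e => hPK (Subgroup.subgroupOf_eq_top.mp e)))
    rw [← Subgroup.subgroupOf_normalizer_eq hKP] at hx
    obtain ⟨k, hk⟩ := P.isPGroup' x
    have h4 : (QuotientGroup.mk (⟨x, hx⟩ : Subgroup.normalizer (K : Set G)) :
        _ ⧸ K.subgroupOf (Subgroup.normalizer (K : Set G))) ^ 2 ^ k = 1 := by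
      rw [← QuotientGroup.mk_pow, show (⟨x, hx⟩ : Subgroup.normalizer (K : Set G)) ^ 2 ^ k = 1 from
        Subtype.ext (congrArg Subtype.val hk :), QuotientGroup.mk_one]
    have h5 := Nat.eq_one_of_dvd_coprimes
      (((Nat.Prime.coprime_iff_not_dvd Nat.prime_two).mpr heo).pow_left k)
      (orderOf_dvd_of_pow_eq_one h4) (orderOf_dvd_natCard _)
    have h6 := (QuotientGroup.eq_one_iff _).mp (orderOf_eq_one_iff.mp h5)
    exact hx' h6
  · rw [commutator_relIndex_subgroupOf hlt.le] at h3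
    obtain ⟨m, -, hm⟩ := (Nat.dvd_prime_pow Nat.prime_two).mp (hn ▸ Subgroup.index_dvd_card (⁅K, K⁆.subgroupOf K))
    rw [Subgroup.relIndex, hm] at h3
    rw [hm]
    generalize (K.subgroupOf (Subgroup.normalizer (K : Set G))).index = e at *
    by_contra hlt'
    rcases (show 2 ^ m = 4 * e ^ 2 ∨ 2 ^ m = 4 * e ^ 2 + 1 by omega) with h | h
    · obtain ⟨q, hq, hqe⟩ := Nat.exists_prime_and_dvd he1.ne'
      have : q ∣ 2 ^ m := h ▸ (hqe.trans (dvd_pow_self e two_ne_zero)).mul_left 4
      exact heo ((Nat.prime_dvd_prime_iff_eq hq Nat.prime_two).mp (hq.dvd_of_dvd_pow this) ▸ hqe)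
    · rcases m with _ | m
      · nlinarith
      · omega

end Cfsg.Agent.S1534
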