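import Cfsg.Statements.S1659
import Cfsg.Agent.Spor.HeTy3
import Cfsg.Agent.Spor.ESFstar

set_option autoImplicit false
open Cfsg

namespace Cfsg.Agent.S1659

/-- Uniqueness of the Held group at the level of isomorphism: a finite simple group of order 4030387200 with exactly two conjugacy classes of involutions, having an involution t whose centraliser C has a normal subgroup Q, extraspecial of order 2 ^ 7 with an elementary abelian subgroup of order 16, whose centraliser in C lies in Q, and with C / Q isomorphic to SL(3, 2), is isomorphic to the presented Held group. -/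
theorem result {G : Type*} [Group G] [Finite G] [IsSimpleGroup G] (t : G) (ht : orderOf t = 2) (Q : Subgroup (Subgroup.centralizer ({t} : Set G))) [Q.Normal] (hQ : Cfsg.IsExtraspecial 2 Q) (hcard : Nat.card Q = 2 ^ 7) (hplus : ∃ E : Subgroup Q, Cfsg.IsElementaryAbelian 2 E ∧ Nat.card E = 2 ^ 4) (h2c : Subgroup.centralizer (Q : Set (Subgroup.centralizer ({t} : Set G))) ≤ Q) (e : (Subgroup.centralizer ({t} : Set G)) ⧸ Q ≃* Matrix.SpecialLinearGroup (Fin 3) (ZMod 2)) (hG : Nat.card G = 4030387200) (htwo : ∃ x y : G, orderOf x = 2 ∧ orderOf y = 2 ∧ ¬ IsConj x y ∧ ∀ z : G, orderOf z = 2 → IsConj z x ∨ IsConj z y) : Cfsg.Spor.IsoHe G := by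
  obtain ⟨h1, h2⟩ := Spor.orderOf_eq_two_iff'.1 ht
  let t' : Subgroup.centralizer ({t} : Set G) := ⟨t, Subgroup.mem_centralizer_singleton_iff.2 rfl⟩
  have a1 : ∀ c : Subgroup.centralizer ({t} : Set G), t * c = c * t := fun c => c.2 t rfl
  have a2 : t ∈ Q.map (Subgroup.centralizer ({t} : Set G)).subtype :=
    ⟨t', h2c fun c _ => Subtype.ext (a1 c).symm, rfl⟩
  have h := Spor.ES2.of_mem (Spor.isExtraspecial_map_subtype hQ) a2 h1 (by rintro _ ⟨q, -, rfl⟩; exact a1 q)
  refine Spor.HeTy.HT.iso_He (π := e.toMonoidHom.comp (QuotientGroup.mk' Q)) ⟨h, h.lg (fun c hc => ?_) fun c hc => ?_,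
    (Subgroup.card_map_of_injective Subtype.val_injective).trans hcard, e.surjective.comp (QuotientGroup.mk'_surjective Q),
    fun c => ?_⟩ hG fun a b b1 b2 b3 b4 b5 b6 => ?_
  · exact ⟨⟨c, fun _ e => e ▸ hc t a2⟩, h2c fun q hq => Subtype.ext (hc q ⟨q, hq, rfl⟩), rfl⟩
  · refine Subgroup.mem_normalizer_fintype ?_
    rintro _ ⟨q, hq, rfl⟩
    exact ⟨_, Subgroup.Normal.conj_mem inferInstance q hq ⟨c, hc⟩, rfl⟩
  · simp
  · obtain ⟨x, y, -, -, -, k⟩ := htwo
    have c1 := k t ht
    have c2 := k a (Spor.orderOf_eq_two_iff'.2 ⟨b2, b1⟩)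
    have c3 := k b (Spor.orderOf_eq_two_iff'.2 ⟨b4, b3⟩)
    rcases c1 with c1 | c1
    exacts [(c2.resolve_left fun c => b5 (c1.trans c.symm)).trans (c3.resolve_left fun c => b6 (c1.trans c.symm)).symm,
      (c2.resolve_right fun c => b5 (c1.trans c.symm)).trans (c3.resolve_right fun c => b6 (c1.trans c.symm)).symm]

end Cfsg.Agent.S1659
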