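import Mathlib
import Cfsg.Statements.S1892
import Cfsg.Agent.GT.PSolvable
import Cfsg.Agent.GT.Conj
import Cfsg.Agent.GT.CoprimeFixed

set_option autoImplicit false
open Cfsg

namespace Cfsg.Agent.S1892

open Subgroup Cfsg.Agent.GT

/-- Let S be a finite p-solvable group with no nontrivial normal subgroup of order prime to p, A a p-subgroup of S, and Q a nontrivial A-invariant subgroup of order prime to p with [A, Q] = Q. Then the commutator [O_p(S), A, Q] is nontrivial. -/
theorem result {S : Type*} [Group S] [Finite S] {p : ℕ} [Fact p.Prime]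
    (hS : Cfsg.IsPSolvable p S) (hred : Cfsg.pPrimeCore p S = ⊥)
    (A Q : Subgroup S) (hA : IsPGroup p A) (hQ : ¬ p ∣ Nat.card Q) (hQ1 : Q ≠ ⊥)
    (hinv : ∀ a ∈ A, ∀ x ∈ Q, a * x * a⁻¹ ∈ Q) (hAQ : ⁅A, Q⁆ = Q) :
    ⁅⁅Cfsg.pCore p S, A⁆, Q⁆ ≠ ⊥ := by
  have hp : p.Prime := Fact.out
  intro h
  have hQc : (Nat.card Q).Coprime p := ((Nat.Prime.coprime_iff_not_dvd hp).2 hQ).symm
  have hPn : ∀ X : Subgroup S, X ≤ normalizer (pCore p S : Set S) := fun X => by
    rw [normalizer_eq_top]; exact le_top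
  have hQR : Q ≤ centralizer ((⁅pCore p S, A⁆ : Subgroup S) : Set S) :=
    CopAct.commutator_eq_bot_iff.1 h
  have h3 : ⁅⁅A, Q⁆, pCore p S⁆ ≤ ⁅pCore p S, A⁆ := by
    apply three_subgroups_of_le_normalizer (normalizer_commutator_ge_right _ _)
      (hQR.trans (centralizer_le_normalizer _)) (normalizer_commutator_ge_left _ _)
    · exact commutator_mono (commutator_le_right _ _) le_rfl
    · rw [h]; exact bot_le
  rw [hAQ, commutator_comm] at h3
  have hR : IsPGroup p (⁅pCore p S, A⁆ : Subgroup S) :=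
    (isPGroup_pCore p).to_le (commutator_le_left _ _)
  have h4 := CopAct.le_centralizer_of_commutator_le (CopAct.coprime_of_isPGroup_right hQc hR) h3 hQR
  have h5 : Q ≤ pCore p S := h4.trans (hS.centralizer_pCore_le hred)
  apply hQ1
  rw [← pCore_inf_eq_bot (p := p) hQc]
  exact (inf_eq_right.2 h5).symm

end Cfsg.Agent.S1892
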