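import Mathlib
import Cfsg.Statements.S1893
import Cfsg.Agent.GT.PStable
import Cfsg.Agent.GT.Fitting
import Cfsg.Agent.GT.PSolvable
import Cfsg.Agent.FT.BG4_19
-- import your own Cfsg.Agent.* helpers here

set_option autoImplicit false
open Cfsg

namespace Cfsg.Agent.S1893

open Subgroup Cfsg.Agent.GT
open scoped commutatorElement

theorem lemQ {S : Type*} [Group S] [Finite S] (hS : Group.IsSolvable S)
    (h5 : ∀ p : ℕ, p.Prime → pCore p S ≠ ⊥ → 5 ≤ p) {x : S}
    (hx : ∀ p : ℕ, p.Prime → ⁅⁅pCore p S, zpowers x⁆, zpowers x⁆ = ⊥) :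
    x ∈ fittingSubgroup S := by
  let D : Subgroup S := ⨅ p : Nat.Primes,
    (pCore p.1 (S ⧸ centralizer ((pCore p.1 S : Subgroup S) : Set S))).comap
      (QuotientGroup.mk' (centralizer ((pCore p.1 S : Subgroup S) : Set S)))
  have hDn : D.Normal := Subgroup.normal_iInf_normal fun p => inferInstance
  have hxD : x ∈ D := by
    refine mem_iInf.2 fun p => ?_
    have : Fact p.1.Prime := ⟨p.2⟩
    by_cases hb : pCore p.1 S = ⊥
    · have hc : x ∈ centralizer ((pCore p.1 S : Subgroup S) : Set S) := by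
        intro y hy
        rw [hb] at hy
        have : y = 1 := hy
        rw [this, one_mul, mul_one]
      rw [mem_comap, QuotientGroup.mk'_apply, (QuotientGroup.eq_one_iff x).2 hc]
      exact one_mem _
    · have h5' := h5 p.1 p.2 hb
      exact isPStableOn_of_not_involves (p := p.1) (by omega)
        (not_involves_sl2_of_isPSolvable h5' (isPSolvable_of_isSolvable hS)) (pCore p.1 S)
        (isPGroup_pCore _) x (hx p.1 p.2)
  have hle : D ≤ fittingOf (⊤ : Subgroup S) := by
    refine FT.b4_le_Fitting_of_cent (H := ⊤) (D := D) inferInstance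
      ⟨le_top, by rw [normalizer_eq_top]⟩ ?_
    intro q hq y hy hco
    rw [piCoreOf_top, ← pCore_eq_piCore hq]
    have h1 := mem_comap.1 (mem_iInf.1 hy ⟨q, hq⟩)
    obtain ⟨k, hk⟩ := isPGroup_pCore q ⟨_, h1⟩
    have hk' : (QuotientGroup.mk' (centralizer ((pCore q S : Subgroup S) : Set S)) y) ^ q ^ k = 1 :=
      congrArg Subtype.val hk
    have h2 : orderOf (QuotientGroup.mk' (centralizer ((pCore q S : Subgroup S) : Set S)) y) ∣ q ^ k :=
      orderOf_dvd_of_pow_eq_one hk'
    have h3 : orderOf (QuotientGroup.mk' (centralizer ((pCore q S : Subgroup S) : Set S)) y) ∣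
        orderOf y := orderOf_map_dvd _ _
    have h4 : orderOf (QuotientGroup.mk' (centralizer ((pCore q S : Subgroup S) : Set S)) y) = 1 :=
      (Nat.coprime_self _).1
        (Nat.Coprime.coprime_dvd_left h3 (Nat.Coprime.coprime_dvd_right h2 (hco.pow_right k)))
    exact (QuotientGroup.eq_one_iff y).1 (orderOf_eq_one_iff.1 h4)
  rw [fittingOf_top] at hle
  exact hle hxD

theorem core {S : Type*} [Group S] [Finite S] (hS : Group.IsSolvable S)
    (h5 : ∀ p : ℕ, p.Prime → pCore p S ≠ ⊥ → 5 ≤ p) {T A : Subgroup S}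
    (hF : fittingSubgroup S ≤ T) (hN : T ≤ normalizer (A : Set S))
    (hC : T ⊓ centralizer (A : Set S) ≤ A) : centralizer (A : Set S) ≤ A := by
  intro x hx
  refine hC (mem_inf.2 ⟨hF (lemQ hS h5 fun p hp => ?_), hx⟩)
  have hO : pCore p S ≤ T := (pCore_le_fitting hp).trans hF
  have hz : zpowers x ≤ centralizer (A : Set S) := (zpowers_le).2 hx
  have h1 : ⁅pCore p S, zpowers x⁆ ≤ A := by
    refine le_trans (le_inf ((commutator_le_left _ _).trans hO) ?_) hC
    rw [commutator_le]
    intro a ha b hb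
    have hb' := hz hb
    have ha' := hN (hO ha)
    rw [commutatorElement_def]
    refine mul_mem ?_ (inv_mem hb')
    intro y hy
    have hy' : a⁻¹ * y * a ∈ A := by
      have := (mem_normalizer_iff.1 (inv_mem ha') y).1 hy
      simpa using this
    have := hb' _ hy'
    calc y * (a * b * a⁻¹) = a * (a⁻¹ * y * a * b) * a⁻¹ := by group
      _ = a * (b * (a⁻¹ * y * a)) * a⁻¹ := by rw [this]
      _ = a * b * a⁻¹ * y := by group
  rw [eq_bot_iff]
  refine (commutator_mono h1 hz).trans ?_
  rw [le_bot_iff, commutator_comm, commutator_eq_bot_iff_le_centralizer]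


/-- Let S be a finite solvable group, π a set of primes containing neither 2 nor 3, H a Hall π-subgroup of S, and A a self-centralizing normal subgroup of the Fitting subgroup F(H). Then C_S(A) = A × D for a normal subgroup D of C_S(A) whose order has no prime divisor in π. -/
theorem result {S : Type*} [Group S] [Finite S] [Group.IsSolvable S]
    (π : Set ℕ) (h2 : 2 ∉ π) (h3 : 3 ∉ π) (H : Subgroup S) (hH : Cfsg.IsPiHall π H)
    (A : Subgroup S) (hA : Cfsg.IsSCN ((Cfsg.fittingSubgroup H).map H.subtype) A) :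
    ∃ D : Subgroup S, D ≤ Subgroup.centralizer (A : Set S) ∧
      (∀ c ∈ Subgroup.centralizer (A : Set S), ∀ d ∈ D, c * d * c⁻¹ ∈ D) ∧
      A ⊓ D = ⊥ ∧ A ⊔ D = Subgroup.centralizer (A : Set S) ∧
      ∀ q : ℕ, q.Prime → q ∣ Nat.card D → q ∉ π := by
  change IsSCN (fittingOf H) A at hA
  obtain ⟨hAT, hTN, hTC⟩ := hA
  let O := piCore πᶜ S
  let f := QuotientGroup.mk' O
  have hf : Function.Surjective f := QuotientGroup.mk'_surjective O
  have hTH : fittingOf H ≤ H := map_subtype_le _
  have hHO : H ⊓ O = ⊥ := hH.card.inf_eq_bot (isPiNum_piCore πᶜ)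
  have hinj : ∀ a ∈ H, f a = 1 → a = 1 := by
    intro a ha h
    have : a ∈ H ⊓ O := mem_inf.2 ⟨ha, (QuotientGroup.eq_one_iff a).1 h⟩
    rw [hHO] at this
    exact this
  have hinj' : Function.Injective (f.comp H.subtype) := by
    rw [injective_iff_map_eq_one]
    intro a ha
    exact Subtype.ext (hinj a a.2 ha)
  have hO' : piCore πᶜ (S ⧸ O) = ⊥ := piCore_quotient_piCore
  have hFπ : fittingSubgroup (S ⧸ O) ≤ piCore π (S ⧸ O) := fitting_le_piCore hO'
  have hHb : IsPiHall π (H.map f) := hH.map_of_surjective hf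
  have hT : (fittingOf H).map f = fittingOf (H.map f) := by
    have h1 := map_fittingOf_of_injective (⊤ : Subgroup H) hinj'
    rw [fittingOf_top, ← map_map, ← map_map, ← MonoidHom.range_eq_map, range_subtype] at h1
    exact h1
  have hcore : centralizer ((A.map f : Subgroup (S ⧸ O)) : Set (S ⧸ O)) ≤ A.map f := by
    refine core (T := (fittingOf H).map f) inferInstance ?_ ?_ ?_ ?_
    · intro p hp hne
      have : Fact p.Prime := ⟨hp⟩
      have hpπ : p ∈ π := by
        by_contra hn
        apply hne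
        rw [eq_bot_iff, ← hO']
        exact pCore_le_piCore hp hn
      exact five_le_of_prime_ne (fun h => h2 (h ▸ hpπ)) (fun h => h3 (h ▸ hpπ))
    · rw [hT]
      exact (le_inf le_rfl (hFπ.trans (piCore_le_of_isPiHall hHb))).trans (fitting_inf_le _)
    · exact (map_mono hTN).trans (le_normalizer_map f)
    · rintro _ ⟨⟨t, ht, rfl⟩, hc⟩
      refine mem_map_of_mem f (hTC.le (mem_inf.2 ⟨ht, ?_⟩))
      intro a ha
      have h1 := hc (f a) (mem_map_of_mem f ha)
      have h2 : f (a * t * (t * a)⁻¹) = 1 := by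
        rw [map_mul, map_inv, map_mul, map_mul, h1, mul_inv_cancel]
      have haH : a ∈ H := hTH (hAT ha)
      have := hinj _ (mul_mem (mul_mem haH (hTH ht)) (inv_mem (mul_mem (hTH ht) haH))) h2
      exact mul_inv_eq_one.1 this
  have hAC : A ≤ centralizer (A : Set S) := hTC.ge.trans inf_le_right
  have hCle : centralizer (A : Set S) ≤ A ⊔ O := by
    intro x hx
    have : f x ∈ A.map f := by
      apply hcore
      rintro _ ⟨a, ha, rfl⟩
      rw [← map_mul, ← map_mul, hx a ha]
    have h2 : x ∈ (A.map f).comap f := this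
    rw [comap_map_eq, QuotientGroup.ker_mk'] at h2
    exact h2
  refine ⟨centralizer (A : Set S) ⊓ O, inf_le_left, ?_, ?_, ?_, ?_⟩
  · intro c hc d hd
    exact mem_inf.2 ⟨mul_mem (mul_mem hc hd.1) (inv_mem hc), Normal.conj_mem inferInstance d hd.2 c⟩
  · rw [eq_bot_iff, ← hHO]
    exact inf_le_inf (hAT.trans hTH) inf_le_right
  · refine le_antisymm (sup_le hAC inf_le_left) ?_
    intro x hx
    obtain ⟨a, ha, o, ho, rfl⟩ := (mem_sup_of_normal_right).1 (hCle hx)
    refine mul_mem (mem_sup_left ha) (mem_sup_right (mem_inf.2 ⟨?_, ho⟩))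
    have := mul_mem (inv_mem (hAC ha)) hx
    simpa using this
  · intro q hq hd
    exact (isPiNum_piCore πᶜ).card_of_le (inf_le_right : centralizer (A : Set S) ⊓ O ≤ O) q hq hd

end Cfsg.Agent.S1893
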