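import Mathlib
import Cfsg.Statements.S1894
import Cfsg.Agent.GT.PGroupBasic

set_option autoImplicit false
open Cfsg

namespace Cfsg.Agent.S1894

open Subgroup Cfsg.Agent.GT.PG

/-- Let P be a finite p-group, A a normal subgroup of P and B an abelian subgroup of A that is normal in P. Then some subgroup C of A containing B is normal in P and is self-centralizing and normal in A (C ∈ SCN(A)). -/
theorem result {P : Type*} [Group P] [Finite P] {p : ℕ} [Fact p.Prime] (hP : IsPGroup p P)
    (A : Subgroup P) [A.Normal] (B : Subgroup P) [B.Normal] (hBA : B ≤ A) (hB : IsMulCommutative B) :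
    ∃ C : Subgroup P, C.Normal ∧ B ≤ C ∧ Cfsg.IsSCN A C := by
  haveI : Group.IsNilpotent P := hP.isNilpotent
  obtain ⟨C, ⟨hCn, hBC, hCA, hC⟩, hmax⟩ := Set.Finite.exists_maximalFor (id : Subgroup P → Subgroup P)
    {C : Subgroup P | C.Normal ∧ B ≤ C ∧ C ≤ A ∧ IsMulCommutative C} (Set.toFinite _)
    ⟨B, inferInstance, le_rfl, hBA, hB⟩
  refine ⟨C, hCn, hBC, hCA, by rw [normalizer_eq_top]; exact le_top, ?_⟩
  apply le_antisymm _ (le_inf hCA (isMulCommutative_iff_le_centralizer.mp hC))
  by_contra hne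
  obtain ⟨x, hx, hxC, hcomm⟩ := exists_notMem_commutator_mem (A ⊓ centralizer (C : Set P)) C hne
  have hn : (C ⊔ zpowers x).Normal := normal_sup_zpowers hcomm
  have := hmax (j := C ⊔ zpowers x) ⟨hn, hBC.trans le_sup_left,
    sup_le hCA (zpowers_le.mpr hx.1), isMulCommutative_sup_zpowers hC hx.2⟩ le_sup_left
  exact hxC (this (mem_sup_right (mem_zpowers x)))

end Cfsg.Agent.S1894
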