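import Mathlib
import Cfsg.Statements.S1898
import Cfsg.Agent.Loc.TechSmall
import Cfsg.Agent.GT.PGroupIso

set_option autoImplicit false
open Cfsg

namespace Cfsg.Agent.S1898

open Subgroup Cfsg.Agent.GT Cfsg.Agent.Loc
open scoped commutatorElement

/-- Let X be a finite 2-group whose derived subgroup is elementary abelian and central. Then the subgroup generated by the elements of order dividing 4 has exponent dividing 4, and every automorphism of X fixing each element of order dividing 4 has 2-power order. -/
theorem result {X : Type*} [Group X] [Finite X] (hX : IsPGroup 2 X)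
    (hel : Cfsg.IsElementaryAbelian 2 (commutator X)) (hcen : commutator X ≤ Subgroup.center X) :
    (∀ x ∈ Subgroup.closure {g : X | g ^ 4 = 1}, x ^ 4 = 1) ∧
      ∀ φ : MulAut X, (∀ g : X, g ^ 4 = 1 → φ g = g) → ∃ k : ℕ, φ ^ (2 ^ k) = 1 := by
  haveI : Fact (Nat.Prime 2) := ⟨Nat.prime_two⟩
  constructor
  · intro x hx
    induction hx using closure_induction with
    | mem x hx => exact hx
    | one => simp
    | mul x y _ _ hx hy =>
      rw [PG.mul_pow_of_class_two hcen, hx, hy, one_mul, one_mul]
      have : ⁅y, x⁆ ^ 2 = 1 := hel.2 _ (commutator_mem_commutator (mem_top y) (mem_top x))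
      rw [show Nat.choose 4 2 = 2 * 3 by rfl, pow_mul, this, one_pow]
    | inv x _ hx => rw [inv_pow, hx, inv_one]
  · intro φ hφ
    apply exists_pow_eq_one_of_forall_zpowers
    intro ψ hψ hc
    apply mulAut_eq_one_of_small hX hc
    intro x hx
    apply apply_eq_of_mem_zpowers hψ
    apply hφ
    rcases hx with hx | hx
    · rw [show 4 = 2 * 2 by rfl, pow_mul, hx, one_pow]
    · exact hx.2

end Cfsg.Agent.S1898
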