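import Mathlib
import Cfsg.Statements.S1899

set_option autoImplicit false
open Cfsg

namespace Cfsg.Agent.S1899


/-- Let a dihedral group of order 2n, n odd and n > 1, act on a finite abelian 2-group A through automorphisms d and t with d^n = 1, t² = 1 and t d t⁻¹ = d⁻¹, and suppose that d fixes only the identity. Then A is the internal direct product of C_A(t) and its image under d. -/
theorem result {A : Type*} [CommGroup A] [Finite A] (hA : IsPGroup 2 A)
    {n : ℕ} (hn : Odd n) (hn1 : 1 < n) (d t : MulAut A) (hd : d ^ n = 1) (ht : t ^ 2 = 1) (hdt : t * d * t⁻¹ = d⁻¹)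
    (hfix : ∀ a : A, d a = a → a = 1) :
    (MulEquiv.toMonoidHom t).eqLocus (MonoidHom.id A) ⊓ ((MulEquiv.toMonoidHom t).eqLocus (MonoidHom.id A)).map d.toMonoidHom = ⊥ ∧
      (MulEquiv.toMonoidHom t).eqLocus (MonoidHom.id A) ⊔ ((MulEquiv.toMonoidHom t).eqLocus (MonoidHom.id A)).map d.toMonoidHom = ⊤ := by
  have htt : ∀ a, t (t a) = a := fun a => by
    have : (t ^ 2) a = a := by rw [ht]; rfl
    simpa [pow_two] using this
  have htinv : t⁻¹ = t := by
    rw [inv_eq_iff_mul_eq_one, ← pow_two, ht]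
  have hrel : ∀ a, t (d (t a)) = d⁻¹ a := fun a => by
    have : (t * d * t⁻¹) a = d⁻¹ a := by rw [hdt]
    rw [htinv] at this
    simpa using this
  have hfix2 : ∀ a : A, d (d a) = a → a = 1 := by
    intro a ha
    obtain ⟨k, rfl⟩ := hn
    have h1 : ∀ j : ℕ, (d ^ (2 * j)) a = a := by
      intro j
      induction j with
      | zero => simp
      | succ j ih =>
        rw [show 2 * (j + 1) = 2 * j + 1 + 1 by ring, pow_succ, pow_succ]
        simp only [MulAut.mul_apply]
        rw [ha, ih]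
    apply hfix
    have h2 : (d ^ (2 * k + 1)) a = a := by rw [hd]; rfl
    rw [pow_succ'] at h2
    simpa [h1 k] using h2
  constructor
  · rw [eq_bot_iff]
    rintro a ⟨h1, b, h2, rfl⟩
    have h1' : t (d b) = d b := h1
    have h2' : t b = b := h2
    have h3 := hrel b
    rw [h2', h1'] at h3
    have h4 : d (d b) = b := by rw [h3]; simp
    have := hfix2 b h4
    simp [this]
  · rw [eq_top_iff]
    -- the map `a ↦ a / d⁻¹ (d⁻¹ a)` is a bijection
    let f : A → A := fun a => a * (d⁻¹ (d⁻¹ a))⁻¹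
    have hf : Function.Injective f := by
      intro a b hab
      have h1 : d⁻¹ (d⁻¹ (a * b⁻¹)) = a * b⁻¹ := by
        simp only [f] at hab
        simp only [map_mul, map_inv]
        calc d⁻¹ (d⁻¹ a) * (d⁻¹ (d⁻¹ b))⁻¹
            = (a * (d⁻¹ (d⁻¹ a))⁻¹)⁻¹ * (b * (d⁻¹ (d⁻¹ b))⁻¹) * (a * b⁻¹) := by
              simp only [mul_inv_rev, inv_inv]
              apply Additive.ofMul.injective
              simp only [ofMul_mul, ofMul_inv]
              abel
          _ = a * b⁻¹ := by rw [hab]; simp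
      have h2 : d (d (a * b⁻¹)) = a * b⁻¹ := by
        conv_lhs => rw [← h1]
        simp
      have := hfix2 _ h2
      rwa [mul_inv_eq_one] at this
    have hs : Function.Surjective f := Finite.surjective_of_injective hf
    intro x _
    obtain ⟨a, ha⟩ := hs (t x)
    have hx : x = (a * t a) * (d (d⁻¹ a * t (d⁻¹ a)))⁻¹ := by
      have h1 : x = t a * (t (d⁻¹ (d⁻¹ a)))⁻¹ := by
        rw [← htt x, ← ha]; simp [f]
      have h2 : t (d⁻¹ (d⁻¹ a)) = d (t (d⁻¹ a)) := by
        rw [← hrel (d⁻¹ a), htt]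
      rw [h1, h2]
      simp only [map_mul, MulAut.apply_inv_self, mul_inv_rev]
      apply Additive.ofMul.injective
      simp only [ofMul_mul, ofMul_inv]
      abel
    rw [hx]
    refine Subgroup.mul_mem _ (Subgroup.mem_sup_left ?_)
      (Subgroup.inv_mem _ (Subgroup.mem_sup_right ⟨d⁻¹ a * t (d⁻¹ a), ?_, rfl⟩))
    · show t (a * t a) = a * t a
      rw [map_mul, htt, mul_comm]
    · show t (d⁻¹ a * t (d⁻¹ a)) = d⁻¹ a * t (d⁻¹ a)
      rw [map_mul, htt, mul_comm]

end Cfsg.Agent.S1899
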