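import Mathlib
import Cfsg.Statements.S1900
import Cfsg.Agent.GT.CoprimeGen
import Cfsg.Agent.GT.Conj
import Cfsg.Agent.GT.TransferFrobenius
import Cfsg.Agent.GT.PiGroups
-- import your own Cfsg.Agent.* helpers here

set_option autoImplicit false
open Cfsg

namespace Cfsg.Agent.S1900

open Subgroup Cfsg.Agent.GT
open scoped commutatorElement

theorem key {S : Type*} [Group S] [Finite S] {P Q X C D : Subgroup S} [P.Normal]
    (hS : P ⊔ Q = ⊤) (hQ : IsMulCommutative Q) (hX : X ≤ Q)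
    (hcop : (Nat.card Q).Coprime (Nat.card P)) (hP : C ⊔ D = P)
    (hQC : Q ≤ normalizer (C : Set S)) (hQD : Q ≤ normalizer (D : Set S))
    (hC : C ≤ centralizer (X : Set S)) (hD : D ⊓ centralizer (X : Set S) = ⊥) :
    ⁅C, D⁆ ⊓ centralizer (X : Set S) ≤ ⁅⁅C, D⁆, P⁆ := by
  have hs : Group.IsSolvable X := CopAct.isSolvable_of_le hX
    (CopAct.isSolvable_of_isMulCommutative hQ)
  have hDP : D ≤ P := le_sup_right.trans hP.le
  have hW : ⁅C, D⁆.Normal := normal_of_sup_eq_top hS (by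
    rw [← hP]; exact sup_le (normalizer_commutator_ge_left _ _)
      (normalizer_commutator_ge_right _ _)) (le_normalizer_commutator hQC hQD)
  have hWP : ⁅C, D⁆ ≤ P := (commutator_mono (le_sup_left.trans hP.le) hDP).trans
    (commutator_le_left _ _)
  have hXP := fun {K : Subgroup S} (h : K ≤ P) => CopAct.coprime_mono hcop hX h
  have h1 := CopAct.commutator_sup_centralizer (hX.trans hQD) (hXP hDP) (Or.inl hs)
  rw [hD, sup_bot_eq] at h1
  have hN : (⁅⁅C, D⁆, P⁆ ⊔ ⁅⁅C, D⁆, X⁆).Normal := normal_of_sup_eq_top hS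
    (CopAct.le_normalizer_of_commutator_le (sup_le (commutator_le_left _ _)
      (commutator_le_left _ _)) le_sup_left)
    (CopAct.le_normalizer_sup le_normalizer_of_normal (le_normalizer_commutator
      le_normalizer_of_normal (le_normalizer_of_le_of_comm hX)))
  have h2 : ⁅⁅D, X⁆, C⁆ ≤ ⁅⁅C, D⁆, P⁆ ⊔ ⁅⁅C, D⁆, X⁆ := three_subgroups (by
    rw [(commutator_eq_bot_iff_le_centralizer.2 (le_centralizer_iff.1 hC) : ⁅X, C⁆ = ⊥),
      commutator_bot_left]; exact bot_le) le_sup_right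
  rw [h1, commutator_comm D C] at h2
  refine (inf_le_inf_right _ h2).trans ?_
  rw [CopAct.sup_inf_centralizer le_normalizer_of_normal (normalizer_commutator_ge_right _ _)
    le_normalizer_of_normal (hXP (inf_le_left.trans (commutator_le_right _ _))) (Or.inl hs)]
  exact sup_le inf_le_left ((CopAct.commutator_inf_centralizer_le le_normalizer_of_normal
    (hXP hWP)).trans (commutator_mono le_rfl hWP))


/-- Let S = PQ be a finite group with P a normal Sylow p-subgroup and Q elementary abelian of order q², q a prime different from p. If exactly two subgroups X₁, X₂ of order q in Q have a nontrivial centralizer in P, then P is the internal direct product of C_P(X₁) and C_P(X₂): they commute elementwise, meet trivially and generate P. -/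
theorem result {S : Type*} [Group S] [Finite S] {p q : ℕ} [Fact p.Prime] [Fact q.Prime] (hpq : p ≠ q)
    (P : Sylow p S) [(P : Subgroup S).Normal] (Q : Subgroup S) (hQ : Cfsg.IsElementaryAbelian q Q) (hQc : Nat.card Q = q ^ 2)
    (hS : (P : Subgroup S) ⊔ Q = ⊤)
    (X₁ X₂ : Subgroup S) (h₁ : X₁ ≤ Q) (h₂ : X₂ ≤ Q) (h₁₂ : X₁ ≠ X₂) (hc₁ : Nat.card X₁ = q) (hc₂ : Nat.card X₂ = q)
    (hf₁ : (P : Subgroup S) ⊓ Subgroup.centralizer (X₁ : Set S) ≠ ⊥)
    (hf₂ : (P : Subgroup S) ⊓ Subgroup.centralizer (X₂ : Set S) ≠ ⊥)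
    (honly : ∀ X : Subgroup S, X ≤ Q → Nat.card X = q →
      (P : Subgroup S) ⊓ Subgroup.centralizer (X : Set S) ≠ ⊥ → X = X₁ ∨ X = X₂) :
    ⁅(P : Subgroup S) ⊓ Subgroup.centralizer (X₁ : Set S), (P : Subgroup S) ⊓ Subgroup.centralizer (X₂ : Set S)⁆ = ⊥ ∧
      ((P : Subgroup S) ⊓ Subgroup.centralizer (X₁ : Set S)) ⊓ ((P : Subgroup S) ⊓ Subgroup.centralizer (X₂ : Set S)) = ⊥ ∧
      ((P : Subgroup S) ⊓ Subgroup.centralizer (X₁ : Set S)) ⊔ ((P : Subgroup S) ⊓ Subgroup.centralizer (X₂ : Set S)) = P := by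
  have hq := (Fact.out : q.Prime)
  have hcop : (Nat.card Q).Coprime (Nat.card P) := by
    obtain ⟨k, hk⟩ := IsPGroup.iff_card.1 P.isPGroup'
    rw [hQc, hk]
    exact ((Nat.coprime_primes hq Fact.out).2 hpq.symm).pow _ _
  have hnc := CopAct.not_isCyclic_of_isElementaryAbelian hQ hQc.ge
  have hz : ∀ a ∈ Q, a ≠ 1 → Nat.card (zpowers a) = q := fun a ha h1 => by
    rw [Nat.card_zpowers]; exact orderOf_eq_prime (hQ.2 a ha) h1
  have hgen : ∀ K H : Subgroup S, K ≤ P → Q ≤ normalizer (K : Set S) →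
      K ⊓ centralizer (X₁ : Set S) ≤ H → K ⊓ centralizer (X₂ : Set S) ≤ H → K ≤ H :=
    fun K H hK hQK h1 h2 => CopAct.le_of_centralizer_elt_le hQ.1 hnc hQK
      (CopAct.coprime_mono hcop le_rfl hK) fun a ha ha1 => by
        rw [← centralizer_zpowers]
        by_cases e : (P : Subgroup S) ⊓ centralizer (zpowers a : Set S) = ⊥
        · exact ((inf_le_inf_right _ hK).trans e.le).trans bot_le
        · rcases honly _ (zpowers_le.2 ha) (hz a ha ha1) e with e | e <;> rwa [e]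
  have hle : ∀ {X Y : Subgroup S}, Nat.card X = q → Nat.card Y = q → ∀ x ∈ X, x ≠ 1 → x ∈ Y →
      X = Y := fun {X Y} hX hY x hx hx1 hy => by
    have h1 : ∀ {X : Subgroup S}, Nat.card X = q → x ∈ X → zpowers x = X := fun {X} hX hx =>
      eq_of_le_of_card_eq (zpowers_le.2 hx) (by
        rw [Nat.card_zpowers, hX]
        exact orderOf_eq_prime (orderOf_dvd_iff_pow_eq_one.1 (hX ▸ X.orderOf_dvd_natCard hx)) hx1)
    rw [← h1 hX hx, h1 hY hy]
  have hex : ∀ {X : Subgroup S}, Nat.card X = q → ∃ x ∈ X, x ≠ 1 := fun {X} hX => by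
    obtain ⟨⟨x, hx⟩, h1⟩ := Subgroup.ne_bot_iff_exists_ne_one.1
      ((X.one_lt_card_iff_ne_bot).1 (hX ▸ hq.one_lt))
    exact ⟨x, hx, fun e => h1 (Subtype.ext e)⟩
  have h0 : ((P : Subgroup S) ⊓ centralizer (X₁ : Set S)) ⊓
      ((P : Subgroup S) ⊓ centralizer (X₂ : Set S)) = ⊥ := by
    by_contra h0
    obtain ⟨x, hx, hx1⟩ := hex hc₁
    obtain ⟨y, hy, hy1⟩ := hex hc₂
    have h1 : x * y ∉ X₁ := fun e => h₁₂ (hle hc₂ hc₁ y hy hy1 ((mul_mem_cancel_left hx).1 e)).symm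
    have h2 : x * y ∉ X₂ := fun e => h₁₂ (hle hc₁ hc₂ x hx hx1 ((mul_mem_cancel_right hy).1 e))
    have h3 := mul_mem (h₁ hx) (h₂ hy)
    rcases honly _ (zpowers_le.2 h3) (hz _ h3 fun e => h1 (e ▸ one_mem _)) (fun e => h0
      (eq_bot_iff.2 (le_trans (fun g hg => mem_inf.2 ⟨hg.1.1, by
        rw [centralizer_zpowers, mem_centralizer_singleton_iff, ← mul_assoc, ← hg.1.2 x hx,
          mul_assoc, ← hg.2.2 y hy, mul_assoc]⟩) e.le))) with e | e
    exacts [h1 (e ▸ mem_zpowers _), h2 (e ▸ mem_zpowers _)]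
  have hsup := le_antisymm (sup_le inf_le_left inf_le_left)
    (hgen P _ le_rfl le_normalizer_of_normal le_sup_left le_sup_right)
  have hn : ∀ {X : Subgroup S}, X ≤ Q →
      Q ≤ normalizer (((P : Subgroup S) ⊓ centralizer (X : Set S) : Subgroup S) : Set S) :=
    fun hX => CopAct.le_normalizer_inf_centralizer_of_isMulCommutative hQ.1 hX
      le_normalizer_of_normal
  refine ⟨?_, h0, hsup⟩
  have hWP : ⁅(P : Subgroup S) ⊓ centralizer (X₁ : Set S),
      (P : Subgroup S) ⊓ centralizer (X₂ : Set S)⁆ ≤ P :=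
    (commutator_mono inf_le_left inf_le_left).trans (commutator_le_left _ _)
  refine Tr.eq_bot_of_le_commutator P.isPGroup'.isNilpotent hWP (hgen _ _ hWP
    (le_normalizer_commutator (hn h₁) (hn h₂)) (key hS hQ.1 h₁ hcop hsup (hn h₁) (hn h₂)
      inf_le_right (eq_bot_iff.2 fun g hg => h0.le ⟨⟨hg.1.1, hg.2⟩, hg.1⟩)) ?_)
  rw [commutator_comm]
  exact key hS hQ.1 h₂ hcop (by rwa [sup_comm]) (hn h₂) (hn h₁) inf_le_right
    (eq_bot_iff.2 fun g hg => h0.le ⟨hg.1, hg.1.1, hg.2⟩)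

end Cfsg.Agent.S1900
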