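import Mathlib
import Cfsg.Statements.S1901
import Cfsg.Agent.GT.PSolvable
import Cfsg.Agent.GT.Conj
import Cfsg.Agent.GT.CoprimeFixed
import Cfsg.Agent.GT.MinNormal
import Cfsg.Agent.GT.TransferSylow

set_option autoImplicit false
open Cfsg

namespace Cfsg.Agent.S1901

open Subgroup Cfsg.Agent.GT

theorem key {p : ℕ} [Fact p.Prime] (G : Type*) [Group G] [Finite G] :
    IsPSolvable p G → ∀ (Q X : Subgroup G) (P : Sylow p G), (Nat.card Q).Coprime p →
      IsPGroup p X → X ≤ normalizer (Q : Set G) → Q ≤ normalizer ((P : Subgroup G) : Set G) →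
      ⁅Q, X⁆ = ⊥ := by
  refine subgroup_quotient_induction (P := fun G _ _ => IsPSolvable p G →
    ∀ (Q X : Subgroup G) (P : Sylow p G), (Nat.card Q).Coprime p →
      IsPGroup p X → X ≤ normalizer (Q : Set G) → Q ≤ normalizer ((P : Subgroup G) : Set G) →
      ⁅Q, X⁆ = ⊥) ?_ G
  intro G _ _ _ ih hG Q X P hQ hX hXQ hQP
  have hquot : ∀ (N : Subgroup G) [N.Normal], N ≠ ⊥ → ⁅Q, X⁆ ≤ N := by
    intro N _ hN
    rw [commutator_le_iff_map_mk']
    refine ih N hN (hG.quotient N) _ _ (P.mapSurjective (QuotientGroup.mk'_surjective N))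
      (Nat.Coprime.coprime_dvd_left (card_map_dvd _ _) hQ) (hX.map _)
      (map_le_normalizer_map hXQ _) (map_le_normalizer_map hQP _)
  have hQQ : ⁅Q, X⁆ ≤ Q := CopAct.commutator_le_of_le_normalizer hXQ
  rcases subsingleton_or_nontrivial G with hG1 | hG1
  · exact Subsingleton.elim _ _
  rcases hG.pCore_ne_bot_or with h | h
  · rw [eq_bot_iff, ← pCore_inf_eq_bot (p := p) hQ]
    exact le_inf (hquot _ h) hQQ
  · have h1 := hquot _ h
    have h2 : (P : Subgroup G) ≤ centralizer ((⁅Q, X⁆ : Subgroup G) : Set G) := by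
      rw [← CopAct.commutator_eq_bot_iff, eq_bot_iff, ← pPrimeCore_inf_eq_bot P.isPGroup']
      refine le_inf ((commutator_mono h1 le_rfl).trans (commutator_le_left _ _)) ?_
      rw [commutator_comm]
      exact CopAct.commutator_le_of_le_normalizer (hQQ.trans hQP)
    have h3 : (P : Subgroup G) ≤ normalizer ((⁅Q, X⁆ : Subgroup G) : Set G) :=
      h2.trans (centralizer_le_normalizer _)
    obtain ⟨n, hn, hnX⟩ := Tr.exists_conj_le_sylowIn P.isPGroup'
      (fun hd => P.not_dvd_index (hd.trans (relIndex_dvd_index_of_le h3))) hX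
      (normalizer_commutator_ge_right Q X)
    have h4 : X ≤ centralizer ((⁅Q, X⁆ : Subgroup G) : Set G) := by
      intro x hx
      have := Tr.inv_conj_mem_of_mem_normalizer (Tr.normalizer_le_normalizer_centralizer _ hn)
        (h2 (hnX x hx))
      convert this using 1; group
    rw [← CopAct.commutator_commutator_eq hXQ (CopAct.coprime_of_isPGroup_right hQ hX).symm,
      CopAct.commutator_eq_bot_iff]
    exact h4

/-- Let G be a finite p-solvable group and Q a subgroup of order prime to p such that p divides the index of C_G(Q) in N_G(Q). Then Q normalizes no Sylow p-subgroup of G. -/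
theorem result {G : Type*} [Group G] [Finite G] {p : ℕ} [Fact p.Prime]
    (hG : Cfsg.IsPSolvable p G) (Q : Subgroup G) (hQ : ¬ p ∣ Nat.card Q)
    (hA : p ∣ (Subgroup.centralizer (Q : Set G)).relIndex (Subgroup.normalizer (Q : Set G)))
    (P : Sylow p G) : ¬ Q ≤ Subgroup.normalizer ((P : Subgroup G) : Set G) := by
  have hp : p.Prime := Fact.out
  intro hQP
  have hQc : (Nat.card Q).Coprime p := ((Nat.Prime.coprime_iff_not_dvd hp).2 hQ).symm
  obtain ⟨X, -, hXN, hX, hi⟩ := Tr.exists_sylowIn_ge (p := p) (T := ⊥)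
    (H := normalizer (Q : Set G)) IsPGroup.of_bot bot_le
  have := CopAct.commutator_eq_bot_iff.1 (key G hG Q X P hQc hX hXN hQP)
  exact hi (hA.trans (relIndex_dvd_of_le_left _ this))

end Cfsg.Agent.S1901
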