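import Mathlib
import Cfsg.Statements.S1902
import Cfsg.Agent.S1302
import Cfsg.Agent.GT.PConstrained
import Cfsg.Agent.GT.PGroupElemAb
import Cfsg.Agent.GT.TransferSylow
import Cfsg.Agent.GT.Conj

set_option autoImplicit false
open Cfsg

namespace Cfsg.Agent.S1902

open Subgroup Cfsg.Agent.GT

/-- Let p be an odd prime, G a finite p-solvable group, and B an elementary abelian subgroup of order p² such that B is the subgroup generated by the elements of order p of some Sylow p-subgroup of C_G(b₀), for some nontrivial b₀ ∈ B. Then every B-invariant subgroup of G of order prime to p lies in O_{p'}(G). -/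
theorem result {G : Type*} [Group G] [Finite G] {p : ℕ} [Fact p.Prime] (hp : p ≠ 2)
    (hG : Cfsg.IsPSolvable p G) (B : Subgroup G) (hB : Cfsg.IsElementaryAbelian p B) (hBc : Nat.card B = p ^ 2)
    (b₀ : G) (hb₀ : b₀ ∈ B) (hb₁ : b₀ ≠ 1) (P : Sylow p ↥(Subgroup.centralizer ({b₀} : Set G)))
    (hBP : B = Subgroup.closure {x : G | x ∈ ((P : Subgroup ↥(Subgroup.centralizer ({b₀} : Set G))).map
      (Subgroup.centralizer ({b₀} : Set G)).subtype : Subgroup G) ∧ orderOf x = p})
    (Q : Subgroup G) (hQ : ¬ p ∣ Nat.card Q) (hinv : ∀ b ∈ B, ∀ x ∈ Q, b * x * b⁻¹ ∈ Q) :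
    Q ≤ Cfsg.pPrimeCore p G := by
  refine S1302.result p hp hG.isPConstrained B hB.1 hB.isPGroup (fun x hx hxp => ?_) Q hQ
    (fun b hb => Tr.mem_normalizer_of_conj_mem (hinv b hb))
  have hE : IsElementaryAbelian p (B ⊔ zpowers x) :=
    hB.sup_zpowers (by rw [← hxp, pow_orderOf_eq_one]) hx
  have hle : B ⊔ zpowers x ≤ centralizer ({b₀} : Set G) :=
    hE.le_centralizer.trans (centralizer_le_centralizer_singleton (mem_sup_left hb₀))
  obtain ⟨c, -, hc⟩ := Tr.exists_conj_le_sylowIn (P.isPGroup'.map _)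
    (Tr.not_dvd_relIndex_map_sylow P) hE.isPGroup hle
  have h1 : (B ⊔ zpowers x).map (MulAut.conj c).toMonoidHom ≤ B := by
    rw [Tr.map_conj_le_iff]
    intro y hy
    by_cases hy1 : y = 1
    · simpa [hy1] using one_mem B
    · have : c * y * c⁻¹ ∈ Subgroup.closure {x : G | x ∈ ((P : Subgroup
          ↥(Subgroup.centralizer ({b₀} : Set G))).map
          (Subgroup.centralizer ({b₀} : Set G)).subtype : Subgroup G) ∧ orderOf x = p} :=
        subset_closure ⟨hc y hy, by rw [orderOf_conj, hE.orderOf_eq hy hy1]⟩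
      rwa [← hBP] at this
  have h2 := card_le_of_le h1
  rw [Tr.card_map_conj] at h2
  rw [PG.eq_of_le_of_card_le le_sup_left h2]
  exact mem_sup_right (mem_zpowers x)

end Cfsg.Agent.S1902
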