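import Mathlib
import Cfsg.Statements.S1903
import Cfsg.Agent.Loc.TechU34
import Cfsg.Agent.Cl.U3
import Cfsg.Agent.S1248

set_option autoImplicit false
open Cfsg

namespace Cfsg.Agent.S1903

open Subgroup Cfsg.Agent.GT Cfsg.Agent.Loc Cfsg.Agent.Cl
open scoped commutatorElement

/-- A finite group of order 320 whose derived subgroup has order 64 and has centre a Klein four-group is isomorphic to the centralizer of an involution in PSU₃(4). -/
theorem result {G : Type*} [Group G] [Finite G] (hG : Nat.card G = 320) (hD : Nat.card (commutator G) = 64)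
    (hZ : IsKleinFour (Subgroup.center (commutator G)))
    {F : Type*} [Field F] [Fintype F] (hF : Fintype.card F = 16) :
    ∃ t : Cfsg.PSU 3 F 4, orderOf t = 2 ∧ Nonempty (G ≃* Subgroup.centralizer ({t} : Set (Cfsg.PSU 3 F 4))) := by
  have : Fact (Nat.Prime 2) := ⟨Nat.prime_two⟩
  obtain ⟨σ, hq⟩ := exists_uField (F := F) (q := 4) hF
  have : CharP F 2 := hq.charP (k := 2) rfl
  obtain ⟨D, -, hh⟩ := hq.exists_u3Data_PSU
  have := D.finite
  set z : UHeis hq.invol := UHeis.cen _ 1 (by rw [map_one]; exact CharTwo.add_self_eq_zero 1)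
    with hz
  have hz1 : z ≠ 1 := fun h => one_ne_zero (UHeis.eq_one_iff.1 h)
  have hzc : ∀ x, x * z = z * x := mem_center_iff.1 (UHeis.mem_center_iff.2 rfl)
  have ht1 : D.u z ≠ 1 := fun h => hz1 (D.u_injective (by rw [h, map_one]))
  refine ⟨D.u z, orderOf_eq_prime (by rw [sq, ← map_mul, UHeis.mul_self_eq_one_iff.2 rfl, map_one])
    ht1, ?_⟩
  set C := centralizer ({D.u z} : Set (PSU 3 F 4)) with hC
  set H : Subgroup (PSU 3 F 4) := (powMonoidHom 5 : Fˣ →* Fˣ).ker.map D.h with hH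
  have hnorm : ∀ a : Fˣ, (a : F) * σ a = 1 ↔ a ^ 5 = 1 := fun a => by
    rw [hq.pow, ← pow_succ', ← Units.val_pow_eq_pow_val, Units.val_eq_one]
  have hinj : Function.Injective D.h := (injective_iff_map_eq_one _).2 fun a ha => by
    obtain ⟨h1, h2⟩ := hq.invol.uLam_eq_one_iff.1 ((hh a).1 ha)
    have := pow_gcd_eq_one.2 ⟨(hnorm a).1 h1, h2⟩
    simpa using this
  have hH5 : Nat.card H = 5 := by
    rw [card_map_of_injective hinj, IsCyclic.card_powMonoidHom_ker, Nat.card_units,
      Nat.card_eq_fintype_card, hF]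
    rfl
  have hUC : D.u.range ≤ C := by
    rintro _ ⟨x, rfl⟩
    rw [mem_centralizer_singleton_iff, ← map_mul, ← map_mul, hzc]
  have hhC : ∀ a, D.h a ∈ C ↔ a ^ 5 = 1 := fun a => by
    rw [mem_centralizer_singleton_iff, D.h_mul_u, mul_left_inj, D.u_injective.eq_iff, ← hnorm,
      ← hq.invol.norm_uLam]
    exact ⟨UHeis.norm_eq_one_of_torus_eq hz1, fun h => by ext <;> simp [hz, h]⟩
  have hCeq : C = D.u.range ⊔ H := by
    refine le_antisymm (fun g hg => ?_) (sup_le hUC ?_)
    · obtain ⟨x, a, rfl⟩ := D.mem_B_iff.1 (D.centralizer_le_B ⟨z, rfl⟩ ht1 hg)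
      exact mul_mem_sup ⟨x, rfl⟩ ⟨a, (hhC a).1 ((C.mul_mem_cancel_left (hUC ⟨x, rfl⟩)).1 hg), rfl⟩
    · rintro _ ⟨a, ha, rfl⟩
      exact (hhC a).2 ha
  have hHB : H ≤ D.h.range := map_le_range _ _
  have hHn : H ≤ normalizer (D.u.range : Set (PSU 3 F 4)) := by
    rw [D.normalizer_range_u]; exact hHB.trans D.range_h_le_B
  have hU : Nat.card D.u.range = 64 := D.card_range_u hq
  have hC320 : Nat.card C = 320 := by
    rw [hCeq, CopAct.card_sup_of_inf_eq_bot hHn (D.disjoint_range.mono_right hHB).eq_bot, hU, hH5]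
  have hcomm : ⁅C, C⁆ = D.u.range := by
    have hn : D.u.range ⊔ H ≤ normalizer (D.u.range : Set (PSU 3 F 4)) := sup_le le_normalizer hHn
    refine le_antisymm ?_ ?_
    · have h1 : ⁅D.u.range, D.u.range ⊔ H⁆ ≤ D.u.range :=
        le_normalizer_iff_commutator_le_left.1 hn
      rw [hCeq]
      refine commutator_sup_le hn h1 ?_
      rw [commutator_comm]
      refine commutator_sup_le hn ((commutator_mono le_rfl le_sup_right).trans h1) ?_
      refine (commutator_eq_bot_iff_le_centralizer.2 ?_).le.trans bot_le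
      rintro _ ⟨a, -, rfl⟩ _ ⟨b, -, rfl⟩
      rw [← map_mul, ← map_mul, mul_comm]
    · rintro _ ⟨x, rfl⟩
      obtain ⟨_, ⟨a, ha, rfl⟩, ha1⟩ := (nontrivial_iff_exists_ne_one H).1
        (Finite.one_lt_card_iff_nontrivial.1 (by omega))
      have hl : (uLam σ a : F) - 1 ≠ 0 := fun h =>
        ha1 ((hh a).2 (Units.ext (sub_eq_zero.1 h)))
      obtain ⟨y, hy⟩ := UHeis.exists_b hq.invol (x.b / ((uLam σ a : F) - 1))
      obtain ⟨v, w, hvw⟩ := UHeis.exists_commutator_eq
        (z := x * (UHeis.torus hq.invol (uLam σ a) y * y⁻¹)⁻¹) (by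
          simp only [UHeis.mul_b, UHeis.inv_b, UHeis.torus_b, hy]
          field_simp
          ring)
      have h1 : D.u x = ⁅D.u v, D.u w⁆ * ⁅D.h a, D.u y⁆ := by
        rw [← map_commutatorElement, hvw, commutatorElement_def, D.h_conj, ← map_inv, ← map_mul,
          ← map_mul, inv_mul_cancel_right]
      rw [h1]
      exact mul_mem (commutator_mem_commutator (hUC ⟨v, rfl⟩) (hUC ⟨w, rfl⟩))
        (commutator_mem_commutator ((hhC a).2 ha) (hUC ⟨y, rfl⟩))
  have e : commutator C ≃* (D.sylow 2 : Subgroup (PSU 3 F 4)) :=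
    ((commutator C).equivMapOfInjective _ C.subtype_injective).trans
      (MulEquiv.subgroupCongr (by rw [map_subtype_commutator, hcomm, D.coe_sylow]))
  obtain ⟨h1, h2, -⟩ := S1248.result hF (D.sylow 2)
  refine U34.nonempty_equiv hG hD hZ hC320 (by rw [Nat.card_congr e.toEquiv, h1]) ⟨?_, ?_⟩
  · rw [Nat.card_congr (centerCongr e).toEquiv, h2.card_four]
  · rw [Monoid.exponent_eq_of_mulEquiv (centerCongr e), h2.exponent_two]

end Cfsg.Agent.S1903
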