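import Mathlib
import Cfsg.Statements.S1905
import Cfsg.Agent.S1225
import Cfsg.Agent.Inv.SE
import Cfsg.Agent.Inv.SylowElt
import Cfsg.Agent.Inv.SylowTools
import Cfsg.Agent.GT.TransferSylow
import Cfsg.Agent.GT.Conj

set_option autoImplicit false
open Cfsg

namespace Cfsg.Agent.S1905

open Subgroup Cfsg.Agent.GT Cfsg.Agent.Inv

/-- Let M be a subgroup of even order of a finite group S such that M contains the centralizer in S of each of its involutions and the normal core of M in S has odd order. Then all involutions of S are conjugate. If moreover N_S(X) ≤ M for a Sylow 2-subgroup X of M and I is an involution in the centre of X, then all involutions of M are conjugate in M and M = M₀ C_M(I) for some subgroup M₀ of M of odd order. -/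
theorem result {S : Type*} [Group S] [Finite S] (M : Subgroup S) (hM : Even (Nat.card M))
    (hC : ∀ i ∈ M, orderOf i = 2 → Subgroup.centralizer ({i} : Set S) ≤ M) (hcore : Odd (Nat.card M.normalCore)) :
    (∀ x y : S, orderOf x = 2 → orderOf y = 2 → IsConj x y) ∧
      ∀ (X : Sylow 2 M) (I : M), I ∈ (Subgroup.center ↥(X : Subgroup ↥M)).map (X : Subgroup ↥M).subtype → orderOf I = 2 →
        Subgroup.normalizer (((X : Subgroup M).map M.subtype : Subgroup S) : Set S) ≤ M →
        (∀ x y : M, orderOf x = 2 → orderOf y = 2 → IsConj x y) ∧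
          ∃ M₀ : Subgroup M, Odd (Nat.card M₀) ∧
            ∀ m : M, ∃ a ∈ M₀, ∃ c ∈ Subgroup.centralizer ({I} : Set M), m = a * c := by
  have : Fact (Nat.Prime 2) := ⟨Nat.prime_two⟩
  obtain ⟨i, hiM, hi⟩ := exists_involution_mem_of_even hM
  obtain ⟨u, hu, huM⟩ : ∃ u : S, orderOf u = 2 ∧ u ∉ M := by
    by_contra! h
    refine odd_card_iff_no_involution.1 hcore i (fun g => h _ ?_) hi
    rw [orderOf_conj', hi]
  have hconj : ∀ x ∈ M, ∀ y, y ∉ M → orderOf x = 2 → orderOf y = 2 → IsConj x y := by
    intro x hxM y hyM hx hy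
    by_contra h
    obtain ⟨z, -, hz, hzx, hzy⟩ :=
      exists_central_involution_of_not_isConj (mul_self_of_two hx) (mul_self_of_two hy) h
    have hzM : z ∈ M := hC x hxM hx (mem_centralizer_singleton_iff.2 hzx)
    exact hyM (hC z hzM hz (mem_centralizer_singleton_iff.2 hzy.symm))
  have hall : ∀ x y : S, orderOf x = 2 → orderOf y = 2 → IsConj x y := by
    intro x y hx hy
    by_cases hxM : x ∈ M <;> by_cases hyM : y ∈ M
    · exact (hconj x hxM u huM hx hu).trans (hconj y hyM u huM hy hu).symm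
    · exact hconj x hxM y hyM hx hy
    · exact (hconj y hyM x hxM hy hx).symm
    · exact (hconj i hiM x hxM hi hx).symm.trans (hconj i hiM y hyM hi hy)
  refine ⟨hall, fun X I hI hI2 hN => ?_⟩
  set X' : Subgroup S := (X : Subgroup M).map M.subtype with hX'
  have hX'p : IsPGroup 2 X' := X.isPGroup'.map _
  obtain ⟨P, hP⟩ := hX'p.exists_le_sylow
  have hPX : (P : Subgroup S) = X' := by
    by_contra hne
    have hlt := Tr.lt_inf_normalizer P.isPGroup' (lt_of_le_of_ne hP (Ne.symm hne))
    exact hlt.not_ge (Tr.le_of_sylowIn_le (Tr.not_dvd_relIndex_map_sylow X) P.isPGroup'.to_inf_left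
      hlt.le (inf_le_right.trans hN))
  have hPM : (P : Subgroup S) ≤ M := hPX ▸ map_subtype_le _
  have hI2' : orderOf (I : S) = 2 := by rwa [Subgroup.orderOf_coe]
  have hPI : (P : Subgroup S) ≤ centralizer {(I : S)} := by
    rw [hPX]
    rintro _ ⟨s, hs, rfl⟩
    rw [mem_centralizer_singleton_iff]
    exact congrArg Subtype.val ((ST.mem_center_map_iff.1 hI).2 s hs)
  have key : ∀ a : S, a * I * a⁻¹ ∈ M → a ∈ M := by
    intro a ha
    obtain ⟨n, hn, h⟩ := ST.exists_mul_mem_normalizer_sylow P a hPM (fun s hs => by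
      apply hC _ ha (by rw [orderOf_conj', hI2'])
      rw [centralizer_singleton_conj]
      exact conj_mem_map_conj.2 (hPI hs))
    rw [hPX] at h
    exact (M.mul_mem_cancel_left hn).1 (hN h)
  have hSE : IsStronglyEmbedded M := by
    refine isStronglyEmbedded_iff.2 ⟨fun h => huM (h ▸ mem_top u), hM, fun t htM ht g hg => ?_⟩
    obtain ⟨a, rfl⟩ := isConj_iff.1 (hall I t hI2' ht)
    have h1 := key a htM
    have h2 := key (g * a) (by convert hg using 1; group)
    exact (M.mul_mem_cancel_right h1).1 h2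
  constructor
  · intro x y hx hy
    obtain ⟨g, hg, h⟩ := hSE.exists_conj_mem x.2 (by rwa [Subgroup.orderOf_coe]) y.2
      (by rwa [Subgroup.orderOf_coe])
    exact isConj_iff.2 ⟨⟨g, hg⟩, Subtype.ext h⟩
  · refine ⟨(M ⊓ M.map (MulAut.conj u).toMonoidHom).subgroupOf M, ?_, fun m => ?_⟩
    · rw [card_subgroupOf_of_le inf_le_left, odd_card_iff_no_involution]
      exact fun t ht h2 => huM (hSE.mem_of_inv_conj_mem ht.1 h2 (mem_map_conj.1 ht.2))
    · obtain ⟨⟨d, hd, h⟩, -⟩ := S1225.result M hSE u hu huM I (m * I * m⁻¹ : M) hI2' I.2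
        (by rw [Subgroup.orderOf_coe, orderOf_conj', hI2]) (Subtype.prop _)
      refine ⟨⟨d, hd.1⟩, hd, (⟨d, hd.1⟩ : M)⁻¹ * m, ?_, by group⟩
      rw [mem_centralizer_singleton_iff]
      apply Subtype.ext
      simp only [coe_mul, InvMemClass.coe_inv] at h ⊢
      calc d⁻¹ * m * I = d⁻¹ * (m * I * (m : S)⁻¹) * m := by group
        _ = _ := by rw [← h]; group

end Cfsg.Agent.S1905
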