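import Mathlib
import Cfsg.Statements.S1906
import Cfsg.Agent.Chev.ReeUtil
import Cfsg.Agent.GT.TransferCocycle
import Cfsg.Agent.GT.TransferSylow
import Cfsg.Agent.GT.PGroupElemAb
import Cfsg.Agent.GT.PGroupChain
import Cfsg.Agent.GT.PGroupBasic
import Cfsg.Agent.GT.PiGroups

set_option autoImplicit false
open Cfsg

namespace Cfsg.Agent.S1906

open Subgroup Cfsg.Agent.GT

section
open Matrix
variable {F : Type*} [Field F]

theorem adj_eq (A : Matrix (Fin 3) (Fin 3) F) :
    A.adjugate = A * A - A.trace • A + A.adjugate.trace • (1 : Matrix (Fin 3) (Fin 3) F) := by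
  ext i j
  fin_cases i <;> fin_cases j <;>
    simp [adjugate_fin_three, Matrix.mul_apply, Fin.sum_univ_three, trace_fin_three] <;> ring

theorem trace_eq {A : Matrix (Fin 3) (Fin 3) F} (h2 : A * A = 1) (hd : A.det = 1) (h1 : A ≠ 1) :
    A.trace = -1 := by
  have h3 : A.adjugate = A := by
    calc A.adjugate = A * (A * A.adjugate) := by rw [← mul_assoc, h2, one_mul]
      _ = A := by rw [mul_adjugate, hd, one_smul, mul_one]
  have h4 := adj_eq A
  rw [h3, h2] at h4
  have h5 : (1 + A.trace) • (A - 1) = 0 := by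
    rw [smul_sub, add_smul, add_smul, one_smul, one_smul]
    nth_rewrite 1 [h4]
    abel
  rcases smul_eq_zero.1 h5 with h | h
  · linear_combination h
  · exact absurd (sub_eq_zero.1 h) h1

theorem exists_eigen {W M : Matrix (Fin 3) (Fin 3) F} {c : F} (hM : M.trace ≠ 0)
    (h : W * M = c • M) : ∃ x : Fin 3 → F, x ≠ 0 ∧ W *ᵥ x = c • x := by
  have : ∃ j, M.col j ≠ 0 := by
    by_contra hn
    push Not at hn
    refine hM ?_
    rw [show M = 0 from Matrix.ext fun i j => congrFun (hn j) i, trace_zero]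
  obtain ⟨j, hj⟩ := this
  refine ⟨M.col j, hj, funext fun i => ?_⟩
  have := congrFun (congrFun h i) j
  simpa [Matrix.mul_apply, mulVec, dotProduct] using this

/-- The centraliser of a four-group of `SL₃` is diagonalisable. -/
theorem exists_diag (h2 : (2 : F) ≠ 0) {u v : Matrix (Fin 3) (Fin 3) F} (hu : u * u = 1)
    (hv : v * v = 1) (huv : v * u = u * v) (du : u.det = 1) (dv : v.det = 1) (hu1 : u ≠ 1)
    (hv1 : v ≠ 1) (hne : u ≠ v) : ∃ P Q : Matrix (Fin 3) (Fin 3) F, P * Q = 1 ∧
      ∀ g, g * u = u * g → g * v = v * g → ∃ d, Q * g * P = diagonal d := by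
  have tu := trace_eq hu du hu1
  have tv := trace_eq hv dv hv1
  have e1 : ∀ x, u * (u * x) = x := fun x => by rw [← mul_assoc, hu, one_mul]
  have e3 : ∀ x, v * (u * x) = u * (v * x) := fun x => by rw [← mul_assoc, huv, mul_assoc]
  have tuv : (u * v).trace = -1 := trace_eq (by rw [mul_assoc, e3, hv, mul_one, hu])
    (by rw [det_mul, du, dv, one_mul]) fun h => hne (by rw [← e1 v, h, mul_one])
  have h4 : (4 : F) ≠ 0 := by
    rw [show (4 : F) = 2 * 2 by norm_num]; exact mul_ne_zero h2 h2
  set μ : Fin 3 → F := ![0, 2, -2] with hμ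
  have hx : ∀ i, ∃ x : Fin 3 → F, x ≠ 0 ∧ (v - u * v) *ᵥ x = μ i • x := fun i => by
    fin_cases i
    · refine exists_eigen (M := 1 + u - v - u * v) ?_ ?_
      · simp only [trace_sub, trace_add, tu, tv, tuv, trace_one, Fintype.card_fin]
        intro h; apply h4; push_cast at h; linear_combination h
      · simp only [mul_sub, sub_mul, mul_add, mul_one, mul_assoc, e1, e3, hu, hv, huv, hμ]
        simp
    · refine exists_eigen (M := 1 - u + v - u * v) ?_ ?_
      · simp only [trace_sub, trace_add, tu, tv, tuv, trace_one, Fintype.card_fin]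
        intro h; apply h4; push_cast at h; linear_combination h
      · simp only [mul_sub, sub_mul, mul_add, mul_one, mul_assoc, e1, e3, hu, hv, huv, hμ]
        simp only [Fin.mk_one, cons_val_one, cons_val_zero]
        module
    · refine exists_eigen (M := 1 - u - v + u * v) ?_ ?_
      · simp only [trace_sub, trace_add, tu, tv, tuv, trace_one, Fintype.card_fin]
        intro h; apply h4; push_cast at h; linear_combination h
      · simp only [mul_sub, sub_mul, mul_add, mul_one, mul_assoc, e1, e3, hu, hv, huv, hμ]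
        simp only [Fin.reduceFinMk, cons_val]
        module
  choose x hx0 hx using hx
  have hinj : Function.Injective μ := by
    intro i j hij
    fin_cases i <;> fin_cases j <;> simp [hμ, h2, h2.symm] at hij ⊢
    · exact h4 (by linear_combination hij)
    · exact h4 (by linear_combination -hij)
  have hli := Module.End.eigenvectors_linearIndependent' (Matrix.toLin' (v - u * v)) μ hinj x
    fun i => ⟨Module.End.mem_eigenspace_iff.2 (by rw [toLin'_apply, hx]), hx0 i⟩
  set P : Matrix (Fin 3) (Fin 3) F := Matrix.of fun i j => x j i with hP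
  have hU : IsUnit P := linearIndependent_cols_iff_isUnit.1 hli
  have hPQ : P * P⁻¹ = 1 := mul_nonsing_inv _ ((isUnit_iff_isUnit_det _).1 hU)
  have hQP : P⁻¹ * P = 1 := nonsing_inv_mul _ ((isUnit_iff_isUnit_det _).1 hU)
  have hW : (v - u * v) * P = P * diagonal μ := by
    ext i j
    have := congrFun (hx j) i
    rw [mul_diagonal, mul_comm]
    simpa [Matrix.mul_apply, mulVec, dotProduct, hP] using this
  refine ⟨P, P⁻¹, hPQ, fun g hgu hgv => ⟨_, Chev.ReeUtil.eq_diagonal_of_commute hinj ?_⟩⟩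
  have hD : diagonal μ = P⁻¹ * (v - u * v) * P := by rw [mul_assoc, hW, ← mul_assoc, hQP, one_mul]
  have hg : g * (v - u * v) = (v - u * v) * g := by
    rw [mul_sub, sub_mul, ← mul_assoc, hgu, mul_assoc, hgv, mul_assoc]
  rw [hD]
  calc _ = P⁻¹ * g * (P * P⁻¹) * (v - u * v) * P := by simp only [mul_assoc]
    _ = P⁻¹ * (v - u * v) * (P * P⁻¹) * g * P := by
      rw [hPQ, mul_one, mul_one, mul_assoc _ g, hg, ← mul_assoc]
    _ = _ := by simp only [mul_assoc]

theorem eq_of_conj {P Q g h : Matrix (Fin 3) (Fin 3) F} (hPQ : P * Q = 1)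
    (e : Q * g * P = Q * h * P) : g = h := by
  calc g = P * (Q * g * P) * Q := by
        simp only [← mul_assoc, hPQ, one_mul]; rw [mul_assoc, hPQ, mul_one]
    _ = h := by rw [e]; simp only [← mul_assoc, hPQ, one_mul]; rw [mul_assoc, hPQ, mul_one]

theorem conj_mul' {P Q : Matrix (Fin 3) (Fin 3) F} (hPQ : P * Q = 1)
    (g h : Matrix (Fin 3) (Fin 3) F) : Q * (g * h) * P = (Q * g * P) * (Q * h * P) := by
  calc _ = Q * g * (P * Q) * h * P := by rw [hPQ]; simp only [mul_assoc, one_mul]
    _ = _ := by simp only [mul_assoc]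

variable {X : Type*} [Group X] {f : X →* GL (Fin 3) F}

theorem exists_diag' (h2 : (2 : F) ≠ 0) (hf : Function.Injective f) {u v : X} (hu : u * u = 1)
    (hv : v * v = 1) (huv : v * u = u * v) (du : (GeneralLinearGroup.det.comp f) u = 1)
    (dv : (GeneralLinearGroup.det.comp f) v = 1) (hu1 : u ≠ 1)
    (hv1 : v ≠ 1) (hne : u ≠ v) : ∃ P Q : Matrix (Fin 3) (Fin 3) F, P * Q = 1 ∧
      ∀ g : X, g * u = u * g → g * v = v * g → ∃ d, Q * (f g).val * P = diagonal d := by
  have hm : ∀ a b : X, (f a).val * (f b).val = (f (a * b)).val := fun a b => by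
    rw [map_mul, Units.val_mul]
  obtain ⟨P, Q, h1, h3⟩ := exists_diag h2 (u := (f u).val) (v := (f v).val)
    (by rw [hm, hu, map_one, Units.val_one]) (by rw [hm, hv, map_one, Units.val_one])
    (by rw [hm, hm, huv]) (congrArg Units.val du) (congrArg Units.val dv)
    (fun h => hu1 (hf (Units.ext (by rw [h, map_one, Units.val_one]))))
    (fun h => hv1 (hf (Units.ext (by rw [h, map_one, Units.val_one]))))
    (fun h => hne (hf (Units.ext h)))
  exact ⟨P, Q, h1, fun g hgu hgv => h3 _ (by rw [hm, hm, hgu]) (by rw [hm, hm, hgv])⟩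

theorem exists_neg_one [Finite X] (h2 : (2 : F) ≠ 0) (hf : Function.Injective f) {E : Subgroup X}
    (hE : IsElementaryAbelian 2 E) (h8 : Nat.card E = 8) : ∃ y ∈ E, (f y).val = -1 := by
  classical
  have hsq : ∀ a ∈ E, a * a = 1 := fun a ha => by rw [← sq, hE.2 a ha]
  set ψ : E →* Fˣ := (GeneralLinearGroup.det.comp f).comp E.subtype with hψ
  have h1 : Nat.card ψ.range ≤ 2 := by
    have hsub : (ψ.range : Set Fˣ) ⊆ {1, -1} := by
      rintro _ ⟨a, rfl⟩
      have : ψ a * ψ a = 1 := by
        rw [← map_mul, show a * a = 1 from Subtype.ext (hsq a a.2), map_one]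
      have h3 := mul_self_eq_one_iff.1 (show (ψ a : F) * ψ a = 1 from congrArg Units.val this)
      exact h3.imp (fun h => Units.ext h) fun h => Units.ext h
    calc Nat.card ψ.range = (ψ.range : Set Fˣ).ncard := rfl
      _ ≤ ({1, -1} : Set Fˣ).ncard := Set.ncard_le_ncard hsub (Set.toFinite _)
      _ ≤ 2 := (Set.ncard_insert_le _ _).trans (by simp)
  have h3 : 2 < Nat.card ψ.ker := by
    have := ψ.ker.card_mul_index
    rw [index_ker, h8] at this
    nlinarith
  have := Fintype.ofFinite ψ.ker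
  rw [Nat.card_eq_fintype_card, Fintype.two_lt_card_iff] at h3
  obtain ⟨u, v, hu1, hv1, hne⟩ : ∃ u v : ψ.ker, u ≠ 1 ∧ v ≠ 1 ∧ u ≠ v := by
    obtain ⟨a, b, c, hab, hac, hbc⟩ := h3
    by_cases ha : a = 1
    · exact ⟨b, c, ha ▸ hab.symm, ha ▸ hac.symm, hbc⟩
    · by_cases hb : b = 1
      · exact ⟨a, c, ha, hb ▸ hbc.symm, hac⟩
      · exact ⟨a, b, ha, hb, hab⟩
  obtain ⟨P, Q, hPQ, hd⟩ := exists_diag' h2 hf (hsq _ u.1.2) (hsq _ v.1.2) (hE.comm v.1.2 u.1.2)
    u.2 v.2 (fun h => hu1 (Subtype.ext (Subtype.ext h))) (fun h => hv1 (Subtype.ext (Subtype.ext h)))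
    (fun h => hne (Subtype.ext (Subtype.ext h)))
  have hQP : Q * P = 1 := mul_eq_one_comm.1 hPQ
  choose d hd using fun a : E => hd a (hE.comm a.2 u.1.2) (hE.comm a.2 v.1.2)
  have hd1 : ∀ a i, d a i = 1 ∨ d a i = -1 := fun a i => by
    have h4 := conj_mul' hPQ (f a).val (f a).val
    rw [← Units.val_mul, ← map_mul, hsq a a.2, map_one, Units.val_one, mul_one, hQP, hd,
      diagonal_mul_diagonal] at h4
    have := congrFun (congrFun h4 i) i
    simp only [one_apply_eq, diagonal_apply_eq] at this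
    exact mul_self_eq_one_iff.1 this.symm
  set φ : E → Fin 3 → Prop := fun a i => d a i = 1 with hφ
  have hφi : Function.Injective φ := fun a b hab => by
    have h4 : d a = d b := funext fun i => by
      have h5 : d a i = 1 ↔ d b i = 1 := by
        have := congrFun hab i
        simp only [hφ] at this
        rw [this]
      rcases hd1 a i with h | h
      · rw [h, h5.1 h]
      · rcases hd1 b i with h' | h'
        · rw [h', h5.2 h']
        · rw [h, h']
    exact Subtype.ext (hf (Units.ext (eq_of_conj hPQ (by rw [hd, hd, h4]))))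
  have hφs := (hφi.bijective_of_nat_card_le (by simp [h8])).2
  obtain ⟨a, ha⟩ := hφs fun _ => False
  refine ⟨a, a.2, eq_of_conj hPQ ?_⟩
  have h4 : d a = fun _ => -1 := funext fun i => (hd1 a i).resolve_left fun h => by
    have := congrFun ha i
    simp only [hφ, eq_iff_iff, iff_false] at this
    exact this h
  rw [hd, h4, mul_neg, mul_one, neg_mul, hQP, ← diagonal_one, diagonal_neg]

end

/-- Let G be a finite group with no subgroup of index 2 whose Sylow 2-subgroup X embeds in GL₃(F) for a finite field F of odd order. If X contains an elementary abelian subgroup of order 8, then X is abelian. -/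
theorem result {G : Type*} [Group G] [Finite G] (hG : ∀ H : Subgroup G, H.index ≠ 2) (X : Sylow 2 G)
    {F : Type*} [Field F] [Fintype F] (hF : Odd (Fintype.card F))
    (f : ↥(X : Subgroup G) →* GL (Fin 3) F) (hf : Function.Injective f)
    (E : Subgroup G) (hE : E ≤ (X : Subgroup G)) (hEa : Cfsg.IsElementaryAbelian 2 E) (hE8 : Nat.card E = 8) :
    IsMulCommutative (X : Subgroup G) := by
  have : Fact (Nat.Prime 2) := ⟨Nat.prime_two⟩
  have h2 : (2 : F) ≠ 0 := fun h => by
    have h1 : ringChar F = 2 := (Nat.dvd_prime Nat.prime_two).1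
      (ringChar.dvd (by exact_mod_cast h)) |>.resolve_left CharP.ringChar_ne_one
    exact (Nat.odd_iff.1 hF ▸ (by norm_num) : Fintype.card F % 2 ≠ 0)
      (FiniteField.even_card_iff_char_two.1 h1)
  obtain ⟨y, hy, hy1⟩ := exists_neg_one h2 hf (hEa.subgroupOf (X : Subgroup G))
    (by rw [Nat.card_congr (subgroupOfEquivOfLe hE).toEquiv, hE8])
  set ψ : (X : Subgroup G) →* Fˣ := Matrix.GeneralLinearGroup.det.comp f with hψ
  have hyc : ∀ x : (X : Subgroup G), x * y = y * x := fun x => hf (Units.ext (by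
    rw [map_mul, map_mul, Units.val_mul, Units.val_mul, hy1, mul_neg, neg_mul, mul_one, one_mul]))
  have hy2 : (y : G) ^ 2 = 1 := hEa.2 _ hy
  have hψy : ψ y = -1 := Units.ext (by
    show (f y).val.det = _
    rw [hy1, Matrix.det_neg]; simp; norm_num)
  have hne : (-1 : Fˣ) ≠ 1 := fun h => h2 (by
    have := congrArg Units.val h
    simp only [Units.val_neg, Units.val_one] at this
    linear_combination -this)
  have hpm : ∀ a : Fˣ, a ^ 2 = 1 → a ≠ 1 → a = -1 := fun a ha h1 => by
    have h3 := mul_self_eq_one_iff.1 (show (a : F) * a = 1 by rw [← Units.val_mul, ← sq, ha]; rfl)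
    exact (h3.imp (fun h => Units.ext h) fun h => Units.ext h).resolve_left h1
  have hτ : MonoidHom.transfer ψ y = 1 := by
    by_contra h
    have h1 : IsCyclic (MonoidHom.transfer ψ).range := isCyclic_subgroup_units _
    have h3 : 2 ∣ Nat.card (MonoidHom.transfer ψ).range := by
      have h4 : orderOf (MonoidHom.transfer ψ y) = 2 :=
        orderOf_eq_prime (by rw [← map_pow, hy2, map_one]) h
      exact h4.symm.dvd.trans (Subgroup.orderOf_dvd_natCard _ ⟨_, rfl⟩)
    refine hG ((powMonoidHom 2 : (MonoidHom.transfer ψ).range →* _).range.comap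
      (MonoidHom.transfer ψ).rangeRestrict) ?_
    rw [index_comap_of_surjective _ (MonoidHom.rangeRestrict_surjective _),
      IsCyclic.index_powMonoidHom_range, Nat.gcd_eq_right h3]
  obtain ⟨t, ht, ht1, ht2⟩ := Tr.thompson_transfer ψ X.not_dvd_index
    (fun a b ha hb ha1 hb1 => by rw [hpm a ha ha1, hpm b hb hb1]) hy2 hτ X.2
    (fun x hx => congrArg Subtype.val (hyc ⟨x, hx⟩))
  have htn : t⁻¹ ∈ normalizer ((X : Subgroup G) : Set G) :=
    Tr.mem_normalizer_of_conj_mem fun a ha => by simpa using ht2 a ha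
  set α : MulAut (X : Subgroup G) := (X : Subgroup G).normalizerMonoidHom ⟨t⁻¹, htn⟩ with hα
  have hαy : ψ (α y) = 1 := by
    rw [← ht1]
    congr 1
    exact Subtype.ext (show t⁻¹ * y * t⁻¹⁻¹ = t⁻¹ * y * t by rw [inv_inv])
  by_contra hna
  have hc : commutator (X : Subgroup G) ≠ ⊥ := fun h => hna (by
    rw [commutator_eq_bot_iff_center_eq_top, center_eq_top_iff] at h
    exact h)
  obtain ⟨u, hu, hu2⟩ : ∃ u ∈ commutator (X : Subgroup G) ⊓ center (X : Subgroup G),
      orderOf u = 2 := by
    refine exists_mem_orderOf_eq_prime Nat.prime_two ?_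
    obtain ⟨k, hk⟩ := IsPGroup.iff_card.1
      (X.2.to_subgroup (commutator (X : Subgroup G) ⊓ center (X : Subgroup G)))
    rw [hk]
    have := X.2.isNilpotent
    refine dvd_pow_self 2 fun hk0 => PG.inf_center_ne_bot _ hc (card_eq_one.1 ?_)
    rw [hk, hk0, pow_zero]
  have hker : commutator (X : Subgroup G) ≤ ψ.ker := Abelianization.commutator_subset_ker ψ
  have hy1' : y ≠ 1 := fun h => hne (by rw [← hψy, h, map_one])
  have hz : α y ≠ u := fun h => by
    have h1 : α y ∈ commutator (X : Subgroup G) := h ▸ hu.1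
    have h3 := characteristic_iff_comap_le.1
      (inferInstance : (commutator (X : Subgroup G)).Characteristic) α h1
    exact hne (hψy ▸ hker h3)
  have hzc : ∀ g : (X : Subgroup G), g * α y = α y * g := fun g => by
    obtain ⟨g, rfl⟩ := α.surjective g
    rw [← map_mul, hyc, map_mul]
  have hy2' : y * y = 1 := Subtype.ext ((sq (y : G)).symm.trans hy2)
  obtain ⟨P, Q, hPQ, hd⟩ := exists_diag' h2 hf (u := α y) (v := u)
    (by rw [← map_mul, hy2', map_one]) (by rw [← sq]; exact orderOf_dvd_iff_pow_eq_one.1 hu2.dvd) (hzc u) hαy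
    (hker hu.1) (fun h => hy1' ((map_eq_one_iff α α.injective).1 h))
    (fun h => by rw [h] at hu2; simp at hu2) hz
  refine hna ⟨⟨fun a b => hf (Units.ext (eq_of_conj hPQ ?_))⟩⟩
  obtain ⟨da, ha⟩ := hd a (hzc a) (mem_center_iff.1 hu.2 a)
  obtain ⟨db, hb⟩ := hd b (hzc b) (mem_center_iff.1 hu.2 b)
  rw [map_mul, map_mul, Units.val_mul, Units.val_mul, conj_mul' hPQ, conj_mul' hPQ, ha, hb,
    Matrix.diagonal_mul_diagonal, Matrix.diagonal_mul_diagonal]
  simp only [mul_comm]

end Cfsg.Agent.S1906
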