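import Mathlib
import Cfsg.Statements.S1907
import Cfsg.Agent.Loc.TechBasic

set_option autoImplicit false
open Cfsg

namespace Cfsg.Agent.S1907

open Subgroup Cfsg.Agent.GT Cfsg.Agent.Loc

/-- Let P be a Sylow p-subgroup of a finite group G, H = P ∩ O_{p',p}(G), N = N_G(H) and D = O_{p'}(G). (a) If y is an element of p-power order of N and d ∈ D with d⁻¹ y d ∈ N, then d = d₁ d₂ with d₁ ∈ C_D(y) and d₂ ∈ C_D(H). (b) Two elements of P that are conjugate in G are conjugate in N. -/
theorem result {G : Type*} [Group G] [Finite G] {p : ℕ} [Fact p.Prime] (P : Sylow p G) :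
    (∀ y ∈ Subgroup.normalizer (((P : Subgroup G) ⊓ Cfsg.pPrimePCore p G : Subgroup G) : Set G), (∃ k : ℕ, orderOf y = p ^ k) →
      ∀ d ∈ Cfsg.pPrimeCore p G, d⁻¹ * y * d ∈ Subgroup.normalizer (((P : Subgroup G) ⊓ Cfsg.pPrimePCore p G : Subgroup G) : Set G) →
        ∃ d₁ ∈ Cfsg.pPrimeCore p G ⊓ Subgroup.centralizer ({y} : Set G),
          ∃ d₂ ∈ Cfsg.pPrimeCore p G ⊓ Subgroup.centralizer (((P : Subgroup G) ⊓ Cfsg.pPrimePCore p G : Subgroup G) : Set G), d = d₁ * d₂) ∧
    ∀ x y : G, x ∈ (P : Subgroup G) → y ∈ (P : Subgroup G) → IsConj x y →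
      ∃ n ∈ Subgroup.normalizer (((P : Subgroup G) ⊓ Cfsg.pPrimePCore p G : Subgroup G) : Set G), n * x * n⁻¹ = y := by
  constructor
  · rintro y hy ⟨k, hk⟩ d hd hdy
    have hY : IsPGroup p (zpowers y) :=
      isPGroup_zpowers_of_pow_eq_one (k := k) (by rw [← hk, pow_orderOf_eq_one])
    have := exists_centralizer_mul_centralizer_of_conj
      (H := (P : Subgroup G) ⊓ pPrimePCore p G) hY (coprime_card_pPrimeCore p)
      (by rw [inf_comm]; exact pPrimeCore_inf_eq_bot P.isPGroup'.to_inf_left)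
      (by rw [zpowers_le]; exact hy) hd (by
        intro z hz
        obtain ⟨n, rfl⟩ := mem_zpowers_iff.1 hz
        have : d⁻¹ * y ^ n * d = (d⁻¹ * y * d) ^ n := by
          have := conj_zpow (a := d⁻¹) (b := y) (i := n)
          simpa using this.symm
        rw [this]
        exact zpow_mem hdy n)
    rwa [centralizer_zpowers_eq] at this
  · intro x y hx hy hxy
    obtain ⟨g, hg⟩ := isConj_iff.1 hxy
    obtain ⟨n, hn, c, hc, rfl⟩ := exists_normalizer_mul_centralizer_of_conj_le P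
      (Q := zpowers x) (by rw [zpowers_le]; exact hx) (g := g) (by
        intro z hz
        obtain ⟨m, rfl⟩ := mem_zpowers_iff.1 hz
        rw [← conj_zpow, hg]
        exact zpow_mem hy m)
    refine ⟨n, hn, ?_⟩
    have hcx : x * c = c * x := hc.2 x (mem_zpowers x)
    rw [← hg]
    calc n * x * n⁻¹ = n * (x * c) * c⁻¹ * n⁻¹ := by group
      _ = _ := by rw [hcx]; group

end Cfsg.Agent.S1907
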