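import Mathlib
import Cfsg.Statements.S1908
import Cfsg.Agent.GT.Hall
import Cfsg.Agent.S0205

set_option autoImplicit false
open Cfsg

namespace Cfsg.Agent.S1908

open Subgroup Cfsg.Agent.GT
open scoped Pointwise

/-- Let π be a set of primes and G a finite π-separable group: G has a chain of normal subgroups from 1 to G in which each successive index is divisible only by primes in π or only by primes outside π. Then G has a Hall π-subgroup, any two Hall π-subgroups of G are conjugate, and every subgroup of G whose order is divisible only by primes in π lies in some Hall π-subgroup. -/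
theorem result {G : Type*} [Group G] [Finite G] (π : Set ℕ)
    (hsep : ∃ (n : ℕ) (H : Fin (n + 1) → Subgroup G), H 0 = ⊥ ∧ H (Fin.last n) = ⊤ ∧ Monotone H ∧ (∀ i, (H i).Normal) ∧
      ∀ i : Fin n, (∀ q : ℕ, q.Prime → q ∣ (H i.castSucc).relIndex (H i.succ) → q ∈ π) ∨
        (∀ q : ℕ, q.Prime → q ∣ (H i.castSucc).relIndex (H i.succ) → q ∉ π)) :
    (∃ K : Subgroup G, Cfsg.IsPiHall π K) ∧
      (∀ K L : Subgroup G, Cfsg.IsPiHall π K → Cfsg.IsPiHall π L → ∃ g : G, L = K.map (MulAut.conj g).toMonoidHom) ∧
      ∀ U : Subgroup G, (∀ q : ℕ, q.Prime → q ∣ Nat.card U → q ∈ π) → ∃ K : Subgroup G, Cfsg.IsPiHall π K ∧ U ≤ K := by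
  have h : IsPiSeparable π G := hsep
  have key : ∀ K : Subgroup G, IsPiNum π (Nat.card K) → PiComplSolvable π G ∨ Group.IsSolvable K := by
    intro K hK
    by_cases h2 : 2 ∈ π
    · left
      intro N M _ _ hNM
      apply S0205.result
      rw [card_map_mk'_eq_relIndex, ← Nat.not_even_iff_odd, even_iff_two_dvd]
      exact fun hd => hNM 2 Nat.prime_two hd h2
    · right
      apply S0205.result
      rw [← Nat.not_even_iff_odd, even_iff_two_dvd]
      exact fun hd => h2 (hK 2 Nat.prime_two hd)
  refine ⟨h.exists_isPiHall, fun K L hK hL => ?_, fun U hU => h.exists_isPiHall_ge hU (key U hU)⟩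
  obtain ⟨g, hg⟩ := h.exists_conj_eq hK hL ((key K hK.card).imp_right Or.inl)
  exact ⟨g, hg.symm⟩

end Cfsg.Agent.S1908
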