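import Mathlib
import Cfsg.Statements.S1924
import Cfsg.Agent.GT.TransferAbelian
import Cfsg.Agent.GT.PGroupMaxTwo
import Cfsg.Agent.GT.HallTools
-- import your own Cfsg.Agent.* helpers here

set_option autoImplicit false
open Cfsg

namespace Cfsg.Agent.S1924

open Cfsg.Agent.GT.Tr

/-- A consequence of Thompson's transfer lemma. Let G be a finite group, L a subgroup with O²(L) = L, T a Sylow 2-subgroup of L and S a Sylow 2-subgroup of G containing T. Suppose D ≤ S is a dihedral subgroup of order at least 4 (the four-group counts) with D ∩ T = 1 and S = TD as a set of products (so |S| = |T|·|D|), and C ≤ D is cyclic of index 2 in D. If no involution of D outside C is G-conjugate to an involution of the subgroup generated by T and C, and the involution of C is not G-conjugate to any involution of T, then G has a normal subgroup K, containing every Sylow 2-subgroup of L as a Sylow 2-subgroup, with G = KD. -/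
theorem result {G : Type*} [Group G] [Finite G] (L T S D C : Subgroup G) (hL : Cfsg.pResidual 2 ↥L = ⊤)
    (hTL : T ≤ L) (hT2 : IsPGroup 2 T) (hTsyl : ¬ 2 ∣ T.relIndex L)
    (hS2 : IsPGroup 2 S) (hSsyl : ¬ 2 ∣ S.index) (hTS : T ≤ S)
    (hDS : D ≤ S) (hDih : ∃ n : ℕ, 2 ≤ n ∧ Nonempty (↥D ≃* DihedralGroup n)) (hDT : D ⊓ T = ⊥) (hTD : T ⊔ D = S) (hTDc : Nat.card T * Nat.card D = Nat.card S)
    (hCD : C ≤ D) (hC : IsCyclic ↥C) (hCi : C.relIndex D = 2)
    (h1 : ∀ x ∈ D, x ∉ C → orderOf x = 2 → ∀ g : G, g * x * g⁻¹ ∈ T ⊔ C → False)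
    (h2 : ∀ c ∈ C, orderOf c = 2 → ∀ g : G, g * c * g⁻¹ ∈ T → False) :
    ∃ K : Subgroup G, K.Normal ∧ K ⊔ D = ⊤ ∧
      ∀ T' : Subgroup G, T' ≤ L → IsPGroup 2 T' → ¬ 2 ∣ T'.relIndex L → T' ≤ K ∧ ¬ 2 ∣ T'.relIndex K := by
  set K := pResidual 2 G with hK
  have hLK : L ≤ K := by
    have := map_pResidual_le (p := 2) L.subtype
    rwa [hL, ← MonoidHom.range_eq_map, Subgroup.range_subtype] at this
  have hKS : K ⊔ S = ⊤ := pResidual_sup_of_not_dvd_index hSsyl
  have hKD : K ⊔ D = ⊤ := by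
    rw [eq_top_iff, ← hKS, ← hTD]
    exact sup_le le_sup_left (sup_le_sup_right (hTL.trans hLK) _)
  obtain ⟨n, hn, ⟨e⟩⟩ := hDih
  obtain ⟨a, b, ha, hai, hb, hba, hb2⟩ := GT.PG.exists_generators_of_dihedral e
  have hcD := GT.HT.card_mul_relIndex hCD
  rw [hCi] at hcD
  -- every element of `D` outside `C` is an involution
  have hinv : ∀ x ∈ D, x ∉ C → orderOf x = 2 := by
    have h3 : ∀ x : D, x ∉ Subgroup.zpowers a → x ^ 2 = 1 := by
      intro x hx
      obtain ⟨i, hi⟩ := (GT.PG.mem_or_mem_of_index_two hai hb x).resolve_left hx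
      have h4 : x = b * a ^ i := by rw [show a ^ i = b⁻¹ * x from hi]; group
      have h5 : b * a ^ i * b⁻¹ = (a ^ i)⁻¹ := by rw [← conj_zpow, hba, inv_zpow]
      calc x ^ 2 = b * a ^ i * b⁻¹ * b ^ 2 * a ^ i := by rw [h4, sq, sq]; group
        _ = 1 := by rw [h5, hb2]; group
    intro x hx hxC
    have hx1 : x ≠ 1 := fun h => hxC (h ▸ one_mem C)
    refine orderOf_eq_prime ?_ hx1
    by_cases hxa : (⟨x, hx⟩ : D) ∈ Subgroup.zpowers a
    swap
    · exact congrArg Subtype.val (h3 _ hxa)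
    obtain ⟨c, hc⟩ := FG.H93.exists_zpowers_eq C
    have hcC : c ∈ C := hc ▸ Subgroup.mem_zpowers c
    by_cases hca : (⟨c, hCD hcC⟩ : D) ∈ Subgroup.zpowers a
    · have h4 : C.subgroupOf D ≤ Subgroup.zpowers a := by
        rintro y hy
        obtain ⟨i, hi⟩ : (y : G) ∈ Subgroup.zpowers c := hc ▸ hy
        rw [show y = ⟨c, hCD hcC⟩ ^ i from Subtype.ext hi.symm]
        exact zpow_mem hca i
      have h5 := Subgroup.relIndex_mul_index h4
      rw [hai, show (C.subgroupOf D).index = 2 from hCi] at h5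
      have h6 : (C.subgroupOf D).relIndex (Subgroup.zpowers a) = 1 := by omega
      exact absurd (Subgroup.relIndex_eq_one.1 h6 hxa) hxC
    · have h4 : orderOf c ≤ 2 := orderOf_le_of_pow_eq_one two_pos (congrArg Subtype.val (h3 _ hca))
      have h5 := (Subgroup.zpowers a).card_mul_index
      rw [Nat.card_zpowers, hai, ha, ← hcD, ← hc, Nat.card_zpowers] at h5
      obtain ⟨i, hi⟩ := hxa
      have h6 : a ^ 2 = 1 := by rw [show 2 = orderOf a by omega, pow_orderOf_eq_one]
      have h7 : (⟨x, hx⟩ : D) ^ 2 = 1 := by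
        rw [← hi]
        change (a ^ i) ^ 2 = 1
        rw [← zpow_natCast, ← zpow_mul, mul_comm, zpow_mul, zpow_natCast, h6, one_zpow]
      exact congrArg Subtype.val h7
  have hQS : T ⊔ C ≤ S := sup_le hTS (hCD.trans hDS)
  have hQ : (T ⊔ C).relIndex S = 2 := by
    have h3 : Nat.card T * Nat.card C ≤ Nat.card (T ⊔ C : Subgroup G) := by
      rw [← Nat.card_prod]
      refine Nat.card_le_card_of_injective
        (fun y : T × C => (⟨y.1 * y.2, Subgroup.mul_mem_sup y.1.2 y.2.2⟩ : (T ⊔ C : Subgroup G)))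
        fun y z h => Subgroup.mul_injective_of_disjoint ?_ (congrArg Subtype.val h)
      rw [disjoint_iff, eq_bot_iff, ← hDT, inf_comm]
      exact inf_le_inf_right _ hCD
    have h4 := GT.HT.card_mul_relIndex hQS
    have h5 : (T ⊔ C).relIndex S ≠ 1 := fun h => by
      obtain ⟨x, hx, hxC⟩ := SetLike.not_le_iff_exists.1
        (fun h : D ≤ C => by rw [Subgroup.relIndex_eq_one.2 h] at hCi; omega)
      exact h1 x hx hxC (hinv x hx hxC) 1 (by simpa using Subgroup.relIndex_eq_one.1 h (hDS hx))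
    have h6 : (T ⊔ C).relIndex S ≠ 0 := Subgroup.FiniteIndex.index_ne_zero
    rw [← hTDc, ← hcD, ← mul_assoc] at h4
    have h7 := (Nat.mul_le_mul_right ((T ⊔ C).relIndex S) h3).trans h4.le
    have := Nat.le_of_mul_le_mul_left h7 (Nat.mul_pos Nat.card_pos Nat.card_pos)
    omega
  have hDK : K ⊓ D ≤ C := fun x hx => by
    by_contra hxC
    have h3 := hinv x hx.2 hxC
    rcases thompson_transfer_index_two hSsyl hQ (h3 ▸ pow_orderOf_eq_one x) with
      ⟨M, hM, h4, h5⟩ | ⟨g, hg⟩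
    · exact h5 (pResidual_le_of_index (k := 1) h4 hx.1)
    · exact h1 x hx.2 hxC h3 g hg
  have hcard : Nat.card T * Nat.card (K ⊓ D : Subgroup G) = Nat.card (K ⊓ S : Subgroup G) := by
    have h3 := GT.HT.card_inf_mul_relIndex K D
    have h4 := GT.HT.card_inf_mul_relIndex K S
    rw [← Subgroup.relIndex_sup_left, hKD, Subgroup.relIndex_top_right] at h3
    rw [← Subgroup.relIndex_sup_left, hKS, Subgroup.relIndex_top_right, ← hTDc, ← h3,
      ← mul_assoc] at h4
    exact (Nat.eq_of_mul_eq_mul_right (Nat.pos_of_ne_zero Subgroup.FiniteIndex.index_ne_zero)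
      h4).symm
  have hTKS : T ≤ K ⊓ S := le_inf (hTL.trans hLK) hTS
  have hodd : ¬ 2 ∣ (K ⊓ S).relIndex K := by
    rw [inf_comm]
    exact not_dvd_relIndex_inf_of_normal (H := ⊤) (by rwa [Subgroup.relIndex_top_right]) hS2 le_top
      Subgroup.le_normalizer_of_normal
  have hrel : T.relIndex (K ⊓ S) = Nat.card (K ⊓ D : Subgroup G) :=
    Nat.eq_of_mul_eq_mul_left Nat.card_pos ((GT.HT.card_mul_relIndex hTKS).trans hcard.symm)
  have hTK : ¬ 2 ∣ T.relIndex K := by
    have : IsCyclic (K ⊓ D : Subgroup G) := Subgroup.isCyclic_of_le hDK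
    obtain ⟨x, hx⟩ := FG.H93.exists_zpowers_eq (K ⊓ D)
    have hxK : x ∈ K ⊓ D := hx ▸ Subgroup.mem_zpowers x
    rw [← Subgroup.relIndex_mul_relIndex T (K ⊓ S) K hTKS inf_le_left, hrel, ← hx,
      Nat.card_zpowers]
    refine Nat.prime_two.not_dvd_mul (fun h3 => ?_) hodd
    obtain ⟨M, hM, h4, -⟩ := exists_index_two_of_semiregular (T := T.subgroupOf K)
      (x := ⟨x, hxK.1⟩) (by rwa [← Subgroup.orderOf_coe]) hodd (by
        rw [← Subgroup.orderOf_coe, ← Nat.card_zpowers, hx, ← hrel]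
        exact (Subgroup.relIndex_mul_relIndex T (K ⊓ S) K hTKS inf_le_left).symm) (by
        rintro s ⟨i, hi⟩ g hg
        by_contra hs
        have hs1 : (s : G) ∈ K ⊓ D := by
          rw [← hi]
          exact zpow_mem hxK i
        obtain ⟨k, hk⟩ := IsPGroup.iff_orderOf.1 hS2 ⟨s, hDS hs1.2⟩
        rw [← Subgroup.orderOf_coe] at hk
        change orderOf (s : G) = _ at hk
        obtain ⟨j, rfl⟩ : ∃ j, k = j + 1 := by
          refine Nat.exists_eq_succ_of_ne_zero ?_
          rintro rfl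
          exact hs (Subtype.ext (orderOf_eq_one_iff.1 hk))
        refine h2 ((s : G) ^ 2 ^ j) (pow_mem (hDK hs1) _) ?_ g ?_
        · simpa using GT.PG.orderOf_pow_prime_pow two_pos hk j.le_succ
        · rw [← conj_pow]
          exact pow_mem hg _)
    exact pResidual_eq_top_iff.1 pResidual_pResidual M hM h4
  refine ⟨K, inferInstance, hKD, fun T' h3 h4 h5 => ⟨h3.trans hLK, ?_⟩⟩
  rw [← Subgroup.relIndex_mul_relIndex T' L K h3 hLK]
  rw [← Subgroup.relIndex_mul_relIndex T L K hTL hLK] at hTK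
  exact Nat.prime_two.not_dvd_mul h5 fun h => hTK (h.mul_left _)

end Cfsg.Agent.S1924
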