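import Cfsg.Statements.S1935
import Cfsg.Agent.Loc.SubQMain
import Cfsg.Agent.S0599
import Cfsg.Agent.GT.ElemAbRep
-- import your own Cfsg.Agent.* helpers here

set_option autoImplicit false
open Cfsg

namespace Cfsg.Agent.S1935

open Subgroup Cfsg.Agent.GT Cfsg.Agent.Loc.SubQ

section Aux

variable {Ω : Type*} [Group Ω] [Finite Ω] {p : ℕ} [Fact p.Prime] {V G : Subgroup Ω}

theorem exists_quad (hV : IsElementaryAbelian p V) (hGV : G ≤ normalizer (V : Set Ω))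
    (hf : G ⊓ centralizer (V : Set Ω) = ⊥) {E : Subgroup Ω} (hE : E ≤ G) (h1 : E ≠ ⊥)
    (hE' : IsElementaryAbelian p E)
    (hc : Nat.card V ≤ Nat.card E * Nat.card ↥(V ⊓ centralizer (E : Set Ω))) :
    ∃ Q ≤ G, Q ≠ ⊥ ∧ Nat.card V ≤ Nat.card Q * Nat.card ↥(V ⊓ centralizer (Q : Set Ω)) ∧
      ⁅⁅V, Q⁆, Q⁆ = ⊥ := by
  obtain ⟨B, ⟨hB, hB1⟩, hmax⟩ := Set.exists_max_image {B | B ≤ E ∧ B ≠ ⊥}
    (fun B => Nat.card B * Nat.card ↥(V ⊓ centralizer (B : Set Ω))) (Set.toFinite _) ⟨E, le_rfl, h1⟩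
  have c := hc.trans (hmax E ⟨le_rfl, h1⟩)
  have best : IsBestOffenderOn p V B := ⟨fun C hC => by
    by_cases h : C = ⊥
    · subst h
      exact le_trans (by simpa using card_le_of_le inf_le_left) c
    · exact hmax C ⟨hC.trans hB, h⟩, by
      rw [commutator_eq_bot_iff_le_centralizer.2 (hB.trans ((le_centralizer_iff_isMulCommutative.2
        hE'.1).trans (centralizer_le hB)))]
      exact bot_le, fun a ha => by rw [hE'.2 a (hB ha)]; exact one_mem _⟩
  obtain ⟨-, h2, h3⟩ := S0599.result V B hV (hB.trans (hE.trans hGV)) best V le_rfl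
  obtain ⟨-, h4⟩ := off_replace hV.1 (hB.trans (hE.trans hGV)) best.2.1 best.1 (le_refl V)
  refine ⟨B ⊓ centralizer ((⁅V, B⁆ : Subgroup Ω) : Set Ω), inf_le_left.trans (hB.trans hE),
    fun e => h3 (fun e' => hB1 ?_) (by rw [e, commutator_bot_right]), c.trans h4.le, ?_⟩
  · rw [eq_bot_iff, ← hf]
    exact le_inf (hB.trans hE) (le_centralizer_iff.1 (commutator_eq_bot_iff_le_centralizer.1 e'))
  · rw [commutator_eq_bot_iff_le_centralizer, le_centralizer_iff]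
    exact inf_le_right.trans (centralizer_le (commutator_mono le_rfl inf_le_left))

variable {hV : IsElementaryAbelian p V} {hGV : G ≤ normalizer (V : Set Ω)}
  {A : Submodule (ZMod p) (Module.End (ZMod p) (EAV hV))}

omit [Finite Ω] in
theorem card_grp (hf : G ⊓ centralizer (V : Set Ω) = ⊥) (h : Quad (eaRep hV hGV) A) :
    Nat.card (h.grp.map G.subtype) = Nat.card A := by
  rw [card_subtype]
  refine Nat.card_eq_of_bijective (fun g => ⟨_, g.2⟩) ⟨fun a b e => Subtype.ext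
    (eaRep_injective hf (sub_left_injective (congrArg Subtype.val e))), fun a => ?_⟩
  obtain ⟨g, hg⟩ := h.mem a a.2
  have e : eaRep hV hGV g - 1 = a := by rw [hg, add_sub_cancel_left]
  exact ⟨⟨g, show _ ∈ A from e ▸ a.2⟩, Subtype.ext e⟩

theorem card_ann (h : Quad (eaRep hV hGV) A) : Nat.card (rann A) =
    Nat.card ↥(V ⊓ centralizer (h.grp.map G.subtype : Set Ω)) ^
      Module.finrank (ZMod p) (EAV hV) := by
  rw [← EAV.card_sub (hV := hV) inf_le_left]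
  refine card_rann A fun v => ⟨fun hv a ha => ?_, fun hv => ⟨v.val_mem, ?_⟩⟩
  · obtain ⟨g, hg⟩ := h.mem a ha
    have e : eaRep hV hGV g - 1 = a := by rw [hg, add_sub_cancel_left]
    rw [← e, LinearMap.sub_apply, sub_eq_zero]
    exact eaRep_apply_eq_iff.2 (hv.2 g ⟨g, show _ ∈ A from e ▸ ha, rfl⟩)
  · rintro _ ⟨g, hg, rfl⟩
    exact eaRep_apply_eq_iff.1 (sub_eq_zero.1 (hv _ hg))

end Aux

/-- Let p ≥ 5 be a prime and, inside an ambient finite group, let G be a p-subgroup acting faithfully by conjugation on an elementary abelian p-subgroup V that it normalizes (only the identity of G centralizes V). Suppose V is an F-module for G: some nontrivial elementary abelian subgroup E of G satisfies #E · #C_V(E) ≥ #V. Then G contains such an offender A that moreover acts quadratically on V ([V, A, A] = 1) and is normal in its normal closure in G. -/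
theorem result {Ω : Type*} [Group Ω] [Finite Ω] (p : ℕ) [Fact p.Prime] (hp : 5 ≤ p) (V G : Subgroup Ω) (hV : Cfsg.IsElementaryAbelian p V) (hG : IsPGroup p ↥G) (hGV : G ≤ Subgroup.normalizer (V : Set Ω)) (hfaith : G ⊓ Subgroup.centralizer (V : Set Ω) = ⊥) (hF : ∃ E : Subgroup Ω, E ≤ G ∧ E ≠ ⊥ ∧ Cfsg.IsElementaryAbelian p E ∧ Nat.card ↥V ≤ Nat.card ↥E * Nat.card ↥(V ⊓ Subgroup.centralizer (E : Set Ω))) : ∃ A : Subgroup Ω, A ≤ G ∧ A ≠ ⊥ ∧ Cfsg.IsElementaryAbelian p A ∧ Nat.card ↥V ≤ Nat.card ↥A * Nat.card ↥(V ⊓ Subgroup.centralizer (A : Set Ω)) ∧ ⁅⁅V, A⁆, A⁆ = ⊥ ∧ ∀ g ∈ Subgroup.closure {x : Ω | ∃ h ∈ G, ∃ a ∈ A, x = h * a * h⁻¹}, ∀ a ∈ A, g * a * g⁻¹ ∈ A := by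
  obtain ⟨E, hE, h1, hE', hc⟩ := hF
  obtain ⟨Q, hQ, q1, q2, q3⟩ := exists_quad hV hGV hfaith hE h1 hE' hc
  have sq : ∀ {a b : G}, a.1 ∈ Q → b.1 ∈ Q → (eaRep hV hGV a - 1) * (eaRep hV hGV b - 1) = 0 :=
    fun ha hb => eaRep_quadratic q3 hb ha
  let A₀ : Submodule (ZMod p) (Module.End (ZMod p) (EAV hV)) := AddSubgroup.toZModSubmodule p
    { carrier := {r | ∃ g : G, g.1 ∈ Q ∧ eaRep hV hGV g - 1 = r}
      zero_mem' := ⟨1, one_mem _, by simp⟩
      add_mem' := by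
        rintro _ _ ⟨a, ha, rfl⟩ ⟨b, hb, rfl⟩
        refine ⟨a * b, mul_mem ha hb, ?_⟩
        rw [← add_zero (_ + _), ← sq ha hb, map_mul]; noncomm_ring
      neg_mem' := by
        rintro _ ⟨a, ha, rfl⟩
        exact ⟨a⁻¹, inv_mem ha, by
          rw [map_inv_eq (add_sub_cancel 1 _).symm (sq ha ha), sub_sub_cancel_left]⟩ }
  have h₀ : Quad (eaRep hV hGV) A₀ := ⟨by rintro _ ⟨a, ha, rfl⟩ _ ⟨b, hb, rfl⟩; exact sq ha hb,
    by rintro _ ⟨a, ha, rfl⟩; exact ⟨a, (add_sub_cancel 1 _).symm⟩⟩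
  have e₀ : h₀.grp.map G.subtype = Q := le_antisymm (by
    rintro _ ⟨g, ⟨a, ha, e⟩, rfl⟩
    rw [← eaRep_injective hfaith (sub_left_injective e)]; exact ha)
    fun x hx => ⟨⟨x, hQ hx⟩, ⟨_, hx, rfl⟩, rfl⟩
  have : Finite (Module.End (ZMod p) (EAV hV)) := DFunLike.finite _
  obtain ⟨A, h, c1, c2, hn⟩ := exists_subnormal hp hG (eaRep hV hGV) h₀
  rw [← card_grp hfaith h₀, ← card_grp hfaith h, e₀] at c1
  rw [card_ann h₀, card_ann h, e₀] at c2
  have hr : Module.finrank (ZMod p) (EAV hV) ≠ 0 := fun e => q1 (by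
    have : Module.Finite (ZMod p) (EAV hV) := Module.Finite.of_finite
    have := Module.finrank_zero_iff.1 e
    rw [eq_bot_iff, ← hfaith]
    exact fun x hx => ⟨hQ hx, (eaRep_eq_one_iff (hV := hV) (hHV := hGV) (h := ⟨x, hQ hx⟩)).1
      (Subsingleton.elim _ _)⟩)
  have cm : ∀ a ∈ h.grp, ∀ b ∈ h.grp, a * b = b * a := fun a ha b hb => eaRep_injective hfaith (by
    have e1 := h.sq _ ha _ hb
    have e2 := h.sq _ hb _ ha
    rw [map_mul, map_mul, ← sub_eq_zero, ← sub_self (0 : Module.End (ZMod p) (EAV hV))]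
    nth_rewrite 1 [← e1]
    rw [← e2]; noncomm_ring)
  refine ⟨h.grp.map G.subtype, map_subtype_le _, fun e => q1 ?_, ⟨⟨⟨?_⟩⟩, ?_⟩,
    q2.trans (Nat.mul_le_mul c1 ((Nat.pow_le_pow_iff_left hr).1 c2)), ?_, fun g hg => ?_⟩
  · rw [e, card_bot] at c1; exact eq_bot_of_card_le _ c1
  · rintro ⟨_, a, ha, rfl⟩ ⟨_, b, hb, rfl⟩
    exact Subtype.ext (congrArg (fun x : G => x.1) (cm a ha b hb))
  · rintro _ ⟨a, ha, rfl⟩
    have e : ∀ n : ℕ, eaRep hV hGV (a ^ n) = 1 + (n : ZMod p) • (eaRep hV hGV a - 1) := fun n => by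
      induction n with
      | zero => simp
      | succ n ih =>
        have := h.sq _ ha _ ha
        rw [pow_succ, map_mul, ih, add_mul, smul_mul_assoc, ← sub_add_cancel (eaRep hV hGV a) 1,
          add_sub_cancel_right, mul_add, mul_add, this]
        simp [add_smul]; abel
    have := eaRep_injective hfaith ((e p).trans (by simp : _ = eaRep hV hGV 1))
    exact congrArg Subtype.val this
  · rw [commutator_eq_bot_iff_le_centralizer, commutator_comm, commutator_le]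
    rintro _ ⟨a, ha, rfl⟩ v hv _ ⟨b, hb, rfl⟩
    have := LinearMap.congr_fun (h.sq _ hb _ ha) (EAV.mk hV v hv)
    rw [Module.End.mul_apply, LinearMap.sub_apply, LinearMap.zero_apply, sub_eq_zero] at this
    have := eaRep_apply_eq_iff.1 this
    rwa [val_eaRep_sub_one] at this
  · have : g ∈ (normalizer (h.grp : Set G)).map G.subtype := (closure_le _).2 (by
      rintro _ ⟨x, hx, _, ⟨a, ha, rfl⟩, rfl⟩
      exact ⟨_, hn ⟨x, hx⟩ a ha, rfl⟩) hg
    obtain ⟨g, hg', rfl⟩ := this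
    rintro _ ⟨a, ha, rfl⟩
    exact ⟨_, (mem_normalizer_iff.1 hg' a).1 ha, rfl⟩

end Cfsg.Agent.S1935
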