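import Mathlib
import Cfsg.Statements.S1939
import Cfsg.Agent.GT.TransferSylow

set_option autoImplicit false
open Cfsg

namespace Cfsg.Agent.S1939

open Subgroup Cfsg.Agent.GT.Tr

/-- Let S be a Sylow p-subgroup of the finite group G and a an element of S that is the only G-conjugate of a lying in S. Then every power of a has the same property: for every n, the only G-conjugate of a^n lying in S is a^n. -/
theorem result {G : Type*} [Group G] [Finite G] {p : ℕ} [Fact p.Prime] (S : Sylow p G) (a : G)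
    (haS : a ∈ (S : Subgroup G)) (hwc : ∀ g : G, g * a * g⁻¹ ∈ (S : Subgroup G) → g * a * g⁻¹ = a) (n : ℕ) :
    ∀ g : G, g * a ^ n * g⁻¹ ∈ (S : Subgroup G) → g * a ^ n * g⁻¹ = a ^ n := by
  intro g hg
  -- `a` is central in `S`
  have hcen : ∀ s ∈ (S : Subgroup G), s * a * s⁻¹ = a := fun s hs =>
    hwc s ((S : Subgroup G).mul_mem ((S : Subgroup G).mul_mem hs haS) ((S : Subgroup G).inv_mem hs))
  set b := g * a ^ n * g⁻¹ with hb
  have hab : b * a = a * b := by
    have := hcen b hg
    calc b * a = b * a * b⁻¹ * b := by group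
      _ = a * b := by rw [this]
  set C := centralizer ({b} : Set G) with hC
  have hle : ((g • S : Sylow p G) : Subgroup G) ≤ C := by
    intro x hx
    rw [mem_smul_sylow] at hx
    rw [hC, mem_centralizer_singleton_iff]
    have h1 := hcen _ hx
    have h2 : (g⁻¹ * x * g) * a ^ n * (g⁻¹ * x * g)⁻¹ = a ^ n := by
      rw [← conj_pow, h1]
    calc x * b = g * ((g⁻¹ * x * g) * a ^ n * (g⁻¹ * x * g)⁻¹) * g⁻¹ * x := by rw [hb]; group
      _ = b * x := by rw [h2]
  have hi : ¬ p ∣ ((g • S : Sylow p G) : Subgroup G).relIndex C := fun h =>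
    (g • S).not_dvd_index (h.trans (relIndex_dvd_index_of_le hle))
  have haP : IsPGroup p (zpowers a) := S.isPGroup'.to_le ((zpowers_le).mpr haS)
  have haC : zpowers a ≤ C := zpowers_le.mpr (mem_centralizer_singleton_iff.mpr hab.symm)
  obtain ⟨c, hc, h⟩ := exists_conj_le_sylowIn (g • S).isPGroup' hi haP haC
  have h1 := mem_smul_sylow.mp (h a (mem_zpowers a))
  have h2 := hwc (g⁻¹ * c) (by simpa [mul_assoc] using h1)
  have h3 : (g⁻¹ * c) * a ^ n * (g⁻¹ * c)⁻¹ = a ^ n := by rw [← conj_pow, h2]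
  have hcb : c * b = b * c := mem_centralizer_singleton_iff.mp hc
  have h4 : c * a ^ n * c⁻¹ = b := by
    calc c * a ^ n * c⁻¹ = g * ((g⁻¹ * c) * a ^ n * (g⁻¹ * c)⁻¹) * g⁻¹ := by group
      _ = b := by rw [h3]
  calc b = c⁻¹ * (c * b) := by group
    _ = c⁻¹ * (b * c) := by rw [hcb]
    _ = a ^ n := by rw [← h4]; group

end Cfsg.Agent.S1939
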