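import Mathlib
import Cfsg.Statements.S1940

set_option autoImplicit false
open Cfsg

namespace Cfsg.Agent.S1940


/-- Let the finite group L act by automorphisms on the finite abelian group M, and let N be an L-invariant subgroup of M such that M/N is a p-group on which L acts trivially (every l • m lies in the coset mN). If every element of M is a product of an element of N and an element fixed by a Sylow p-subgroup T of L, then every element of M is a product of an element of N and an element fixed by all of L. -/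
theorem result {L : Type*} [Group L] [Finite L] {M : Type*} [CommGroup M] [Finite M] [MulDistribMulAction L M]
    {p : ℕ} [Fact p.Prime] (N : Subgroup M) (hN : ∀ (l : L) (m : M), m ∈ N → l • m ∈ N)
    (hquot : IsPGroup p (M ⧸ N)) (htriv : ∀ (l : L) (m : M), (l • m) * m⁻¹ ∈ N) (T : Sylow p L)
    (hT : ∀ m : M, ∃ n ∈ N, ∃ c : M, (∀ t ∈ (T : Subgroup L), t • c = c) ∧ m = n * c) :
    ∀ m : M, ∃ n ∈ N, ∃ c : M, (∀ l : L, l • c = c) ∧ m = n * c := by
  classical
  intro m
  have hp : p.Prime := Fact.out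
  obtain ⟨a, ha⟩ := hquot (QuotientGroup.mk m)
  set k := (T : Subgroup L).index with hk
  have hcop : Nat.Coprime k (p ^ a) := by
    apply Nat.Coprime.pow_right
    exact ((Nat.Prime.coprime_iff_not_dvd hp).2 T.not_dvd_index).symm
  obtain ⟨k', hk'⟩ : ∃ k' : ℕ, k * k' ≡ 1 [MOD p ^ a] := by
    rcases Nat.eq_or_lt_of_le (Nat.one_le_iff_ne_zero.2 (pow_ne_zero a hp.ne_zero)) with h1 | h1
    · exact ⟨0, by rw [← h1]; exact Nat.modEq_one⟩
    · obtain ⟨k', -, hk'⟩ := Nat.exists_mul_mod_eq_one_of_coprime hcop h1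
      exact ⟨k', by unfold Nat.ModEq; rw [hk', Nat.mod_eq_of_lt h1]⟩
  obtain ⟨n, hn, c, hc, hmc⟩ := hT (m ^ k')
  haveI : Fintype (L ⧸ (T : Subgroup L)) := Fintype.ofFinite _
  set c' : M := ∏ q : L ⧸ (T : Subgroup L), q.out • c with hc'
  have hout : ∀ (l : L), (QuotientGroup.mk l : L ⧸ (T : Subgroup L)).out • c = l • c := by
    intro l
    obtain ⟨t, ht⟩ := QuotientGroup.mk_out_eq_mul (T : Subgroup L) l
    rw [ht, mul_smul, hc t t.2]
  have hfix : ∀ l : L, l • c' = c' := by
    intro l
    rw [hc', Finset.smul_prod']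
    refine Fintype.prod_equiv (MulAction.toPerm l) _ _ ?_
    intro q
    have : (MulAction.toPerm l q : L ⧸ (T : Subgroup L)) = QuotientGroup.mk (l * q.out) := by
      simp only [MulAction.toPerm_apply]
      conv_lhs => rw [← QuotientGroup.out_eq' q]
      rfl
    rw [this, hout, mul_smul]
  have hmk : ∀ (l : L) (x : M), (QuotientGroup.mk (l • x) : M ⧸ N) = QuotientGroup.mk x := by
    intro l x
    rw [QuotientGroup.eq_iff_div_mem, div_eq_mul_inv]
    exact htriv l x
  have hq : (QuotientGroup.mk c' : M ⧸ N) = QuotientGroup.mk m := by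
    have h1 : (QuotientGroup.mk c' : M ⧸ N) = (QuotientGroup.mk c) ^ k := by
      rw [hc']
      change (QuotientGroup.mk' N) _ = _
      rw [map_prod]
      simp only [QuotientGroup.mk'_apply, hmk, Finset.prod_const, Finset.card_univ]
      rw [hk, Subgroup.index, Nat.card_eq_fintype_card]
    have h2 : (QuotientGroup.mk c : M ⧸ N) = (QuotientGroup.mk m) ^ k' := by
      rw [← QuotientGroup.mk_pow, hmc, QuotientGroup.mk_mul,
        (QuotientGroup.eq_one_iff n).2 hn, one_mul]
    rw [h1, h2, ← pow_mul, mul_comm k' k]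
    have h3 : orderOf (QuotientGroup.mk m : M ⧸ N) ∣ p ^ a := orderOf_dvd_of_pow_eq_one ha
    conv_rhs => rw [← pow_one (QuotientGroup.mk m : M ⧸ N)]
    exact pow_eq_pow_iff_modEq.2 (hk'.of_dvd h3)
  refine ⟨m * c'⁻¹, ?_, c', hfix, by group⟩
  rw [← div_eq_mul_inv, ← QuotientGroup.eq_iff_div_mem]
  exact hq.symm

end Cfsg.Agent.S1940
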