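import Mathlib
import Cfsg.Statements.S1941
import Cfsg.Agent.GT.FStar
import Cfsg.Agent.GT.Gaschutz
import Cfsg.Agent.GT.Conj
import Cfsg.Agent.GT.PGroupBasic

set_option autoImplicit false
open Cfsg

namespace Cfsg.Agent.S1941

open Subgroup Cfsg.Agent.GT
open scoped IsMulCommutative

/-- Let G be a finite group with no nontrivial normal subgroup of order prime to p, T a Sylow p-subgroup of G and E(G) the layer of G (the subgroup generated by its components). An automorphism of G of p-power order that fixes T and E(G) elementwise is inner. -/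
theorem result {G : Type*} [Group G] [Finite G] {p : ℕ} [Fact p.Prime] (hcore : Cfsg.pPrimeCore p G = ⊥)
    (T : Sylow p G) (α : MulAut G) (hα : ∃ j : ℕ, orderOf α = p ^ j) (hfixT : ∀ x ∈ (T : Subgroup G), α x = x)
    (hfixE : ∀ x ∈ Cfsg.layer G, α x = x) : ∃ g : G, ∀ x : G, α x = g * x * g⁻¹ := by
  have hp : p.Prime := Fact.out
  set K : Subgroup G := centralizer (generalizedFittingSubgroup G : Set G) with hK
  have hfix : ∀ x ∈ generalizedFittingSubgroup G, α x = x := by
    have : generalizedFittingSubgroup G ≤ MonoidHom.eqLocus α.toMonoidHom (MonoidHom.id G) := by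
      rw [genFitting_eq_layer_sup_pCore hp hcore]
      exact sup_le (fun x hx => hfixE x hx) (fun x hx => hfixT x (pCore_le_sylow T hx))
    exact fun x hx => this hx
  have hKc : IsMulCommutative K :=
    PG.isMulCommutative_iff_le_centralizer.2 (centralizer_anti centralizer_genFitting_le)
  have hKp : IsPGroup p K := (isPGroup_pCore p).to_le
    (centralizer_genFitting_le_fitting.trans (fitting_eq_pCore hp hcore).le)
  have hc : ∀ g : G, α g * g⁻¹ ∈ K := by
    intro g f hf
    have h1 := hfix _ (Subgroup.Normal.conj_mem' inferInstance f hf g)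
    rw [map_mul, map_mul, map_inv, hfix f hf] at h1
    calc f * (α g * g⁻¹) = α g * ((α g)⁻¹ * f * α g) * g⁻¹ := by group
      _ = α g * g⁻¹ * f := by rw [h1]; group
  obtain ⟨a, ha⟩ := coboundary_of_coprime (K := K) MulAut.conjNormal (fun g => ⟨_, hc g⟩)
    (fun x y => Subtype.ext (by simp [mul_assoc])) (T : Subgroup G)
    (fun t ht => Subtype.ext (by simp [hfixT t ht]))
    (coprime_card_of_isPGroup hp hKp ((Nat.Prime.coprime_iff_not_dvd hp).2 T.not_dvd_index).symm)
  refine ⟨a, fun x => ?_⟩
  have := congrArg Subtype.val (ha x)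
  simp only [coe_mul, InvMemClass.coe_inv, MulAut.conjNormal_apply] at this
  calc α x = α x * x⁻¹ * x := by group
    _ = _ := by rw [this]; group

end Cfsg.Agent.S1941
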