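import Mathlib
import Cfsg.Statements.S1944
import Cfsg.Agent.Loc.TechBasic
import Cfsg.Agent.GT.CoprimeAbelian
import Cfsg.Agent.GT.Conj

set_option autoImplicit false
open Cfsg

namespace Cfsg.Agent.S1944

open Subgroup Cfsg.Agent.GT Cfsg.Agent.Loc
open scoped IsMulCommutative

theorem exists_norm {L M : Type*} [Group L] [Finite L] [CommGroup M] (φ : L →* MulAut M)
    (T : Subgroup L) : ∃ ν : M →* M, (∀ c : M, (∀ t ∈ T, φ t c = c) → ∀ l, φ l (ν c) = ν c) ∧
      ∀ c : M, (∀ l, φ l c = c) → ν c = c ^ T.index := by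
  classical
  have : Fintype (L ⧸ T) := Fintype.ofFinite _
  refine ⟨∏ q : L ⧸ T, (φ q.out).toMonoidHom, ?_, ?_⟩
  · intro c hc l
    have hout : ∀ (l : L), φ (QuotientGroup.mk l : L ⧸ T).out c = φ l c := by
      intro l
      obtain ⟨t, ht⟩ := QuotientGroup.mk_out_eq_mul T l
      rw [ht, map_mul, MulAut.mul_apply, hc t t.2]
    simp only [MonoidHom.finsetProd_apply, MulEquiv.coe_toMonoidHom, map_prod]
    refine Fintype.prod_equiv (MulAction.toPerm l) _ _ ?_
    intro q
    have : (MulAction.toPerm l q : L ⧸ T) = QuotientGroup.mk (l * q.out) := by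
      simp only [MulAction.toPerm_apply]
      conv_lhs => rw [← QuotientGroup.out_eq' q]
      rfl
    rw [this, hout, map_mul, MulAut.mul_apply]
  · intro c hc
    simp only [MonoidHom.finsetProd_apply, MulEquiv.coe_toMonoidHom, hc, Finset.prod_const,
      Finset.card_univ]
    rw [Subgroup.index, Nat.card_eq_fintype_card]

/-- Let S be a Sylow p-subgroup of the finite group G and suppose that the centre Z(S) lies in O_{p',p}(G). The elements of S each of which is its only G-conjugate in S form a subgroup W of Z(S); W is then a direct factor of Z(S): there is a subgroup K of Z(S) with W ∩ K = 1 and WK = Z(S). -/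
theorem result {G : Type*} [Group G] [Finite G] {p : ℕ} [Fact p.Prime] (S : Sylow p G)
    (hZ : ((S : Subgroup G) ⊓ Subgroup.centralizer ((S : Subgroup G) : Set G)) ≤ Cfsg.pPrimePCore p G) :
    ∃ W K : Subgroup G, (∀ x : G, x ∈ W ↔ (x ∈ (S : Subgroup G) ∧ ∀ g : G, g * x * g⁻¹ ∈ (S : Subgroup G) → g * x * g⁻¹ = x)) ∧
      K ≤ ((S : Subgroup G) ⊓ Subgroup.centralizer ((S : Subgroup G) : Set G)) ∧ W ⊓ K = ⊥ ∧ W ⊔ K = ((S : Subgroup G) ⊓ Subgroup.centralizer ((S : Subgroup G) : Set G)) := by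
  have hp : p.Prime := Fact.out
  set T : Subgroup G := (S : Subgroup G) ⊓ pPrimePCore p G with hT
  set N : Subgroup G := normalizer (T : Set G) with hN
  set A : Subgroup G := T ⊓ centralizer (T : Set G) with hA
  set Z : Subgroup G := (S : Subgroup G) ⊓ centralizer ((S : Subgroup G) : Set G) with hZdef
  have hSN : (S : Subgroup G) ≤ N := sylow_le_normalizer_inf _ _
  have hTS : T ≤ S := inf_le_left
  have hZA : Z ≤ A := le_inf (le_inf inf_le_left hZ) (inf_le_right.trans (centralizer_anti hTS))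
  have hAc : IsMulCommutative A :=
    PG.isMulCommutative_iff_le_centralizer.2 (inf_le_right.trans (centralizer_anti inf_le_left))
  have hNA : N ≤ normalizer (A : Set G) :=
    CopAct.le_normalizer_inf le_rfl (CopAct.le_normalizer_centralizer le_rfl)
  obtain ⟨ν, hν1, hν2⟩ := exists_norm (M := A) (CopAct.conjHom hNA) ((S : Subgroup G).subgroupOf N)
  set k := ((S : Subgroup G).subgroupOf N).index with hk
  have hkp : ¬ p ∣ k := fun hd => S.not_dvd_index (hd.trans (relIndex_dvd_index_of_le hSN))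
  have hAp : IsPGroup p A := S.isPGroup'.to_le (inf_le_left.trans hTS)
  have hcop : (Nat.card A).Coprime k :=
    coprime_card_of_isPGroup hp hAp ((Nat.Prime.coprime_iff_not_dvd hp).2 hkp).symm
  have hfix : ∀ (c : A) (l : N), CopAct.conjHom hNA l c = c ↔ (c : G) * l = l * c := by
    intro c l
    rw [Subtype.ext_iff, CopAct.coe_conjHom_apply, mul_inv_eq_iff_eq_mul, eq_comm]
  have hWZ : A ⊓ centralizer (N : Set G) ≤ Z :=
    le_inf (inf_le_left.trans (inf_le_left.trans hTS)) (inf_le_right.trans (centralizer_anti hSN))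
  refine ⟨A ⊓ centralizer (N : Set G), Z ⊓ ν.ker.map A.subtype, ?_, inf_le_left, ?_, ?_⟩
  · intro x
    constructor
    · intro hx
      refine ⟨(hWZ hx).1, fun g hg => ?_⟩
      obtain ⟨n, hn, c, hc, rfl⟩ := exists_normalizer_mul_centralizer_of_conj_le S
        (Q := zpowers x) (by rw [zpowers_le]; exact (hWZ hx).1) (g := g) (by
          intro z hz
          obtain ⟨m, rfl⟩ := mem_zpowers_iff.1 hz
          rw [← conj_zpow]
          exact zpow_mem hg m)
      have hcx : x * c = c * x := hc.2 x (mem_zpowers x)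
      have hnx : n * x = x * n := hx.2 n hn
      calc n * c * x * (n * c)⁻¹ = n * (c * x) * c⁻¹ * n⁻¹ := by group
        _ = n * x * n⁻¹ := by rw [← hcx]; group
        _ = x := by rw [hnx]; group
    · rintro ⟨hx, h⟩
      have hxZ : x ∈ Z := by
        refine ⟨hx, fun s hs => ?_⟩
        have := h s (mul_mem (mul_mem hs hx) (inv_mem hs))
        rw [mul_inv_eq_iff_eq_mul] at this
        exact this
      refine ⟨hZA hxZ, fun n hn => ?_⟩
      have := h n (hTS (Tr.conj_mem_of_mem_normalizer hn (hZA hxZ).1))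
      rw [mul_inv_eq_iff_eq_mul] at this
      exact this
  · rw [eq_bot_iff]
    rintro _ ⟨hx, -, c, hc, rfl⟩
    have h1 := hν2 c (fun l => (hfix c l).2 (hx.2 l l.2).symm)
    rw [MonoidHom.mem_ker.1 hc] at h1
    have := CopAct.eq_one_of_pow_eq_one_of_coprime hcop.symm h1.symm
    rw [this, map_one]; exact one_mem _
  · refine le_antisymm (sup_le hWZ inf_le_left) fun z hz => ?_
    have h1 := hν1 ⟨z, hZA hz⟩ (fun t ht => (hfix _ t).2 (hz.2 t ht).symm)
    obtain ⟨w, hw⟩ : ∃ w ∈ zpowers (ν ⟨z, hZA hz⟩), w ^ k = ν ⟨z, hZA hz⟩ := by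
      obtain ⟨m, hm⟩ := exists_pow_eq_self_of_coprime (x := ν ⟨z, hZA hz⟩) (n := k)
        (Nat.Coprime.coprime_dvd_right (orderOf_dvd_natCard _) hcop.symm)
      exact ⟨_ ^ m, pow_mem (mem_zpowers _) m, by rw [← pow_mul, mul_comm, pow_mul, hm]⟩
    have hwf : ∀ l, CopAct.conjHom hNA l w = w := by
      intro l
      obtain ⟨m, hm⟩ := mem_zpowers_iff.1 hw.1
      rw [← hm, map_zpow, h1]
    have hwW : (w : G) ∈ A ⊓ centralizer (N : Set G) :=
      ⟨w.2, fun n hn => ((hfix w ⟨n, hn⟩).1 (hwf _)).symm⟩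
    have : z = w * ((w : G)⁻¹ * z) := by group
    rw [this]
    refine mul_mem (mem_sup_left hwW) (mem_sup_right ⟨Z.mul_mem (Z.inv_mem (hWZ hwW)) hz,
      w⁻¹ * ⟨z, hZA hz⟩, ?_, rfl⟩)
    rw [SetLike.mem_coe, MonoidHom.mem_ker, map_mul, map_inv, hν2 w hwf, hw.2, inv_mul_cancel]

end Cfsg.Agent.S1944
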