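import Mathlib
import Cfsg.Statements.S1946
import Cfsg.Agent.Loc.TechSmall

set_option autoImplicit false
open Cfsg

namespace Cfsg.Agent.S1946

open Subgroup Cfsg.Agent.GT Cfsg.Agent.Loc
open scoped commutatorElement

/-- Let P be a Sylow p-subgroup of the finite group G. Then G has a normal p-complement if and only if P controls the fusion of its elements of order dividing p (dividing 4 when p = 2): whenever such an element a of P has a G-conjugate g a g⁻¹ in P, that conjugate is already x a x⁻¹ for some x in P. -/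
theorem result {G : Type*} [Group G] [Finite G] {p : ℕ} [Fact p.Prime] (P : Sylow p G) :
    Cfsg.HasNormalPComplement p G ↔
      ∀ a ∈ (P : Subgroup G), (a ^ p = 1 ∨ (p = 2 ∧ a ^ 4 = 1)) → ∀ g : G, g * a * g⁻¹ ∈ (P : Subgroup G) →
        ∃ x ∈ (P : Subgroup G), g * a * g⁻¹ = x * a * x⁻¹ := by
  constructor
  · intro h a ha _ g hg
    obtain ⟨u, hu, hh⟩ := h.exists_conj_eq P g
    exact ⟨u, hu, hh a ha hg⟩
  · intro h
    apply hasNormalPComplement_of_small P
    intro D hD hs g hg _ hDg
    apply Tr.eq_bot_of_le_commutator P.isPGroup'.isNilpotent hD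
    conv_lhs => rw [← hDg]
    rw [commutator_le]
    intro d hd a ha
    have haN : a ∈ normalizer (D : Set G) := (zpowers_le.2 hg) ha
    obtain ⟨x, hx, hh⟩ := h d⁻¹ (hD (inv_mem hd)) (hs _ (inv_mem hd)) a
      (hD (Tr.conj_mem_of_mem_normalizer haN (inv_mem hd)))
    have : ⁅d, a⁆ = ⁅d, x⁆ := by
      simp only [commutatorElement_def, mul_assoc] at hh ⊢
      rw [hh]
    rw [this]
    exact commutator_mem_commutator hd hx

end Cfsg.Agent.S1946
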