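import Mathlib
import Cfsg.Statements.S1948
import Cfsg.Agent.Loc.TechBasic

set_option autoImplicit false
open Cfsg

namespace Cfsg.Agent.S1948

open Subgroup Cfsg.Agent.GT Cfsg.Agent.Loc

/-- Let S be a Sylow p-subgroup of the finite group G. Then G = N_G(S)·O_{p'}(G) if and only if G is p-constrained and N_G(S) controls fusion in S, in the sense that whenever a subgroup Q of S has a conjugate g Q g⁻¹ inside S, the element g is a product n c with n normalizing S and c centralizing Q. -/
theorem result {G : Type*} [Group G] [Finite G] {p : ℕ} [Fact p.Prime] (S : Sylow p G) :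
    Subgroup.normalizer ((S : Subgroup G) : Set G) ⊔ Cfsg.pPrimeCore p G = ⊤ ↔
      (Cfsg.IsPConstrained p G ∧
        ∀ Q : Subgroup G, Q ≤ (S : Subgroup G) → ∀ g : G, Q.map (MulAut.conj g).toMonoidHom ≤ (S : Subgroup G) →
          ∃ n ∈ Subgroup.normalizer ((S : Subgroup G) : Set G), ∃ c ∈ Subgroup.centralizer (Q : Set G), g = n * c) := by
  have hp : p.Prime := Fact.out
  constructor
  · intro h
    constructor
    · apply IsPSolvable.isPConstrained
      refine IsPSolvable.extension (pPrimeCore p G) (isPSolvable_of_coprime (coprime_card_pPrimeCore p)) ?_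
      let S' : Sylow p (G ⧸ pPrimeCore p G) := S.mapSurjective (QuotientGroup.mk'_surjective _)
      have hS' : (S' : Subgroup (G ⧸ pPrimeCore p G)) =
          (S : Subgroup G).map (QuotientGroup.mk' (pPrimeCore p G)) := rfl
      have hn : (S' : Subgroup (G ⧸ pPrimeCore p G)).Normal := by
        rw [← normalizer_eq_top_iff, eq_top_iff,
          ← map_top_of_surjective _ (QuotientGroup.mk'_surjective (pPrimeCore p G)), ← h, Subgroup.map_sup,
          sup_le_iff]
        constructor
        · rw [hS']; exact le_normalizer_map _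
        · intro x hx
          obtain ⟨y, hy, rfl⟩ := hx
          have : QuotientGroup.mk' (pPrimeCore p G) y = 1 := (QuotientGroup.eq_one_iff y).2 hy
          rw [this]; exact one_mem _
      refine IsPSolvable.extension (S' : Subgroup (G ⧸ pPrimeCore p G))
        (isPSolvable_of_isPGroup S'.isPGroup') (isPSolvable_of_not_dvd ?_)
      exact S'.not_dvd_index
    · intro Q hQ g hg
      have hg' : g ∈ normalizer ((S : Subgroup G) : Set G) ⊔ pPrimeCore p G := by rw [h]; trivial
      rw [mem_sup_of_normal_right] at hg'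
      obtain ⟨n, hn, d, hd, rfl⟩ := hg'
      refine ⟨n, hn, d, ?_, rfl⟩
      intro y hy
      have h1 : d * y * d⁻¹ ∈ (S : Subgroup G) := by
        have := Tr.inv_conj_mem_of_mem_normalizer hn (Tr.map_conj_le_iff.1 hg y hy)
        convert this using 1; group
      have h2 : d * y * d⁻¹ * y⁻¹ ∈ pPrimeCore p G ⊓ (S : Subgroup G) := by
        refine mem_inf.2 ⟨?_, mul_mem h1 (inv_mem (hQ hy))⟩
        have : d * y * d⁻¹ * y⁻¹ = d * (y * d⁻¹ * y⁻¹) := by group
        rw [this]
        exact mul_mem hd (Subgroup.Normal.conj_mem inferInstance _ (inv_mem hd) y)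
      rw [pPrimeCore_inf_eq_bot S.isPGroup', mem_bot] at h2
      calc y * d = (d * y * d⁻¹ * y⁻¹) * (y * d) := by rw [h2, one_mul]
        _ = d * y := by group
  · rintro ⟨hc, hf⟩
    rw [eq_top_iff]
    intro g _
    obtain ⟨n, hn, d, hd, rfl⟩ := exists_pPrimeCore_mul_normalizer S g
    refine mul_mem ?_ (mem_sup_right hd)
    obtain ⟨m, hm, c, hc', rfl⟩ := hf ((S : Subgroup G) ⊓ pPrimePCore p G) inf_le_left n
      (by rw [Tr.map_conj_eq_of_mem hn]; exact inf_le_left)
    refine mul_mem (mem_sup_left hm) ?_
    have := hc.centralizer_le (pPrimeCore_sup_sylow_inf S).ge hc'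
    rw [← pPrimeCore_sup_sylow_inf S] at this
    exact (sup_le le_sup_right ((inf_le_left.trans le_normalizer).trans le_sup_left) :
      _ ≤ normalizer ((S : Subgroup G) : Set G) ⊔ pPrimeCore p G) this

end Cfsg.Agent.S1948
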