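import Mathlib
import Cfsg.Statements.S1949
import Cfsg.Agent.GT.PGroupCritical
import Cfsg.Agent.GT.PPrimeCore
import Cfsg.Agent.GT.CoprimeActThms
import Cfsg.Agent.GT.CoprimeNilp
-- import your own Cfsg.Agent.* helpers here

set_option autoImplicit false
open Cfsg

namespace Cfsg.Agent.S1949

open Subgroup Cfsg.Agent.GT
open scoped commutatorElement

/-- The elements of `K ≤ C` (`C` critical) killed by `e`. -/
def dSub {P : Type*} [Group P] {p : ℕ} {C : Subgroup P} (hC : PG.IsCritical p C) (K : Subgroup P)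
    (hK : K ≤ C) (e : ℕ) (he : p ∣ e.choose 2) : Subgroup P where
  carrier := {x | x ∈ K ∧ x ^ e = 1}
  one_mem' := ⟨one_mem _, one_pow _⟩
  inv_mem' := fun {x} hx => ⟨inv_mem hx.1, by rw [inv_pow, hx.2, inv_one]⟩
  mul_mem' := fun {x y} hx hy => by
    refine ⟨mul_mem hx.1 hy.1, ?_⟩
    have hc := hC.commutator_mem y (hK hy.1) x
    have h1 : Commute x ⁅y, x⁆ := hc x (hK hx.1)
    have h2 : Commute y ⁅y, x⁆ := hc y (hK hy.1)
    rw [CopAct.mul_pow_of_commute_commutatorElement h1 h2, hx.2, hy.2, one_mul, one_mul]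
    obtain ⟨k, hk⟩ := he
    rw [hk, pow_mul, ← CopAct.commutatorElement_pow_left_of_commute h2]
    have h3 : Commute x (y ^ p) := hC.pow_mem y (hK hy.1) x (hK hx.1)
    rw [commutatorElement_eq_one_iff_commute.2 h3.symm, one_pow]


/-- Let P be a finite p-group and G a group of automorphisms of P containing the inner automorphisms. Then there is a G-invariant subgroup D of P, contained in the subgroup generated by the elements x⁻¹α(x) with x in P and α in O^p(G), of exponent dividing p when p is odd and dividing 4 when p = 2, with [D, P] ≤ Z(D), such that every automorphism in G of order prime to p that fixes D elementwise is the identity; moreover every maximal abelian subgroup A of D is normal in P and every automorphism in G fixing A elementwise has p-power order. -/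
theorem result {P : Type*} [Group P] [Finite P] {p : ℕ} [Fact p.Prime] (hP : IsPGroup p P)
    (G : Subgroup (MulAut P)) (hG : Cfsg.Inn P ≤ G) :
    ∃ D : Subgroup P,
      (∀ α ∈ G, D.map α.toMonoidHom = D) ∧
      D ≤ Subgroup.closure {y : P | ∃ α ∈ Cfsg.pResidual p ↥G, ∃ x : P, y = x⁻¹ * (α : MulAut P) x} ∧
      (∀ d ∈ D, d ^ p = 1 ∨ (p = 2 ∧ d ^ 4 = 1)) ∧
      ⁅D, (⊤ : Subgroup P)⁆ ≤ D ⊓ Subgroup.centralizer (D : Set P) ∧
      (∀ α ∈ G, (orderOf α).Coprime p → (∀ d ∈ D, α d = d) → α = 1) ∧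
      ∀ A : Subgroup P, A ≤ D → IsMulCommutative ↥A →
        (∀ B : Subgroup P, A ≤ B → B ≤ D → IsMulCommutative ↥B → B = A) →
        A.Normal ∧ ∀ α ∈ G, (∀ a ∈ A, α a = a) → ∃ k : ℕ, orderOf α = p ^ k := by
  have hp : p.Prime := Fact.out
  obtain ⟨C, hC⟩ := PG.exists_isCritical hP
  have hCc := hC.char
  set R : Subgroup P := Subgroup.closure
    {y : P | ∃ α ∈ Cfsg.pResidual p ↥G, ∃ x : P, y = x⁻¹ * (α : MulAut P) x} with hR
  have hRinv : ∀ β ∈ G, ∀ y ∈ R, β y ∈ R := by
    intro β hβ y hy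
    have : R.map β.toMonoidHom ≤ R := by
      rw [hR, MonoidHom.map_closure, closure_le]
      rintro _ ⟨_, ⟨α, hα, x, rfl⟩, rfl⟩
      refine subset_closure ⟨(⟨β, hβ⟩ : G) * α * (⟨β, hβ⟩ : G)⁻¹,
        Normal.conj_mem inferInstance α hα _, β x, ?_⟩
      simp
    exact this (mem_map_of_mem _ hy)
  have hCinv : ∀ β : MulAut P, ∀ y ∈ C, β y ∈ C := fun β y hy =>
    CopAct.actInv_of_characteristic (MonoidHom.id (MulAut P)) C β y hy
  obtain ⟨e, he, he1, he2⟩ : ∃ e : ℕ, p ∣ e.choose 2 ∧ (p ≠ 2 → e = p) ∧ (p = 2 → e = 4) := by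
    by_cases h2 : p = 2
    · exact ⟨4, by rw [h2]; decide, fun h => absurd h2 h, fun _ => rfl⟩
    · refine ⟨p, ?_, fun _ => rfl, fun h => absurd h h2⟩
      have := hp.two_le
      exact hp.dvd_choose_self two_ne_zero (by omega)
  let D := dSub hC (C ⊓ R) inf_le_left e he
  have memD : ∀ {x : P}, x ∈ D ↔ x ∈ C ⊓ R ∧ x ^ e = 1 := Iff.rfl
  have hDinv : ∀ β ∈ G, ∀ y ∈ D, β y ∈ D := by
    intro β hβ y hy
    obtain ⟨h1, h2⟩ := memD.1 hy
    exact memD.2 ⟨mem_inf.2 ⟨hCinv β y h1.1, hRinv β hβ y h1.2⟩, by rw [← map_pow, h2, map_one]⟩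
  have hDn : D.Normal := ⟨fun y hy g => hDinv (MulAut.conj g) (hG ⟨g, rfl⟩) y hy⟩
  have hDC : D ≤ C := fun x hx => (memD.1 hx).1.1
  have hcomm : ⁅D, (⊤ : Subgroup P)⁆ ≤ D ⊓ centralizer (D : Set P) :=
    le_inf (commutator_le_left _ _)
      (((commutator_mono hDC le_rfl).trans hC.commutator_top_le).trans (centralizer_le hDC))
  have hdet : ∀ α ∈ G, (orderOf α).Coprime p → (∀ d ∈ D, α d = d) → α = 1 := by
    intro α hα hco hfix
    have hcard : (Nat.card (zpowers α)).Coprime p := by rwa [Nat.card_zpowers]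
    have hKinv : CopAct.ActInv (zpowers α).subtype (C ⊓ R) :=
      CopAct.actInv_zpowers.2 fun u hu => mem_inf.2 ⟨hCinv α u hu.1, hRinv α hα u hu.2⟩
    have hK : C ⊓ R ≤ CopAct.actFixed (zpowers α).subtype := by
      by_cases h2 : p = 2
      · refine CopAct.act_trivial_of_pow_sq_eq_one (hP.to_subgroup _) hKinv hcard ?_
        intro x hx hx1
        refine CopAct.mem_actFixed_zpowers.2 (hfix x (memD.2 ⟨hx, ?_⟩))
        rw [he2 h2]
        rw [h2] at hx1
        exact hx1
      · refine CopAct.act_trivial_of_odd_of_pow_eq_one h2 (hP.to_subgroup _) hKinv hcard ?_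
        intro x hx hx1
        refine CopAct.mem_actFixed_zpowers.2 (hfix x (memD.2 ⟨hx, ?_⟩))
        rw [he1 h2]
        exact hx1
    have hCf : C ≤ CopAct.actFixed (zpowers α).subtype := by
      refine CopAct.act_trivial_of_trivial_on_factors (N := C ⊓ R)
        (PG.coprime_card_of_isPGroup (hP.to_subgroup _) hcard) ?_ hK
      intro u hu a
      have haG : (a : MulAut P) ∈ G := (zpowers_le.2 hα) a.2
      refine mem_inf.2 ⟨mul_mem (inv_mem hu) (hCinv _ u hu), subset_closure
        ⟨⟨a, haG⟩, mem_pResidual ?_, u, rfl⟩⟩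
      rw [← orderOf_coe]
      exact Nat.Coprime.coprime_dvd_left (orderOf_dvd_of_mem_zpowers a.2) hco
    exact PG.aut_eq_one_of_centralizer_le hP hC.centralizer_le hco
      fun x hx => CopAct.mem_actFixed_zpowers.1 (hCf hx)
  refine ⟨D, ?_, fun x hx => (memD.1 hx).1.2, ?_, hcomm, hdet, ?_⟩
  · intro α hα
    exact CopAct.ActInv.map_eq (φ := G.subtype) (fun a u hu => hDinv a a.2 u hu) ⟨α, hα⟩
  · intro d hd
    by_cases h2 : p = 2
    · exact Or.inr ⟨h2, he2 h2 ▸ (memD.1 hd).2⟩
    · exact Or.inl (he1 h2 ▸ (memD.1 hd).2)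
  · intro A hAD hA hmax
    have hcent : D ⊓ centralizer (A : Set P) ≤ A := by
      intro x hx
      have h1 : A ⊔ zpowers x = A := by
        refine hmax _ le_sup_left (sup_le hAD (zpowers_le.2 hx.1)) ?_
        rw [← le_centralizer_iff_isMulCommutative]
        have hAA : A ≤ centralizer (A : Set P) := le_centralizer_iff_isMulCommutative.2 hA
        have hxA : zpowers x ≤ centralizer (A : Set P) := zpowers_le.2 hx.2
        have hxx : zpowers x ≤ centralizer (zpowers x : Set P) :=
          le_centralizer_iff_isMulCommutative.2 inferInstance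
        refine sup_le ?_ ?_
        · exact le_centralizer_iff.1 (sup_le hAA hxA)
        · exact le_centralizer_iff.1 (sup_le (le_centralizer_iff.1 hxA) hxx)
      exact h1 ▸ mem_sup_right (mem_zpowers x)
    refine ⟨⟨fun a ha g => ?_⟩, ?_⟩
    · have h1 : ⁅a, g⁆ ∈ D ⊓ centralizer (D : Set P) :=
        hcomm (commutator_mem_commutator (hAD ha) (mem_top g))
      have h2 : ⁅a, g⁆ ∈ A := hcent (mem_inf.2 ⟨h1.1, centralizer_le hAD h1.2⟩)
      have : g * a * g⁻¹ = ⁅a, g⁆⁻¹ * a := by
        rw [commutatorElement_def]; group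
      rw [this]
      exact mul_mem (inv_mem h2) ha
    · intro α hα hfix
      obtain ⟨k, hk⟩ := PG.exists_pow_pow_eq_one_of_coprime_imp (p := p) (isOfFinOrder_of_finite α) (by
        intro n hn
        have hn' : α ^ n ∈ G := pow_mem hα n
        refine hdet _ hn' hn ?_
        have hinv : CopAct.ActInv (zpowers (α ^ n)).subtype D :=
          CopAct.actInv_zpowers.2 (hDinv _ hn')
        have hfix' : ∀ m : ℕ, ∀ a ∈ A, (α ^ m) a = a := by
          intro m
          induction m with
          | zero => intro a _; rfl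
          | succ m ih => intro a ha; rw [pow_succ, MulAut.mul_apply, hfix a ha, ih a ha]
        have := PG.act_trivial_of_centralizer_le (hP.to_subgroup D) (H := A.subgroupOf D)
          (φ := CopAct.subHom _ D hinv) ?_ (by rwa [Nat.card_zpowers]) ?_ ⟨α ^ n, mem_zpowers _⟩
        · intro d hd
          have h2 := congrArg (fun f : MulAut D => ((f ⟨d, hd⟩ : D) : P)) this
          exact h2
        · intro x hx
          refine mem_subgroupOf.2 (hcent (mem_inf.2 ⟨x.2, fun a ha => ?_⟩))
          exact congrArg Subtype.val (hx ⟨a, hAD ha⟩ (mem_subgroupOf.2 ha))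
        · intro x hx a
          refine Subtype.ext ?_
          exact (CopAct.mem_actFixed.1 (CopAct.mem_actFixed_zpowers.2
            (hfix' n x (mem_subgroupOf.1 hx)))) a)
      obtain ⟨j, -, hj⟩ := (Nat.dvd_prime_pow hp).1 (orderOf_dvd_of_pow_eq_one hk)
      exact ⟨j, hj⟩

end Cfsg.Agent.S1949
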