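import Mathlib
import Cfsg.Statements.S1953
import Cfsg.Agent.Loc.TechChain
import Cfsg.Agent.Loc.CFSection

set_option autoImplicit false
open Cfsg

namespace Cfsg.Agent.S1953

open Subgroup Cfsg.Agent.GT Cfsg.Agent.Loc

theorem le_normalizer_of_ctrl {G : Type*} [Group G] {P U : Subgroup G} (hU : U ≤ P)
    (h : ThCtrl ⊤ (normalizer (U : Set G)) P) : P ≤ normalizer (U : Set G) := by
  intro g hg
  obtain ⟨m, hm, c, hc, rfl⟩ := exists_mul_of_thReal (h P le_rfl g (mem_top g)
    fun a ha => P.mul_mem (P.mul_mem hg ha) (P.inv_mem hg))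
  exact mul_mem hm (centralizer_le_normalizer _ (centralizer_anti hU hc))

theorem centric_of_max {G : Type*} [Group G] [Finite G] {p : ℕ} [Fact p.Prime] (hp : p ≠ 2)
    (P : Sylow p G) (hqd : ¬ Involves (qd p) G) {Q : Subgroup G} (hQ : Q ≤ P)
    (h : ThCtrl ⊤ (normalizer (Q : Set G)) P)
    (hmax : ∀ U : Subgroup G, U ≤ P → ThCtrl ⊤ (normalizer (U : Set G)) P → Q ≤ U → U = Q) :
    (P : Subgroup G) ⊓ centralizer (Q : Set G) ≤ Q := by
  by_contra hne
  set H := normalizer (Q : Set G) with hH
  have hPH : (P : Subgroup G) ≤ H := le_normalizer_of_ctrl hQ h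
  have hQH : Q ≤ H := le_normalizer
  set f := QuotientGroup.mk' (Q.subgroupOf H) with hf
  have hfs : Function.Surjective f := QuotientGroup.mk'_surjective _
  set M := Q ⊔ centralizer (Q : Set G) with hM
  have hHM : H ≤ normalizer (M : Set G) :=
    CopAct.le_normalizer_sup le_rfl (normalizer_le_normalizer_centralizer _)
  have hMH : M ≤ H := sup_le hQH (centralizer_le_normalizer _)
  set P' := (P.subtype hPH).mapSurjective hfs with hP'
  have hn : (M.subgroupOf H).Normal := (normal_subgroupOf_iff_le_normalizer hMH).2 hHM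
  have hn' := hn.map f hfs
  set D := (P' : Subgroup _) ⊓ (M.subgroupOf H).map f with hD
  have hsc : IsStronglyClosed D P' :=
    ⟨inf_le_left, fun x hx g hg => ⟨hg, hn'.conj_mem x hx.2 g⟩⟩
  have hctrl := thCtrl_thZ_of_not_involves_qd hp (Or.inl rfl) (fun h => hqd (CF.involves_trans h
    (CF.involves_trans (CF.involves_quotient _) (CF.involves_subgroup H)))) P' hsc
  have hZ := isStronglyClosed_of_thCtrl hctrl ((thZ_le 0 D).trans inf_le_left)
    fun x hx m hm _ => conj_mem_of_mem_normalizer hm hx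
  have hD1 : D ≠ ⊥ := fun e => hne fun x hx => by
    have : f ⟨x, hPH hx.1⟩ ∈ D := ⟨⟨_, hx.1, rfl⟩, ⟨_, mem_sup_right hx.2, rfl⟩⟩
    rw [e, mem_bot] at this
    exact (QuotientGroup.eq_one_iff (N := Q.subgroupOf H) _).1 this
  have hZ1 := thZ_ne_bot (dvd_zero p) (P'.isPGroup'.to_le (inf_le_left : D ≤ _)) hD1
  set W := ((thZ 0 D).comap f).map H.subtype with hW
  have hQW : Q ≤ W := by
    rw [← map_subgroupOf_eq_of_le hQH]; exact map_mono (le_comap_mk' _)
  have hWD : W ≤ (P : Subgroup G) ⊓ M := by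
    rw [hW, map_le_iff_le_comap, comap_inf]
    refine (comap_mono (thZ_le 0 D)).trans ?_
    rw [hD, comap_inf]
    refine inf_le_inf ?_ ?_
    · change (((P : Subgroup G).subgroupOf H).map f).comap f ≤ _
      rw [comap_map_mk']
      exact sup_le le_rfl (comap_mono hQ)
    · rw [comap_map_mk']
      exact sup_le le_rfl (comap_mono le_sup_left)
  have hWW : ⁅W, W⁆ ≤ Q := by
    rw [hW, ← map_commutator, map_le_iff_le_comap]
    change _ ≤ Q.subgroupOf H
    rw [commutator_le_iff_map_mk', map_comap_mk', commutator_eq_bot_iff_le_centralizer]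
    exact PG.isMulCommutative_iff_le_centralizer.1 (thZ_comm 0 D)
  have hWsc : IsStronglyClosed W P := by
    refine isStronglyClosed_of_thCtrl h (hWD.trans inf_le_left) ?_
    rintro _ ⟨x, hx, rfl⟩ m hm hP
    refine ⟨⟨m, hm⟩ * x * ⟨m, hm⟩⁻¹, ?_, rfl⟩
    change f _ ∈ thZ 0 D
    rw [map_mul, map_mul, map_inv]
    refine hZ.2 _ hx _ ?_
    rw [← map_inv, ← map_mul, ← map_mul]
    exact ⟨_, hP, rfl⟩
  have hQp : IsPGroup p Q := P.isPGroup'.to_le hQ
  have := hQp.isNilpotent
  obtain ⟨n, hn⟩ := PG.exists_iterCommutator_eq_bot_of_isNilpotent (S := Q) (N := Q) (H := Q)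
    le_rfl le_rfl
  have key := thCtrl_of_stronglyClosed_chain P
    (fun j => Nat.casesOn j W (iterCommutator Q Q)) (fun j => ?_) (fun j => ?_) (n := n + 1) hn
  · have e := hmax W (hWD.trans inf_le_left) key hQW
    refine hZ1 (eq_bot_iff.2 fun z hz => ?_)
    obtain ⟨z, rfl⟩ := hfs z
    have : (z : G) ∈ W := ⟨z, hz, rfl⟩
    rw [e] at this
    exact (QuotientGroup.eq_one_iff _).2 this
  · rcases j with _ | j
    · exact hWsc
    · exact isStronglyClosed_of_thCtrl h ((PG.iterCommutator_le le_normalizer j).trans hQ)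
        fun x hx m hm _ => conj_mem_of_mem_normalizer
          (normalizer_le_normalizer_iterCommutator j ⟨hm, hm⟩) hx
  · rcases j with _ | j
    · exact hWW
    · change ⁅iterCommutator Q Q j, W⁆ ≤ ⁅iterCommutator Q Q j, Q⁆
      refine (commutator_mono le_rfl (hWD.trans inf_le_right)).trans ?_
      rw [commutator_comm, hM, commutator_sup_eq_of_le_centralizer
        (centralizer_anti (PG.iterCommutator_le le_normalizer j)) (centralizer_le_normalizer _),
        commutator_comm]

/-- Let p be an odd prime and P a Sylow p-subgroup of the finite group G, and suppose that for no p-subgroup Q of G does N_G(Q)/C_G(Q) have a section isomorphic to SL₂(p). Call a subgroup Q of P centric-radical when Z(Q) is a Sylow p-subgroup of C_G(Q) and the only normal subgroup X of N_G(Q) containing Q·C_G(Q) such that the index of Q·C_G(Q) in X is a power of p is Q·C_G(Q) itself (that is, N_G(Q)/Q·C_G(Q) has no nontrivial normal p-subgroup). Then there is a centric-radical subgroup Q of P contained in every centric-radical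 subgroup of P; it is normal in P, and N_G(Q) controls strong fusion in P: whenever a subgroup A of P has g A g⁻¹ ≤ P, the element g is a product h c with h in N_G(Q) and c centralizing A. -/
theorem result {G : Type*} [Group G] [Finite G] {p : ℕ} [Fact p.Prime] (hp : p ≠ 2) (P : Sylow p G)
    (hfree : ∀ Q : Subgroup G, IsPGroup p ↥Q → ¬ ∃ (H K : Subgroup G) (_ : (K.subgroupOf H).Normal),
      Subgroup.centralizer (Q : Set G) ≤ K ∧ K ≤ H ∧ H ≤ Subgroup.normalizer (Q : Set G) ∧
      Nonempty ((↥H ⧸ K.subgroupOf H) ≃* Matrix.SpecialLinearGroup (Fin 2) (ZMod p)))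
    (cr : Subgroup G → Prop)
    (hcr : ∀ Q : Subgroup G, cr Q ↔ (Q ≤ (P : Subgroup G) ∧
      (∃ R : Sylow p ↥(Subgroup.centralizer (Q : Set G)),
        (R : Subgroup ↥(Subgroup.centralizer (Q : Set G))).map (Subgroup.centralizer (Q : Set G)).subtype = Q ⊓ Subgroup.centralizer (Q : Set G)) ∧
      ∀ X : Subgroup G, X ≤ Subgroup.normalizer (Q : Set G) →
        (∀ n ∈ Subgroup.normalizer (Q : Set G), X.map (MulAut.conj n).toMonoidHom = X) →
        Q ⊔ Subgroup.centralizer (Q : Set G) ≤ X → (∃ k : ℕ, (Q ⊔ Subgroup.centralizer (Q : Set G)).relIndex X = p ^ k) →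
        X = Q ⊔ Subgroup.centralizer (Q : Set G))) :
    ∃ Q : Subgroup G, cr Q ∧ (∀ R : Subgroup G, cr R → Q ≤ R) ∧ (∀ x ∈ (P : Subgroup G), Q.map (MulAut.conj x).toMonoidHom = Q) ∧
      ∀ A : Subgroup G, A ≤ (P : Subgroup G) → ∀ g : G, A.map (MulAut.conj g).toMonoidHom ≤ (P : Subgroup G) →
        ∃ h ∈ Subgroup.normalizer (Q : Set G), ∃ c ∈ Subgroup.centralizer (A : Set G), g = h * c := by
  have hqd := not_involves_qd_of_automizers hfree
  obtain ⟨Q, ⟨hQ, h⟩, hmax'⟩ := Set.exists_max_image
    {U : Subgroup G | U ≤ P ∧ ThCtrl ⊤ (normalizer (U : Set G)) P} (fun U => Nat.card U)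
    (Set.toFinite _) ⟨⊥, bot_le, thCtrl_of_le le_normalizer_of_normal⟩
  have hmax : ∀ U : Subgroup G, U ≤ P → ThCtrl ⊤ (normalizer (U : Set G)) P → Q ≤ U → U = Q :=
    fun U h1 h2 h3 => (PG.eq_of_le_of_card_le h3 (hmax' U ⟨h1, h2⟩)).symm
  have hcen := centric_of_max hp P hqd hQ h hmax
  have hPH : (P : Subgroup G) ≤ normalizer (Q : Set G) := le_normalizer_of_ctrl hQ h
  have hPi : ¬ p ∣ (P : Subgroup G).relIndex (normalizer (Q : Set G)) := fun hd =>
    P.not_dvd_index (hd.trans (relIndex_dvd_index_of_le hPH))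
  have hSyl : CF.SylIn p (P : Subgroup G) (normalizer (Q : Set G)) :=
    And.intro hPH (And.intro P.isPGroup' hPi)
  have hCO' := CF.centralizer_le_sup_pPrimeCoreOf hSyl le_rfl hcen
  rw [inf_eq_right.2 (centralizer_le_normalizer _)] at hCO'
  refine ⟨Q, (hcr Q).2 ⟨hQ, ?_, fun X hX hXn hle ⟨k, hk⟩ => ?_⟩, fun R hR => ?_,
    fun x hx => map_conj_eq_of_mem_norm (hPH hx), fun A hA g hg =>
      exists_mul_of_thReal (h A hA g (mem_top g) (map_conj_le_iff_forall.1 hg))⟩
  · have hi := Tr.not_dvd_relIndex_inf_of_normal hPi P.isPGroup' (centralizer_le_normalizer _)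
      (normalizer_le_normalizer_centralizer Q)
    refine ⟨Tr.sylowOfRel (P.isPGroup'.to_le inf_le_left) hi, ?_⟩
    rw [Tr.map_sylowOfRel _ _ inf_le_right]
    exact le_antisymm (le_inf hcen inf_le_right) (inf_le_inf_right _ hQ)
  · have hXn' : normalizer (Q : Set G) ≤ normalizer (X : Set G) := fun n hn =>
      map_conj_eq_self_iff.1 (hXn n hn)
    have hi := Tr.not_dvd_relIndex_inf_of_normal hPi P.isPGroup' hX hXn'
    set Y := (P : Subgroup G) ⊓ X with hY
    set C := centralizer (Q : Set G) with hC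
    have hQY : Q ≤ Y := le_inf hQ (le_sup_left.trans hle)
    have hHC : normalizer (Q : Set G) ≤ normalizer (C : Set G) :=
      normalizer_le_normalizer_centralizer Q
    have hXY : X ≤ (Q ⊔ C) ⊔ Y := fun x hx => by
      obtain ⟨m, hm, s, hs, rfl⟩ := Tr.exists_mul_of_sylowIn inf_le_right hi
        (hX.trans (CopAct.le_normalizer_sup le_rfl hHC)) hk hx
      exact mul_mem_sup hm hs
    set O := pPrimeCoreOf p C with hO
    have hCO : C ≤ Q ⊔ O := by
      exact hCO'
    have hHO : normalizer (Q : Set G) ≤ normalizer (O : Set G) :=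
      hHC.trans (normalizer_le_normalizer_pPrimeCoreOf C)
    have hXO : X ≤ Y ⊔ O := hXY.trans (sup_le (sup_le (hQY.trans le_sup_left)
      (hCO.trans (sup_le_sup_right hQY _))) le_sup_left)
    have hYp : IsPGroup p Y := P.isPGroup'.to_le inf_le_left
    have := hYp.isNilpotent
    obtain ⟨n, hn⟩ := PG.exists_iterCommutator_eq_bot_of_isNilpotent (S := Y) (N := Y) (H := Y)
      le_rfl le_rfl
    have hit : ∀ j, iterCommutator X X j ≤ iterCommutator Y Y j ⊔ O := by
      intro j
      induction j with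
      | zero => exact hXO
      | succ j ih =>
        exact commutator_le_sup_of_le_sup ((PG.iterCommutator_le le_normalizer j).trans
          (inf_le_right.trans (hX.trans hHO))) (inf_le_right.trans (hX.trans hHO)) ih hXO
    have hOX : O ≤ X := (pPrimeCoreOf_le C).trans (le_sup_right.trans hle)
    have key := thCtrl_of_stronglyClosed_chain P
      (fun j => (P : Subgroup G) ⊓ (iterCommutator X X j ⊔ O)) (fun j => ?_) (fun j => ?_) (n := n) ?_
    · have e : (P : Subgroup G) ⊓ (iterCommutator X X 0 ⊔ O) = Y := by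
        rw [PG.iterCommutator_zero, sup_eq_left.2 hOX]
      simp only [e] at key
      refine le_antisymm (hXY.trans ?_) hle
      rw [hmax Y inf_le_left key hQY]
      exact sup_le le_rfl le_sup_left
    · exact isStronglyClosed_of_thCtrl h inf_le_left fun x hx m hm hP => ⟨hP,
        conj_mem_of_mem_normalizer (CopAct.le_normalizer_sup (fun l hl =>
          normalizer_le_normalizer_iterCommutator j ⟨hXn' hl, hXn' hl⟩) hHO hm) hx.2⟩
    · refine le_inf ((commutator_mono inf_le_left inf_le_left).trans (commutator_le_self _)) ?_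
      exact commutator_le_sup_of_le_sup ((PG.iterCommutator_le le_normalizer j).trans
        (hX.trans hHO)) (hX.trans hHO) inf_le_right inf_le_right
    · refine le_bot_iff.1 ((inf_le_inf_left _ (sup_le (hit n) le_sup_right)).trans ?_)
      rw [hn, bot_sup_eq]
      exact (CopAct.inf_eq_bot_of_coprime (CopAct.coprime_of_isPGroup_right
        (coprime_card_pPrimeCoreOf p C) P.isPGroup').symm).le
  · obtain ⟨hRP, ⟨S, hS⟩, hrad⟩ := (hcr R).1 hR
    refine th_le_of_inf_normalizer_le P.isPGroup' hQ hRP (hRP.trans hPH) ?_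
    have hi := Tr.not_dvd_relIndex_map_sylow S
    rw [hS] at hi
    clear hS S
    set C := centralizer (R : Set G) with hC
    set T := Q ⊓ normalizer (R : Set G) with hT
    have hNC : normalizer (R : Set G) ≤ normalizer ((R ⊔ C : Subgroup G) : Set G) :=
      CopAct.le_normalizer_sup le_rfl (normalizer_le_normalizer_centralizer R)
    have hTp : IsPGroup p T := P.isPGroup'.to_le (inf_le_left.trans hQ)
    have e := hrad (T ⊔ (R ⊔ C)) (sup_le inf_le_right (sup_le le_normalizer
      (centralizer_le_normalizer _))) (fun n hn => ?_) le_sup_right ?_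
    · have h1 : T ≤ R ⊔ C := e ▸ le_sup_left
      rw [inf_relIndex_right, ← relIndex_sup_of_le_normalizer_left
        (le_normalizer_of_le_centralizer (le_centralizer_iff.1 le_rfl))] at hi
      exact le_sup_right.trans (Tr.le_of_sylowIn_le hi
        (P.isPGroup'.to_le (sup_le hRP (inf_le_left.trans hQ))) le_sup_left (sup_le le_sup_left h1))
    · obtain ⟨m, hm, c, hc, rfl⟩ := exists_mul_of_thReal (h R hRP n (mem_top n)
        fun a ha => hRP (conj_mem_of_mem_normalizer hn ha))
      have hmR : m ∈ normalizer (R : Set G) := by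
        simpa using mul_mem hn (inv_mem (centralizer_le_normalizer _ hc))
      refine map_conj_eq_of_mem_norm (mul_mem ?_
        (le_normalizer (mem_sup_right (mem_sup_right hc))))
      exact CopAct.le_normalizer_sup (CopAct.le_normalizer_inf (zpowers_le_of_mem hm)
        ((zpowers_le_of_mem hmR).trans le_normalizer)) ((zpowers_le_of_mem hmR).trans hNC)
        (mem_zpowers m)
    · rw [PG.relIndex_sup_of_le_normalizer (inf_le_right.trans hNC)]
      exact PG.relIndex_eq_pow_of_isPGroup hTp _

end Cfsg.Agent.S1953
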