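import Mathlib
import Cfsg.Statements.S1954
import Cfsg.Agent.Loc.TechChain

set_option autoImplicit false
open Cfsg

namespace Cfsg.Agent.S1954

open Subgroup Cfsg.Agent.GT Cfsg.Agent.Loc

theorem sup_ctrl {G : Type*} [Group G] {N T U V : Subgroup G} (hU : U ≤ T)
    (h1 : ThCtrl N (N ⊓ normalizer (U : Set G)) T) (h2 : ThCtrl N (N ⊓ normalizer (V : Set G)) T) :
    ThCtrl N (N ⊓ normalizer ((U ⊔ V : Subgroup G) : Set G)) T := by
  intro A hA g hg hgA
  obtain ⟨m, hm, e⟩ := h1 A hA g hg hgA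
  have hAU : (A ⊔ U).map (MulAut.conj m).toMonoidHom ≤ T := by
    rw [map_conj_sup, map_conj_eq_of_mem_norm hm.2]
    exact sup_le (map_conj_le_iff_forall.2 fun a ha => e a ha ▸ hgA a ha) hU
  obtain ⟨n, hn, c, hc, rfl⟩ := exists_mul_of_thReal (h2 (A ⊔ U) (sup_le hA hU) m hm.1
    (map_conj_le_iff_forall.1 hAU))
  have hcU : c ∈ normalizer (U : Set G) :=
    centralizer_le_normalizer _ (centralizer_anti le_sup_right hc)
  have hnU : n ∈ normalizer (U : Set G) := by simpa using mul_mem (mem_inf.1 hm).2 (inv_mem hcU)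
  refine ⟨n, ⟨hn.1, CopAct.le_normalizer_sup (zpowers_le_of_mem hnU) (zpowers_le_of_mem hn.2)
    (mem_zpowers n)⟩, fun a ha => ?_⟩
  rw [e a ha, mul_assoc n c a, ← hc a (mem_sup_left ha)]
  group

/-- Let N be a normal subgroup of the finite group G, P a Sylow p-subgroup of G, and V a subgroup of P ∩ N normal in P ∩ N such that N_N(V) controls strong fusion in P ∩ N with respect to N (whenever a subgroup A of P ∩ N has n A n⁻¹ ≤ P ∩ N for some n in N, then n = h c with h in N_N(V) and c in C_N(A)). Let W be the subgroup generated by the conjugates of V under N_G(P ∩ N). Then N_G(W) controls strong fusion in P with respect to G. -/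
theorem result {G : Type*} [Group G] [Finite G] {p : ℕ} [Fact p.Prime] (N : Subgroup G) [N.Normal] (P : Sylow p G) (V : Subgroup G)
    (hV : V ≤ (P : Subgroup G) ⊓ N) (hVn : ∀ x ∈ (P : Subgroup G) ⊓ N, V.map (MulAut.conj x).toMonoidHom = V)
    (hctrl : ∀ A : Subgroup G, A ≤ (P : Subgroup G) ⊓ N → ∀ n ∈ N, A.map (MulAut.conj n).toMonoidHom ≤ (P : Subgroup G) ⊓ N →
      ∃ h ∈ N ⊓ Subgroup.normalizer (V : Set G), ∃ c ∈ N ⊓ Subgroup.centralizer (A : Set G), n = h * c)
    (W : Subgroup G) (hW : W = Subgroup.closure (⋃ x ∈ Subgroup.normalizer (((P : Subgroup G) ⊓ N : Subgroup G) : Set G),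
      ((V.map (MulAut.conj x).toMonoidHom : Subgroup G) : Set G))) :
    ∀ A : Subgroup G, A ≤ (P : Subgroup G) → ∀ g : G, A.map (MulAut.conj g).toMonoidHom ≤ (P : Subgroup G) →
        ∃ h ∈ Subgroup.normalizer (W : Set G), ∃ c ∈ Subgroup.centralizer (A : Set G), g = h * c := by
  set T := (P : Subgroup G) ⊓ N with hT
  have hW' : W = ⨆ x ∈ normalizer (T : Set G), V.map (MulAut.conj x).toMonoidHom := by
    rw [hW]; simp only [Subgroup.closure_iUnion, closure_eq]
  have hWT : W ≤ T := hW' ▸ iSup₂_le fun x hx => map_conj_le_of_mem_normalizer hV hx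
  have hNW : normalizer (T : Set G) ≤ normalizer (W : Set G) := fun g hg => by
    refine mem_normalizer_of_map_conj_le ?_
    rw [hW']
    simp only [Subgroup.map_iSup]
    refine iSup₂_le fun x hx => ?_
    rw [map_conj_map_conj]
    exact le_iSup₂_of_le (g * x) (mul_mem hg hx) le_rfl
  have h1 : ∀ x ∈ normalizer (T : Set G), ThCtrl N
      (N ⊓ normalizer ((V.map (MulAut.conj x).toMonoidHom : Subgroup G) : Set G)) T := by
    intro x hx A hA n hn hnA
    obtain ⟨h, hh, c, hc, e⟩ := hctrl (A.map (MulAut.conj x⁻¹).toMonoidHom)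
      (map_conj_le_of_mem_normalizer hA (inv_mem hx)) (x⁻¹ * n * x⁻¹⁻¹)
      (‹N.Normal›.conj_mem n hn _) (by
        rw [map_conj_map_conj, inv_inv, mul_inv_cancel_right, map_conj_mul]
        exact map_conj_le_of_mem_normalizer (map_conj_le_iff_forall.2 hnA) (inv_mem hx))
    have e2 : n = (x * h * x⁻¹) * (x * c * x⁻¹) := by
      calc n = x * (x⁻¹ * n * x⁻¹⁻¹) * x⁻¹ := by group
        _ = _ := by rw [e]; group
    rw [e2]
    refine thReal_of_eq_mul ⟨‹N.Normal›.conj_mem h hh.1 _, ?_⟩ ?_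
    · change _ ∈ normalizer _
      rw [normalizer_map_conj]
      exact conj_mem_map_conj.2 hh.2
    · have := hc.2
      change c ∈ centralizer _ at this
      rwa [centralizer_map_conj, mem_map_conj_inv] at this
  obtain ⟨U, ⟨hUW, hU⟩, hmax⟩ := Set.exists_max_image
    {U : Subgroup G | U ≤ W ∧ ThCtrl N (N ⊓ normalizer (U : Set G)) T} (fun U => Nat.card U)
    (Set.toFinite _) ⟨⊥, bot_le, thCtrl_of_le (le_inf le_rfl le_normalizer_of_normal)⟩
  have hUe : U = W := by
    refine le_antisymm hUW (hW' ▸ iSup₂_le fun x hx => ?_)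
    have := PG.eq_of_le_of_card_le (le_sup_left : U ≤ U ⊔ V.map (MulAut.conj x).toMonoidHom)
      (hmax _ ⟨sup_le hUW (hW' ▸ le_iSup₂_of_le x hx le_rfl), sup_ctrl (hUW.trans hWT) hU (h1 x hx)⟩)
    rw [this]; exact le_sup_right
  subst hUe
  have hWp : IsPGroup p U := P.isPGroup'.to_le (hWT.trans inf_le_left)
  have := hWp.isNilpotent
  obtain ⟨n, hn⟩ := PG.exists_iterCommutator_eq_bot_of_isNilpotent (S := U) (N := U) (H := U)
    le_rfl le_rfl
  have key := thCtrl_of_stronglyClosed_chain P (iterCommutator U U) (fun j => ?_)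
    (fun j => le_rfl) hn
  · intro A hA g hg
    exact exists_mul_of_thReal (key A hA g (mem_top g) (map_conj_le_iff_forall.1 hg))
  have hj : normalizer (U : Set G) ≤ normalizer (iterCommutator U U j : Set G) :=
    (le_inf le_rfl le_rfl).trans (normalizer_le_normalizer_iterCommutator j)
  have hle : iterCommutator U U j ≤ T := (PG.iterCommutator_le le_normalizer j).trans hWT
  refine ⟨hle.trans inf_le_left, fun x hx g hg => ?_⟩
  obtain ⟨m, hm, k, hk, rfl⟩ := Tr.frattini_sylowIn (P.isPGroup'.to_le inf_le_left) inf_le_right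
    (Tr.not_dvd_relIndex_sylow_inf_normal P N) (n := g) (le_normalizer_of_normal (mem_top g))
  have hx' := conj_mem_of_mem_normalizer (hj (hNW hk)) hx
  have e : m * k * x * (m * k)⁻¹ = m * (k * x * k⁻¹) * m⁻¹ := by group
  rw [e] at hg ⊢
  obtain ⟨h, hh, e2⟩ := hU (zpowers (k * x * k⁻¹)) (zpowers_le_of_mem (hle hx')) m hm
    (map_conj_le_iff_forall.1 (by
      rw [map_conj_zpowers]
      exact zpowers_le_of_mem ⟨hg, ‹N.Normal›.conj_mem _ (hle hx').2 _⟩))
  rw [e2 _ (mem_zpowers _)]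
  exact conj_mem_of_mem_normalizer (hj hh.2) hx'

end Cfsg.Agent.S1954
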