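import Mathlib
import Cfsg.Statements.S1956
import Cfsg.Agent.GT.TransferSylow

set_option autoImplicit false
open Cfsg

namespace Cfsg.Agent.S1956

open Subgroup Cfsg.Agent.GT.Tr

/-- Let P be a Sylow p-subgroup of the finite group G such that every element of P of order dividing p (dividing 4 when p = 2) is central in P. Then the fusion of these elements is controlled by N_G(P): if such an element a of P has g a g⁻¹ in P, then g = n c with n normalizing P and c commuting with a. -/
theorem result {G : Type*} [Group G] [Finite G] {p : ℕ} [Fact p.Prime] (P : Sylow p G)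
    (hcen : ∀ a ∈ (P : Subgroup G), (a ^ p = 1 ∨ (p = 2 ∧ a ^ 4 = 1)) → ∀ y ∈ (P : Subgroup G), a * y = y * a) :
    ∀ a ∈ (P : Subgroup G), (a ^ p = 1 ∨ (p = 2 ∧ a ^ 4 = 1)) → ∀ g : G, g * a * g⁻¹ ∈ (P : Subgroup G) →
      ∃ n ∈ Subgroup.normalizer ((P : Subgroup G) : Set G), ∃ c : G, c * a = a * c ∧ g = n * c := by
  intro a ha hord g hg
  set b := g * a * g⁻¹ with hb
  have hbord : b ^ p = 1 ∨ (p = 2 ∧ b ^ 4 = 1) := by
    rcases hord with h | ⟨h1, h2⟩
    · left; rw [hb, conj_pow, h]; group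
    · right; refine ⟨h1, ?_⟩; rw [hb, conj_pow, h2]; group
  set C := centralizer ({b} : Set G) with hC
  have hle : (P : Subgroup G) ≤ C := fun x hx =>
    mem_centralizer_singleton_iff.mpr (hcen b hg hbord x hx).symm
  have hle' : ((g • P : Sylow p G) : Subgroup G) ≤ C := by
    intro x hx
    rw [mem_smul_sylow] at hx
    rw [hC, mem_centralizer_singleton_iff]
    have h1 := hcen a ha hord _ hx
    calc x * b = g * ((g⁻¹ * x * g) * a) * g⁻¹ := by rw [hb]; group
      _ = b * x := by rw [← h1, hb]; group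
  have hi : ¬ p ∣ (P : Subgroup G).relIndex C := fun h =>
    P.not_dvd_index (h.trans (relIndex_dvd_index_of_le hle))
  obtain ⟨c, hc, h⟩ := exists_conj_le_sylowIn P.isPGroup' hi (g • P).isPGroup' hle'
  have hcb : c * b = b * c := mem_centralizer_singleton_iff.mp hc
  refine ⟨c * g, ?_, g⁻¹ * c⁻¹ * g, ?_, by group⟩
  · apply mem_normalizer_of_conj_mem
    intro x hx
    have := h (g * x * g⁻¹) (mem_smul_sylow.mpr (by simpa [mul_assoc] using hx))
    simpa [mul_assoc] using this
  · calc g⁻¹ * c⁻¹ * g * a = g⁻¹ * c⁻¹ * (b * c) * c⁻¹ * g := by rw [hb]; group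
      _ = a * (g⁻¹ * c⁻¹ * g) := by rw [← hcb, hb]; group

end Cfsg.Agent.S1956
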