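import Mathlib
import Cfsg.Statements.S1988
import Cfsg.Agent.Loc.CFNilp

set_option autoImplicit false
universe u
open Cfsg

namespace Cfsg.Agent.S1988

/-- Let p be an odd prime, G a finite group with Sylow p-subgroup S and K the lower K-infinity subgroup of S. If N_G(K) has a normal p-complement, or if N_G(K)/C_G(K) is a p-group (every element of N_G(K) of order prime to p centralizes K), then G has a normal p-complement. -/
theorem result {G : Type u} [Group G] [Finite G] {p : ℕ} [Fact p.Prime] (hp : p ≠ 2) (S : Sylow p G) (h : Cfsg.HasNormalPComplement p ↥(Subgroup.normalizer ((Cfsg.inducedFunctor Cfsg.kInfLower (S : Subgroup G) : Subgroup G) : Set G)) ∨ ∀ g ∈ Subgroup.normalizer ((Cfsg.inducedFunctor Cfsg.kInfLower (S : Subgroup G) : Subgroup G) : Set G), (orderOf g).Coprime p → g ∈ Subgroup.centralizer ((Cfsg.inducedFunctor Cfsg.kInfLower (S : Subgroup G) : Subgroup G) : Set G)) : Cfsg.HasNormalPComplement p G := by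
  have hW := Loc.CF.isCharPFunctor_kInfLower.{u} (p := p)
  refine Loc.CF.npc_of_functor hW (fun H _ _ _ T hT => (Loc.CF.kInf_controlsStrongFusion
    (fun L _ _ hL => (hT.pap.of_involves hL).pStable hp) H (Loc.CF.involves_refl H) T).1) S
    (h.elim id (Loc.CF.npc_normalizer_of_coprime S
      ((Loc.CF.isConjugacyFunctor_induced hW).le_normalizer S.2) fun x hx => ?_))
  have := S.2.isNilpotent
  exact ⟨⟨x, hx.1⟩, Loc.CF.centralizer_kInfLower_le
    fun y hy => Subtype.ext (hx.2 y ⟨y, hy, rfl⟩), rfl⟩

end Cfsg.Agent.S1988
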