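import Mathlib
import Cfsg.Statements.S2001
import Cfsg.Agent.Loc.CFTransfer
import Cfsg.Agent.GT.CoprimeFixed

set_option autoImplicit false
open Cfsg

namespace Cfsg.Agent.S2001

open Subgroup Loc.CF GT.Tr in

/-- Let p be a prime dividing the order of the finite group G, P a Sylow p-subgroup, W a conjugacy functor for p on G with Z(H) ≤ W(H) for every nontrivial p-subgroup H, and V a central functor: a conjugacy functor with V(H) ≤ Z(H), and V(H) ≤ V(K) whenever Z(H) ≤ Z(K), for nontrivial p-subgroups H, K. Say that W with V controls transfer in a subgroup L when some Sylow p-subgroup Q of L satisfies Q ∩ L' = (Q ∩ (N_L(W(Q)))')·(Q ∩ (C_L(V(Q)))') as a product of two subgroups. If W with V controls transfer in N_G(H) for every subgroup H with Z(P) ≤ H ≤ P, then W with V controls transfer in G. -/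
theorem result {G : Type*} [Group G] [Finite G] {p : ℕ} [Fact p.Prime] (hdiv : p ∣ Nat.card G) (P : Sylow p G) (W V : Subgroup G → Subgroup G) (hW : Cfsg.IsConjugacyFunctor p W) (hV : Cfsg.IsConjugacyFunctor p V) (hWZ : ∀ H : Subgroup G, IsPGroup p ↥H → H ⊓ Subgroup.centralizer ((H : Subgroup G) : Set G) ≤ W H) (hVZ : ∀ H : Subgroup G, IsPGroup p ↥H → V H ≤ H ⊓ Subgroup.centralizer ((H : Subgroup G) : Set G)) (hVmono : ∀ H K : Subgroup G, IsPGroup p ↥H → IsPGroup p ↥K → H ≠ ⊥ → K ≠ ⊥ → H ⊓ Subgroup.centralizer ((H : Subgroup G) : Set G) ≤ K ⊓ Subgroup.centralizer ((K : Subgroup G) : Set G) → V H ≤ V K) (hloc : ∀ H : Subgroup G, (P : Subgroup G) ⊓ Subgroup.centralizer (((P : Subgroup G) : Subgroup G) : Set G) ≤ H → H ≤ (P : Subgroup G) → ∃ Q : Subgroup G, Q ≤ Subgroup.normalizer ((H : Subgroup G) : Set G) ∧ IsPGroup p ↥Q ∧ ¬ p ∣ (Q).relIndex (Subgroup.normalizer ((H : Subgroup G) : Set G)) ∧ ∀ x : G, x ∈ Q ⊓ ⁅Subgroup.normalizer ((H : Subgroup G) : Set G),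 Subgroup.normalizer ((H : Subgroup G) : Set G)⁆ ↔ ∃ a ∈ Q ⊓ ⁅Subgroup.normalizer ((H : Subgroup G) : Set G) ⊓ Subgroup.normalizer ((W Q : Subgroup G) : Set G), Subgroup.normalizer ((H : Subgroup G) : Set G) ⊓ Subgroup.normalizer ((W Q : Subgroup G) : Set G)⁆, ∃ b ∈ Q ⊓ ⁅Subgroup.normalizer ((H : Subgroup G) : Set G) ⊓ Subgroup.centralizer ((V Q : Subgroup G) : Set G), Subgroup.normalizer ((H : Subgroup G) : Set G) ⊓ Subgroup.centralizer ((V Q : Subgroup G) : Set G)⁆, x = a * b) : ∃ Q : Subgroup G, IsPGroup p ↥Q ∧ ¬ p ∣ Q.index ∧ ∀ x : G, x ∈ Q ⊓ commutator G ↔ ∃ a ∈ Q ⊓ ⁅Subgroup.normalizer ((W Q : Subgroup G) : Set G), Subgroup.normalizer ((W Q : Subgroup G) : Set G)⁆, ∃ b ∈ Q ⊓ ⁅Subgroup.centralizer ((V Q : Subgroup G) : Set G), Subgroup.centralizer ((V Q : Subgroup G) : Set G)⁆, x = a * b := by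
  have hP : (P : Subgroup G) ≠ ⊥ := P.ne_bot_of_dvd_card hdiv
  set D₁ : Subgroup G := (P : Subgroup G) ⊓
    ⁅normalizer (W P : Set G), normalizer (W P : Set G)⁆ with hD₁
  set D₂ : Subgroup G := (P : Subgroup G) ⊓
    ⁅centralizer (V P : Set G), centralizer (V P : Set G)⁆ with hD₂
  have main : (P : Subgroup G) ⊓ ⁅(⊤ : Subgroup G), ⊤⁆ ≤ D₁ ⊔ D₂ := by
    refine inf_commutator_le_of_step P (IsWellPlaced p W P)
      (fun _ hT => let ⟨g, hg⟩ := exists_wellPlaced P hW hT; ⟨g, hg, hg.le, hg.extr⟩)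
      fun B h1 _ _ _ h2 _ => ?_
    refine inf_commutator_le_of_wellPlaced P.2 hW le_sup_left
      (fun T => (P : Subgroup G) ⊓ centralizer ((P : Subgroup G) : Set G) ≤ T)
      (fun T hT h => ?_) (fun T hT h => ?_) B h1 ?_
    · refine le_trans ?_ (hWZ _ P.2.to_inf_left)
      exact le_inf (le_inf inf_le_left (h.trans le_normalizer))
        (inf_le_right.trans (centralizer_le (SetLike.coe_subset_coe.2 inf_le_left)))
    · obtain ⟨Q, hQ1, hQ2, hQ3, hQ4⟩ := hloc T h hT.le
      obtain ⟨g, hg, h4⟩ := SylIn.exists_conj ⟨hQ1, hQ2, hQ3⟩ (hT.extr.sylIn P.2)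
      have hZ : (P : Subgroup G) ⊓ centralizer ((P : Subgroup G) : Set G) ≤
          ((P : Subgroup G) ⊓ normalizer (T : Set G)) ⊓
            centralizer (((P : Subgroup G) ⊓ normalizer (T : Set G) : Subgroup G) : Set G) :=
        le_inf (le_inf inf_le_left (h.trans le_normalizer))
          (inf_le_right.trans (centralizer_le (SetLike.coe_subset_coe.2 inf_le_left)))
      have hne : (P : Subgroup G) ⊓ normalizer (T : Set G) ≠ ⊥ := by
        intro h6
        have h7 : T = ⊥ := eq_bot_iff.2 ((le_inf hT.le le_normalizer).trans h6.le)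
        rw [h7, normalizer_eq_top, inf_top_eq] at h6
        exact hP h6
      have hC : centralizer (V ((P : Subgroup G) ⊓ normalizer (T : Set G)) : Set G) ≤
          centralizer (V P : Set G) :=
        centralizer_le (SetLike.coe_subset_coe.2 (hVmono _ _ P.2 P.2.to_inf_left hP hne hZ))
      have hQP : Q.map (MulAut.conj g).toMonoidHom ≤ P := h4.le.trans inf_le_left
      intro x hx
      have h5 : g⁻¹ * x * g ∈ Q ⊓ ⁅normalizer (T : Set G), normalizer (T : Set G)⁆ := by
        rw [← mem_map_conj, map_conj_inf, map_commutator, h4,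
          map_conj_eq_of_mem (le_normalizer hg)]
        exact hx
      obtain ⟨a, ha, b, hb, h6⟩ := (hQ4 _).1 h5
      have h7 : x = (g * a * g⁻¹) * (g * b * g⁻¹) := by
        rw [show g * a * g⁻¹ * (g * b * g⁻¹) = g * (a * b) * g⁻¹ by group, ← h6]; group
      rw [h7]
      refine mul_mem (mem_sup_right ?_) (mem_sup_left (mem_sup_right ?_))
      · rw [← h4, hW.map_conj hQ2, normalizer_map_conj, ← map_commutator, ← map_conj_inf]
        exact conj_mem_map_conj.2 ⟨ha.1, commutator_mono inf_le_right inf_le_right ha.2⟩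
      · refine ⟨hQP (conj_mem_map_conj.2 hb.1), commutator_mono hC hC ?_⟩
        rw [← h4, hV.map_conj hQ2, centralizer_map_conj, ← map_commutator]
        exact conj_mem_map_conj.2 (commutator_mono inf_le_right inf_le_right hb.2)
    · exact le_trans (inf_le_inf_left _ (centralizer_le (SetLike.coe_subset_coe.2 h1.le))) h2
  refine ⟨P, P.2, P.not_dvd_index, fun x => ⟨fun hx => ?_, ?_⟩⟩
  · have h1 : x ∈ ((D₁ ⊔ D₂ : Subgroup G) : Set G) := main hx
    have h2 : (P : Subgroup G) ≤ normalizer (centralizer (V P : Set G) : Set G) :=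
      GT.CopAct.le_normalizer_centralizer (hV.le_normalizer P.2)
    rw [coe_mul_of_left_le_normalizer_right D₁ D₂ (inf_le_left.trans
      (GT.CopAct.le_normalizer_inf le_normalizer (GT.CopAct.le_normalizer_commutator h2 h2)))] at h1
    obtain ⟨a, ha, b, hb, rfl⟩ := h1
    exact ⟨a, ha, b, hb, rfl⟩
  · rintro ⟨a, ha, b, hb, rfl⟩
    exact ⟨mul_mem ha.1 hb.1, mul_mem (commutator_mono le_top le_top ha.2)
      (commutator_mono le_top le_top hb.2)⟩

end Cfsg.Agent.S2001
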