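import Mathlib
import Cfsg.Statements.S2002
import Cfsg.Agent.Loc.CFFusion

set_option autoImplicit false
open Cfsg

namespace Cfsg.Agent.S2002

open Subgroup Loc.CF GT.Tr in
theorem fus_iff_list {G : Type*} [Group G] {T : Subgroup G} {Y A : Set G} {a : G} (hA : A ⊆ T)
    (hY : ∀ y ∈ Y, y⁻¹ ∈ Y) : Fus T Y A a⁻¹ ↔ ∃ c ∈ centralizer A, ∃ (n : ℕ) (b : Fin n → G),
      (∀ i, b i ∈ Y) ∧ a = c * (List.ofFn b).prod ∧ ∀ k : ℕ, k ≤ n →
        (fun x => (((List.ofFn b).take k).prod)⁻¹ * x * ((List.ofFn b).take k).prod) ''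
          ((fun x => c⁻¹ * x * c) '' A) ⊆ T := by
  have key : ∀ c ∈ centralizer A, (fun x => c⁻¹ * x * c) '' A = A := fun c hc => by
    rw [← cj_inv_def]
    exact cj_eq_of_mem_normalizer (inv_mem (centralizer_le_normalizer A hc))
  have hstep : ∀ {n : ℕ} (b : Fin n → G) (i : Fin n),
      cj (b i)⁻¹ (cj (((List.ofFn b).take i.val).prod)⁻¹ A) =
        cj (((List.ofFn b).take (i.val + 1)).prod)⁻¹ A := fun b i => by
    rw [cj_cj, List.prod_take_succ _ _ (by simp), mul_inv_rev]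
    simp
  constructor
  · rintro ⟨d, hd, h1⟩
    rw [← inv_inv d, Chain.iff_fin] at hd
    obtain ⟨n, b, hb, h2⟩ := hd
    have hc : a * d ∈ centralizer A := fun x hx => by
      calc x * (a * d) = a * (a⁻¹ * x * a⁻¹⁻¹) * d := by group
        _ = a * (d * x * d⁻¹) * d := by rw [h1 x hx]
        _ = _ := by group
    refine ⟨a * d, hc, n, b, fun i => by simpa using hY _ (h2 i).2.2, by rw [hb]; group,
      fun k hk => ?_⟩
    rw [key _ hc, ← cj_inv_def]
    rcases k with _ | k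
    · simpa [cj_one] using hA
    · rw [← hstep b ⟨k, hk⟩]
      exact (h2 ⟨k, hk⟩).2.1
  · rintro ⟨c, hc, n, b, h1, rfl, h2⟩
    rw [key _ hc] at h2
    refine ⟨((List.ofFn b).prod)⁻¹, Chain.iff_fin.2 ⟨n, b, rfl, fun i => ⟨?_, ?_, hY _ (h1 i)⟩⟩,
      fun x hx => ?_⟩
    · rw [cj_inv_def]; exact h2 i i.2.le
    · rw [hstep, cj_inv_def]; exact h2 _ i.2
    · calc _ = (List.ofFn b).prod⁻¹ * c⁻¹ * (c * x) * (List.ofFn b).prod := by group
        _ = (List.ofFn b).prod⁻¹ * c⁻¹ * (x * c) * (List.ofFn b).prod := by rw [hc x hx]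
        _ = _ := by group

open Subgroup Loc.CF GT.Tr in

/-- Let p be a prime dividing the order of the finite group G, P a Sylow p-subgroup, W a conjugacy functor for p on G with Z(H) ≤ W(H) for every nontrivial p-subgroup H, and V a central functor (a conjugacy functor with V(H) ≤ Z(H), and V(H) ≤ V(K) whenever Z(H) ≤ Z(K)). Say that W with V controls strong fusion in a subgroup L when some Sylow p-subgroup Q of L has the property: whenever X ⊆ Q and a ∈ L with a⁻¹Xa ⊆ Q, then a = c b with c ∈ C_L(X) and b = b₁ ⋯ bₙ a product of elements each in N_L(W(Q)) or in C_L(V(Q)) such that every partial conjugate (b₁ ⋯ bₖ)⁻¹ X (b₁ ⋯ bₖ) lies in Q. If W with V controls strong fusion in N_G(H) for every subgroup H with Z(P) ≤ H ≤ P, then W with V controls strong fusion in G. -/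
theorem result {G : Type*} [Group G] [Finite G] {p : ℕ} [Fact p.Prime] (hdiv : p ∣ Nat.card G) (P : Sylow p G) (W V : Subgroup G → Subgroup G) (hW : Cfsg.IsConjugacyFunctor p W) (hV : Cfsg.IsConjugacyFunctor p V) (hWZ : ∀ H : Subgroup G, IsPGroup p ↥H → H ⊓ Subgroup.centralizer ((H : Subgroup G) : Set G) ≤ W H) (hVZ : ∀ H : Subgroup G, IsPGroup p ↥H → V H ≤ H ⊓ Subgroup.centralizer ((H : Subgroup G) : Set G)) (hVmono : ∀ H K : Subgroup G, IsPGroup p ↥H → IsPGroup p ↥K → H ≠ ⊥ → K ≠ ⊥ → H ⊓ Subgroup.centralizer ((H : Subgroup G) : Set G) ≤ K ⊓ Subgroup.centralizer ((K : Subgroup G) : Set G) → V H ≤ V K) (hloc : ∀ H : Subgroup G, (P : Subgroup G) ⊓ Subgroup.centralizer (((P : Subgroup G) : Subgroup G) : Set G) ≤ H → H ≤ (P : Subgroup G) → ∃ Q : Subgroup G, Q ≤ Subgroup.normalizer ((H : Subgroup G) : Set G) ∧ IsPGroup p ↥Q ∧ ¬ p ∣ (Q).relIndex (Subgroup.normalizer ((H : Subgroup G) : Set G)) ∧ ∀ (X : Set G) (a : G), X ⊆ Q → a ∈ Subgroup.normalizer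 ((H : Subgroup G) : Set G) → (fun x => a⁻¹ * x * a) '' X ⊆ Q → ∃ c ∈ Subgroup.normalizer ((H : Subgroup G) : Set G) ⊓ Subgroup.centralizer X, ∃ (n : ℕ) (b : Fin n → G), (∀ i, b i ∈ Subgroup.normalizer ((H : Subgroup G) : Set G) ⊓ Subgroup.normalizer ((W Q : Subgroup G) : Set G) ∨ b i ∈ Subgroup.normalizer ((H : Subgroup G) : Set G) ⊓ Subgroup.centralizer ((V Q : Subgroup G) : Set G)) ∧ a = c * (List.ofFn b).prod ∧ ∀ k : ℕ, k ≤ n → (fun x => (((List.ofFn b).take k).prod)⁻¹ * x * ((List.ofFn b).take k).prod) '' ((fun x => c⁻¹ * x * c) '' X) ⊆ Q) : ∃ Q : Subgroup G, IsPGroup p ↥Q ∧ ¬ p ∣ Q.index ∧ ∀ (X : Set G) (a : G), X ⊆ Q → (fun x => a⁻¹ * x * a) '' X ⊆ Q → ∃ c ∈ Subgroup.centralizer X, ∃ (n : ℕ) (b : Fin n → G), (∀ i, b i ∈ ⊤ ⊓ Subgroup.normalizer ((W Q : Subgroup G) : Set G) ∨ b i ∈ ⊤ ⊓ Subgroup.centralizer ((V Q : Subgroup G) : Set G)) ∧ a = c * (List.ofFn b).prod ∧ ∀ k : ℕ, k ≤ n → (fun x => (((List.ofFn b).take k).prod)⁻¹ * x * ((List.ofFn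 b).take k).prod) '' ((fun x => c⁻¹ * x * c) '' X) ⊆ Q := by
  have hP : (P : Subgroup G) ≠ ⊥ := P.ne_bot_of_dvd_card hdiv
  set X : Set G := (normalizer (W P : Set G) : Set G) ∪ (centralizer (V P : Set G) : Set G) with hX
  have hXi : ∀ x ∈ X, x⁻¹ ∈ X := fun x hx => hx.imp (fun h => inv_mem h) (fun h => inv_mem h)
  have main : FCtl X ⊤ P := by
    refine fctl_of_wellPlaced P hW hXi fun B h1 _ h2 n hn => ?_
    refine fus_of_wellPlaced P.2 hW Set.subset_union_left
      (fun T => (P : Subgroup G) ⊓ centralizer ((P : Subgroup G) : Set G) ≤ T)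
      (fun T hT h => ?_) (fun T hT h => ?_) B h1 ?_ B n hn (le_inf h1.le le_normalizer) ?_
    · refine le_trans ?_ (hWZ _ P.2.to_inf_left)
      exact le_inf (le_inf inf_le_left (h.trans le_normalizer))
        (inf_le_right.trans (centralizer_le (SetLike.coe_subset_coe.2 inf_le_left)))
    · obtain ⟨Q, hQ1, hQ2, hQ3, hQ4⟩ := hloc T h hT.le
      have h3 : FCtl ((normalizer (W Q : Set G) : Set G) ∪ (centralizer (V Q : Set G) : Set G))
          (normalizer (T : Set G)) Q := by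
        intro A g hg hA hgA
        obtain ⟨c, hc, n, b, h4, h5, h6⟩ := hQ4 A g⁻¹ hA (inv_mem hg)
          (by rwa [← cj_inv_def, inv_inv])
        rw [← inv_inv g]
        exact (fus_iff_list hA fun x hx => hx.imp (fun h => inv_mem h) (fun h => inv_mem h)).2
          ⟨c, hc.2, n, b, fun i => (h4 i).imp (fun h => h.2) (fun h => h.2), h5, h6⟩
      obtain ⟨g, hg, h4⟩ := SylIn.exists_conj ⟨hQ1, hQ2, hQ3⟩ (hT.extr.sylIn P.2)
      have h5 := h3.map_conj g
      rw [h4, map_conj_eq_of_mem (le_normalizer hg)] at h5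
      refine h5.mono ?_
      have hZ : (P : Subgroup G) ⊓ centralizer ((P : Subgroup G) : Set G) ≤
          ((P : Subgroup G) ⊓ normalizer (T : Set G)) ⊓
            centralizer (((P : Subgroup G) ⊓ normalizer (T : Set G) : Subgroup G) : Set G) :=
        le_inf (le_inf inf_le_left (h.trans le_normalizer))
          (inf_le_right.trans (centralizer_le (SetLike.coe_subset_coe.2 inf_le_left)))
      have hne : (P : Subgroup G) ⊓ normalizer (T : Set G) ≠ ⊥ := by
        intro h6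
        have h7 : T = ⊥ := eq_bot_iff.2 ((le_inf hT.le le_normalizer).trans h6.le)
        rw [h7, normalizer_eq_top, inf_top_eq] at h6
        exact hP h6
      rintro _ ⟨x, hx | hx, rfl⟩
      · right
        rw [← h4, hW.map_conj hQ2, normalizer_map_conj]
        exact conj_mem_map_conj.2 hx
      · left; right
        refine centralizer_le (SetLike.coe_subset_coe.2
          (hVmono _ _ P.2 P.2.to_inf_left hP hne hZ)) ?_
        rw [← h4, hV.map_conj hQ2, centralizer_map_conj]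
        exact conj_mem_map_conj.2 hx
    · exact le_trans (inf_le_inf_left _ (centralizer_le (SetLike.coe_subset_coe.2 h1.le))) h2
    · rw [cj_eq_of_mem_normalizer hn]
      exact le_inf h1.le le_normalizer
  refine ⟨P, P.2, P.not_dvd_index, fun A a hA haA => ?_⟩
  obtain ⟨c, hc, n, b, h1, h2, h3⟩ := (fus_iff_list hA hXi).1
    (main A a⁻¹ trivial hA (by rwa [cj_inv_def]))
  exact ⟨c, hc, n, b, fun i => (h1 i).imp (fun h => ⟨trivial, h⟩) (fun h => ⟨trivial, h⟩), h2, h3⟩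

end Cfsg.Agent.S2002
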