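import Cfsg.Statements.S2035
import Cfsg.Agent.Spor.MX.MathieuGen

set_option autoImplicit false
open Cfsg

namespace Cfsg.Agent.S2035

open Cfsg.Agent.Spor Cfsg.Agent.Spor.MX

/-- The Schur multiplier of the Mathieu group M₁₂ (the stabiliser of a dodecad in the automorphism group of the length-24 binary code) is cyclic of order 2; here the Schur multiplier is described through stem extensions, as in the definitions: surjective homomorphisms onto the group from a finite group, whose kernel is central in that finite group and contained in that finite group's commutator subgroup. -/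
theorem result : Cfsg.HasCyclicSchurMultiplier ↥Cfsg.Spor.M12 2 := by
  obtain ⟨g, ht, hg⟩ := m12_gen
  exact cyclic_top (cyclic_of_bounds hg.2.2 [(2, 6, 1), (3, 3, 0)] [5, 11] (by decide +kernel)
    (forall_mem_cons' (hg.not_dvd 2 2 (m12_l4 hg.2.1) (by decide +kernel))
      (forall_mem_cons' (hg.not_dvd 3 1 (m12_l3 hg.2.1) (by decide +kernel))
      forall_mem_nil'))
    (m12a_cover hg (commute_of_base ht (PC.isBase_range _) (by decide +kernel))))

end Cfsg.Agent.S2035
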