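import Cfsg.Statements.S2039
import Cfsg.Agent.Spor.J1.Main
import Cfsg.Agent.Ch.Hopf

set_option autoImplicit false
open Cfsg

namespace Cfsg.Agent.S2039

/-- The Schur multiplier of the Janko group J₁ (the group generated by two explicit 7 × 7 matrices over the integers modulo 11) is trivial; here the Schur multiplier is described through stem extensions, as in the definitions: surjective homomorphisms onto the group from a finite group, whose kernel is central in that finite group and contained in that finite group's commutator subgroup. -/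
theorem result : Cfsg.HasCyclicSchurMultiplier ↥Cfsg.Spor.J1 1 := by
  open Cfsg.Agent.Spor Cfsg.Agent.Spor.NM Cfsg.Agent.Spor.NM.F11x7 Cfsg.Agent.Spor.MJ1 Cfsg.Spor in
  rw [Ch.hasCyclicSchurMultiplier_one_iff_card]
  by_contra h1
  obtain ⟨p, hp, hd⟩ := Nat.exists_prime_and_dvd h1
  by_cases h2 : p = 2
  swap
  · refine Ch.not_dvd_card_mult_of_not_sq_dvd_card hp (fun h3 => ?_) hd
    rw [card_J1, show 175560 = 2 ^ 3 * 21945 by norm_num] at h3
    have h4 : p ^ 2 ∣ 21945 := (Nat.Coprime.pow _ _ ((Nat.coprime_primes hp Nat.prime_two).2 h2)).dvd_of_dvd_mul_left h3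
    have h5 : Squarefree 21945 := by decide +kernel
    exact hp.ne_one (Nat.isUnit_iff.1 (h5 p (sq p ▸ h4)))
  subst h2
  have hu : M.Par J1 uc := gen5 ▸ hg.tab ut_ok
  have hS := Model.lev_bot (hu.lets 3) S_ok
  let u : ℕ → J1 := fun x => ⟨M.elt (uc x), (hu x).2⟩
  have hU : genLt u 3 = (M.gen uc 3).subgroupOf J1 := by
    rw [Subgroup.subgroupOf, ← Subgroup.comap_map_eq_self_of_injective J1.subtype_injective (genLt u 3), genLt,
      MonoidHom.map_closure, Set.image_image]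
    rfl
  have hc : ∀ x < 3, ∀ y < 3, u x * u y = u y * u x := fun x hx y hy => Subtype.ext
    (Model.comm_of_beq (hu x).1 (hu y).1 (by interval_cases x <;> interval_cases y <;> decide +kernel))
  have : IsMulCommutative (genLt u 3) := Subgroup.isMulCommutative_closure (by
    rintro _ ⟨x, hx, rfl⟩ _ ⟨y, hy, rfl⟩; exact hc x hx y hy)
  refine Ch.not_dvd_card_mult_of_form hp (genLt u 3) ?_ (fun ω h3 h4 => ?_) hd
  · have h3 := (genLt u 3).index_mul_card
    rw [hU, Nat.card_congr (Subgroup.subgroupOfEquivOfLe (hu.gen_le 3)).toEquiv, hS.card, card_J1] at h3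
    rw [hU]
    omega
  let v : Fin 3 → genLt u 3 := fun x => ⟨u x, mem_genLt _ x.2⟩
  have e : ∀ a b : ℕ, M.V a → M.V b → Nat.beq (mul (gc 4) a) (mul b (gc 4)) = true →
      M.elt (gc 4) * M.elt a * (M.elt (gc 4))⁻¹ = M.elt b := fun a b ha hb h => by
    rw [mul_inv_eq_iff_eq_mul, ← M.elt_mul (par_gc 4).1 ha, ← M.elt_mul hb (par_gc 4).1]
    exact Model.eq_of_beq h
  have e0 : g 4 * v 0 * (g 4)⁻¹ = v 1 := Subtype.ext (e _ _ (hu 0).1 (hu 1).1 (by decide +kernel))
  have e1 : g 4 * v 1 * (g 4)⁻¹ = v 2 := Subtype.ext (e _ _ (hu 1).1 (hu 2).1 (by decide +kernel))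
  have e2 : g 4 * v 2 * (g 4)⁻¹ = (v 0 * v 1 : genLt u 3) := Subtype.ext ((e _ _ (hu 2).1
    (M.V_mul (hu 0).1 (hu 1).1) (by decide +kernel)).trans (M.elt_mul (hu 0).1 (hu 1).1))
  have hs : ∀ x y, ω x y * ω y x = 1 := fun x y => by
    have := h3 (x * y)
    simpa [h3, mul_comm] using this
  have a1 := h4 _ _ _ _ _ e0 e1
  have a2 := h4 _ _ _ _ _ e1 e2
  have a3 := h4 _ _ _ _ _ e0 e2
  simp only [map_mul, h3, mul_one] at a2 a3
  have a4 := hs (v 0) (v 1)
  have a5 := hs (v 0) (v 2)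
  have a6 := hs (v 1) (v 2)
  have key : ∀ a b c a' b' c' : Multiplicative (ZMod 2), a = c → c = b' * c' → b = a' → a * a' = 1 → b * b' = 1 →
      c * c' = 1 → a = 1 ∧ b = 1 ∧ c = 1 ∧ a' = 1 ∧ b' = 1 ∧ c' = 1 := by
    set_option synthInstance.maxSize 2000 in decide
  obtain ⟨b1, b2, b3, b4, b5, b6⟩ := key _ _ _ _ _ _ a1 a2 a3 a4 a5 a6
  have hv : Subgroup.closure (Set.range v) = ⊤ := by
    refine Eq.trans (congrArg _ ?_) (Subgroup.closure_preimage_eq_top (u '' Set.Iio 3))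
    ext z
    exact ⟨fun ⟨x, hx⟩ => ⟨x, x.2, congrArg Subtype.val hx⟩, fun ⟨x, hx, h⟩ => ⟨⟨x, hx⟩, Subtype.ext h⟩⟩
  have h5 : ω = 1 := MonoidHom.eq_of_eqOn_dense hv (by
    rintro _ ⟨x, rfl⟩
    refine MonoidHom.eq_of_eqOn_dense hv ?_
    rintro _ ⟨y, rfl⟩
    fin_cases x <;> fin_cases y <;> first | exact h3 _ | assumption)
  intro x y
  rw [h5]; rfl

end Cfsg.Agent.S2039
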