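import Cfsg.Statements.S2043
import Cfsg.Agent.Spor.MX.Co1Gen

set_option autoImplicit false
open Cfsg

namespace Cfsg.Agent.S2043

open Cfsg.Agent.Spor Cfsg.Agent.Spor.MX

/-- The Schur multiplier of the Conway group Co₁ (the automorphism group of the rank-24 lattice modulo its centre) is cyclic of order 2; here the Schur multiplier is described through stem extensions, as in the definitions: surjective homomorphisms onto the group from a finite group, whose kernel is central in that finite group and contained in that finite group's commutator subgroup. -/
theorem result : Cfsg.HasCyclicSchurMultiplier Cfsg.Spor.Co1 2 := by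
  exact cyclic_of_bounds' co1_card [(2, 21, 1), (3, 9, 0), (5, 4, 0), (7, 2, 0)] [11, 13, 23] (by decide +kernel)
    (forall_mem_cons' (co1p2_gen.not_dvd_up le_top co1_card 2 2 (k2_l4 co1p2_gen.2.1) (by decide +kernel) (by decide +kernel))
      (forall_mem_cons' (co1p3_gen.not_dvd_up le_top co1_card 3 1 ((k3b_l9 co1p3_gen.2.1).of_dvd (by decide)) (by decide +kernel) (by decide +kernel))
      (forall_mem_cons' (co1p5_gen.not_dvd_up le_top co1_card 5 1 (k5c_l5 co1p5_gen.2.1) (by decide +kernel) (by decide +kernel))
      (forall_mem_cons' (co1p7_gen.not_dvd_up le_top co1_card 7 1 (k7c_l7 co1p7_gen.2.1) (by decide +kernel) (by decide +kernel))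
      forall_mem_nil'))))
    co1_low

end Cfsg.Agent.S2043
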