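import Cfsg.Statements.S2045
import Cfsg.Agent.Spor.MX.Co3Gen

set_option autoImplicit false
open Cfsg

namespace Cfsg.Agent.S2045

open Cfsg.Agent.Spor Cfsg.Agent.Spor.MX

/-- The Schur multiplier of the Conway group Co₃ (the stabiliser of a vector of the second shortest length in the rank-24 lattice) is trivial; here the Schur multiplier is described through stem extensions, as in the definitions: surjective homomorphisms onto the group from a finite group, whose kernel is central in that finite group and contained in that finite group's commutator subgroup. -/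
theorem result : Cfsg.HasCyclicSchurMultiplier ↥Cfsg.Spor.Co3 1 := by
  refine HasSchurMultiplier.congr ?_ (Leech.co3Equiv.trans (MulEquiv.subgroupCongr LC.stab_leechV)).symm
  exact cyclic_top (cyclic_of_bounds co3K_card [(2, 10, 0), (3, 7, 0), (5, 3, 0)] [7, 11, 23] (by decide +kernel)
    (forall_mem_cons' (co3_gen.not_dvd 2 1 ((co3_l4 co3_gen.2.1).of_dvd (by decide)) (by decide +kernel))
      (forall_mem_cons' (co3h_gen.not_dvd_up le_top co3K_card 3 1 ((c3b_l9 co3h_gen.2.1).of_dvd (by decide)) (by decide +kernel) (by decide +kernel))
      (forall_mem_cons' (co3_gen.not_dvd 5 1 (co3_l5 co3_gen.2.1) (by decide +kernel))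
      forall_mem_nil')))
    (one_dvd _))

end Cfsg.Agent.S2045
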