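import Cfsg.Statements.S2101
import Cfsg.Agent.Spor.MX.G23Gen

set_option autoImplicit false
open Cfsg

namespace Cfsg.Agent.S2101

open Cfsg.Agent.Spor Cfsg.Agent.Spor.MX

/-- Exceptional Schur multiplier: over the field with 3 elements the Chevalley group of type G₂ has Schur multiplier cyclic of order 3 (here the Schur multiplier is described through stem extensions, as in the definitions). -/
theorem result {F : Type*} [Field F] [Fintype F] (hF : Fintype.card F = 3) : Cfsg.HasCyclicSchurMultiplier ↥(Cfsg.Lie.chevG2.group F) 3 := by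
  obtain ⟨e⟩ := Cl.nonempty_ringEquiv_GF3 F hF
  refine HasSchurMultiplier.congr ?_ (Chev.fieldEquiv Lie.chevG2 e).symm
  exact cyclic_top (cyclic_of_bounds g23m_gen.2.2 [(2, 6, 0), (3, 6, 1)] [7, 13] (by decide +kernel)
    (forall_mem_cons' (g23m_gen.not_dvd 2 1 (g23_l2 g23m_gen.2.1) (by decide +kernel))
      (forall_mem_cons' (g23m_gen.not_dvd 3 2 (g23_l9 g23m_gen.2.1) (by decide +kernel))
      forall_mem_nil'))
    (g233_cover g23m_gen ((g23m_link.words g23m_w).commute g23m_c0)))

end Cfsg.Agent.S2101
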