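import Mathlib
import Cfsg.Statements.S2149
import Cfsg.Agent.Cl.MinU3E
import Cfsg.Agent.Cl.Sm.U35A7

set_option autoImplicit false
open Cfsg

namespace Cfsg.Agent.S2149
open Cl

/-- Minimal index of a proper subgroup of PSU₃(5), realised over the field with 25 elements: every proper subgroup has index at least 50, and that index is attained. -/
theorem result {F : Type*} [Field F] [Fintype F] (hF : Fintype.card F = 25) : (∀ H : Subgroup (Cfsg.PSU 3 F 5), H ≠ ⊤ → 50 ≤ H.index) ∧ (∃ H : Subgroup (Cfsg.PSU 3 F 5), H.index = 50) := by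
  have h : ∀ H : Subgroup (Cfsg.PSU 3 F 5), H ≠ ⊤ → 50 ≤ H.index := fun H hH =>
    (MI.U3.psu_index (uField_uConj (q := 5) hF) (by norm_num) hH).elim
      (le_trans (by norm_num)) And.right
  obtain ⟨H, h1, h2⟩ := Sm.exists_index_le_fifty F hF
  exact ⟨h, H, h2.antisymm (h H h1)⟩
end Cfsg.Agent.S2149
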