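import Mathlib
import Cfsg.Statements.S2162
import Cfsg.Agent.Cl.ClassSpOInvL

set_option autoImplicit false
open Cfsg

namespace Cfsg.Agent.S2162

/-- Conjugacy of involutions in the special linear group over a finite field of characteristic two, in dimension at least 3: two elements of order 2 of SL_n(F) are conjugate in SL_n(F) exactly when the matrices a − 1 and b − 1 have the same rank (the rank of a − 1 is the dimension of the commutator space [V, a]). -/
theorem result {F : Type*} [Field F] [Fintype F] [CharP F 2] {n : ℕ} (hn : 3 ≤ n) (a b : Matrix.SpecialLinearGroup (Fin n) F) (ha : orderOf a = 2) (hb : orderOf b = 2) :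
    IsConj a b ↔ ((a : Matrix (Fin n) (Fin n) F) - 1).rank = ((b : Matrix (Fin n) (Fin n) F) - 1).rank := by
  have ha' : a * a = 1 := by rw [← sq, ← ha, pow_orderOf_eq_one]
  have hb' : b * b = 1 := by rw [← sq, ← hb, pow_orderOf_eq_one]
  constructor
  · intro h
    exact Cl.SpO.rank_sub_one_eq_of_isConj (Matrix.SpecialLinearGroup.coeMonoidHom.map_isConj h)
  · intro h
    exact Cl.SpO.isConj_SL_of_invol ha' (by simp; omega) (Cl.SpO.isConj_of_sq_zero
      (Cl.SpO.sub_one_sq_of_mul_self (congrArg Subtype.val ha'))
      (Cl.SpO.sub_one_sq_of_mul_self (congrArg Subtype.val hb')) h)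

end Cfsg.Agent.S2162
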