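import Mathlib
import Cfsg.Statements.S2163
import Cfsg.Agent.Cl.ClassSpOInvL

set_option autoImplicit false
open Cfsg

namespace Cfsg.Agent.S2163

/-- Over a finite field of characteristic two and for n ≥ 3: for every ℓ with 1 ≤ ℓ and 2ℓ ≤ n, the matrix j_ℓ that is the identity plus the entries 1 in positions (n − ℓ + i, i) for i < ℓ (an identity block of size ℓ in the lower left corner) lies in SL_n(F), has order 2, and j_ℓ − 1 has rank ℓ. Together with the conjugacy criterion by rank, these matrices represent the conjugacy classes of involutions of SL_n(F). -/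
theorem result {F : Type*} [Field F] [Fintype F] [CharP F 2] {n : ℕ} (hn : 3 ≤ n) (ℓ : ℕ) (h1 : 1 ≤ ℓ) (h2 : 2 * ℓ ≤ n) :
    ∃ a : Matrix.SpecialLinearGroup (Fin n) F, (a : Matrix (Fin n) (Fin n) F) = 1 + Matrix.of (fun i j : Fin n => if j.val < ℓ ∧ i.val = j.val + (n - ℓ) then (1 : F) else 0) ∧ orderOf a = 2 ∧ ((a : Matrix (Fin n) (Fin n) F) - 1).rank = ℓ := by
  let A := Cl.SpO.selM F n ℓ (n - ℓ)
  let C := (Cl.SpO.selM F n ℓ 0).transpose
  have hN : Matrix.of (fun i j : Fin n => if j.val < ℓ ∧ i.val = j.val + (n - ℓ) then (1 : F)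
      else 0) = A * C := by
    ext i j
    rw [Cl.SpO.selM_mul_transpose]
    simp
  have hCA : C * A = 0 := Cl.SpO.selM_transpose_mul_of_le (by omega) (Or.inl (by omega))
  have hsq := Cl.SpO.one_add_mul_self A C hCA
  have hr : (A * C).rank = ℓ := Cl.SpO.rank_eq_of_factor A C A.transpose C.transpose
    (Cl.SpO.selM_transpose_mul_self (by omega)) (Cl.SpO.selM_transpose_mul_self (by omega))
  have : Fact (Nat.Prime 2) := ⟨Nat.prime_two⟩
  refine ⟨⟨1 + A * C, Cl.SpO.det_eq_one_of_mul_self hsq⟩, by rw [hN], ?_, ?_⟩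
  · refine orderOf_eq_prime (Subtype.ext ((sq _).trans hsq)) fun h => ?_
    have h0 : A * C = 0 := add_eq_left.1 (congrArg Subtype.val h)
    rw [h0, Matrix.rank_zero] at hr
    omega
  · simpa using hr

end Cfsg.Agent.S2163
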