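import Mathlib
import Cfsg.Statements.S2164
import Cfsg.Agent.Cl.ClassSpOInvL

set_option autoImplicit false
open Cfsg

namespace Cfsg.Agent.S2164

/-- Conjugacy of involutions in the special unitary group SU_n(q), q even, n ≥ 3, realised over the field F with q² elements as the matrices of determinant 1 preserving the form Σ u_i v_i^q: for two elements of order 2 of SU_n(q) the following are equivalent — they are conjugate in SU_n(q); they are conjugate in SL_n(F); the matrices a − 1 and b − 1 have the same rank. -/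
theorem result {F : Type*} [Field F] [Fintype F] [CharP F 2] {n q : ℕ} (hF : Fintype.card F = q ^ 2) (hn : 3 ≤ n) (a b : ↥(Cfsg.SU n F q)) (ha : orderOf a = 2) (hb : orderOf b = 2) :
    (IsConj a b ↔ IsConj (a : Matrix.SpecialLinearGroup (Fin n) F) (b : Matrix.SpecialLinearGroup (Fin n) F)) ∧
    (IsConj a b ↔ (((a : Matrix.SpecialLinearGroup (Fin n) F) : Matrix (Fin n) (Fin n) F) - 1).rank = (((b : Matrix.SpecialLinearGroup (Fin n) F) : Matrix (Fin n) (Fin n) F) - 1).rank) := by
  have ha' : a * a = 1 := by rw [← sq, ← ha, pow_orderOf_eq_one]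
  have hb' : b * b = 1 := by rw [← sq, ← hb, pow_orderOf_eq_one]
  have hσ := Cl.uField_uConj hF
  have h1 : IsConj a b → IsConj (a : Matrix.SpecialLinearGroup (Fin n) F)
      (b : Matrix.SpecialLinearGroup (Fin n) F) := (Cfsg.SU n F q).subtype.map_isConj
  have h2 : IsConj (a : Matrix.SpecialLinearGroup (Fin n) F)
      (b : Matrix.SpecialLinearGroup (Fin n) F) → IsConj a.1.1 b.1.1 :=
    fun h => Matrix.SpecialLinearGroup.coeMonoidHom.map_isConj h
  have h3 : IsConj a.1.1 b.1.1 → IsConj a b := Cl.SpO.isConj_SU_of_invol hσ ha' (by omega)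
  refine ⟨⟨h1, fun h => h3 (h2 h)⟩,
    fun h => Cl.SpO.rank_sub_one_eq_of_isConj (h2 (h1 h)), fun h => h3 ?_⟩
  exact Cl.SpO.isConj_of_sq_zero
    (Cl.SpO.sub_one_sq_of_mul_self (congrArg (fun x : Cfsg.SU n F q => x.1.1) ha'))
    (Cl.SpO.sub_one_sq_of_mul_self (congrArg (fun x : Cfsg.SU n F q => x.1.1) hb')) h

end Cfsg.Agent.S2164
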