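import Mathlib
import Cfsg.Statements.S2165
import Cfsg.Agent.Cl.ClassSpOInvL
import Cfsg.Agent.Cl.UMatrix

set_option autoImplicit false
open Cfsg

namespace Cfsg.Agent.S2165

/-- In SU_n(q), q even, n ≥ 3 (matrices of determinant 1 over the field with q² elements preserving Σ u_i v_i^q): for every ℓ with 1 ≤ ℓ and 2ℓ ≤ n, the permutation matrix of the involution of {0, …, n−1} exchanging i and n − ℓ + i for each i < ℓ lies in SU_n(q), has order 2, and differs from the identity by a matrix of rank ℓ. So every rank between 1 and n/2 occurs for involutions of SU_n(q). -/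
theorem result {F : Type*} [Field F] [Fintype F] [CharP F 2] {n q : ℕ} (hF : Fintype.card F = q ^ 2) (hn : 3 ≤ n) (ℓ : ℕ) (h1 : 1 ≤ ℓ) (h2 : 2 * ℓ ≤ n) :
    ∃ a : ↥(Cfsg.SU n F q), (((a : Matrix.SpecialLinearGroup (Fin n) F) : Matrix (Fin n) (Fin n) F) = Matrix.of (fun i j : Fin n => if (j.val < ℓ ∧ i.val = j.val + (n - ℓ)) ∨ (i.val < ℓ ∧ j.val = i.val + (n - ℓ)) ∨ (i = j ∧ ℓ ≤ i.val ∧ i.val < n - ℓ) then (1 : F) else 0)) ∧ orderOf a = 2 ∧ ((((a : Matrix.SpecialLinearGroup (Fin n) F) : Matrix (Fin n) (Fin n) F)) - 1).rank = ℓ := by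
  let A := Cl.SpO.selM F n ℓ (n - ℓ)
  let B := Cl.SpO.selM F n ℓ 0
  have hAA : A.transpose * A = 1 := Cl.SpO.selM_transpose_mul_self (by omega)
  have hBB : B.transpose * B = 1 := Cl.SpO.selM_transpose_mul_self (by omega)
  have hAB : A.transpose * B = 0 := Cl.SpO.selM_transpose_mul_of_le (by omega) (Or.inr (by omega))
  have hBA : B.transpose * A = 0 := Cl.SpO.selM_transpose_mul_of_le (by omega) (Or.inl (by omega))
  have h2F : (1 : F) + 1 = 0 := CharTwo.add_self_eq_zero 1
  have hXX : (A + B).transpose * (A + B) = 0 := by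
    rw [Matrix.transpose_add, Matrix.add_mul, Matrix.mul_add, Matrix.mul_add, hAA, hAB, hBA, hBB]
    ext i j
    simp [CharTwo.add_self_eq_zero]
  have hsq := Cl.SpO.one_add_mul_self (A + B) (A + B).transpose hXX
  have hr : ((A + B) * (A + B).transpose).rank = ℓ :=
    Cl.SpO.rank_eq_of_factor _ _ B.transpose B (by rw [Matrix.mul_add, hBA, hBB, zero_add])
      (by rw [Matrix.transpose_add, Matrix.add_mul, hAB, hBB, zero_add])
  have hP : 1 + (A + B) * (A + B).transpose = Matrix.of (fun i j : Fin n =>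
      if (j.val < ℓ ∧ i.val = j.val + (n - ℓ)) ∨ (i.val < ℓ ∧ j.val = i.val + (n - ℓ)) ∨
        (i = j ∧ ℓ ≤ i.val ∧ i.val < n - ℓ) then (1 : F) else 0) := by
    ext i j
    have hi := i.2
    have hj := j.2
    rw [Matrix.transpose_add, Matrix.add_mul, Matrix.mul_add, Matrix.mul_add]
    simp only [Matrix.add_apply, A, B, Cl.SpO.selM_mul_transpose, Matrix.one_apply,
      Matrix.of_apply, Fin.ext_iff]
    split_ifs <;> first | (exfalso; omega) | simp [h2F]
  have hσ := Cl.uField_uConj hF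
  have hmem : (⟨_, Cl.SpO.det_eq_one_of_mul_self hsq⟩ : Matrix.SpecialLinearGroup (Fin n) F) ∈
      Cfsg.SU n F q := by
    refine (hσ.mem_SU_iff _).2 ?_
    have e1 : (1 + (A + B) * (A + B).transpose).transpose = 1 + (A + B) * (A + B).transpose := by
      simp [Matrix.transpose_mul]
    have e2 : (1 + (A + B) * (A + B).transpose).map (Cl.uConj hF) =
        1 + (A + B) * (A + B).transpose := by
      rw [hP]
      ext i j
      simp only [Matrix.map_apply, Matrix.of_apply]
      split_ifs <;> simp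
    exact (congrArg₂ (· * ·) e1 e2).trans hsq
  have : Fact (Nat.Prime 2) := ⟨Nat.prime_two⟩
  refine ⟨⟨_, hmem⟩, hP, ?_, ?_⟩
  · refine orderOf_eq_prime (Subtype.ext (Subtype.ext ((sq _).trans hsq))) fun h => ?_
    have h0 : (A + B) * (A + B).transpose = 0 :=
      add_eq_left.1 (congrArg (fun x : Cfsg.SU n F q => x.1.1) h)
    rw [h0, Matrix.rank_zero] at hr
    omega
  · simpa using hr

end Cfsg.Agent.S2165
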