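import Mathlib
import Cfsg.Statements.S2166
import Cfsg.Agent.Cl.ClassSpOInv

set_option autoImplicit false
open Cfsg

namespace Cfsg.Agent.S2166

/-- Conjugacy of involutions in the symplectic group Sp_{2m}(F), F a finite field of characteristic two, m ≥ 2 (Sp taken as the matrices A with A J Aᵀ = J, acting on column vectors, with the alternating form f(u, v) = u ⬝ (J v)). For an involution t write V(t) for the set of vectors v with f(v, t v) = 0 (a subspace). Two involutions a, b are conjugate in Sp_{2m}(F) exactly when a − 1 and b − 1 have the same rank and, in case that rank is even, V(a) and V(b) have the same number of elements. -/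
theorem result {F : Type*} [Field F] [Fintype F] [CharP F 2] {m : ℕ} (hm : 2 ≤ m) (a b : ↥(Matrix.symplecticGroup (Fin m) F)) (ha : orderOf a = 2) (hb : orderOf b = 2) :
    IsConj a b ↔ ((((a : ↥(Matrix.symplecticGroup (Fin m) F)) : Matrix (Fin m ⊕ Fin m) (Fin m ⊕ Fin m) F) - 1).rank = (((b : ↥(Matrix.symplecticGroup (Fin m) F)) : Matrix (Fin m ⊕ Fin m) (Fin m ⊕ Fin m) F) - 1).rank ∧
      (Even (((a : ↥(Matrix.symplecticGroup (Fin m) F)) : Matrix (Fin m ⊕ Fin m) (Fin m ⊕ Fin m) F) - 1).rank → Nat.card {v : Fin m ⊕ Fin m → F // Cfsg.sympForm m F v (Matrix.mulVec ((a : ↥(Matrix.symplecticGroup (Fin m) F)) : Matrix (Fin m ⊕ Fin m) (Fin m ⊕ Fin m) F) v) = 0} = Nat.card {v : Fin m ⊕ Fin m → F // Cfsg.sympForm m F v (Matrix.mulVec ((b : ↥(Matrix.symplecticGroup (Fin m) F)) : Matrix (Fin m ⊕ Fin m) (Fin m ⊕ Fin m) F) v) = 0})) := by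
  have hA := Cl.spB_isAlt (m := m) (R := F)
  have hB := Cl.spB_nondegenerate (m := m) (R := F)
  let e := Cl.spStdEquiv m F
  have ha' := Cl.SpO.invol_of_orderOf ((e.orderOf_eq a).trans ha)
  have hb' := Cl.SpO.invol_of_orderOf ((e.orderOf_eq b).trans hb)
  have hra := Cl.SpO.finrank_res_eq_rank a.1 (g := (e a).1) fun _ => rfl
  have hrb := Cl.SpO.finrank_res_eq_rank b.1 (g := (e b).1) fun _ => rfl
  have hca := Cl.SpO.inv_alt_iff_card hA (e a).2 ha'
  have hcb := Cl.SpO.inv_alt_iff_card hA (e b).2 hb'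
  have hda := Cl.SpO.inv_card_isotropic hA (e a).2 ha'
  have hdb := Cl.SpO.inv_card_isotropic hA (e b).2 hb'
  have hea := Cl.SpO.even_of_alt hB hA (e a).2
  have heb := Cl.SpO.even_of_alt hB hA (e b).2
  rw [← Cl.Cls.isConj_mulEquiv_iff e, Cl.SpO.inv_isConj_iff (Cl.wittData_alt hA) hB hA
    Cl.SpO.mem_SpG_iff_witt _ _ ha' hb', ← hra, ← hrb]
  simp only [← Cl.spB_apply]
  change _ ↔ _ ∧ (_ → Nat.card {v // Cl.spB m F v ((e a).1 v) = 0} =
    Nat.card {v // Cl.spB m F v ((e b).1 v) = 0})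
  refine and_congr_right fun hr => ⟨fun h _ => ?_, fun h => ?_⟩
  · by_cases h1 : ∀ v, Cl.spB m F v ((e a).1 v) = 0
    · rw [hda.1 h1, hdb.1 (h.1 h1)]
    · have h2 := hda.2 h1
      have h3 := hdb.2 fun h' => h1 (h.2 h')
      exact Nat.eq_of_mul_eq_mul_right Nat.card_pos (h2.trans h3.symm)
  · constructor
    · intro h1
      rw [hcb, ← h (hea h1), ← hca]
      exact h1
    · intro h1
      rw [hca, h (hr ▸ heb h1), ← hcb]
      exact h1

end Cfsg.Agent.S2166
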