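import Mathlib
import Cfsg.Statements.S2172
import Cfsg.Agent.Cl.ClassSpOInvO

set_option autoImplicit false
open Cfsg

namespace Cfsg.Agent.S2172

open Cl Cl.SpO in
theorem aux {F : Type*} [Field F] [Finite F] [CharP F 2] {ι : Type} [Fintype ι] [DecidableEq ι]
    {P : QuadraticForm F (ι → F)} (hQ : (QuadraticMap.polarBilin P).Nondegenerate)
    (hexc : ¬ OExc P) {m : ℕ} (hV : Module.finrank F (ι → F) = 2 * m)
    (t s : isometryGroup F ⇑P) (ht : orderOf t = 2) (htO : t ∈ Omega F ⇑P) (hconj : IsConj t s) :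
    (¬ ((((t : GL ι F) : Matrix ι ι F) - 1).rank = m ∧
      ∀ v, P (v + Matrix.mulVec ((t : GL ι F) : Matrix ι ι F) v) = 0) →
      ∃ g ∈ Omega F ⇑P, g * t * g⁻¹ = s) ∧
    (((((t : GL ι F) : Matrix ι ι F) - 1).rank = m ∧
      ∀ v, P (v + Matrix.mulVec ((t : GL ι F) : Matrix ι ι F) v) = 0) →
      ((∃ g ∈ Omega F ⇑P, g * t * g⁻¹ = s) ↔ Even (Module.finrank F
        ↥(LinearMap.range (Matrix.toLin' (((t : GL ι F) : Matrix ι ι F) - 1)) ⊓
          LinearMap.range (Matrix.toLin' (((s : GL ι F) : Matrix ι ι F) - 1)))))) := by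
  have halt : (∀ v, P (v + Matrix.mulVec ((t : GL ι F) : Matrix ι ι F) v) = 0) ↔
      ∀ v, QuadraticMap.polarBilin P v ((omatEquiv P t).1 v) = 0 := by
    refine forall_congr' fun v => ?_
    rw [QuadraticMap.polarBilin_apply_apply, ← Q_dsp_two, dsp_apply, sub_vec F, add_comm]
    rfl
  rw [← finrank_res_omat, halt, ← res_omat, ← res_omat]
  refine ⟨fun h => omat_exists_conj_Omega hQ hexc hV ht h hconj, ?_⟩
  rintro ⟨h1, h2⟩
  rw [o_alt_iff_singular] at h2
  have h0 : Even (Module.finrank F (res (omatEquiv P t).1)) :=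
    (mem_comm_iff_even hQ hexc _).1 ((omatEquiv_mem_commutator_iff t).2 htO)
  have hk : ∀ g, g * t * g⁻¹ = s → (g ∈ Omega F ⇑P ↔
      Even (Module.finrank F ↥(res (omatEquiv P t).1 ⊓ res (omatEquiv P s).1))) := fun g hg => by
    have := dickson_conj_iff hQ hexc hV h2 h1 h1 h2 ((omat_conj_iff g t s).1 hg)
    rw [inf_idem, ← mem_comm_iff_dickson hQ hexc, omatEquiv_mem_commutator_iff] at this
    rw [this]
    simp [h0]
  constructor
  · rintro ⟨g, hg, hc⟩
    exact (hk g hc).1 hg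
  · intro h
    obtain ⟨g, hc⟩ := isConj_iff.1 hconj
    exact ⟨g, (hk g hc).2 h, hc⟩

/-- Splitting of involution classes from O to Ω for the hyperbolic quadratic form Q = Σ x_i y_i in dimension 2m over a finite field F of characteristic two, m ≥ 4. Let t, s be involutions of the commutator subgroup Ω that are conjugate in the full isometry group O. If it is not the case that t − 1 has rank m and Q(v + t v) = 0 for every vector v, then t and s are conjugate by an element of Ω. If t − 1 has rank m and Q(v + t v) = 0 for all v, then t and s are conjugate by an element of Ω exactly when the intersection of the images of t − 1 and s − 1 has even dimension (so the class of t in O meets at most two classes of Ω). -/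
theorem result {F : Type*} [Field F] [Fintype F] [CharP F 2] {m : ℕ} (hm : 4 ≤ m) (t s : ↥(Cfsg.isometryGroup F (Cfsg.quadFormPlus m F))) (ht : orderOf t = 2) (hs : orderOf s = 2) (htO : t ∈ Cfsg.Omega F (Cfsg.quadFormPlus m F)) (hsO : s ∈ Cfsg.Omega F (Cfsg.quadFormPlus m F)) (hconj : IsConj t s) :
    (¬ (((((t : ↥(Cfsg.isometryGroup F (Cfsg.quadFormPlus m F))) : GL (Fin m ⊕ Fin m) F) : Matrix (Fin m ⊕ Fin m) (Fin m ⊕ Fin m) F) - 1).rank = m ∧ ∀ v : Fin m ⊕ Fin m → F, Cfsg.quadFormPlus m F (v + Matrix.mulVec (((t : ↥(Cfsg.isometryGroup F (Cfsg.quadFormPlus m F))) : GL (Fin m ⊕ Fin m) F) : Matrix (Fin m ⊕ Fin m) (Fin m ⊕ Fin m) F) v) = 0) →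
      ∃ g ∈ Cfsg.Omega F (Cfsg.quadFormPlus m F), g * t * g⁻¹ = s) ∧
    ((((((t : ↥(Cfsg.isometryGroup F (Cfsg.quadFormPlus m F))) : GL (Fin m ⊕ Fin m) F) : Matrix (Fin m ⊕ Fin m) (Fin m ⊕ Fin m) F) - 1).rank = m ∧ ∀ v : Fin m ⊕ Fin m → F, Cfsg.quadFormPlus m F (v + Matrix.mulVec (((t : ↥(Cfsg.isometryGroup F (Cfsg.quadFormPlus m F))) : GL (Fin m ⊕ Fin m) F) : Matrix (Fin m ⊕ Fin m) (Fin m ⊕ Fin m) F) v) = 0) →
      ((∃ g ∈ Cfsg.Omega F (Cfsg.quadFormPlus m F), g * t * g⁻¹ = s) ↔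
        Even (Module.finrank F ↥(LinearMap.range (Matrix.toLin' ((((t : ↥(Cfsg.isometryGroup F (Cfsg.quadFormPlus m F))) : GL (Fin m ⊕ Fin m) F) : Matrix (Fin m ⊕ Fin m) (Fin m ⊕ Fin m) F) - 1)) ⊓ LinearMap.range (Matrix.toLin' ((((s : ↥(Cfsg.isometryGroup F (Cfsg.quadFormPlus m F))) : GL (Fin m ⊕ Fin m) F) : Matrix (Fin m ⊕ Fin m) (Fin m ⊕ Fin m) F) - 1)))))) := by
  exact aux (P := Cl.quad_plus m F) Cl.quad_plus_nondeg
    (Cl.not_oExc_of_finrank (by rw [Cl.o_finrank_plus]; omega)) Cl.o_finrank_plus t s ht htO hconj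

end Cfsg.Agent.S2172
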