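import Cfsg.Statements.S2177
import Cfsg.Agent.Chev.C2Form
import Cfsg.Agent.Chev.Good

set_option autoImplicit false
open Cfsg

namespace Cfsg.Agent.S2177

open Cfsg.Lie Cfsg.Lie.ChevalleyDatum Cfsg.Agent.Chev

set_option backward.isDefEq.respectTransparency false

/-- A root. -/
def rt (i : Fin 12) : chevG2.Rt := i

theorem chk3 : ∀ p ∈ [([11], 6), ([9], 6)], chevG2.rankChk p.1 p.2 = true := by decide +kernel

theorem chk4 : ∀ p ∈ [([11], 6), ([9], 6)], p.2 ≠ 0 ∧ chevG2.collect 100 (p.1 ++ p.1) = [] := by decide +kernel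

variable {F : Type*} [Field F] [CharP F 2]

theorem not_conj {g : GL chevG2.Idx F} (hg : g ∈ chevG2.group F) :
    g * chevG2.word F [11] * g⁻¹ ≠ chevG2.word F [9] := by
  intro e
  obtain ⟨u, hu, n, hn, u', hu', rfl⟩ := RootBN.bruhat (R := chevG2.rootBN F) hg
  obtain ⟨a, ha, -⟩ := chevG2.exists_conj_X_wOf F hn (rt 11)
  have h1 : u' * chevG2.X F (rt 11) 1 * u'⁻¹ = chevG2.X F (rt 11) 1 := by
    rw [show u' * chevG2.X F (rt 11) 1 = _ from (commute_top_U hu' 1).eq]; exact mul_inv_cancel_right _ _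
  obtain ⟨z, hz, e'⟩ := conj_word (D := chevG2) (S := {r | chevG2.IsPosRoot r}) (l := [9]) (T := [10, 11])
    (by simp only [Set.mem_ofPred_eq]; decide +kernel) (by decide +kernel) (u := u⁻¹)
    (by rw [← posUnipotent_eq_XS]; exact inv_mem hu)
  have h2 := mem_csupp_word (l := [9]) (M := [10, 11]) (c := [2, 3]) (m := 2) (by decide +kernel) (by decide +kernel)
    (by decide +kernel) (by decide) hz (v := rt 9) (by decide)
  rw [← e', ← e, word_cons, word_nil, mul_one, show u⁻¹ * (u * n * u' * chevG2.X F 11 1 * (u * n * u')⁻¹) * u⁻¹⁻¹ =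
    n * (u' * chevG2.X F 11 1 * u'⁻¹) * n⁻¹ by group, show u' * chevG2.X F 11 1 * u'⁻¹ = _ from h1, ha] at h2
  obtain ⟨i, hi⟩ := h2
  rw [X_inl_inr] at hi
  have h3 : rt 9 = chevG2.wOf F n (rt 11) := by
    by_contra h; exact hi (if_neg (by simpa using h))
  have h4 := weyl_pairing (chevG2.wOf_mem_weyl F n) (rt 11) ((chevG2.wOf F n).symm (rt 10))
  rw [← h3, Equiv.apply_symm_apply] at h4
  exact (show ∀ s : chevG2.Rt, chevG2.pairing (rt 9) (rt 10) ≠ chevG2.pairing (rt 11) s by decide +kernel) _ h4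

theorem aux [Fintype F] (hF : 4 ≤ Fintype.card F) : ∀ z ∈ chevG2.group F, z * z = 1 → z ≠ 1 →
    ∃ l ∈ [[11], [9]], ∃ g ∈ chevG2.group F, g * z * g⁻¹ = chevG2.word F l := by
  intro z hz hz2 hz1
  have h0 : chevG2.formChk = true := by decide +kernel
  have h1 : chevG2.nset [0, 1] = Set.univ := Set.eq_univ_of_forall (by simp only [nset, Set.mem_ofPred_eq]; decide)
  have h2 := step_top h0 (chevG2.rootBN F).topSub (J := [0]) (θ := rt 7) (by decide +kernel)
    (fun W hW => span_of_chk (ws := [[0]]) (s := 0) (us := []) (c := [(0, 7)]) (by decide +kernel)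
      (fun w hw => Subgroup.mem_inf.2 ⟨nW_mem_group w, nW_mem_LJ (by revert w; decide)⟩) hW (by simp))
    (chevG2.X_mem_group F _ _) (fun c _ => ⟨chevG2.X_mem_group F _ _, chevG2.X_mem_group F _ _⟩)
    (P := fun l => 11 :: l ∈ [[], [11], [11, 7]]) (by decide)
    (show [] = ([0].filter fun i => chevG2.cartan i (rt 7) == 0) by decide +kernel ▸ step_nil (by decide))
  obtain ⟨l, hl, g, hg, e⟩ := step_top h0 (chevG2.rootBN F).topSub (J := [0, 1]) (θ := rt 11) (by decide +kernel)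
    (fun W hW => span_of_chk (ws := [[0], [1]]) (s := 6) (us := [6, 8, 9, 10])
      (c := [(1, 11), (0, 10), (1, 6), (2, 6), (0, 5), (1, 8), (1, 1), (0, 7), (1, 4), (0, 3)]) (by decide +kernel)
      (fun w hw => Subgroup.mem_inf.2 ⟨nW_mem_group w, nW_mem_LJ (by revert w; decide)⟩) hW
      (poly_move (w := [7]) (m := 4) (q := 4) (by decide +kernel) le_rfl (by decide) hF (fun c => by
        simp only [wordq, mul_one, h1, LJ_univ]
        exact ⟨chevG2.X_mem_group F _ _, chevG2.X_mem_group F _ _⟩) hW))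
    (chevG2.X_mem_group F _ _) (fun c _ => ⟨chevG2.X_mem_group F _ _, chevG2.X_mem_group F _ _⟩)
    (P := fun l => l ∈ [[], [11], [11, 7]]) (by decide)
    (show [0] = ([0, 1].filter fun i => chevG2.cartan i (rt 11) == 0) by decide +kernel ▸ h2) z
    ⟨hz, by rwa [h1, LJ_univ]⟩ hz2
  simp only [List.mem_cons, List.not_mem_nil, or_false] at hl
  rcases hl with rfl | rfl | rfl
  · exact absurd (by simpa [word_nil] using e) hz1
  · exact ⟨_, by decide, g, hg.1, e⟩
  · obtain ⟨g', hg', e'⟩ := run_spec (K := chevG2.group F) 100 (c := [([1], [7]), ([0], [8])])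
      (fun m _ => ⟨nW_mem_group _, word_mem_group _⟩) [11, 7]
    refine ⟨[9], by decide, g' * g, mul_mem hg' hg.1, ?_⟩
    rw [show [9] = chevG2.run 100 [([1], [7]), ([0], [8])] [11, 7] by decide +kernel, ← e', ← e]
    group

/-- Conjugacy classes of involutions in the Chevalley group of type G₂ over a finite field F of characteristic two with at least four elements (the matrix group generated by the root elements x_r(t)). In this problem's root numbering for type G₂ (the Chevalley data module; p₁ = a short, p₂ = b long; roots indexed by coefficient vectors in increasing order) let 11 be the highest root 3a + 2b (long) and 9 the short root 2a + b; consider x_{3a+2b}(1) and x_{2a+b}(1). Then: each invertible matrix equal to one of these two products lies in the group and has order 2; every element of order 2 of the group is conjugate in the group to one of them; and no two of them are conjugate in the group (so, the two matrices being distinct, the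 group has exactly two conjugacy classes of involutions). -/
theorem result {F : Type*} [Field F] [Fintype F] [CharP F 2] (hF : 4 ≤ Fintype.card F) :
    (∀ y : GL Cfsg.Lie.chevG2.Idx F, ((y : GL Cfsg.Lie.chevG2.Idx F) : Matrix Cfsg.Lie.chevG2.Idx Cfsg.Lie.chevG2.Idx F) ∈ [Cfsg.Lie.chevG2.x F 11 1, Cfsg.Lie.chevG2.x F 9 1] → y ∈ Cfsg.Lie.chevG2.group F ∧ orderOf y = 2) ∧
    (∀ g ∈ Cfsg.Lie.chevG2.group F, orderOf g = 2 → ∃ y ∈ Cfsg.Lie.chevG2.group F, ((y : GL Cfsg.Lie.chevG2.Idx F) : Matrix Cfsg.Lie.chevG2.Idx Cfsg.Lie.chevG2.Idx F) ∈ [Cfsg.Lie.chevG2.x F 11 1, Cfsg.Lie.chevG2.x F 9 1] ∧ ∃ h ∈ Cfsg.Lie.chevG2.group F, h * g * h⁻¹ = y) ∧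
    (∀ y₁ ∈ Cfsg.Lie.chevG2.group F, ∀ y₂ ∈ Cfsg.Lie.chevG2.group F, ((y₁ : GL Cfsg.Lie.chevG2.Idx F) : Matrix Cfsg.Lie.chevG2.Idx Cfsg.Lie.chevG2.Idx F) ∈ [Cfsg.Lie.chevG2.x F 11 1, Cfsg.Lie.chevG2.x F 9 1] → ((y₂ : GL Cfsg.Lie.chevG2.Idx F) : Matrix Cfsg.Lie.chevG2.Idx Cfsg.Lie.chevG2.Idx F) ∈ [Cfsg.Lie.chevG2.x F 11 1, Cfsg.Lie.chevG2.x F 9 1] →
      (∃ h ∈ Cfsg.Lie.chevG2.group F, h * y₁ * h⁻¹ = y₂) → ((y₁ : GL Cfsg.Lie.chevG2.Idx F) : Matrix Cfsg.Lie.chevG2.Idx Cfsg.Lie.chevG2.Idx F) = ((y₂ : GL Cfsg.Lie.chevG2.Idx F) : Matrix Cfsg.Lie.chevG2.Idx Cfsg.Lie.chevG2.Idx F)) := by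
  refine classes_list (reps := [[11], [9]]) (by simp [word]) (orderOf_of_rank chk3 chk4) (aux hF) ?_
  simp only [List.mem_cons, List.not_mem_nil, or_false]
  rintro _ (rfl | rfl) _ (rfl | rfl) g hg e
  · rfl
  · exact absurd e (not_conj hg)
  · exact absurd (by rw [← e]; group) (not_conj (inv_mem hg))
  · rfl

end Cfsg.Agent.S2177
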