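import Cfsg.Statements.S2183
import Cfsg.Agent.Chev.C2Tw
import Cfsg.Agent.Chev.TwD4

set_option autoImplicit false
open Cfsg

namespace Cfsg.Agent.S2183

open Cfsg.Lie Cfsg.Lie.ChevalleyDatum Cfsg.Agent.Chev

set_option backward.isDefEq.respectTransparency false

/-- Moves reaching all roots. -/
def c1 : List (ℕ × ℕ) := [(0, 23), (1, 22), (0, 14), (2, 14), (1, 9), (0, 19), (0, 16), (0, 15), (0, 1), (1, 18),
  (1, 13), (1, 12), (0, 5), (0, 10), (0, 11), (1, 4), (1, 7), (1, 8)]

/-- Representatives with the ranks of `g - 1`. -/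
def reps : List (List ℕ × ℕ) := [([23], 10), ([23, 18, 13, 12], 12)]

theorem chk3 : ∀ p ∈ reps, chevD4.rankChk p.1 p.2 = true := by decide +kernel

theorem chk4 : ∀ p ∈ reps, p.2 ≠ 0 ∧ chevD4.collect 100 (p.1 ++ p.1) = [] := by decide +kernel

theorem aux {K : Type*} [Field K] [Fintype K] [CharP K 2] {q : ℕ} (hq : 2 ≤ q) (hK : Fintype.card K = q ^ 3)
    {f : RingAut K} (hf : ∀ t, f t = t ^ q) :
    (ConjClasses.mk '' {g : ↥(twD4 f).G1 | orderOf g = 2}).ncard = 2 := by
  have h0 : ∀ w ∈ [[1], [0, 2, 3]], chevD4.nW K w ∈ (twD4 f).G1 ∧ w ⊆ [0, 1, 2, 3] := by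
    have h := (twD4 f).nW_mem_G1
    rw [twD4_lw] at h
    simp only [List.mem_cons, List.not_mem_nil, or_false, forall_eq_or_imp, forall_eq]
    exact ⟨⟨h 0, by decide⟩, h 1, by decide⟩
  have h1 : chevD4.nset [0, 1, 2, 3] = Set.univ := Set.eq_univ_of_forall (by
    simp only [nset, Set.mem_ofPred_eq]; decide)
  have h2 : chevD4.nset [0, 2, 3] = (twD4 f).S 1 := by
    ext i
    change (i : ℕ) ∈ [0, 2, 3] ↔ ∃ k < 3, (d4Sym.π ^ k) (d4n 0) = i
    revert i; decide +kernel
  have h3 : (twD4 f).y 1 1 = chevD4.word K [18, 13, 12] := by simp [(twD4_y f 1).2, word]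
  have h4 := (twD4 f).step (by decide +kernel) (I := [0, 1, 2, 3]) (θ := d4r 23) (by decide +kernel)
    (by rw [twD4_toSym]; decide +kernel) (s := 14) (us := [14, 19, 16, 21, 15, 20, 17, 22]) (c := c1)
    (by decide +kernel) h0 (fun W => poly_move (w := [18, 13, 12]) (m := 2) (by decide +kernel) hq hq hK.ge fun c => by
      have h3 := (twD4 f).y_mem_G1 1 (twD4_f_cube hK hf c)
      rw [(twD4_y f c).2, sq, RingAut.mul_apply, hf, hf] at h3
      simp only [wordq, mul_one, h1, LJ_univ]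
      exact ⟨h3, (twD4 f).G1_le_group h3⟩)
    (P := (· ∈ [[], [23], [23, 18, 13, 12]])) (by decide) (I' := [0, 2, 3]) (by decide +kernel) (by
      rw [h2]
      intro z hz hz2
      obtain ⟨g, hg, e | e⟩ := (twD4 f).step_orbit 1 hz hz2
      exacts [⟨[], by decide, g, hg, e⟩, ⟨_, by decide, g, hg, e.trans h3⟩])
  have h5 : chevD4.word K [23] ∈ (twD4 f).G1 := (twD4 f).word_mem_G1 (by rw [twD4_toSym]; decide +kernel)
  refine classes_ncard (reps := reps.map Prod.fst) (by decide) ?_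
    (orderOf_of_rank chk3 chk4) (fun z hz hz2 hz1 => ?_) fun a ha b hb g _ => sep_of_rank chk3 (by decide) a ha b hb g
  · simp only [reps, List.map_cons, List.map_nil, List.mem_cons, List.not_mem_nil, or_false, forall_eq_or_imp,
      forall_eq]
    refine ⟨h5, ?_⟩
    rw [show [23, 18, 13, 12] = [23] ++ [18, 13, 12] from rfl, word_append, ← h3]
    exact mul_mem h5 ((twD4 f).y_mem_G1 1 (map_one _))
  obtain ⟨l, hl, g, hg, e⟩ := h4 z ⟨hz, by rw [h1, LJ_univ]; exact (twD4 f).G1_le_group hz⟩ hz2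
  refine ⟨l, ?_, g, hg.1, e⟩
  have h6 : l ≠ [] := by rintro rfl; exact hz1 (by simpa [word_nil] using e)
  simpa [reps, h6] using hl

/-- The twisted group ³D₄(q), q even, realised inside the Chevalley group of type D₄ over the field K with q³ elements, has exactly two conjugacy classes of elements of order 2. -/
theorem result {K : Type*} [Field K] [Fintype K] [CharP K 2] (q : ℕ) (hK : Fintype.card K = q ^ 3) :
    (ConjClasses.mk '' {g : ↥(Cfsg.Lie.twistedD4 K q) | orderOf g = 2}).ncard = 2 := by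
  have hq : IsPrimePow q := (isPrimePow_pow_iff three_ne_zero).1 (hK ▸ Fintype.isPrimePow_card_of_field)
  obtain ⟨f, hf⟩ := tw_exists_frob hq three_ne_zero hK
  rw [← twD4_G1 hK hf]
  exact aux hq.two_le hK hf

end Cfsg.Agent.S2183
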