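import Cfsg.Statements.S2189
import Mathlib
import Cfsg.Agent.Chev.BglAll

set_option autoImplicit false
open Cfsg

namespace Cfsg.Agent.S2189

/-- Finite subgroups of an adjoint Chevalley group over an algebraically closed field that contain the group over a finite subfield. Let k be an algebraically closed field of prime characteristic p, G the Chevalley group of type G₂, B₂, D₄, F₄, E₆, E₇ or E₈ over k (the matrix group generated by the root elements x_s(t), t ∈ k), and q = p^a with a ≥ 1. Let L be the subgroup generated by the root elements x_s(t) with t^q = t (the Chevalley group over the field of q elements inside G), and let M be a finite subgroup of G containing L. Then for some r ≥ 1, M contains every root element x_s(t) with t^(q^r) = t and every element of M is a matrix all of whose entries c satisfy c^(q^r) = c (so M lies between the Chevalley group over the field with q^r elements and the group of points of G fixed by the q^r-th power map). -/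
theorem result {k : Type*} [Field k] [IsAlgClosed k] (p : ℕ) [Fact p.Prime] [CharP k p] (D : Cfsg.Lie.ChevalleyDatum) (hD : D ∈ [Cfsg.Lie.chevG2, Cfsg.Lie.chevB2, Cfsg.Lie.chevD4, Cfsg.Lie.chevF4, Cfsg.Lie.chevE6, Cfsg.Lie.chevE7, Cfsg.Lie.chevE8]) (a : ℕ) (ha : 1 ≤ a) (M : Subgroup (GL D.Idx k)) (hMfin : Finite ↥M) (hMG : M ≤ D.group k)
    (hLM : Subgroup.closure {g : GL D.Idx k | ∃ (s : ℕ) (t : k), t ^ (p ^ a) = t ∧ (g : Matrix D.Idx D.Idx k) = D.x k s t} ≤ M) :
    ∃ r : ℕ, 1 ≤ r ∧ Subgroup.closure {g : GL D.Idx k | ∃ (s : ℕ) (t : k), t ^ ((p ^ a) ^ r) = t ∧ (g : Matrix D.Idx D.Idx k) = D.x k s t} ≤ M ∧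
      ∀ g ∈ M, ∀ i j : D.Idx, ((g : Matrix D.Idx D.Idx k) i j) ^ ((p ^ a) ^ r) = (g : Matrix D.Idx D.Idx k) i j := by
  classical
  have := Chev.good_of_mem hD
  have hp : p.Prime := Fact.out
  have hL : ∀ (s : ℕ) (t : k), t ^ p ^ a = t → D.X k s t ∈ M := fun s t ht =>
    hLM (Subgroup.subset_closure ⟨s, t, ht, rfl⟩)
  obtain ⟨c, hc⟩ := Infinite.exists_notMem_finset ({0, 1} : Finset k)
  obtain ⟨-, m, hm, -, h1, h2, h3⟩ := Chev.Bgl.exists_pow p ⟨c, by simpa [not_or] using hc⟩ hD hMG
    fun r => hL r 1 (one_pow _)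
  have h4 : 1 ≤ p ^ a := Nat.one_le_pow _ _ hp.pos
  have : NeZero ((p ^ a - 1 : ℕ) : k) := ⟨by
    rw [Nat.cast_sub h4, Nat.cast_pow, CharP.cast_eq_zero, zero_pow (by omega)]; simp⟩
  have : NeZero (p ^ a - 1) := .of_neZero_natCast k
  obtain ⟨ζ, hζ⟩ := HasEnoughRootsOfUnity.exists_primitiveRoot k (p ^ a - 1)
  obtain ⟨r, rfl⟩ := Chev.Bgl.dvd_of_primitiveRoot hp.one_lt hζ (hζ.ne_zero (NeZero.ne _))
    (h2 ζ fun r => hL r ζ (by rw [← Nat.sub_add_cancel h4, pow_succ, hζ.pow_eq_one, one_mul]))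
  refine ⟨r, Nat.pos_of_mul_pos_left hm, (Subgroup.closure_le _).2 ?_, by simpa [pow_mul] using h3⟩
  rintro g ⟨s, t, ht, e⟩
  rw [show g = D.X k s t from Units.ext e]
  exact h1 s t (by rwa [pow_mul])

end Cfsg.Agent.S2189
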