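import Cfsg.Statements.S2190
import Mathlib
import Cfsg.Agent.Chev.BglAll

set_option autoImplicit false
open Cfsg

namespace Cfsg.Agent.S2190

/-- Subfield subgroups of prime degree are maximal. Let K be a finite field with q^r elements, r a prime, q a power of the characteristic, and G the Chevalley group of type G₂, B₂, D₄, F₄, E₆, E₇ or E₈ over K (the matrix group generated by the root elements). Let M be the subgroup of G consisting of the matrices all of whose entries lie in the subfield with q elements (entries c with c^q = c). Then M is a proper subgroup of G and is maximal: every subgroup of G containing M is M or G. -/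
theorem result {K : Type*} [Field K] [Fintype K] (p : ℕ) [Fact p.Prime] [CharP K p] (D : Cfsg.Lie.ChevalleyDatum) (hD : D ∈ [Cfsg.Lie.chevG2, Cfsg.Lie.chevB2, Cfsg.Lie.chevD4, Cfsg.Lie.chevF4, Cfsg.Lie.chevE6, Cfsg.Lie.chevE7, Cfsg.Lie.chevE8]) (a r : ℕ) (ha : 1 ≤ a) (hr : r.Prime) (hK : Fintype.card K = (p ^ a) ^ r) (M : Subgroup (GL D.Idx K))
    (hM : ∀ g : GL D.Idx K, g ∈ M ↔ g ∈ D.group K ∧ ∀ i j : D.Idx, ((g : Matrix D.Idx D.Idx K) i j) ^ (p ^ a) = (g : Matrix D.Idx D.Idx K) i j) :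
    M ≠ D.group K ∧ ∀ H : Subgroup (GL D.Idx K), M ≤ H → H ≤ D.group K → H = M ∨ H = D.group K := by
  classical
  have := Chev.good_of_mem hD
  have hp : p.Prime := Fact.out
  have h4 : 1 < p ^ a := Nat.one_lt_pow (by omega) hp.one_lt
  have hX : ∀ (s : ℕ) (t : K), t ^ p ^ a = t → D.X K s t ∈ M := fun s t ht =>
    (hM _).2 ⟨D.X_mem_group K s t, fun i j => congrArg (fun x : GL D.Idx K => x.val i j)
      ((D.glMap_X (iterateFrobenius K p a) s t).trans (congrArg _ ht))⟩
  obtain ⟨γ, hγ⟩ := IsCyclic.exists_ofOrder_eq_natCard (α := Kˣ)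
  rw [Nat.card_units, Nat.card_eq_fintype_card, hK] at hγ
  have hγ' : IsPrimitiveRoot (γ : K) (p ^ (a * r) - 1) := by
    rw [pow_mul, ← hγ]; exact IsPrimitiveRoot.coe_units_iff.2 (IsPrimitiveRoot.orderOf γ)
  have key : ∀ H : Subgroup (GL D.Idx K), M ≤ H → H ≤ D.group K → ∃ m, 0 < m ∧ (m = a ∨ m = a * r) ∧
      (∀ r t, t ^ p ^ m = t → D.X K r t ∈ H) ∧ (∀ t, (∀ r, D.X K r t ∈ H) → t ^ p ^ m = t) ∧
      ∀ g ∈ H, ∀ i j, g.val i j ^ p ^ m = g.val i j := fun H h1 h2 => by
    have h5 : 2 < Fintype.card K := by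
      rw [hK]
      exact (by norm_num : 2 < 2 ^ 2).trans_le ((Nat.pow_le_pow_left h4 2).trans
        (Nat.pow_le_pow_right (by omega) hr.two_le))
    obtain ⟨c, -, hc⟩ := Finset.exists_mem_notMem_of_card_lt_card (s := ({0, 1} : Finset K))
      (t := Finset.univ) (Finset.card_le_two.trans_lt h5)
    obtain ⟨E, m, hm, h6, h7, h8, h9⟩ := Chev.Bgl.exists_pow p ⟨c, by simpa [not_or] using hc⟩ hD h2
      fun r => h1 (hX r 1 (one_pow _))
    refine ⟨m, hm, ?_, h7, h8, h9⟩
    obtain ⟨d, hd⟩ := Nat.sub_one_dvd_pow_sub_one (p ^ a) r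
    have hζ := hγ'.pow (Nat.sub_pos_of_lt (Nat.one_lt_pow (Nat.mul_ne_zero (by omega) hr.ne_zero) hp.one_lt))
      (show p ^ (a * r) - 1 = d * (p ^ a - 1) by rw [pow_mul, hd, mul_comm])
    obtain ⟨e, rfl⟩ := Chev.Bgl.dvd_of_primitiveRoot hp.one_lt hζ (pow_ne_zero _ γ.ne_zero)
      (h8 _ fun r => h1 (hX r _ (by
        rw [← Nat.sub_add_cancel h4.le, pow_succ, hζ.pow_eq_one, one_mul])))
    have h10 := Module.natCard_eq_pow_finrank (K := E) (V := K)
    rw [h6, Nat.card_eq_fintype_card, hK, ← pow_mul, ← pow_mul, mul_assoc] at h10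
    rcases (Nat.dvd_prime hr).1 ⟨_, Nat.eq_of_mul_eq_mul_left ha (Nat.pow_right_injective hp.two_le h10)⟩
      with rfl | rfl <;> simp
  refine ⟨fun e => ?_, fun H h1 h2 => ?_⟩
  · have hn : 0 < D.nroots := by
      simp only [List.mem_cons, List.not_mem_nil, or_false] at hD
      rcases hD with rfl | rfl | rfl | rfl | rfl | rfl | rfl <;> decide
    have h1 := ((hM _).1 (e ▸ D.X_mem_group K 0 γ)).2
    have h2 : (γ : K) ^ p ^ a = γ := D.X_injective K ⟨0, hn⟩
      ((D.glMap_X (iterateFrobenius K p a) 0 γ).symm.trans (Units.ext (Matrix.ext h1)))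
    have h3 := Nat.le_of_dvd ha (Chev.Bgl.dvd_of_primitiveRoot hp.one_lt hγ' γ.ne_zero h2)
    have := hr.two_le
    nlinarith
  · obtain ⟨m, -, rfl | rfl, h7, -, h9⟩ := key H h1 h2
    · exact Or.inl (le_antisymm (fun g hg => (hM g).2 ⟨h2 hg, h9 g hg⟩) h1)
    · refine Or.inr (le_antisymm h2 ?_)
      rw [D.group_eq_closure, Subgroup.closure_le]
      rintro _ ⟨s, t, rfl⟩
      exact h7 s t (by rw [pow_mul, ← hK, FiniteField.pow_card])

end Cfsg.Agent.S2190
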