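import Cfsg.Statements.S2197
import Cfsg.Agent.Chev.F4TwTits3

set_option autoImplicit false
open Cfsg

namespace Cfsg.Agent.S2197

/-- The Tits group (the commutator subgroup of ²F₄(2)) has no faithful 2-transitive action on a finite set with more than two points. -/
theorem result {Ω : Type*} [Fintype Ω] [MulAction Cfsg.Lie.TitsGroup Ω] [FaithfulSMul Cfsg.Lie.TitsGroup Ω] (hΩ : 3 ≤ Fintype.card Ω) :
    ¬ MulAction.IsMultiplyPretransitive Cfsg.Lie.TitsGroup Ω 2 := by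
  revert Ω
  change ∀ {Ω : Type _} [Fintype Ω] [MulAction (commutator (Cfsg.Lie.twistedF4 (ZMod 2) 1)) Ω]
    [FaithfulSMul (commutator (Cfsg.Lie.twistedF4 (ZMod 2) 1)) Ω], 3 ≤ Fintype.card Ω →
      ¬ MulAction.IsMultiplyPretransitive (commutator (Cfsg.Lie.twistedF4 (ZMod 2) 1)) Ω 2
  rw [Chev.F4T.twistedF4_two]
  intro Ω _ _ _ hΩ
  exact Chev.F4T.T2.not_two_trans (by decide) Chev.F4T.card_T2 hΩ

end Cfsg.Agent.S2197
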