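import Cfsg.Statements.S2209
import Cfsg.Agent.Chev.C2Cent
import Cfsg.Agent.Chev.Good

set_option autoImplicit false
open Cfsg

namespace Cfsg.Agent.S2209

open Cfsg.Lie Cfsg.Lie.ChevalleyDatum in
theorem aux {F : Type*} [Field F] [CharP F 2] {D : ChevalleyDatum} [D.Good] {l : List ℕ} (i₀ : ℕ)
    (hi : i₀ < D.rank) (h1 : D.cartan i₀ (D.nroots - 1) = 1)
    (h0 : ∀ i < D.rank, i ≠ i₀ → D.cartan i (D.nroots - 1) = 0 ∧ D.neg (D.simple i) ∈ l)
    (hl : ∀ s ∈ l, ∃ i < D.rank, i ≠ i₀ ∧ s = D.neg (D.simple i))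
    (t : GL D.Idx F) (ht : (t : Matrix D.Idx D.Idx F) = D.x F (D.nroots - 1) 1) :
    D.group F ⊓ Subgroup.centralizer {t} = D.posUnipotent F ⊔
      Subgroup.closure {g : GL D.Idx F | ∃ s ∈ l, ∃ c : F, (g : Matrix D.Idx D.Idx F) = D.x F s c} := by
  obtain rfl : t = D.X F D.top 1 := Units.ext ht
  have h0' : ∀ i : D.Nd, i ≠ ⟨i₀, hi⟩ → D.cartan i D.top = 0 ∧ D.neg (D.simple i) ∈ l := fun i h =>
    h0 i i.2 fun e => h (Fin.ext e)
  rw [centralizer_root (i₀ := ⟨i₀, hi⟩) h1 (fun i h => (h0' i h).1) (fun r hr c => commute_top hr c 1)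
    fun j h c => commute_of_orth (by rw [pairing_ng_left, pairing_sr_left, (h0' j h).1, neg_zero]) c 1]
  refine le_antisymm (sup_le le_sup_left (LJ_le fun j hj c => ⟨Subgroup.mem_sup_left (X_mem_U (D.sr_pos j) c),
    Subgroup.mem_sup_right (Subgroup.subset_closure ⟨_, (h0' j hj).2, c, rfl⟩)⟩))
    (sup_le_sup_left ((Subgroup.closure_le _).2 ?_) _)
  rintro g ⟨s, hs, c, e⟩
  obtain ⟨i, hi', hne, rfl⟩ := hl s hs
  obtain rfl : g = D.X F (D.ng (D.sr ⟨i, hi'⟩)) c := Units.ext e
  exact X_ng_mem_LJ (cw_sr_of_mem (J := {j | j ≠ ⟨i₀, hi⟩}) fun e => hne (congrArg Fin.val e)) c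

/-- Centralizer of a long root involution in the Chevalley groups of type E₆, E₇, E₈ over a finite field F of characteristic two. Let G be the group generated by the root elements, U the subgroup generated by the positive root subgroups, r the highest root (the last root index: 71, 125, 239 respectively), and t the element of G with matrix x_r(1). Then the centralizer of t in G is the subgroup generated by U together with the root subgroups X_{−p} for the fundamental roots p orthogonal to r — all fundamental roots except p₂ for E₆, except p₁ for E₇, except p₈ for E₈ (numbering with p₁–p₃–p₄–…–p_l the long chain and p₂ joined to p₄); the indices of these negative fundamental roots are 15, 29, 32, 34, 35 (E₆), 47, 52, 56, 59, 61, 62 (E₇), 77, 98, 104, 109, 113, 116, 118 (E₈). (This is the unipotent radical of the corresponding maximal parabolic subgroup extended by the root subgroups of its Levi factor, of type A₅, D₆, E₇ respectively.) -/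
theorem result {F : Type*} [Field F] [Fintype F] [CharP F 2] (d : Cfsg.Lie.ChevalleyDatum × List ℕ)
    (hd : d ∈ [(Cfsg.Lie.chevE6, [15, 29, 32, 34, 35]), (Cfsg.Lie.chevE7, [47, 52, 56, 59, 61, 62]), (Cfsg.Lie.chevE8, [77, 98, 104, 109, 113, 116, 118])])
    (t : GL d.1.Idx F) (ht : (t : Matrix d.1.Idx d.1.Idx F) = d.1.x F (d.1.nroots - 1) 1) :
    d.1.group F ⊓ Subgroup.centralizer {t} = d.1.posUnipotent F ⊔ Subgroup.closure {g : GL d.1.Idx F | ∃ s ∈ d.2, ∃ c : F, (g : Matrix d.1.Idx d.1.Idx F) = d.1.x F s c} := by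
  simp only [List.mem_cons, List.not_mem_nil, or_false] at hd
  rcases hd with rfl | rfl | rfl
  · exact aux 1 (by decide) (by decide +kernel) (by decide +kernel) (by decide +kernel) t ht
  · exact aux 0 (by decide) (by decide +kernel) (by decide +kernel) (by decide +kernel) t ht
  · exact aux 7 (by decide) (by decide +kernel) (by decide +kernel) (by decide +kernel) t ht

end Cfsg.Agent.S2209
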