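import Cfsg.Statements.S2221
import Cfsg.Agent.Sym.SylowDec

set_option autoImplicit false
open Cfsg

namespace Cfsg.Agent.S2221
open Equiv Equiv.Perm Subgroup MulAction Cfsg.Agent.Sym

theorem exists_pairs {m : ℕ} (hm : m % 2 = 0) (Q : Sylow 2 (Perm (Fin m))) :
    ∃ π : Fin m → Fin m, (∀ a, π a ≠ a) ∧ (∀ a, π (π a) = a) ∧
      ∀ a, swap a (π a) ∈ (Q : Subgroup (Perm (Fin m))) := by
  obtain ⟨R⟩ : Nonempty (Sylow 2 (Perm (Fin (m / 2)))) := inferInstance
  obtain ⟨ι, h⟩ := exists_eq_wr (by simp) Q R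
  let e := Equiv.ofBijective ι ((Fintype.bijective_iff_injective_and_card _).2
    ⟨ι.injective, by simp; omega⟩)
  refine ⟨fun a => e ((e.symm a).1, (e.symm a).2 + 1), fun a => ?_, fun a => ?_, fun a => ?_⟩
  all_goals obtain ⟨⟨i, s⟩, rfl⟩ := e.surjective a
  · simp
  · simp [zmod_two_add_one_add_one]
  · simp only [symm_apply_apply]
    rw [h]
    rcases zmod_two_cases 0 s with rfl | rfl
    · exact swap_mem_wr ι _ i
    · rw [swap_comm]
      exact swap_mem_wr ι _ i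

theorem exists_trans {m k : ℕ} (hm : m = 2 ^ (k + 1) + 1) (Q : Sylow 2 (Perm (Fin m))) {b : Fin m}
    (hb : ∀ g ∈ Q, g b = b) (a c : Fin m) (ha : a ≠ b) (hc : c ≠ b) :
    ∃ τ ∈ (Q : Subgroup (Perm (Fin m))), τ a = c := by
  obtain ⟨g, hg⟩ := (exists_with_cycleType_iff (Fin m) (m := {2 ^ (k + 1)})).2
    ⟨by simp [hm], by simpa using Nat.le_self_pow (by omega) 2⟩
  have h1 : IsPGroup 2 (zpowers g) := IsPGroup.of_card (n := k + 1) (by
    rw [Nat.card_zpowers, ← lcm_cycleType, hg]; simp)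
  obtain ⟨R, hR⟩ := h1.exists_le_sylow
  obtain ⟨h, rfl⟩ := exists_smul_eq (Perm (Fin m)) R Q
  have h2 : h * g * h⁻¹ ∈ h • R := ⟨g, hR (mem_zpowers g), rfl⟩
  have h3 : (h * g * h⁻¹).cycleType = {2 ^ (k + 1)} := by rw [cycleType_conj, hg]
  have h4 : (h * g * h⁻¹).support = Finset.univ.erase b := by
    refine Finset.eq_of_subset_of_card_le (fun x hx => ?_) ?_
    · simp only [Finset.mem_erase, Finset.mem_univ, and_true]
      rintro rfl
      exact mem_support.1 hx (hb _ h2)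
    · rw [← sum_cycleType, h3, Finset.card_erase_of_mem (Finset.mem_univ _)]
      simp [hm]
  obtain ⟨i, hi⟩ := (card_cycleType_eq_one.1 (by rw [h3]; rfl)).exists_pow_eq
    (mem_support.1 (h4 ▸ by simpa using ha : a ∈ (h * g * h⁻¹).support))
    (mem_support.1 (h4 ▸ by simpa using hc : c ∈ (h * g * h⁻¹).support))
  exact ⟨_, pow_mem h2 i, hi⟩


/-- Direct decomposability of the Sylow 2-subgroups of the alternating groups. Let n ≥ 4 and let P be a Sylow 2-subgroup of the alternating group of degree n. Then P is the internal direct product of two nontrivial subgroups if and only if n = 4, n = 5, or n ≡ 2, 3 (mod 4) with 4⌊n/4⌋ not a power of 2. In the remaining cases (n ≡ 0, 1 (mod 4) with n ≥ 8, or n ≡ 2, 3 (mod 4) with 4⌊n/4⌋ a power of 2) P is directly indecomposable. -/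
theorem result (n : ℕ) (hn : 4 ≤ n)
    (P : Sylow 2 (alternatingGroup (Fin n))) :
    (∃ S₁ S₂ : Subgroup (alternatingGroup (Fin n)), S₁ ≠ ⊥ ∧ S₂ ≠ ⊥ ∧
        Cfsg.IsInternalDirectProduct S₁ S₂ (P : Subgroup (alternatingGroup (Fin n)))) ↔
      (n = 4 ∨ n = 5 ∨ ((n % 4 = 2 ∨ n % 4 = 3) ∧ ∀ r : ℕ, 4 * (n / 4) ≠ 2 ^ r)) := by
  obtain ⟨T, hT⟩ := exists_sylow_subgroupOf_eq P
  obtain ⟨Q⟩ : Nonempty (Sylow 2 (Perm (Fin (n / 2)))) := inferInstance
  obtain ⟨ι, hι⟩ := exists_eq_wr (by simp) T Q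
  have hP : (P : Subgroup (alternatingGroup (Fin n))).map (alternatingGroup (Fin n)).subtype =
      wrA ι (Q : Subgroup (Perm (Fin (n / 2)))) := by
    rw [← hT, subgroupOf_map_subtype, hι, wrA]
  have hW : IsPGroup 2 (wrA ι (Q : Subgroup (Perm (Fin (n / 2))))) := by
    rw [wrA, ← hι]; exact T.isPGroup'.to_inf_left
  change IsDec _ ↔ _
  rw [← isDec_map_iff (subtype_injective _), hP]
  by_cases h2 : n / 2 = 2
  · haveI : Nontrivial (Fin (n / 2)) := Fin.nontrivial_iff_two_le.2 h2.ge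
    refine iff_of_true (isDec_wrA_of_card_eq_two (by simpa using h2) fun h => ?_) (by omega)
    exact sylow_two_not_le_alternatingGroup Q (h ▸ bot_le)
  have h3 : 3 ≤ Fintype.card (Fin (n / 2)) := by simp; omega
  by_cases he : n / 2 % 2 = 0
  · obtain ⟨π, h1, h2, hQ⟩ := exists_pairs he Q
    exact iff_of_false (not_isDec_wrA_of_pairs h3 hW h1 h2 hQ) (by omega)
  obtain ⟨b, hb⟩ := Q.isPGroup'.nonempty_fixed_point_of_prime_not_dvd_card (Fin (n / 2))
    (by simp; omega)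
  have hb' : ∀ g ∈ Q, g b = b := fun g hg => hb ⟨g, hg⟩
  by_cases hr : ∀ r : ℕ, 4 * (n / 4) ≠ 2 ^ r
  · refine iff_of_true ?_ (Or.inr (Or.inr ⟨by omega, hr⟩))
    obtain ⟨a, ha⟩ := exists_not_mem_of_card_lt (s := {b}) (by simp; omega)
    rw [Finset.mem_singleton] at ha
    have hba : b ∉ orbit (Q : Subgroup (Perm (Fin (n / 2)))) a := by
      rintro ⟨g, hg⟩
      exact ha (g.1.injective ((show g.1 a = b from hg).trans (hb' _ g.2).symm))
    obtain ⟨c, hc, hcb⟩ : ∃ c, c ∉ orbit (Q : Subgroup (Perm (Fin (n / 2)))) a ∧ c ≠ b := by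
      by_contra! h
      obtain ⟨k, hk⟩ := exists_ncard_orbit_eq_pow Q.isPGroup' a
      have : orbit (Q : Subgroup (Perm (Fin (n / 2)))) a = {b}ᶜ := by
        ext x
        exact ⟨fun hx e => hba (e ▸ hx), fun hx => by_contra fun hx' => hx (h x hx')⟩
      have h1 := Set.ncard_add_ncard_compl ({b} : Set (Fin (n / 2)))
      rw [← this, hk] at h1
      simp only [Set.ncard_singleton, Nat.card_eq_fintype_card, Fintype.card_fin] at h1
      exact hr (k + 1) (by omega)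
    rw [wrA, ← hι]
    have hsw : ∀ i, swap (ι (i, 0)) (ι (i, 1)) ∈ T := fun i => by
      change _ ∈ (T : Subgroup (Perm (Fin n)))
      rw [hι]; exact swap_mem_wr ι _ i
    have hmem : ∀ g ∈ T, ∃ σ ∈ Q, ∃ v, g = wrEmb ι σ v := fun g hg => by
      change _ ∈ (T : Subgroup (Perm (Fin n))) at hg
      rwa [hι] at hg
    have hΔ : ∀ i s, (∃ j ∈ orbit (Q : Subgroup (Perm (Fin (n / 2)))) a, ∃ t, ι (i, s) = ι (j, t)) ↔
        i ∈ orbit (Q : Subgroup (Perm (Fin (n / 2)))) a := fun i s =>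
      ⟨fun ⟨j, hj, t, e⟩ => by rwa [show i = j from congrArg Prod.fst (ι.injective e)],
        fun h => ⟨i, h, s, rfl⟩⟩
    refine isDec_of_central_swap T
      (fun z => ∃ j ∈ orbit (Q : Subgroup (Perm (Fin (n / 2)))) a, ∃ t, z = ι (j, t))
      (fun g hg z => ?_) (by simp) (by simp) (by simp) (by rwa [hΔ]) (by rwa [hΔ])
      ((hΔ _ _).2 (mem_orbit_self a)) ((hΔ _ _).2 (mem_orbit_self a)) (by rwa [hΔ]) (by rwa [hΔ])
      (by simp [hcb]) (by simp) (hsw b) (hsw a) (hsw c) fun g hg => ?_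
    · obtain ⟨σ, hσ, v, rfl⟩ := hmem g hg
      by_cases hz : z ∈ Set.range ι
      · obtain ⟨⟨i, s⟩, rfl⟩ := hz
        rw [wrEmb_apply, hΔ, hΔ]
        exact mem_stabilizer_set.1 (le_stabilizer_orbit _ a hσ) i
      · rw [wrEmb_apply_of_not_mem ι σ v hz]
    · obtain ⟨σ, hσ, v, rfl⟩ := hmem g hg
      rw [swap_eq_wrEmb, Commute, SemiconjBy, wrEmb_mul, wrEmb_mul]
      congr 1
      funext i
      have : σ i = b ↔ i = b := by
        rw [← σ.injective.eq_iff (a := i), hb' σ hσ]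
      simp [Pi.single_apply, this, add_comm]
  · refine iff_of_false ?_ (by rintro (h | h | h); exacts [by omega, by omega, hr h.2])
    push Not at hr
    obtain ⟨r, hr⟩ := hr
    obtain ⟨k, rfl⟩ : ∃ k, r = k + 2 := by
      rcases r with _ | _ | k
      · omega
      · omega
      · exact ⟨k, rfl⟩
    rw [pow_succ] at hr
    exact not_isDec_wrA_of_trans h3 hW b (exists_trans (k := k) (by omega) Q hb')

end Cfsg.Agent.S2221
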