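import Cfsg.Statements.S2227
import Cfsg.Agent.Chev.E6Five2
import Cfsg.Agent.S1066
import Cfsg.Agent.S0256

set_option autoImplicit false
open Cfsg

namespace Cfsg.Agent.S2227

open Cfsg.Agent.Chev Cfsg.Agent.Chev.E6F Cfsg.Lie Cfsg.Lie.ChevalleyDatum

/-- Centralisers correspond under an isomorphism. -/
def cenEquiv {G H : Type*} [Group G] [Group H] (e : G ≃* H) (x : G) :
    Subgroup.centralizer ({x} : Set G) ≃* Subgroup.centralizer ({e x} : Set H) :=
  (e.subgroupMap _).trans (MulEquiv.subgroupCongr (by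
    ext y
    obtain ⟨y, rfl⟩ := e.surjective y
    simp [Subgroup.mem_centralizer_singleton_iff, ← map_mul]))


attribute [-instance] Cfsg.Agent.Cl.iso_fact_prime_five in
/-- In the twisted group ²E₆(2) all elements of order 5 are conjugate, and the centralizer of an element of order 5 is isomorphic to the direct product of a cyclic group of order 5 with the alternating group of degree 8. -/
theorem result {K : Type*} [Field K] [Fintype K] (hK : Fintype.card K = 4) :
    (∀ x y : ↥(Cfsg.Lie.twistedE6 K 2), orderOf x = 5 → orderOf y = 5 → IsConj x y) ∧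
      ∀ x : ↥(Cfsg.Lie.twistedE6 K 2), orderOf x = 5 →
        Nonempty (↥(Subgroup.centralizer ({x} : Set ↥(Cfsg.Lie.twistedE6 K 2))) ≃* (Multiplicative (ZMod 5) × ↥(alternatingGroup (Fin 8)))) := by
  have hq : IsPrimePow 2 := Nat.prime_two.isPrimePow
  have hK' : Fintype.card K = 2 ^ 2 := hK
  have hN := S1066.result hq hK'
  obtain ⟨f, hf⟩ := tw_exists_frob (K := K) hq (by decide) hK'
  rw [← twE6_G1 hK' hf] at hN ⊢
  obtain ⟨φ, hφ, hL, hS⟩ := grE6.exists_frob_data (stTor_injective_E6 _) (twE6 f) rfl hq hK' hf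
  have : CharP K 2 := charP_of_card_eq_prime_pow (p := 2) hK'
  obtain ⟨ζ, hζ⟩ := exists_primitiveRoot_units (AlgebraicClosure K) (N := 5) (by
    rw [Ne, CharP.cast_eq_zero_iff _ 2]; decide)
  have hj := (fieldHom_injective chevE6 (algebraMap K (AlgebraicClosure K))).comp
    (Subgroup.inclusion_injective (twE6 f).G1_le_group)
  obtain ⟨e₁⟩ : Nonempty (_ ≃* fixG (tau φ wd1)) := nonempty_equiv_fixG hL _ _ hj hS
  obtain ⟨e₂⟩ : Nonempty (_ ≃* fixG (tau φ [0])) := nonempty_equiv_fixG hL _ _ hj hS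
  have : Finite (fixG (tau φ wd1)) := Finite.of_equiv _ e₁.toEquiv
  have h1 : ∀ x y : (twE6 f).G1, orderOf x = 5 → orderOf y = 5 → IsConj x y := fun x y hx hy => by
    have := e₁.symm.toMonoidHom.map_isConj (isConj_of_orderOf hφ hζ (x := e₁ x) (y := e₁ y) (fun h => by
      rw [← Nat.card_congr e₁.toEquiv] at h
      have := dvd_mul_of_dvd_right h (Nat.gcd 3 (2 + 1))
      rw [hN] at this
      revert this; norm_num) (by simpa using hx) (by simpa using hy))
    simpa using this
  refine ⟨h1, fun x hx => ?_⟩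
  obtain ⟨y, hy, ⟨e₃⟩⟩ := exists_cent hζ hφ
  obtain ⟨e₄⟩ := S0256.result (F := ZMod 2) (ZMod.card 2)
  obtain ⟨c, hc⟩ := isConj_iff.1 (h1 x (e₂.symm y) hx (by simpa using hy))
  have e₅ := cenEquiv ((MulAut.conj c).trans e₂) x
  rw [MulEquiv.trans_apply, MulAut.conj_apply, hc, MulEquiv.apply_symm_apply] at e₅
  exact ⟨(e₅.trans e₃).trans (MulEquiv.prodCongr (MulEquiv.refl _) ((QuotientGroup.quotientBot.symm.trans
    (QuotientGroup.quotientMulEquivOfEq center_sl4.symm)).trans e₄))⟩

end Cfsg.Agent.S2227
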