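import Mathlib
import Cfsg.Statements.S2231
import Cfsg.Agent.GT.PStable
import Cfsg.Agent.Cl.PSL2Struct

set_option autoImplicit false
open Cfsg

namespace Cfsg.Agent.S2231


/-- upper unitriangular matrices of `SL₃` -/
def utri (R : Type) [CommRing R] : Subgroup (Matrix.SpecialLinearGroup (Fin 3) R) where
  carrier := {M | ∃ a b c : R, (M : Matrix (Fin 3) (Fin 3) R) = !![1, a, b; 0, 1, c; 0, 0, 1]}
  one_mem' := ⟨0, 0, 0, by
    ext i j; fin_cases i <;> fin_cases j <;> simp⟩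
  mul_mem' := by
    rintro M N ⟨a, b, c, h⟩ ⟨a', b', c', h'⟩
    refine ⟨a + a', b' + a * c' + b, c + c', ?_⟩
    rw [Matrix.SpecialLinearGroup.coe_mul, h, h']
    ext i j; fin_cases i <;> fin_cases j <;> simp [Matrix.mul_apply, Fin.sum_univ_three] <;> ring
  inv_mem' := by
    rintro M ⟨a, b, c, h⟩
    refine ⟨-a, a * c - b, -c, ?_⟩
    rw [Matrix.SpecialLinearGroup.coe_inv, h]
    ext i j; fin_cases i <;> fin_cases j <;> simp [Matrix.adjugate_fin_three]

theorem utri_pow {p : ℕ} [hp : Fact p.Prime] (h2 : p ≠ 2)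
    (M : Matrix.SpecialLinearGroup (Fin 3) (ZMod p)) (hM : M ∈ utri (ZMod p)) : M ^ p = 1 := by
  obtain ⟨a, b, c, h⟩ := hM
  apply Subtype.ext
  rw [Matrix.SpecialLinearGroup.coe_pow, Matrix.SpecialLinearGroup.coe_one]
  have h3 : ((M : Matrix (Fin 3) (Fin 3) (ZMod p)) - 1) ^ 3 = 0 := by
    rw [h]
    ext i j; fin_cases i <;> fin_cases j <;>
      simp [pow_succ, Matrix.mul_apply, Fin.sum_univ_three, Matrix.one_apply]
  have hp3 : 3 ≤ p := by
    have := hp.out.two_le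
    omega
  have hz : ((M : Matrix (Fin 3) (Fin 3) (ZMod p)) - 1) ^ p = 0 := by
    obtain ⟨k, hk⟩ := Nat.exists_eq_add_of_le hp3
    rw [show ((M : Matrix (Fin 3) (Fin 3) (ZMod p)) - 1) ^ p =
      ((M : Matrix (Fin 3) (Fin 3) (ZMod p)) - 1) ^ (3 + k) by rw [← hk], pow_add, h3, zero_mul]
  rw [sub_pow_char_of_commute _ (Commute.one_right _), one_pow, sub_eq_zero] at hz
  exact hz

theorem utri_le_qd (p : ℕ) : utri (ZMod p) ≤ Cfsg.qd p := by
  rintro M ⟨a, b, c, h⟩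
  apply Subgroup.subset_closure
  simp [h]


/-- Let p be an odd prime and K a finite field of characteristic p. Then Qd(p) (the natural semidirect product of an elementary abelian group of order p² by SL₂(p)) is not involved in the projective special linear group PSL₂(K). -/
theorem result {p : ℕ} [Fact p.Prime] (hp : p ≠ 2) {K : Type*} [Field K] [Fintype K] [CharP K p] : ¬ Cfsg.Involves ↥(Cfsg.qd p) (Matrix.ProjectiveSpecialLinearGroup (Fin 2) K) := by
  intro h
  have hc := Cfsg.Agent.GT.isMulCommutative_of_involves (q := p) h (by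
    intro T
    obtain ⟨x, hx⟩ := Cfsg.Agent.Cl.L2.exists_sylow_eq_uniS p T
    refine ⟨⟨fun a b => Subtype.ext ?_⟩⟩
    exact Cfsg.Agent.Cl.L2.uniS_comm (x := x) (hx ▸ a.2) (hx ▸ b.2))
    ((utri (ZMod p)).subgroupOf (Cfsg.qd p)) (by
      intro g
      refine ⟨1, Subtype.ext (Subtype.ext ?_)⟩
      rw [pow_one]
      exact utri_pow hp _ g.2)
  let x : Matrix.SpecialLinearGroup (Fin 3) (ZMod p) :=
    ⟨!![1, 1, 0; 0, 1, 0; 0, 0, 1], by simp [Matrix.det_fin_three]⟩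
  let y : Matrix.SpecialLinearGroup (Fin 3) (ZMod p) :=
    ⟨!![1, 0, 0; 0, 1, 1; 0, 0, 1], by simp [Matrix.det_fin_three]⟩
  have hx : x ∈ utri (ZMod p) := ⟨1, 0, 0, rfl⟩
  have hy : y ∈ utri (ZMod p) := ⟨0, 0, 1, rfl⟩
  have := hc.is_comm.comm ⟨⟨x, utri_le_qd p hx⟩, hx⟩ ⟨⟨y, utri_le_qd p hy⟩, hy⟩
  have h2 : x * y = y * x := congrArg Subtype.val (congrArg Subtype.val this)
  have h3 := congrArg (fun z : Matrix.SpecialLinearGroup (Fin 3) (ZMod p) => (z : Matrix (Fin 3) (Fin 3) (ZMod p)) 0 2) h2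
  simp only [Matrix.SpecialLinearGroup.coe_mul] at h3
  simp [x, y, Matrix.mul_apply, Fin.sum_univ_three] at h3

end Cfsg.Agent.S2231
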