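import Mathlib
import Cfsg.Statements.S2232
import Cfsg.Agent.Cl.U3
import Cfsg.Agent.GT.ThompsonQdGroup

set_option autoImplicit false
open Cfsg

namespace Cfsg.Agent.S2232

open Cfsg.Agent.Cl Cfsg.Agent.GT
open scoped commutatorElement

theorem trace_eq_of_pow {p : ℕ} [Fact p.Prime] {A : Matrix.SpecialLinearGroup (Fin 2) (ZMod p)}
    {k : ℕ} (h : A ^ p ^ k = 1) : A.1.trace = 2 := by
  have h1 : IsNilpotent (A.1 - 1) := ⟨p ^ k, by
    rw [sub_pow_char_pow_of_commute p k (Commute.one_right _), one_pow, sub_eq_zero]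
    exact congrArg Subtype.val h⟩
  have := (Matrix.isNilpotent_trace_of_isNilpotent h1).eq_zero
  rwa [Matrix.trace_sub, Matrix.trace_one, sub_eq_zero] at this

/-- If commutators of elements normalising a non-trivial `p`-subgroup are `p`-elements, then
`Qd(p)` is not involved. -/
theorem not_involves_qd {p : ℕ} [Fact p.Prime] {G : Type*} [Group G] [Finite G]
    (H : ∀ P : Subgroup G, IsPGroup p P → P ≠ ⊥ → ∀ a ∈ Subgroup.normalizer (P : Set G),
      ∀ b ∈ Subgroup.normalizer (P : Set G), ∃ k, ⁅a, b⁆ ^ p ^ k = 1) :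
    ¬ Involves ↥(qd p) G := by
  rintro ⟨K, R, _, ⟨e⟩⟩
  let D := qdAct p
  let f : K →* qd p := e.toMonoidHom.comp (QuotientGroup.mk' _)
  have hf : Function.Surjective f := e.surjective.comp (QuotientGroup.mk'_surjective _)
  let φ := D.φ.comp f
  have hφ : Function.Surjective φ := D.surj.comp hf
  obtain ⟨P⟩ := (inferInstance : Nonempty (Sylow p φ.ker))
  have h1 := Sylow.normalizer_sup_eq_top P
  have hP : (P : Subgroup φ.ker) ≠ ⊥ := by
    apply P.ne_bot_of_dvd_card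
    obtain ⟨g, hg⟩ := hf (D.θ (Pi.single 0 1))
    have h2 : g ∈ φ.ker := by
      rw [MonoidHom.mem_ker, MonoidHom.comp_apply, hg, ← D.mem_centralizer_iff]
      rintro _ ⟨v, rfl⟩
      rw [← D.add, ← D.add, add_comm]
    have h3 : orderOf (D.θ (Pi.single 0 1)) = p := orderOf_eq_prime
      (by rw [← D.nsmul, D.eq_one_iff]; ext i; simp) (by simp [D.eq_one_iff])
    rw [← hg] at h3
    exact h3.symm.dvd.trans ((orderOf_map_dvd f g).trans (φ.ker.orderOf_dvd_natCard h2))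
  have h4 : ∀ A, ∃ a ∈ Subgroup.normalizer (((P : Subgroup φ.ker).map φ.ker.subtype : Subgroup K) :
      Set K), φ a = A := fun A => by
    obtain ⟨g, rfl⟩ := hφ A
    obtain ⟨a, ha, b, hb, rfl⟩ := (Subgroup.mem_sup_of_normal_right).1 (h1 ▸ Subgroup.mem_top g)
    exact ⟨a, ha, by rw [map_mul, MonoidHom.mem_ker.1 hb, mul_one]⟩
  obtain ⟨a, ha, ha'⟩ := h4 ⟨!![1, 1; 0, 1], by simp [Matrix.det_fin_two]⟩
  obtain ⟨b, hb, hb'⟩ := h4 ⟨!![1, 0; 1, 1], by simp [Matrix.det_fin_two]⟩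
  obtain ⟨k, hk⟩ := H (((P : Subgroup φ.ker).map φ.ker.subtype).map K.subtype)
    ((P.2.map _).map _) (by
      rwa [Ne, Subgroup.map_eq_bot_iff_of_injective _ K.subtype_injective,
        Subgroup.map_eq_bot_iff_of_injective _ φ.ker.subtype_injective])
    a (Subgroup.le_normalizer_map _ ⟨a, ha, rfl⟩) b (Subgroup.le_normalizer_map _ ⟨b, hb, rfl⟩)
  have h5 : ⁅a, b⁆ ^ p ^ k = 1 := Subtype.ext hk
  have h6 := trace_eq_of_pow (k := k) (A := ⁅φ a, φ b⁆)
    (by rw [← map_commutatorElement, ← map_pow, h5, map_one])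
  have e1 : (φ a).1 = !![1, 1; 0, 1] := congrArg Subtype.val ha'
  have e2 : (φ b).1 = !![1, 0; 1, 1] := congrArg Subtype.val hb'
  simp [commutatorElement_def, Matrix.SpecialLinearGroup.coe_inv, e1, e2, Matrix.adjugate_fin_two,
    Matrix.trace_fin_two] at h6
  exact one_ne_zero (α := ZMod p) (by linear_combination h6)


/-- Let p be an odd prime, q a power of p and K a finite field with q² elements. Then Qd(p) (the natural semidirect product of an elementary abelian group of order p² by SL₂(p)) is not involved in the projective special unitary group PSU₃(q) realised over K. -/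
theorem result {p : ℕ} [Fact p.Prime] (hp : p ≠ 2) {K : Type*} [Field K] [Fintype K] [CharP K p] (n : ℕ) (hn : 1 ≤ n) (hK : Fintype.card K = (p ^ n) ^ 2) : ¬ Cfsg.Involves ↥(Cfsg.qd p) (Cfsg.PSU 3 K (p ^ n)) := by
  obtain ⟨σ, hq⟩ := exists_uField hK
  obtain ⟨D, -⟩ := hq.exists_u3Data_PSU
  have := D.finite
  refine not_involves_qd fun P hP hP1 a ha b hb => ?_
  obtain ⟨g, hg⟩ := D.exists_conj_le_range_u hP
  obtain ⟨⟨x, hx⟩, hx1⟩ := Subgroup.ne_bot_iff_exists_ne_one.1 hP1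
  have key : ∀ a ∈ Subgroup.normalizer (P : Set (PSU 3 K (p ^ n))), g * a * g⁻¹ ∈ D.B :=
    fun a ha => D.mem_B_of_conj_mem (hg x hx) (by simpa using hx1) (D.range_u_le_B (by
      simpa [mul_assoc] using hg _ ((Subgroup.mem_normalizer_iff.1 ha x).1 hx)))
  obtain ⟨x, s, hx⟩ := D.mem_B_iff.1 (key a ha)
  obtain ⟨y, t, hy⟩ := D.mem_B_iff.1 (key b hb)
  have h1 : g * ⁅a, b⁆ * g⁻¹ ∈ D.u.range := by
    rw [conjugate_commutatorElement, hx, hy]
    have h2 : ⁅D.u x * D.h s, D.u y * D.h t⁆ = D.u x * (D.h s * D.u y * (D.h s)⁻¹) *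
        (D.h t * (D.u x)⁻¹ * (D.h t)⁻¹) * (D.u y)⁻¹ := by
      rw [commutatorElement_def]
      simp only [mul_inv_rev, mul_assoc]
      rw [← mul_assoc (D.h t) (D.h s)⁻¹, ← ((Commute.all s t).map D.h).inv_left.eq, mul_assoc]
    rw [h2, ← map_inv D.u, ← map_inv D.u, D.h_conj, D.h_conj]
    exact ⟨_, by rw [← map_mul, ← map_mul, ← map_mul]⟩
  obtain ⟨k, hk⟩ := D.isPGroup_range_u (p := p) ⟨_, h1⟩
  refine ⟨k, ?_⟩
  have := congrArg Subtype.val hk
  simpa using this

end Cfsg.Agent.S2232
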