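import Mathlib
import Cfsg.Statements.S2239
import Cfsg.Agent.Chev.SzSubgroups
-- import your own Cfsg.Agent.* helpers here

set_option autoImplicit false
open Cfsg

namespace Cfsg.Agent.S2239

open Cfsg.Agent.Chev.Sz

/-- Subfield subgroups of the Suzuki group: let q = 2^(2m+1) and s = 2^(2k+1) with m, k ≥ 1 and 2k+1 dividing 2m+1 (so q is a power of s), both groups realised as stabilisers in SL₄ of the Suzuki–Tits ovoid. Then Sz(q) has a subgroup isomorphic to Sz(s), and any two subgroups of Sz(q) isomorphic to Sz(s) are conjugate. -/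
theorem result {F : Type*} [Field F] [Fintype F] {m : ℕ} (hm : 1 ≤ m) (hF : Fintype.card F = 2 ^ (2 * m + 1)) {K : Type*} [Field K] [Fintype K] {k : ℕ} (hk : 1 ≤ k) (hK : Fintype.card K = 2 ^ (2 * k + 1)) (hdiv : 2 * k + 1 ∣ 2 * m + 1) :
    (∃ S : Subgroup ↥(Cfsg.Sz F m), Nonempty (↥S ≃* ↥(Cfsg.Sz K k))) ∧
    ∀ S₁ S₂ : Subgroup ↥(Cfsg.Sz F m), Nonempty (↥S₁ ≃* ↥(Cfsg.Sz K k)) → Nonempty (↥S₂ ≃* ↥(Cfsg.Sz K k)) →
      ∃ g : ↥(Cfsg.Sz F m), S₂ = S₁.map (MulAut.conj g).toMonoidHom := by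
  have := SzF.of_card hm hF
  have := SzF.of_card hk hK
  constructor
  · obtain ⟨f⟩ := nonempty_ringHom (K := K) (F := F) hdiv
    exact ⟨(subMap k m f).range, ⟨(MonoidHom.ofInjective (subMap_injective f)).symm⟩⟩
  · have key : ∀ S : Subgroup (Cfsg.Sz F m), Nonempty (S ≃* Cfsg.Sz K k) →
        ∃ (F₀ : Subfield F) (_ : SzF F₀ k) (x : Cfsg.Sz F m),
          S.map (MulAut.conj x).toMonoidHom = (subMap k m F₀.subtype).range := by
      rintro S ⟨e⟩
      rcases subgroup_cases S with ⟨U, hU, hle⟩ | ⟨F₀, k', hk', x, -, h⟩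
      · have := hU.isSolvable_normalizer
        have : Group.IsSolvable S :=
          Group.isSolvable_of_isSolvable_injective (Subgroup.inclusion_injective hle)
        exact absurd (Group.isSolvable_of_surjective (f := e.toMonoidHom) e.surjective)
          (Group.IsPerfect.not_isSolvable _)
      · have h1 := card_range_subMap (k := k') (m := m) F₀.subtype
        rw [← h, Subgroup.card_map_of_injective (MulAut.conj x).injective, Nat.card_congr e.toEquiv,
          card_Sz] at h1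
        have h2 := card_Sz_inj h1 (by have := eight_le_card K; omega) (by have := eight_le_card F₀; omega)
        rw [card_F K, card_F F₀] at h2
        have h3 := Nat.pow_right_injective le_rfl h2
        obtain rfl : k = k' := by omega
        exact ⟨F₀, hk', x, h⟩
    intro S₁ S₂ h₁ h₂
    obtain ⟨F₁, hF₁, x₁, h₁⟩ := key S₁ h₁
    obtain ⟨F₂, hF₂, x₂, h₂⟩ := key S₂ h₂
    obtain rfl : F₁ = F₂ := subfield_eq_of_card_eq (by rw [card_F F₁, card_F F₂])
    refine ⟨x₂⁻¹ * x₁, ?_⟩
    ext g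
    have h3 := SetLike.ext_iff.mp (h₂.trans h₁.symm) (x₂ * g * x₂⁻¹)
    rw [mem_map_conj, mem_map_conj] at h3
    rw [mem_map_conj]
    simpa [mul_assoc] using h3

end Cfsg.Agent.S2239
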