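import Mathlib
import Cfsg.Statements.S2240
import Cfsg.Agent.Chev.SzSubgroups
-- import your own Cfsg.Agent.* helpers here

set_option autoImplicit false
open Cfsg

namespace Cfsg.Agent.S2240

open Cfsg.Agent.Chev.Sz

/-- Elementary abelian TI-subgroups of the Suzuki group: let q = 2^(2m+1) with m ≥ 1, the group realised as the stabiliser in SL₄ of the Suzuki–Tits ovoid, and n ≥ 2. There is an elementary abelian 2-subgroup E of order 2^n that is a TI-subgroup (every conjugate of E meeting E nontrivially is E itself) if and only if n divides 2m + 1. -/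
theorem result {F : Type*} [Field F] [Fintype F] {m : ℕ} (hm : 1 ≤ m) (hF : Fintype.card F = 2 ^ (2 * m + 1)) (n : ℕ) (hn : 2 ≤ n) :
    (∃ E : Subgroup ↥(Cfsg.Sz F m), Cfsg.IsElementaryAbelian 2 E ∧ Nat.card ↥E = 2 ^ n ∧
      ∀ x : ↥(Cfsg.Sz F m), E ⊓ E.map (MulAut.conj x).toMonoidHom ≠ ⊥ → x ∈ Subgroup.normalizer (E : Set ↥(Cfsg.Sz F m))) ↔ n ∣ 2 * m + 1 := by
  have := SzF.of_card hm hF
  constructor
  · rintro ⟨E, hE, hcard, hTI⟩
    obtain ⟨P, hP⟩ := exists_le_sylAt (IsPGroup.of_card hcard)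
    obtain ⟨y, rfl⟩ := exists_smul_inf_eq P
    have hZ : ∀ g ∈ E, ∃ b, g = y * ue 0 b * y⁻¹ := by
      intro g hg
      obtain ⟨b, hb⟩ := mem_cenZ_iff.mpr (⟨sylU_le_borel (mem_sylAt_smul_inf.mp (hP hg)), by
        rw [← pow_two, inv_conj_pow', hE.2 g hg]; simp⟩ :
        (y⁻¹ * g * y) • (inf : Ov F m) = inf ∧ (y⁻¹ * g * y) * (y⁻¹ * g * y) = 1)
      exact ⟨b, by rw [← hb]; group⟩
    have : Nontrivial E := Finite.one_lt_card_iff_nontrivial.mp
      (by rw [hcard]; exact Nat.one_lt_two_pow (by omega))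
    obtain ⟨⟨g, hg⟩, hg1⟩ := exists_ne (1 : E)
    obtain ⟨b, rfl⟩ := hZ g hg
    have hb : b ≠ 0 := by
      rintro rfl
      simp at hg1
    have hconj : ∀ (k : Fˣ) (t : F), (y * he k * y⁻¹) * (y * ue 0 t * y⁻¹) * (y * he k * y⁻¹)⁻¹ =
        (y * ue 0 (k * th F k * t) * y⁻¹ : Cfsg.Sz F m) := by
      intro k t
      rw [← mul_zero (k : F), ← he_conj_ue, mul_zero]
      group
    have hN : ∀ s : F, s ≠ 0 → y * ue 0 (s * b) * y⁻¹ ∈ E → ∃ k : Fˣ, k * th F k = s ∧
        ∀ t, y * ue 0 t * y⁻¹ ∈ E ↔ y * ue 0 (k * th F k * t) * y⁻¹ ∈ E := by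
      intro s hs h
      obtain ⟨k, rfl⟩ := mul_th_surjective s
      have hk : k ≠ 0 := left_ne_zero_of_mul hs
      refine ⟨Units.mk0 k hk, rfl, fun t => ?_⟩
      have := hTI (y * he (Units.mk0 k hk) * y⁻¹) (by
        rw [Subgroup.ne_bot_iff_exists_ne_one]
        refine ⟨⟨_, h, _, hg, hconj _ _⟩, fun h => ?_⟩
        simpa [hk, hb] using congrArg Subtype.val h)
      rw [← hconj]
      exact Subgroup.mem_normalizer_iff.mp this _
    let F₀ : Subfield F :=
      { carrier := {t | y * ue 0 (t * b) * y⁻¹ ∈ E}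
        mul_mem' := by
          intro s t hs ht
          by_cases h0 : s = 0
          · simp [h0]
          · obtain ⟨k, rfl, hk⟩ := hN s h0 hs
            simpa [mul_assoc] using (hk _).mp ht
        one_mem' := by simpa using hg
        add_mem' := by
          intro s t hs ht
          have := E.mul_mem hs ht
          rwa [conj_mul, ue_zero_mul, ← add_mul] at this
        zero_mem' := by simp
        neg_mem' := by
          intro s hs
          rwa [CharTwo.neg_eq]
        inv_mem' := by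
          intro s hs
          by_cases h0 : s = 0
          · simp [h0]
          · obtain ⟨k, rfl, hk⟩ := hN s h0 hs
            exact (hk _).mpr (by rwa [mul_inv_cancel_left₀ h0]) }
    obtain ⟨n', hn', hc⟩ := exists_card_subfield F₀
    have h1 : Nat.card F₀ = Nat.card E := by
      refine Nat.card_congr (Equiv.ofBijective (fun t : F₀ => (⟨_, t.2⟩ : E)) ⟨?_, ?_⟩)
      · intro s t h
        exact Subtype.ext (by simpa [hb] using congrArg Subtype.val h)
      · rintro ⟨g, hg⟩
        obtain ⟨c, rfl⟩ := hZ g hg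
        exact ⟨⟨c / b, show _ ∈ E by rwa [div_mul_cancel₀ _ hb]⟩, Subtype.ext (by simp [hb])⟩
    rw [hc, hcard] at h1
    rwa [← Nat.pow_right_injective le_rfl h1]
  · intro hdvd
    let _ : Algebra (ZMod 2) F := ZMod.algebra _ _
    have h2 := FiniteField.pow_finrank_eq_natCard 2 F
    rw [card_F F] at h2
    obtain ⟨f⟩ := FiniteField.nonempty_algHom_of_finrank_dvd (F := ZMod 2) (K := GaloisField 2 n)
      (L := F) (by rwa [Nat.pow_right_injective le_rfl h2, GaloisField.finrank 2 (by omega)])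
    let φ : Multiplicative (GaloisField 2 n) →* Cfsg.Sz F m :=
      MonoidHom.mk' (fun t => ue 0 (f t.toAdd)) (fun s t => by simp [ue_zero_mul])
    have hφ : Function.Injective φ := fun s t h =>
      Multiplicative.toAdd.injective (f.injective (ue_inj.mp h).2)
    refine ⟨φ.range, ⟨⟨⟨?_⟩⟩, ?_⟩, ?_, ?_⟩
    · rintro ⟨_, s, rfl⟩ ⟨_, t, rfl⟩
      exact Subtype.ext (ue_zero_comm _ _ _)
    · rintro _ ⟨s, rfl⟩
      rw [pow_two]
      exact ue_zero_mul_self _
    · rw [← Nat.card_congr (MonoidHom.ofInjective hφ).toEquiv, Nat.card_congr Multiplicative.toAdd,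
        GaloisField.card 2 n (by omega)]
    · intro x hx
      obtain ⟨⟨_, ⟨t, rfl⟩, _, ⟨s, rfl⟩, h⟩, h1⟩ := Subgroup.ne_bot_iff_exists_ne_one.mp hx
      change x * ue 0 (f s.toAdd) * x⁻¹ = ue 0 (f t.toAdd) at h
      have hs : f s.toAdd ≠ 0 := by
        intro h0
        rw [h0, ue_zero, mul_one, mul_inv_cancel] at h
        exact h1 (Subtype.ext h.symm)
      obtain ⟨c, d, k, rfl⟩ := mem_borel.mp (mem_borel_of_conj (ue_mem_sylU _ _) (by simpa using hs)
        (h ▸ ue_mem_sylU _ _))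
      rw [borel_conj_ue, ue_inj] at h
      have h3 : (k : F) * th F k = f (t.toAdd / s.toAdd) := by
        rw [map_div₀, eq_div_iff hs]
        simpa using h.2
      apply Subgroup.mem_normalizer_fintype
      rintro _ ⟨r, rfl⟩
      refine ⟨Multiplicative.ofAdd (t.toAdd / s.toAdd * r.toAdd), ?_⟩
      change ue 0 _ = _ * ue 0 (f r.toAdd) * _
      rw [borel_conj_ue, h3]
      simp

end Cfsg.Agent.S2240
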