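import Mathlib
import Cfsg.Statements.S2241
import Cfsg.Agent.Chev.SzLocal
-- import your own Cfsg.Agent.* helpers here

set_option autoImplicit false
open Cfsg

namespace Cfsg.Agent.S2241

open Cfsg.Agent.Chev.Sz

/-- Real 2-elements of the Suzuki group: with q = 2^(2m+1), m ≥ 1, and the group realised as the stabiliser in SL₄ of the Suzuki–Tits ovoid, a non-identity element of a Sylow 2-subgroup is conjugate to its inverse if and only if it is an involution; in particular no element of order 4 is conjugate to its inverse. -/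
theorem result {F : Type*} [Field F] [Fintype F] {m : ℕ} (hm : 1 ≤ m) (hF : Fintype.card F = 2 ^ (2 * m + 1)) (P : Sylow 2 ↥(Cfsg.Sz F m)) (g : ↥(Cfsg.Sz F m)) (hg : g ∈ (P : Subgroup ↥(Cfsg.Sz F m))) (h1 : g ≠ 1) :
    IsConj g g⁻¹ ↔ orderOf g = 2 := by
  have := SzF.of_card hm hF
  obtain ⟨Q, hQ⟩ := exists_sylAt P
  obtain ⟨x, rfl⟩ := exists_smul_inf_eq Q
  rw [hQ, mem_sylAt_smul_inf] at hg
  constructor
  · intro h
    obtain ⟨c, hc⟩ := isConj_iff.mp h
    obtain ⟨a, b, hab⟩ := hg
    have h2 : (ue a b : Cfsg.Sz F m) ≠ 1 := hab ▸ mt inv_conj_eq_one.mp h1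
    have h3 : (x⁻¹ * c * x) * ue a b * (x⁻¹ * c * x)⁻¹ = (ue a b)⁻¹ := by
      rw [← hab]
      calc _ = x⁻¹ * (c * g * c⁻¹) * x := by group
        _ = _ := by rw [hc]; group
    obtain ⟨c', d', k, hk⟩ := mem_borel.mp (mem_borel_of_conj (ue_mem_sylU a b) h2
      (h3 ▸ inv_mem (ue_mem_sylU a b)))
    rw [hk, borel_conj_ue, ue_inv, ue_inj] at h3
    have ha : a = 0 := by
      by_contra ha
      have hk1 : (k : F) = 1 := by simpa [ha] using h3.1
      have h4 := h3.2
      rw [hk1] at h4
      apply add_th_ne_one (c' / a)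
      have : th F a ≠ 0 := by simpa using ha
      rw [map_div₀]
      field_simp
      grind
    subst ha
    have h5 : g * g = 1 := by
      rw [← inv_conj_eq_one (x := x), ← ue_zero_mul_self b, ← hab]
      group
    exact orderOf_eq_prime (by rw [pow_two, h5]) h1
  · intro h
    have h5 : g * g = 1 := by rw [← pow_two, ← h, pow_orderOf_eq_one]
    rw [inv_eq_of_mul_eq_one_right h5]

end Cfsg.Agent.S2241
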