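import Mathlib
import Cfsg.Statements.S2244
import Cfsg.Agent.Chev.WeakClosed
import Cfsg.Agent.Chev.Good

set_option autoImplicit false
open Cfsg

namespace Cfsg.Agent.S2244

open Cfsg.Lie Cfsg.Lie.ChevalleyDatum Cfsg.Agent.Chev

theorem sep {F : Type*} [Field F] (D : ChevalleyDatum) [D.Good] (w : List (List ℕ)) {n : ℤ}
    (h1 : ∃ c : Fˣ, c ≠ 1) (hn : ∃ c : Fˣ, c ^ n ≠ 1)
    (h : ∀ i j : D.Nd, i ≠ j → (w.getD i []).getD j 0 < D.nroots ∧
      D.pairing ((w.getD i []).getD j 0) (D.simple j) = 0 ∧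
      D.pairing ((w.getD i []).getD j 0) (D.simple i) ∈ [1, n]) (i j : D.Nd) (hij : i ≠ j) :
    ∃ r : D.Rt, D.pairing r (D.sr j) = 0 ∧ ∃ c : Fˣ, c ^ D.pairing r (D.sr i) ≠ 1 := by
  obtain ⟨h2, h3, h4⟩ := h i j hij
  refine ⟨⟨_, h2⟩, h3, ?_⟩
  simp only [List.mem_cons, List.not_mem_nil, or_false] at h4
  rcases h4 with h4 | h4 <;> simpa only [sr_val, h4, zpow_one]

theorem exists_notMem {F : Type*} [Fintype F] (l : List F) (h : l.length < Fintype.card F) :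
    ∃ c, c ∉ l := by
  classical
  by_contra! h1
  exact (Finset.card_le_card fun x _ => List.mem_toFinset.2 (h1 x)).not_gt
    ((List.toFinset_card_le l).trans_lt h)

/-- Weakly closed unipotent subgroups of Chevalley groups: let G be the Chevalley group of type G₂, B₂, D₄, F₄, E₆, E₇ or E₈ over a finite field F (the matrix group generated by the root elements), with |F| ≠ 2, and |F| ≠ 3 as well for the types G₂, B₂, D₄, F₄. Let U be the subgroup generated by the positive root subgroups. If X ≤ U is weakly closed in U with respect to G (every G-conjugate of X lying in U equals X), then X is the unipotent radical U_J of a standard parabolic subgroup for some set J of fundamental roots. -/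
theorem result {F : Type*} [Field F] [Fintype F] (D : Cfsg.Lie.ChevalleyDatum) (hD : D ∈ [Cfsg.Lie.chevG2, Cfsg.Lie.chevB2, Cfsg.Lie.chevD4, Cfsg.Lie.chevF4, Cfsg.Lie.chevE6, Cfsg.Lie.chevE7, Cfsg.Lie.chevE8])
    (h2 : Fintype.card F ≠ 2) (h3 : D ∈ [Cfsg.Lie.chevG2, Cfsg.Lie.chevB2, Cfsg.Lie.chevD4, Cfsg.Lie.chevF4] → Fintype.card F ≠ 3)
    (X : Subgroup (GL D.Idx F)) (hXU : X ≤ D.posUnipotent F)
    (hwc : ∀ g ∈ D.group F, X.map (MulAut.conj g).toMonoidHom ≤ D.posUnipotent F → X.map (MulAut.conj g).toMonoidHom = X) :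
    ∃ J : Set ℕ, (∀ j ∈ J, j < D.rank) ∧ X = D.unipotentRadical F J := by
  have h0 := Fintype.one_lt_card (α := F)
  obtain ⟨c, hc⟩ := exists_notMem [(0 : F), 1] (by simp; omega)
  simp only [List.mem_cons, List.not_mem_nil, or_false, not_or] at hc
  have h1 : ∃ c : Fˣ, c ≠ 1 := ⟨Units.mk0 c hc.1, fun e => hc.2 (congrArg Units.val e)⟩
  have h1' : ∃ c : Fˣ, c ^ (1 : ℤ) ≠ 1 := by simpa using h1
  have h4 : Fintype.card F ≠ 3 → ∃ c : Fˣ, c ^ (2 : ℤ) ≠ 1 := fun h => by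
    obtain ⟨d, hd⟩ := exists_notMem [(0 : F), 1, -1] (by simp; omega)
    simp only [List.mem_cons, List.not_mem_nil, or_false, not_or] at hd
    exact ⟨Units.mk0 d hd.1, fun e => by simpa [zpow_ofNat, hd] using congrArg Units.val e⟩
  have := good_of_mem hD
  obtain ⟨hU, hs⟩ : D.UComm F ∧ ∀ i j : D.Nd, i ≠ j →
      ∃ r : D.Rt, D.pairing r (D.sr j) = 0 ∧ ∃ c : Fˣ, c ^ D.pairing r (D.sr i) ≠ 1 := by
    simp only [List.mem_cons, List.not_mem_nil, or_false] at hD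
    rcases hD with rfl | rfl | rfl | rfl | rfl | rfl | rfl
    · obtain ⟨d, hd⟩ := exists_notMem [(0 : F), 1, c] (by have := h3 (by simp); simp; omega)
      simp only [List.mem_cons, List.not_mem_nil, or_false, not_or] at hd
      exact ⟨uComm_G2 ⟨c, d, hc.1, hc.2, hd.1, hd.2.1, Ne.symm hd.2.2⟩,
        sep _ [[0, 9], [11, 0]] h1 h1' (by decide +kernel)⟩
    · exact ⟨uComm_B2 ⟨c, hc⟩, sep _ [[0, 7], [6, 0]] h1 (h4 (h3 (by simp))) (by decide +kernel)⟩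
    · exact ⟨uComm_of_sl slD4, sep _ [[0, 6, 18, 18], [10, 0, 5, 5], [13, 3, 0, 13],
        [12, 2, 12, 0]] h1 (h4 (h3 (by simp))) (by decide +kernel)⟩
    · exact ⟨uComm_F4 ⟨c, hc⟩, sep _ [[0, 15, 7, 7], [8, 0, 11, 4], [2, 5, 0, 2], [1, 1, 6, 0]]
        h1 h1' (by decide +kernel)⟩
    · exact ⟨uComm_of_sl slE6, sep _ [[0, 16, 16, 16, 18, 16], [1, 0, 1, 11, 1, 1],
        [22, 5, 0, 5, 7, 5], [2, 2, 8, 0, 8, 2], [3, 3, 10, 3, 0, 10], [4, 4, 9, 4, 4, 0]]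
        h1 h1' (by decide +kernel)⟩
    · exact ⟨uComm_of_sl slE7, sep _ [[0, 1, 33, 1, 1, 1, 1], [7, 0, 7, 7, 9, 7, 7],
        [2, 2, 0, 17, 2, 2, 2], [3, 11, 3, 0, 11, 3, 3], [4, 14, 4, 4, 0, 14, 4],
        [5, 12, 5, 5, 5, 0, 16], [6, 13, 6, 6, 6, 6, 0]] h1 h1' (by decide +kernel)⟩
    · exact ⟨uComm_of_sl slE8, sep _ [[0, 16, 14, 14, 14, 14, 14, 14], [7, 0, 15, 7, 7, 7, 7, 7],
        [21, 21, 0, 6, 6, 6, 6, 6], [5, 9, 9, 0, 5, 5, 5, 5], [4, 4, 4, 10, 0, 4, 4, 4],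
        [3, 3, 3, 3, 11, 0, 3, 3], [2, 2, 2, 2, 2, 12, 0, 2], [1, 1, 1, 1, 1, 1, 13, 0]]
        h1 h1' (by decide +kernel)⟩
  obtain ⟨J, rfl⟩ := eq_Q_of_weaklyClosed hU hs hXU fun g hg h x hx =>
    (hwc g hg (Subgroup.map_le_iff_le_comap.2 h)).le ⟨x, hx, rfl⟩
  refine ⟨Fin.val '' J, by rintro _ ⟨j, -, rfl⟩; exact j.2, ?_⟩
  rw [← rootBN_Q]
  congr 1
  ext i
  exact (Fin.val_injective.mem_set_image).symm

end Cfsg.Agent.S2244
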