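import Cfsg.Statements.S2245
import Cfsg.Agent.Sym.TwoOver

set_option autoImplicit false
open Cfsg

namespace Cfsg.Agent.S2245

open Subgroup Equiv MulAction Cfsg.Agent.Sym

theorem le_of_existsUnique {G : Type*} [Group G] [Finite G] {R H K : Subgroup G}
    (h : ∃! M : Subgroup G, IsCoatom M ∧ R ≤ M) (hH : IsCoatom H) (h1 : R ≤ H) (h2 : R ≤ K)
    (hK : K ≠ ⊤) : K ≤ H := by
  obtain ⟨M, hM, hle⟩ := (eq_top_or_exists_le_coatom K).resolve_left hK
  exact h.unique ⟨hM, h2.trans hle⟩ ⟨hH, h1⟩ ▸ hle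

/-- For n ≥ 5 with n ≠ 6, a Sylow 2-subgroup of the alternating group A_n lies in exactly one maximal subgroup of A_n if and only if n = 2^k + 1 for some k ≥ 2; the same holds for the symmetric group S_n. -/
theorem result (n : ℕ) (hn : 5 ≤ n) (h6 : n ≠ 6) :
    ((∀ R : Sylow 2 ↥(alternatingGroup (Fin n)), (∃! M : Subgroup ↥(alternatingGroup (Fin n)), IsCoatom M ∧ (R : Subgroup ↥(alternatingGroup (Fin n))) ≤ M) ↔ ∃ k : ℕ, 2 ≤ k ∧ n = 2 ^ k + 1) ∧
    (∀ R : Sylow 2 (Equiv.Perm (Fin n)), (∃! M : Subgroup (Equiv.Perm (Fin n)), IsCoatom M ∧ (R : Subgroup (Equiv.Perm (Fin n))) ≤ M) ↔ ∃ k : ℕ, 2 ≤ k ∧ n = 2 ^ k + 1)) := by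
  haveI : Nontrivial (Fin n) := Fin.nontrivial_iff_two_le.2 (by omega)
  have hk : (¬ ∃ k : ℕ, 2 ≤ k ∧ n = 2 ^ k + 1) → ∀ k, Fintype.card (Fin n) ≠ 2 ^ k + 1 := by
    intro h k e
    rw [Fintype.card_fin] at e
    refine h ⟨k, ?_, e⟩
    by_contra! hc
    interval_cases k <;> omega
  constructor
  · intro R
    obtain ⟨P, hP⟩ := exists_sylow_subgroupOf_eq R
    rw [← hP]
    constructor
    · intro h
      by_contra hc
      obtain ⟨H, K, h1, h2, -, h3, h4, h5⟩ := exists_two_overgroups_sylow_two (by simpa) (hk hc) P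
      have h6 := le_of_existsUnique h h3 (comap_mono h1) (comap_mono h2)
        (subgroupOf_eq_top.not.2 h4)
      refine h5 fun g hg => ?_
      obtain ⟨u, hu, hu'⟩ := exists_mem_alternatingGroup_mul
        (sylow_two_not_le_alternatingGroup P) g
      exact (mul_mem_cancel_right (h1 hu)).1 (h6 (x := ⟨_, hu'⟩) (mul_mem hg (h2 hu)))
    · rintro ⟨k, h2, e⟩
      obtain ⟨x, h3, h4⟩ := exists_le_stabilizer_of_card_eq_two_pow_add_one h2 (by simpa) P
      haveI := alternatingGroup.isPreprimitive_of_three_le_card (Fin n) (by simp; omega)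
      have h5 := IsPreprimitive.isCoatom_stabilizer_of_isPreprimitive
        (alternatingGroup (Fin n)) x
      refine ⟨_, ⟨h5, comap_mono h3⟩, fun M hM => ?_⟩
      rcases h4 (M.map (alternatingGroup (Fin n)).subtype) (fun g hg =>
        ⟨⟨g, hg.2⟩, hM.2 hg.1, rfl⟩) with h | h
      · exact (hM.1.le_iff_eq h5.1).1 (fun g hg => h ⟨g, hg, rfl⟩) |>.symm
      · refine absurd (eq_top_iff.2 fun g _ => ?_) hM.1.1
        obtain ⟨u, hu, e⟩ := h g.2
        exact (Subtype.ext e : u = g) ▸ hu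
  · intro P
    constructor
    · intro h
      by_contra hc
      obtain ⟨H, K, h1, h2, h3, -, h4, h5⟩ := exists_two_overgroups_sylow_two (by simpa) (hk hc) P
      exact h5 (le_of_existsUnique h h3 h1 h2 fun e => h4 (e ▸ le_top))
    · rintro ⟨k, h2, e⟩
      obtain ⟨x, h3, h4⟩ := exists_le_stabilizer_of_card_eq_two_pow_add_one h2 (by simpa) P
      have h5 := IsPreprimitive.isCoatom_stabilizer_of_isPreprimitive (Perm (Fin n)) x
      refine ⟨_, ⟨h5, h3⟩, fun M hM => ?_⟩
      rcases h4 M (inf_le_left.trans hM.2) with h | h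
      · exact (hM.1.le_iff_eq h5.1).1 h |>.symm
      · rcases eq_alternatingGroup_or_eq_top_of_le h with h | h
        · exact absurd (h ▸ hM.2) (sylow_two_not_le_alternatingGroup P)
        · exact absurd h hM.1.1

end Cfsg.Agent.S2245
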