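import Mathlib
import Cfsg.Statements.S2251
import Cfsg.Agent.Chev.SzSubgroups
-- import your own Cfsg.Agent.* helpers here

set_option autoImplicit false
open Cfsg

namespace Cfsg.Agent.S2251

open Cfsg.Agent.Chev.Sz

/-- The subgroups of the Suzuki group: with q = 2^(2m+1), m ≥ 1, r = 2^m and the group realised as the stabiliser in SL₄ of the Suzuki–Tits ovoid, every proper subgroup is contained in the normalizer of a Sylow 2-subgroup, or in the normalizer of a cyclic subgroup of order q − 1, q + 2r + 1 or q − 2r + 1, or in a subgroup isomorphic to a smaller Suzuki group Sz(s) with s = 2^(2k+1) ≥ 8 and 2k+1 a proper divisor of 2m+1. -/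
theorem result {F : Type*} [Field F] [Fintype F] {m : ℕ} (hm : 1 ≤ m) (hF : Fintype.card F = 2 ^ (2 * m + 1)) (M : Subgroup ↥(Cfsg.Sz F m)) (hM : M ≠ ⊤) :
    (∃ P : Sylow 2 ↥(Cfsg.Sz F m), M ≤ Subgroup.normalizer ((P : Subgroup ↥(Cfsg.Sz F m)) : Set ↥(Cfsg.Sz F m))) ∨
    (∃ U : Subgroup ↥(Cfsg.Sz F m), IsCyclic ↥U ∧ Nat.card ↥U ∈ ({2 ^ (2 * m + 1) - 1, 2 ^ (2 * m + 1) + 2 ^ (m + 1) + 1, 2 ^ (2 * m + 1) - 2 ^ (m + 1) + 1} : Set ℕ) ∧
      M ≤ Subgroup.normalizer (U : Set ↥(Cfsg.Sz F m))) ∨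
    (∃ (K : Type) (_ : Field K) (_ : Fintype K) (k : ℕ), 1 ≤ k ∧ k < m ∧ Fintype.card K = 2 ^ (2 * k + 1) ∧ 2 * k + 1 ∣ 2 * m + 1 ∧
      ∃ S : Subgroup ↥(Cfsg.Sz F m), Nonempty (↥S ≃* ↥(Cfsg.Sz K k)) ∧ M ≤ S) := by
  have := SzF.of_card hm hF
  rcases subgroup_cases M with ⟨U, hU, hle⟩ | ⟨F₀, k, hk, x, hd, h⟩
  · rcases isPart_iff'.mp hU with ⟨P, rfl⟩ | h
    · exact Or.inl ⟨P, hle⟩
    · exact Or.inr (Or.inl ⟨U, h.1, h.2, hle⟩)
  · right; right
    have hK := szF_galoisField (one_le_m F₀)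
    have := Fintype.ofFinite (GaloisField 2 (2 * k + 1))
    obtain ⟨e⟩ := nonempty_subEquiv (K := F₀) (F := GaloisField 2 (2 * k + 1))
    refine ⟨GaloisField 2 (2 * k + 1), inferInstance, inferInstance, k, one_le_m F₀, ?_,
      by rw [← Nat.card_eq_fintype_card, card_F], hd, M, ⟨?_⟩, le_rfl⟩
    · have h1 := Nat.le_of_dvd (by omega) hd
      by_contra h2
      have h3 : k = m := by omega
      subst h3
      apply hM
      apply Subgroup.eq_top_of_card_eq
      rw [← Subgroup.card_map_of_injective (f := (MulAut.conj x).toMonoidHom) (MulAut.conj x).injective,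
        h, card_range_subMap, card_Sz, card_F F₀, card_F F]
    · exact (((MulAut.conj x).subgroupMap M).trans (MulEquiv.subgroupCongr h)).trans
        ((MonoidHom.ofInjective (subMap_injective _)).symm.trans e)

end Cfsg.Agent.S2251
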