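import Cfsg.Statements.S2254
import Cfsg.Agent.Sym.Nilpotent

set_option autoImplicit false
open Cfsg

namespace Cfsg.Agent.S2254

/-- Let n ≡ 3 (mod 4). Then every nilpotent subgroup of the symmetric group on n letters has order at most 3 times the order of a Sylow 2-subgroup of the symmetric group on n − 3 letters; the bound is attained by a nilpotent subgroup isomorphic to the direct product of such a Sylow 2-subgroup with a cyclic group of order 3; and any two nilpotent subgroups attaining the bound are conjugate. -/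
theorem result  (n : ℕ) (hn : n % 4 = 3)
    (P : Sylow 2 (Equiv.Perm (Fin (n - 3)))) :
    (∀ N : Subgroup (Equiv.Perm (Fin n)), Group.IsNilpotent N → Nat.card N ≤ 3 * Nat.card P) ∧
    (∃ M : Subgroup (Equiv.Perm (Fin n)), Group.IsNilpotent M ∧ Nat.card M = 3 * Nat.card P ∧
      Nonempty (M ≃* (↥(P : Subgroup (Equiv.Perm (Fin (n - 3)))) × Multiplicative (ZMod 3)))) ∧
    (∀ N₁ N₂ : Subgroup (Equiv.Perm (Fin n)), Group.IsNilpotent N₁ → Group.IsNilpotent N₂ →
      Nat.card N₁ = 3 * Nat.card P → Nat.card N₂ = 3 * Nat.card P →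
      ∃ g : Equiv.Perm (Fin n), N₂ = N₁.map (MulAut.conj g).toMonoidHom) := by
  have hP : Nat.card P = Sym.t2 (n - 3) := by rw [Sym.card_sylow_two_perm, Fintype.card_fin]
  have h1 : ∀ N : Subgroup (Equiv.Perm (Fin n)), Group.IsNilpotent N →
      Nat.card N ≤ 3 * Nat.card P := fun N hN => by
    have := (Sym.card_le_of_isNilpotent n _ (Fintype.card_fin n) N hN).1
    rwa [Sym.gN, if_pos hn, ← hP] at this
  refine ⟨h1, ?_, fun N₁ N₂ _ _ c₁ c₂ => ?_⟩
  · obtain ⟨φ, hφ, -⟩ := Sym.exists_hom_prod_three (m := n - 3) (n := n) (by omega)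
    have hi : Function.Injective (φ.comp ((P : Subgroup _).subtype.prodMap (MonoidHom.id _))) :=
      hφ.comp ((Subgroup.subtype_injective _).prodMap Function.injective_id)
    haveI := P.2.isNilpotent
    refine ⟨_, Group.nilpotent_of_mulEquiv (MonoidHom.ofInjective hi), ?_,
      ⟨(MonoidHom.ofInjective hi).symm⟩⟩
    rw [← Nat.card_congr (MonoidHom.ofInjective hi).toEquiv, Nat.card_prod, mul_comm]
    simp
  · obtain ⟨m, rfl⟩ : ∃ m, n = 4 * m + 3 := ⟨n / 4, by omega⟩
    rw [hP] at h1 c₁ c₂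
    haveI : Fact (Nat.Prime 3) := ⟨by norm_num⟩
    obtain ⟨z₁, h₁⟩ := exists_prime_orderOf_dvd_card' (G := N₁) 3 (by simp [c₁])
    obtain ⟨z₂, h₂⟩ := exists_prime_orderOf_dvd_card' (G := N₂) 3 (by simp [c₂])
    rw [← Subgroup.orderOf_coe] at h₁ h₂
    have hk : Sym.t2 (4 * m) ≤ 2 ^ ((4 * m + 3 - 3).factorial.factorization 2 + 1) :=
      Nat.pow_le_pow_right two_pos (Nat.le_succ _)
    exact Sym.exists_conj_of_isNilpotent h1 c₁ c₂ z₁.2 z₂.2 h₂
      (Equiv.Perm.isConj_iff_cycleType_eq.2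
        ((Sym.isThreeCycle_of_isNilpotent (Fintype.card_fin _) c₁ hk z₁.2 h₁).trans
          (Sym.isThreeCycle_of_isNilpotent (Fintype.card_fin _) c₂ hk z₂.2 h₂).symm))

end Cfsg.Agent.S2254
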