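import Cfsg.Statements.S2255
import Cfsg.Agent.Sym.Nilpotent

set_option autoImplicit false
open Cfsg

namespace Cfsg.Agent.S2255

/-- Let n be a natural number not congruent to 3 modulo 4, with n ∉ {5, 6, 9}. Then every nilpotent subgroup of the alternating group on n letters has order at most the order of a Sylow 2-subgroup of the alternating group (so the nilpotent subgroups of largest order are exactly the Sylow 2-subgroups). -/
theorem result  (n : ℕ) (hn : n % 4 ≠ 3)
    (h5 : n ≠ 5) (h6 : n ≠ 6) (h9 : n ≠ 9)
    (N : Subgroup (alternatingGroup (Fin n))) (hN : Group.IsNilpotent N)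
    (P : Sylow 2 (alternatingGroup (Fin n))) :
    Nat.card N ≤ Nat.card P := by
  have := (Sym.card_le_of_isNilpotent n _ (Fintype.card_fin n) (N.map (Subgroup.subtype _))
    (Group.nilpotent_of_mulEquiv (N.equivMapOfInjective _ (Subgroup.subtype_injective _)))).2
    (Subgroup.map_subtype_le _)
  rw [Subgroup.card_map_of_injective (Subgroup.subtype_injective _)] at this
  rcases Nat.lt_or_ge n 2 with h | h
  · rw [Sym.gA, if_pos (by omega)] at this
    exact this.trans Nat.card_pos
  · have h1 := Sym.two_mul_card_sylow_two_alternating (by simpa using h) P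
    have h2 := Sym.two_mul_gA (n := n) (by omega)
    rw [Sym.gN, if_neg hn] at h2
    rw [Fintype.card_fin] at h1
    omega

end Cfsg.Agent.S2255
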