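import Cfsg.Statements.S2256
import Cfsg.Agent.Sym.Nilpotent

set_option autoImplicit false
open Cfsg

namespace Cfsg.Agent.S2256

/-- Let n ≡ 3 (mod 4) with n ≥ 7. Then every nilpotent subgroup of the alternating group on n letters has order at most 3 times the order of a Sylow 2-subgroup of the alternating group on n − 3 letters; the bound is attained by a nilpotent subgroup isomorphic to the direct product of such a Sylow 2-subgroup with a cyclic group of order 3; and any two nilpotent subgroups of the alternating group attaining the bound are conjugate in it. -/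
theorem result  (n : ℕ) (hn : n % 4 = 3) (h7 : 7 ≤ n)
    (P : Sylow 2 (alternatingGroup (Fin (n - 3)))) :
    (∀ N : Subgroup (alternatingGroup (Fin n)), Group.IsNilpotent N → Nat.card N ≤ 3 * Nat.card P) ∧
    (∃ M : Subgroup (alternatingGroup (Fin n)), Group.IsNilpotent M ∧ Nat.card M = 3 * Nat.card P ∧
      Nonempty (M ≃* (↥(P : Subgroup (alternatingGroup (Fin (n - 3)))) × Multiplicative (ZMod 3)))) ∧
    (∀ N₁ N₂ : Subgroup (alternatingGroup (Fin n)), Group.IsNilpotent N₁ → Group.IsNilpotent N₂ →
      Nat.card N₁ = 3 * Nat.card P → Nat.card N₂ = 3 * Nat.card P →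
      ∃ g : alternatingGroup (Fin n), N₂ = N₁.map (MulAut.conj g).toMonoidHom) := by
  have hP := Sym.two_mul_card_sylow_two_alternating (by simp; omega) P
  rw [Fintype.card_fin] at hP
  have h0 : ∀ N : Subgroup (alternatingGroup (Fin n)), Group.IsNilpotent N →
      Group.IsNilpotent (N.map (Subgroup.subtype _)) := fun N _ =>
    Group.nilpotent_of_mulEquiv (N.equivMapOfInjective _ (Subgroup.subtype_injective _))
  have h1 : ∀ N : Subgroup (alternatingGroup (Fin n)), Group.IsNilpotent N →
      Nat.card N ≤ 3 * Nat.card P := fun N hN => by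
    have := (Sym.card_le_of_isNilpotent n _ (Fintype.card_fin n) _ (h0 N hN)).2
      (Subgroup.map_subtype_le _)
    rw [Subgroup.card_map_of_injective (Subgroup.subtype_injective _)] at this
    have h2 := Sym.two_mul_gA (n := n) (by omega)
    rw [Sym.gN, if_pos hn] at h2
    omega
  refine ⟨h1, ?_, fun N₁ N₂ n₁ n₂ c₁ c₂ => ?_⟩
  · obtain ⟨φ, hφ, hs⟩ := Sym.exists_hom_prod_three (m := n - 3) (n := n) (by omega)
    let ψ : ↥(P : Subgroup (alternatingGroup (Fin (n - 3)))) × Multiplicative (ZMod 3) →* alternatingGroup (Fin n) :=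
      (φ.comp (((alternatingGroup _).subtype.comp (P : Subgroup _).subtype).prodMap
        (MonoidHom.id _))).codRestrict _ fun g => (hs _).trans (Equiv.Perm.mem_alternatingGroup.1 g.1.1.2)
    have hi : Function.Injective ψ := (MonoidHom.injective_codRestrict _ _ _).2
      (hφ.comp (((Subgroup.subtype_injective _).comp (Subgroup.subtype_injective _)).prodMap
        Function.injective_id))
    haveI := P.2.isNilpotent
    refine ⟨_, Group.nilpotent_of_mulEquiv (MonoidHom.ofInjective hi), ?_,
      ⟨(MonoidHom.ofInjective hi).symm⟩⟩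
    rw [← Nat.card_congr (MonoidHom.ofInjective hi).toEquiv, Nat.card_prod, mul_comm]
    simp
  · obtain ⟨m, rfl⟩ : ∃ m, n = 4 * m + 3 := ⟨n / 4, by omega⟩
    obtain ⟨k, hk⟩ := IsPGroup.iff_card.1 P.2
    rw [hk] at h1 c₁ c₂ hP
    haveI : Fact (Nat.Prime 3) := ⟨by norm_num⟩
    obtain ⟨z₁, h₁⟩ := exists_prime_orderOf_dvd_card' (G := N₁) 3 (by simp [c₁])
    obtain ⟨z₂, h₂⟩ := exists_prime_orderOf_dvd_card' (G := N₂) 3 (by simp [c₂])
    rw [← Subgroup.orderOf_coe] at h₁ h₂
    have key : ∀ N : Subgroup (alternatingGroup (Fin (4 * m + 3))), Group.IsNilpotent N →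
        Nat.card N = 3 * 2 ^ k → ∀ z ∈ N, orderOf z = 3 → z.1.IsThreeCycle := fun N hN c z hz h => by
      haveI := h0 N hN
      exact Sym.isThreeCycle_of_isNilpotent (N := N.map (Subgroup.subtype _)) (Fintype.card_fin _)
        (by rwa [Subgroup.card_map_of_injective (Subgroup.subtype_injective _)])
        (by rw [pow_succ', hP]; rfl) ⟨z, hz, rfl⟩ (by rwa [Subgroup.orderOf_coe])
    exact Sym.exists_conj_of_isNilpotent h1 c₁ c₂ z₁.2 z₂.2 h₂
      (alternatingGroup.isThreeCycle_isConj (by simp; omega) (key _ n₁ c₁ _ z₁.2 h₁)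
        (key _ n₂ c₂ _ z₂.2 h₂))

end Cfsg.Agent.S2256
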