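import Mathlib
import Cfsg.Statements.S2257
import Cfsg.Agent.Cl.PSL2Solub

set_option autoImplicit false
open Cfsg

set_option linter.unusedVariables false

namespace Cfsg.Agent.S2257

open Cfsg.Agent.Cl.L2 Matrix MulAction
open scoped MatrixGroups

/-- Let G = PSL_2(F) with F a field of order q = 2^p, p prime, and for x ∈ G call the solubilizer of x the set of y ∈ G such that x and y generate a solvable subgroup. Then the solubilizer of an involution has 3q(q − 1) elements; that of a non-identity element of order dividing q − 1 has 2q(q − 1) elements; and that of a non-identity element of order dividing q + 1 has 2(q + 1) elements. -/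
theorem result (p : ℕ) (hp : p.Prime) {F : Type*} [Field F] [Fintype F]
    (hF : Fintype.card F = 2 ^ p) (x : Matrix.ProjectiveSpecialLinearGroup (Fin 2) F) :
    (orderOf x = 2 → Nat.card {y : Matrix.ProjectiveSpecialLinearGroup (Fin 2) F // Group.IsSolvable ↥(Subgroup.closure ({x, y} : Set (Matrix.ProjectiveSpecialLinearGroup (Fin 2) F)))} = 3 * 2 ^ p * (2 ^ p - 1)) ∧
    (x ≠ 1 → orderOf x ∣ 2 ^ p - 1 → Nat.card {y : Matrix.ProjectiveSpecialLinearGroup (Fin 2) F // Group.IsSolvable ↥(Subgroup.closure ({x, y} : Set (Matrix.ProjectiveSpecialLinearGroup (Fin 2) F)))} = 2 * 2 ^ p * (2 ^ p - 1)) ∧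
    (x ≠ 1 → orderOf x ∣ 2 ^ p + 1 → Nat.card {y : Matrix.ProjectiveSpecialLinearGroup (Fin 2) F // Group.IsSolvable ↥(Subgroup.closure ({x, y} : Set (Matrix.ProjectiveSpecialLinearGroup (Fin 2) F)))} = 2 * (2 ^ p + 1)) := by
  rw [← Nat.card_eq_fintype_card] at hF
  have h := minS_two hp hF
  have h4 : 4 ≤ Nat.card F := hF ▸ Nat.pow_le_pow_right (n := 2) two_pos hp.two_le
  have h0 : Nat.card F % 2 = 0 := by
    rw [hF]; exact Nat.mod_eq_zero_of_dvd (dvd_pow_self 2 hp.ne_zero)
  have h2 := two_eq_zero_iff_even.2 h0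
  rw [card_sol, ← hF]
  refine ⟨fun hx => by rw [h.ncard_sol_char_two h4 h2 hx, mul_assoc], fun h1 hx => ?_,
    fun h1 hx => ?_⟩
  · have ht := tauS_ne_four_of_coprime h1 hx (Or.inl rfl)
    have h3 : orderOf x ≠ 2 := fun e => by rw [e] at hx; omega
    obtain ⟨a, ha⟩ : ∃ a : P1 F, x • a = a := by
      by_contra h5
      have h6 := orderOf_dvd_of_nofix fun y hy => h5 ⟨y, (emb_smul x y).symm.trans hy⟩
      rw [orderOf_emb, show Nat.card F + 1 = Nat.card F - 1 + 2 by omega, Nat.dvd_add_right hx,
        Nat.dvd_prime Nat.prime_two, orderOf_eq_one_iff] at h6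
      exact h6.elim h1 h3
    have := h.ncard_sol_fix h4 ht ha h3 fun h => absurd h2 h
    rwa [gcd_of_two_eq_zero h2, mul_one, ← mul_assoc] at this
  · have ht := tauS_ne_four_of_coprime h1 hx (Or.inr rfl)
    have h3 : orderOf x ≠ 2 := fun e => by rw [e] at hx; omega
    have := h.ncard_sol_nofix h4 (fun a ha => ?_) h3 fun h => absurd h2 h
    · rwa [gcd_of_two_eq_zero h2, mul_one] at this
    · have h6 := orderOf_dvd_of_fix ht ((emb_smul x a).trans ha)
      rw [orderOf_emb] at h6
      rw [show Nat.card F + 1 = Nat.card F - 1 + 2 by omega, Nat.dvd_add_right h6,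
        Nat.dvd_prime Nat.prime_two, orderOf_eq_one_iff] at hx
      exact hx.elim h1 h3

end Cfsg.Agent.S2257
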