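import Mathlib
import Cfsg.Statements.S2258
import Cfsg.Agent.Cl.PSL2Solub

set_option autoImplicit false
open Cfsg

set_option linter.unusedVariables false

namespace Cfsg.Agent.S2258

open Cfsg.Agent.Cl.L2 Matrix MulAction
open scoped MatrixGroups

/-- Let G = PSL_2(F) with F a field of order q = 3^p, p an odd prime, and for x ∈ G call the solubilizer of x the set of y ∈ G such that x and y generate a solvable subgroup. Then the solubilizer of an involution has q(q + 1) elements; that of an element of order 3 has q(q + 5)/2 elements; that of an element of order neither 1 nor 2 dividing q − 1 has q(q − 1) elements; and that of an element of order neither 1 nor 2 dividing q + 1 has q + 1 elements. -/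
theorem result (p : ℕ) (hp : p.Prime) (hodd : Odd p) {F : Type*} [Field F] [Fintype F]
    (hF : Fintype.card F = 3 ^ p) (x : Matrix.ProjectiveSpecialLinearGroup (Fin 2) F) :
    (orderOf x = 2 → Nat.card {y : Matrix.ProjectiveSpecialLinearGroup (Fin 2) F // Group.IsSolvable ↥(Subgroup.closure ({x, y} : Set (Matrix.ProjectiveSpecialLinearGroup (Fin 2) F)))} = 3 ^ p * (3 ^ p + 1)) ∧
    (orderOf x = 3 → 2 * Nat.card {y : Matrix.ProjectiveSpecialLinearGroup (Fin 2) F // Group.IsSolvable ↥(Subgroup.closure ({x, y} : Set (Matrix.ProjectiveSpecialLinearGroup (Fin 2) F)))} = 3 ^ p * (3 ^ p + 5)) ∧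
    (x ≠ 1 → orderOf x ≠ 2 → orderOf x ∣ 3 ^ p - 1 → Nat.card {y : Matrix.ProjectiveSpecialLinearGroup (Fin 2) F // Group.IsSolvable ↥(Subgroup.closure ({x, y} : Set (Matrix.ProjectiveSpecialLinearGroup (Fin 2) F)))} = 3 ^ p * (3 ^ p - 1)) ∧
    (x ≠ 1 → orderOf x ≠ 2 → orderOf x ∣ 3 ^ p + 1 → Nat.card {y : Matrix.ProjectiveSpecialLinearGroup (Fin 2) F // Group.IsSolvable ↥(Subgroup.closure ({x, y} : Set (Matrix.ProjectiveSpecialLinearGroup (Fin 2) F)))} = 3 ^ p + 1) := by
  rw [← Nat.card_eq_fintype_card] at hF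
  have h := minS_three hp hodd hF
  have h4 : 4 ≤ Nat.card F :=
    le_trans (by norm_num) (hF ▸ Nat.pow_le_pow_right (n := 3) three_pos hp.two_le)
  have h8 := pow_odd_mod (a := 3) (m := 8) rfl hodd
  have h9 : 3 ∣ Nat.card F := hF ▸ dvd_pow_self 3 hp.ne_zero
  rw [← hF] at h8
  have h2 : (2 : F) ≠ 0 := two_ne_zero_iff_odd.2 (by omega)
  have := Fact.mk Nat.prime_three
  have := charP_of_card hF
  rw [card_sol, ← hF]
  refine ⟨h.ncard_sol_inv_three h4 (by omega), h.ncard_sol_three h4 (by omega),
    fun h1 h3 hx => ?_, fun h1 h3 hx => ?_⟩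
  · have ht := tauS_ne_four_of_coprime h1 hx (Or.inl rfl)
    obtain ⟨a, ha⟩ : ∃ a : P1 F, x • a = a := by
      by_contra h5
      have h6 := orderOf_dvd_of_nofix fun y hy => h5 ⟨y, (emb_smul x y).symm.trans hy⟩
      rw [orderOf_emb, show Nat.card F + 1 = Nat.card F - 1 + 2 by omega, Nat.dvd_add_right hx,
        Nat.dvd_prime Nat.prime_two, orderOf_eq_one_iff] at h6
      exact h6.elim h1 h3
    have := h.ncard_sol_fix h4 ht ha h3 fun _ e => by rw [e] at hx; omega
    rw [gcd_of_two_ne_zero h2] at this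
    omega
  · have ht := tauS_ne_four_of_coprime h1 hx (Or.inr rfl)
    have := h.ncard_sol_nofix h4 (fun a ha => ?_) h3 fun _ e => by rw [e] at hx; omega
    · rw [gcd_of_two_ne_zero h2] at this
      omega
    · have h6 := orderOf_dvd_of_fix ht ((emb_smul x a).trans ha)
      rw [orderOf_emb] at h6
      rw [show Nat.card F + 1 = Nat.card F - 1 + 2 by omega, Nat.dvd_add_right h6,
        Nat.dvd_prime Nat.prime_two, orderOf_eq_one_iff] at hx
      exact hx.elim h1 h3

end Cfsg.Agent.S2258
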