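import Mathlib
import Cfsg.Statements.S2259
import Cfsg.Agent.Chev.SzSol2
import Cfsg.Agent.Chev.SzLie
-- import your own Cfsg.Agent.* helpers here

set_option autoImplicit false
open Cfsg

namespace Cfsg.Agent.S2259

open Cfsg.Agent.Chev.Sz

/-- Let G be the Suzuki group Sz(q), q = 2^(2m+1) with 2m + 1 prime and m ≥ 1, realised inside Sp_4(F) for F the field of order q, write r = 2^(m+1) (so r² = 2q), and for x ∈ G call the solubilizer of x the set of y ∈ G such that x and y generate a solvable subgroup. Then the solubilizer of an involution has q²(4q − 3) elements; that of an element of order 4 has q²(q + 3) elements; that of a non-identity element of order dividing q − 1 has 2q²(q − 1) elements; that of a non-identity element of order dividing q + r + 1 has 4(q + r + 1) elements; and that of a non-identity element of order dividing q − r + 1 has 4(q − r + 1) elements. -/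
theorem result {F : Type*} [Field F] [Fintype F] {m : ℕ} (hm : 1 ≤ m)
    (hp : (2 * m + 1).Prime) (hF : Fintype.card F = 2 ^ (2 * m + 1)) (x : ↥(Cfsg.Lie.Sz F (2 ^ (m + 1)))) :
    (orderOf x = 2 → Nat.card {y : ↥(Cfsg.Lie.Sz F (2 ^ (m + 1))) // Group.IsSolvable ↥(Subgroup.closure ({x, y} : Set (↥(Cfsg.Lie.Sz F (2 ^ (m + 1))))))} = (2 ^ (2 * m + 1)) ^ 2 * (4 * 2 ^ (2 * m + 1) - 3)) ∧
    (orderOf x = 4 → Nat.card {y : ↥(Cfsg.Lie.Sz F (2 ^ (m + 1))) // Group.IsSolvable ↥(Subgroup.closure ({x, y} : Set (↥(Cfsg.Lie.Sz F (2 ^ (m + 1))))))} = (2 ^ (2 * m + 1)) ^ 2 * (2 ^ (2 * m + 1) + 3)) ∧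
    (x ≠ 1 → orderOf x ∣ 2 ^ (2 * m + 1) - 1 →
      Nat.card {y : ↥(Cfsg.Lie.Sz F (2 ^ (m + 1))) // Group.IsSolvable ↥(Subgroup.closure ({x, y} : Set (↥(Cfsg.Lie.Sz F (2 ^ (m + 1))))))} = 2 * (2 ^ (2 * m + 1)) ^ 2 * (2 ^ (2 * m + 1) - 1)) ∧
    (x ≠ 1 → orderOf x ∣ 2 ^ (2 * m + 1) + 2 ^ (m + 1) + 1 → Nat.card {y : ↥(Cfsg.Lie.Sz F (2 ^ (m + 1))) // Group.IsSolvable ↥(Subgroup.closure ({x, y} : Set (↥(Cfsg.Lie.Sz F (2 ^ (m + 1))))))} = 4 * (2 ^ (2 * m + 1) + 2 ^ (m + 1) + 1)) ∧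
    (x ≠ 1 → orderOf x ∣ 2 ^ (2 * m + 1) - 2 ^ (m + 1) + 1 → Nat.card {y : ↥(Cfsg.Lie.Sz F (2 ^ (m + 1))) // Group.IsSolvable ↥(Subgroup.closure ({x, y} : Set (↥(Cfsg.Lie.Sz F (2 ^ (m + 1))))))} = 4 * (2 ^ (2 * m + 1) - 2 ^ (m + 1) + 1)) := by
  have := SzF.of_card hm hF
  obtain ⟨x, rfl⟩ := (szEquiv F m).surjective x
  have h : Nat.card {y : ↥(Cfsg.Lie.Sz F (2 ^ (m + 1))) // Group.IsSolvable
      ↥(Subgroup.closure ({szEquiv F m x, y} : Set (↥(Cfsg.Lie.Sz F (2 ^ (m + 1))))))} =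
      (solSet x).ncard := by
    rw [← ncard_solSet_map (szEquiv F m), ← Nat.card_coe_set_eq]
    rfl
  rw [h, MulEquiv.orderOf_eq, ← card_F F, Ne, MulEquiv.map_eq_one_iff]
  refine ⟨ncard_solSet_of_orderOf_two, ncard_solSet_of_orderOf_four, fun h1 h2 => ?_,
    fun h1 h2 => ?_, fun h1 h2 => ?_⟩
  · obtain ⟨P, Q, hPQ, h3⟩ := exists_mem_torAt_of_orderOf_dvd h2
    exact ncard_solSet_torAt hPQ h3 h1
  · have h3 := fpf_of_orderOf_dvd_tori h1 (Or.inl rfl) h2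
    rw [h3.ncard_solSet, h3.card_centralizer_eq (Or.inl rfl) h2]
  · have h3 := fpf_of_orderOf_dvd_tori h1 (Or.inr rfl) h2
    rw [h3.ncard_solSet, h3.card_centralizer_eq (Or.inr rfl) h2]

end Cfsg.Agent.S2259
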