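import Mathlib
import Cfsg.Statements.S2268
import Cfsg.Agent.FG.SylowNormal

set_option autoImplicit false
open Cfsg

namespace Cfsg.Agent.S2268

open Cfsg.Agent.FG.H96 Pointwise


/-- Let G be a finite group with an abelian Sylow p-subgroup P and let Q ≤ P. Then N_G(Q) = (N_G(Q) ∩ N_G(P))·C_G(Q), so that N_G(Q)/C_G(Q) is a homomorphic image of the subgroup (N_G(Q) ∩ N_G(P))/C_G(P) of N_G(P)/C_G(P); in particular the order of N_G(Q)/C_G(Q) divides the order of N_G(P)/C_G(P). -/
theorem result {G : Type*} [Group G] [Finite G] {p : ℕ} [Fact p.Prime]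
    (P : Sylow p G) (hP : IsMulCommutative (P : Subgroup G)) (Q : Subgroup G) (hQ : Q ≤ (P : Subgroup G)) :
    Subgroup.normalizer (Q : Set G) =
      (Subgroup.normalizer (Q : Set G) ⊓ Subgroup.normalizer ((P : Subgroup G) : Set G)) ⊔ Subgroup.centralizer (Q : Set G) ∧
    ((Subgroup.centralizer (Q : Set G)).subgroupOf (Subgroup.normalizer (Q : Set G))).index ∣ ((Subgroup.centralizer ((P : Subgroup G) : Set G)).subgroupOf (Subgroup.normalizer ((P : Subgroup G) : Set G))).index := by
  set N := Subgroup.normalizer (Q : Set G) with hN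
  set C := Subgroup.centralizer (Q : Set G) with hC
  set NP := Subgroup.normalizer ((P : Subgroup G) : Set G) with hNP
  set CP := Subgroup.centralizer ((P : Subgroup G) : Set G) with hCP
  have hCN : C ≤ N := Subgroup.centralizer_le_normalizer _
  have hPC : (P : Subgroup G) ≤ C := by
    intro x hx y hy
    exact FG.H96.isMulCommutative_iff.1 hP y (hQ hy) x hx
  have hdec : ∀ x ∈ N, ∃ c ∈ C, c * x ∈ NP := by
    intro x hx
    have hxP : ((x • P : Sylow p G) : Subgroup G) ≤ C := by
      rw [Sylow.coe_subgroup_smul]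
      rintro _ ⟨y, hy, rfl⟩ z hz
      have hz' : x⁻¹ * z * x ∈ Q := by
        have := (Subgroup.mem_normalizer_iff.1 (N.inv_mem hx) z).1 hz
        simpa using this
      have := hPC hy _ hz'
      change z * (x * y * x⁻¹) = (x * y * x⁻¹) * z
      calc z * (x * y * x⁻¹) = x * (x⁻¹ * z * x * y) * x⁻¹ := by group
        _ = x * (y * (x⁻¹ * z * x)) * x⁻¹ := by rw [this]
        _ = _ := by group
    obtain ⟨c, hc⟩ := MulAction.exists_smul_eq C ((x • P).subtype hxP) (P.subtype hPC)
    rw [Sylow.smul_subtype] at hc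
    have hc' := Sylow.subtype_injective hc
    refine ⟨c, c.2, Sylow.smul_eq_iff_mem_normalizer.1 ?_⟩
    rw [mul_smul]; exact hc'
  have h1 : N = (N ⊓ NP) ⊔ C := by
    apply le_antisymm
    · intro x hx
      obtain ⟨c, hc, hcx⟩ := hdec x hx
      have : x = c⁻¹ * (c * x) := by group
      rw [this]
      exact Subgroup.mul_mem _ (Subgroup.mem_sup_right (C.inv_mem hc))
        (Subgroup.mem_sup_left ⟨N.mul_mem (hCN hc) hx, hcx⟩)
    · exact sup_le inf_le_left hCN
  refine ⟨h1, ?_⟩
  change C.relIndex N ∣ CP.relIndex NP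
  have hCPC : CP ≤ C := Subgroup.centralizer_le hQ
  have hCPNP : CP ≤ NP := Subgroup.centralizer_le_normalizer _
  -- `[N : C] = [N ⊓ NP : C]`
  have h2 : C.relIndex N = C.relIndex (N ⊓ NP) := by
    have hn : (C.subgroupOf N).Normal := Subgroup.normal_subgroupOf_centralizer_normalizer _
    have e1 : (N ⊓ NP).subgroupOf N ⊔ C.subgroupOf N = ⊤ := by
      rw [← Subgroup.subgroupOf_sup inf_le_left hCN, ← h1, Subgroup.subgroupOf_self]
    have e2 := Subgroup.relIndex_sup_right ((N ⊓ NP).subgroupOf N) (C.subgroupOf N)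
    rw [e1, Subgroup.relIndex_top_right, Subgroup.relIndex_subgroupOf inf_le_left] at e2
    exact e2
  rw [h2]
  have h3 : C.relIndex (N ⊓ NP) ∣ CP.relIndex (N ⊓ NP) := Subgroup.relIndex_dvd_of_le_left _ hCPC
  refine h3.trans ?_
  rw [← Subgroup.relIndex_mul_relIndex CP (N ⊓ NP) NP (le_inf (hCPC.trans hCN) hCPNP) inf_le_right]
  exact dvd_mul_right _ _

end Cfsg.Agent.S2268
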