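import Cfsg.Statements.S2269
import Cfsg.Agent.Sym.SylowAbelian

set_option autoImplicit false
open Cfsg

namespace Cfsg.Agent.S2269

open Subgroup Equiv Equiv.Perm Cfsg.Agent.Sym

theorem sq_eq_one : ∀ g : Perm (Fin 5), sign g = 1 → g ^ 4 = 1 → g ^ 2 = 1 := by decide +kernel

/-- Let n ≥ 5 and let P be an abelian Sylow p-subgroup of the alternating group A_n. Then N(P)/C(P) (taken in A_n) has even order, or P is cyclic, except when n = 5 and p = 2, where P is a four-group and N(P)/C(P) has order 3. -/
theorem result (n : ℕ) (hn : 5 ≤ n) {p : ℕ} [Fact p.Prime]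
    (P : Sylow p (alternatingGroup (Fin n))) (hP : IsMulCommutative (P : Subgroup (alternatingGroup (Fin n)))) :
    (¬ (n = 5 ∧ p = 2) → 2 ∣ ((Subgroup.centralizer ((P : Subgroup (alternatingGroup (Fin n))) : Set (alternatingGroup (Fin n)))).subgroupOf (Subgroup.normalizer ((P : Subgroup (alternatingGroup (Fin n))) : Set (alternatingGroup (Fin n))))).index ∨ IsCyclic (P : Subgroup (alternatingGroup (Fin n)))) ∧
    ((n = 5 ∧ p = 2) → ((Subgroup.centralizer ((P : Subgroup (alternatingGroup (Fin n))) : Set (alternatingGroup (Fin n)))).subgroupOf (Subgroup.normalizer ((P : Subgroup (alternatingGroup (Fin n))) : Set (alternatingGroup (Fin n))))).index = 3 ∧ IsKleinFour (P : Subgroup (alternatingGroup (Fin n)))) := by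
  constructor
  · intro h5
    have hp : p ≠ 2 := by
      rintro rfl
      have := (isMulCommutative_sylow_alternating_iff (by simp; omega) P).1 hP
      simp at this; omega
    obtain ⟨R, hR⟩ := exists_sylow_subgroupOf_eq P
    obtain ⟨ι, h⟩ := exists_eq_wr_bot (β := Fin (n / p)) (by simp)
      ((isMulCommutative_sylow_alternating_iff (Or.inl hp) P).1 hP) R
    have hle := le_alternatingGroup_of_isPGroup hp R.isPGroup'
    rw [← hR, h] at *
    rcases le_or_gt (n / p) 1 with h1 | h1
    · refine Or.inr (isCyclic_of_card_dvd_prime (p := p) ?_)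
      rw [Nat.card_congr (subgroupOfEquivOfLe hle).toEquiv, card_wr]
      simpa using pow_dvd_pow p h1
    left
    haveI : Nontrivial (Fin (n / p)) := Fin.nontrivial_iff_two_le.2 h1
    obtain ⟨σ, h2, h3⟩ : ∃ σ, σ * σ = 1 ∧ wrNeg ι σ ∈ alternatingGroup (Fin n) := by
      by_cases h2 : wrNeg ι 1 ∈ alternatingGroup (Fin n)
      · exact ⟨1, mul_one _, h2⟩
      obtain ⟨i, j, hij⟩ := exists_pair_ne (Fin (n / p))
      refine ⟨swap i j, swap_mul_self _ _, ?_⟩
      rw [mem_alternatingGroup, wrNeg_eq_mul, Perm.sign_mul, sign_eq_neg_one_of_not_mem h2,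
        sign_wrEmb]
      simp [hij, ((Fact.out : p.Prime).odd_of_ne_two hp).neg_one_pow]
    refine two_dvd_index_centralizer_subgroupOf (t := ⟨_, h3⟩) ?_ (fun hc => ?_)
      (Subtype.ext (by simp [wrNeg_mul_wrNeg, h2, wrEmb_one]))
    · rw [← subgroupOf_normalizer_eq hle]
      exact wrNeg_mem_normalizer ι σ
    · exact wrNeg_not_mem_centralizer ι (neg_one_ne_one_zmod hp) σ fun g hg =>
        congrArg Subtype.val (hc ⟨g, hle hg⟩ hg)
  · rintro ⟨rfl, rfl⟩
    have h3 : Nat.card (alternatingGroup (Fin 5)) = 60 := by
      rw [nat_card_alternatingGroup]; simp [Nat.factorial]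
    have h4 : Nat.card (P : Subgroup (alternatingGroup (Fin 5))) = 4 := by
      rw [P.card_eq_multiplicity, h3, show 60 = 2 ^ 2 * 15 from rfl,
        Nat.factorization_mul (by simp) (by simp), Nat.Prime.factorization_pow Nat.prime_two]
      simp [Nat.factorization_eq_zero_of_not_dvd]
    constructor
    · have h1 := relIndex_dvd_of_le_left (normalizer (P : Set (alternatingGroup (Fin 5))))
        (le_centralizer (P : Subgroup (alternatingGroup (Fin 5))))
      have h2 := relIndex_dvd_index_of_le
        (le_normalizer (H := (P : Subgroup (alternatingGroup (Fin 5)))))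
      have h5 := (P : Subgroup (alternatingGroup (Fin 5))).index_mul_card
      have h6 := (card_dvd_of_injective _ (QuotientGroup.kerLift_injective
        (P : Subgroup (alternatingGroup (Fin 5))).normalizerMonoidHom)).trans
          (card_dvd_of_injective (MulAction.toPermHom _ _)
            (MulAction.toPerm_injective (α := MulAut P) (β := P)))
      rw [Nat.card_perm, normalizerMonoidHom_ker] at h6
      rw [h3, h4] at h5
      have h7 := Nat.dvd_gcd (h1.trans h2) h6
      rw [show (P : Subgroup (alternatingGroup (Fin 5))).index = 15 by omega,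
        show Nat.card P = 4 from h4] at h7
      refine ((Nat.dvd_prime Nat.prime_three).1 h7).resolve_left fun h => ?_
      have h8 := MonoidHom.ker_transferSylow_isComplement' P (relIndex_eq_one.1 h)
      have h9 := h8.card_mul
      rcases (MonoidHom.normal_ker (MonoidHom.transferSylow P
        (relIndex_eq_one.1 h))).eq_bot_or_eq_top with h | h
      · rw [h, card_bot, h3, h4] at h9; omega
      · rw [h, card_top, h3, h4] at h9; omega
    · refine ⟨h4, ?_⟩
      haveI : Nontrivial P := Finite.one_lt_card_iff_nontrivial.1 (h4.symm ▸ by norm_num)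
      refine ((Nat.dvd_prime Nat.prime_two).1 (Monoid.exponent_dvd_iff_forall_pow_eq_one.2
        fun g => Subtype.ext (Subtype.ext (sq_eq_one _ g.1.2 ?_)))).resolve_left
        Monoid.one_lt_exponent.ne'
      exact congrArg (fun x => x.1.1) (h4 ▸ pow_card_eq_one' (x := g))

end Cfsg.Agent.S2269
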