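import Cfsg.Statements.S2270
import Cfsg.Agent.Sym.SylowAbelian

set_option autoImplicit false
open Cfsg

namespace Cfsg.Agent.S2270

/-- Let n ≥ 3, p an odd prime, and P an abelian Sylow p-subgroup of the symmetric group S_n (with p dividing n!, so that P ≠ 1). Then N(P)/C(P) has even order. -/
theorem result (n : ℕ) (hn : 3 ≤ n) {p : ℕ} [Fact p.Prime] (hp : p ≠ 2) (hpn : p ≤ n)
    (P : Sylow p (Equiv.Perm (Fin n))) (hP : IsMulCommutative (P : Subgroup (Equiv.Perm (Fin n)))) :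
    2 ∣ ((Subgroup.centralizer ((P : Subgroup (Equiv.Perm (Fin n))) : Set (Equiv.Perm (Fin n)))).subgroupOf (Subgroup.normalizer ((P : Subgroup (Equiv.Perm (Fin n))) : Set (Equiv.Perm (Fin n))))).index := by
  obtain ⟨ι, h⟩ := Sym.exists_eq_wr_bot (β := Fin (n / p)) (by simp)
    ((Sym.isMulCommutative_sylow_perm_iff P).1 hP) P
  haveI : Nonempty (Fin (n / p)) := ⟨⟨0, Nat.div_pos hpn (Fact.out : p.Prime).pos⟩⟩
  rw [h]
  exact Sym.two_dvd_index_centralizer_subgroupOf (Sym.wrNeg_mem_normalizer ι 1)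
    (Sym.wrNeg_not_mem_centralizer ι (Sym.neg_one_ne_one_zmod hp) 1)
    (by rw [Sym.wrNeg_mul_wrNeg, mul_one, Sym.wrEmb_one])

end Cfsg.Agent.S2270
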