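import Mathlib
import Cfsg.Statements.S2279
import Cfsg.Agent.Loc.RegSL3

set_option autoImplicit false
open Cfsg

namespace Cfsg.Agent.S2279

open Cfsg.Agent.Loc.RSL Cfsg.Agent.Cl

/-- Let F be a finite field with q elements and n ≥ 4. Then SL_n(F) is generated by two regular unipotent elements (elements u with u − 1 nilpotent and (u − 1)^(n−1) ≠ 0); if q is prime, the two can be taken conjugate in SL_n(F). -/
theorem result {F : Type*} [Field F] [Fintype F] (n : ℕ) (hn : 4 ≤ n) :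
    (∃ u v : Matrix.SpecialLinearGroup (Fin n) F, (IsNilpotent ((u : Matrix (Fin n) (Fin n) F) - 1) ∧ ((u : Matrix (Fin n) (Fin n) F) - 1) ^ (n - 1) ≠ 0) ∧ (IsNilpotent ((v : Matrix (Fin n) (Fin n) F) - 1) ∧ ((v : Matrix (Fin n) (Fin n) F) - 1) ^ (n - 1) ≠ 0) ∧
      Subgroup.closure ({u, v} : Set (Matrix.SpecialLinearGroup (Fin n) F)) = ⊤) ∧
    ((Fintype.card F).Prime → ∃ u g : Matrix.SpecialLinearGroup (Fin n) F, (IsNilpotent ((u : Matrix (Fin n) (Fin n) F) - 1) ∧ ((u : Matrix (Fin n) (Fin n) F) - 1) ^ (n - 1) ≠ 0) ∧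
      Subgroup.closure ({u, g * u * g⁻¹} : Set (Matrix.SpecialLinearGroup (Fin n) F)) = ⊤) := by
  obtain ⟨m, rfl⟩ : ∃ m, n = m + 1 := ⟨n - 1, by omega⟩
  have hu := uJ_reg (F := F) (n := m + 1) (by omega)
  have h1 : ((-1 : F) ^ m) ≠ 0 := pow_ne_zero _ (neg_ne_zero.2 one_ne_zero)
  have hv : ∀ s : F, s ≠ 0 → _ := fun s hs => reg_of_conj (G := gM m s)
    (by rw [det_gM]; exact pow_ne_zero _ (neg_ne_zero.2 hs)) (gM_mul (by omega)) hu
  constructor
  · obtain ⟨ξ, h0, hξ⟩ := Reg.exists_gen (F := F)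
    by_cases h4 : ξ = 4
    · exact ⟨_, _, hu, hv _ h1, gen_two (by omega) h1 (Or.inl neg_one_pow_sq)
        fun k j a b e => Or.inr (h4 ▸ hξ k j a b e)⟩
    · have e : ξ * (-1) ^ m * (-1) ^ m = ξ := by rw [mul_assoc, neg_one_pow_sq, mul_one]
      exact ⟨_, _, hu, hv _ (mul_ne_zero h0 h1), gen_two (by omega) (mul_ne_zero h0 h1)
        (Or.inr (by rwa [e])) fun k j a b e' => Or.inl (by rw [e]; exact hξ k j a b e')⟩
  · intro hp
    obtain ⟨g, hg⟩ := exists_conj (F := F) (m := m) (by omega)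
    refine ⟨_, g, hu, ?_⟩
    rw [hg]
    refine gen_two (by omega) h1 (Or.inl neg_one_pow_sq) fun k j a b e => absurd ?_ (show j ≠ 1 by omega)
    rw [← Nat.card_eq_fintype_card, e] at hp
    exact hp.eq_one_of_pow

end Cfsg.Agent.S2279
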