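import Cfsg.Statements.S2281
import Cfsg.Agent.Cl.RegSp
-- import your own Cfsg.Agent.* helpers here

set_option autoImplicit false
open Cfsg

namespace Cfsg.Agent.S2281

open Cfsg.Agent.Cl

/-- Let F be a finite field and n ≥ 2, excluding the case n = 2 with F of two elements (where the group is not quasisimple). Then the symplectic group Sp_2n(F) is generated by three conjugate regular unipotent elements: there are u ∈ Sp_2n(F) with u − 1 nilpotent and (u − 1)^(2n−1) ≠ 0, and g, h ∈ Sp_2n(F), such that u, g u g⁻¹ and h u h⁻¹ generate Sp_2n(F). -/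
theorem result {F : Type*} [Field F] [Fintype F] (n : ℕ) (hn : 2 ≤ n) (h22 : ¬ (n = 2 ∧ Fintype.card F = 2)) :
    ∃ u g h : Matrix.symplecticGroup (Fin n) F,
      IsNilpotent ((u : Matrix (Fin n ⊕ Fin n) (Fin n ⊕ Fin n) F) - 1) ∧
      ((u : Matrix (Fin n ⊕ Fin n) (Fin n ⊕ Fin n) F) - 1) ^ (2 * n - 1) ≠ 0 ∧
      Subgroup.closure ({u, g * u * g⁻¹, h * u * h⁻¹} : Set (Matrix.symplecticGroup (Fin n) F)) = ⊤ := by
  obtain ⟨u, g, k, h1, h2, h⟩ := Reg.sp_gen (spB_nondegenerate (m := n) (R := F)) spB_isAlt hn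
    sp_finrank_std fun e => MaxSp.exists_ne_zero_one fun e' => h22 ⟨e, e'⟩
  obtain ⟨u, rfl⟩ := (spStdEquiv n F).surjective u
  obtain ⟨g, rfl⟩ := (spStdEquiv n F).surjective g
  obtain ⟨k, rfl⟩ := (spStdEquiv n F).surjective k
  have h3 : ((spStdEquiv n F u).1 : Module.End F (Fin n ⊕ Fin n → F)) - 1 =
      Matrix.toLinAlgEquiv' (u.1 - 1) := by
    rw [map_sub, map_one]
    congr 1
  rw [h3] at h1 h2
  refine ⟨u, g, k, (IsNilpotent.map_iff Matrix.toLinAlgEquiv'.injective).1 h1,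
    fun e => h2 (by rw [← map_pow, e, map_zero]), ?_⟩
  apply Subgroup.map_injective (f := (spStdEquiv n F).toMonoidHom) (spStdEquiv n F).injective
  rw [Subgroup.map_top_of_surjective _ (spStdEquiv n F).surjective]
  refine h _ ⟨u, Subgroup.subset_closure (by simp), rfl⟩
    ⟨g * u * g⁻¹, Subgroup.subset_closure (by simp), by simp⟩
    ⟨k * u * k⁻¹, Subgroup.subset_closure (by simp), by simp⟩

end Cfsg.Agent.S2281
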