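import Mathlib
import Cfsg.Statements.S2291
import Cfsg.Agent.Pres.U4Small
import Cfsg.Agent.Cl.TwoGenB

set_option autoImplicit false
open Cfsg

set_option linter.unusedVariables false

namespace Cfsg.Agent.S2291

open Cfsg.Agent.Pr

/-- Let F be a field with q² elements and n ≥ 3 with (n, q) ≠ (3, 2). Then the simple group PSU_n(q) (for the standard Hermitian form) has a presentation with 2 generators and at most 80 relations. -/
theorem result {F : Type*} [Field F] [Fintype F] (q n : ℕ) (hF : Fintype.card F = q ^ 2) (hn : 3 ≤ n) (h32 : ¬ (n = 3 ∧ q = 2)) :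
    ∃ rels : Finset (FreeGroup (Fin 2)), rels.card ≤ 80 ∧ Nonempty (PresentedGroup (↑rels : Set (FreeGroup (Fin 2))) ≃* Cfsg.PSU n F q) := by
  obtain ⟨σ, hq⟩ := Cl.exists_uField hF
  obtain ⟨a, b, hab⟩ := Ch.twoGen_psu (K := F) (n := n) (q := q) (by rw [Nat.card_eq_fintype_card, hF])
    hn fun h h' => h32 ⟨h, h'⟩
  have := hq.two_le
  obtain rfl | h : n = 3 ∨ 4 ≤ n := by omega
  · exact HasPres.out ⟨_, (((hasPres_su3 hq (by omega)).psu hq (by omega)).two hab).mono (by omega)⟩
  · exact HasPres.out ⟨_, (((hasPres_su hq h).psu hq (by omega)).two hab).mono (by omega)⟩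

end Cfsg.Agent.S2291
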