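import Mathlib
import Cfsg.Statements.S2292
import Cfsg.Agent.Pres.TypeC
import Cfsg.Agent.Cl.TwoGenB

set_option autoImplicit false
open Cfsg

set_option linter.unusedVariables false

namespace Cfsg.Agent.S2292

open Cfsg.Agent.Pr

/-- Let F be a finite field with q elements and m ≥ 2 with (m, q) ≠ (2, 2). Then the simple group PSp_2m(F) has a presentation with 2 generators and at most 80 relations. -/
theorem result {F : Type*} [Field F] [Fintype F] (m : ℕ) (hm : 2 ≤ m) (h22 : ¬ (m = 2 ∧ Fintype.card F = 2)) :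
    ∃ rels : Finset (FreeGroup (Fin 2)), rels.card ≤ 80 ∧ Nonempty (PresentedGroup (↑rels : Set (FreeGroup (Fin 2))) ≃* Cfsg.PSp m F) := by
  obtain ⟨a, b, hab⟩ := Ch.twoGen_psp (K := F) hm fun h h' => h22 ⟨h, by rwa [← Nat.card_eq_fintype_card]⟩
  obtain ⟨k, rfl⟩ : ∃ k, m = k + 2 := ⟨m - 2, by omega⟩
  have h : HasPres (Matrix.SpecialLinearGroup (Fin (k + 2)) F) 7 24 := by
    rcases k with _ | k
    exacts [hasPres_sl2.mono (by norm_num) (by norm_num), hasPres_sl (by omega)]
  have := (hasPres_sp h (k' := 10) (r' := 47) le_rfl le_rfl).2.two hab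
  exact HasPres.out ⟨_, this.mono (by norm_num)⟩

end Cfsg.Agent.S2292
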