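import Mathlib
import Cfsg.Statements.S2293
import Cfsg.Agent.Pres.TypeC

set_option autoImplicit false
open Cfsg

set_option linter.unusedVariables false

namespace Cfsg.Agent.S2293

open Cfsg.Agent.Pr

/-- For every finite field F, Sp_4(F) has a presentation with 6 generators and at most 35 relations, and PSp_4(F) one with 6 generators and at most 36 relations. -/
theorem result {F : Type*} [Field F] [Fintype F] : (∃ rels : Finset (FreeGroup (Fin 6)), rels.card ≤ 35 ∧ Nonempty (PresentedGroup (↑rels : Set (FreeGroup (Fin 6))) ≃* Matrix.symplecticGroup (Fin 2) F)) ∧ (∃ rels : Finset (FreeGroup (Fin 6)), rels.card ≤ 36 ∧ Nonempty (PresentedGroup (↑rels : Set (FreeGroup (Fin 6))) ≃* Cfsg.PSp 2 F)) := by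
  have h := hasPres_sp (K := F) (m := 0) (k' := 6) (r' := 35) hasPres_sl2 (by norm_num) (by norm_num)
  exact ⟨h.1.out, h.2.out⟩

end Cfsg.Agent.S2293
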