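import Mathlib
import Cfsg.Statements.S2295
import Cfsg.Agent.Pres.TypeD

set_option autoImplicit false
open Cfsg

set_option linter.unusedVariables false

namespace Cfsg.Agent.S2295

open Cfsg.Agent.Pr

/-- Let F be a finite field and n ≥ 4, and let Ω⁺_2n(F) be the commutator subgroup of the orthogonal group of the hyperbolic quadratic form Σ x_i y_i, with PΩ⁺_2n(F) its central quotient. Then Ω⁺_2n(F) has a presentation with 8 generators and at most 31 relations (at most 29 if n = 4 or 5), and PΩ⁺_2n(F) one with 8 generators and at most 32 relations (at most 30 if n = 4 or 5). -/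
theorem result {F : Type*} [Field F] [Fintype F] (n : ℕ) (hn : 4 ≤ n) :
    (∃ rels : Finset (FreeGroup (Fin 8)), rels.card ≤ 31 ∧ Nonempty (PresentedGroup (↑rels : Set (FreeGroup (Fin 8))) ≃* ↥(Cfsg.Omega F (Cfsg.quadFormPlus n F)))) ∧ (∃ rels : Finset (FreeGroup (Fin 8)), rels.card ≤ 32 ∧ Nonempty (PresentedGroup (↑rels : Set (FreeGroup (Fin 8))) ≃* Cfsg.POmega F (Cfsg.quadFormPlus n F))) ∧
    (n ≤ 5 → (∃ rels : Finset (FreeGroup (Fin 8)), rels.card ≤ 29 ∧ Nonempty (PresentedGroup (↑rels : Set (FreeGroup (Fin 8))) ≃* ↥(Cfsg.Omega F (Cfsg.quadFormPlus n F)))) ∧ (∃ rels : Finset (FreeGroup (Fin 8)), rels.card ≤ 30 ∧ Nonempty (PresentedGroup (↑rels : Set (FreeGroup (Fin 8))) ≃* Cfsg.POmega F (Cfsg.quadFormPlus n F)))) := by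
  have h4 := fun r' => hasPres_omega (K := F) (m := 2) (k' := 8) (r' := r') le_rfl hasPres_sl_four (by norm_num)
  have h5 := fun r' => hasPres_omega (K := F) (m := 3) (k' := 8) (r' := r') (by norm_num) hasPres_sl_five'
    (by norm_num)
  rcases Nat.lt_or_ge n 6 with h' | h'
  · interval_cases n
    · exact ⟨(h4 31 (by norm_num)).1.out, (h4 31 (by norm_num)).2.out,
        fun _ => ⟨(h4 29 (by norm_num)).1.out, (h4 29 (by norm_num)).2.out⟩⟩
    · exact ⟨(h5 31 (by norm_num)).1.out, (h5 31 (by norm_num)).2.out,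
        fun _ => ⟨(h5 29 (by norm_num)).1.out, (h5 29 (by norm_num)).2.out⟩⟩
  · obtain ⟨m, rfl⟩ : ∃ m, n = m + 6 := ⟨n - 6, by omega⟩
    have := hasPres_omega (K := F) (m := m + 4) (k' := 8) (r' := 31) (by omega) (hasPres_sl_ge_six m)
      (by norm_num) (by norm_num)
    exact ⟨this.1.out, this.2.out, fun h => absurd h (by omega)⟩

end Cfsg.Agent.S2295
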