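import Mathlib
import Cfsg.Statements.S2296
import Cfsg.Agent.Pres.TypeC

set_option autoImplicit false
open Cfsg

set_option linter.unusedVariables false

namespace Cfsg.Agent.S2296

open Cfsg.Agent.Pr

/-- Let F be a finite field. Sp_2n(F) has a presentation with 10 generators and at most 58 relations for n ≥ 4, with 9 generators and at most 57 relations for n = 4 or 5, and with 8 generators and at most 52 relations for n = 3; in each case PSp_2n(F) has a presentation with the same number of generators and at most one more relation. -/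
theorem result {F : Type*} [Field F] [Fintype F] (n : ℕ) :
    (4 ≤ n → (∃ rels : Finset (FreeGroup (Fin 10)), rels.card ≤ 58 ∧ Nonempty (PresentedGroup (↑rels : Set (FreeGroup (Fin 10))) ≃* Matrix.symplecticGroup (Fin n) F)) ∧ (∃ rels : Finset (FreeGroup (Fin 10)), rels.card ≤ 59 ∧ Nonempty (PresentedGroup (↑rels : Set (FreeGroup (Fin 10))) ≃* Cfsg.PSp n F))) ∧
    ((n = 4 ∨ n = 5) → (∃ rels : Finset (FreeGroup (Fin 9)), rels.card ≤ 57 ∧ Nonempty (PresentedGroup (↑rels : Set (FreeGroup (Fin 9))) ≃* Matrix.symplecticGroup (Fin n) F)) ∧ (∃ rels : Finset (FreeGroup (Fin 9)), rels.card ≤ 58 ∧ Nonempty (PresentedGroup (↑rels : Set (FreeGroup (Fin 9))) ≃* Cfsg.PSp n F))) ∧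
    (n = 3 → (∃ rels : Finset (FreeGroup (Fin 8)), rels.card ≤ 52 ∧ Nonempty (PresentedGroup (↑rels : Set (FreeGroup (Fin 8))) ≃* Matrix.symplecticGroup (Fin n) F)) ∧ (∃ rels : Finset (FreeGroup (Fin 8)), rels.card ≤ 53 ∧ Nonempty (PresentedGroup (↑rels : Set (FreeGroup (Fin 8))) ≃* Cfsg.PSp n F))) := by
  have h4 := fun k' r' => hasPres_sp (K := F) (m := 2) (k' := k') (r' := r') hasPres_sl_four
  have h5 := fun k' r' => hasPres_sp (K := F) (m := 3) (k' := k') (r' := r') hasPres_sl_five
  refine ⟨fun h => ?_, ?_, ?_⟩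
  · rcases Nat.lt_or_ge n 6 with h' | h'
    · interval_cases n
      · have := h4 10 58 (by norm_num) (by norm_num)
        exact ⟨this.1.out, this.2.out⟩
      · have := h5 10 58 (by norm_num) (by norm_num)
        exact ⟨this.1.out, this.2.out⟩
    · obtain ⟨m, rfl⟩ : ∃ m, n = m + 6 := ⟨n - 6, by omega⟩
      have := hasPres_sp (K := F) (m := m + 4) (k' := 10) (r' := 58) (hasPres_sl_ge_six m) (by norm_num)
        (by norm_num)
      exact ⟨this.1.out, this.2.out⟩
  · rintro (rfl | rfl)
    · have := h4 9 57 (by norm_num) (by norm_num)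
      exact ⟨this.1.out, this.2.out⟩
    · have := h5 9 57 (by norm_num) (by norm_num)
      exact ⟨this.1.out, this.2.out⟩
  · rintro rfl
    have := hasPres_sp (K := F) (m := 1) (k' := 8) (r' := 52) hasPres_sl_three (by norm_num) (by norm_num)
    exact ⟨this.1.out, this.2.out⟩

end Cfsg.Agent.S2296
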