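import Mathlib
import Cfsg.Statements.S2332
import Cfsg.Agent.Cl.RepSLc

set_option autoImplicit false
open Cfsg

namespace Cfsg.Agent.S2332

/-- Smallest degree of a non-linear irreducible complex representation of SL_n over a finite field with q elements, for n ≥ 3 and (n, q) not one of (3, 2), (3, 4), (4, 2), (4, 3): every irreducible complex representation of SL_n(F) of degree at least 2 has degree at least (q^n − q)/(q − 1), and there is an irreducible complex representation of exactly that degree. -/
theorem result {F : Type*} [Field F] [Fintype F] [DecidableEq F] (n : ℕ) (hn : 3 ≤ n)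
    (hex : (n, Fintype.card F) ≠ (3, 2) ∧ (n, Fintype.card F) ≠ (3, 4) ∧ (n, Fintype.card F) ≠ (4, 2) ∧ (n, Fintype.card F) ≠ (4, 3)) :
    (∀ (k : ℕ) (ρ : Representation ℂ (Matrix.SpecialLinearGroup (Fin n) F) (Fin k → ℂ)), ρ.IsIrreducible → 2 ≤ k → (Fintype.card F ^ n - Fintype.card F) / (Fintype.card F - 1) ≤ k) ∧
    (∃ ρ : Representation ℂ (Matrix.SpecialLinearGroup (Fin n) F) (Fin ((Fintype.card F ^ n - Fintype.card F) / (Fintype.card F - 1)) → ℂ), ρ.IsIrreducible) := by
  have hq := Fintype.one_lt_card (α := F)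
  refine ⟨fun k ρ hρ hk => ?_, ?_⟩
  · have h := Cl.repSL_bound (ρ := ρ) (by
      rw [Cl.SLGen, Fintype.card_fin]
      by_cases h5 : 5 ≤ n
      · exact Or.inl h5
      by_cases h4 : n = 4
      · refine Or.inr (Or.inl ⟨h4, Cl.exists_sq_ne_one_of_four_le_card ?_⟩)
        simp only [h4, ne_eq, Prod.mk.injEq, true_and] at hex
        rw [Nat.card_eq_fintype_card]
        omega
      refine Or.inr (Or.inr ⟨by omega, ?_⟩)
      obtain rfl : n = 3 := by omega
      simp only [ne_eq, Prod.mk.injEq, true_and] at hex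
      obtain ⟨x, hx⟩ := IsCyclic.exists_generator (α := Fˣ)
      refine ⟨x, x.ne_zero, fun h => ?_⟩
      have h1 := orderOf_dvd_of_pow_eq_one (Units.ext (by simpa using h) : x ^ 3 = 1)
      rw [orderOf_eq_card_of_forall_mem_zpowers hx, Nat.card_units, Nat.card_eq_fintype_card,
        Nat.dvd_prime Nat.prime_three] at h1
      omega) hρ (by simpa using hk)
    rw [Nat.card_eq_fintype_card] at h
    exact Nat.div_le_of_le_mul (by simpa using h)
  have h := Cl.slVec_permData (ι := Fin n) (F := F) (by simpa using hn)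
  have h1 := h.finrank_permU 0
  rw [if_pos rfl, Cl.card_slVec, Nat.card_units, Nat.card_eq_fintype_card, Fintype.card_fin,
    mul_add] at h1
  have := h.irreducible 0
  rw [Nat.div_eq_of_eq_mul_right (k := Module.finrank ℂ (Cl.permU (Matrix.SpecialLinearGroup (Fin n) F) Fˣ
      (Cl.SLVec (Fin n) F) 0))
    (by omega) (by omega)]
  exact ⟨Ch.repCongr _ (Module.finBasis ℂ _).equivFun,
    Ch.isIrreducible_of_equiv (h := this) (Ch.equivRepCongr _ _)⟩

end Cfsg.Agent.S2332
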