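import Mathlib
import Cfsg.Statements.S2334
import Cfsg.Agent.Cl.RepSU

set_option autoImplicit false
open Cfsg

namespace Cfsg.Agent.S2334

/-- For odd n ≥ 3 and a finite field F with q² elements, (n, q) ≠ (3, 2), every irreducible complex representation of the special unitary group SU_n(q) (the determinant-one isometries of the standard Hermitian form over F) of degree at least 2 has degree at least (q^n − q)/(q + 1). -/
theorem result {F : Type*} [Field F] [Fintype F] [DecidableEq F] (n q : ℕ) (hn : 3 ≤ n) (hodd : Odd n) (hF : Fintype.card F = q ^ 2) (hex : (n, q) ≠ (3, 2)) :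
    (∀ (k : ℕ) (ρ : Representation ℂ (Cfsg.SU n F q) (Fin k → ℂ)), ρ.IsIrreducible → 2 ≤ k → (q ^ n - q) / (q + 1) ≤ k) := by
  intro k ρ hρ hk
  obtain ⟨m, rfl⟩ := hodd
  have h := Cl.repSU_bound hn hF (fun h => hex (Prod.ext h.1 h.2)) ρ hρ hk (m := m) (by omega)
  rw [Nat.add_sub_cancel_left, pow_one, Nat.sub_one_mul, ← pow_succ] at h
  exact Nat.div_le_of_le_mul (by rwa [mul_comm (q + 1)])

end Cfsg.Agent.S2334
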