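import Mathlib
import Cfsg.Statements.S2337
import Cfsg.Agent.Chev.SzChar
-- import your own Cfsg.Agent.* helpers here

set_option autoImplicit false
open Cfsg

namespace Cfsg.Agent.S2337

open Cfsg.Agent.Chev.Sz Cfsg.Agent.Ch

/-- For the Suzuki group Sz(q), q = 2^(2m+1) with m ≥ 1 (realised inside Sp₄ over the field with q elements), every irreducible complex representation of degree at least 2 has degree at least 2^m·(q − 1). -/
theorem result {F : Type*} [Field F] [Fintype F] (m : ℕ) (hm : 1 ≤ m) (hF : Fintype.card F = 2 ^ (2 * m + 1)) :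
    (∀ (k : ℕ) (ρ : Representation ℂ (Cfsg.Lie.Sz F (2 ^ (m + 1))) (Fin k → ℂ)), ρ.IsIrreducible → 2 ≤ k → 2 ^ m * (2 ^ (2 * m + 1) - 1) ≤ k) := by
  intro k ρ hρ hk
  have := SzF.of_card hm hF
  have h1 : k ∈ charDegrees (Cfsg.Lie.Sz F (2 ^ (m + 1))) :=
    ⟨⟨_, isIrrCharacter_character ρ⟩, by simp [charDegree_character]⟩
  rw [← charDegrees_congr (szEquiv F m), charDegrees_Sz, card_F F] at h1
  have h2 : 2 ^ (2 * m + 1) = 2 * (2 ^ m) ^ 2 := by ring
  rw [h2, pow_succ' 2 m] at h1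
  rw [h2]
  have h3 : 0 < 2 ^ m := by positivity
  generalize 2 ^ m = x at *
  have h4 : x ≤ 2 * x ^ 2 - 2 * x + 1 := by
    zify [show 2 * x ≤ 2 * x ^ 2 by nlinarith]
    nlinarith [sq_nonneg ((x : ℤ) - 1)]
  have h5 : x * (2 * x ^ 2 - 1) ≤ (2 * x ^ 2) ^ 2 := by
    rw [sq (2 * x ^ 2)]
    exact Nat.mul_le_mul (by nlinarith) (Nat.sub_le _ _)
  rcases h1 with rfl | rfl | rfl | rfl | rfl | rfl
  · omega
  · exact h5
  · omega
  · exact le_rfl
  · rw [mul_comm]
    exact Nat.mul_le_mul_left _ h4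
  · rw [mul_comm]
    exact Nat.mul_le_mul_left _ (by omega)

end Cfsg.Agent.S2337
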