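import Cfsg.Statements.S2338
import Cfsg.Agent.Chev.MdG2b
import Cfsg.Agent.Chev.MdNum
import Cfsg.Agent.S1055
import Cfsg.Agent.S1059
import Cfsg.Agent.Ch.Integrality

set_option autoImplicit false
open Cfsg

namespace Cfsg.Agent.S2338

open Chev in
theorem chk : ∀ c ≤ 2, ndvdChk (binProdL [(6, 0), (2, -1), (6, -1)]) [(c : ℕ) - 2, 0, 1, 0, 1] 9
    (List.getD [([-1, 0, 1], [2, 0, 1], [-1], 216, 15), ([1], [-1, 0, 1, 0, 1], [21, 0, 13], 2, 9),
      ([0, 0, 1], [1, 0, 1], [-1], 4, 9)] c default) := by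
  decide +kernel

/-- Lower bounds for the degrees of non-linear irreducible complex representations of the Chevalley group of type G₂ over a finite field with q elements: the degree is at least q³ + 1 when q ≡ 1 (mod 3) and q > 4, at least q³ − 1 when q ≡ 2 (mod 3) and q > 2, and at least q⁴ + q² + 1 when q ≡ 0 (mod 3) and q > 3. -/
theorem result {F : Type*} [Field F] [Fintype F] (k : ℕ) (ρ : Representation ℂ (Cfsg.Lie.chevG2.group F) (Fin k → ℂ)) (hρ : ρ.IsIrreducible) (hk : 2 ≤ k) :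
    (Fintype.card F % 3 = 1 → 4 < Fintype.card F → Fintype.card F ^ 3 + 1 ≤ k) ∧
    (Fintype.card F % 3 = 2 → 2 < Fintype.card F → Fintype.card F ^ 3 - 1 ≤ k) ∧
    (Fintype.card F % 3 = 0 → 3 < Fintype.card F → Fintype.card F ^ 4 + Fintype.card F ^ 2 + 1 ≤ k) := by
  obtain ⟨ψ, hψ⟩ := Cl.addChar_exists_ne_one F
  obtain ⟨p, hp⟩ := CharP.exists F
  obtain ⟨n, pp, hn⟩ := FiniteField.card F p
  have h0 : 2 < Fintype.card F → IsSimpleGroup (Lie.chevG2.group F) := fun h => (S1055.result (by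
    obtain ⟨a, h1, h2⟩ := Chev.tw_exists_pow_ne_one (K := F) (e := 1) one_pos h
    exact ⟨a, h1, by simpa using h2⟩)).1
  have h1 : ((3 : ℕ) : F) = 0 ↔ Fintype.card F % 3 = 0 := by
    rw [CharP.cast_eq_zero_iff F p, ← Nat.dvd_iff_mod_eq_zero, hn, Nat.prime_dvd_prime_iff_eq pp Nat.prime_three]
    refine ⟨fun h => h ▸ dvd_pow_self _ n.ne_zero, fun h => ?_⟩
    exact ((Nat.prime_dvd_prime_iff_eq Nat.prime_three pp).1 (Nat.prime_three.dvd_of_dvd_pow h)).symm
  have h2 : Fintype.card F % 3 ≠ 0 → 4 < Fintype.card F → _ := fun h h' =>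
    have := h0 (by omega)
    Chev.MdG.ne_three_bound hψ (mt h1.1 h) hρ (by simpa using hk) h'
  rw [Module.finrank_fin_fun] at h2
  refine ⟨fun h h' => (h2 (by omega) h').2 h, fun h h' => by have := (h2 (by omega) (by omega)).1; omega, fun h h' => ?_⟩
  have := h0 (by omega)
  have h3 : 9 ≤ Fintype.card F := by
    obtain rfl := (Nat.prime_dvd_prime_iff_eq Nat.prime_three pp).1
      (Nat.prime_three.dvd_of_dvd_pow (hn ▸ Nat.dvd_of_mod_eq_zero h))
    rw [hn] at h' ⊢
    exact Nat.pow_le_pow_right (n := 3) (i := 2) (by norm_num) ((Nat.pow_lt_pow_iff_right (a := 3) (n := 1) (by norm_num)).1 h')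
  have h4 := Chev.MdG.three_bound hψ (h1.2 h) hρ (by simpa using hk) h3
  have h5 := Int.natCast_dvd_natCast.2 (Ch.integral_finrank_dvd_card ρ)
  have h6 : ∀ n, 1 ≤ Fintype.card F ^ n := fun n => Nat.one_le_pow _ _ (by omega)
  rw [Module.finrank_fin_fun] at h4 h5
  rw [S1059.result rfl] at h5
  push_cast [h6] at h5
  by_contra h7
  obtain ⟨c, hc⟩ := Nat.exists_eq_add_of_le h4
  refine Chev.not_dvd_of_chk (chk c (by omega)) h3 (dvd_trans (Eq.dvd ?_) (h5.trans (Eq.dvd ?_)))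
  · zify at hc
    simp only [Chev.evalL, Int.cast_id]
    linear_combination -hc
  · simp [Chev.evalL_binProdL]
    ring

end Cfsg.Agent.S2338
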