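import Cfsg.Statements.S2340
import Cfsg.Agent.Chev.MdE6
import Cfsg.Agent.S1054
import Cfsg.Agent.S1063
import Cfsg.Agent.S2332
import Cfsg.Agent.Ch.Integrality

set_option autoImplicit false
open Cfsg

namespace Cfsg.Agent.S2340

open Chev in
theorem chk : ∀ c ≤ 6, ndvdChk (binProdL [(36, 0), (2, -1), (5, -1), (6, -1), (8, -1), (9, -1), (12, -1)])
    (if c = 6 then [-1, 1, 0, 0, 1, 1, 0, 1, 1, 0, 0, 1] else [(c : ℕ) - 1, 0, -1, -1, 0, 0, 0, 1, 1, 0, 0, 1]) 2
    (List.getD [([-1, 1], [1, 1, 2, 3, 3, 3, 3, 2, 1, 1, 1], [-41365555313611, 24458876344510, 67362564842354, 88729345685498,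
    172566125138402, 192626016348098, 83665674916340, 34780210415319, 90090462145580, 81133107102352], 507135073473,
    15),
  ([0, 0, 1], [-1, -1, 0, 0, 0, 1, 1, 0, 0, 1], [59735, 131947, 139839, 149766, 160625, 110466, 52769, 53688,
    61987], 80, 2),
  ([1, 1], [1, -1, 0, -1, 1, -1, 1, 0, 1, -1, 1], [-27371963551, -1701161650, 173741986, 30179272980, 8454097712,
    39362556692, 17927781096, 21089616099, -3260783584, 24569479832], 5609655, 5),
  ([1, 1, 1], [2, -2, -1, 2, -1, -1, 2, 0, -1, 1], [6409335416460885, 325261021971254, -3384805585290163,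
    2232912594012047, -1210317683715700, -5043209427961764, 599891996697057, 509449320880721, -2828560618390588],
    343030071296000, 42),
  ([1], [3, 0, -1, -1, 0, 0, 0, 1, 1, 0, 0, 1], [5494645130952336115761637, 5715905077214139217574073,
    2217772472228294894453222, -13681438425927614470921977, -14864577230469636059014941,
    -10910215477362031080673489, -16716241315267959970539093, -13040103766644433484387570,
    -3760300909047432945331011, -5567062107342684640977679, -6066852451628900265399563], 91378415204199773149593600,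
    230),
  ([1], [4, 0, -1, -1, 0, 0, 0, 1, 1, 0, 0, 1], [726453444078903229023123333, -327507750457335164336336602,
    -976625367862561110371998639, -2324630004017573182118682836, -2669150880575339916145997316,
    -2148050233706287243219028821, -2129810355729856840630738726, -1673382346198033548942890229,
    -774281955188822102563954272, -652939642593784061014384357, -601359550940536894777841617],
    223506787708531774586880000000, 466),
  ([1, -1, 1], [-1, 0, 1, 1, 1, 1, 0, 0, 1, 1], [117478479894457, 183163847553817, 168097147208395, 144606197465413,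
    107980852364821, 50877367278819, 79324273286314, 123676555497659, 75348903413272], 20000000, 7)] c default) := by
  decide +kernel

/-- For the Chevalley group of type E₆ over a finite field with q elements (the group generated by the root elements), every irreducible complex representation of degree at least 2 has degree at least q(q⁶ + q³ + 1)(q⁴ + 1). -/
theorem result {F : Type*} [Field F] [Fintype F] :
    (∀ (k : ℕ) (ρ : Representation ℂ (Cfsg.Lie.chevE6.group F) (Fin k → ℂ)), ρ.IsIrreducible → 2 ≤ k → Fintype.card F * (Fintype.card F ^ 6 + Fintype.card F ^ 3 + 1) * (Fintype.card F ^ 4 + 1) ≤ k) := by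
  classical
  obtain ⟨q, hq⟩ : ∃ q, Fintype.card F = q := ⟨_, rfl⟩
  have q2 : 2 ≤ q := hq ▸ Fintype.one_lt_card
  have h1 := (S1054.result (F := F) Lie.chevE6 (by simp)).1
  have h2 := S1063.result hq
  rw [← Lie.ChevalleyDatum.fieldTwist_G1] at h1 h2 ⊢
  intro k ρ hρ hk
  have h3 := Lie.ChevalleyDatum.e6_dim hρ (by simpa using hk) hq (S2332.result (F := F) 6 (by norm_num) (by simp)).1
  have h4 := Int.natCast_dvd_natCast.2 (Ch.integral_finrank_dvd_card ρ)
  have h5 : ∀ n, 1 ≤ q ^ n := fun n => Nat.one_le_pow _ _ (by omega)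
  have h6 : (q ^ 6 - q) / (q - 1) = q ^ 5 + q ^ 4 + q ^ 3 + q ^ 2 + q := Nat.div_eq_of_eq_mul_left (by omega) (by
    zify [show q ≤ q ^ 6 from Nat.le_self_pow (by norm_num) q, show 1 ≤ q by omega]; ring)
  rw [Module.finrank_fin_fun] at h3 h4
  rw [hq, h6] at h3
  zify [h5] at h2
  have h7 := fun c hc e => Chev.not_dvd_of_chk (chk c hc) q2 (dvd_trans (Eq.dvd e) (h4.trans
    (Dvd.intro_left _ (h2.trans (by simp [Chev.evalL_binProdL]; ring)))))
  rw [hq]
  by_contra h8
  obtain h | ⟨c, h9, h⟩ := h3
  · obtain ⟨r, rfl⟩ := Nat.exists_eq_add_of_le' q2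
    have : 2 * ((r + 2) * ((r + 2) ^ 6 + (r + 2) ^ 3 + 1) * ((r + 2) ^ 4 + 1)) + 4 * (r + 2) ^ 9 ≤ 4 * (r + 2) ^ 11 := by
      ring_nf; omega
    omega
  simp only [List.map_cons, List.map_nil, List.sum_cons, List.sum_nil] at h
  zify [show 1 ≤ q by omega] at h h8
  obtain h9 | h9 := h9
  · exact h7 c (by omega) (by rw [if_neg (by omega)]; simp only [Chev.evalL, Int.cast_id]; linear_combination -h)
  · zify at h9
    exact h7 6 le_rfl (by simp only [if_pos, Chev.evalL, Int.cast_id]; linarith)

end Cfsg.Agent.S2340
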