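import Cfsg.Statements.S2341
import Cfsg.Agent.Chev.MdE6
import Cfsg.Agent.S1066
import Cfsg.Agent.S1070
import Cfsg.Agent.S2335
import Cfsg.Agent.Ch.Integrality

set_option autoImplicit false
open Cfsg

namespace Cfsg.Agent.S2341

open Chev in
theorem chk : ∀ c ≤ 7, ndvdChk (binProdL [(36, 0), (2, -1), (5, 1), (6, -1), (8, -1), (9, 1), (12, -1)])
    (if 6 ≤ c then [5 - (c : ℕ), 1, 0, 0, -1, 1, 0, 1, -1, 0, 0, 1] else [(c : ℕ) - 1, 0, 1, -1, 0, 0, 0, 1, -1, 0, 0, 1])
    (if c = 5 then 3 else 2) (List.getD [([-1, 1], [1, 1, 0, 1, 1, 1, 1, 0, 1, 1, 1], [-27371963551, 1701161650, 173741986, -30179272980, 8454097712,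
    -39362556692, 17927781096, -21089616099, -3260783584, -24569479832], 5609655, 5),
  ([0, 0, 1], [1, -1, 0, 0, 0, 1, -1, 0, 0, 1], [59735, -131947, 139839, -149766, 160625, -110466, 52769, -53688,
    61987], 80, 2),
  ([1, 1], [1, -1, 2, -3, 3, -3, 3, -2, 1, -1, 1], [-41365555313611, -24458876344510, 67362564842354,
    -88729345685498, 172566125138402, -192626016348098, 83665674916340, -34780210415319, 90090462145580,
    -81133107102352], 507135073473, 15),
  ([1, 1, 1], [2, -2, 1, 0, -1, 1, 0, 0, -1, 1], [71143387091243, -137514362870110, 165613382801505,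
    -160395956999253, 120898144767752, -80398004284924, 76264135060133, -74052802073273, 36786939901646],
    1692734324736, 23),
  ([1], [3, 0, 1, -1, 0, 0, 0, 1, -1, 0, 0, 1], [8639183875955081142763, -8543646365104607660025,
    9994151474141029902668, -12040393273107260148669, 12023222040799668877119, -11059357596149022492437,
    9641837194183243864839, -6440682923800862111668, 3653398054930651299651, -3173370307773881082305,
    2781803516637560089579], 23865222566161111449600, 109),
  ([1], [4, 0, 1, -1, 0, 0, 0, 1, -1, 0, 0, 1], [1590583512886351874385703, -1563027590784850522923962,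
    1657605678567199831109155, -1872125994778346415071452, 1865424030224580718664908, -1686804614029469312935657,
    1411650842715178047633478, -936247997443732328316105, 548879311717462615653088, -463214962856411473176377,
    388166160291154007408733], 79703703858233852559360000, 227),
  ([1, 0, -1, 0, 1], [-1, 1, -1, 1, -1, 1, 0, 1], [2017360941, 220119023, 2254288109, 600261042, 2867400261,
    1420583263, 1740375860], 4353013, 9),
  ([-1, 1], [2, 1, 1, 1, 2, 1, 1, 0, 1, 1, 1], [1763924781758329, 5236113859192989, 5972326915809983,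
    2948074266651352, -353792077887931, -381929066923469, 2042168916243810, 3896950753673913, 2969985904544573,
    1082552885880463], 551061483945984, 30)] c default) := by
  decide +kernel

/-- For the twisted group ²E₆(q), realised over the field with q² elements (q a prime power), every irreducible complex representation of degree at least 2 has degree at least q(q⁶ − q³ + 1)(q⁴ + 1). -/
theorem result {K : Type*} [Field K] [Fintype K] (q : ℕ) (hq : IsPrimePow q) (hK : Fintype.card K = q ^ 2) :
    (∀ (k : ℕ) (ρ : Representation ℂ (Cfsg.Lie.twistedE6 K q) (Fin k → ℂ)), ρ.IsIrreducible → 2 ≤ k → q * (q ^ 6 - q ^ 3 + 1) * (q ^ 4 + 1) ≤ k) := by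
  obtain ⟨f, hf⟩ := Chev.tw_exists_frob hq two_ne_zero hK
  have q2 := hq.two_le
  have h1 := (S1070.result hq hK).1
  have h2 := S1066.result hq hK
  rw [← Chev.twE6_G1 hK hf] at h1 h2 ⊢
  intro k ρ hρ hk
  have h3 := Lie.ChevalleyDatum.twE6_dim hq hK hf hρ (by simpa using hk)
    (by classical exact S2335.result 6 q (by norm_num) (by decide) hK (by simp))
  have h4 := Int.natCast_dvd_natCast.2 (Ch.integral_finrank_dvd_card ρ)
  have h5 : ∀ n, 1 ≤ q ^ n := fun n => Nat.one_le_pow _ _ (by omega)
  have h6 : (((q ^ 6 - 1) / (q + 1) : ℕ) : ℤ) = q ^ 5 - q ^ 4 + q ^ 3 - q ^ 2 + q - 1 := by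
    push_cast [h5]
    exact Int.ediv_eq_of_eq_mul_left (by omega) (by ring)
  rw [Module.finrank_fin_fun] at h3 h4
  zify [h5] at h2
  have h7 := fun c hc hq e => Chev.not_dvd_of_chk (chk c hc) (q := q) hq (dvd_trans (Eq.dvd e) (h4.trans
    (Dvd.intro_left _ (h2.trans (by simp [Chev.evalL_binProdL]; ring)))))
  by_contra h8
  zify [show q ^ 3 ≤ q ^ 6 from Nat.pow_le_pow_right (by omega) (by norm_num)] at h8
  obtain h | ⟨c, h9, h⟩ := h3
  · obtain ⟨r, rfl⟩ := Nat.exists_eq_add_of_le' q2
    have : (r + 2) ^ 7 + (r + 2) ^ 5 + (r + 2) + 2 * (r + 2) ^ 9 ≤ (r + 2) ^ 11 + (r + 2) ^ 8 + (r + 2) ^ 4 := by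
      ring_nf; omega
    zify at h this
    push_cast at h8
    linarith
  simp only [List.map_cons, List.map_nil, List.sum_cons, List.sum_nil] at h
  zify [show 1 ≤ q by omega] at h
  obtain h9 | h9 := h9
  · exact h7 c (by omega) (by split_ifs <;> omega)
      (by rw [if_neg (by omega)]; simp only [Chev.evalL, Int.cast_id]; linear_combination -h)
  · rw [← Int.ofNat_le, h6] at h9
    obtain e | e : (k : ℤ) + 1 = q * (q ^ 6 - q ^ 3 + 1) * (q ^ 4 + 1) ∨ (k : ℤ) + 2 = q * (q ^ 6 - q ^ 3 + 1) * (q ^ 4 + 1) := by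
      have : q * (q ^ 6 - q ^ 3 + 1) * (q ^ 4 + 1) ≤ (k : ℤ) + 2 := by linarith
      omega
    · exact h7 6 (by omega) q2 (by simp only [le_refl, if_pos, Chev.evalL, Int.cast_id]; linear_combination -e)
    · exact h7 7 le_rfl q2 (by rw [if_pos (by omega)]; simp only [Chev.evalL, Int.cast_id]; linear_combination -e)

end Cfsg.Agent.S2341
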