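import Cfsg.Statements.S2342
import Cfsg.Agent.Chev.MdD4
import Cfsg.Agent.S1067
import Cfsg.Agent.S1071
import Cfsg.Agent.Ch.Integrality

set_option autoImplicit false
open Cfsg

namespace Cfsg.Agent.S2342

/-- For the twisted group ³D₄(q), realised over the field with q³ elements (q a prime power), every irreducible complex representation of degree at least 2 has degree at least q(q⁴ − q² + 1). -/
theorem result {K : Type*} [Field K] [Fintype K] (q : ℕ) (hq : IsPrimePow q) (hK : Fintype.card K = q ^ 3) :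
    (∀ (k : ℕ) (ρ : Representation ℂ (Cfsg.Lie.twistedD4 K q) (Fin k → ℂ)), ρ.IsIrreducible → 2 ≤ k → q * (q ^ 4 - q ^ 2 + 1) ≤ k) := by
  obtain ⟨f, hf⟩ := Chev.tw_exists_frob hq three_ne_zero hK
  have h1 := (S1071.result hq hK).1
  have h2 := S1067.result hq hK
  rw [← Chev.twD4_G1 hK hf] at h1 h2 ⊢
  intro k ρ hρ hk
  have h3 := Lie.ChevalleyDatum.twD4_min_degree hq hK hf hρ (by simpa using hk)
  have h4 := Ch.integral_finrank_dvd_card ρ
  have q2 := hq.two_le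
  have h5 : ∀ n, 1 ≤ q ^ n := fun n => Nat.one_le_pow _ _ hq.pos
  have h6 : q ^ 2 ≤ q ^ 4 := Nat.pow_le_pow_right hq.pos (by norm_num)
  rw [Module.finrank_fin_fun] at h3 h4
  rw [h2] at h4
  by_contra h7
  have h8 : k + q ^ 3 + 1 = q ^ 5 + q := by zify [h6] at h3 h7 ⊢; linarith
  obtain ⟨c, hc⟩ := h4
  zify [h5] at hc h8
  have h9 : q ^ 4 + q ^ 3 + 1 ∣ 81 := by
    zify
    refine ⟨81 - 81 * q ^ 3 - 81 * q ^ 4 + 81 * q ^ 6 + 162 * q ^ 7 + 81 * q ^ 8 - 81 * q ^ 9 - 243 * q ^ 10 -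
      243 * q ^ 11 + 112 * q ^ 12 - 20 * q ^ 13 - 282 * q ^ 14 + 114 * q ^ 15 + 676 * q ^ 16 + 319 * q ^ 17 -
      712 * q ^ 18 - 463 * q ^ 19 + 541 * q ^ 20 + 427 * q ^ 21 - 361 * q ^ 22 - 112 * q ^ 23 + 456 * q ^ 24 +
      312 * q ^ 25 - 295 * q ^ 26 - 361 * q ^ 27 + (361 * q ^ 3 + 656 * q ^ 2 + 344 * q - 112) * (q - 1) * c, ?_⟩
    linear_combination (361 * q ^ 3 + 656 * q ^ 2 + 344 * q - 112) * (hc + c * h8)
  have := Nat.le_of_dvd (by norm_num) h9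
  rcases q2.eq_or_lt with rfl | q3
  · norm_num at h9
  · have := Nat.pow_le_pow_left (show 3 ≤ q from q3) 4
    omega

end Cfsg.Agent.S2342
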