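import Cfsg.Statements.S2343
import Cfsg.Agent.Chev.ReeDeg
import Cfsg.Agent.Chev.ReeInst

set_option autoImplicit false
open Cfsg

namespace Cfsg.Agent.S2343

/-- For the Ree group ²G₂(q), q = 3^(2m+1) with m ≥ 1 (realised over the field with q elements), every irreducible complex representation of degree at least 2 has degree at least q² − q + 1. -/
theorem result {K : Type*} [Field K] [Fintype K] (m : ℕ) (hm : 1 ≤ m) (hK : Fintype.card K = 3 ^ (2 * m + 1)) :
    (∀ (k : ℕ) (ρ : Representation ℂ (Cfsg.Lie.twistedG2 K (3 ^ m)) (Fin k → ℂ)), ρ.IsIrreducible → 2 ≤ k → (3 ^ (2 * m + 1)) ^ 2 - 3 ^ (2 * m + 1) + 1 ≤ k) := by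
  intro k ρ hρ hk
  obtain ⟨R, -⟩ := Chev.ReeInst.exists_ree hK
  have hq : 3 < Fintype.card K := by
    rw [hK]
    calc 3 = 3 ^ 1 := rfl
      _ < 3 ^ (2 * m + 1) := Nat.pow_lt_pow_right (by norm_num) (by omega)
  have h := R.le_finrank_of_irreducible hq ρ hρ (by simpa using hk)
  rw [hK, Nat.mul_sub_one, ← sq] at h
  simpa using h

end Cfsg.Agent.S2343
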