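import Mathlib
import Cfsg.Statements.S2347
import Cfsg.Agent.Cl.Weil

set_option autoImplicit false
open Cfsg

namespace Cfsg.Agent.S2347

/-- Smallest degree of a non-linear irreducible complex representation of the symplectic group Sp_{2n} over a finite field of odd order q, n ≥ 2: every irreducible complex representation of degree at least 2 has degree at least (q^n − 1)/2, and there is an irreducible complex representation of exactly that degree (a Weil representation). -/
theorem result {F : Type*} [Field F] [Fintype F] [DecidableEq F] (n : ℕ) (hn : 2 ≤ n) (hodd : Odd (Fintype.card F)) :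
    (∀ (k : ℕ) (ρ : Representation ℂ (Matrix.symplecticGroup (Fin n) F) (Fin k → ℂ)), ρ.IsIrreducible → 2 ≤ k → (Fintype.card F ^ n - 1) / 2 ≤ k) ∧
    (∃ ρ : Representation ℂ (Matrix.symplecticGroup (Fin n) F) (Fin ((Fintype.card F ^ n - 1) / 2) → ℂ), ρ.IsIrreducible) := by
  have h2 : (2 : F) ≠ 0 := fun h => by
    have := FiniteField.even_card_of_char_two
      (ringChar.eq_iff.2 ((CharP.charP_iff_prime_eq_zero Nat.prime_two).2 (by exact_mod_cast h)))
    obtain ⟨k, hk⟩ := hodd
    omega
  refine ⟨fun k ρ hρ hk => ?_, ?_⟩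
  · obtain ⟨g, hg⟩ := Cl.repWt_ne_one_of_irreducible hρ (by simpa using hk)
    have h := Cl.repSp_bound_odd Cl.spB_nondegenerate Cl.spB_isAlt h2 Cl.sp_finrank_std (by omega)
      (ρ.comp (Cl.spStdEquiv n F).symm.toMonoidHom) ⟨Cl.spStdEquiv _ F g, by simpa using hg⟩
    rw [Nat.card_eq_fintype_card] at h
    exact Nat.div_le_of_le_mul (by simpa using h)
  obtain ⟨ψ, hψ⟩ := Cl.addChar_exists_ne_one F
  have : Nonempty (Fin n) := ⟨⟨0, by omega⟩⟩
  obtain ⟨k, ρ, hρ, hk⟩ := (Cl.isHeis_std n h2 hψ).exists_irreducible (ε := -1) (by simp)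
  have h3 : 2 * k + 1 = Fintype.card F ^ n := by
    have : ((2 * k + 1 : ℕ) : ℂ) = (Fintype.card F ^ n : ℕ) := by
      push_cast; rw [hk]; simp
    exact_mod_cast this
  obtain rfl : k = (Fintype.card F ^ n - 1) / 2 := by omega
  exact ⟨ρ.comp (Cl.spStdEquiv n F).toMonoidHom,
    (Ch.isIrreducible_comp_iff ρ _ (Cl.spStdEquiv n F).surjective).2 hρ⟩

end Cfsg.Agent.S2347
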