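import Cfsg.Statements.S2352
import Cfsg.Agent.Sym.Orbits

set_option autoImplicit false
open Cfsg

namespace Cfsg.Agent.S2352

/-- A non-trivial law holds in only finitely many alternating groups: for every non-trivial element w of the free group on countably many generators there is N such that for all n ≥ N some substitution of elements of the alternating group of degree n into w is not the identity. -/
theorem result (w : FreeGroup ℕ) (hw : w ≠ 1) :
    ∃ N : ℕ, ∀ n : ℕ, N ≤ n → ∃ f : ℕ → alternatingGroup (Fin n), FreeGroup.lift f w ≠ 1 := by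
  classical
  let S : Finset (FreeGroup ℕ) := (w.toWord.tails.map FreeGroup.mk).toFinset
  have hσ : ∀ a : ℕ, ∃ σ : Equiv.Perm S, ∀ x y : S, FreeGroup.of a * x = y → σ x = y := by
    intro a
    obtain ⟨σ, h⟩ := Equiv.Perm.exists_extending_pair
      (f := fun x : {x : S // FreeGroup.of a * x ∈ S} => x.1)
      (g := fun x => (⟨_, x.2⟩ : S)) Subtype.val_injective
      (fun x y h => Subtype.ext (Subtype.ext (mul_left_cancel (congrArg Subtype.val h))))
    exact ⟨σ, fun x y e => (h ⟨x, e ▸ y.2⟩).trans (Subtype.ext e)⟩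
  choose σ hσ using hσ
  have hS : ∀ L, L <:+ w.toWord → FreeGroup.mk L ∈ S := fun L hL => by
    simp only [S, List.mem_toFinset, List.mem_map, List.mem_tails]
    exact ⟨L, hL, rfl⟩
  have h1 : (1 : FreeGroup ℕ) ∈ S := hS [] List.nil_suffix
  have key : ∀ (L : List (ℕ × Bool)) (hL : L <:+ w.toWord),
      FreeGroup.lift σ (FreeGroup.mk L) ⟨1, h1⟩ = ⟨_, hS L hL⟩ := by
    intro L
    induction L with
    | nil => intro _; rfl
    | cons x L ih =>
      intro hL
      have hL' := (List.suffix_cons x L).trans hL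
      have e : FreeGroup.mk (x :: L) = FreeGroup.mk [x] * FreeGroup.mk L :=
        (FreeGroup.mul_mk (L₁ := [x])).symm
      have e' : FreeGroup.lift σ (FreeGroup.mk (x :: L)) =
          FreeGroup.lift σ (FreeGroup.mk [x]) * FreeGroup.lift σ (FreeGroup.mk L) := by
        rw [e, map_mul]
      rw [e', Equiv.Perm.mul_apply, ih hL']
      obtain ⟨a, _ | _⟩ := x
      · have e2 : FreeGroup.mk [(a, false)] = (FreeGroup.of a)⁻¹ := rfl
        rw [e2, map_inv, FreeGroup.lift_apply_of, Equiv.Perm.inv_eq_iff_eq, eq_comm]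
        apply hσ
        simp only [e, e2, mul_inv_cancel_left]
      · have e2 : FreeGroup.mk [(a, true)] = FreeGroup.of a := rfl
        rw [e2, FreeGroup.lift_apply_of]
        exact hσ _ _ _ e.symm
  refine ⟨S.card + 2, fun n hn => ?_⟩
  obtain ⟨φ, hφ⟩ := Sym.exists_injective_perm_alternating (β := S) (α := Fin n) (by simpa using hn)
  refine ⟨φ ∘ σ, fun h => hw ?_⟩
  have h2 : FreeGroup.lift (φ ∘ σ) = φ.comp (FreeGroup.lift σ) := by ext; simp
  rw [h2, MonoidHom.comp_apply, map_eq_one_iff φ hφ] at h
  have h4 := congrArg Subtype.val (key _ List.suffix_rfl)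
  simp only [FreeGroup.mk_toWord, h] at h4
  exact h4.symm

end Cfsg.Agent.S2352
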