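import Cfsg.Statements.S2353
import Cfsg.Agent.FG.LawSL2

set_option autoImplicit false
open Cfsg

namespace Cfsg.Agent.S2353

open Cfsg.Agent.FG.Law Matrix

/-- A non-trivial law holds in PSL_2 over only finitely many finite fields: for every non-trivial element w of the free group on countably many generators there is N such that over every finite field with at least N elements some substitution of elements of PSL_2 into w is not the identity. -/
theorem result (w : FreeGroup ℕ) (hw : w ≠ 1) :
    ∃ N : ℕ, ∀ (F : Type*) [Field F] [Fintype F], N ≤ Fintype.card F →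
      ∃ f : ℕ → Matrix.ProjectiveSpecialLinearGroup (Fin 2) F, FreeGroup.lift f w ≠ 1 := by
  obtain ⟨M, hM⟩ := exists_not_isLaw_sl2 (comm_ne_one hw)
  refine ⟨M, fun F _ _ hF => ?_⟩
  by_contra hc
  push Not at hc
  have h1 : IsLaw w (SpecialLinearGroup (Fin 2) F ⧸ Subgroup.center _) := hc
  let e : Shrink.{0} F ≃+* F := (equivShrink.{0} F).symm.ringEquiv
  have : Fintype (Shrink.{0} F) := Fintype.ofEquiv F e.symm.toEquiv
  refine hM (Shrink.{0} F) (by rwa [Fintype.card_congr e.toEquiv]) ?_
  refine h1.comm_of_quotient_center.of_injective (SpecialLinearGroup.map e.toRingHom) ?_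
  intro A B h
  refine Subtype.ext (Matrix.ext fun i j => ?_)
  exact e.injective (congrFun (congrFun (congrArg Subtype.val h) i) j)

end Cfsg.Agent.S2353
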