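import Mathlib
import Cfsg.Statements.S2355
import Cfsg.Agent.FG.LawSL2
import Cfsg.Agent.Cl.LinearBasic
import Cfsg.Agent.Cl.UField
import Cfsg.Agent.S0281

set_option autoImplicit false
open Cfsg

namespace Cfsg.Agent.S2355

section pre
open Cfsg.Agent.FG.Law Matrix

section emb

variable {Y : Type} [Group Y] {F : Type} [Field F]

theorem eq_one_of_perfect (hY : commutator Y = ⊤) {A : Type*} [CommGroup A] (φ : Y →* A) (y : Y) :
    φ y = 1 := by
  have : commutator Y ≤ φ.ker := Abelianization.commutator_subset_ker φ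
  exact this (hY ▸ Subgroup.mem_top y)

theorem det_eq_one (hY : commutator Y = ⊤) {ι : Type} [Fintype ι] [DecidableEq ι]
    (ρ : Y →* Matrix ι ι F) (y : Y) : (ρ y).det = 1 := by
  have := eq_one_of_perfect hY (Matrix.detMonoidHom.comp ρ).toHomUnits y
  exact congrArg Units.val this

/-- A matrix representation of determinant one as a map to `SL`. -/
def toSL {ι : Type} [Fintype ι] [DecidableEq ι] (ρ : Y →* Matrix ι ι F) (h : ∀ y, (ρ y).det = 1) :
    Y →* SpecialLinearGroup ι F where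
  toFun y := ⟨ρ y, h y⟩
  map_one' := Subtype.ext ρ.map_one
  map_mul' a b := Subtype.ext (ρ.map_mul a b)

/-- Extend a matrix by an identity block. -/
def ext {α β ι : Type} [Fintype α] [DecidableEq α] [Fintype β] [DecidableEq β] [Fintype ι]
    [DecidableEq ι] (e : α ⊕ β ≃ ι) : Matrix α α F →* Matrix ι ι F where
  toFun A := reindex e e (fromBlocks A 0 0 1)
  map_one' := by simp
  map_mul' A B := by
    simp only [reindex_apply, submatrix_mul_equiv, fromBlocks_multiply]; simp

theorem ext_injective {α β ι : Type} [Fintype α] [DecidableEq α] [Fintype β] [DecidableEq β]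
    [Fintype ι] [DecidableEq ι] (e : α ⊕ β ≃ ι) : Function.Injective (ext (F := F) e) := by
  intro A B h
  have := (reindex e e).injective h
  exact (fromBlocks_inj.1 this).1

theorem ext_mulVec {α β ι : Type} [Fintype α] [DecidableEq α] [Fintype β] [DecidableEq β]
    [Fintype ι] [DecidableEq ι] (e : α ⊕ β ≃ ι) (A : Matrix α α F) (v : ι → F) :
    (∀ a, (ext e A *ᵥ v) (e (.inl a)) = (A *ᵥ fun a => v (e (.inl a))) a) ∧
    ∀ b, (ext e A *ᵥ v) (e (.inr b)) = v (e (.inr b)) := by
  have : ext e A *ᵥ v = (fromBlocks A 0 0 1 *ᵥ (v ∘ e)) ∘ e.symm := by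
    change (fromBlocks A 0 0 1).submatrix e.symm e.symm *ᵥ v = _
    rw [submatrix_mulVec_equiv]; rfl
  rw [this, fromBlocks_mulVec]
  constructor
  · intro a; simp; rfl
  · intro b; simp

theorem det_ext {α β ι : Type} [Fintype α] [DecidableEq α] [Fintype β] [DecidableEq β]
    [Fintype ι] [DecidableEq ι] (e : α ⊕ β ≃ ι) (A : Matrix α α F) : (ext e A).det = A.det := by
  change (reindex e e (fromBlocks A 0 0 1)).det = _
  rw [det_reindex_self, det_fromBlocks_zero₂₁]; simp

/-- The Levi embedding. -/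
def levi {α : Type} [Fintype α] [DecidableEq α] (ρ : Y →* Matrix α α F) :
    Y →* Matrix (α ⊕ α) (α ⊕ α) F where
  toFun y := fromBlocks (ρ y) 0 0 (ρ y⁻¹)ᵀ
  map_one' := by simp
  map_mul' a b := by simp [fromBlocks_multiply]

theorem levi_injective {α : Type} [Fintype α] [DecidableEq α] {ρ : Y →* Matrix α α F}
    (h : Function.Injective ρ) : Function.Injective (levi ρ) := fun _ _ e =>
  h (fromBlocks_inj.1 e).1

theorem levi_quad {m : ℕ} (ρ : Y →* Matrix (Fin m) (Fin m) F) (y : Y) (v : Fin m ⊕ Fin m → F) :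
    quadFormPlus m F (levi ρ y *ᵥ v) = quadFormPlus m F v := by
  change quadFormPlus m F (fromBlocks (ρ y) 0 0 (ρ y⁻¹)ᵀ *ᵥ v) = _
  rw [fromBlocks_mulVec]
  simp only [quadFormPlus, zero_mulVec, add_zero, zero_add, Sum.elim_inl, Sum.elim_inr]
  change (ρ y *ᵥ (v ∘ Sum.inl)) ⬝ᵥ ((ρ y⁻¹)ᵀ *ᵥ (v ∘ Sum.inr)) = (v ∘ Sum.inl) ⬝ᵥ (v ∘ Sum.inr)
  rw [dotProduct_mulVec, vecMul_transpose, mulVec_mulVec, ← map_mul, inv_mul_cancel, map_one,
    one_mulVec]

theorem levi_mem_sp {m : ℕ} (ρ : Y →* Matrix (Fin m) (Fin m) F) (y : Y) :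
    levi ρ y ∈ symplecticGroup (Fin m) F := by
  rw [SymplecticGroup.mem_iff]
  change fromBlocks (ρ y) 0 0 (ρ y⁻¹)ᵀ * J (Fin m) F * (fromBlocks (ρ y) 0 0 (ρ y⁻¹)ᵀ)ᵀ = _
  have h1 : ρ y * ρ y⁻¹ = 1 := by rw [← map_mul, mul_inv_cancel, map_one]
  have h2 : (ρ y⁻¹)ᵀ * (ρ y)ᵀ = 1 := by rw [← transpose_mul, h1, transpose_one]
  simp [J, fromBlocks_transpose, fromBlocks_multiply, h1, h2]

theorem not_isLaw_omega {w : FreeGroup ℕ} (hY : commutator Y = ⊤) (hw : ¬ IsLaw w Y) {ι : Type}
    [Fintype ι] [DecidableEq ι] (Q : (ι → F) → F) (ρ : Y →* Matrix ι ι F)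
    (hρ : Function.Injective ρ) (hQ : ∀ y v, Q (ρ y *ᵥ v) = Q v) : ¬ IsLaw w (Omega F Q) := by
  intro h
  let φ : Y →* isometryGroup F Q := ρ.toHomUnits.codRestrict _ fun y u _ => hQ y u
  have hφ : ∀ y, φ y ∈ Omega F Q := by
    intro y
    have : (commutator Y).map φ ≤ commutator (isometryGroup F Q) := by
      rw [commutator_def, Subgroup.map_commutator]
      exact Subgroup.commutator_mono le_top le_top
    exact this ⟨y, hY ▸ Subgroup.mem_top y, rfl⟩
  refine hw (h.of_injective (φ.codRestrict _ hφ) fun a b e => hρ ?_)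
  exact congrArg (fun z : Omega F Q => (z.1.1 : Matrix ι ι F)) e

end emb

theorem exists_perm_rep {w : FreeGroup ℕ} (hw : w ≠ 1) : ∃ (M : ℕ) (Y : Type) (_ : Group Y),
    commutator Y = ⊤ ∧ ¬ IsLaw w Y ∧
      ∀ n, M ≤ n → ∃ π : Y →* Equiv.Perm (Fin n), Function.Injective π := by
  obtain ⟨M, hM⟩ := exists_not_isLaw_sl2 hw
  obtain ⟨p, hp, hpp⟩ := Nat.exists_infinite_primes (M + 5)
  have := Fact.mk hpp
  refine ⟨Nat.card (SpecialLinearGroup (Fin 2) (ZMod p)), SpecialLinearGroup (Fin 2) (ZMod p),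
    inferInstance, Cl.sl_commutator_eq_top (Or.inr ⟨2, ?_, ?_⟩), hM _ (by rw [ZMod.card]; omega), ?_⟩
  · intro e
    have : ((2 : ℕ) : ZMod p) = 0 := by exact_mod_cast e
    rw [ZMod.natCast_eq_zero_iff] at this
    have := Nat.le_of_dvd (by norm_num) this
    omega
  · intro e
    have : ((3 : ℕ) : ZMod p) = 0 := by push_cast; linear_combination e
    rw [ZMod.natCast_eq_zero_iff] at this
    have := Nat.le_of_dvd (by norm_num) this
    omega
  · intro n hn
    have := Fintype.ofFinite (SpecialLinearGroup (Fin 2) (ZMod p))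
    obtain ⟨ι⟩ : Nonempty (SpecialLinearGroup (Fin 2) (ZMod p) ↪ Fin n) :=
      Function.Embedding.nonempty_of_card_le (by rwa [Fintype.card_fin, ← Nat.card_eq_fintype_card])
    exact ⟨(Equiv.Perm.viaEmbeddingHom ι).comp (MulAction.toPermHom _ _),
      (Equiv.Perm.viaEmbeddingHom_injective ι).comp MulAction.toPerm_injective⟩

theorem permHom_injective (n : ℕ) (F : Type) [Field F] :
    Function.Injective (Matrix.permMatrixHom (n := Fin n) (R := F)) := by
  rw [injective_iff_map_eq_one]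
  intro σ hσ
  have h : ∀ v : Fin n → F, v ∘ ⇑(σ⁻¹ : Equiv.Perm (Fin n)) = v := fun v => by
    rw [← permMatrix_mulVec]
    change Matrix.permMatrixHom σ *ᵥ v = v
    rw [hσ, one_mulVec]
  ext i
  have := congrFun (h (Pi.single i 1)) (σ i)
  simp only [Function.comp, Equiv.Perm.coe_inv, Equiv.symm_apply_apply, Pi.single_eq_same] at this
  by_contra hne
  rw [Pi.single_eq_of_ne (show σ i ≠ i from fun e => hne (congrArg Fin.val e))] at this
  exact one_ne_zero this

theorem exists_rep {w : FreeGroup ℕ} (hw : w ≠ 1) : ∃ M : ℕ, ∀ (F : Type) [Field F] [Fintype F]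
    (m : ℕ), 2 ≤ m → (M ≤ m ∨ M ≤ Fintype.card F) → ∃ (Y : Type) (_ : Group Y),
      commutator Y = ⊤ ∧ ¬ IsLaw w Y ∧
        ∃ ρ : Y →* Matrix (Fin m) (Fin m) F, Function.Injective ρ := by
  obtain ⟨M, hM⟩ := exists_not_isLaw_sl2 hw
  obtain ⟨M', Y, _, hY, hwY, hπ⟩ := exists_perm_rep hw
  refine ⟨M + M' + 4, fun F _ _ m hm h => ?_⟩
  rcases h with h | h
  · obtain ⟨π, hπ⟩ := hπ m (by omega)
    exact ⟨Y, inferInstance, hY, hwY, Matrix.permMatrixHom.comp π, (permHom_injective m F).comp hπ⟩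
  · classical
    obtain ⟨a, ha⟩ : ∃ a : F, a ∉ ({0, 1, -1} : Finset F) := by
      by_contra hc
      push Not at hc
      have h1 := Finset.card_le_card (show (Finset.univ : Finset F) ⊆ {0, 1, -1} from fun a _ => hc a)
      have h2 : ({0, 1, -1} : Finset F).card ≤ 3 := Finset.card_le_three
      rw [Finset.card_univ] at h1
      omega
    simp only [Finset.mem_insert, Finset.mem_singleton, not_or] at ha
    obtain ⟨k, rfl⟩ := Nat.exists_eq_add_of_le hm
    refine ⟨SpecialLinearGroup (Fin 2) F, inferInstance,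
      Cl.sl_commutator_eq_top (Or.inr ⟨a, ha.1, fun e => ?_⟩), hM F (by omega),
      (ext finSumFinEquiv).comp SpecialLinearGroup.coeMonoidHom,
      (ext_injective _).comp SpecialLinearGroup.coeMonoidHom_injective⟩
    rcases sq_eq_one_iff.1 e with e | e
    · exact ha.2.1 e
    · exact ha.2.2 e

theorem not_isLaw_su {w : FreeGroup ℕ} (hw : w ≠ 1) : ∃ M : ℕ, ∀ (F : Type) [Field F] [Fintype F]
    (n q : ℕ), Fintype.card F = q ^ 2 → 2 ≤ n → (M ≤ n ∨ M ≤ q) → ¬ IsLaw w (SU n F q) := by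
  obtain ⟨M, hM⟩ := exists_not_isLaw_sl2 hw
  obtain ⟨M', Y, _, hY, hwY, hπ⟩ := exists_perm_rep hw
  refine ⟨M + M', fun F _ _ n q hF hn h hlaw => ?_⟩
  rcases h with h | h
  · obtain ⟨π, hπ⟩ := hπ n (by omega)
    let ρ : Y →* Matrix (Fin n) (Fin n) F := Matrix.permMatrixHom.comp π
    have hmem : ∀ y, toSL ρ (det_eq_one hY ρ) y ∈ SU n F q := by
      intro y u v
      change hermForm n F q ((π y)⁻¹.permMatrix F *ᵥ u) ((π y)⁻¹.permMatrix F *ᵥ v) = _
      rw [permMatrix_mulVec, permMatrix_mulVec]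
      exact Equiv.sum_comp (π y)⁻¹ fun i => u i * v i ^ q
    refine hwY (hlaw.of_injective ((toSL ρ (det_eq_one hY ρ)).codRestrict _ hmem) fun a b e => ?_)
    exact ((permHom_injective n F).comp hπ)
      (congrArg (fun z : SU n F q => (z.1.1 : Matrix (Fin n) (Fin n) F)) e)
  · obtain ⟨σ, hσ⟩ := Cl.exists_uField hF
    have := Fintype.ofFinite (Cl.uFix σ)
    have hK : Fintype.card (Cl.uFix σ) = q := by rw [← Nat.card_eq_fintype_card, hσ.card_uFix]
    obtain ⟨e⟩ := Cfsg.Agent.S0281.result (K := Cl.uFix σ) hF hK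
    obtain ⟨k, rfl⟩ := Nat.exists_eq_add_of_le hn
    let ρ : SU 2 F q →* Matrix (Fin (2 + k)) (Fin (2 + k)) F :=
      (ext finSumFinEquiv).comp (SpecialLinearGroup.coeMonoidHom.comp (SU 2 F q).subtype)
    have hdet : ∀ y, (ρ y).det = 1 := fun y => (det_ext _ _).trans y.1.2
    have hmem : ∀ y, toSL ρ hdet y ∈ SU (2 + k) F q := by
      intro y u v
      change hermForm _ F q (ext finSumFinEquiv y.1.1 *ᵥ u) (ext finSumFinEquiv y.1.1 *ᵥ v) = _
      unfold hermForm
      rw [← finSumFinEquiv.sum_comp, ← finSumFinEquiv.sum_comp, Fintype.sum_sum_type,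
        Fintype.sum_sum_type]
      simp only [(ext_mulVec finSumFinEquiv y.1.1 _).1, (ext_mulVec finSumFinEquiv y.1.1 _).2]
      congr 1
      exact y.2 _ _
    have h1 : IsLaw w (SU 2 F q) := by
      refine hlaw.of_injective ((toSL ρ hdet).codRestrict _ hmem) fun a b e => ?_
      have := ext_injective _ (congrArg (fun z : SU (2 + k) F q => (z.1.1 : Matrix _ _ F)) e)
      exact Subtype.ext (Subtype.ext this)
    exact hM _ (by omega) (h1.of_injective e.symm.toMonoidHom e.symm.injective)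

theorem card_le {G X : Type*} [Group G] [Group X] (e : G ≃* X ⧸ Subgroup.center X) {ι F : Type}
    [Fintype ι] [Fintype F] (f : X → Matrix ι ι F) (hf : Function.Injective f) {A B : ℕ}
    (hA : Fintype.card F ≤ A) (hB : Fintype.card ι ≤ B) (h0 : 0 < A) : Nat.card G ≤ A ^ (B * B) := by
  classical
  have : Finite X := Finite.of_injective f hf
  rw [Nat.card_congr e.toEquiv]
  refine (Nat.card_le_card_of_surjective _ QuotientGroup.mk_surjective).trans ?_
  refine (Nat.card_le_card_of_injective f hf).trans ?_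
  change Nat.card (ι → ι → F) ≤ _
  rw [Nat.card_eq_fintype_card, Fintype.card_fun, Fintype.card_fun, ← pow_mul]
  exact (Nat.pow_le_pow_left hA _).trans (Nat.pow_le_pow_right h0 (Nat.mul_le_mul hB hB))

end pre


/-- A non-trivial law is satisfied by only finitely many finite simple groups that are alternating or classical, up to isomorphism: for every non-trivial element w of the free group on countably many generators there is a bound N such that every alternating group of degree ≥ 5 and every simple classical group (linear, symplectic, unitary or orthogonal, in this problem's sense) in which w is a law has order at most N. -/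
theorem result (w : FreeGroup ℕ) (hw : w ≠ 1) :
    ∃ N : ℕ, ∀ (G : Type*) [Group G] [Finite G],
      (Cfsg.IsAlternating G ∨ Cfsg.IsPSL G ∨ Cfsg.IsPSp G ∨ Cfsg.IsPSU G ∨ Cfsg.IsPOmegaOdd G ∨
          Cfsg.IsPOmegaPlus G ∨ Cfsg.IsPOmegaMinus G) →
      (∀ f : ℕ → G, FreeGroup.lift f w = 1) → Nat.card G ≤ N := by
  have hw' := FG.Law.comm_ne_one hw
  obtain ⟨M₁, Y₁, _, hY₁, hwY₁, hπ⟩ := exists_perm_rep hw
  obtain ⟨M₂, h₂⟩ := exists_rep hw'
  obtain ⟨M₃, h₃⟩ := not_isLaw_su hw'
  set M := M₁ + M₂ + M₃ + 1 with hM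
  have hMM : M ≤ M ^ 2 := by nlinarith
  have hM0 : 0 < M ^ 2 := by positivity
  refine ⟨(M ^ 2) ^ ((2 * M + 2) * (2 * M + 2)) + M.factorial, fun G _ _ hG hlaw => ?_⟩
  have hlaw : FG.Law.IsLaw w G := hlaw
  have key : ∀ {X : Type} [Group X], (G ≃* X ⧸ Subgroup.center X) → FG.Law.IsLaw (FG.Law.comm w) X :=
    fun e => (hlaw.of_injective e.symm.toMonoidHom e.symm.injective).comm_of_quotient_center
  rcases hG with ⟨n, -, ⟨e⟩⟩ | ⟨F, _, _, n, hn, -, ⟨e⟩⟩ | ⟨F, _, _, n, hn, -, ⟨e⟩⟩ |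
    ⟨F, _, _, n, q, hq, hn, -, ⟨e⟩⟩ | ⟨F, _, _, n, hn, -, ⟨e⟩⟩ | ⟨F, _, _, n, hn, ⟨e⟩⟩ |
    ⟨F, _, _, n, a, b, hn, -, ⟨e⟩⟩
  · have hlt : n ≤ M := by
      by_contra hc
      obtain ⟨π, hπ⟩ := hπ n (by omega)
      have hmem : ∀ y, π y ∈ alternatingGroup (Fin n) := fun y =>
        Equiv.Perm.mem_alternatingGroup.2 (eq_one_of_perfect hY₁ (Equiv.Perm.sign.comp π) y)
      exact hwY₁ ((hlaw.of_injective e.symm.toMonoidHom e.symm.injective).of_injective
        (π.codRestrict _ hmem) fun a b h => hπ (congrArg Subtype.val h))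
    refine le_add_left ?_
    rw [Nat.card_congr e.toEquiv]
    refine (Subgroup.card_le_card_group _).trans ?_
    rw [Nat.card_perm, Nat.card_fin]
    exact Nat.factorial_le hlt
  · have hlt : ¬ (M₂ ≤ n ∨ M₂ ≤ Fintype.card F) := by
      intro hc
      obtain ⟨Y, _, hY, hwY, ρ, hρ⟩ := h₂ F n hn hc
      exact hwY ((key e).of_injective (toSL ρ (det_eq_one hY ρ)) fun a b h =>
        hρ (congrArg Subtype.val h))
    refine le_add_right (card_le e Subtype.val Subtype.val_injective (by omega) ?_ hM0)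
    rw [Fintype.card_fin]; omega
  · have hlt : ¬ (M₂ ≤ n ∨ M₂ ≤ Fintype.card F) := by
      intro hc
      obtain ⟨Y, _, hY, hwY, ρ, hρ⟩ := h₂ F n hn hc
      exact hwY ((key e).of_injective ((levi ρ).codRestrict _ (levi_mem_sp ρ)) fun a b h =>
        levi_injective hρ (congrArg Subtype.val h))
    refine le_add_right (card_le e Subtype.val Subtype.val_injective (by omega) ?_ hM0)
    rw [Fintype.card_sum, Fintype.card_fin]; omega
  · have hlt : ¬ (M₃ ≤ n ∨ M₃ ≤ q) := fun hc => h₃ F n q hq (by omega) hc (key e)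
    refine le_add_right (card_le e (fun z => z.1.1) (fun a b h => Subtype.ext (Subtype.ext h))
      (by rw [hq]; exact Nat.pow_le_pow_left (by omega) 2) ?_ hM0)
    rw [Fintype.card_fin]; omega
  · have hlt : ¬ (M₂ ≤ n ∨ M₂ ≤ Fintype.card F) := by
      intro hc
      obtain ⟨Y, _, hY, hwY, ρ, hρ⟩ := h₂ F n (by omega) hc
      refine not_isLaw_omega hY hwY _ ((ext (Equiv.sumComm _ Unit)).comp (levi ρ))
        ((ext_injective _).comp (levi_injective hρ)) (fun y v => ?_) (key e)
      obtain ⟨k1, k2⟩ := ext_mulVec (Equiv.sumComm _ Unit) (levi ρ y) v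
      have k3 := levi_quad ρ y fun a => v (.inr a)
      simp only [Equiv.sumComm_apply, Sum.swap_inl, Sum.swap_inr] at k1 k2
      simp only [quadFormOdd, MonoidHom.comp_apply, k1, k2]
      congr 1
    refine le_add_right (card_le e (fun z => z.1.1.1)
      (fun a b h => Subtype.ext (Subtype.ext (Units.ext h))) (by omega) ?_ hM0)
    simp only [Fintype.card_sum, Fintype.card_fin, Fintype.card_unit]; omega
  · have hlt : ¬ (M₂ ≤ n ∨ M₂ ≤ Fintype.card F) := by
      intro hc
      obtain ⟨Y, _, hY, hwY, ρ, hρ⟩ := h₂ F n (by omega) hc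
      exact not_isLaw_omega hY hwY _ (levi ρ) (levi_injective hρ) (levi_quad ρ) (key e)
    refine le_add_right (card_le e (fun z => z.1.1.1)
      (fun a b h => Subtype.ext (Subtype.ext (Units.ext h))) (by omega) ?_ hM0)
    simp only [Fintype.card_sum, Fintype.card_fin]; omega
  · have hlt : ¬ (M₂ ≤ n - 1 ∨ M₂ ≤ Fintype.card F) := by
      intro hc
      obtain ⟨Y, _, hY, hwY, ρ, hρ⟩ := h₂ F (n - 1) (by omega) hc
      refine not_isLaw_omega hY hwY _ ((ext (Equiv.refl _)).comp (levi ρ))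
        ((ext_injective _).comp (levi_injective hρ)) (fun y v => ?_) (key e)
      obtain ⟨k1, k2⟩ := ext_mulVec (Equiv.refl (_ ⊕ Fin 2)) (levi ρ y) v
      have k3 := levi_quad ρ y fun a => v (.inl a)
      simp only [Equiv.refl_apply] at k1 k2
      simp only [quadFormMinus, MonoidHom.comp_apply, k1, k2]
      congr 1
    refine le_add_right (card_le e (fun z => z.1.1.1)
      (fun a b h => Subtype.ext (Subtype.ext (Units.ext h))) (by omega) ?_ hM0)
    simp only [Fintype.card_sum, Fintype.card_fin]; omega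

end Cfsg.Agent.S2355
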