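import Mathlib
import Cfsg.Statements.S2356
import Cfsg.Agent.S2360

set_option autoImplicit false
open Cfsg

namespace Cfsg.Agent.S2356

open Cfsg.Agent.Cl Module

variable {F : Type*} [Field F] {σ : F →+* F} {V : Type*} [AddCommGroup V] [Module F V]
  {B : V →ₗ[F] V →ₛₗ[σ] F} {q : ℕ} [FiniteDimensional F V]

theorem exists_unit (hB : IsHerm B) (hq : UField σ q) (hq2 : q ≠ 2) (hn : finrank F V = 3)
    {p : V} (hp : B p p = 1) (r : V) : ∃ s, B s s = 1 ∧ B p s = 0 ∧ B s r * B r s ≠ 1 := by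
  have := hq.finite
  have hB' := hB.restrict_uPerp (hB.disjoint_span_singleton (p := p) (by simp [hp]))
  have hn' := hB.finrank_uPerp_singleton (p := p) (by rintro rfl; simp at hp) hn
  let r' : uPerp B (F ∙ p) := ⟨r - B r p • p, mem_uPerp_span_singleton.2 (by simp [hp, hB.symm])⟩
  suffices ∃ s : uPerp B (F ∙ p), B s s = 1 ∧ B s r' * B r' s ≠ 1 by
    obtain ⟨s, h1, h2⟩ := this
    have h3 := mem_uPerp_span_singleton.1 s.2
    exact ⟨s, h1, h3, by simpa [r', h3, hB.eq_zero_symm h3] using h2⟩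
  by_cases h0 : r' = 0
  · have : Nontrivial (uPerp B (F ∙ p)) := Module.finrank_pos_iff.1 (by rw [hn']; omega)
    obtain ⟨s, hs⟩ := hB'.exists_norm_one
    exact ⟨s, hs, by simp [h0]⟩
  by_cases h1 : B r' r' = 0
  · obtain ⟨f, hf⟩ := hB'.exists_uHypPair h0 h1
    obtain ⟨c, h2, h3, h4⟩ := hq.exists_fixed_ne hq2
    obtain ⟨b, rfl⟩ := hq.exists_norm_eq h2
    obtain ⟨a, ha⟩ := hB.exists_trace_one
    have hb : σ b ≠ 0 := right_ne_zero_of_mul h3
    have hb' : b ≠ 0 := left_ne_zero_of_mul h3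
    have e1 : B r' f = 1 := hf.pair
    have e2 : B f r' = 1 := hf.pair'
    have e3 : B f f = 0 := hf.right
    refine ⟨(a / σ b) • r' + b • f, ?_, ?_⟩
    · simp only [Submodule.coe_add, Submodule.coe_smul, map_add, map_smul, map_smulₛₗ,
        LinearMap.add_apply, LinearMap.smul_apply, smul_eq_mul, h1, e1, e2, e3, map_div₀, hB.invol]
      field_simp
      linear_combination (b * σ b) * ha
    · simpa [h1, e1, e2] using h4
  · obtain ⟨s, hs, hs'⟩ := hB'.exists_perp_norm_one hn'.ge (p := r') h1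
    exact ⟨s, hs, by rw [show B r' s = 0 from hs']; simp⟩

theorem aux (hB : IsHerm B) (hq : UField σ q) (hodd : Odd q) (hn : finrank F V = 3) (t : USG B)
    (ht : t ≠ 1) (ht2 : t * t = 1) :
    Nat.card {x : USG B // x ≠ 1 ∧ x * x = 1 ∧ x ≠ t ∧ Commute t x} = q * (q - 1) ∧
    Nat.card {x : USG B // x ≠ 1 ∧ x * x = 1 ∧ ¬ Commute t x ∧
        ∃ y : USG B, y ≠ 1 ∧ y * y = 1 ∧ Commute t y ∧ Commute y x} = q * (q - 2) * (q ^ 2 - 1) ∧
    Nat.card {x : USG B // x ≠ 1 ∧ x * x = 1 ∧ ¬ Commute t x ∧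
        ∀ y : USG B, y ≠ 1 → y * y = 1 → ¬ (Commute t y ∧ Commute y x)} = (q + 1) * (q ^ 2 - 1) ∧
    ∀ x : USG B, x ≠ 1 → x * x = 1 →
      ∃ y z : USG B, y ≠ 1 ∧ y * y = 1 ∧ z ≠ 1 ∧ z * z = 1 ∧
        Commute t y ∧ Commute y z ∧ Commute z x := by
  have := hq.finite
  have := Fintype.ofFinite F
  have : Finite V := Module.finite_of_finite F
  have h2 := hq.two_ne_zero hodd
  have hq2 := hq.two_le
  have hq1 : 1 ≤ q := by omega
  have hq3 : 1 ≤ q ^ 2 := Nat.one_le_pow _ _ hq1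
  obtain ⟨p, hp, hp'⟩ := (hB.involution_iff h2 hn).1 ⟨ht, ht2⟩
  have hB' := hB.restrict_uPerp (hB.disjoint_span_singleton (p := p) (by simp [hp]))
  have hn' := hB.finrank_uPerp_singleton (p := p) (by rintro rfl; simp at hp) hn
  have mk : ∀ s, B s s = 1 → ∃ y : USG B, y ≠ 1 ∧ y * y = 1 ∧ y.1 = uInv B s := fun s hs =>
    have := (hB.involution_iff h2 hn (t := ⟨_, hB.uInv_mem_USG (by rw [hn]; decide) hs⟩)).2
      ⟨s, hs, rfl⟩
    ⟨_, this.1, this.2, rfl⟩
  have nc : ∀ (x : USG B) r, B r r = 1 → x.1 = uInv B r →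
      (¬ Commute t x ↔ B r p ≠ 0 ∧ r - B r p • p ≠ 0) := fun x r hr hx => by
    rw [S2360.comm_coe, hp', hx, hB.commute_uInv_uInv_iff h2 hp hr, not_or, and_comm]
    refine and_congr ⟨fun h e => h (hB.eq_zero_symm e), fun h e => h (hB.eq_zero_symm e)⟩
      (not_congr ⟨?_, fun h => ⟨_, sub_eq_zero.1 h⟩⟩)
    rintro ⟨a, rfl⟩
    simp [hp]
  have key : ∀ (x : USG B) r, B r r = 1 → x.1 = uInv B r → ¬ Commute t x →
      ((∃ y : USG B, y ≠ 1 ∧ y * y = 1 ∧ Commute t y ∧ Commute y x) ↔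
        B r p * σ (B r p) ≠ 1) := fun x r hr hx hc => by
    have hc' := hc
    rw [S2360.comm_coe, hp', hx, hB.commute_uInv_uInv_iff h2 hp hr, not_or] at hc'
    rw [hB.symm, mul_comm, ← hB.exists_perp_perp_iff hn hp hr hc'.1]
    constructor
    · rintro ⟨y, h3, h4, h5, h6⟩
      obtain ⟨s, hs, hs'⟩ := (hB.involution_iff h2 hn).1 ⟨h3, h4⟩
      refine ⟨s, hs, ?_, ?_⟩
      · refine ((hB.commute_uInv_uInv_iff h2 hp hs).1
          (by rw [← hp', ← hs']; exact S2360.comm_coe.1 h5)).resolve_left fun h => hc ?_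
        rwa [show y = t from Subtype.ext (by rw [hs', hp', (hB.uInv_eq_iff h2 hp hs).2 h])] at h6
      · refine ((hB.commute_uInv_uInv_iff h2 hr hs).1
          (by rw [← hx, ← hs']; exact S2360.comm_coe.1 h6.symm)).resolve_left fun h => hc ?_
        rwa [show y = x from Subtype.ext (by rw [hs', hx, (hB.uInv_eq_iff h2 hr hs).2 h])] at h5
    · rintro ⟨s, hs, h3, h4⟩
      obtain ⟨y, h5, h6, h7⟩ := mk s hs
      exact ⟨y, h5, h6, S2360.comm_coe.2 (by
        rw [hp', h7]; exact (hB.commute_uInv_uInv_iff h2 hp hs).2 (Or.inr h3)),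
        S2360.comm_coe.2 (by
          rw [hx, h7]; exact ((hB.commute_uInv_uInv_iff h2 hr hs).2 (Or.inr h4)).symm)⟩
  have hN := hq.card_norm_eq one_ne_zero (map_one σ)
  refine ⟨?_, ?_, ?_, fun x hx hx2 => ?_⟩
  · have := hB.card_involutions hq h2 hn (fun y => y ≠ t ∧ Commute t y) (fun s => B p s = 0)
      fun y s hs hy => by
        simp only [S2360.comm_coe, Ne, Subtype.ext_iff, hp', hy, hB.uInv_eq_iff h2 hp hs,
          hB.commute_uInv_uInv_iff h2 hp hs]
        refine ⟨fun ⟨a, c⟩ => c.resolve_left a, fun a => ⟨?_, Or.inr a⟩⟩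
        rintro ⟨c, rfl⟩
        simp_all
    rw [hB.card_norm_one_perp hq hn (by simp [hp]), uUnitNum, if_pos (by decide)] at this
    apply Nat.eq_of_mul_eq_mul_right (Nat.add_one_pos q)
    rw [this]
    zify [hq1, hq3]
    ring
  · have := hB.card_involutions hq h2 hn (fun x => ¬ Commute t x ∧
        ∃ y : USG B, y ≠ 1 ∧ y * y = 1 ∧ Commute t y ∧ Commute y x)
      (fun r => (B r p ≠ 0 ∧ r - B r p • p ≠ 0) ∧ B r p * σ (B r p) ≠ 1)
      fun x r hr hx => by rw [← nc x r hr hx]; exact and_congr_right (key x r hr hx)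
    classical
    rw [hB.card_norm_one_split hp (fun a w => (a ≠ 0 ∧ w ≠ 0) ∧ a * σ a ≠ 1), Nat.card_sigma,
      Finset.sum_congr rfl (g := fun a => if a ≠ 0 ∧ a * σ a ≠ 1 then uUnitNum q 2 else 0)
        (fun a _ => ?_), ← Finset.sum_filter, Finset.sum_const, uUnitNum, if_pos (by decide),
      smul_eq_mul] at this
    · have h3 := Finset.card_filter_add_card_filter_not (s := (Finset.univ : Finset F))
        (fun a => a ≠ 0 ∧ a * σ a ≠ 1)
      have h4 : (Finset.univ.filter fun a : F => ¬ (a ≠ 0 ∧ a * σ a ≠ 1)) =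
          insert 0 (Finset.univ.filter fun a : F => a * σ a = 1) := by
        ext a
        simp [or_iff_not_imp_left]
      rw [h4, Finset.card_insert_of_notMem (by simp), Finset.card_univ, ← Nat.card_eq_fintype_card,
        hq.card, ← Fintype.card_subtype (fun a : F => a * σ a = 1), ← Nat.card_eq_fintype_card,
        hN] at h3
      apply Nat.eq_of_mul_eq_mul_right (Nat.add_one_pos q)
      rw [this]
      zify [hq2, hq3] at h3 ⊢
      linear_combination (q * (q ^ 2 - 1) : ℤ) * h3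
    · split_ifs with h
      · rw [← hB'.card_norm_eq hq hn' (sub_ne_zero.2 h.2.symm) (by simp [hB.invol, mul_comm])]
        refine Nat.card_congr (Equiv.subtypeEquivRight fun w =>
          ⟨fun hw => hw.1, fun hw => ⟨hw, ⟨h.1, fun e => h.2 ?_⟩, h.2⟩⟩)
        rw [uRes_apply, e, map_zero] at hw
        linear_combination hw
      · exact @Nat.card_of_isEmpty _ ⟨fun w => h ⟨w.2.2.1.1, w.2.2.2⟩⟩
  · have := hB.card_involutions hq h2 hn (fun x => ¬ Commute t x ∧
        ∀ y : USG B, y ≠ 1 → y * y = 1 → ¬ (Commute t y ∧ Commute y x))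
      (fun r => (B r p ≠ 0 ∧ r - B r p • p ≠ 0) ∧ B r p * σ (B r p) = 1)
      fun x r hr hx => by
        rw [← nc x r hr hx]
        refine and_congr_right fun hc => ?_
        rw [← not_iff_not, ← Ne, ← key x r hr hx hc]
        push Not
        rfl
    classical
    rw [hB.card_norm_one_split hp (fun a w => (a ≠ 0 ∧ w ≠ 0) ∧ a * σ a = 1), Nat.card_sigma,
      Finset.sum_congr rfl (g := fun a => if a * σ a = 1 then uIsoNum q 2 else 0)
        (fun a _ => ?_), ← Finset.sum_filter, Finset.sum_const, uIsoNum_two,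
      ← Fintype.card_subtype (fun a : F => a * σ a = 1), ← Nat.card_eq_fintype_card, hN,
      smul_eq_mul] at this
    · apply Nat.eq_of_mul_eq_mul_right (Nat.add_one_pos q)
      rw [this]
      ring
    · split_ifs with h
      · rw [← hB'.card_isotropic hq hn']
        refine Nat.card_congr (Equiv.subtypeEquivRight fun w => ?_)
        simp [h, uRes_apply, left_ne_zero_of_mul_eq_one h, and_comm]
      · exact @Nat.card_of_isEmpty _ ⟨fun w => h w.2.2.2⟩
  · obtain ⟨r, hr, hr'⟩ := (hB.involution_iff h2 hn).1 ⟨hx, hx2⟩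
    obtain ⟨s, hs, h3, h4⟩ := exists_unit hB hq (by rintro rfl; exact absurd hodd (by decide)) hn hp r
    obtain ⟨s', hs', h5, h6⟩ := hB.exists_perp_perp hn.ge hs hr h4
    obtain ⟨y, h7, h8, h9⟩ := mk s hs
    obtain ⟨z, h10, h11, h12⟩ := mk s' hs'
    refine ⟨y, z, h7, h8, h10, h11, S2360.comm_coe.2 ?_, S2360.comm_coe.2 ?_, S2360.comm_coe.2 ?_⟩
    · rw [hp', h9]; exact (hB.commute_uInv_uInv_iff h2 hp hs).2 (Or.inr h3)
    · rw [h9, h12]; exact (hB.commute_uInv_uInv_iff h2 hs hs').2 (Or.inr h5)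
    · rw [hr', h12]; exact ((hB.commute_uInv_uInv_iff h2 hr hs').2 (Or.inr h6)).symm


/-- Let q be odd, F the field with q² elements, S = SU_3(F) (determinant-one isometries of the standard Hermitian form) and t an involution of S. Then: exactly q(q−1) involutions other than t commute with t; exactly q(q−2)(q²−1) involutions do not commute with t but commute with some involution commuting with t; exactly (q+1)(q²−1) involutions x do not commute with t and admit no involution commuting with both t and x; and every involution can be reached from t in at most three steps, each step going to an involution that commutes with the previous one (the commuting involution graph is connected of diameter 3). -/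
theorem result {F : Type*} [Field F] [Fintype F] {q : ℕ} (hq : Odd q)
    (hF : Fintype.card F = q ^ 2) (t : ↥(Cfsg.SU 3 F q)) (ht : t ≠ 1) (ht2 : t * t = 1) :
    Nat.card {x : ↥(Cfsg.SU 3 F q) // x ≠ 1 ∧ x * x = 1 ∧ x ≠ t ∧ Commute t x} = q * (q - 1) ∧
    Nat.card {x : ↥(Cfsg.SU 3 F q) // x ≠ 1 ∧ x * x = 1 ∧ ¬ Commute t x ∧
        ∃ y : ↥(Cfsg.SU 3 F q), y ≠ 1 ∧ y * y = 1 ∧ Commute t y ∧ Commute y x} = q * (q - 2) * (q ^ 2 - 1) ∧
    Nat.card {x : ↥(Cfsg.SU 3 F q) // x ≠ 1 ∧ x * x = 1 ∧ ¬ Commute t x ∧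
        ∀ y : ↥(Cfsg.SU 3 F q), y ≠ 1 → y * y = 1 → ¬ (Commute t y ∧ Commute y x)} = (q + 1) * (q ^ 2 - 1) ∧
    ∀ x : ↥(Cfsg.SU 3 F q), x ≠ 1 → x * x = 1 →
      ∃ y z : ↥(Cfsg.SU 3 F q), y ≠ 1 ∧ y * y = 1 ∧ z ≠ 1 ∧ z * z = 1 ∧
        Commute t y ∧ Commute y z ∧ Commute z x := by
  obtain ⟨σ, hF'⟩ := exists_uField hF
  let e := hF'.suEquiv 3
  obtain ⟨h1, h2, h3, h4⟩ := aux (hF'.isHerm_uStd (Fin 3)) hF' hq (by simp) (e t)
    (by simpa using ht) (by rw [← map_mul, ht2, map_one])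
  refine ⟨?_, ?_, ?_, fun x hx hx2 => ?_⟩
  · rw [← h1]
    exact Nat.card_congr (e.toEquiv.subtypeEquiv fun x => by simp [← map_mul, S2360.comm_iff])
  · rw [← h2]
    exact Nat.card_congr (e.toEquiv.subtypeEquiv fun x => by
      rw [e.surjective.exists]
      simp [← map_mul, S2360.comm_iff])
  · rw [← h3]
    exact Nat.card_congr (e.toEquiv.subtypeEquiv fun x => by
      rw [e.surjective.forall]
      simp [← map_mul, S2360.comm_iff])
  · have := h4 (e x) (by simpa using hx) (by rw [← map_mul, hx2, map_one])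
    simp only [e.surjective.exists] at this
    simpa [← map_mul, S2360.comm_iff] using this

end Cfsg.Agent.S2356
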