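import Cfsg.Statements.S2357
import Cfsg.Agent.Chev.ReeCount2
import Cfsg.Agent.Chev.ReeInst

set_option autoImplicit false
open Cfsg

namespace Cfsg.Agent.S2357

/-- Let R be the small Ree group over the field with q = 3^(2m+1) ≥ 27 elements and write φ for Euler's totient function. Then R has exactly q²(q²−q+1) involutions, (q²−1)(q³+1) elements of order 3, and q²(q−1)(q³+1) elements of order 6 and as many of order 9; for i > 2 dividing q−1 it has φ(i)q³(q³+1)/2 elements of order i; for i > 1 dividing (q+1)/4 it has φ(i)q³(q−1)(q²−q+1)/6 elements of order i and φ(i)q³(q−1)(q²−q+1)/2 elements of order 2i; and for i > 1 dividing q − 3^(m+1) + 1 (respectively q + 3^(m+1) + 1) it has φ(i)q³(q²−1)(q + 3^(m+1) + 1)/6 (respectively φ(i)q³(q²−1)(q − 3^(m+1) + 1)/6) elements of order i. -/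
theorem result {K : Type*} [Field K] [Fintype K] {m : ℕ} (hm : 1 ≤ m)
    (hK : Fintype.card K = 3 ^ (2 * m + 1)) :
    Nat.card {g : ↥(Cfsg.Lie.twistedG2 K (3 ^ m)) // orderOf g = 2} = (3 ^ (2 * m + 1)) ^ 2 * ((3 ^ (2 * m + 1)) ^ 2 - 3 ^ (2 * m + 1) + 1) ∧
    Nat.card {g : ↥(Cfsg.Lie.twistedG2 K (3 ^ m)) // orderOf g = 3} = ((3 ^ (2 * m + 1)) ^ 2 - 1) * ((3 ^ (2 * m + 1)) ^ 3 + 1) ∧
    Nat.card {g : ↥(Cfsg.Lie.twistedG2 K (3 ^ m)) // orderOf g = 6} = (3 ^ (2 * m + 1)) ^ 2 * (3 ^ (2 * m + 1) - 1) * ((3 ^ (2 * m + 1)) ^ 3 + 1) ∧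
    Nat.card {g : ↥(Cfsg.Lie.twistedG2 K (3 ^ m)) // orderOf g = 9} = (3 ^ (2 * m + 1)) ^ 2 * (3 ^ (2 * m + 1) - 1) * ((3 ^ (2 * m + 1)) ^ 3 + 1) ∧
    (∀ i : ℕ, 2 < i → i ∣ 3 ^ (2 * m + 1) - 1 →
      2 * Nat.card {g : ↥(Cfsg.Lie.twistedG2 K (3 ^ m)) // orderOf g = i} = Nat.totient i * (3 ^ (2 * m + 1)) ^ 3 * ((3 ^ (2 * m + 1)) ^ 3 + 1)) ∧
    (∀ i : ℕ, 1 < i → i ∣ (3 ^ (2 * m + 1) + 1) / 4 →
      6 * Nat.card {g : ↥(Cfsg.Lie.twistedG2 K (3 ^ m)) // orderOf g = i} =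
          Nat.totient i * (3 ^ (2 * m + 1)) ^ 3 * (3 ^ (2 * m + 1) - 1) * ((3 ^ (2 * m + 1)) ^ 2 - 3 ^ (2 * m + 1) + 1) ∧
        2 * Nat.card {g : ↥(Cfsg.Lie.twistedG2 K (3 ^ m)) // orderOf g = 2 * i} =
          Nat.totient i * (3 ^ (2 * m + 1)) ^ 3 * (3 ^ (2 * m + 1) - 1) * ((3 ^ (2 * m + 1)) ^ 2 - 3 ^ (2 * m + 1) + 1)) ∧
    (∀ i : ℕ, 1 < i → i ∣ 3 ^ (2 * m + 1) - 3 ^ (m + 1) + 1 →
      6 * Nat.card {g : ↥(Cfsg.Lie.twistedG2 K (3 ^ m)) // orderOf g = i} =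
        Nat.totient i * (3 ^ (2 * m + 1)) ^ 3 * ((3 ^ (2 * m + 1)) ^ 2 - 1) * (3 ^ (2 * m + 1) + 3 ^ (m + 1) + 1)) ∧
    (∀ i : ℕ, 1 < i → i ∣ 3 ^ (2 * m + 1) + 3 ^ (m + 1) + 1 →
      6 * Nat.card {g : ↥(Cfsg.Lie.twistedG2 K (3 ^ m)) // orderOf g = i} =
        Nat.totient i * (3 ^ (2 * m + 1)) ^ 3 * ((3 ^ (2 * m + 1)) ^ 2 - 1) * (3 ^ (2 * m + 1) - 3 ^ (m + 1) + 1)) := by
  obtain ⟨R, -⟩ := Chev.ReeInst.exists_ree hK
  have hq : 3 < Fintype.card K := by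
    rw [hK]
    calc 3 = 3 ^ 1 := rfl
      _ < _ := Nat.pow_lt_pow_right (by norm_num) (by omega)
  have hr : (3 ^ (m + 1)) ^ 2 = 3 * Fintype.card K := by rw [hK]; ring
  have := R.finite
  obtain ⟨y₁, h₁, b₁⟩ := R.exists_big_H hq
  obtain ⟨y₂, h₂, b₂⟩ := R.exists_big_Cp hq
  obtain ⟨⟨y₃, b₃, c₃, n₃⟩, ⟨y₄, b₄, c₄, n₄⟩⟩ := R.exists_tori' hq hr
  have e₁ := R.centralizer_eq_H b₁ h₁
  have e₂ := R.centralizer_eq_Cp b₂ h₂
  have hn := Chev.sub_mul_add hq.le hr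
  have o₁ := R.card_oddPart_H b₁ (by rw [e₁, R.card_H])
  have o₂ := R.card_oddPart_Cp b₂ (by rw [e₂, R.card_Cp])
  have o₃ := (R.card_oddPart_Z b₃ ⟨_, by rw [c₃, hn]⟩).trans c₃
  have o₄ := (R.card_oddPart_Z b₄ ⟨_, by rw [c₄, mul_comm, hn]⟩).trans c₄
  have h8 := R.card_mod_eight
  have h3 := R.three_dvd_card
  have hG := R.card_eq'
  have hsq : Fintype.card K ^ 2 - 1 = (Fintype.card K - 1) * (Fintype.card K + 1) := by
    rw [mul_comm, ← Nat.sq_sub_sq, one_pow]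
  rw [← hK]
  refine ⟨R.card_order_two, R.card_order_three, R.card_order_six, R.card_order_nine,
    fun i h1 h2 => ?_, fun i h1 h2 => ⟨?_, ?_⟩, fun i h1 h2 => ?_, fun i h1 h2 => ?_⟩
  · have hb : Chev.Big i := Chev.big_of_not_dvd (fun h => by have := Nat.le_of_dvd two_pos h; omega)
      (fun h => by have := h.trans h2; omega) (fun h => by have := h.trans h2; omega)
    rw [R.card_orderOf b₁ (· = i) fun _ h => h ▸ hb.com (by rwa [e₁, R.card_H]), e₁,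
      Chev.card_orderOf_of_isCyclic R.isCyclic_H (by rwa [R.card_H]), R.normalizer_H' b₁ h₁,
      mul_left_comm, R.two_mul_index_N, mul_assoc]
  · rw [R.card_orderOf_odd b₂ (o₂ ▸ h2) h1.ne', e₂, mul_left_comm, R.six_mul_index_Cp b₂ h₂]
    ring
  · rw [R.card_orderOf_two_mul b₂ (o₂ ▸ h2) h1.ne', e₂, R.card_involutions_Cp]
    linear_combination i.totient * R.six_mul_index_Cp b₂ h₂
  · have h := (Subgroup.normalizer (Subgroup.centralizer {y₃} :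
      Set ↥(Cfsg.Lie.twistedG2 K (3 ^ m)))).card_mul_index
    rw [n₃, hG, ← hn] at h
    rw [R.card_orderOf_odd b₃ (o₃ ▸ h2) h1.ne', hsq]
    refine Nat.eq_of_mul_eq_mul_left (show 0 < Fintype.card K - 3 ^ (m + 1) + 1 by omega) ?_
    linear_combination i.totient * h
  · have h := (Subgroup.normalizer (Subgroup.centralizer {y₄} :
      Set ↥(Cfsg.Lie.twistedG2 K (3 ^ m)))).card_mul_index
    rw [n₄, hG, ← hn] at h
    rw [R.card_orderOf_odd b₄ (o₄ ▸ h2) h1.ne', hsq]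
    refine Nat.eq_of_mul_eq_mul_left (show 0 < Fintype.card K + 3 ^ (m + 1) + 1 by omega) ?_
    linear_combination i.totient * h

end Cfsg.Agent.S2357
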