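import Cfsg.Statements.S2358
import Cfsg.Agent.Chev.ReeCount2
import Cfsg.Agent.Chev.ReeInst

set_option autoImplicit false
open Cfsg

namespace Cfsg.Agent.S2358

/-- Let R be the small Ree group over the field with q = 3^(2m+1) ≥ 27 elements. If d divides one of (q−1)/2, (q+1)/4, q − 3^(m+1) + 1 or q + 3^(m+1) + 1, then any two cyclic subgroups of R of order d are conjugate in R. -/
theorem result {K : Type*} [Field K] [Fintype K] {m : ℕ} (hm : 1 ≤ m)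
    (hK : Fintype.card K = 3 ^ (2 * m + 1)) (d : ℕ)
    (hd : d ∣ (3 ^ (2 * m + 1) - 1) / 2 ∨ d ∣ (3 ^ (2 * m + 1) + 1) / 4 ∨ d ∣ 3 ^ (2 * m + 1) - 3 ^ (m + 1) + 1 ∨ d ∣ 3 ^ (2 * m + 1) + 3 ^ (m + 1) + 1)
    (A B : Subgroup ↥(Cfsg.Lie.twistedG2 K (3 ^ m))) (hA : IsCyclic A) (hB : IsCyclic B)
    (hAd : Nat.card A = d) (hBd : Nat.card B = d) :
    ∃ g : ↥(Cfsg.Lie.twistedG2 K (3 ^ m)), B = A.map (MulAut.conj g).toMonoidHom := by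
  obtain ⟨R, -⟩ := Chev.ReeInst.exists_ree hK
  have hq : 3 < Fintype.card K := by
    rw [hK]
    calc 3 = 3 ^ 1 := rfl
      _ < _ := Nat.pow_lt_pow_right (by norm_num) (by omega)
  have hr : (3 ^ (m + 1)) ^ 2 = 3 * Fintype.card K := by rw [hK]; ring
  have := R.finite
  obtain ⟨y₁, h₁, b₁⟩ := R.exists_big_H hq
  obtain ⟨y₂, h₂, b₂⟩ := R.exists_big_Cp hq
  obtain ⟨⟨y₃, b₃, c₃, n₃⟩, ⟨y₄, b₄, c₄, n₄⟩⟩ := R.exists_tori' hq hr
  have e₁ := R.centralizer_eq_H b₁ h₁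
  have e₂ := R.centralizer_eq_Cp b₂ h₂
  have hn := Chev.sub_mul_add hq.le hr
  have o₁ := R.card_oddPart_H b₁ (by rw [e₁, R.card_H])
  have o₂ := R.card_oddPart_Cp b₂ (by rw [e₂, R.card_Cp])
  have o₃ := (R.card_oddPart_Z b₃ ⟨_, by rw [c₃, hn]⟩).trans c₃
  have o₄ := (R.card_oddPart_Z b₄ ⟨_, by rw [c₄, mul_comm, hn]⟩).trans c₄
  rw [← hK, ← hAd] at hd
  rcases hd with h | h | h | h
  · exact R.exists_conj_of_dvd_oddPart b₁ hA hB (o₁ ▸ h) (hAd.trans hBd.symm)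
  · exact R.exists_conj_of_dvd_oddPart b₂ hA hB (o₂ ▸ h) (hAd.trans hBd.symm)
  · exact R.exists_conj_of_dvd_oddPart b₃ hA hB (o₃ ▸ h) (hAd.trans hBd.symm)
  · exact R.exists_conj_of_dvd_oddPart b₄ hA hB (o₄ ▸ h) (hAd.trans hBd.symm)

end Cfsg.Agent.S2358
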