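import Cfsg.Statements.S2359
import Cfsg.Agent.Chev.ReeCount2
import Cfsg.Agent.Chev.ReeInst

set_option autoImplicit false
open Cfsg

namespace Cfsg.Agent.S2359

/-- Let R be the small Ree group over the field with q = 3^(2m+1) ≥ 27 elements. If H is a cyclic subgroup of R of order (q−1)/2, then the centralizer of H in R is cyclic of order q−1, and every non-trivial subgroup of H has the same centralizer as H. If H is a cyclic subgroup of order (q+1)/4, then the centralizer of H is abelian of order q+1 with no element of order 4 (so it is the direct product of H and a group of order 4 whose non-identity elements all have order 2), and every non-trivial subgroup of H has the same centralizer as H. -/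
theorem result {K : Type*} [Field K] [Fintype K] {m : ℕ} (hm : 1 ≤ m)
    (hK : Fintype.card K = 3 ^ (2 * m + 1)) (H : Subgroup ↥(Cfsg.Lie.twistedG2 K (3 ^ m))) (hH : IsCyclic H) :
    (Nat.card H = (3 ^ (2 * m + 1) - 1) / 2 →
      IsCyclic ↥(Subgroup.centralizer (H : Set ↥(Cfsg.Lie.twistedG2 K (3 ^ m)))) ∧
        Nat.card ↥(Subgroup.centralizer (H : Set ↥(Cfsg.Lie.twistedG2 K (3 ^ m)))) = 3 ^ (2 * m + 1) - 1 ∧
        ∀ A : Subgroup ↥(Cfsg.Lie.twistedG2 K (3 ^ m)), A ≤ H → A ≠ ⊥ →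
          Subgroup.centralizer (A : Set ↥(Cfsg.Lie.twistedG2 K (3 ^ m))) = Subgroup.centralizer (H : Set ↥(Cfsg.Lie.twistedG2 K (3 ^ m)))) ∧
    (Nat.card H = (3 ^ (2 * m + 1) + 1) / 4 →
      IsMulCommutative ↥(Subgroup.centralizer (H : Set ↥(Cfsg.Lie.twistedG2 K (3 ^ m)))) ∧
        Nat.card ↥(Subgroup.centralizer (H : Set ↥(Cfsg.Lie.twistedG2 K (3 ^ m)))) = 3 ^ (2 * m + 1) + 1 ∧
        (∀ x ∈ Subgroup.centralizer (H : Set ↥(Cfsg.Lie.twistedG2 K (3 ^ m))), orderOf x ≠ 4) ∧
        ∀ A : Subgroup ↥(Cfsg.Lie.twistedG2 K (3 ^ m)), A ≤ H → A ≠ ⊥ →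
          Subgroup.centralizer (A : Set ↥(Cfsg.Lie.twistedG2 K (3 ^ m))) = Subgroup.centralizer (H : Set ↥(Cfsg.Lie.twistedG2 K (3 ^ m)))) := by
  obtain ⟨R, -⟩ := Chev.ReeInst.exists_ree hK
  have hq : 3 < Fintype.card K := by
    rw [hK]
    calc 3 = 3 ^ 1 := rfl
      _ < _ := Nat.pow_lt_pow_right (by norm_num) (by omega)
  have := R.finite
  have h8 := R.card_mod_eight
  have h3 := R.three_dvd_card
  obtain ⟨z, rfl⟩ := (Subgroup.isCyclic_iff_exists_zpowers_eq_top H).1 hH
  have key : ∀ (hz : Chev.Big (orderOf z)), Odd (orderOf z) → ∀ A ≤ Subgroup.zpowers z, A ≠ ⊥ →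
      Subgroup.centralizer (A : Set ↥(Cfsg.Lie.twistedG2 K (3 ^ m))) = Subgroup.centralizer {z} :=
    fun hz ho A h h' => R.centralizer_eq_of_le_oddPart hz (h.trans (Subgroup.zpowers_le.2
      ⟨Chev.ReeGroup.self_mem_centralizer z, ho⟩)) h'
  have e : Subgroup.centralizer (Subgroup.zpowers z : Set ↥(Cfsg.Lie.twistedG2 K (3 ^ m))) =
      Subgroup.centralizer {z} := by
    rw [Subgroup.zpowers_eq_closure, Subgroup.centralizer_closure]
  rw [← hK, Nat.card_zpowers, e]
  refine ⟨fun h => ?_, fun h => ?_⟩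
  · have ho : Odd (orderOf z) := Nat.odd_iff.2 (by omega)
    have hz := Chev.big_of_odd (by omega) ho (by omega)
    obtain ⟨p, a, b, c⟩ := id hz
    have d : p ∣ Fintype.card K - 1 := c.trans (h ▸ Nat.div_dvd_of_dvd (by omega))
    refine ⟨?_, R.card_centralizer_of_dvd_sub a b c d, key hz ho⟩
    obtain ⟨g, hg⟩ := R.exists_conj_mem_H a b c d
    have h1 := R.centralizer_eq_H (by rwa [Chev.ReeUtil.orderOf_conj]) hg
    have := R.isCyclic_H
    refine isCyclic_of_injective (G' := R.H) (((MulAut.conj g).toMonoidHom.comp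
      (Subgroup.centralizer {z}).subtype).codRestrict R.H fun w => ?_)
      fun a b h => Subtype.ext ((MulAut.conj g).injective (congrArg Subtype.val h))
    rw [← h1, Subgroup.mem_centralizer_singleton_iff]
    change g * w * g⁻¹ * _ = _ * (g * w * g⁻¹)
    rw [conj_mul, conj_mul, Subgroup.mem_centralizer_singleton_iff.1 w.2]
  · have ho : Odd (orderOf z) := Nat.odd_iff.2 (by omega)
    have hz := Chev.big_of_odd (by omega) ho (by omega)
    obtain ⟨p, a, b, c⟩ := id hz
    have d : p ∣ Fintype.card K + 1 := c.trans (h ▸ Nat.div_dvd_of_dvd (by omega))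
    exact ⟨⟨⟨fun a b => Subtype.ext (R.comm_of_big hz a.2 b.2)⟩⟩,
      R.card_centralizer_of_dvd_add a b c d, fun x _ h => R.not_four_dvd_orderOf x h.symm.dvd,
      key hz ho⟩

end Cfsg.Agent.S2359
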