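import Cfsg.Statements.S2361
import Cfsg.Agent.Chev.ReeSol
import Cfsg.Agent.Chev.ReeInst

set_option autoImplicit false
open Cfsg

namespace Cfsg.Agent.S2361

/-- Let R be the small Ree group over the field with q = 3^(2m+1) ≥ 27 elements. Every solvable subgroup of R lies in the normalizer of a Sylow 2-subgroup, of a Sylow 3-subgroup, or of a cyclic subgroup of order (q−1)/2, (q+1)/4, q − 3^(m+1) + 1 or q + 3^(m+1) + 1. -/
theorem result {K : Type*} [Field K] [Fintype K] {m : ℕ} (hm : 1 ≤ m)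
    (hK : Fintype.card K = 3 ^ (2 * m + 1)) (S : Subgroup ↥(Cfsg.Lie.twistedG2 K (3 ^ m)))
    (hS : Group.IsSolvable S) :
    ∃ A : Subgroup ↥(Cfsg.Lie.twistedG2 K (3 ^ m)), S ≤ Subgroup.normalizer (A : Set ↥(Cfsg.Lie.twistedG2 K (3 ^ m))) ∧
      ((∃ P : Sylow 2 ↥(Cfsg.Lie.twistedG2 K (3 ^ m)), A = P) ∨
       (∃ P : Sylow 3 ↥(Cfsg.Lie.twistedG2 K (3 ^ m)), A = P) ∨
       (IsCyclic A ∧ (Nat.card A = (3 ^ (2 * m + 1) - 1) / 2 ∨ Nat.card A = (3 ^ (2 * m + 1) + 1) / 4 ∨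
          Nat.card A = 3 ^ (2 * m + 1) - 3 ^ (m + 1) + 1 ∨ Nat.card A = 3 ^ (2 * m + 1) + 3 ^ (m + 1) + 1))) := by
  obtain ⟨R, -⟩ := Chev.ReeInst.exists_ree hK
  have hq : 3 < Fintype.card K := by
    rw [hK]
    calc 3 = 3 ^ 1 := rfl
      _ < _ := Nat.pow_lt_pow_right (by norm_num) (by omega)
  have hr : (3 ^ (m + 1)) ^ 2 = 3 * Fintype.card K := by rw [hK]; ring
  obtain ⟨A, h1, h2⟩ := R.loc_of_isSolvable hq S
  refine ⟨A, h1, h2.imp_right (Or.imp_right ?_)⟩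
  rintro ⟨y, hy, rfl⟩
  refine ⟨R.isCyclic_oddPart hy, ?_⟩
  rw [← hK]
  rcases R.card_centralizer_cases hy with h | h | h
  · exact Or.inl (R.card_oddPart_H hy h)
  · exact Or.inr (Or.inl (R.card_oddPart_Cp hy h))
  · obtain ⟨⟨y₃, b₃, c₃, -⟩, ⟨y₄, b₄, c₄, -⟩⟩ := R.exists_tori' hq hr
    obtain ⟨p, a, b, c⟩ := id hy
    have h3 := (c.trans (Chev.orderOf_dvd_card_centralizer y)).trans h
    rw [← Chev.sub_mul_add hq.le hr, a.dvd_mul] at h3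
    rw [R.card_oddPart_Z hy h]
    refine Or.inr (Or.inr (h3.imp (fun h3 => ?_) fun h3 => ?_))
    · rw [← c₃, R.card_centralizer_eq b₃ ⟨p, a, b, c, c₃ ▸ h3⟩]
    · rw [← c₄, R.card_centralizer_eq b₄ ⟨p, a, b, c, c₄ ▸ h3⟩]

end Cfsg.Agent.S2361
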