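import Cfsg.Statements.S2380
import Cfsg.Agent.Cl.GLSyl
-- import your own Cfsg.Agent.* helpers here

set_option autoImplicit false
open scoped MatrixGroups
open Cfsg

namespace Cfsg.Agent.S2380

open Cfsg.Agent.Cl Equiv

theorem aux : ∀ x : ZMod 2, x ≠ 0 → x = 1 := by decide

/-- Sylow subgroups of `GL_n(q)` for large primes. Let `F` be a field with `q` elements and `r` a prime with `r > n` and `r ∤ q`. Let `d` be the multiplicative order of `q` modulo `r` and `m` the `r`-part of the value at `q` of the `d`-th cyclotomic polynomial. Then every Sylow `r`-subgroup of `GL_n(q)` is a direct product of `⌊n/d⌋` cyclic groups of order `m` (the degrees of the Weyl group being `1, …, n`). -/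
theorem result {F : Type*} [Field F] [Fintype F] {q : ℕ} (hq : Fintype.card F = q) (n : ℕ)
    (r : ℕ) [Fact r.Prime] (hrn : n < r) (hrq : ¬ r ∣ q) (P : Sylow r (GL (Fin n) F)) :
    Nonempty (↥(P : Subgroup (GL (Fin n) F)) ≃*
      (Fin (n / orderOf (q : ZMod r)) →
        Multiplicative (ZMod (r ^ padicValNat r ((Polynomial.cyclotomic (orderOf (q : ZMod r)) ℤ).eval (q : ℤ)).natAbs)))) := by
  subst hq
  have hr : r.Prime := Fact.out
  have h1 : 2 ≤ Fintype.card F := Fintype.one_lt_card
  have h2 : ((Fintype.card F : ℕ) : ZMod r) ≠ 0 := by rwa [Ne, ZMod.natCast_eq_zero_iff]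
  have h0 := SpO.orderOf_cast_pos h2
  rw [SpO.padicValNat_cyclotomic h1 h2]
  obtain ⟨f, hf, -⟩ := GLS.exists_glW (F := F) h0
    (Nat.div_add_mod n (orderOf (Fintype.card F : ZMod r))).symm
  obtain ⟨A, hA⟩ := GLS.exists_orderOf (F := F) h0 (pow_padicValNat_dvd (p := r))
  obtain ⟨g, hg⟩ := SpO.exists_hom_zmod A
  rw [← hA]
  refine (wr_nonempty_equiv_sylow (f.comp ((MonoidHom.inl _ _).comp (SemidirectProduct.inl.comp
    (g.compLeft _)))) (fun _ _ h => hg.comp_left (SemidirectProduct.inl_injective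
      (congrArg Prod.fst (hf h)))) ?_ P).map MulEquiv.symm
  rw [Nat.card_fun, Nat.card_fin, Nat.card_congr Multiplicative.toAdd, Nat.card_zmod, hA,
    ← pow_mul, GLS.fact_gl hrq]
  congr 1
  by_cases hr2 : r = 2
  · subst hr2
    have h3 : orderOf ((Fintype.card F : ℕ) : ZMod 2) = 1 := by
      rw [orderOf_eq_one_iff]
      exact aux _ h2
    rw [h3]
    interval_cases n <;> simp
  · rw [GLS.sum_val_odd h1 h2 hr2, padicValNat.eq_zero_of_not_dvd (n := Nat.factorial _) (by
      rw [hr.dvd_factorial, not_le]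
      exact (Nat.div_le_self _ _).trans_lt hrn), add_zero, mul_comm]

end Cfsg.Agent.S2380
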