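import Mathlib
import Cfsg.Statements.S2386
import Cfsg.Agent.Cl.ClassSemis

set_option autoImplicit false
open Cfsg

namespace Cfsg.Agent.S2386

/-- In the special unitary group `SU_n(q)` (matrices of determinant one over the field with `q²` elements preserving the standard Hermitian form), `q` a power of the prime `p`, the number of conjugacy classes of elements of order prime to `p` is `q^(n-1)`. -/
theorem result {F : Type*} [Field F] [Fintype F] {q : ℕ} (hF : Fintype.card F = q ^ 2) (p : ℕ) [Fact p.Prime] [CharP F p] (n : ℕ) (hn : 1 ≤ n) :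
    Nat.card {c : ConjClasses ↥(Cfsg.SU n F q) // ∃ g : ↥(Cfsg.SU n F q), ConjClasses.mk g = c ∧ (orderOf g).Coprime p} = q ^ (n - 1) := by
  obtain ⟨σ, hσ⟩ := Cl.exists_uField hF
  rw [Cl.Cls.card_conjClasses_eq_of_range _
    (fun g : Cfsg.SU n F q =>
      ((g : Matrix.SpecialLinearGroup (Fin n) F) : Matrix (Fin n) (Fin n) F).charpoly)
    (fun f => f.Monic ∧ f.natDegree = n ∧ f.coeff 0 = (-1) ^ n ∧ Cl.Cls.uDual σ f = f),
    Cl.Cls.card_monic_uDual_coeff_zero_eq hσ n hn (by simp [← mul_pow])]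
  · intro a b ha hb
    have ha' := (Cl.Cls.isSS_SU_iff p a).2 ha
    rw [← ha'.isConj_iff ((Cl.Cls.isSS_SU_iff p b).2 hb)]
    exact ⟨(((Units.coeHom (Matrix (Fin n) (Fin n) F)).comp
      Matrix.SpecialLinearGroup.toGL).comp (Cfsg.SU n F q).subtype).map_isConj, ha'.isConj_SU hσ⟩
  · intro f
    constructor
    · rintro ⟨h1, h2, h3, h4⟩
      obtain ⟨A, h5, h6, rfl⟩ := Cl.Cls.exists_unitary_isSS_charpoly (n := Fin n) hσ.invol h1
        (by simpa) (by simp [h3]) h4
      have h7 : A.det = 1 := by simpa [Cl.Cls.coeff_zero_charpoly] using h3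
      exact ⟨⟨⟨A, h7⟩, (Cl.Cls.mem_SU_iff_uStar hσ _).2 h5⟩, (Cl.Cls.isSS_SU_iff p _).1 h6, rfl⟩
    · rintro ⟨g, -, rfl⟩
      exact ⟨Matrix.charpoly_monic _, by simp, by simp [Cl.Cls.coeff_zero_charpoly],
        Cl.Cls.uDual_charpoly_of_unitary hσ.invol ((Cl.Cls.mem_SU_iff_uStar hσ _).1 g.2)⟩

end Cfsg.Agent.S2386
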