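import Mathlib
import Cfsg.Statements.S2387
import Cfsg.Agent.Cl.ClassSemis

set_option autoImplicit false
open scoped MatrixGroups
open Cfsg

namespace Cfsg.Agent.S2387

/-- In `GL_n(q)` with `n ≥ 1`, `q` a power of the prime `p`, the number of conjugacy classes of elements of order prime to `p` (diagonalisable over the algebraic closure; determined by the characteristic polynomial) is `(q - 1) q^(n-1)`. -/
theorem result {F : Type*} [Field F] [Fintype F] {q : ℕ} (hq : Fintype.card F = q) (p : ℕ) [Fact p.Prime] [CharP F p] (n : ℕ) (hn : 1 ≤ n) :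
    Nat.card {c : ConjClasses (GL (Fin n) F) // ∃ g : GL (Fin n) F, ConjClasses.mk g = c ∧ (orderOf g).Coprime p} = (q - 1) * q ^ (n - 1) := by
  rw [Cl.Cls.card_conjClasses_eq_of_range _ (fun g : GL (Fin n) F => (g : Matrix (Fin n) (Fin n) F).charpoly)
    (fun f => f.Monic ∧ f.natDegree = n ∧ f.coeff 0 ≠ 0), Cl.Cls.card_monic_coeff_zero_ne n hn,
    Nat.card_eq_fintype_card, hq]
  · intro a b ha hb
    rw [Cl.Cls.isConj_units_iff,
      ((Cl.Cls.isSS_GL_iff p a).2 ha).isConj_iff ((Cl.Cls.isSS_GL_iff p b).2 hb)]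
  · intro f
    constructor
    · rintro ⟨h1, h2, h3⟩
      obtain ⟨g, h4, h5⟩ := Cl.Cls.exists_GL_isSS_charpoly (n := Fin n) h1 (by simpa) h3
      exact ⟨g, (Cl.Cls.isSS_GL_iff p g).1 h4, h5⟩
    · rintro ⟨g, -, rfl⟩
      exact ⟨Matrix.charpoly_monic _, by simp,
        (Cl.Cls.isUnit_iff_coeff_zero_charpoly _).1 g.isUnit⟩

end Cfsg.Agent.S2387
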