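import Mathlib
import Cfsg.Statements.S2392
import Cfsg.Agent.Cl.FormWeights
import Cfsg.Agent.Cl.Transport
-- import your own Cfsg.Agent.* helpers here

set_option autoImplicit false
open scoped MatrixGroups
open Cfsg

namespace Cfsg.Agent.S2392

open Matrix

theorem exists_sl_vecMul_of_indep {F ι : Type*} [Field F] [Fintype ι] [DecidableEq ι]
    {b φ : ι → F} (h : LinearIndependent F ![b, φ]) :
    ∃ g : SpecialLinearGroup ι F, b ᵥ* g.1 = φ := by
  obtain ⟨l, hl⟩ := LinearMap.exists_extend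
    ((Finsupp.linearCombination F ![(1 : F), 1]) ∘ₗ h.repr)
  have hl' : ∀ i, l (![b, φ] i) = ![(1 : F), 1] i := fun i => by
    have := LinearMap.congr_fun hl ⟨![b, φ] i, Submodule.subset_span ⟨i, rfl⟩⟩
    simpa [h.repr_eq_single i ⟨![b, φ] i, _⟩ rfl] using this
  obtain ⟨u, hu⟩ := (dotProductEquiv F ι).surjective l
  have h1 : b ⬝ᵥ u = 1 := by rw [dotProduct_comm]; simpa [← hu] using hl' 0
  have h2 : φ ⬝ᵥ u = 1 := by rw [dotProduct_comm]; simpa [← hu] using hl' 1
  refine ⟨⟨1 + vecMulVec u (φ - b), ?_⟩, ?_⟩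
  · rw [vecMulVec_eq Unit, det_one_add_replicateCol_mul_replicateRow, sub_dotProduct, h1, h2]
    simp
  · change b ᵥ* (1 + vecMulVec u (φ - b)) = φ
    rw [vecMul_add, vecMul_one, vecMul_vecMulVec, h1]; simp

/-- `SL_n` is transitive on nonzero (row) vectors when `n ≥ 2`. -/
theorem exists_sl_vecMul {F ι : Type*} [Field F] [Fintype ι] [DecidableEq ι]
    (hι : 2 ≤ Fintype.card ι) {b φ : ι → F} (hb : b ≠ 0) (hφ : φ ≠ 0) :
    ∃ g : SpecialLinearGroup ι F, b ᵥ* g.1 = φ := by
  by_cases h : LinearIndependent F ![b, φ]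
  · exact exists_sl_vecMul_of_indep h
  obtain ⟨ψ, hψ⟩ := exists_linearIndependent_pair_of_one_lt_finrank (R := F)
    (by rw [Module.finrank_fintype_fun_eq_card]; omega) hb
  have h' : LinearIndependent F ![ψ, φ] := by
    rw [LinearIndependent.pair_iff' hb] at h
    push Not at h
    obtain ⟨c, rfl⟩ := h
    rw [LinearIndependent.pair_iff] at hψ ⊢
    intro s t hst
    have := hψ (t * c) s (by rw [← hst, smul_smul, add_comm])
    refine ⟨this.2, (mul_eq_zero.1 this.1).resolve_right ?_⟩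
    rintro rfl
    exact hφ (zero_smul _ _)
  obtain ⟨g, hg⟩ := exists_sl_vecMul_of_indep hψ
  obtain ⟨g', hg'⟩ := exists_sl_vecMul_of_indep h'
  exact ⟨g * g', by rw [Matrix.SpecialLinearGroup.coe_mul, ← vecMul_vecMul, hg, hg']⟩

/-- The unipotent radical of a hyperplane stabiliser. -/
def rad (F : Type*) [Field F] (m : ℕ) :
    Multiplicative (Fin m → F) →* SpecialLinearGroup (Fin m ⊕ Unit) F where
  toFun w := ⟨fromBlocks 1 (replicateCol Unit w.toAdd) 0 1, by simp [det_fromBlocks_zero₂₁]⟩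
  map_one' := Subtype.ext (by simp)
  map_mul' X Y := Subtype.ext (by
    change fromBlocks 1 (replicateCol Unit (X.toAdd + Y.toAdd)) 0 1 =
      fromBlocks 1 (replicateCol Unit X.toAdd) 0 1 * fromBlocks 1 (replicateCol Unit Y.toAdd) 0 1
    simp [fromBlocks_multiply, replicateCol_add, add_comm])

/-- The Levi subgroup. -/
def levi {F : Type*} [Field F] {m : ℕ} (h : SpecialLinearGroup (Fin m) F) :
    SpecialLinearGroup (Fin m ⊕ Unit) F :=
  ⟨fromBlocks h.1 0 0 1, by simp [det_fromBlocks_zero₂₁]⟩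

theorem rad_mul_levi {F : Type*} [Field F] {m : ℕ} (h : SpecialLinearGroup (Fin m) F)
    (w : Fin m → F) : rad F m (Multiplicative.ofAdd (h.1 *ᵥ w)) * levi h =
      levi h * rad F m (Multiplicative.ofAdd w) := by
  refine Subtype.ext ?_
  change fromBlocks 1 (replicateCol Unit (h.1 *ᵥ w)) 0 1 * fromBlocks h.1 0 0 1 =
    fromBlocks h.1 0 0 1 * fromBlocks 1 (replicateCol Unit w) 0 1
  simp [fromBlocks_multiply, replicateCol_mulVec]

/-- A lower bound for representations in cross characteristic: for `n ≥ 3` and a field `F` with `q` elements, every homomorphism from `SL_n(F)` to `GL_d(K)`, `K` a field of characteristic different from that of `F`, whose kernel is central has `d ≥ q^(n-1) - 1`. -/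
theorem result {F : Type*} [Field F] [Fintype F] {q : ℕ} (hq : Fintype.card F = q) (n : ℕ) (hn : 3 ≤ n)
    {K : Type*} [Field K] (hK : ringChar K ≠ ringChar F) {d : ℕ}
    (ρ : Matrix.SpecialLinearGroup (Fin n) F →* GL (Fin d) K) (hker : ρ.ker ≤ Subgroup.center (Matrix.SpecialLinearGroup (Fin n) F)) :
    q ^ (n - 1) - 1 ≤ d := by
  classical
  obtain ⟨m, rfl⟩ : ∃ m, n = m + 1 := ⟨n - 1, by omega⟩
  set E := Cl.slReindexEquiv (F := F) (finSumFinEquiv.symm.trans
    (Equiv.sumCongr (Equiv.refl (Fin m)) (Equiv.ofUnique (Fin 1) Unit))).symm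
  obtain ⟨S, hS, hcard, hsep, hnorm⟩ := Cl.exists_weight_set (ρ.comp E.toMonoidHom)
    (A := Multiplicative (Fin m → F)) (by
      have := Cl.weight_natCast_ne_zero hK m
      rwa [show Nat.card (Multiplicative (Fin m → F)) = Nat.card F ^ m by
          change Nat.card (Fin m → F) = _
          rw [Nat.card_fun, Nat.card_fin]])
    (rad F m)
  set i₀ : Fin m := ⟨0, by omega⟩
  obtain ⟨χ, hχS, hχ⟩ := hsep (Multiplicative.ofAdd (Pi.single i₀ 1)) fun h => by
    have h1 := (Cl.mulEquiv_mem_center_iff E _).1 (hker h)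
    obtain ⟨r, -, hr⟩ := Matrix.SpecialLinearGroup.mem_center_iff.1 h1
    have h2 : scalar (Fin m ⊕ Unit) r (Sum.inl i₀) (Sum.inr ()) =
        (Pi.single i₀ 1 : Fin m → F) i₀ := congrFun (congrFun hr (Sum.inl i₀)) (Sum.inr ())
    simp at h2
  obtain ⟨β, hβ, hβ0⟩ := Cl.exists_dual_weightKer (F := F) hχ
  obtain ⟨b, rfl⟩ := (dotProductEquiv F (Fin m)).surjective β
  have hb : b ≠ 0 := by rintro rfl; simp at hβ
  choose X hX using fun φ : {φ : Fin m → F // φ ≠ 0} =>
    exists_sl_vecMul (by rw [Fintype.card_fin]; omega) hb φ.2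
  set α : SpecialLinearGroup (Fin m) F → Multiplicative (Fin m → F) →* Multiplicative (Fin m → F) :=
    fun h => AddMonoidHom.toMultiplicative (mulVecLin h.1).toAddMonoidHom
  have hmem : ∀ φ, χ.comp (α (X φ)) ∈ S := fun φ =>
    hnorm (levi (X φ)) (α (X φ)) (fun a => rad_mul_levi (X φ) a.toAdd) χ hχS
  have hinj : Function.Injective fun φ => (⟨χ.comp (α (X φ)), hmem φ⟩ : S) := fun φ ψ h => by
    have h1 : χ.comp (α (X φ)) = χ.comp (α (X ψ)) := congrArg Subtype.val h
    refine Subtype.ext (dotProduct_eq _ _ fun x => ?_)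
    have h2 := hβ0 _ (Cl.sub_mem_weightKer (F := F) (χ := χ) (x := (X φ).1 *ᵥ x)
      (y := (X ψ).1 *ᵥ x) fun c => by
        rw [← mulVec_smul, ← mulVec_smul]
        exact DFunLike.congr_fun h1 (Multiplicative.ofAdd (c • x)))
    rw [map_sub, sub_eq_zero] at h2
    rw [← hX, ← hX, ← dotProduct_mulVec, ← dotProduct_mulVec]
    exact h2
  haveI := hS.to_subtype
  have hle := Nat.card_le_card_of_injective _ hinj
  rw [Fintype.card_fin] at hcard
  rw [Nat.card_eq_fintype_card, Fintype.card_subtype_compl, Fintype.card_subtype_eq,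
    Nat.card_coe_set_eq] at hle
  simpa [hq] using hle.trans hcard

end Cfsg.Agent.S2392
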