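import Mathlib
import Cfsg.Statements.S2435
import Cfsg.Agent.Cl.CharSL2More

set_option autoImplicit false
open Cfsg

namespace Cfsg.Agent.S2435

open Cfsg.Agent.Cl.GL2 Cfsg.Agent.Ch Cfsg.Agent.Cl.CT


/-- Let F be a finite field with q elements, q odd and q ≥ 5, and χ an irreducible complex character of SL₂ over F. If χ has degree (q + 1)/2, then at a diagonal element with entry a, a² ≠ 1, χ takes the value 1 when a is a square in F and −1 otherwise. If χ has degree (q − 1)/2, then at an element g with no eigenvector in F² (so g has order dividing q + 1), χ takes the value −1 when g raised to the power (q + 1)/2 is the identity and the value 1 otherwise. -/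
theorem result {F : Type*} [Field F] [Fintype F] (hodd : Odd (Fintype.card F)) (hq : 5 ≤ Fintype.card F)
    (χ : Matrix.SpecialLinearGroup (Fin 2) F → ℂ) (hχ : Cfsg.IsIrrCharacter (Matrix.SpecialLinearGroup (Fin 2) F) χ) (g : Matrix.SpecialLinearGroup (Fin 2) F) :
    (χ 1 = (((Fintype.card F + 1) / 2 : ℕ) : ℂ) → (g : Matrix (Fin 2) (Fin 2) F) 0 1 = 0 → (g : Matrix (Fin 2) (Fin 2) F) 1 0 = 0 → (g : Matrix (Fin 2) (Fin 2) F) 0 0 ^ 2 ≠ 1 →
      (IsSquare ((g : Matrix (Fin 2) (Fin 2) F) 0 0) → χ g = 1) ∧ (¬ IsSquare ((g : Matrix (Fin 2) (Fin 2) F) 0 0) → χ g = -1)) ∧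
    (χ 1 = (((Fintype.card F - 1) / 2 : ℕ) : ℂ) → (∀ (c : F) (v : Fin 2 → F), v ≠ 0 → (g : Matrix (Fin 2) (Fin 2) F).mulVec v ≠ c • v) →
      (((g ^ ((Fintype.card F + 1) / 2)) : Matrix (Fin 2) (Fin 2) F) = 1 → χ g = -1) ∧ (((g ^ ((Fintype.card F + 1) / 2)) : Matrix (Fin 2) (Fin 2) F) ≠ 1 → χ g = 1)) := by
  classical
  obtain ⟨e, he⟩ := exists_isEll (F := F)
  rw [cast_half_add hodd, cast_half_sub hodd]
  have h4 : 4 ≤ Fintype.card F := by omega
  refine ⟨fun h _ h10 ha => ?_, fun h hg => ?_⟩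
  · have hb : (g : Mat F) 0 0 ≠ (g : Mat F) 1 1 := fun h' => ha ((upper_sq_eq_one h10).mp h')
    have hp : HalfPair χ (prS (quadC F) - χ) := mem_famSL_of_deg he h4 hχ 4 h
    have h0 := upper_sl_ne_zero g h10
    rw [half_of_eq (hp.eq_hyp h10 hb), prS_hyp _ h10 hb, upper_sl_inv g h10]
    refine ⟨fun hs => ?_, fun hs => ?_⟩
    · rw [quadC_of_isSquare h0 hs, quadC_of_isSquare (inv_ne_zero h0) hs.inv]; norm_num
    · rw [quadC_of_not_isSquare hs, quadC_of_not_isSquare (by rwa [isSquare_inv])]; norm_num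
  · obtain ⟨θ, h1, h2, hp⟩ := mem_famSL_of_deg he h4 hχ 5 h
    obtain ⟨t, ht⟩ := exists_isConj_mem_torusSL he hg
    have h3 : ¬ IsScal ((t : Matrix.SpecialLinearGroup (Fin 2) F) : Mat F) := fun hs =>
      IsEll.not_isScal hg ((isScal_iff_of_isConj (isConj_gl_of_isConj_sl ht)).mpr hs)
    have h5 : (g : Mat F) ^ ((Fintype.card F + 1) / 2) = 1 ↔ t ^ ((Fintype.card F + 1) / 2) = 1 := by
      have h8 := ht.pow ((Fintype.card F + 1) / 2)
      rw [← Matrix.SpecialLinearGroup.coe_pow, Subtype.ext_iff, Subgroup.coe_pow,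
        OneMemClass.coe_one]
      constructor
      · intro h9
        rw [show g ^ ((Fintype.card F + 1) / 2) = 1 from Subtype.ext h9] at h8
        exact isConj_one_right.mp h8
      · intro h9
        rw [h9] at h8
        rw [isConj_one_left.mp h8]; rfl
    have h6 : θ t⁻¹ = θ t := by rw [map_inv, ← MonoidHom.inv_apply, ← h2]
    rw [half_of_eq (hp.eq_ell hg), (isGen_cuS he θ).isClassFunction.eq_of_isConj ht,
      cuS_torus he θ t h3, h6, hom_torusSL_apply he (ringChar_ne_two_of_odd hodd) h1 h2]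
    refine ⟨fun h7 => ?_, fun h7 => ?_⟩
    · rw [if_pos (h5.mp h7)]; norm_num
    · rw [if_neg (fun h8 => h7 (h5.mpr h8))]; norm_num

end Cfsg.Agent.S2435
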