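import Mathlib
import Cfsg.Statements.S2450
import Cfsg.Agent.Cl.PSL2Ore

set_option autoImplicit false
open Cfsg

set_option linter.unusedVariables false

namespace Cfsg.Agent.S2450

open Cfsg.Agent.Cl.L2 Matrix MulAction
open scoped MatrixGroups

/-- The Arad–Herzog conjecture for PSL(2,q): let F be a finite field with q ≥ 4 elements. For any two non-identity elements a, b of PSL(2,F), the set of products of a conjugate of a with a conjugate of b is not a single conjugacy class. -/
theorem result {F : Type*} [Field F] [Fintype F] (h4 : 4 ≤ Fintype.card F)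
    (a b : Matrix.ProjectiveSpecialLinearGroup (Fin 2) F) (ha : a ≠ 1) (hb : b ≠ 1) (c : Matrix.ProjectiveSpecialLinearGroup (Fin 2) F) :
    {g : Matrix.ProjectiveSpecialLinearGroup (Fin 2) F | ∃ u v : Matrix.ProjectiveSpecialLinearGroup (Fin 2) F, g = (u * a * u⁻¹) * (v * b * v⁻¹)} ≠ {g | IsConj c g} := by
  rw [← Nat.card_eq_fintype_card] at h4
  intro h
  obtain ⟨u, v, h'⟩ := exists_tau_ne h4 ha hb (tau (emb c))
  exact h' (tauS_eq_of_isConj (h.le ⟨u, v, rfl⟩)).symm

end Cfsg.Agent.S2450
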