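import Mathlib
import Cfsg.Statements.S2455
import Cfsg.Agent.Cl.PSL2Ore

set_option autoImplicit false
open Cfsg

set_option linter.unusedVariables false

namespace Cfsg.Agent.S2455

open Cfsg.Agent.Cl.L2 Matrix MulAction
open scoped MatrixGroups

/-- A strong covering result in the direction of Thompson's conjecture (non-identity elements) for PSL(2,q), q odd: let F be a finite field of odd characteristic p with at least 5 elements and let x ∈ PSL(2,F) have order greater than 2 and not divisible by p (so x is not unipotent). Then every non-identity element of PSL(2,F) is a product of two conjugates of x. -/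
theorem result {F : Type*} [Field F] [Fintype F] (p : ℕ) [Fact p.Prime] [CharP F p] (hp : p ≠ 2) (h5 : 5 ≤ Fintype.card F)
    (x : Matrix.ProjectiveSpecialLinearGroup (Fin 2) F) (hx2 : 2 < orderOf x) (hxp : ¬ p ∣ orderOf x) : ∀ g : Matrix.ProjectiveSpecialLinearGroup (Fin 2) F, g ≠ 1 → ∃ u v : Matrix.ProjectiveSpecialLinearGroup (Fin 2) F, g = (u * x * u⁻¹) * (v * x * v⁻¹) := by
  intro g hg
  have h1 : x ≠ 1 := by rintro rfl; simp at hx2
  refine exists_eq_conj_mul_conj_self (fun ht => ?_)
    (Or.inl ⟨two_ne_zero_of_char p hp, fun h => ?_⟩) hg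
  · obtain ⟨y, hy⟩ := exists_mem_uniS ht
    exact hxp (orderOf_of_mem_uniS p hy h1).symm.dvd
  · have := (orderOf_eq_two_iff_tau (emb_ne_one.2 h1)).2 h
    rw [orderOf_emb] at this
    omega

end Cfsg.Agent.S2455
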