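import Mathlib
import Cfsg.Statements.S2456
import Cfsg.Agent.Cl.PSL2Ore

set_option autoImplicit false
open Cfsg

set_option linter.unusedVariables false

namespace Cfsg.Agent.S2456

open Cfsg.Agent.Cl.L2 Matrix MulAction
open scoped MatrixGroups

/-- A strong covering result in the direction of Thompson's conjecture (non-identity elements) for PSL(2,q), q even: let F be a finite field of characteristic 2 with q ≥ 4 elements and let x ∈ PSL(2,F) have order greater than 2 and not dividing q + 1. Then every non-identity element of PSL(2,F) is a product of two conjugates of x. -/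
theorem result {F : Type*} [Field F] [Fintype F] [CharP F 2] (h4 : 4 ≤ Fintype.card F)
    (x : Matrix.ProjectiveSpecialLinearGroup (Fin 2) F) (hx2 : 2 < orderOf x) (hxq : ¬ orderOf x ∣ Fintype.card F + 1) : ∀ g : Matrix.ProjectiveSpecialLinearGroup (Fin 2) F, g ≠ 1 → ∃ u v : Matrix.ProjectiveSpecialLinearGroup (Fin 2) F, g = (u * x * u⁻¹) * (v * x * v⁻¹) := by
  intro g hg
  have h1 : x ≠ 1 := by rintro rfl; simp at hx2
  refine exists_eq_conj_mul_conj_self (fun ht => ?_) (Or.inr (by_contra fun h => hxq ?_)) hg
  · obtain ⟨y, hy⟩ := exists_mem_uniS ht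
    have := orderOf_of_mem_uniS 2 hy h1
    omega
  · rw [← Nat.card_eq_fintype_card, ← orderOf_emb]
    exact orderOf_dvd_of_nofix fun y hy => h ⟨y, (emb_smul x y).symm.trans hy⟩

end Cfsg.Agent.S2456
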