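import Mathlib
import Cfsg.Statements.S2458
import Cfsg.Agent.Cl.CharReeCover

set_option autoImplicit false
open Cfsg

namespace Cfsg.Agent.S2458

open Cfsg.Agent.Chev


/-- A strong covering result in the direction of Thompson's conjecture (non-identity elements) for the small Ree groups: let q = 3^(2m+1) ≥ 27, K the field with q elements and ²G₂(q) the Ree group over K. For every element x of ²G₂(q) of order greater than 2 and not divisible by 3, every non-identity element of ²G₂(q) is a product of two conjugates of x. -/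
theorem result {K : Type*} [Field K] [Fintype K] (m : ℕ) (hm : 1 ≤ m) (hK : Fintype.card K = 3 ^ (2 * m + 1))
    (x : Cfsg.Lie.twistedG2 K (3 ^ m)) (hx2 : 2 < orderOf x) (hx3 : ¬ 3 ∣ orderOf x) : ∀ g : Cfsg.Lie.twistedG2 K (3 ^ m), g ≠ 1 → ∃ u v : Cfsg.Lie.twistedG2 K (3 ^ m), g = (u * x * u⁻¹) * (v * x * v⁻¹) := by
  intro g hg
  obtain ⟨R, θ, hE⟩ := ReeInst.exists_ree_expl hK
  have hq : 27 ≤ Fintype.card K := by
    rw [hK]
    calc 27 = 3 ^ 3 := rfl
      _ ≤ 3 ^ (2 * m + 1) := Nat.pow_le_pow_right (by norm_num) (by omega)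
  have hx : Big (orderOf x) := by
    rcases R.orderOf_cases x with h | h | h | h | h | h
    · omega
    · omega
    · omega
    · omega
    · omega
    · exact h
  obtain ⟨y, z, hy, hz, rfl⟩ := hE.exists_mul_eq hq hx hg
  obtain ⟨u, rfl⟩ := isConj_iff.mp hy
  obtain ⟨v, rfl⟩ := isConj_iff.mp hz
  exact ⟨u, v, rfl⟩

end Cfsg.Agent.S2458
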