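import Mathlib
import Cfsg.Statements.S2460
import Cfsg.Agent.Cl.Ore4

set_option autoImplicit false
open Cfsg

namespace Cfsg.Agent.S2460

/-- A form of Thompson's conjecture for the simple groups PSp(4,q), q ≥ 3 (covering the non-identity elements), with a semisimple class: for F a finite field of characteristic p with at least 3 elements there is an element x of PSp(4,F) of order prime to p such that every non-identity element of PSp(4,F) is a product of two conjugates of x. -/
theorem result {F : Type*} [Field F] [Fintype F] (p : ℕ) [Fact p.Prime] [CharP F p] (h3 : 3 ≤ Fintype.card F) :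
    ∃ x : Cfsg.PSp 2 F, ¬ p ∣ orderOf x ∧ ∀ g : Cfsg.PSp 2 F, g ≠ 1 → ∃ u v : Cfsg.PSp 2 F, g = (u * x * u⁻¹) * (v * x * v⁻¹) := by
  obtain ⟨x, hc, h⟩ := Cl.Ore4.exists_class (F := F) p h3
  refine ⟨QuotientGroup.mk x, fun hp => ?_, fun g hg => ?_⟩
  · have hd : orderOf (QuotientGroup.mk x : Cfsg.PSp 2 F) ∣ orderOf x :=
      orderOf_map_dvd (QuotientGroup.mk' _) x
    exact (Fact.out : p.Prime).one_lt.ne' (Nat.Coprime.eq_one_of_dvd hc.symm (hp.trans hd))
  · obtain ⟨g, rfl⟩ := QuotientGroup.mk_surjective g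
    obtain ⟨u, v, e⟩ := h g fun hc => hg ((QuotientGroup.eq_one_iff g).2 hc)
    exact ⟨QuotientGroup.mk u, QuotientGroup.mk v, by rw [e]; rfl⟩

end Cfsg.Agent.S2460
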