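import Mathlib
import Cfsg.Statements.S2461
import Cfsg.Agent.Chev.ThG2

set_option autoImplicit false
open Cfsg

namespace Cfsg.Agent.S2461

/-- A form of Thompson's conjecture for the simple Chevalley groups G₂(q), q ≥ 3 (covering the non-identity elements), with a semisimple class: for F a finite field of characteristic p with at least 3 elements there is an element x of the Chevalley group of type G₂ over F of order prime to p such that every non-identity element of that group is a product of two conjugates of x. -/
theorem result {F : Type*} [Field F] [Fintype F] (p : ℕ) [Fact p.Prime] [CharP F p] (h3 : 3 ≤ Fintype.card F) :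
    ∃ x : Cfsg.Lie.chevG2.group F, ¬ p ∣ orderOf x ∧ ∀ g : Cfsg.Lie.chevG2.group F, g ≠ 1 → ∃ u v : Cfsg.Lie.chevG2.group F, g = (u * x * u⁻¹) * (v * x * v⁻¹) := by
  obtain ⟨φ, hφ⟩ := Lie.chevG2.exists_sl2Hom F (Chev.Th.G2.rt 7)
  classical
  obtain ⟨d, hd⟩ := Fintype.exists_ne_of_one_lt_card (α := Fˣ) (by rw [Fintype.card_units]; omega) 1
  have : Finite (Lie.chevG2.rootBN F).G := inferInstanceAs (Finite (Lie.chevG2.group F))
  obtain ⟨x, h1, h2⟩ := (Chev.Th.G2.data hφ hd).main (Lie.chevG2.rootBN_lie F p)
  exact ⟨x, h1, fun g _ => h2 g⟩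

end Cfsg.Agent.S2461
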