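import Mathlib
import Cfsg.Statements.S2462
import Cfsg.Agent.Chev.ThD4

set_option autoImplicit false
open Cfsg

namespace Cfsg.Agent.S2462

/-- A form of Thompson's conjecture for the triality groups ³D₄(q) (covering the non-identity elements) with a semisimple class: for q a power of the prime p and K the field with q³ elements there is an element x of ³D₄(q) (realised over K) of order prime to p such that every non-identity element of ³D₄(q) is a product of two conjugates of x. -/
theorem result {K : Type*} [Field K] [Fintype K] (p : ℕ) [Fact p.Prime] [CharP K p] (q : ℕ) (hq : IsPrimePow q) (hK : Fintype.card K = q ^ 3) :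
    ∃ x : Cfsg.Lie.twistedD4 K q, ¬ p ∣ orderOf x ∧ ∀ g : Cfsg.Lie.twistedD4 K q, g ≠ 1 → ∃ u v : Cfsg.Lie.twistedD4 K q, g = (u * x * u⁻¹) * (v * x * v⁻¹) := by
  obtain ⟨f, hf⟩ := Chev.tw_exists_frob hq (by decide : 3 ≠ 0) hK
  obtain ⟨φ, hφ⟩ := Lie.chevD4.exists_sl2Hom K (Chev.d4r 14)
  obtain ⟨D⟩ := Chev.Th.D4.main hφ hq.two_le hK hf
  have : Finite (Chev.Th.D4.R f).G := inferInstanceAs (Finite (Chev.twD4 f).G1)
  obtain ⟨x, h1, h2⟩ := D.main ((Chev.twD4 f).lie p (Chev.twD4_irreducible f))
  rw [← Chev.twD4_G1 hK hf]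
  exact ⟨x, h1, fun g _ => h2 g⟩

end Cfsg.Agent.S2462
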