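import Mathlib
import Cfsg.Statements.S2463
import Cfsg.Agent.Chev.ThF4
import Cfsg.Agent.Chev.ThTits

set_option autoImplicit false
open Cfsg

namespace Cfsg.Agent.S2463

/-- A form of Thompson's conjecture for the simple groups of type ²F₄ (covering the non-identity elements) with a semisimple class: if M is a large Ree group ²F₄(2^(2m+1)) with m ≥ 1, or the Tits group, then there is an element x of M of odd order such that every non-identity element of M is a product of two conjugates of x. -/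
theorem result {M : Type*} [Group M] [Finite M] (hM : Cfsg.Lie.Iso2F4 M ∨ Cfsg.Lie.IsoTits M) :
    ∃ x : M, Odd (orderOf x) ∧ ∀ g : M, g ≠ 1 → ∃ u v : M, g = (u * x * u⁻¹) * (v * x * v⁻¹) := by
  have key : ∀ {Γ : Type} [Group Γ] (G : Subgroup Γ), Nonempty (M ≃* G) →
      (∃ x : G, Odd (orderOf x) ∧ ∀ g : G, ∃ u v, g = u * x * u⁻¹ * (v * x * v⁻¹)) →
      ∃ x : M, Odd (orderOf x) ∧ ∀ g : M, g ≠ 1 → ∃ u v : M, g = (u * x * u⁻¹) * (v * x * v⁻¹) := by
    rintro Γ _ G ⟨e⟩ ⟨x, h1, h2⟩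
    refine ⟨e.symm x, by rwa [e.symm.orderOf_eq], fun g _ => ?_⟩
    obtain ⟨u, v, h⟩ := h2 (e g)
    exact ⟨e.symm u, e.symm v, e.injective (by simpa using h)⟩
  rcases hM with ⟨K, _, _, m, hm, hK, e⟩ | e
  · have := Chev.F4T.charP_of_card hK
    rw [Chev.F4T.twistedF4_eq_frob hK] at e
    obtain ⟨φ, hφ⟩ := Lie.chevF4.exists_sl2Hom K (Chev.F4T.rt 33)
    obtain ⟨φ', hφ'⟩ := Lie.chevF4.exists_sl2Hom K (Chev.F4T.rt 24)
    classical
    obtain ⟨d, hd⟩ := Fintype.exists_ne_of_one_lt_card (α := Kˣ) (by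
      have := Nat.pow_le_pow_right two_pos (show 2 ≤ 2 * m + 1 by omega)
      rw [Fintype.card_units]; omega) 1
    have : Finite (Chev.F4T.frobTw hK).relBN.G := inferInstanceAs (Finite (Chev.F4T.frobTw hK).Fix)
    obtain ⟨x, h1, h2⟩ := (Chev.Th.F4.data _ hφ hφ' (m := m) (fun _ => rfl) hd).main ((Chev.F4T.frobTw hK).lie hd)
    exact key _ e ⟨x, Nat.not_even_iff_odd.1 (mt Even.two_dvd h1), h2⟩
  · have h := Chev.Th.Tits.main
    rw [← Chev.F4T.twistedF4_two] at h
    exact key _ e h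

end Cfsg.Agent.S2463
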