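import Cfsg.Statements.S2467
import Cfsg.Agent.Sym.Order

set_option autoImplicit false
open Cfsg

namespace Cfsg.Agent.S2467

/-- Adjacency of 2 and an odd prime in the prime graph of the alternating groups: let r be an odd prime at most n, with n ≥ 4. The alternating group of degree n has an element of order 2r if and only if r + 4 ≤ n. -/
theorem result (n r : ℕ) (hn : 4 ≤ n) (hr : r.Prime) (hr2 : r ≠ 2) (hrn : r ≤ n) :
    (2 * r ∈ Set.range (orderOf : alternatingGroup (Fin n) → ℕ)) ↔ r + 4 ≤ n := by
  rw [Sym.mem_range_orderOf_alternating_iff, Fintype.card_fin]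
  have h2r := hr.two_le
  have hodd := hr.odd_of_ne_two hr2
  have key : ∀ m : Multiset ℕ, (∀ a ∈ m, 2 ≤ a) → 2 * (m.filter Even).card ≤ m.sum := by
    intro m hm
    have h1 := Multiset.card_nsmul_le_sum (s := m.filter Even) (a := 2)
      fun a ha => hm a (Multiset.mem_of_mem_filter ha)
    have h2 := congrArg Multiset.sum (Multiset.filter_add_not Even m)
    rw [Multiset.sum_add] at h2
    rw [smul_eq_mul] at h1
    omega
  constructor
  · rintro ⟨m, h1, h2, h3, h4⟩
    obtain ⟨a, ha, hra⟩ := Sym.prime_dvd_multiset_lcm hr (h4 ▸ dvd_mul_left r 2)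
    obtain ⟨b, hb, hsb⟩ := Sym.prime_dvd_multiset_lcm Nat.prime_two (h4 ▸ dvd_mul_right 2 r)
    have ha2 := h2 a ha
    obtain ⟨m, rfl⟩ := Multiset.exists_cons_of_mem ha
    rw [Sym.even_sum_add_card_iff, Multiset.filter_cons] at h3
    rw [Multiset.sum_cons] at h1
    have h5 := key m fun a ha => h2 a (Multiset.mem_cons_of_mem ha)
    by_cases hae : Even a
    · have := Nat.le_of_dvd (by omega) (Nat.Coprime.mul_dvd_of_dvd_of_dvd
        ((Nat.coprime_primes Nat.prime_two hr).2 hr2.symm) hae.two_dvd hra)
      simp only [hae, if_true, Multiset.card_add, Multiset.card_singleton] at h3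
      grind
    · simp only [hae, if_false, zero_add] at h3
      have hb' : b ∈ m.filter Even := by
        rw [Multiset.mem_filter]
        refine ⟨(Multiset.mem_cons.1 hb).resolve_left ?_, even_iff_two_dvd.2 hsb⟩
        rintro rfl
        exact hae (even_iff_two_dvd.2 hsb)
      have := Multiset.card_pos_iff_exists_mem.2 ⟨b, hb'⟩
      have := Nat.le_of_dvd (by omega) hra
      grind
  · intro h
    refine ⟨{r, 2, 2}, by simpa using h, by simp [h2r], ?_, ?_⟩
    · simp only [Multiset.insert_eq_cons, Multiset.sum_cons, Multiset.sum_singleton,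
        Multiset.card_cons, Multiset.card_singleton]
      grind
    · simp only [Multiset.insert_eq_cons, Multiset.lcm_cons, Multiset.lcm_singleton, normalize_eq]
      rw [show GCDMonoid.lcm 2 2 = 2 from rfl, mul_comm]
      exact ((Nat.coprime_primes hr Nat.prime_two).2 hr2).lcm_eq_mul

end Cfsg.Agent.S2467
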