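import Mathlib
import Cfsg.Statements.S2471
import Cfsg.Agent.Cl.PSL2Pairs

set_option autoImplicit false
open Cfsg

set_option linter.unusedVariables false

namespace Cfsg.Agent.S2471

open Cfsg.Agent.Cl.L2 Matrix MulAction
open scoped MatrixGroups

/-- In PSL(2,q) with q odd, the characteristic p is isolated from 2 in the prime graph: for F a finite field of odd characteristic p with at least 5 elements, PSL(2,F) has no element of order 2p. -/
theorem result {F : Type*} [Field F] [Fintype F] (p : ℕ) [Fact p.Prime] [CharP F p] (hp : p ≠ 2) (h5 : 5 ≤ Fintype.card F) (g : Matrix.ProjectiveSpecialLinearGroup (Fin 2) F) :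
    orderOf g ≠ 2 * p := by
  intro h
  have hp' : p.Prime := Fact.out
  have ht : tau (emb g) = 4 := by
    by_contra ht
    exact not_dvd_orderOf_of_tau p ht (isOfFinOrder_of_finite _)
      (by rw [orderOf_emb, h]; exact Dvd.intro_left 2 rfl)
  obtain ⟨x, hx⟩ := exists_mem_uniS ht
  have := orderOf_dvd_of_pow_eq_one (pow_char_of_mem_uni p hx)
  rw [orderOf_emb, h] at this
  have := Nat.le_of_dvd hp'.pos this
  have := hp'.pos
  omega

end Cfsg.Agent.S2471
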