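import Mathlib
import Cfsg.Statements.S2478
import Cfsg.Agent.Cl.ClassNumC
import Cfsg.Agent.S2387

set_option autoImplicit false
open Cfsg

namespace Cfsg.Agent.S2478

/-- The number of conjugacy classes of GL(n,q): for F a finite field with q elements and n ≥ 1, the number k of conjugacy classes of GL(n,F) satisfies q^n − q^(n−1) ≤ k ≤ q^n. -/
theorem result {F : Type*} [Field F] [Fintype F] (n : ℕ) (hn : 1 ≤ n) :
    Fintype.card F ^ n - Fintype.card F ^ (n - 1) ≤ Nat.card (ConjClasses (Matrix.GeneralLinearGroup (Fin n) F)) ∧ Nat.card (ConjClasses (Matrix.GeneralLinearGroup (Fin n) F)) ≤ Fintype.card F ^ n := by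
  obtain ⟨p, hp⟩ := CharP.exists F
  have : Fact p.Prime := ⟨CharP.char_is_prime F p⟩
  refine ⟨?_, ?_⟩
  · obtain ⟨k, rfl⟩ : ∃ k, n = k + 1 := ⟨n - 1, by omega⟩
    refine le_trans ?_ ((S2387.result rfl p _ hn).ge.trans (Finite.card_subtype_le _))
    rw [Nat.add_sub_cancel, pow_succ', Nat.sub_one_mul]
  · have h := (Cl.Cls.eCount_GL' F (AlgebraicClosure F)).nJD_le_pow n
    rwa [Nat.sub_add_cancel Fintype.card_pos, ← Cl.Cls.card_conjClasses_GL] at h

end Cfsg.Agent.S2478
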