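import Cfsg.Statements.S2483
import Cfsg.Agent.Cl.CovNF

set_option autoImplicit false
open Cfsg

namespace Cfsg.Agent.S2483

open Matrix Module Polynomial Cl Cl.CN

section

variable {F : Type*} [Field F] {n : ℕ}

theorem exists_sl {g : End F (Fin n → F)} (h : LinearMap.det g = 1) :
    ∃ x : SpecialLinearGroup (Fin n) F, toLin' x.1 = g := by
  obtain ⟨g, rfl⟩ := toLin'.surjective g
  exact ⟨⟨g, by simpa using h⟩, rfl⟩

theorem pw_iff {x : SpecialLinearGroup (Fin n) F} {k : ℕ} {P : End F (Fin n → F)} :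
    Pw (toLin' x.1) k P ↔ ∃ f : Fin k → SpecialLinearGroup (Fin n) F,
      P = toLin' (List.ofFn fun i => f i * x * (f i)⁻¹).prod.1 := by
  have h0 : ∀ a b : SpecialLinearGroup (Fin n) F, toLin' (a * b).1 = toLin' a.1 * toLin' b.1 :=
    fun a b => toLin'_mul _ _
  constructor
  · intro h
    induction h with
    | zero => exact ⟨fun _ => 1, by simp [Module.End.one_eq_id]⟩
    | @succ k B P h1 _ ih =>
      obtain ⟨f, rfl⟩ := ih
      obtain ⟨g, h2, h3⟩ := h1
      obtain ⟨g, rfl⟩ := exists_sl h2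
      refine ⟨Fin.cons g f, ?_⟩
      simp only [List.ofFn_succ, List.prod_cons, Fin.cons_zero, Fin.cons_succ]
      rw [h0, h0, h0, h3, mul_assoc B, ← h0, mul_inv_cancel]
      simp [← Module.End.one_eq_id]
  · rintro ⟨f, rfl⟩
    induction k with
    | zero => simpa [← Module.End.one_eq_id] using Pw.zero
    | succ k ih =>
      rw [List.ofFn_succ, List.prod_cons, h0]
      exact Pw.succ ⟨toLin' (f 0).1, by simp, by rw [← h0, ← h0, inv_mul_cancel_right]⟩ (ih _)

theorem mk_eq_one {x : SpecialLinearGroup (Fin n) F} :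
    (QuotientGroup.mk x : ProjectiveSpecialLinearGroup (Fin n) F) = 1 ↔ ¬ NS (toLin' x.1) := by
  rw [QuotientGroup.eq_one_iff, Matrix.SpecialLinearGroup.mem_center_iff]
  simp only [NS, not_forall, not_not]
  refine exists_congr fun c => ⟨fun h => ?_, fun h => ?_⟩
  · rw [← h.2, scalar_apply, ← smul_one_eq_diagonal, map_smul, toLin'_one]; rfl
  · have : x.1 = c • 1 := toLin'.injective (by rw [h, map_smul, toLin'_one]; rfl)
    exact ⟨by simpa [this] using x.2, by rw [this, scalar_apply, smul_one_eq_diagonal]⟩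

theorem mk_prod {k : ℕ} (x : SpecialLinearGroup (Fin n) F)
    (f : Fin k → SpecialLinearGroup (Fin n) F) :
    (QuotientGroup.mk (List.ofFn fun i => f i * x * (f i)⁻¹).prod :
      ProjectiveSpecialLinearGroup (Fin n) F) =
      (List.ofFn fun i => (f i : ProjectiveSpecialLinearGroup (Fin n) F) * x * (↑(f i))⁻¹).prod := by
  rw [← QuotientGroup.mk'_apply, map_list_prod, List.map_ofFn]
  rfl

end

/-- The covering number of PSL(n,q) is n: let F be a finite field with q ≥ 4 elements and n ≥ 3. For every non-identity element x of PSL(n,F), every element of PSL(n,F) is a product of n conjugates of x; and for some non-identity x, some element is not a product of n − 1 conjugates of x. -/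
theorem result {F : Type*} [Field F] [Fintype F] (h4 : 4 ≤ Fintype.card F) (n : ℕ) (hn : 3 ≤ n) :
    (∀ x : Matrix.ProjectiveSpecialLinearGroup (Fin n) F, x ≠ 1 → ∀ g : Matrix.ProjectiveSpecialLinearGroup (Fin n) F, ∃ f : Fin n → Matrix.ProjectiveSpecialLinearGroup (Fin n) F, g = (List.ofFn fun i => f i * x * (f i)⁻¹).prod) ∧
    (∃ x : Matrix.ProjectiveSpecialLinearGroup (Fin n) F, x ≠ 1 ∧ ∃ g : Matrix.ProjectiveSpecialLinearGroup (Fin n) F, ∀ f : Fin (n - 1) → Matrix.ProjectiveSpecialLinearGroup (Fin n) F, g ≠ (List.ofFn fun i => f i * x * (f i)⁻¹).prod) := by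
  have hV : finrank F (Fin n → F) = n := by simp
  constructor
  · intro x hx g
    obtain ⟨x, rfl⟩ := QuotientGroup.mk_surjective x
    obtain ⟨g, rfl⟩ := QuotientGroup.mk_surjective g
    obtain ⟨h1, c, h2⟩ := main (A := toLin' x.1) (by simpa using h4) (by omega) (by simp)
      (not_not.1 (mt mk_eq_one.2 hx))
    rw [hV] at h1 h2
    by_cases h : NS (toLin' g.1)
    · obtain ⟨f, hf⟩ := pw_iff.1 (h1 _ h (by simp))
      exact ⟨fun i => f i, by rw [← mk_prod, Subtype.ext (toLin'.injective hf)]⟩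
    · obtain ⟨f, hf⟩ := pw_iff.1 h2
      exact ⟨fun i => f i, by rw [← mk_prod, mk_eq_one.2 h, mk_eq_one.2 fun e => e c hf.symm]⟩
  obtain ⟨m, rfl⟩ : ∃ m, n = m + 2 := ⟨n - 2, by omega⟩
  obtain ⟨x, hx⟩ := exists_sl (g := LinearMap.transvection (LinearMap.proj (1 : Fin (m + 2)))
    (Pi.single 0 (1 : F))) (by simp)
  obtain ⟨g, -, h1, h2⟩ := exists_rootless (V := Fin (m + 2) → F) (by omega) (one_ne_zero (α := F))
  obtain ⟨g, rfl⟩ := exists_sl h1
  refine ⟨x, mt mk_eq_one.1 (not_not.2 fun c e => ?_), g, fun f e => ?_⟩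
  · simpa [LinearMap.transvection.apply] using
      congrFun (LinearMap.congr_fun (hx.symm.trans e) (Pi.single 1 1)) 0
  choose f' hf using fun i => QuotientGroup.mk_surjective (f i)
  obtain rfl : f = fun i => ↑(f' i) := funext fun i => (hf i).symm
  rw [← mk_prod, ← mul_inv_eq_one, ← QuotientGroup.mk_inv, ← QuotientGroup.mk_mul, mk_eq_one] at e
  have h3 := (pw_iff.2 ⟨f', rfl⟩).rank_le (hx ▸ rk_tv _ _)
  generalize (List.ofFn fun i => f' i * x * (f' i)⁻¹).prod = p at e h3
  obtain ⟨c, hc⟩ : ∃ c : F, toLin' (g * p⁻¹).1 = c • 1 := by simpa [NS] using e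
  have h5 := (toLin' p.1 - 1).finrank_range_add_finrank_ker
  obtain ⟨w, h6, h7⟩ := (LinearMap.ker (toLin' p.1 - 1)).exists_mem_ne_zero_of_ne_bot fun e => by
    rw [e, finrank_bot] at h5; omega
  have h8 := isUnit_aeval_of_coprime (Ore.isCoprime_X_sub_C (h2 c)).symm
    (LinearMap.aeval_self_charpoly _)
  refine h7 (inj_of_det ((LinearMap.isUnit_iff_isUnit_det _).1 h8).ne_zero ?_)
  have h9 : toLin' g.1 = toLin' (g * p⁻¹).1 ∘ₗ toLin' p.1 := by
    rw [← toLin'_mul, ← Matrix.SpecialLinearGroup.coe_mul, inv_mul_cancel_right]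
  rw [CN.aeval_sub, ← hc, h9, LinearMap.sub_apply, LinearMap.comp_apply,
    show toLin' p.1 w = w from sub_eq_zero.1 h6, sub_self]

end Cfsg.Agent.S2483
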