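import Mathlib
import Cfsg.Statements.S2485
import Cfsg.Agent.Cl.PSL2Excep

set_option autoImplicit false
open scoped Pointwise
open Cfsg

set_option linter.unusedVariables false

namespace Cfsg.Agent.S2485

open Cfsg.Agent.Cl.L2

section
open Matrix MulAction
open scoped MatrixGroups

lemma exists_inv_mem_tor {F : Type*} [Field F] [Finite F] (h2 : (2 : F) ≠ 0) {g : PGL(2, F)}
    (ht : tau g ≠ 4) : ∃ w ∈ tor g, orderOf w = 2 := by
  have h1 := two_ne_zero_iff_odd.1 h2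
  have h3 := card_tor_or ht
  obtain ⟨w, hw⟩ := exists_prime_orderOf_dvd_card' (G := tor g) 2 (by omega)
  exact ⟨w, w.2, by rw [Subgroup.orderOf_coe, hw]⟩

/-- Two involutions without fixed points are centralised by a common involution. -/
lemma exists_comm_comm {F : Type*} [Field F] [Finite F] (h2 : (2 : F) ≠ 0) {z z' : PGL(2, F)}
    (hz : z * z = 1) (hz' : z' * z' = 1) (hx : ∀ x : P1 F, z • x ≠ x) :
    ∃ w, w ≠ 1 ∧ w * z = z * w ∧ w * z' = z' * w := by
  have e1 : z * (z * z') * z⁻¹ = (z * z')⁻¹ := by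
    rw [← mul_assoc, hz, one_mul, _root_.mul_inv_rev, inv_eq_of_mul_eq_one_right hz']
  have e2 : z' * (z * z') * z'⁻¹ = (z * z')⁻¹ := by
    rw [← mul_assoc, mul_inv_cancel_right, _root_.mul_inv_rev, inv_eq_of_mul_eq_one_right hz',
      inv_eq_of_mul_eq_one_right hz]
  by_cases hg : z * z' = 1
  · obtain rfl : z' = z := mul_left_cancel (hg.trans hz.symm)
    exact ⟨z', fun h => hx inf (by rw [h, one_smul]), rfl, rfl⟩
  have ht : tau (z * z') ≠ 4 := fun ht => by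
    obtain ⟨x, hx'⟩ := exists_mem_uni ht
    have h1 : (z * z')⁻¹ ∈ uni (z • x) := e1 ▸ conj_mem_uni_smul.2 hx'
    exact hx x (eq_of_unip_fix hg ht (mem_uni.1 (inv_mem_iff.1 h1)).1 (mem_uni.1 hx').1)
  obtain ⟨w, hw, ho⟩ := exists_inv_mem_tor h2 ht
  have key : ∀ n, n * (z * z') * n⁻¹ = (z * z')⁻¹ → w * n = n * w := fun n hn => by
    by_cases hn' : n ∈ tor (z * z')
    · exact tor_comm hg hw hn'
    · have := conj_eq_inv_of_mem_ntor ht ((mem_ntor_iff hg).2 (hn ▸ inv_mem (self_mem_tor _))) hn' hw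
      rw [inv_eq_of_mul_eq_one_right (show w * w = 1 by
        rw [← sq]; exact orderOf_dvd_iff_pow_eq_one.1 ho.dvd), mul_inv_eq_iff_eq_mul] at this
      exact this.symm
  exact ⟨w, by rintro rfl; simp at ho, key z e1, key z' e2⟩

lemma main {F : Type*} [Field F] [Finite F] (h2 : (2 : F) ≠ 0) {k : ℕ} (hk : Nat.card F + 1 = 2 ^ k)
    (H : Sylow 2 PGL(2, F)) (x : PGL(2, F)) :
    (H : Subgroup PGL(2, F)) ⊓ MulAut.conj x • (H : Subgroup _) ≠ ⊥ := by
  obtain ⟨g, hg⟩ := exists_nofix (F := F)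
  obtain ⟨z, hz, ho⟩ := exists_inv_mem_tor h2 (tau_ne_four_of_nofix hg)
  have hx := nofix_of_mem_tor hg hz (by rintro rfl; simp at ho)
  have ht := tau_ne_four_of_nofix hx
  have hc : Nat.card (Subgroup.centralizer {z}) = 2 ^ (k + 1) := by
    rw [centralizer_eq_ntor ht (tau_of_orderOf_two ho), card_ntor ht, card_tor_of_nofix hx, hk,
      pow_succ']
  obtain ⟨S, hS⟩ := (IsPGroup.of_card hc).exists_le_sylow
  obtain ⟨c, rfl⟩ := exists_smul_eq PGL(2, F) S H
  have hz2 : z * z = 1 := by rw [← sq]; exact orderOf_dvd_iff_pow_eq_one.1 ho.dvd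
  obtain ⟨w, h1, h3, h4⟩ := exists_comm_comm h2 hz2 (z' := (c⁻¹ * x * c) * z * (c⁻¹ * x * c)⁻¹)
    (by rw [conj_mul, hz2, mul_one, mul_inv_cancel]) hx
  rw [Sylow.coe_subgroup_smul, ← cj_eq_smul, ← cj_eq_smul]
  refine (Subgroup.ne_bot_iff_exists_ne_one).2 ⟨⟨c * w * c⁻¹, ?_, ?_⟩, fun h => h1 ?_⟩
  · exact mem_cj.2 (hS (Subgroup.mem_centralizer_singleton_iff.2 (by simpa [mul_assoc] using h3)))
  · refine mem_cj.2 (mem_cj.2 (hS (Subgroup.mem_centralizer_singleton_iff.2 ?_)))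
    have : ∀ a b : PGL(2, F), a = b → (c⁻¹ * x * c)⁻¹ * a * (c⁻¹ * x * c) =
      (c⁻¹ * x * c)⁻¹ * b * (c⁻¹ * x * c) := fun a b h => by rw [h]
    convert this _ _ h4 using 1 <;> group
  · simpa [mul_inv_eq_one] using congrArg Subtype.val h

end

/-- Let q = 2^k − 1 ≥ 7 be a prime and let G = PGL(2,q), the general linear group of degree 2 over the field with q elements modulo its centre. Then any two Sylow 2-subgroups of G have a non-trivial intersection: for a Sylow 2-subgroup H and every x ∈ G, H ∩ H^x ≠ 1. -/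
theorem result {q k : ℕ} [Fact q.Prime] (hk : q + 1 = 2 ^ k) (hq : 7 ≤ q)
    (H : Sylow 2 (GL (Fin 2) (ZMod q) ⧸ Subgroup.center (GL (Fin 2) (ZMod q))))
    (x : GL (Fin 2) (ZMod q) ⧸ Subgroup.center (GL (Fin 2) (ZMod q))) :
    (H : Subgroup (GL (Fin 2) (ZMod q) ⧸ Subgroup.center (GL (Fin 2) (ZMod q)))) ⊓ MulAut.conj x • (H : Subgroup _) ≠ ⊥ := by
  have h1 : Nat.card (ZMod q) = q := Nat.card_zmod q
  refine main (F := ZMod q) (two_ne_zero_iff_odd.2 ?_) (h1.symm ▸ hk) H x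
  rw [h1]
  exact (Fact.out : q.Prime).eq_two_or_odd.resolve_left (by omega)

end Cfsg.Agent.S2485
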