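import Mathlib
import Cfsg.Statements.S2486
import Cfsg.Agent.Cl.EichSL
import Cfsg.Agent.Cl.LinearSylow
import Cfsg.Agent.Chev.LiePk
import Cfsg.Agent.FG.SylowNormal

set_option autoImplicit false
open scoped Pointwise
open Cfsg

namespace Cfsg.Agent.S2486

open Cfsg.Agent.Cl Cfsg.Agent.Chev

theorem opp_trans {K Φ : Type*} {I : Type} [Group K] [Finite K] [Finite Φ] [Nonempty I] {p : ℕ} [Fact p.Prime]
    (R : RootBN K Φ I) (hG : R.G = ⊤) (hL : R.Lie p) (U S T : Sylow p K)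
    (hS : (U : Subgroup K) ⊓ S = ⊥) (hT : (U : Subgroup K) ⊓ T = ⊥) :
    ∃ u ∈ (U : Subgroup K), u • S = T := by
  obtain ⟨R, hG, hU⟩ : ∃ R : RootBN K Φ I, R.G = ⊤ ∧ R.U = U := by
    obtain ⟨g, rfl⟩ := (RootBN.parSys hG hL).exists_comap_U U
    let e : K ≃* R.G := (MulAut.conj g).trans ((MulEquiv.subgroupCongr hG).trans Subgroup.topEquiv).symm
    exact ⟨R.map (RootBN.ker_le_of_equiv e), MonoidHom.range_eq_top.2 e.symm.surjective,
      Subgroup.ext fun _ => RootBN.mem_img_equiv e⟩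
  have key : ∀ S : Sylow p K, (U : Subgroup K) ⊓ S = ⊥ → ∃ u ∈ (U : Subgroup K), S = u • R.n0 • U := by
    intro S hS
    obtain ⟨g, rfl⟩ := MulAction.exists_smul_eq K U S
    obtain ⟨u, hu, n, hn, u', hu', rfl⟩ := RootBN.bruhat (R := R) (g := g) (hG ▸ Subgroup.mem_top g)
    have h : ¬ ∃ r, R.pos r ∧ R.pos (R.w n⁻¹ r) := by
      rintro ⟨r, h1, h2⟩
      obtain ⟨⟨y, hy⟩, hy1⟩ := Subgroup.ne_bot_iff_exists_ne_one.1 (R.X_ne_bot r)
      have h3 := RootBN.X_le_U h1 hy
      have h4 := RootBN.X_le_U h2 (R.conj_X (inv_mem hn) hy)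
      have h5 : u * y * u⁻¹ ∈ R.U := mul_mem (mul_mem hu h3) (inv_mem hu)
      have h6 := mul_mem (mul_mem (inv_mem hu') h4) hu'
      have h7 : u * y * u⁻¹ ∈ (U : Subgroup K) ⊓ ((u * n * u') • U : Sylow p K) := by
        refine ⟨hU ▸ h5, ?_⟩
        rw [Sylow.coe_subgroup_smul]
        refine Subgroup.mem_pointwise_smul_iff_inv_smul_mem.2 ?_
        rw [← hU]
        simpa [mul_assoc] using h6
      rw [hS, Subgroup.mem_bot] at h7
      exact hy1 (by simpa [Subtype.ext_iff] using h7)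
    have h1 : R.n0⁻¹ * n ∈ R.H := by
      rw [← inv_mem_iff, mul_inv_rev, inv_inv]
      refine RootBN.mem_H_of_pos (mul_mem (inv_mem hn) RootBN.n0_mem) fun r hr => ?_
      rw [RootBN.w_mul_apply (inv_mem hn) RootBN.n0_mem, ← RootBN.not_pos_neg,
        ← R.w_neg (inv_mem hn)]
      refine fun h2 => h ⟨_, ?_, h2⟩
      rw [R.pos_neg, RootBN.pos_w_n0, not_not]
      exact hr
    refine ⟨u, hU ▸ hu, ?_⟩
    have h2 : (R.n0⁻¹ * n * u') • U = U := by
      rw [Sylow.smul_eq_iff_mem_normalizer, ← Sylow.coe_coe, ← hU, RootBN.normalizer_U hG]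
      exact mul_mem (Subgroup.mem_sup_right h1) (Subgroup.mem_sup_left hu')
    rw [← mul_smul]
    conv_rhs => rw [← h2, ← mul_smul]
    congr 1
    group
  obtain ⟨u, hu, rfl⟩ := key S hS
  obtain ⟨v, hv, rfl⟩ := key T hT
  exact ⟨v * u⁻¹, mul_mem hv (inv_mem hu), by rw [mul_smul, inv_smul_smul]⟩

theorem sl_norm {n : ℕ} (U : Sylow 2 (Matrix.SpecialLinearGroup (Fin n) (ZMod 2)))
    {y : Matrix.SpecialLinearGroup (Fin n) (ZMod 2)} (hy : y • U = U) :
    y ∈ (U : Subgroup (Matrix.SpecialLinearGroup (Fin n) (ZMod 2))) := by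
  have hb : Function.Injective (id : Fin n → Fin n) := Function.injective_id
  obtain ⟨g, rfl⟩ := MulAction.exists_smul_eq (Matrix.SpecialLinearGroup (Fin n) (ZMod 2))
    (unipSylowSL (ZMod 2) 2 hb) U
  have h1 : (g⁻¹ * y * g) • unipSylowSL (ZMod 2) 2 hb = unipSylowSL (ZMod 2) 2 hb := by
    rw [mul_smul, mul_smul, hy, inv_smul_smul]
  rw [Sylow.smul_eq_iff_mem_normalizer, ← Sylow.coe_coe, mem_normalizer_unipSylowSL] at h1
  have h2 : g⁻¹ * y * g ∈ unipSylowSL (ZMod 2) 2 hb := by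
    rw [mem_unipSylowSL]
    intro i j hij
    rcases lt_or_eq_of_le hij with h | h
    · exact (h1 i j h).trans (Matrix.one_apply_ne (ne_of_gt h)).symm
    · obtain rfl : j = i := h
      have h3 := (g⁻¹ * y * g).2
      rw [Matrix.det_of_isUpperTriangular (fun a b hab => h1 a b hab)] at h3
      have h4 : ((g⁻¹ * y * g : Matrix.SpecialLinearGroup (Fin n) (ZMod 2)) :
          Matrix (Fin n) (Fin n) (ZMod 2)) j j ≠ 0 := fun h => by
        exact zero_ne_one (h3.symm.trans (Finset.prod_eq_zero (Finset.mem_univ j) h)).symm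
      rw [Matrix.one_apply_eq]
      revert h4
      generalize ((g⁻¹ * y * g : Matrix.SpecialLinearGroup (Fin n) (ZMod 2)) :
          Matrix (Fin n) (Fin n) (ZMod 2)) j j = a
      revert a
      decide
  rw [Sylow.coe_subgroup_smul]
  refine Subgroup.mem_pointwise_smul_iff_inv_smul_mem.2 ?_
  have h3 : g⁻¹ * y * g ∈ (unipSylowSL (ZMod 2) 2 hb :
    Subgroup (Matrix.SpecialLinearGroup (Fin n) (ZMod 2))) := h2
  simpa using h3

theorem mem_smul_iff {K : Type*} [Group K] {p : ℕ} (g y : K) (U : Sylow p K) :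
    y ∈ ((g • U : Sylow p K) : Subgroup K) ↔ g⁻¹ * y * g ∈ (U : Subgroup K) := by
  rw [Sylow.coe_subgroup_smul, Subgroup.mem_pointwise_smul_iff_inv_smul_mem]
  simp

/-- Let n ≥ 4 and let G be a finite group with a normal subgroup N of index 2 isomorphic to SL(n,2) and with trivial centralizer in G (so G is the extension of the simple group L_n(2) by its inverse-transpose automorphism, its full automorphism group). Then any two Sylow 2-subgroups of G have a non-trivial intersection: for a Sylow 2-subgroup H and every x ∈ G, H ∩ H^x ≠ 1. -/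
theorem result {G : Type*} [Group G] [Finite G] {n : ℕ} (hn : 4 ≤ n) (N : Subgroup G) [N.Normal]
    (e : N ≃* Matrix.SpecialLinearGroup (Fin n) (ZMod 2)) (hidx : N.index = 2)
    (hC : Subgroup.centralizer (N : Set G) = ⊥)
    (H : Sylow 2 G) (x : G) :
    (H : Subgroup G) ⊓ MulAut.conj x • (H : Subgroup G) ≠ ⊥ := by
  obtain ⟨m, rfl⟩ : ∃ m, n = m + 1 := ⟨n - 1, by omega⟩
  obtain ⟨R, hG, hL, -⟩ := (EB.slLie_sl (p := 2) (K := ZMod 2) m).of_mulEquiv e.symm
  have : Nonempty (Fin m) := ⟨⟨0, by omega⟩⟩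
  have hsq : ∀ y : G, y * y ∈ N := fun y => Subgroup.mul_self_mem_of_index_two hidx y
  have hnorm : ∀ (U : Sylow 2 N) (y : N), y • U = U → y ∈ (U : Subgroup N) := by
    intro U y hy
    have h1 : e y • U.mapSurjective (f := e.toMonoidHom) e.surjective =
        U.mapSurjective (f := e.toMonoidHom) e.surjective := by
      refine Sylow.ext (Subgroup.ext fun z => ?_)
      obtain ⟨z, rfl⟩ := e.surjective z
      rw [mem_smul_iff, ← map_inv, ← map_mul, ← map_mul]
      have : ∀ (W : Subgroup N) (a : N), e a ∈ W.map e.toMonoidHom ↔ a ∈ W := fun W a =>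
        Subgroup.mem_map_iff_mem (f := e.toMonoidHom) e.injective
      refine (this _ _).trans (Iff.trans ?_ (this _ _).symm)
      rw [← mem_smul_iff, hy]
    exact (Subgroup.mem_map_iff_mem (f := e.toMonoidHom) e.injective).1 (sl_norm _ h1)
  -- a Sylow subgroup of `G` contains everything normalising its trace on `N`
  have hkey : ∀ (P : Sylow 2 G) (y : G),
      (∀ z ∈ N, y⁻¹ * z * y ∈ (P : Subgroup G) ↔ z ∈ (P : Subgroup G)) → y ∈ (P : Subgroup G) := by
    intro P y hy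
    let M : Subgroup G :=
      { carrier := {y | ∀ z ∈ N, y⁻¹ * z * y ∈ (P : Subgroup G) ↔ z ∈ (P : Subgroup G)}
        one_mem' := fun z _ => by simp
        mul_mem' := fun {a b} ha hb z hz => by
          have h1 : a⁻¹ * z * a ∈ N := by simpa using Subgroup.Normal.conj_mem inferInstance z hz a⁻¹
          rw [← ha z hz, ← hb _ h1]
          simp [mul_assoc]
        inv_mem' := fun {a} ha z hz => by
          have h1 : a * z * a⁻¹ ∈ N := Subgroup.Normal.conj_mem inferInstance z hz a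
          rw [inv_inv, ← ha _ h1]
          simp [mul_assoc] }
    obtain ⟨U, hU⟩ := FG.H96.exists_sylow_eq_subgroupOf P N
    have hM : IsPGroup 2 M := by
      intro a
      have h1 : (⟨a.1 * a.1, hsq a⟩ : N) • U = U := by
        refine Sylow.ext (Subgroup.ext fun z => ?_)
        rw [mem_smul_iff, hU]
        exact (mul_mem a.2 a.2 : a.1 * a.1 ∈ M) z z.2
      have h2 := hnorm U _ h1
      rw [hU] at h2
      obtain ⟨k, hk⟩ := P.isPGroup' ⟨a.1 * a.1, h2⟩
      refine ⟨k + 1, Subtype.ext ?_⟩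
      have h3 : (a.1 * a.1) ^ 2 ^ k = 1 := congrArg Subtype.val hk
      rw [← pow_two, ← pow_mul, ← pow_succ'] at h3
      exact h3
    have hPM : (P : Subgroup G) ≤ M := fun a ha z _ =>
      ⟨fun h => by simpa [mul_assoc] using mul_mem (mul_mem ha h) (inv_mem ha),
        fun h => mul_mem (mul_mem (inv_mem ha) h) ha⟩
    rw [← P.is_maximal' hM hPM]
    exact hy
  intro hbot
  obtain ⟨t, ht, htN⟩ : ∃ t ∈ (H : Subgroup G), t ∉ N := by
    by_contra h
    push Not at h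
    have h1 := Subgroup.index_dvd_of_le (show (H : Subgroup G) ≤ N from h)
    rw [hidx] at h1
    exact H.not_dvd_index h1
  rw [← Sylow.coe_subgroup_smul] at hbot
  obtain ⟨U, hU⟩ := FG.H96.exists_sylow_eq_subgroupOf H N
  obtain ⟨S, hS⟩ := FG.H96.exists_sylow_eq_subgroupOf (x • H) N
  obtain ⟨T, hT⟩ := FG.H96.exists_sylow_eq_subgroupOf (t • x • H) N
  have h1 : (U : Subgroup N) ⊓ S = ⊥ := by
    rw [eq_bot_iff]
    rintro z ⟨h1, h2⟩
    rw [hU] at h1
    rw [hS] at h2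
    have : z.1 ∈ (⊥ : Subgroup G) := hbot ▸ ⟨h1, h2⟩
    exact Subtype.ext this
  have h2 : (U : Subgroup N) ⊓ T = ⊥ := by
    rw [eq_bot_iff]
    rintro z ⟨h1, h2⟩
    rw [hU] at h1
    rw [hT] at h2
    have h3 : t⁻¹ * z.1 * t ∈ (⊥ : Subgroup G) :=
      hbot ▸ Subgroup.mem_inf.2 ⟨mul_mem (mul_mem (inv_mem ht) h1) ht, (mem_smul_iff _ _ _).1 h2⟩
    rw [Subgroup.mem_bot] at h3 ⊢
    refine Subtype.ext ?_
    have h4 : z.1 = t * (t⁻¹ * z.1 * t) * t⁻¹ := by group
    rw [h4, h3]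
    simp
  obtain ⟨u, hu, h3⟩ := opp_trans R hG hL U S T h1 h2
  rw [hU] at hu
  have h4 : u.1⁻¹ * t ∈ ((x • H : Sylow 2 G) : Subgroup G) := by
    refine hkey _ _ fun z hz => ?_
    have h5 : (u * ⟨z, hz⟩ * u⁻¹ : N) ∈ ((u • S : Sylow 2 N) : Subgroup N) ↔
        (u * ⟨z, hz⟩ * u⁻¹ : N) ∈ (T : Subgroup N) := by rw [h3]
    rw [mem_smul_iff, hS, hT, Subgroup.mem_subgroupOf, Subgroup.mem_subgroupOf,
      mem_smul_iff t] at h5
    simpa [mul_assoc] using h5.symm
  have h5 : u.1⁻¹ * t ∈ (⊥ : Subgroup G) := hbot ▸ Subgroup.mem_inf.2 ⟨mul_mem (inv_mem hu) ht, h4⟩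
  rw [Subgroup.mem_bot, inv_mul_eq_one] at h5
  exact htN (h5 ▸ u.2)

end Cfsg.Agent.S2486
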