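import Mathlib
import Cfsg.Statements.S2487
import Cfsg.Agent.Cl.OrthStd

set_option autoImplicit false
open scoped Pointwise
open Cfsg

namespace Cfsg.Agent.S2487

open Cfsg.Agent.Cl QuadraticMap Module

section Gen

variable {F V : Type*} [Field F] [AddCommGroup V] [Module F V] [FiniteDimensional F V]
  {Q : QuadraticForm F V}

theorem exists_fix (hQ : (polarBilin Q).Nondegenerate) (W : Submodule F V)
    (h : finrank F W + 2 ≤ finrank F V) : ∃ t : OG Q, t ≠ 1 ∧ ∀ w ∈ W, t.1 w = w := by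
  have h1 := finrank_operp hQ W
  by_cases h2 : ∃ a ∈ operp Q W, Q a ≠ 0
  · obtain ⟨a, ha, hqa⟩ := h2
    refine ⟨orefl Q a, fun h3 => ?_, fun w hw => orefl_app_of_polar (mem_operp.1 ha w hw)⟩
    obtain ⟨y, hy⟩ := o_exists_polar_eq hQ (o_ne_zero_of_norm hqa) 1
    have h4 : (orefl Q a).1 y = y := by rw [h3]; rfl
    rw [orefl_app, sub_eq_self, polar_comm, hy, mul_one, smul_eq_zero] at h4
    exact h4.elim (inv_ne_zero hqa) (o_ne_zero_of_norm hqa)
  · push Not at h2
    obtain ⟨u, hu, hu0⟩ : ∃ u ∈ operp Q W, u ≠ 0 := by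
      by_contra h3
      push Not at h3
      rw [(Submodule.eq_bot_iff _).2 h3, finrank_bot] at h1
      omega
    obtain ⟨v, hv, hvu⟩ : ∃ v ∈ operp Q W, v ∉ Submodule.span F {u} := by
      by_contra h3
      push Not at h3
      have := Submodule.finrank_mono (show operp Q W ≤ Submodule.span F {u} from h3)
      rw [finrank_span_singleton hu0] at this
      omega
    have huv := o_polar_eq_zero_of_singular h2 hu hv
    refine ⟨eich Q u v, fun h3 => ?_, fun w hw =>
      eich_app_of_polar (mem_operp.1 hu w hw) (mem_operp.1 hv w hw)⟩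
    obtain ⟨y, hy1, hy2⟩ := o_exists_dual hQ hvu 1
    have h4 : (eich Q u v).1 y = y := by rw [h3]; rfl
    rw [eich_app_of_polar_left (h2 u hu) huv
      (by rw [polar_comm]; exact hy2 u (Submodule.mem_span_singleton_self u)), polar_comm, hy1,
      one_smul, sub_eq_self] at h4
    exact hu0 h4

theorem key {G : Type*} [Group G] [Finite G] (e : G ≃* OG Q) (hQ : (polarBilin Q).Nondegenerate)
    (W : Submodule F V) (hW : ∀ g : OG Q, (∀ w ∈ W, g.1 w = w) → g ^ 4 = 1)
    (hd : 2 * finrank F W + 2 ≤ finrank F V) (H : Sylow 2 G) (x : G) :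
    (H : Subgroup G) ⊓ MulAut.conj x • (H : Subgroup G) ≠ ⊥ := by
  let P : Subgroup G :=
    { carrier := {g | ∀ w ∈ W, (e g).1 w = w}
      one_mem' := fun w _ => by simp
      mul_mem' := fun {a b} ha hb w hw => by
        rw [map_mul, OG.mul_app, hb w hw, ha w hw]
      inv_mem' := fun {a} ha w hw => by
        rw [map_inv, OG.inv_app_eq_iff, ha w hw] }
  have hP : IsPGroup 2 P := fun g =>
    ⟨2, Subtype.ext (e.injective (by simpa using hW _ g.2))⟩
  obtain ⟨S, hS⟩ := hP.exists_le_sylow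
  obtain ⟨y, rfl⟩ := MulAction.exists_smul_eq G S H
  have h1 := Submodule.finrank_add_le_finrank_add_finrank (W.map ((e y).1 : V →ₗ[F] V))
    (W.map ((e (x * y)).1 : V →ₗ[F] V))
  rw [LinearEquiv.finrank_map_eq, LinearEquiv.finrank_map_eq] at h1
  obtain ⟨t, ht1, ht⟩ := exists_fix hQ _ (show finrank F ↥(W.map ((e y).1 : V →ₗ[F] V) ⊔
    W.map ((e (x * y)).1 : V →ₗ[F] V)) + 2 ≤ finrank F V by omega)
  have h2 : ∀ z : G, (∀ w ∈ W, t.1 ((e z).1 w) = (e z).1 w) → z⁻¹ * e.symm t * z ∈ (S : Subgroup G) :=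
    fun z hz => hS fun w hw => by
      rw [map_mul, map_mul, map_inv, e.apply_symm_apply, OG.mul_app, OG.mul_app, hz w hw,
        OG.inv_app_eq_iff]
  refine Subgroup.ne_bot_iff_exists_ne_one.2 ⟨⟨e.symm t, ?_, ?_⟩, fun h => ht1 ?_⟩
  · rw [Sylow.coe_subgroup_smul]
    refine Subgroup.mem_pointwise_smul_iff_inv_smul_mem.2 ?_
    simpa using h2 y fun w hw => ht _ (Submodule.mem_sup_left ⟨w, hw, rfl⟩)
  · rw [Sylow.coe_subgroup_smul, ← mul_smul, ← map_mul]
    refine Subgroup.mem_pointwise_smul_iff_inv_smul_mem.2 ?_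
    simpa [mul_assoc] using h2 (x * y) fun w hw => ht _ (Submodule.mem_sup_right ⟨w, hw, rfl⟩)
  · simpa using congrArg (fun z => e z.1) h

omit [FiniteDimensional F V] in
theorem pow_four (h2 : (2 : F) = 0) (W : Submodule F V) (a : V) (ha : a ∈ operp Q W) (hqa : Q a ≠ 0)
    (h1 : ∀ x ∈ operp Q W, Q x ≠ 0 → x - a ∈ W)
    (h3 : ∀ x ∈ operp Q W, polar Q x a = 0 → x ∈ W ∨ x - a ∈ W)
    (g : OG Q) (hg : ∀ w ∈ W, g.1 w = w) : g ^ 4 = 1 := by
  have s1 : ∀ x, g.1 x - x ∈ operp Q W := fun x => mem_operp.2 fun w hw => by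
    rw [polar_sub_right]
    nth_rw 1 [← hg w hw]
    simp
  have s0 : ∀ x ∈ operp Q W, g.1 x ∈ operp Q W := fun x hx => by
    simpa using add_mem (s1 x) hx
  have s3 : g.1 a - a ∈ W := h1 _ (s0 a ha) (by simpa using hqa)
  have s2 : ∀ x ∈ operp Q W, g.1 (g.1 x - x) - (g.1 x - x) ∈ W := fun x hx => by
    have : polar Q (g.1 x - x) a = 0 := by
      have := mem_operp.1 (s0 x hx) _ s3
      rw [polar_sub_left, polar_comm, OG.polar_app, polar_comm] at this
      rw [polar_sub_left, polar_comm Q (g.1 x), polar_comm Q x]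
      linear_combination -this
    rcases h3 _ (s1 x) this with h | h
    · rw [hg _ h, sub_self]; exact zero_mem _
    · have h4 := hg _ h
      rw [map_sub] at h4
      have : g.1 (g.1 x - x) - (g.1 x - x) = g.1 a - a := by
        rw [sub_eq_iff_eq_add.1 h4]; abel
      rw [this]; exact s3
  refine OG.ext fun x => ?_
  have h4 := hg _ (s2 _ (s1 x))
  simp only [map_sub] at h4
  have h5 : ∀ y : V, y + y = 0 := fun y => by rw [← two_smul F, h2, zero_smul]
  have h6 : (g ^ 4).1 x = g.1 (g.1 (g.1 (g.1 x))) := rfl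
  rw [h6]
  change _ = x
  linear_combination (norm := module) h4 + (2 : ℕ) • h5 (g.1 (g.1 (g.1 x))) - (3 : ℕ) • h5 (g.1 (g.1 x))
    + (2 : ℕ) • h5 (g.1 x) - h5 x

end Gen

/-- Let m ≥ 4 and let G be the full isometry group of the hyperbolic quadratic form x₁y₁ + ⋯ + x_m y_m on the 2m-dimensional space over the field with 2 elements (the orthogonal group O⁺(2m,2), which contains Ω⁺(2m,2) with index 2). Then any two Sylow 2-subgroups of G have a non-trivial intersection: for a Sylow 2-subgroup H and every x ∈ G, H ∩ H^x ≠ 1. -/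
theorem result {F : Type*} [Field F] [Fintype F] (hF : Fintype.card F = 2) {m : ℕ} (hm : 4 ≤ m)
    (H : Sylow 2 (Cfsg.isometryGroup F (Cfsg.quadFormPlus m F)))
    (x : Cfsg.isometryGroup F (Cfsg.quadFormPlus m F)) :
    (H : Subgroup (Cfsg.isometryGroup F (Cfsg.quadFormPlus m F))) ⊓ MulAut.conj x • (H : Subgroup _) ≠ ⊥ := by
  obtain ⟨k, rfl⟩ : ∃ k, m = k + 1 := ⟨m - 1, by omega⟩
  have h2 : (2 : F) = 0 := by
    have := FiniteField.cast_card_eq_zero F
    rw [hF] at this
    exact_mod_cast this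
  have h01 : ∀ c : F, c ≠ 0 → c = 1 := fun c hc => by
    have := FiniteField.pow_card_sub_one_eq_one c hc
    rwa [hF, pow_one] at this
  let L : (Fin k → F) →ₗ[F] (Fin (k + 1) ⊕ Fin (k + 1) → F) :=
    LinearMap.pi (Sum.elim (Fin.cases 0 fun i => LinearMap.proj i) fun _ => 0)
  have hL : ∀ x : Fin (k + 1) ⊕ Fin (k + 1) → F, x ∈ LinearMap.range L ↔
      x (.inl 0) = 0 ∧ ∀ i, x (.inr i) = 0 := fun x => by
    constructor
    · rintro ⟨c, rfl⟩
      exact ⟨rfl, fun _ => rfl⟩
    · rintro ⟨h1, h3⟩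
      refine ⟨fun i => x (.inl i.succ), funext ?_⟩
      rintro (i | i)
      · induction i using Fin.cases with
        | zero => exact h1.symm
        | succ i => rfl
      · exact (h3 i).symm
  have hP : ∀ x : Fin (k + 1) ⊕ Fin (k + 1) → F,
      x ∈ operp (quad_plus (k + 1) F) (LinearMap.range L) ↔ ∀ i : Fin k, x (.inr i.succ) = 0 := fun x => by
    rw [mem_operp]
    constructor
    · intro h i
      have := h (Pi.single (.inl i.succ) 1) ((hL _).2 ⟨by simp [(Fin.succ_ne_zero i).symm],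
        fun j => by simp⟩)
      simpa [o_polar_plus, Pi.single_apply] using this
    · intro h w hw
      obtain ⟨h1, h3⟩ := (hL w).1 hw
      simp [o_polar_plus, Fin.sum_univ_succ, h1, h3, h]
  let a : Fin (k + 1) ⊕ Fin (k + 1) → F := Sum.elim (Fin.cases 1 fun _ => 0) (Fin.cases 1 fun _ => 0)
  have hsub : ∀ x : Fin (k + 1) ⊕ Fin (k + 1) → F, (∀ i : Fin k, x (.inr i.succ) = 0) →
      x (.inl 0) = 1 → x (.inr 0) = 1 → x - a ∈ LinearMap.range L := fun x hx h1 h3 => by
    refine (hL _).2 ⟨by simp [a, h1], fun i => ?_⟩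
    induction i using Fin.cases with
    | zero => simp [a, h3]
    | succ i => simp [a, hx]
  refine key (omatEquiv (quad_plus (k + 1) F)) quad_plus_nondeg (LinearMap.range L)
    (pow_four h2 _ a ((hP a).2 fun _ => rfl) ?_ (fun x hx hqx => ?_) (fun x hx hxa => ?_)) ?_ H x
  · simp [quad_plus_apply, Fin.sum_univ_succ, a]
  · rw [hP] at hx
    simp only [quad_plus_apply, Fin.sum_univ_succ, hx, mul_zero, Finset.sum_const_zero, add_zero] at hqx
    exact hsub x hx (h01 _ (left_ne_zero_of_mul hqx)) (h01 _ (right_ne_zero_of_mul hqx))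
  · rw [hP] at hx
    have h4 : x (.inl 0) + x (.inr 0) = 0 := by
      simpa [o_polar_plus, Fin.sum_univ_succ, a] using hxa
    by_cases h5 : x (.inl 0) = 0
    · left
      refine (hL _).2 ⟨h5, fun i => ?_⟩
      induction i using Fin.cases with
      | zero => simpa [h5] using h4
      | succ i => exact hx i
    · right
      refine hsub x hx (h01 _ h5) (h01 _ fun h6 => h5 (by simpa [h6] using h4))
  · have := LinearMap.finrank_range_le L
    rw [o_finrank_plus]
    simp only [finrank_fintype_fun_eq_card, Fintype.card_fin] at this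
    omega

end Cfsg.Agent.S2487
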