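import Cfsg.Statements.S2488
import Cfsg.Agent.Sym.Order
import Cfsg.Agent.GT.PGroupChain

set_option autoImplicit false
open scoped Pointwise
open Cfsg

namespace Cfsg.Agent.S2488

open Subgroup Equiv Equiv.Perm Cfsg.Agent.Sym
open scoped Pointwise

theorem count : (∀ b : Bool, (Finset.univ.filter fun t : Perm (Fin 6) => t ^ 2 = 1 ∧ sign t = 1 ∧
      decide ((swap 0 1 * swap 2 3 * t) ^ 3 = 1) = b).card < 32) ∧
    (Finset.univ.filter fun t : Perm (Fin 6) =>
      swap 0 1 * swap 2 3 * t = t * (swap 0 1 * swap 2 3) ∧ sign t = 1).card ≤ 8 := by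
  decide +kernel

theorem isConj_of_sq {z : Perm (Fin 6)} (h1 : sign z = 1) (h2 : z ^ 2 = 1) (h3 : z ≠ 1) :
    IsConj z (swap 0 1 * swap 2 3) := by
  rw [isConj_iff_cycleType_eq, show (swap 0 1 * swap 2 3 : Perm (Fin 6)).cycleType = {2, 2} by
    decide +kernel]
  exact forall_cycleType_of_partsLe (P := fun m => Even (m.sum + m.card) → m.lcm = 2 → m = {2, 2})
    (Fintype.card_fin 6) (by decide +kernel) z (mem_alternatingGroup_iff_even.1 h1)
    (by rw [lcm_cycleType]; exact orderOf_eq_prime h2 h3)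

/-- Let G be a finite group with a normal subgroup N of index 4 isomorphic to the alternating group of degree 6 and with trivial centralizer in G (so G is the full automorphism group of A₆). Then any two Sylow 2-subgroups of G have a non-trivial intersection: for a Sylow 2-subgroup H and every x ∈ G, H ∩ H^x ≠ 1. -/
theorem result {G : Type*} [Group G] [Finite G] (N : Subgroup G) [N.Normal]
    (e : N ≃* alternatingGroup (Fin 6)) (hidx : N.index = 4)
    (hC : Subgroup.centralizer (N : Set G) = ⊥)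
    (H : Sylow 2 G) (x : G) :
    (H : Subgroup G) ⊓ MulAut.conj x • (H : Subgroup G) ≠ ⊥ := by
  have h1 : Nat.card N = 360 := by
    rw [Nat.card_congr e.toEquiv, nat_card_alternatingGroup]; simp [Nat.factorial]
  have h2 : Nat.card (H : Subgroup G) = 32 := by
    rw [H.card_eq_multiplicity, ← N.index_mul_card, hidx, h1, show 4 * 360 = 2 ^ 5 * 45 from rfl,
      Nat.factorization_mul (by simp) (by simp), Nat.Prime.factorization_pow Nat.prime_two]
    simp [Nat.factorization_eq_zero_of_not_dvd]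
  obtain ⟨z, hz, hzc, hz1, hz2⟩ := GT.PG.exists_mem_center_of_normal H.isPGroup'
    (N.subgroupOf H) fun h => by
      have h3 := relIndex_le_of_le_right (H := N) (le_top (a := (H : Subgroup G)))
        (by simp [hidx])
      rw [relIndex, h, index_bot, h2, relIndex_top_right, hidx] at h3
      omega
  obtain ⟨σ, hσ⟩ := isConj_iff.1 (isConj_of_sq (z := e ⟨z, hz⟩) (e ⟨z, hz⟩).2 (by
    rw [← Subgroup.coe_pow, ← map_pow, show (⟨z, hz⟩ : N) ^ 2 = 1 from
      Subtype.ext (congrArg Subtype.val hz2 :), map_one, Subgroup.coe_one])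
    (fun h => hz1 (Subtype.ext (Subtype.ext_iff.1 (e.map_eq_one_iff.1 (Subtype.ext h)) :))))
  let f : N →* Perm (Fin 6) := (MulAut.conj σ).toMonoidHom.comp
    ((alternatingGroup (Fin 6)).subtype.comp e.toMonoidHom)
  have hf : Function.Injective f :=
    (MulAut.conj σ).injective.comp (Subtype.val_injective.comp e.injective)
  have hf1 : f ⟨z, hz⟩ = swap 0 1 * swap 2 3 := hσ
  have hf2 : ∀ u, sign (f u) = 1 := fun u => by
    simp [f, mem_alternatingGroup.1 (e u).2]
  have h3 : (H : Subgroup G) = centralizer {(z : G)} := by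
    refine eq_of_le_of_card_ge (fun g hg => mem_centralizer_singleton_iff.2
      (congrArg Subtype.val (mem_center_iff.1 hzc ⟨g, hg⟩))) ?_
    have h4 := relIndex_le_of_le_right (H := N) (le_top (a := centralizer {(z : G)}))
      (by simp [hidx])
    have h5 := Nat.card_le_card_of_injective
      (fun u : N.subgroupOf (centralizer {(z : G)}) => (⟨f ⟨u.1, u.2⟩, Finset.mem_filter.2
        ⟨Finset.mem_univ _, by
          rw [← hf1, ← map_mul, ← map_mul]
          exact congrArg f (Subtype.ext (mem_centralizer_singleton_iff.1 u.1.2).symm), hf2 _⟩⟩ :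
        (Finset.univ.filter fun t : Perm (Fin 6) =>
          swap 0 1 * swap 2 3 * t = t * (swap 0 1 * swap 2 3) ∧ sign t = 1)))
      fun u v h => Subtype.ext (Subtype.ext (Subtype.ext_iff.1 (hf (Subtype.ext_iff.1 h)) :))
    rw [Nat.card_eq_fintype_card (α := Finset.filter _ _), Fintype.card_coe] at h5
    rw [relIndex_top_right, hidx] at h4
    rw [h2, ← (N.subgroupOf (centralizer {(z : G)})).index_mul_card]
    exact Nat.mul_le_mul h4 (h5.trans count.2)
  intro hbot
  have hm : ∀ g : G, g * z * g⁻¹ ∈ N := (inferInstance : N.Normal).conj_mem _ hz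
  have key : ∀ h : H, (f ⟨z, hz⟩ * f ⟨_, hm (h * x)⟩) ^ 3 = 1 ↔ (z * (x * z * x⁻¹) : G) ^ 3 = 1 := by
    intro h
    have h4 : (h : G) * z = z * h := mem_centralizer_singleton_iff.1 (h3 ▸ h.2)
    rw [← map_mul, ← map_pow, map_eq_one_iff f hf, Subtype.ext_iff, ← conj_eq_one_iff (a := (h : G)),
      ← conj_pow]
    simp only [SubgroupClass.coe_pow, Subgroup.coe_mul, Subgroup.coe_one, ← mul_assoc, h4,
      mul_inv_rev]
  have h5 := Nat.card_le_card_of_injective
    (fun h : H => (⟨f ⟨_, hm (h * x)⟩, Finset.mem_filter.2 ⟨Finset.mem_univ _, by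
        rw [← map_pow, map_eq_one_iff f hf, Subtype.ext_iff, SubgroupClass.coe_pow, conj_pow]
        simp [show (z : G) ^ 2 = 1 from congrArg Subtype.val hz2], hf2 _, by
          rw [← hf1]; exact decide_eq_decide.2 ((key h).trans (key 1).symm)⟩⟩ :
      (Finset.univ.filter fun t : Perm (Fin 6) => t ^ 2 = 1 ∧ sign t = 1 ∧
        decide ((swap 0 1 * swap 2 3 * t) ^ 3 = 1) =
          decide ((f ⟨z, hz⟩ * f ⟨_, hm ((1 : H) * x)⟩) ^ 3 = 1))))
    fun u v h => by
      have h6 : (u * x : G) * z * (u * x : G)⁻¹ = v * x * z * (v * x : G)⁻¹ :=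
        Subtype.ext_iff.1 (hf (Subtype.ext_iff.1 h))
      have h7 : ((v⁻¹ * u : H) : G) ∈ MulAut.conj x • (H : Subgroup G) := by
        rw [mem_pointwise_smul_iff_inv_smul_mem, h3, mem_centralizer_singleton_iff]
        simp only [MulAut.smul_def, MulAut.conj_inv_apply]
        calc _ = (v * x : G)⁻¹ * ((u * x : G) * z * (u * x : G)⁻¹) * (u * x) := by simp [mul_assoc]
          _ = _ := by rw [h6]; simp [mul_assoc]
      exact (inv_mul_eq_one.1 (Subtype.ext (mem_bot.1 (hbot ▸ ⟨(v⁻¹ * u).2, h7⟩)))).symm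
  rw [Nat.card_eq_fintype_card (α := Finset.filter _ _), Fintype.card_coe] at h5
  exact absurd (h5.trans_lt (count.1 _)) (not_lt.2 h2.ge)

end Cfsg.Agent.S2488
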