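import Cfsg.Statements.S2493
import Cfsg.Agent.Sym.TwoInvol

set_option autoImplicit false
open Cfsg

namespace Cfsg.Agent.S2493

/-- Let n ≥ 5 and let G be a finite perfect group whose centre has order 2 with G/Z(G) isomorphic to the alternating group of degree n (the double cover of the alternating group). Then every element of G is a commutator. -/
theorem result {G : Type*} [Group G] [Finite G] (hperf : commutator G = ⊤) {n : ℕ} (hn : 5 ≤ n)
    (hZ : Nat.card (Subgroup.center G) = 2) (e : G ⧸ Subgroup.center G ≃* alternatingGroup (Fin n))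
    (g : G) :
    ∃ a b : G, a * b * a⁻¹ * b⁻¹ = g := by
  classical
  let σ : G →* alternatingGroup (Fin n) := e.toMonoidHom.comp (QuotientGroup.mk' _)
  have hσ : Function.Surjective σ := e.surjective.comp (QuotientGroup.mk'_surjective _)
  have hr := Sym.range_subtype_comp hσ
  have hker : ((alternatingGroup (Fin n)).subtype.comp σ).ker = Subgroup.center G := by
    rw [Sym.ker_subtype_comp]
    ext x
    simp [σ, MonoidHom.mem_ker]
  have h5 : 5 ≤ Fintype.card (Fin n) := by simpa using hn
  obtain ⟨ζ, hζ⟩ := Sym.exists_isZeta hker.le hr (by omega)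
  haveI : Nontrivial (Fin n) := Fin.nontrivial_iff_two_le.2 (by omega)
  have hsq : ∀ z ∈ Subgroup.center G, z ^ 2 = 1 := fun z hz => by
    have := pow_card_eq_one' (G := Subgroup.center G) (x := ⟨z, hz⟩)
    rw [hZ] at this
    exact congrArg Subtype.val this
  have hne : ζ ≠ 1 := by
    refine hζ.ne_one_of_not_isComplement' hker.le hr (fun z hz => ?_) fun L hL => ?_
    · rw [show 4 = 2 * 2 from rfl, pow_mul, hsq z (hker ▸ hz), one_pow]
    · have h1 : commutator G ≤ L := by
        refine Sym.commutator_le_of_forall_exists hker.le fun g => ?_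
        obtain ⟨⟨a, b⟩, h, -⟩ := hL.existsUnique g
        refine ⟨b, b.2, ?_⟩
        rw [← h, map_mul, (MonoidHom.mem_ker.1 a.2), one_mul]
      have h2 := hL.disjoint
      rw [hperf, top_le_iff] at h1
      rw [h1, disjoint_top, hker] at h2
      simp [h2] at hZ
  refine hζ.exists_commutatorElement_eq hker.le hr h5 (fun z hz => ?_) g
  rw [hker] at hz
  obtain ⟨y, -, hy⟩ := (Nat.card_eq_two_iff' (1 : Subgroup.center G)).1 hZ
  by_cases h : z = 1
  · exact Or.inl h
  · right
    have h1 := hy ⟨z, hz⟩ fun e => h (congrArg Subtype.val e)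
    have h2 := hy ⟨ζ, hker ▸ hζ.1⟩ fun e => hne (congrArg Subtype.val e)
    exact congrArg Subtype.val (h1.trans h2.symm)

end Cfsg.Agent.S2493
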