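import Mathlib
import Cfsg.Statements.S2495
import Cfsg.Agent.Cl.ClassOrd
import Cfsg.Agent.NT.Zsigmondy

set_option autoImplicit false
open Cfsg

namespace Cfsg.Agent.S2495

/-- Let q be an odd prime power, n ≥ 4 even, and L = PSL(n,q). Then L has an element of order q^(n/2) + 1 if and only if the 2-part of n exceeds the 2-part of q − 1. -/
theorem result {F : Type*} [Field F] [Fintype F] {q : ℕ} (hF : Fintype.card F = q) (hodd : Odd q)
    {n : ℕ} (hn : 4 ≤ n) (heven : Even n) :
    (∃ g : Matrix.ProjectiveSpecialLinearGroup (Fin n) F, orderOf g = q ^ (n / 2) + 1) ↔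
      padicValNat 2 (q - 1) < padicValNat 2 n := by
  subst hF
  obtain ⟨m, rfl⟩ := even_iff_two_dvd.1 heven
  obtain ⟨p, hp⟩ := CharP.exists F
  have := Fact.mk (CharP.char_is_prime F p)
  obtain ⟨r, hr, h1⟩ := NT.zsigmondy_orderOf (a := Fintype.card F) (n := 2 * m) Fintype.one_lt_card
    (by omega) (fun h => by rw [h.1] at hodd; exact absurd hodd (by decide)) (by omega)
  have h := Cl.Cls.half_torus_iff (Cl.Cls.zpow_card_injective F (AlgebraicClosure F))
    (Cl.Cls.char_dvd_card F p) (Cl.Cls.two_le_natAbs_card F) (show 0 < m by omega)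
    (Cl.Cls.range_orderOf_PSL_fin _ p _) hr (by rwa [Int.cast_natCast])
  rwa [Nat.mul_div_cancel_left _ two_pos, ← Int.natAbs_natCast (_ ^ m + 1),
    ← Int.natAbs_natCast (_ - 1), Nat.cast_pred Fintype.card_pos]

end Cfsg.Agent.S2495
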