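import Mathlib
import Cfsg.Statements.S2503
import Cfsg.Agent.Cl.PSL2Pairs

set_option autoImplicit false
open Cfsg

set_option linter.unusedVariables false

namespace Cfsg.Agent.S2503

open Cfsg.Agent.Cl.L2 Matrix MulAction
open scoped MatrixGroups

lemma det_ne_zero_of_comm {F : Type*} [Field F] {d : F} (hd : ∀ l : F, l ^ 2 - l + d ≠ 0) {C : M2 F}
    (hC : C ≠ 0) (h : C * cmp 1 d = cmp 1 d * C) : C.det ≠ 0 := by
  obtain ⟨x, y, rfl⟩ := (comm_iff_of_nonscalar (cmp_nonscalar 1 d)).1 h.symm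
  have e : (x • (1 : M2 F) + y • cmp 1 d).det = x ^ 2 + x * y + d * y ^ 2 := by
    simp [Cl.L2.cmp, det_fin_two]; ring
  rw [e]
  intro h0
  by_cases hy : y = 0
  · subst hy
    exact hC (by rw [(pow_eq_zero_iff two_ne_zero).1 (by simpa using h0 : x ^ 2 = 0)]; simp)
  · exact hd (-x / y) (by field_simp; linear_combination h0)
/-- Let F be a finite field with q = 2^t ≥ 4 elements and L = PSL(2,F). Then L has a cyclic subgroup A of order q + 1 and an elementary abelian 2-subgroup B of order q such that L = ABA: every element of L is a product a·b·a' with a, a' ∈ A and b ∈ B. -/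
theorem result {F : Type*} [Field F] [Fintype F]
    (h2 : 2 ∣ Fintype.card F) (h4 : 4 ≤ Fintype.card F) :
    ∃ A B : Subgroup (Matrix.ProjectiveSpecialLinearGroup (Fin 2) F),
      IsCyclic A ∧ Nat.card A = Fintype.card F + 1 ∧ IsMulCommutative B ∧ (∀ b ∈ B, b * b = 1) ∧
        Nat.card B = Fintype.card F ∧
        ∀ g : Matrix.ProjectiveSpecialLinearGroup (Fin 2) F, ∃ a ∈ A, ∃ b ∈ B, ∃ c ∈ A, g = a * b * c := by
  rw [← Nat.card_eq_fintype_card] at h2 h4 ⊢
  have h2 : (2 : F) = 0 := two_eq_zero_iff_even.2 (by omega)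
  obtain ⟨d, hd⟩ := exists_irreducible_quadratic (F := F)
  have hJ : (cmp 1 d).det ≠ 0 := by rw [det_cmp]; simpa using hd 0
  obtain ⟨j, hj⟩ := emb_surjective h2 (pm (cmp 1 d))
  have hx : ∀ x : P1 F, j • x ≠ x := fun x hx => by
    rw [← emb_smul, hj] at hx
    obtain ⟨l, hl⟩ := exists_root_of_fix hJ hx
    exact hd l (by simpa [trace_cmp, det_cmp] using hl)
  have hc := card_torS_mul_of_nofix hx
  rw [gcd_of_two_eq_zero h2, mul_one] at hc
  have : CharP F 2 := ringChar.of_eq (two_eq_zero_iff_ringChar.1 h2)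
  refine ⟨torS j, uniS inf, isCyclic_torS (tauS_ne_four_of_nofix hx), hc,
    ⟨⟨fun a b => Subtype.ext (uniS_comm a.2 b.2)⟩⟩, fun b hb => emb_injective ?_, card_uniS _,
    fun g => ?_⟩
  · rw [map_mul, map_one, ← sq]; exact pow_char_of_mem_uni 2 hb
  obtain ⟨G, hG, hg⟩ := exists_pm (emb g)
  obtain ⟨K, hK, h1, h3⟩ := exists_conj_matrix hG (cmp 1 d)
  obtain ⟨s, hs⟩ := isSquare_of_two_eq_zero h2 (1 - 2 * d - (cmp 1 d * K).trace)
  have hB : !![1, s; 0, 1] * cmp 1 d = !![s, s - d - s * s; 1, 1 - s] * !![1, s; 0, 1] := by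
    ext a b; fin_cases a <;> fin_cases b <;> simp [Cl.L2.cmp] <;> ring
  obtain ⟨C, hC, h5, h6⟩ := exists_conj_pair_cmp (t := 1) (d := d) (B := K)
    (B' := !![s, s - d - s * s; 1, 1 - s]) (by rw [h1, trace_cmp]; simp [trace_fin_two])
    (by rw [h3, det_cmp, det_fin_two_of]; ring)
    (by rw [← hs]; simp only [Cl.L2.cmp, trace_fin_two, mul_fin_two]; simp; ring)
  have hC' := det_ne_zero_of_comm hd hC h5
  have hB' := aff_det (one_ne_zero' F) s
  obtain ⟨c, hc'⟩ := emb_surjective h2 (pm C)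
  obtain ⟨b, hb⟩ := emb_surjective h2 (aff 1 s)
  refine ⟨c⁻¹, inv_mem ?_, b, mem_uniS'.2 (mem_uni_inf.2 ⟨s, hb⟩), b⁻¹ * (c * g), ?_, by group⟩
  · rw [mem_torS, hj, hc', pm_mem_tor hJ hC', h5]
  · have h7 : (C * G).det ≠ 0 := by rw [det_mul]; exact mul_ne_zero hC' hG
    have h8 : (adjugate !![1, s; 0, 1]).det ≠ 0 := by rwa [det_adjugate_two]
    rw [mem_torS, hj, map_mul, map_mul, map_inv, hb, hc', ← hg, aff, ← pm_adjugate hB',
      ← pm_mul hC' hG, ← pm_mul h8 h7, pm_mem_tor hJ (by rw [det_mul]; exact mul_ne_zero h8 h7)]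
    exact (conj_trans (conj_trans hK h6) (conj_symm hB' hB)).symm

end Cfsg.Agent.S2503
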