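import Cfsg.Statements.S2504
import Cfsg.Agent.Sym.Abelian

set_option autoImplicit false
open Cfsg

namespace Cfsg.Agent.S2504

/-- The largest order of an abelian subgroup of the alternating group of degree n is 3^k when n = 3k, 4·3^(k−1) when n = 3k + 1, and 16·3^(k−2) when n = 3k + 2, for every k ≥ 2 (so for all degrees n ≥ 6). -/
theorem result (k : ℕ) (hk : 2 ≤ k) :
    IsGreatest {c : ℕ | ∃ A : Subgroup (alternatingGroup (Fin (3 * k))), IsMulCommutative A ∧ Nat.card A = c} (3 ^ k) ∧
    IsGreatest {c : ℕ | ∃ A : Subgroup (alternatingGroup (Fin (3 * k + 1))), IsMulCommutative A ∧ Nat.card A = c}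
      (4 * 3 ^ (k - 1)) ∧
    IsGreatest {c : ℕ | ∃ A : Subgroup (alternatingGroup (Fin (3 * k + 2))), IsMulCommutative A ∧ Nat.card A = c}
      (16 * 3 ^ (k - 2)) := by
  have key : ∀ a b n c : ℕ, b ≤ 2 → n = 3 * a + 4 * b → c = 3 ^ a * 4 ^ b →
      IsGreatest {c : ℕ | ∃ A : Subgroup (alternatingGroup (Fin n)),
        IsMulCommutative A ∧ Nat.card A = c} c := by
    rintro a b _ _ hb rfl rfl
    refine ⟨(Sym.abEx_three_four True a b).exists_alternating, ?_⟩
    rintro _ ⟨A, hA, rfl⟩
    rw [← Subgroup.card_map_of_injective (alternatingGroup _).subtype_injective]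
    exact Sym.card_le_of_abelian_alternating _ (Subgroup.map_subtype_le _) hb (by simp)
  exact ⟨key k 0 _ _ (by norm_num) (by simp) (by simp),
    key (k - 1) 1 _ _ (by norm_num) (by omega) (by ring),
    key (k - 2) 2 _ _ (by norm_num) (by omega) (by ring)⟩

end Cfsg.Agent.S2504
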