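import Cfsg.Statements.S2505
import Cfsg.Agent.Sym.Abelian

set_option autoImplicit false
open Cfsg

namespace Cfsg.Agent.S2505

/-- The largest order of an abelian subgroup of the symmetric group of degree n is 3^k when n = 3k, 4·3^(k−1) when n = 3k + 1, and 2·3^k when n = 3k + 2, for every k ≥ 1. -/
theorem result (k : ℕ) (hk : 1 ≤ k) :
    IsGreatest {c : ℕ | ∃ A : Subgroup (Equiv.Perm (Fin (3 * k))), IsMulCommutative A ∧ Nat.card A = c} (3 ^ k) ∧
    IsGreatest {c : ℕ | ∃ A : Subgroup (Equiv.Perm (Fin (3 * k + 1))), IsMulCommutative A ∧ Nat.card A = c}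
      (4 * 3 ^ (k - 1)) ∧
    IsGreatest {c : ℕ | ∃ A : Subgroup (Equiv.Perm (Fin (3 * k + 2))), IsMulCommutative A ∧ Nat.card A = c}
      (2 * 3 ^ k) := by
  obtain ⟨k, rfl⟩ : ∃ j, k = j + 1 := ⟨k - 1, by omega⟩
  refine ⟨⟨?_, ?_⟩, ⟨?_, ?_⟩, ⟨?_, ?_⟩⟩
  · obtain ⟨A, h1, h2, -⟩ := Sym.abEx_three_four False (k + 1) 0
    exact ⟨A, h1, by simpa using h2⟩
  · rintro _ ⟨A, hA, rfl⟩
    obtain ⟨m, s, h1, h2⟩ := Sym.card_le_prod_of_abelian A
    exact h2.trans (Sym.prod_le_of_sum_eq_three_mul (by simpa using h1))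
  · obtain ⟨A, h1, h2, -⟩ := Sym.abEx_three_four False k 1
    exact ⟨A, h1, h2.trans (by simp [mul_comm])⟩
  · rintro _ ⟨A, hA, rfl⟩
    obtain ⟨m, s, h1, h2⟩ := Sym.card_le_prod_of_abelian A
    exact h2.trans (Sym.prod_le_of_sum_eq_three_mul_add_four (h1.trans (Fintype.card_fin _)))
  · obtain ⟨A, h1, h2, -⟩ := (Sym.abEx_three_four False (k + 1) 0).add
      (Sym.abEx_self (n := 2) le_rfl False.elim)
    exact ⟨A, h1, by simpa [mul_comm] using h2⟩
  · rintro _ ⟨A, hA, rfl⟩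
    obtain ⟨m, s, h1, h2⟩ := Sym.card_le_prod_of_abelian A
    exact h2.trans (Sym.prod_le_of_sum_eq_three_mul_add_two (by simpa using h1))

end Cfsg.Agent.S2505
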