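import Cfsg.Statements.S2506
import Cfsg.Agent.Sym.Abelian

set_option autoImplicit false
open scoped Pointwise
open Cfsg

namespace Cfsg.Agent.S2506

/-- In the alternating group of any degree, any two abelian subgroups of the largest possible order (among abelian subgroups) are conjugate. -/
theorem result (n : ℕ)
    (A B : Subgroup (alternatingGroup (Fin n))) (hA : IsMulCommutative A) (hB : IsMulCommutative B)
    (hAmax : ∀ C : Subgroup (alternatingGroup (Fin n)), IsMulCommutative C → Nat.card C ≤ Nat.card A)
    (hBmax : ∀ C : Subgroup (alternatingGroup (Fin n)), IsMulCommutative C → Nat.card C ≤ Nat.card B) :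
    ∃ g : alternatingGroup (Fin n), B = MulAut.conj g • A := by
  by_cases h2 : n ≤ 2
  · haveI : Subsingleton (alternatingGroup (Fin n)) := by
      rw [← Finite.card_le_one_iff_subsingleton]
      rcases Nat.lt_or_ge n 2 with h | h
      · haveI : Subsingleton (Fin n) := Fin.subsingleton_iff_le_one.2 (by omega)
        exact Finite.card_le_one_iff_subsingleton.2 inferInstance
      · obtain rfl : n = 2 := by omega
        rw [nat_card_alternatingGroup]
        simp
    exact ⟨1, Subsingleton.elim _ _⟩
  by_cases h5 : n = 5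
  · subst h5
    have key : ∀ A : Subgroup (alternatingGroup (Fin 5)), IsMulCommutative A →
        (∀ C : Subgroup (alternatingGroup (Fin 5)), IsMulCommutative C → Nat.card C ≤ Nat.card A) →
        Nat.card A = 5 := by
      intro A hA hmax
      obtain ⟨C, hC, hC'⟩ := (Sym.abEx_self (E := True) (n := 5) (by norm_num)
        fun _ => by decide).exists_alternating
      have h1 := hmax C hC
      obtain ⟨m, s, h3, h4⟩ := Sym.card_le_prod_of_abelian
        (A.map (alternatingGroup (Fin 5)).subtype)
      have h5 := Sym.prod_le_of_sum_eq_three_mul_add_two (k := 1) (by simpa using h3)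
      rw [Subgroup.card_map_of_injective (alternatingGroup _).subtype_injective] at h4
      by_contra h6
      haveI : Fact (Nat.Prime 3) := ⟨by norm_num⟩
      obtain ⟨x, hx⟩ := exists_prime_orderOf_dvd_card' (G := A) 2 (by omega)
      obtain ⟨y, hy⟩ := exists_prime_orderOf_dvd_card' (G := A) 3 (by omega)
      have h7 : orderOf (x * y) = 6 := by
        rw [Commute.orderOf_mul_eq_mul_orderOf_of_coprime (mul_comm' x y) (by rw [hx, hy]; norm_num),
          hx, hy]
      have h8 : ∀ g : Equiv.Perm (Fin 5), Equiv.Perm.sign g = 1 → g ^ 2 = 1 ∨ g ^ 3 = 1 ∨ g ^ 5 = 1 := by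
        decide +kernel
      have h9 := h8 _ (x * y).1.2
      simp only [← orderOf_dvd_iff_pow_eq_one, Subgroup.orderOf_coe, h7] at h9
      omega
    haveI : Fact (Nat.Prime 5) := ⟨by norm_num⟩
    have hc : 5 = 5 ^ (Nat.card (alternatingGroup (Fin 5))).factorization 5 := by
      rw [nat_card_alternatingGroup, Nat.card_eq_fintype_card, Fintype.card_fin]
      decide +kernel
    obtain ⟨g, hg⟩ := MulAction.exists_smul_eq (alternatingGroup (Fin 5))
      (Sylow.ofCard A ((key A hA hAmax).trans hc)) (Sylow.ofCard B ((key B hB hBmax).trans hc))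
    exact ⟨g, (congrArg Sylow.toSubgroup hg).symm⟩
  obtain ⟨a, b, hb, h⟩ : ∃ a b, b ≤ 2 ∧ n = 3 * a + 4 * b :=
    ⟨(n - 4 * (n % 3)) / 3, n % 3, by omega, by omega⟩
  subst h
  obtain ⟨C, hC, hC'⟩ := (Sym.abEx_three_four True a b).exists_alternating
  obtain ⟨σ, hσ, h⟩ := Sym.exists_conj_of_abelian_alternating (A.map (alternatingGroup _).subtype)
    (B.map (alternatingGroup _).subtype) (Subgroup.map_subtype_le _) (Subgroup.map_subtype_le _) hb
    (Fintype.card_fin _)
    (by rw [Subgroup.card_map_of_injective (alternatingGroup _).subtype_injective, ← hC']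
        exact hAmax C hC)
    (by rw [Subgroup.card_map_of_injective (alternatingGroup _).subtype_injective, ← hC']
        exact hBmax C hC)
  refine ⟨⟨σ, hσ⟩, Subgroup.ext fun g => ?_⟩
  obtain ⟨g, rfl⟩ := (MulAut.conj (⟨σ, hσ⟩ : alternatingGroup _)).surjective g
  rw [← MulAut.smul_def, Subgroup.smul_mem_pointwise_smul_iff,
    ← Subgroup.mem_map_iff_mem (alternatingGroup _).subtype_injective,
    ← Subgroup.mem_map_iff_mem (alternatingGroup _).subtype_injective (x := g)]
  exact h g

end Cfsg.Agent.S2506
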