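import Mathlib
import Cfsg.Statements.S2510
import Cfsg.Agent.Cl.SpecLinear

set_option autoImplicit false
open Cfsg

namespace Cfsg.Agent.S2510

open Cfsg.Agent.Cl

/-- Let F be a finite field with q = p^a elements, n ≥ 2 (with q ≥ 4 when n = 2), L = PSL(n, F), and let r be a prime dividing q − 1 and not dividing n. Then for every m the direct product L × L × L × (ℤ/r)^m has the same set of element orders as L × L × L; and if n − 1 ≠ p^j for every j ≥ 0 (so never when n = 2, since 1 = p^0), then already L × L × (ℤ/r)^m has the same set of element orders as L × L. -/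
theorem result {F : Type*} [Field F] [Fintype F] (p a n r m : ℕ) (hp : p.Prime) (ha : 1 ≤ a) (hF : Fintype.card F = p ^ a)
    (hn : 2 ≤ n) (hn2 : n = 2 → 4 ≤ Fintype.card F) (hr : r.Prime) (hrq : r ∣ Fintype.card F - 1) (hrn : ¬ r ∣ n) :
    Set.range (orderOf : Matrix.ProjectiveSpecialLinearGroup (Fin n) F × Matrix.ProjectiveSpecialLinearGroup (Fin n) F × Matrix.ProjectiveSpecialLinearGroup (Fin n) F × Multiplicative (Fin m → ZMod r) → ℕ) =
      Set.range (orderOf : Matrix.ProjectiveSpecialLinearGroup (Fin n) F × Matrix.ProjectiveSpecialLinearGroup (Fin n) F × Matrix.ProjectiveSpecialLinearGroup (Fin n) F → ℕ) ∧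
    ((¬ ∃ j : ℕ, n - 1 = p ^ j) →
      Set.range (orderOf : Matrix.ProjectiveSpecialLinearGroup (Fin n) F × Matrix.ProjectiveSpecialLinearGroup (Fin n) F × Multiplicative (Fin m → ZMod r) → ℕ) =
        Set.range (orderOf : Matrix.ProjectiveSpecialLinearGroup (Fin n) F × Matrix.ProjectiveSpecialLinearGroup (Fin n) F → ℕ)) := by
  classical
  have := Fact.mk hp
  have : NeZero r := ⟨hr.ne_zero⟩
  have hchar : CharP F p := charP_of_card_eq_prime_pow hF
  obtain ⟨l, hl0, hl⟩ := spec_exists_orderOf_eq (E := F) (m := r) (by rwa [Nat.card_eq_fintype_card])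
  obtain ⟨j, -, hj1, hj2⟩ := spec_clog_pred hp.one_lt hn
  have hd : ∀ x : Matrix.ProjectiveSpecialLinearGroup (Fin n) F,
      SpecGood r x ∨ orderOf x ∣ specM (Fintype.card F) n * p ^ (j + 1) := by
    intro x
    obtain ⟨g, rfl⟩ := QuotientGroup.mk_surjective x
    have := spec_dichotomy (K := AlgebraicClosure F) p (a := Fintype.card F)
      (by simpa using spec_pow_card_injective (F := F)) (j := 1) (by simp)
      (specProj_specSL (F := F) (ι := Fin n)) det_specSL
      (fun g => by simpa using evs_map_frob _) (b := j + 1) (by simpa using hj2)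
      (fun g P _ h => exists_specSL_eq h) hr hl
      (by rw [zpow_natCast, ← map_pow, FiniteField.pow_card]) (by simpa using hrn) g
    simpa using this
  have hc : (specM (Fintype.card F) n).Coprime (p ^ (j + 1)) :=
    Nat.Coprime.pow_right _ (Nat.Coprime.coprime_dvd_left (specM_dvd_specS _ _)
      (specS_coprime (by omega) (by rw [hF]; push_cast; exact dvd_pow_self _ (by omega))))
  obtain ⟨y₁, h₁⟩ := spec_exists_singer_SL (F := F) (ι := Fin n) (by simp; omega)
  rw [Fintype.card_fin] at h₁
  have hblock : ∀ k, k + 1 < n → ∃ g : Matrix.SpecialLinearGroup (Fin n) F,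
      r ∣ orderOf (g : Matrix.ProjectiveSpecialLinearGroup (Fin n) F) ∧
      ∀ j, p ^ j ≤ k → p ^ (j + 1) ∣ orderOf (g : Matrix.ProjectiveSpecialLinearGroup (Fin n) F) := by
    intro k hk
    obtain ⟨g, h1, h2⟩ := spec_exists_block_SL (F := F) (ι := Fin n) p (k := k) (by simpa using hk) hl0
    rw [hl, Fintype.card_fin] at h1
    exact ⟨g, (hr.dvd_mul.1 h1).resolve_left hrn, h2⟩
  constructor
  · obtain ⟨y₂, h₂⟩ := spec_exists_regular_SL (F := F) (ι := Fin n) p
    obtain ⟨y₃, h₃, -⟩ := hblock 0 (by omega)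
    exact spec_absorb_three_of (spec_zmod_pow m r) hc hd h₁ (h₂ j (by simpa using hj1)) h₃
  · intro hne
    have hlt : p ^ j + 1 < n := by
      have : n - 1 ≠ p ^ j := fun h => hne ⟨j, h⟩
      omega
    obtain ⟨y₂, h₂, h₃⟩ := hblock (p ^ j) hlt
    exact spec_absorb_two_of (spec_zmod_pow m r) hc hd h₁ (h₃ j le_rfl) h₂

end Cfsg.Agent.S2510
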