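import Mathlib
import Cfsg.Statements.S2511
import Cfsg.Agent.Cl.SpecUnitary

set_option autoImplicit false
open Cfsg

namespace Cfsg.Agent.S2511

open Cfsg.Agent.Cl

/-- Let F be a finite field with q² elements, q = p^a, n ≥ 3 with (n, q) ≠ (3, 2), L = PSU(n, q) realised over F, and let r be a prime dividing q + 1 and not dividing n. Then for every m the direct product L × L × L × (ℤ/r)^m has the same set of element orders as L × L × L; and if n − 1 is not a power of p, then already L × L × (ℤ/r)^m has the same set of element orders as L × L. -/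
theorem result {F : Type*} [Field F] [Fintype F] (p a n q r m : ℕ) (hp : p.Prime) (ha : 1 ≤ a) (hq : q = p ^ a) (hF : Fintype.card F = q ^ 2)
    (hn : 3 ≤ n) (hn3 : ¬ (n = 3 ∧ q = 2)) (hr : r.Prime) (hrq : r ∣ q + 1) (hrn : ¬ r ∣ n) :
    Set.range (orderOf : Cfsg.PSU n F q × Cfsg.PSU n F q × Cfsg.PSU n F q × Multiplicative (Fin m → ZMod r) → ℕ) = Set.range (orderOf : Cfsg.PSU n F q × Cfsg.PSU n F q × Cfsg.PSU n F q → ℕ) ∧
    ((¬ ∃ j : ℕ, n - 1 = p ^ j) →
      Set.range (orderOf : Cfsg.PSU n F q × Cfsg.PSU n F q × Multiplicative (Fin m → ZMod r) → ℕ) = Set.range (orderOf : Cfsg.PSU n F q × Cfsg.PSU n F q → ℕ)) := by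
  classical
  have := Fact.mk hp
  have : NeZero r := ⟨hr.ne_zero⟩
  have hchar : CharP F p := charP_of_card_eq_prime_pow (f := a * 2) (by rw [hF, hq, pow_mul])
  obtain ⟨σ, h⟩ := exists_uField hF
  obtain ⟨τ, hτ, hτ'⟩ := h.spec_exists_tau (AlgebraicClosure F)
  obtain ⟨l, hl0, hl⟩ := spec_exists_orderOf_eq (E := F) (m := r) (by
    rw [h.card, ← one_pow 2, Nat.sq_sub_sq]; exact hrq.mul_right _)
  have hl1 : l * σ l = 1 := by
    rw [h.pow, ← pow_succ', ← orderOf_dvd_iff_pow_eq_one, hl]; exact hrq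
  have hn2 : 2 ≤ n := by omega
  obtain ⟨j, -, hj1, hj2⟩ := spec_clog_pred hp.one_lt hn2
  have hd : ∀ x : PSU n F q, SpecGood r x ∨ orderOf x ∣ specM (-q) n * p ^ (j + 1) := by
    intro x
    obtain ⟨g, rfl⟩ := QuotientGroup.mk_surjective x
    have := spec_dichotomy (K := AlgebraicClosure F) p (a := -q) h.spec_zpow_injective (j := 2)
      (fun ν => by rw [hF, neg_sq, ← zpow_natCast]; simp)
      (specProj_specSU h hn2) det_specSU (evs_specSU_map h) (b := j + 1) (by simpa using hj2)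
      (fun g P hP hdet => exists_specSU_eq h (spec_isometry_of_dual (uStd σ (Fin n)) p
        (h.isHerm_uStd _).nondeg h.invol.invol τ hτ' (specSU_isometry h g) (by simpa using hj2)
        (by simpa [hτ] using hP)) hdet) hr hl
      (by
        rw [zpow_neg, zpow_natCast, ← map_pow, ← h.pow, ← map_inv₀,
          ← eq_inv_of_mul_eq_one_left hl1]) (by simpa using hrn) g
    simpa using this
  have hc : (specM (-q) n).Coprime (p ^ (j + 1)) :=
    Nat.Coprime.pow_right _ (Nat.Coprime.coprime_dvd_left (specM_dvd_specS _ _)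
      (specS_coprime (by omega) (by
        rw [hq, dvd_neg]; push_cast; exact dvd_pow_self _ (by omega))))
  obtain ⟨y₁, h₁⟩ := spec_exists_singer_SU h hn2
  constructor
  · obtain ⟨y₂, -, h₂⟩ := spec_exists_block_SU h p hn2 (k := n) (by omega) le_rfl hl1
    obtain ⟨y₃, h₃, -⟩ := spec_exists_block_SU h p hn2 (k := 1) one_pos (by omega) hl1
    exact spec_absorb_three_of (spec_zmod_pow m r) hc hd h₁ (h₂ j hj1)
      ((hr.dvd_mul.1 (hl ▸ h₃ (by omega))).resolve_left hrn)
  · intro hne
    have hlt : p ^ j + 1 < n := by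
      have : n - 1 ≠ p ^ j := fun h => hne ⟨j, h⟩
      omega
    obtain ⟨y₂, h₂, h₃⟩ := spec_exists_block_SU h p hn2 (k := p ^ j + 1) (by omega) hlt.le hl1
    exact spec_absorb_two_of (spec_zmod_pow m r) hc hd h₁ (h₃ j (by omega))
      ((hr.dvd_mul.1 (hl ▸ h₂ hlt)).resolve_left hrn)

end Cfsg.Agent.S2511
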