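import Mathlib
import Cfsg.Statements.S2512
import Cfsg.Agent.Cl.SpecPSp

set_option autoImplicit false
open Cfsg

namespace Cfsg.Agent.S2512

open Cfsg.Agent.Cl

/-- Let F be a finite field of odd order q = p^a, n ≥ 2 (with q ≥ 3 automatic), and L = PSp(2n, F). Then for every m the direct product L × L × L × (ℤ/2)^m has the same set of element orders as L × L × L; and if 2n − 1 is not a power of p, then already L × L × (ℤ/2)^m has the same set of element orders as L × L. -/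
theorem result {F : Type*} [Field F] [Fintype F] (p a n m : ℕ) (hp : p.Prime) (ha : 1 ≤ a) (hF : Fintype.card F = p ^ a) (hodd : Odd (Fintype.card F))
    (hn : 2 ≤ n) :
    Set.range (orderOf : Cfsg.PSp n F × Cfsg.PSp n F × Cfsg.PSp n F × Multiplicative (Fin m → ZMod 2) → ℕ) = Set.range (orderOf : Cfsg.PSp n F × Cfsg.PSp n F × Cfsg.PSp n F → ℕ) ∧
    ((¬ ∃ j : ℕ, 2 * n - 1 = p ^ j) →
      Set.range (orderOf : Cfsg.PSp n F × Cfsg.PSp n F × Multiplicative (Fin m → ZMod 2) → ℕ) = Set.range (orderOf : Cfsg.PSp n F × Cfsg.PSp n F → ℕ)) := by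
  classical
  have := Fact.mk hp
  have hchar : CharP F p := charP_of_card_eq_prime_pow hF
  have hp2 : p ≠ 2 := by
    rintro rfl
    rw [hF, ← Nat.not_even_iff_odd] at hodd
    exact hodd (Nat.even_pow.2 ⟨even_two, by omega⟩)
  obtain ⟨j, -, hj1, hj2⟩ := spec_clog_pred hp.one_lt (n := 2 * n) (by omega)
  obtain ⟨y₁, h₁⟩ := spec_exists_torus_PSp (F := F) (n := n) p hp2 (by omega) (Or.inl dvd_rfl)
  obtain ⟨y₂, h₂⟩ := spec_exists_torus_PSp (F := F) (n := n) p hp2 (by omega) (Or.inr dvd_rfl)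
  have h2 : 2 ∣ orderOf y₁ ∨ 2 ∣ orderOf y₂ := by
    obtain ⟨k, hk⟩ := hodd.pow (n := n)
    rw [hk] at h₁ h₂
    rcases Nat.even_or_odd' k with ⟨l, rfl | rfl⟩
    · exact Or.inl (Nat.dvd_of_mul_dvd_mul_left two_pos (.trans ⟨l, by omega⟩ h₁))
    · exact Or.inr (Nat.dvd_of_mul_dvd_mul_left two_pos (.trans ⟨l + 1, by omega⟩ h₂))
  have e₁ : orderOf y₁ ∣ orderOf (y₁, y₂) := orderOf_fst_dvd_orderOf (x := (y₁, y₂))
  have e₂ : orderOf y₂ ∣ orderOf (y₁, y₂) := orderOf_snd_dvd_orderOf (x := (y₁, y₂))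
  have e₃ : 2 ∣ orderOf (y₁, y₂) := h2.elim (·.trans e₁) (·.trans e₂)
  have hd : ∀ x : PSp n F, ¬ SpecGood 2 x →
      orderOf x ∣ orderOf (y₁, y₂) ∨ orderOf x ∣ p ^ (j + 1) := fun x hx => by
    rcases (spec_cases_PSp p hp2 (by omega) hj2 x).resolve_left hx with h | h | h
    · exact Or.inl ((Nat.dvd_of_mul_dvd_mul_left two_pos (h.trans h₁)).trans e₁)
    · exact Or.inl ((Nat.dvd_of_mul_dvd_mul_left two_pos (h.trans h₂)).trans e₂)
    · exact Or.inr h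
  constructor
  · obtain ⟨y₃, c, -, -, -, h₃⟩ := spec_exists_PSp_block (F := F) (K := AlgebraicClosure F) (n := n)
      p hp2 one_ne_zero (Nat.zero_le _) (by simp)
    have e₄ : orderOf (y₁, y₂) ∣ orderOf (y₃, y₁, y₂) := orderOf_snd_dvd_orderOf (x := (y₃, y₁, y₂))
    have e₅ : p ^ (j + 1) ∣ orderOf (y₃, y₁, y₂) :=
      (h₃ j hj1).trans (orderOf_fst_dvd_orderOf (x := (y₃, y₁, y₂)))
    have hd' : ∀ x : PSp n F, ¬ SpecGood 2 x → orderOf x ∣ orderOf (y₃, y₁, y₂) := fun x hx =>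
      (hd x hx).elim (·.trans e₄) (·.trans e₅)
    exact spec_absorb_three (spec_zmod_pow m 2) fun x₁ x₂ x₃ k₁ k₂ k₃ =>
      ⟨_, e₃.trans e₄, spec_orderOf_prod_dvd _ (hd' _ k₁)
        (spec_orderOf_prod_dvd _ (hd' _ k₂) (hd' _ k₃))⟩
  · intro hne
    have hlt : p ^ j < 2 * (n - 1) := by
      have h3 : 2 * n - 1 ≠ p ^ j := fun h => hne ⟨j, h⟩
      obtain ⟨k, hk⟩ := (hp.odd_of_ne_two hp2).pow (n := j)
      omega
    obtain ⟨y₃, c, -, h₃, h₄, h₅⟩ := spec_exists_PSp_block (F := F) (K := AlgebraicClosure F)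
      (n := n) (e := 1) p hp2 one_ne_zero (by omega) (by simp)
    have h6 : 2 ∣ orderOf y₃ := spec_even_of_neg_one_pow (K := AlgebraicClosure F) p hp2
      (by rw [h₄ (by omega), ← h₃ one_pos, one_pow])
    have hd' : ∀ x : PSp n F, ¬ SpecGood 2 x → orderOf x ∣ orderOf (y₁, y₂) := fun x hx =>
      (hd x hx).resolve_right fun h => hx ⟨y₃, h6, h.trans (h₅ j hlt)⟩
    exact spec_absorb_two (spec_zmod_pow m 2) fun x₁ x₂ k₁ k₂ =>
      ⟨_, e₃, spec_orderOf_prod_dvd _ (hd' _ k₁) (hd' _ k₂)⟩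

end Cfsg.Agent.S2512
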