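import Mathlib
import Cfsg.Statements.S2513
import Cfsg.Agent.Cl.SpecLinear

set_option autoImplicit false
open Cfsg

namespace Cfsg.Agent.S2513

open Cfsg.Agent.Cl

theorem exists_torus {F : Type*} [Field F] [Fintype F] (hF : Fintype.card F = 2) {n i : ℕ}
    (hi : 0 < i) (hin : i ≤ n) :
    ∃ y : Matrix.ProjectiveSpecialLinearGroup (Fin n) F, 2 ^ i - 1 ∣ orderOf y := by
  classical
  have hchar : CharP F 2 := charP_of_card_eq_prime hF
  have : NeZero i := ⟨hi.ne'⟩
  have hone : ∀ c : F, c ≠ 0 → c = 1 := fun c hc => by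
    have := FiniteField.pow_card_sub_one_eq_one c hc
    simpa [hF] using this
  let E := FiniteField.Extension F 2 i
  have hE : Nat.card E = 2 ^ i := by
    rw [FiniteField.natCard_extension, Nat.card_eq_fintype_card, hF]
  obtain ⟨a, ha0, ha⟩ := spec_exists_orderOf_eq (E := E) (m := 2 ^ i - 1) (by rw [hE])
  let y : Module.End F (E × (Fin (n - i) → F)) := LinearMap.prodMap (Algebra.lmul F E a) 1
  have hdet : LinearMap.det y = 1 := by
    rw [LinearMap.det_prodMap, map_one, mul_one]
    apply hone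
    exact (Algebra.norm_ne_zero_iff (R := F)).2 ha0
  obtain ⟨g, e, hg⟩ := exists_specSL_conj (ι := Fin n) (by
    rw [Module.finrank_prod, FiniteField.finrank_extension]; simp; omega) hdet
  obtain ⟨c, hc⟩ := specProj_specSL.exists_pow_of_conj hg
  have h1 := spec_lmul_pow_eq (spec_prodMap_pow_eq hc).1
  have hc1 : c = 1 := hone c (by
    rintro rfl
    exact pow_ne_zero _ ha0 (h1.trans (map_zero _)))
  refine ⟨g, ?_⟩
  rw [← ha, orderOf_dvd_iff_pow_eq_one, h1, hc1, map_one]

theorem orderOf_dvd {F : Type*} [Field F] [Fintype F] (hF : Fintype.card F = 2) {n b N : ℕ}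
    (hb : n ≤ 2 ^ b) (hN : ∀ i, n < 2 * i → i ≤ n → 2 ^ i - 1 ∣ N)
    (x : Matrix.ProjectiveSpecialLinearGroup (Fin n) F) : orderOf x ∣ N * 2 ^ b := by
  classical
  have hchar : CharP F 2 := charP_of_card_eq_prime hF
  obtain ⟨g, rfl⟩ := QuotientGroup.mk_surjective x
  rw [specProj_specSL.orderOf_dvd_iff]
  refine ⟨_, pow_mul_eq_of_evs (K := AlgebraicClosure F) 2 (c := 1) (fun μ hμ => ?_)
    (by simpa using hb)⟩
  let φ : AlgebraicClosure F → AlgebraicClosure F := fun a => a ^ Fintype.card F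
  have hpos := spec_minimalPeriod_pos (φ := φ) spec_pow_card_injective (evs_map_frob _) hμ
  have hle : Function.minimalPeriod φ μ ≤ n := by
    have h1 : specOrbit φ μ ≤ evs (AlgebraicClosure F) (specSL F (Fin n) g) := by
      rw [Multiset.le_iff_subset (nodup_specOrbit φ μ)]
      intro ν hν
      obtain ⟨i, rfl⟩ := (mem_specOrbit hpos).1 hν
      exact spec_mem_of_map_eq (evs_map_frob _) hμ i
    have := Multiset.card_le_card h1
    rw [card_specOrbit, evs_card] at this
    simpa using this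
  set d := Function.minimalPeriod φ μ
  have h0 : μ ≠ 0 := ne_zero_of_mem_evs (by
    rw [LinearMap.isUnit_iff_isUnit_det, det_specSL]; exact isUnit_one) hμ
  have hper : φ^[n / d * d] μ = μ := ((Function.isPeriodicPt_minimalPeriod φ μ).const_mul _).eq
  rw [pow_iterate, hF] at hper
  have h2 : μ ^ (2 ^ (n / d * d) - 1) = 1 := by
    apply mul_right_cancel₀ h0
    rw [← pow_succ, Nat.sub_add_cancel Nat.one_le_two_pow, one_mul]
    exact hper
  have h3 := Nat.div_add_mod n d
  have h4 := Nat.mod_lt n hpos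
  have h5 : 1 ≤ n / d := (Nat.one_le_div_iff hpos).2 hle
  obtain ⟨t, ht⟩ := hN (n / d * d) (by nlinarith) (Nat.div_mul_le_self n d)
  rw [ht, pow_mul, h2, one_pow, map_one]

/-- Let F be the field with two elements, n ≥ 2, L = PSL(n, F) and k₀ = ⌊(n + 3)/2⌋. Then for every k ≥ k₀ the direct product of k copies of L has the same set of element orders as the direct product of k₀ copies of L. -/
theorem result {F : Type*} [Field F] [Fintype F] (hF : Fintype.card F = 2) (n k : ℕ) (hn : 2 ≤ n) (hk : (n + 3) / 2 ≤ k) :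
    Set.range (orderOf : (Fin k → Matrix.ProjectiveSpecialLinearGroup (Fin n) F) → ℕ) = Set.range (orderOf : (Fin ((n + 3) / 2) → Matrix.ProjectiveSpecialLinearGroup (Fin n) F) → ℕ) := by
  classical
  have hchar : CharP F 2 := charP_of_card_eq_prime hF
  apply spec_eq_of_dvd
  · intro x
    obtain ⟨j, -, hj1, hj2⟩ := spec_clog_pred one_lt_two hn
    obtain ⟨u, hu⟩ := spec_exists_regular_SL (F := F) (ι := Fin n) 2
    have hu' := hu j (by simpa using hj1)
    have ht : ∀ i : Fin ((n + 3) / 2), ∃ y : Matrix.ProjectiveSpecialLinearGroup (Fin n) F,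
        (i.1 = 0 → 2 ^ (j + 1) ∣ orderOf y) ∧ (i.1 ≠ 0 → 2 ^ (n + 1 - i.1) - 1 ∣ orderOf y) := by
      intro i
      by_cases hi : i.1 = 0
      · exact ⟨u, fun _ => hu', fun h => absurd hi h⟩
      · obtain ⟨y, hy⟩ := exists_torus hF (n := n) (i := n + 1 - i.1) (by omega) (by omega)
        exact ⟨y, fun h => absurd h hi, fun _ => hy⟩
    choose y hy1 hy2 using ht
    refine ⟨y, spec_orderOf_pi_dvd _ fun l => ?_⟩
    obtain ⟨N, hN⟩ : 2 ^ (j + 1) ∣ orderOf y :=
      (hy1 ⟨0, by omega⟩ rfl).trans (orderOf_apply_dvd_orderOf _)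
    rw [hN, mul_comm]
    apply orderOf_dvd hF hj2
    intro i hi1 hi2
    have h1 := (hy2 ⟨n + 1 - i, by omega⟩ (by simp; omega)).trans (orderOf_apply_dvd_orderOf _)
    rw [hN, show n + 1 - (n + 1 - i) = i by omega] at h1
    refine Nat.Coprime.dvd_of_dvd_mul_left ?_ h1
    apply Nat.Coprime.pow_right
    rw [Nat.coprime_two_right, Nat.odd_sub Nat.one_le_two_pow]
    simp [Nat.even_pow]
    omega
  · intro x
    refine ⟨fun i => if h : i.1 < (n + 3) / 2 then x ⟨i.1, h⟩ else 1,
      spec_orderOf_pi_dvd _ fun l => ?_⟩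
    have := orderOf_apply_dvd_orderOf
      (x := fun i : Fin k => if h : i.1 < (n + 3) / 2 then x ⟨i.1, h⟩ else 1) ⟨l.1, by omega⟩
    simpa using this

end Cfsg.Agent.S2513
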