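import Mathlib
import Cfsg.Statements.S2514
import Cfsg.Agent.Cl.SpecBasic

set_option autoImplicit false
open Cfsg

namespace Cfsg.Agent.S2514

open Cfsg.Agent.Cl

/-- For a finite group X write μ(X) for the set of element orders of X that are maximal under divisibility. Let G and H be finite groups and k ≥ 1 such that μ(H) ⊆ μ(G) and μ(G) has fewer than k elements outside μ(H). Then the direct product of k copies of G has the same set of element orders as the direct product of k − 1 copies of G with H. -/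
theorem result {G H : Type*} [Group G] [Finite G] [Group H] [Finite H] (k : ℕ) (hk : 1 ≤ k)
    (hsub : {n : ℕ | n ∈ Set.range (orderOf : H → ℕ) ∧ ∀ m ∈ Set.range (orderOf : H → ℕ), n ∣ m → m = n} ⊆ {n : ℕ | n ∈ Set.range (orderOf : G → ℕ) ∧ ∀ m ∈ Set.range (orderOf : G → ℕ), n ∣ m → m = n})
    (hfew : ({n : ℕ | n ∈ Set.range (orderOf : G → ℕ) ∧ ∀ m ∈ Set.range (orderOf : G → ℕ), n ∣ m → m = n} \ {n : ℕ | n ∈ Set.range (orderOf : H → ℕ) ∧ ∀ m ∈ Set.range (orderOf : H → ℕ), n ∣ m → m = n}).ncard < k) :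
    Set.range (orderOf : (Fin k → G) → ℕ) = Set.range (orderOf : (Fin (k - 1) → G) × H → ℕ) := by
  classical
  obtain ⟨j, rfl⟩ : ∃ j, k = j + 1 := ⟨k - 1, by omega⟩
  change Set.range (orderOf : (Fin (j + 1) → G) → ℕ) = Set.range (orderOf : (Fin j → G) × H → ℕ)
  set μG := {n : ℕ | n ∈ Set.range (orderOf : G → ℕ) ∧ ∀ m ∈ Set.range (orderOf : G → ℕ), n ∣ m → m = n} with hμG
  set μH := {n : ℕ | n ∈ Set.range (orderOf : H → ℕ) ∧ ∀ m ∈ Set.range (orderOf : H → ℕ), n ∣ m → m = n} with hμH
  apply spec_eq_of_dvd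
  · intro x
    choose y hy hymax using fun i => spec_exists_maximal (x i)
    have hyμ : ∀ i, orderOf (y i) ∈ μG := fun i => ⟨⟨y i, rfl⟩, hymax i⟩
    by_cases h : ∃ i, orderOf (y i) ∈ μH
    · obtain ⟨i, ⟨z, hz⟩, -⟩ := h
      refine ⟨(fun l => y (i.succAbove l), z), spec_orderOf_pi_dvd _ fun l => ?_⟩
      refine (hy l).trans ?_
      rcases Fin.eq_self_or_eq_succAbove i l with rfl | ⟨l', rfl⟩
      · rw [← hz]; exact orderOf_snd_dvd_orderOf (x := ((fun l' => y (l.succAbove l')), z))
      · exact (orderOf_apply_dvd_orderOf (x := fun l => y (i.succAbove l)) l').trans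
          (orderOf_fst_dvd_orderOf (x := ((fun l => y (i.succAbove l)), z)))
    · push Not at h
      have hfin : (μG \ μH).Finite := (Set.finite_range (orderOf : G → ℕ)).subset fun n hn => hn.1.1
      have : ∃ a b : Fin (j + 1), a ≠ b ∧ orderOf (y a) = orderOf (y b) := by
        by_contra hne
        push Not at hne
        have hinj : Set.InjOn (fun a : Fin (j + 1) => orderOf (y a)) Set.univ := by
          intro a _ b _ hab
          by_contra hab'
          exact hne a b hab' hab
        have := Set.ncard_le_ncard_of_injOn (fun a : Fin (j + 1) => orderOf (y a))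
          (s := Set.univ) (t := μG \ μH) (fun a _ => ⟨hyμ a, h a⟩) hinj hfin
        rw [Set.ncard_univ, Nat.card_eq_fintype_card, Fintype.card_fin] at this
        omega
      obtain ⟨a, b, hab, he⟩ := this
      refine ⟨(fun l => y (a.succAbove l), 1), spec_orderOf_pi_dvd _ fun l => ?_⟩
      refine (hy l).trans ?_
      have key : ∀ l', orderOf (y (a.succAbove l')) ∣ orderOf ((fun l => y (a.succAbove l)), (1 : H)) :=
        fun l' => (orderOf_apply_dvd_orderOf (x := fun l => y (a.succAbove l)) l').trans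
          (orderOf_fst_dvd_orderOf (x := ((fun l => y (a.succAbove l)), (1 : H))))
      rcases Fin.eq_self_or_eq_succAbove a l with rfl | ⟨l', rfl⟩
      · obtain ⟨b', rfl⟩ := Fin.exists_succAbove_eq hab.symm
        rw [he]; exact key b'
      · exact key l'
  · rintro ⟨x, z⟩
    obtain ⟨w, hw, hwmax⟩ := spec_exists_maximal z
    obtain ⟨⟨g, hg⟩, -⟩ := hsub (show orderOf w ∈ μH from ⟨⟨w, rfl⟩, hwmax⟩)
    refine ⟨Fin.cons g x, spec_orderOf_prod_dvd _ (spec_orderOf_pi_dvd _ fun l => ?_) ?_⟩
    · exact orderOf_apply_dvd_orderOf (x := (Fin.cons g x : Fin (j + 1) → G)) l.succ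
    · refine hw.trans ?_
      rw [← hg]
      exact orderOf_apply_dvd_orderOf (x := (Fin.cons g x : Fin (j + 1) → G)) 0

end Cfsg.Agent.S2514
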