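import Cfsg.Statements.S2515
import Cfsg.Agent.FG.H93Spec
import Cfsg.Agent.Cl.PSL2Struct
import Mathlib.FieldTheory.Finite.GaloisField
import Mathlib.NumberTheory.LegendreSymbol.QuadraticChar.Basic

set_option autoImplicit false
open Cfsg

namespace Cfsg.Agent.S2515

open Matrix

section
variable {F : Type} [Field F] [CharP F 3]

abbrev SL (F : Type) [Field F] := Matrix.SpecialLinearGroup (Fin 2) F
abbrev V (F : Type) [Field F] := Matrix (Fin 2) (Fin 2) F

instance fact3 : Fact (Nat.Prime 3) := ⟨Nat.prime_three⟩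

/-- Frobenius twist -/
noncomputable def sg : SL F →* SL F := Matrix.SpecialLinearGroup.map (frobenius F 3)

/-- the linear action -/
noncomputable def Lin (g : SL F) (ε : F) (X : V F) : V F :=
  ε • ((g : V F) * X * ((sg g⁻¹ : SL F) : V F))

theorem Lin_mul (g g' : SL F) (ε ε' : F) (X : V F) :
    Lin (g * g') (ε * ε') X = Lin g ε (Lin g' ε' X) := by
  simp only [Lin, _root_.mul_inv_rev, map_mul, Matrix.SpecialLinearGroup.coe_mul, Matrix.mul_smul,
    Matrix.smul_mul, smul_smul, Matrix.mul_assoc]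

theorem Lin_add (g : SL F) (ε : F) (X Y : V F) : Lin g ε (X + Y) = Lin g ε X + Lin g ε Y := by
  simp only [Lin, Matrix.mul_add, Matrix.add_mul, smul_add]

theorem Lin_zero (g : SL F) (ε : F) : Lin g ε 0 = 0 := by simp [Lin]

theorem Lin_cen {g : SL F} (hg : g ∈ Subgroup.center (SL F)) (ε : F) (X : V F) :
    Lin g ε X = ε • X := by
  obtain ⟨r, hr, hg1⟩ := Matrix.SpecialLinearGroup.mem_center_iff.1 hg
  obtain ⟨s, hs, hg2⟩ := Matrix.SpecialLinearGroup.mem_center_iff.1 (inv_mem hg)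
  have hrs : r * s = 1 := by
    have : (g : V F) * ((g⁻¹ : SL F) : V F) = 1 := by
      rw [← Matrix.SpecialLinearGroup.coe_mul, mul_inv_cancel, Matrix.SpecialLinearGroup.coe_one]
    rw [← hg1, ← hg2, ← map_mul] at this
    simpa using congrFun (congrFun this 0) 0
  have h3 : ((sg g⁻¹ : SL F) : V F) = Matrix.scalar (Fin 2) s := by
    show (frobenius F 3).mapMatrix ((g⁻¹ : SL F) : V F) = _
    rw [← hg2]
    have hs3 : s ^ 3 = s := by
      rw [Fintype.card_fin] at hs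
      rw [pow_succ, hs, one_mul]
    ext i j
    by_cases h : i = j
    · subst h; simp [frobenius_def, hs3]
    · simp [Matrix.diagonal_apply_ne _ h]
  rw [Lin, h3, ← hg1, Matrix.scalar_apply, Matrix.scalar_apply, ← Matrix.smul_eq_diagonal_mul,
    ← Matrix.op_smul_eq_mul_diagonal]
  congr 1
  ext i j
  simp only [Matrix.smul_apply, smul_eq_mul, MulOpposite.smul_eq_mul_unop, MulOpposite.unop_op]
  linear_combination X i j * hrs

theorem Lin_one (ε : F) (X : V F) : Lin (1 : SL F) ε X = ε • X := Lin_cen (one_mem _) ε X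

/-- `h` is the affine map with data `g, ε, B` -/
def D (h : Equiv.Perm (V F)) (g : SL F) (ε : F) (B : V F) : Prop := ∀ X, h X = Lin g ε X + B

theorem D.mul {h h' : Equiv.Perm (V F)} {g g' : SL F} {ε ε' : F} {B B' : V F}
    (a : D h g ε B) (b : D h' g' ε' B') : D (h * h') (g * g') (ε * ε') (Lin g ε B' + B) := by
  intro X
  rw [Equiv.Perm.mul_apply, b, a, Lin_add, Lin_mul, add_assoc]

theorem D.one : D (1 : Equiv.Perm (V F)) 1 1 0 := fun X => by simp [Lin_one]

theorem D.pow {h : Equiv.Perm (V F)} {g : SL F} {ε : F} {B : V F} (a : D h g ε B) (k : ℕ) :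
    ∃ T, D (h ^ k) (g ^ k) (ε ^ k) T ∧ (B = 0 → T = 0) := by
  induction k with
  | zero => exact ⟨0, by simpa using D.one, fun _ => rfl⟩
  | succ k ih =>
    obtain ⟨T, hT, h0⟩ := ih
    refine ⟨_, by rw [pow_succ, pow_succ, pow_succ]; exact hT.mul a, fun hB => ?_⟩
    rw [hB, h0 hB, Lin_zero, add_zero]

/-- the affine permutation -/
noncomputable def aff (g : SL F) (ε : F) (hε : ε * ε = 1) (B : V F) : Equiv.Perm (V F) where
  toFun X := Lin g ε X + B
  invFun Y := Lin g⁻¹ ε (Y - B)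
  left_inv X := by
    simp only [add_sub_cancel_right]
    rw [← Lin_mul, inv_mul_cancel, hε, Lin_one, one_smul]
  right_inv Y := by
    simp only
    rw [← Lin_mul, mul_inv_cancel, hε, Lin_one, one_smul, sub_add_cancel]

theorem D_aff (g : SL F) (ε : F) (hε : ε * ε = 1) (B : V F) : D (aff g ε hε B) g ε B :=
  fun _ => rfl

/-- the group -/
def HH (F : Type) [Field F] [CharP F 3] : Subgroup (Equiv.Perm (V F)) where
  carrier := {h | ∃ g ε B, ε * ε = 1 ∧ D h g ε B}
  one_mem' := ⟨1, 1, 0, one_mul _, D.one⟩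
  mul_mem' := by
    rintro h h' ⟨g, ε, B, e, a⟩ ⟨g', ε', B', e', b⟩
    exact ⟨_, _, _, by linear_combination ε' * ε' * e + e', a.mul b⟩
  inv_mem' := by
    rintro h ⟨g, ε, B, e, a⟩
    have : h = aff g ε e B := Equiv.ext a
    refine ⟨g⁻¹, ε, Lin g⁻¹ ε (-B), e, fun X => ?_⟩
    rw [this, ← Lin_add, ← sub_eq_add_neg]
    rfl

theorem three (T : V F) : T + T + T = 0 := by
  have h3 : (3 : F) = 0 := by exact_mod_cast CharP.cast_eq_zero F 3
  ext i j
  simp only [Matrix.add_apply, Matrix.zero_apply]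
  linear_combination T i j * h3

theorem tr3 {h : Equiv.Perm (V F)} {T : V F} (a : ∀ X, h X = X + T) : h ^ 3 = 1 := by
  ext1 X
  simp only [pow_succ, pow_zero, one_mul, Equiv.Perm.mul_apply, a, Equiv.Perm.one_apply]
  rw [add_assoc, add_assoc, ← add_assoc T, three, add_zero]

omit [CharP F 3] in
theorem neg2 {h : Equiv.Perm (V F)} {T : V F} (a : ∀ X, h X = -X + T) : h ^ 2 = 1 := by
  ext1 X
  simp only [pow_succ, pow_zero, one_mul, Equiv.Perm.mul_apply, a, Equiv.Perm.one_apply]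
  abel

theorem caseA {h : Equiv.Perm (V F)} {g : SL F} {ε : F} {B : V F} (a : D h g ε B)
    (e : ε * ε = 1) (hg : g ^ 3 ∈ Subgroup.center (SL F)) :
    (ε = 1 ∧ h ^ 9 = 1) ∨ h ^ 6 = 1 := by
  obtain ⟨T, hT, -⟩ := a.pow 3
  rcases mul_self_eq_one_iff.1 e with rfl | rfl
  · left
    refine ⟨rfl, ?_⟩
    rw [show 9 = 3 * 3 from rfl, pow_mul]
    exact tr3 (T := T) fun X => by rw [hT, Lin_cen hg]; simp
  · right
    rw [show 6 = 3 * 2 from rfl, pow_mul]
    exact neg2 (T := T) fun X => by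
      rw [hT, Lin_cen hg, show (-1 : F) ^ 3 = -1 by ring, neg_one_smul]

theorem fpf {h : Equiv.Perm (V F)} {g : SL F} {ε : F} {B : V F} (a : D h g ε B)
    (hf : ∀ X, Lin g ε X = X → X = 0) {m : ℕ} (hg : g ^ m ∈ Subgroup.center (SL F))
    (e : ε ^ m = 1) : h ^ m = 1 := by
  obtain ⟨T, hT, -⟩ := a.pow m
  have h1 : ∀ X, (h ^ m) X = X + T := fun X => by rw [hT, Lin_cen hg, e, one_smul]
  have h2 : (h ^ m * h) 0 = (h * h ^ m) 0 := by rw [← pow_succ, ← pow_succ']
  rw [Equiv.Perm.mul_apply, Equiv.Perm.mul_apply, h1, h1, a, a, Lin_zero, zero_add, zero_add,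
    add_comm B] at h2
  have h3 := hf T (add_right_cancel h2).symm
  ext1 X
  rw [h1, h3, add_zero, Equiv.Perm.one_apply]

omit [CharP F 3] in
theorem CH (g : SL F) : (g : V F) * g = (g : V F).trace • (g : V F) - 1 := by
  have hd := g.det_coe
  rw [Matrix.det_fin_two] at hd
  ext i j
  fin_cases i <;> fin_cases j <;>
    simp [Matrix.mul_apply, Fin.sum_univ_two, Matrix.trace_fin_two] <;>
    first | linear_combination -hd | ring

theorem nofpf {g : SL F} {ε : F} (e : ε * ε = 1) {X : V F} (hX : X ≠ 0) (h : Lin g ε X = X) :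
    (g : V F).trace ^ 3 = ε * (g : V F).trace := by
  set s : V F := ((sg g : SL F) : V F) with hs
  set τ := (g : V F).trace with hτ
  have h1 : X * s = ε • ((g : V F) * X) := by
    conv_lhs => rw [← h, Lin, Matrix.smul_mul, Matrix.mul_assoc, hs,
      ← Matrix.SpecialLinearGroup.coe_mul, ← map_mul, inv_mul_cancel, map_one,
      Matrix.SpecialLinearGroup.coe_one, Matrix.mul_one]
  have h2 : s.trace = τ ^ 3 := by
    rw [hs, hτ, Matrix.trace_fin_two, Matrix.trace_fin_two, add_pow_char]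
    rfl
  have h3 : X * (s * s) = τ • ((g : V F) * X) - X := by
    rw [← Matrix.mul_assoc, h1, Matrix.smul_mul, Matrix.mul_assoc, h1, Matrix.mul_smul, smul_smul,
      e, one_smul, ← Matrix.mul_assoc, CH, Matrix.sub_mul, Matrix.smul_mul, Matrix.one_mul]
  rw [hs, CH, ← hs, h2, Matrix.mul_sub, Matrix.mul_smul, h1, smul_smul, Matrix.mul_one,
    sub_left_inj, ← sub_eq_zero, ← sub_smul] at h3
  rcases smul_eq_zero.1 h3 with h4 | h4
  · linear_combination ε * h4 - τ ^ 3 * e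
  · exfalso
    apply hX
    have : ((g⁻¹ : SL F) : V F) * ((g : V F) * X) = X := by
      rw [← Matrix.mul_assoc, ← Matrix.SpecialLinearGroup.coe_mul, inv_mul_cancel,
        Matrix.SpecialLinearGroup.coe_one, Matrix.one_mul]
    rw [← this, h4, Matrix.mul_zero]

omit [CharP F 3] in
theorem cen_of_scalar {g : SL F} {r : F} (h : (g : V F) = r • (1 : V F)) :
    g ∈ Subgroup.center (SL F) := by
  refine Subgroup.mem_center_iff.2 fun x => Subtype.ext ?_
  show (x : V F) * g = (g : V F) * x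
  rw [h, Matrix.mul_smul, Matrix.smul_mul, Matrix.mul_one, Matrix.one_mul]

omit [CharP F 3] in
theorem mk_pow (g : SL F) (k : ℕ) :
    orderOf (g : Matrix.ProjectiveSpecialLinearGroup (Fin 2) F) ∣ k ↔
      g ^ k ∈ Subgroup.center (SL F) := by
  rw [orderOf_dvd_iff_pow_eq_one, ← QuotientGroup.mk_pow, QuotientGroup.eq_one_iff]

theorem ord {g : SL F} {ε : F} (e : ε * ε = 1) (k : ℕ) :
    orderOf (aff g ε e 0) ∣ k ↔
      orderOf (g : Matrix.ProjectiveSpecialLinearGroup (Fin 2) F) ∣ k ∧ ε ^ k = 1 := by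
  obtain ⟨T, hT, h0⟩ := (D_aff g ε e 0).pow k
  rw [h0 rfl] at hT
  rw [mk_pow, orderOf_dvd_iff_pow_eq_one]
  constructor
  · intro h
    have h1 : ∀ X, Lin (g ^ k) (ε ^ k) X = X := fun X => by
      have := hT X
      rw [h, add_zero] at this
      exact this.symm
    have h2 : ∀ X : V F, X * ((sg (g ^ k) : SL F) : V F) = ε ^ k • (((g ^ k : SL F) : V F) * X) := by
      intro X
      conv_lhs => rw [← h1 X, Lin, Matrix.smul_mul, Matrix.mul_assoc,
        ← Matrix.SpecialLinearGroup.coe_mul, ← map_mul, inv_mul_cancel, map_one,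
        Matrix.SpecialLinearGroup.coe_one, Matrix.mul_one]
    have hε : ε ^ k ≠ 0 := pow_ne_zero _ (left_ne_zero_of_mul_eq_one e)
    have hc : g ^ k ∈ Subgroup.center (SL F) := by
      refine Subgroup.mem_center_iff.2 fun x => Subtype.ext ?_
      have h3 := h2 (x : V F)
      have h4 := h2 1
      rw [Matrix.one_mul, Matrix.mul_one] at h4
      rw [h4, Matrix.mul_smul] at h3
      exact smul_right_injective _ hε h3
    refine ⟨hc, ?_⟩
    have h5 := h1 1
    rw [Lin_cen hc] at h5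
    simpa using congrFun (congrFun h5 0) 0
  · rintro ⟨hc, hε⟩
    ext1 X
    rw [hT, Lin_cen hc, hε, one_smul, add_zero, Equiv.Perm.one_apply]

/-- a unipotent element -/
def uu (F : Type) [Field F] : SL F := ⟨!![1, 1; 0, 1], by simp [Matrix.det_fin_two]⟩

theorem uu_cube : uu F ^ 3 = 1 := by
  have h3 : (3 : F) = 0 := by exact_mod_cast CharP.cast_eq_zero F 3
  apply Subtype.ext
  show ((uu F ^ 3 : SL F) : V F) = 1
  rw [Matrix.SpecialLinearGroup.coe_pow]
  ext i j
  fin_cases i <;> fin_cases j <;> simp [uu, pow_succ]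
  linear_combination h3

theorem uu_ord : orderOf (uu F : Matrix.ProjectiveSpecialLinearGroup (Fin 2) F) = 3 := by
  apply orderOf_eq_prime
  · rw [← QuotientGroup.mk_pow, uu_cube]; rfl
  · intro h
    obtain ⟨r, -, hr⟩ := Matrix.SpecialLinearGroup.mem_center_iff.1
      ((QuotientGroup.eq_one_iff _).1 h)
    simpa [uu] using congrFun (congrFun hr 0) 1

theorem Lin_uu (a b c d : F) :
    Lin (uu F) 1 !![a, b; c, d] = !![a + c, b + d - (a + c); c, d - c] := by
  have h1 : ((sg (uu F)⁻¹ : SL F) : V F) = !![1, -1; 0, 1] := by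
    show (frobenius F 3).mapMatrix (((uu F)⁻¹ : SL F) : V F) = _
    rw [Matrix.SpecialLinearGroup.coe_inv]
    ext i j
    fin_cases i <;> fin_cases j <;> simp [uu, Matrix.adjugate_fin_two]
  rw [Lin, h1, one_smul]
  ext i j
  fin_cases i <;> fin_cases j <;> simp [uu] <;> ring

theorem ord9 : orderOf (aff (uu F) 1 (one_mul _) !![0, 0; 1, 0]) = 9 := by
  have h3 : (3 : F) = 0 := by exact_mod_cast CharP.cast_eq_zero F 3
  have hD := D_aff (uu F) 1 (one_mul _) !![0, 0; 1, 0]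
  have hn : aff (uu F) 1 (one_mul _) !![0, 0; 1, 0] ^ 3 ≠ 1 := by
    intro h
    have h1 := congrArg (fun f : Equiv.Perm (V F) => f !![0, 0; 0, 0]) h
    simp only [pow_succ, pow_zero, one_mul, Equiv.Perm.mul_apply, Equiv.Perm.one_apply] at h1
    rw [hD, hD, hD, Lin_uu, Matrix.of_add_of] at h1
    simp only [Matrix.add_cons, Matrix.head_cons, Matrix.tail_cons, Matrix.empty_add_empty] at h1
    rw [Lin_uu, Matrix.of_add_of] at h1
    simp only [Matrix.add_cons, Matrix.head_cons, Matrix.tail_cons, Matrix.empty_add_empty] at h1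
    rw [Lin_uu] at h1
    have h2 := congrFun (congrFun h1 0) 1
    simp at h2
    exact one_ne_zero (by linear_combination h2 + 2 * h3 : (1 : F) = 0)
  have h9 : aff (uu F) 1 (one_mul _) !![0, 0; 1, 0] ^ 9 = 1 := by
    obtain ⟨T, hT, -⟩ := hD.pow 3
    rw [show 9 = 3 * 3 from rfl, pow_mul]
    exact tr3 (T := T) fun X => by rw [hT, uu_cube, Lin_one]; simp
  exact orderOf_eq_prime_pow (p := 3) (n := 1) (by simpa using hn) (by simpa using h9)

theorem neg_pow_iff (k : ℕ) : (-1 : F) ^ k = 1 ↔ 2 ∣ k := by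
  have h3 : (3 : F) = 0 := by exact_mod_cast CharP.cast_eq_zero F 3
  rw [neg_one_pow_eq_one_iff_even, even_iff_two_dvd]
  intro h
  exact one_ne_zero (by linear_combination h3 + h : (1 : F) = 0)

theorem all_orders [Finite F] (hq : Nat.card F % 4 = 3) (h : Equiv.Perm (V F)) (hh : h ∈ HH F) :
    h ^ 6 = 1 ∨ h ^ 9 = 1 ∨ h ^ (Nat.card F - 1) = 1 ∨ h ^ ((Nat.card F + 1) / 2) = 1 := by
  classical
  obtain ⟨g, ε, B, e, a⟩ := hh
  by_cases hg : g ^ 3 ∈ Subgroup.center (SL F)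
  · rcases caseA a e hg with h1 | h1
    · exact Or.inr (Or.inl h1.2)
    · exact Or.inl h1
  have hev : ∀ m, 2 ∣ m → ε ^ m = 1 := by
    rintro _ ⟨m, rfl⟩
    rw [pow_mul, pow_two, e, one_pow]
  by_cases hf : ∀ X, Lin g ε X = X → X = 0
  · have hgcd : Nat.gcd 2 (Nat.card F - 1) = 2 := Nat.gcd_eq_left (by omega)
    rcases Cl.L2.orderOf_cases 3 (g : Matrix.ProjectiveSpecialLinearGroup (Fin 2) F) with
      h1 | h1 | h1
    · exact absurd ((mk_pow g 3).1 h1) hg
    · exact Or.inr (Or.inr (Or.inl (fpf a hf ((mk_pow g _).1 (Dvd.dvd.trans (Dvd.intro _ rfl) h1))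
        (hev _ (by omega)))))
    · rw [hgcd] at h1
      exact Or.inr (Or.inr (Or.inr (fpf a hf ((mk_pow g _).1
        ((Nat.dvd_div_iff_mul_dvd (by omega)).2 (by rwa [mul_comm]))) (hev _ (by omega)))))
  push Not at hf
  obtain ⟨X, hX, hX0⟩ := hf
  have h1 := nofpf e hX0 hX
  set τ := (g : V F).trace with hτ
  by_cases h0 : τ = 0
  · left
    have hc : g ^ 2 ∈ Subgroup.center (SL F) := cen_of_scalar (r := -1) (by
      rw [Matrix.SpecialLinearGroup.coe_pow, pow_two, CH, ← hτ, h0]; simp)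
    obtain ⟨T, hT, -⟩ := a.pow 2
    rw [show 6 = 2 * 3 from rfl, pow_mul]
    exact tr3 (T := T) fun X => by rw [hT, Lin_cen hc, hev 2 dvd_rfl, one_smul]
  exfalso
  have h2 : τ * τ = ε := mul_right_cancel₀ h0 (by linear_combination h1)
  rcases mul_self_eq_one_iff.1 e with rfl | rfl
  · refine hg (cen_of_scalar (r := -τ) ?_)
    rw [Matrix.SpecialLinearGroup.coe_pow, pow_succ, pow_two, CH, ← hτ, Matrix.sub_mul,
      Matrix.smul_mul, CH, ← hτ, smul_sub, smul_smul, h2, one_smul, Matrix.one_mul, neg_smul]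
    abel
  · haveI := Fintype.ofFinite F
    rw [Nat.card_eq_fintype_card] at hq
    exact FiniteField.isSquare_neg_one_iff.1 ⟨τ, h2.symm⟩ hq

/-- the translations -/
def TT (F : Type) [Field F] [CharP F 3] : Subgroup (HH F) where
  carrier := {h | ∃ T, D (h : Equiv.Perm (V F)) 1 1 T}
  one_mem' := ⟨0, D.one⟩
  mul_mem' := by
    rintro h h' ⟨T, a⟩ ⟨T', b⟩
    exact ⟨_, by simpa using a.mul b⟩
  inv_mem' := by
    rintro h ⟨T, a⟩
    refine ⟨-T, fun X => ?_⟩
    show (h : Equiv.Perm (V F))⁻¹ X = _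
    rw [Equiv.Perm.inv_eq_iff_eq, a]
    simp [Lin_one]

theorem TT_normal : (TT F).Normal := by
  constructor
  rintro n ⟨T, a⟩ ⟨h, g, ε, B, e, b⟩
  refine ⟨Lin g ε T, fun X => ?_⟩
  obtain ⟨Y, rfl⟩ := h.surjective X
  show (h * (n : Equiv.Perm (V F)) * h⁻¹) (h Y) = _
  rw [Equiv.Perm.mul_apply, Equiv.Perm.mul_apply, show h⁻¹ (h Y) = Y by simp, a, b, b, Lin_one,
    Lin_one, one_smul, one_smul, Lin_add]
  abel

theorem TT_ne : TT F ≠ ⊥ := by
  intro h
  have h1 : (⟨aff 1 1 (one_mul _) 1, 1, 1, 1, one_mul _, D_aff _ _ _ _⟩ : HH F) ∈ TT F :=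
    ⟨1, D_aff _ _ (one_mul _) _⟩
  rw [h, Subgroup.mem_bot] at h1
  have h2 := congrArg (fun f : HH F => (f : Equiv.Perm (V F)) 0) h1
  have h3 : Lin (1 : SL F) 1 0 + 1 = 0 := h2
  rw [Lin_zero, zero_add] at h3
  exact one_ne_zero h3

theorem TT_p : IsPGroup 3 (TT F) := by
  rintro ⟨h, T, a⟩
  refine ⟨1, Subtype.ext (Subtype.ext ?_)⟩
  show (h : Equiv.Perm (V F)) ^ 3 ^ 1 = 1
  exact tr3 (T := T) fun X => by rw [a, Lin_one, one_smul]

end

/-- Let q = 3^α with α ≥ 3 odd. There is a finite group H having a non-trivial normal 3-subgroup and whose element orders maximal under divisibility are exactly 6, 9, q − 1 and (q + 1)/2. -/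
theorem result (α : ℕ) (hα : 3 ≤ α) (hodd : Odd α) :
    ∃ (H : Type) (_ : Group H) (_ : Fintype H), (∃ P : Subgroup H, P.Normal ∧ P ≠ ⊥ ∧ IsPGroup 3 ↥P) ∧
      {n : ℕ | n ∈ Set.range (orderOf : H → ℕ) ∧ ∀ m ∈ Set.range (orderOf : H → ℕ), n ∣ m → m = n} = ({6, 9, 3 ^ α - 1, (3 ^ α + 1) / 2} : Set ℕ) := by
  classical
  let F := GaloisField 3 α
  have hF : Nat.card F = 3 ^ α := GaloisField.card 3 α (by omega)
  have h8 : 3 ^ α % 8 = 3 := by
    obtain ⟨k, rfl⟩ := hodd
    rw [pow_succ, pow_mul, Nat.mul_mod, Nat.pow_mod]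
    norm_num
  have h27 : 27 ≤ 3 ^ α := Nat.pow_le_pow_right (n := 3) (by norm_num) hα
  have h3 : 3 ∣ 3 ^ α := dvd_pow_self 3 (by omega)
  obtain ⟨-, ⟨x, hx⟩, ⟨y, hy⟩⟩ := FG.H93.psl2_odd_data (F := F) (q := 3 ^ α)
    (Nat.odd_iff.2 (by omega)) hF
  generalize 3 ^ α = q at hF h8 h27 h3 hx hy ⊢
  refine ⟨HH F, inferInstance, Fintype.ofFinite _, ⟨TT F, TT_normal, TT_ne, TT_p⟩, ?_⟩
  have hall : ∀ n ∈ Set.range (orderOf : HH F → ℕ),
      n ∣ 6 ∨ n ∣ 9 ∨ n ∣ q - 1 ∨ n ∣ (q + 1) / 2 := by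
    rintro _ ⟨⟨h, hh⟩, rfl⟩
    have := all_orders (F := F) (by omega) h hh
    rw [hF] at this
    simpa only [Subgroup.orderOf_mk, orderOf_dvd_iff_pow_eq_one] using this
  have hin : ∀ (g : SL F) (ε : F) (e : ε * ε = 1) (B : V F),
      orderOf (aff g ε e B) ∈ Set.range (orderOf : HH F → ℕ) := fun g ε e B =>
    ⟨⟨aff g ε e B, g, ε, B, e, D_aff _ _ _ _⟩, Subgroup.orderOf_mk _ _⟩
  have e1 : (-1 : F) * -1 = 1 := by ring
  have hneg : ∀ g : SL F, ¬ 2 ∣ orderOf (g : Matrix.ProjectiveSpecialLinearGroup (Fin 2) F) →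
      orderOf (g : Matrix.ProjectiveSpecialLinearGroup (Fin 2) F) * 2 ∈
        Set.range (orderOf : HH F → ℕ) := by
    intro g hg
    have := hin g (-1) e1 0
    have h1 : orderOf (aff g (-1) e1 0) =
        orderOf (g : Matrix.ProjectiveSpecialLinearGroup (Fin 2) F) * 2 := by
      apply Nat.dvd_antisymm
      · exact (ord e1 _).2 ⟨Dvd.intro _ rfl, (neg_pow_iff _).2 (Dvd.intro_left _ rfl)⟩
      · obtain ⟨h2, h4⟩ := (ord (g := g) e1 _).1 dvd_rfl
        exact Nat.Coprime.mul_dvd_of_dvd_of_dvd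
          ((Nat.Prime.coprime_iff_not_dvd Nat.prime_two).2 hg).symm h2 ((neg_pow_iff _).1 h4)
    rwa [h1] at this
  have m6 : 6 ∈ Set.range (orderOf : HH F → ℕ) := by
    have := hneg (uu F) (by rw [uu_ord]; norm_num)
    rwa [uu_ord] at this
  have m9 : 9 ∈ Set.range (orderOf : HH F → ℕ) := by
    have := hin (uu F) 1 (one_mul _) !![0, 0; 1, 0]
    rwa [ord9] at this
  have ma : q - 1 ∈ Set.range (orderOf : HH F → ℕ) := by
    obtain ⟨g, rfl⟩ := QuotientGroup.mk_surjective x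
    have := hneg g (by omega)
    rwa [hx] at this
  have mb : (q + 1) / 2 ∈ Set.range (orderOf : HH F → ℕ) := by
    obtain ⟨g, rfl⟩ := QuotientGroup.mk_surjective y
    have := hin g 1 (one_mul _) 0
    have h1 : orderOf (aff g 1 (one_mul _) 0) =
        orderOf (g : Matrix.ProjectiveSpecialLinearGroup (Fin 2) F) := by
      apply Nat.dvd_antisymm
      · exact (ord (one_mul _) _).2 ⟨dvd_rfl, one_pow _⟩
      · exact ((ord (g := g) (one_mul _) _).1 dvd_rfl).1
    rwa [h1, show orderOf (g : Matrix.ProjectiveSpecialLinearGroup (Fin 2) F) = (q + 1) / 2 by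
      omega] at this
  have hba : ¬ (q + 1) / 2 ∣ q - 1 := by
    intro h
    have h1 : (q + 1) / 2 ∣ 2 * ((q + 1) / 2) - (q - 1) := Nat.dvd_sub (Dvd.intro_left _ rfl) h
    rw [show 2 * ((q + 1) / 2) - (q - 1) = 2 by omega] at h1
    have := Nat.le_of_dvd two_pos h1
    omega
  have hle : ∀ {a b : ℕ}, a ∣ b → 0 < b → a ≤ b := fun h hb => Nat.le_of_dvd hb h
  ext n
  simp only [Set.mem_setOf_eq, Set.mem_insert_iff, Set.mem_singleton_iff]
  constructor
  · rintro ⟨hn, hmax⟩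
    rcases hall n hn with h | h | h | h
    · exact Or.inl (hmax _ m6 h).symm
    · exact Or.inr (Or.inl (hmax _ m9 h).symm)
    · exact Or.inr (Or.inr (Or.inl (hmax _ ma h).symm))
    · exact Or.inr (Or.inr (Or.inr (hmax _ mb h).symm))
  · have key : ∀ n, (n = 6 ∨ n = 9 ∨ n = q - 1 ∨ n = (q + 1) / 2) →
        ∀ c, (c = 6 ∨ c = 9 ∨ c = q - 1 ∨ c = (q + 1) / 2) → n ∣ c → n = c := by
      rintro n hn c hc hnc
      have hcpos : 0 < c := by omega
      have h1 := hle hnc hcpos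
      rcases hn with rfl | rfl | rfl | rfl <;> rcases hc with rfl | rfl | rfl | rfl <;>
        first | rfl | omega | exact absurd hnc hba
    intro hn
    refine ⟨by rcases hn with rfl | rfl | rfl | rfl <;> assumption, fun m hm hnm => ?_⟩
    have h2 : ∀ c, (c = 6 ∨ c = 9 ∨ c = q - 1 ∨ c = (q + 1) / 2) → m ∣ c → m = n := by
      intro c hc hmc
      have := key n hn c hc (hnm.trans hmc)
      exact Nat.dvd_antisymm (this ▸ hmc) hnm
    rcases hall m hm with h | h | h | h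
    · exact h2 _ (Or.inl rfl) h
    · exact h2 _ (Or.inr (Or.inl rfl)) h
    · exact h2 _ (Or.inr (Or.inr (Or.inl rfl))) h
    · exact h2 _ (Or.inr (Or.inr (Or.inr rfl))) h

end Cfsg.Agent.S2515
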