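import Mathlib
import Cfsg.Statements.S2518
import Cfsg.Agent.Chev.G2Spec
import Cfsg.Agent.Cl.PSL2Spec
import Cfsg.Agent.S1059
import Cfsg.Agent.Perm.GKAff
-- import your own Cfsg.Agent.* helpers here

set_option autoImplicit false
open Cfsg

namespace Cfsg.Agent.S2518

open Cfsg.Agent.Chev.G2 Cfsg.Agent.Cl

theorem eq_six {r s n : ℕ} (hr : r.Prime) (hs : s.Prime) (hrs : r ≠ s)
    (hn : n ∈ [9, 8, 13, 7, 12, 6]) (h : r * s ∣ n) : r * s = 6 := by
  have h1 : r ≤ 13 := (Nat.le_of_dvd (by fin_cases hn <;> norm_num) (dvd_of_mul_right_dvd h)).trans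
    (by fin_cases hn <;> norm_num)
  have h2 : s ≤ 13 := (Nat.le_of_dvd (by fin_cases hn <;> norm_num) (dvd_of_mul_left_dvd h)).trans
    (by fin_cases hn <;> norm_num)
  revert n
  interval_cases r <;> first | (norm_num at hr; done) | skip
  all_goals interval_cases s <;> first | (norm_num at hs; done) | decide | exact absurd rfl hrs

/-- Let F₃ be the field with 3 elements and F₁₃ the field with 13 elements. The Chevalley group G₂(F₃) and PSL(2, F₁₃) have the same prime graph: the same prime divisors of their orders, and for distinct primes r, s an element of order rs in one iff in the other. -/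
theorem result {F : Type*} [Field F] [Fintype F] (hF : Fintype.card F = 3) {E : Type*} [Field E] [Fintype E] (hE : Fintype.card E = 13) :
    ((∀ r : ℕ, r.Prime → (r ∣ Nat.card ↥(Cfsg.Lie.chevG2.group F) ↔ r ∣ Nat.card (Matrix.ProjectiveSpecialLinearGroup (Fin 2) E))) ∧
      (∀ r s : ℕ, r.Prime → s.Prime → r ≠ s → ((∃ x : ↥(Cfsg.Lie.chevG2.group F), orderOf x = r * s) ↔ (∃ y : (Matrix.ProjectiveSpecialLinearGroup (Fin 2) E), orderOf y = r * s)))) := by
  have : CharP F 3 := charP_of_card_eq_prime (p := 3) hF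
  have : Fact (Nat.Prime 13) := ⟨by norm_num⟩
  have : Fact (Nat.Prime 3) := ⟨by norm_num⟩
  have : CharP E 13 := charP_of_card_eq_prime (p := 13) hE
  have hs := L2.range_orderOf_PSL (F := E) 13
  rw [Nat.card_eq_fintype_card, hE] at hs
  refine ⟨fun r hr => ?_, fun r s hr hs' hrs => ⟨?_, ?_⟩⟩
  · rw [S1059.result hF, Perm.GK.prime_dvd_card_iff (G := Matrix.ProjectiveSpecialLinearGroup (Fin 2) E) hr]
    change _ ↔ r ∈ Set.range _
    rw [hs, show 3 ^ 6 * (3 ^ 2 - 1) * (3 ^ 6 - 1) = 13 * (3 ^ 6 * 2 ^ 6 * 7) by norm_num]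
    change _ ↔ r ∣ 13 ∨ r ∣ 3 * 2 ∨ r ∣ 7
    simp only [hr.dvd_mul, hr.prime.dvd_pow_iff_dvd (by norm_num : 6 ≠ 0)]
  · rintro ⟨g, hg⟩
    have : r * s = 6 := by
      rcases pow_eq_one_odd 3 (by norm_num) g with e | ⟨k, hk, e⟩ | ⟨k, hk, e⟩
      · exact eq_six hr hs' hrs (by simp) (hg ▸ orderOf_dvd_of_pow_eq_one (e 2 (by norm_num)))
      · rw [hF] at hk
        exact eq_six hr hs' hrs (by fin_cases hk <;> simp) (hg ▸ orderOf_dvd_of_pow_eq_one e)
      · rw [hF] at hk
        exact eq_six hr hs' hrs (by fin_cases hk <;> simp) (hg ▸ orderOf_dvd_of_pow_eq_one e)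
    change r * s ∈ Set.range _
    rw [hs, this]
    exact Or.inr (Or.inl (by norm_num))
  · intro h
    change r * s ∈ Set.range _ at h
    rw [hs] at h
    have : r * s = 6 := by
      rcases h with h | h | h <;> exact eq_six hr hs' hrs (by simp) h
    rw [this]
    simpa [hF] using exists_orderOf_mul_sub_one F 3

end Cfsg.Agent.S2518
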