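import Mathlib
import Cfsg.Statements.S2521

set_option autoImplicit false
open Cfsg

namespace Cfsg.Agent.S2521

/-- Let B be a finite group that is the semidirect product of a nilpotent normal subgroup U by an abelian subgroup T (U ∩ T = 1, UT = B), and let t ∈ T have centralizer exactly T. Then every element of the coset tU is conjugate to t in B: for each u ∈ U there is b ∈ B with b t b⁻¹ = t u. -/
theorem result {B : Type*} [Group B] [Finite B] (U T : Subgroup B) [U.Normal] (hU : Group.IsNilpotent ↥U) (hT : IsMulCommutative ↥T)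
    (hcompl : Subgroup.IsComplement' U T) (t : B) (ht : t ∈ T) (hreg : Subgroup.centralizer ({t} : Set B) = T) (u : B) (hu : u ∈ U) :
    ∃ b : B, b * t * b⁻¹ = t * u := by
  have hn : U.Normal := inferInstance
  let φ : U → U := fun x => ⟨t⁻¹ * x * t * (x : B)⁻¹,
    U.mul_mem (by simpa using hn.conj_mem _ x.2 t⁻¹) (U.inv_mem x.2)⟩
  have hinj : Function.Injective φ := by
    intro x y hxy
    have h1 : t⁻¹ * x * t * (x : B)⁻¹ = t⁻¹ * y * t * (y : B)⁻¹ := congrArg Subtype.val hxy
    have h2 : (y : B)⁻¹ * x ∈ T := by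
      rw [← hreg, Subgroup.mem_centralizer_iff]
      intro s hs
      rw [Set.mem_singleton_iff.1 hs]
      calc t * ((y : B)⁻¹ * x) = (y : B)⁻¹ * t * (t⁻¹ * y * t * (y : B)⁻¹) * x := by group
        _ = (y : B)⁻¹ * t * (t⁻¹ * x * t * (x : B)⁻¹) * x := by rw [h1]
        _ = (y : B)⁻¹ * x * t := by group
    have h3 : (y : B)⁻¹ * x ∈ U := U.mul_mem (U.inv_mem y.2) x.2
    have h4 : (y : B)⁻¹ * x = 1 := by
      have := hcompl.disjoint
      rw [Subgroup.disjoint_def] at this
      exact this h3 h2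
    exact Subtype.ext (inv_mul_eq_one.1 h4).symm
  obtain ⟨x, hx⟩ := (Finite.injective_iff_surjective.1 hinj) ⟨u, hu⟩
  have h1 : t⁻¹ * x * t * (x : B)⁻¹ = u := congrArg Subtype.val hx
  exact ⟨x, by rw [← h1]; group⟩

end Cfsg.Agent.S2521
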