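import Cfsg.Statements.S2522
import Cfsg.Agent.Cl.LevC

set_option autoImplicit false
open Cfsg

namespace Cfsg.Agent.S2522

/-- Let K be a field with at least four elements (finite or infinite), n ≥ 3, and J ∈ GL(n, K) the regular unipotent matrix (ones on the diagonal and the superdiagonal, zeros elsewhere). Then every non-scalar g ∈ GL(n, K) with det g = 1 is a product of two GL(n, K)-conjugates of J. -/
theorem result {K : Type*} [Field K] (hK : 4 ≤ Cardinal.mk K) (n : ℕ) (hn : 3 ≤ n) (J g : GL (Fin n) K)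
    (hJ : ∀ i j : Fin n, (J : Matrix (Fin n) (Fin n) K) i j = if i = j then 1 else if j.val = i.val + 1 then 1 else 0)
    (hg : ¬ ∃ c : K, (g : Matrix (Fin n) (Fin n) K) = c • (1 : Matrix (Fin n) (Fin n) K))
    (hdet : (g : Matrix (Fin n) (Fin n) K).det = 1) :
    ∃ x y : GL (Fin n) K, g = (x * J * x⁻¹) * (y * J * y⁻¹) := by
  obtain ⟨m, rfl⟩ : ∃ m, n = m + 3 := ⟨n - 3, by omega⟩
  obtain ⟨X, Y, hX, hY, e⟩ := Cl.Lev.exists_reg_mul hK (fun c h => hg ⟨c, h⟩) hdet
  have hJ' : Cl.Lev.Reg (J : Matrix (Fin (m + 3)) (Fin (m + 3)) K) := by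
    have : (J : Matrix (Fin (m + 3)) (Fin (m + 3)) K) = 1 + Cl.Lev.shift K (m + 3) := by
      ext i j
      rw [hJ, Matrix.add_apply, Matrix.one_apply, Cl.Lev.shift, Matrix.of_apply]
      split_ifs with h1 h2
      · subst h1; omega
      · simp
      · simp
      · simp
    exact this ▸ Cl.Lev.reg_shift _
  obtain ⟨x, hx⟩ := hJ'.isConj hX
  obtain ⟨y, hy⟩ := hJ'.isConj hY
  refine ⟨x, y, Units.ext ?_⟩
  simp only [Units.val_mul]
  rw [hx.eq, hy.eq, Units.mul_inv_cancel_right, Units.mul_inv_cancel_right, e]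

end Cfsg.Agent.S2522
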