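import Mathlib
import Cfsg.Statements.S2523
import Cfsg.Agent.Chev.TqEich

set_option autoImplicit false
open Cfsg

namespace Cfsg.Agent.S2523

/-- Let F be a finite field with at least 9 elements and let G be one of PSL(n, F) (n ≥ 2), PSp(2m, F) (m ≥ 2), PΩ(2m+1, F) (m ≥ 3, here q odd), PΩ⁺(2m, F) (m ≥ 4), or the Chevalley group of type G₂, F₄, E₆, E₇ or E₈ over F. Then G is the square of one of its conjugacy classes (Thompson's conjecture on products of conjugacy classes, not his conjecture on class sizes): there is a conjugacy class C of G with C·C = G, i.e. every element of G is a product of two elements of C. -/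
theorem result {F : Type*} [Field F] [Fintype F] (hF : 9 ≤ Fintype.card F) {G : Type*} [Group G] [Finite G]
    (hG : (∃ n : ℕ, 2 ≤ n ∧ Nonempty (G ≃* Matrix.ProjectiveSpecialLinearGroup (Fin n) F)) ∨
      (∃ m : ℕ, 2 ≤ m ∧ Nonempty (G ≃* Cfsg.PSp m F)) ∨
      (∃ m : ℕ, 3 ≤ m ∧ Odd (Fintype.card F) ∧ Nonempty (G ≃* Cfsg.POmega F (Cfsg.quadFormOdd m F))) ∨
      (∃ m : ℕ, 4 ≤ m ∧ Nonempty (G ≃* Cfsg.POmega F (Cfsg.quadFormPlus m F))) ∨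
      Nonempty (G ≃* ↥(Cfsg.Lie.chevG2.group F)) ∨ Nonempty (G ≃* ↥(Cfsg.Lie.chevF4.group F)) ∨
      Nonempty (G ≃* ↥(Cfsg.Lie.chevE6.group F)) ∨ Nonempty (G ≃* ↥(Cfsg.Lie.chevE7.group F)) ∨ Nonempty (G ≃* ↥(Cfsg.Lie.chevE8.group F))) :
    ∃ c : G, ∀ g : G, ∃ x y : G, g = (x * c * x⁻¹) * (y * c * y⁻¹) := by
  rcases hG with ⟨n, h, ⟨e⟩⟩ | ⟨n, h, ⟨e⟩⟩ | ⟨n, h, h', ⟨e⟩⟩ | ⟨n, h, ⟨e⟩⟩ | ⟨⟨e⟩⟩ | ⟨⟨e⟩⟩ | ⟨⟨e⟩⟩ | ⟨⟨e⟩⟩ | ⟨⟨e⟩⟩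
  exacts [(Chev.Tq.thSq_psl hF h).of_equiv e, (Chev.Tq.thSq_psp hF h).of_equiv e,
    (Chev.Tq.thSq_odd hF (by omega) h').of_equiv e, (Chev.Tq.thSq_plus hF (by omega)).of_equiv e,
    (Chev.Tq.thSq_G2 hF).of_equiv e, (Chev.Tq.thSq_F4 hF).of_equiv e, (Chev.Tq.thSq_E6 hF).of_equiv e,
    (Chev.Tq.thSq_E7 hF).of_equiv e, (Chev.Tq.thSq_E8 hF).of_equiv e]

end Cfsg.Agent.S2523
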