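import Mathlib
import Cfsg.Statements.S2524
import Cfsg.Agent.Cl.WeilCount
import Cfsg.Agent.Ch.Basic

set_option autoImplicit false
open Cfsg

namespace Cfsg.Agent.S2524

/-- Let F be a finite field of odd order q and G = Sp(2n, F) with n ≥ 2. Then G has exactly four irreducible complex characters of degree (q^n + 1)/2 or (q^n − 1)/2 (two of each), and every other non-principal irreducible character has degree at least (q^n − 1)(q^n − q)/(2(q + 1)). -/
theorem result {F : Type*} [Field F] [Fintype F] (hodd : Odd (Fintype.card F)) (n : ℕ) (hn : 2 ≤ n) :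
    Nat.card {χ : Cfsg.IrrCharacter ↥(Matrix.symplecticGroup (Fin n) F) // (χ : ↥(Matrix.symplecticGroup (Fin n) F) → ℂ) 1 = (((Fintype.card F) ^ n + 1 : ℕ) : ℂ) / 2} = 2 ∧
    Nat.card {χ : Cfsg.IrrCharacter ↥(Matrix.symplecticGroup (Fin n) F) // (χ : ↥(Matrix.symplecticGroup (Fin n) F) → ℂ) 1 = (((Fintype.card F) ^ n - 1 : ℕ) : ℂ) / 2} = 2 ∧
    ∀ χ : Cfsg.IrrCharacter ↥(Matrix.symplecticGroup (Fin n) F),
      (χ : ↥(Matrix.symplecticGroup (Fin n) F) → ℂ) 1 ≠ 1 →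
      (χ : ↥(Matrix.symplecticGroup (Fin n) F) → ℂ) 1 ≠ (((Fintype.card F) ^ n + 1 : ℕ) : ℂ) / 2 →
      (χ : ↥(Matrix.symplecticGroup (Fin n) F) → ℂ) 1 ≠ (((Fintype.card F) ^ n - 1 : ℕ) : ℂ) / 2 →
      (((Fintype.card F) ^ n - 1 : ℕ) : ℝ) * (((Fintype.card F) ^ n - Fintype.card F : ℕ) : ℝ) / (2 * ((Fintype.card F : ℕ) + 1 : ℝ)) ≤ ‖(χ : ↥(Matrix.symplecticGroup (Fin n) F) → ℂ) 1‖ := by
  have h2 : (2 : F) ≠ 0 := fun h => by
    have := FiniteField.even_card_of_char_two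
      (ringChar.eq_iff.2 ((CharP.charP_iff_prime_eq_zero Nat.prime_two).2 (by exact_mod_cast h)))
    obtain ⟨k, hk⟩ := hodd
    omega
  have key : ∀ (ε c : ℂ), ε * ε = 1 → 2 * c = Nat.card F ^ n + ε →
      Nat.card {χ : Cfsg.IrrCharacter ↥(Matrix.symplecticGroup (Fin n) F) //
        (χ : ↥(Matrix.symplecticGroup (Fin n) F) → ℂ) 1 = c} = 2 := fun ε c hε hc => by
    rw [← Cl.weil_card (Cl.spB_nondegenerate (m := n) (R := F)) Cl.spB_isAlt h2 Cl.sp_finrank_std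
      hn hε, ← hc]
    refine Nat.card_congr ⟨fun χ => ⟨⟨_, χ.1.2.comp_mulEquiv (Cl.spStdEquiv n F).symm⟩, by
      simpa using χ.2⟩, fun χ => ⟨⟨_, χ.1.2.comp_mulEquiv (Cl.spStdEquiv n F)⟩, by
      simpa using χ.2⟩, fun χ => ?_, fun χ => ?_⟩ <;> ext <;> simp
  have h1 : 1 ≤ Fintype.card F ^ n := Nat.one_le_pow _ _ Fintype.card_pos
  refine ⟨key 1 _ (by simp) (by simp; ring), key (-1) _ (by simp) (by simp [h1]; ring), ?_⟩
  rintro ⟨_, k, ρ, hρ, rfl⟩ h3 h4 h5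
  change ρ.character 1 ≠ _ at h3 h4 h5
  change _ ≤ ‖ρ.character 1‖
  rw [ρ.char_one] at h3 h4 h5 ⊢
  have h6 := Cl.weil_gap Cl.spB_nondegenerate Cl.spB_isAlt h2 Cl.sp_finrank_std hn
    ((Ch.isIrreducible_comp_iff ρ (Cl.spStdEquiv n F).symm.toMonoidHom
      (Cl.spStdEquiv n F).symm.surjective).2 hρ) (by exact_mod_cast h3) fun ε hε h => by
    rcases mul_self_eq_one_iff.1 hε with rfl | rfl
    · exact h4 (by rw [Nat.card_eq_fintype_card] at h; push_cast; linear_combination h / 2)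
    · exact h5 (by rw [Nat.card_eq_fintype_card] at h; push_cast [h1]; linear_combination h / 2)
  rw [Complex.norm_natCast, div_le_iff₀ (by positivity), mul_comm (Module.finrank _ _ : ℝ)]
  rw [Nat.card_eq_fintype_card] at h6
  exact_mod_cast h6

end Cfsg.Agent.S2524
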