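import Cfsg.Statements.S2525
import Cfsg.Agent.Chev.SsAdj
import Cfsg.Agent.S1062
import Cfsg.Agent.Chev.StData

set_option autoImplicit false
open Cfsg

namespace Cfsg.Agent.S2525

open Cfsg.Agent.Chev Cfsg.Agent.Chev.Adj Cfsg.Lie Cfsg.Lie.ChevalleyDatum

theorem aux3 : ∀ z : ZMod 3, z ^ 4 - z ^ 2 + 1 ≠ 0 := by decide

theorem dvd_PP_iff {r : ℕ} (hr : r.Prime) (r2 : r ≠ 2) {q : ℕ} (hq : (q : ZMod r) ≠ 0) (j : ℕ) :
    (r : ℤ) ∣ PP j q ↔ orderOf (q : ZMod r) ∈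
      ([[1, 2, 3], [1, 2, 4], [1, 2, 6], [8]].getD j [12] : List ℕ) := by
  have := Fact.mk hr
  rw [← ZMod.intCast_zmod_eq_zero_iff_dvd]
  set y : ZMod r := (q : ZMod r) with hy
  have h2 : (2 : ZMod r) ≠ 0 := fun h =>
    r2 ((Nat.prime_dvd_prime_iff_eq hr Nat.prime_two).1 ((ZMod.natCast_eq_zero_iff 2 r).1 h))
  have h1 : ∀ e, y ^ e - 1 = 0 ↔ orderOf y ∣ e := fun e => by
    rw [sub_eq_zero, orderOf_dvd_iff_pow_eq_one]
  have h3 : ∀ e, y ^ e + 1 = 0 ↔ orderOf y ∣ 2 * e ∧ ¬ orderOf y ∣ e := fun e => by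
    rw [← h1, ← h1]
    refine ⟨fun h => ⟨by linear_combination (y ^ e - 1) * h, fun h' => h2 (by linear_combination h - h')⟩,
      fun h => (mul_eq_zero.1 (show (y ^ e - 1) * (y ^ e + 1) = 0 by linear_combination h.1)).resolve_left h.2⟩
  have key : ∀ (P Q : ℕ → Prop), (∀ k, P k → k ∣ 24) → (∀ k, Q k → k ∣ 24) → (∀ k ≤ 24, P k ↔ Q k) →
      ∀ k, P k ↔ Q k := fun P Q hP hQ h k =>
    ⟨fun h' => (h k (Nat.le_of_dvd (by norm_num) (hP k h'))).1 h',
      fun h' => (h k (Nat.le_of_dvd (by norm_num) (hQ k h'))).2 h'⟩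
  match j with
  | 0 =>
    have := h3 1
    simp only [PP, pow_one] at this ⊢
    push_cast
    rw [← hy, mul_eq_zero, h1, this]
    exact key (fun k => k ∣ 3 ∨ k ∣ 2 * 1 ∧ ¬ k ∣ 1) (· ∈ [1, 2, 3])
      (fun k h => h.elim (·.trans (by norm_num)) (·.1.trans (by norm_num))) (by decide) (by decide) _
  | 1 =>
    simp only [PP]
    push_cast
    rw [← hy, h1]
    exact key (· ∣ 4) (· ∈ [1, 2, 4]) (fun k h => h.trans (by norm_num)) (by decide) (by decide) _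
  | 2 =>
    have := h1 1
    simp only [PP, pow_one] at this ⊢
    push_cast
    rw [← hy, mul_eq_zero, h3, this]
    exact key (fun k => (k ∣ 2 * 3 ∧ ¬ k ∣ 3) ∨ k ∣ 1) (· ∈ [1, 2, 6])
      (fun k h => h.elim (·.1.trans (by norm_num)) (·.trans (by norm_num))) (by decide) (by decide) _
  | 3 =>
    simp only [PP]
    push_cast
    rw [← hy, h3]
    exact key (fun k => k ∣ 2 * 4 ∧ ¬ k ∣ 4) (· ∈ [8]) (fun k h => h.1.trans (by norm_num))
      (by decide) (by decide) _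
  | j + 4 =>
    have : y ^ 4 - y ^ 2 + 1 = 0 ↔ y ^ 6 + 1 = 0 ∧ ¬ y ^ 4 - 1 = 0 := by
      refine ⟨fun h => ⟨by linear_combination (y ^ 2 + 1) * h, fun h' => ?_⟩, fun h =>
        (mul_eq_zero.1 (show (y ^ 2 + 1) * (y ^ 4 - y ^ 2 + 1) = 0 by linear_combination h.1)).resolve_left
          fun h' => h.2 (by linear_combination (y ^ 2 - 1) * h')⟩
      have h5 : ((3 : ℕ) : ZMod r) = 0 := by
        push_cast; linear_combination (y ^ 2 + 2) * h - (y ^ 2 + 1) * h'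
      obtain rfl := (Nat.prime_dvd_prime_iff_eq hr Nat.prime_three).1 ((ZMod.natCast_eq_zero_iff 3 r).1 h5)
      exact aux3 _ h
    simp only [PP]
    push_cast
    rw [← hy, this, h3, h1]
    exact key (fun k => (k ∣ 2 * 6 ∧ ¬ k ∣ 6) ∧ ¬ k ∣ 4) (· ∈ [12]) (fun k h => h.1.1.trans (by norm_num))
      (by decide) (by decide) _

variable {F : Type*} [Field F] [Fintype F] [CharP F 2] {r s : ℕ}

theorem card_ne_zero (hr : r.Prime) (r2 : r ≠ 2) : ((Fintype.card F : ℕ) : ZMod r) ≠ 0 := fun h => by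
  obtain ⟨n, -, hn⟩ := FiniteField.card F 2
  rw [ZMod.natCast_eq_zero_iff, hn] at h
  exact r2 ((Nat.prime_dvd_prime_iff_eq hr Nat.prime_two).1 (hr.dvd_of_dvd_pow h))

theorem mem_orders (hr : r.Prime) (r2 : r ≠ 2) (h : r ∣ Nat.card (chevF4.group F)) :
    orderOf ((Fintype.card F : ℕ) : ZMod r) ∈ [1, 2, 3, 4, 6, 8, 12] := by
  have h1 : ∀ e, r ∣ Fintype.card F ^ e - 1 → orderOf ((Fintype.card F : ℕ) : ZMod r) ∣ e := fun e h => by
    rw [orderOf_dvd_iff_pow_eq_one, ← Nat.cast_pow, ← Nat.cast_one, eq_comm,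
      ZMod.natCast_eq_natCast_iff, Nat.modEq_iff_dvd' (Nat.one_le_pow _ _ Fintype.card_pos)]
    exact h
  have h2 : ∀ e ∈ [2, 6, 8, 12], ∀ k, k ∣ e → k ∈ [1, 2, 3, 4, 6, 8, 12] := fun e he k hk =>
    (by decide : ∀ e ∈ [2, 6, 8, 12], ∀ k ∈ e.divisors, k ∈ [1, 2, 3, 4, 6, 8, 12]) e he k
      (Nat.mem_divisors.2 ⟨hk, by rintro rfl; simp at he⟩)
  rw [S1062.result rfl] at h
  simp only [hr.dvd_mul] at h
  rcases h with (((h | h) | h) | h) | h
  · exact absurd ((ZMod.natCast_eq_zero_iff _ _).2 (hr.dvd_of_dvd_pow h)) (card_ne_zero hr r2)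
  all_goals exact h2 _ (by simp) _ (h1 _ h)

omit [Fintype F] [CharP F 2] in
theorem inj_stProj : Function.Injective (chevF4.stProj F) := by
  rw [← MonoidHom.ker_eq_bot_iff, ker_stProj, center_stF4]

theorem coprime_two (hr : r.Prime) (r2 : r ≠ 2) : r.Coprime 2 :=
  (Nat.coprime_primes hr Nat.prime_two).2 r2

omit [Fintype F] [CharP F 2] in
theorem dvd_of_isConj {g : chevF4.group F} {χ : Multiplicative chevF4.Lat →* (AlgebraicClosure F)ˣ}
    (h : IsConj (fieldHom chevF4 (algebraMap F (AlgebraicClosure F)) g)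
      (chevF4.stProj _ (chevF4.torC _ χ))) {z : ℤ} (hz : χ ^ z = 1) : (orderOf g : ℤ) ∣ z := by
  obtain ⟨c, hc⟩ := h
  have h1 := hc.orderOf_eq
  rw [orderOf_injective _ (fieldHom_injective _ _)] at h1
  rw [h1, orderOf_dvd_iff_zpow_eq_one, ← map_zpow, ← map_zpow]
  exact (congrArg (fun χ => chevF4.stProj _ (chevF4.torC _ χ)) hz).trans (by simp)

theorem odd_adj (hr : r.Prime) (hs : s.Prime) (r2 : r ≠ 2) (s2 : s ≠ 2) (hrs : r ≠ s) :
    (∃ x : chevF4.group F, orderOf x = r * s) ↔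
      ∃ k < 5, (r : ℤ) ∣ PP k (Fintype.card F) ∧ (s : ℤ) ∣ PP k (Fintype.card F) := by
  refine ⟨fun ⟨x, hx⟩ => ?_, fun ⟨k, _, h1, h2⟩ => ?_⟩
  · obtain ⟨w, hw, χ, hχ, h⟩ := chevF4.exists_isConj_torC_group F (stTor_injective_F4 _) 2 x
      (hx ▸ (coprime_two hr r2).mul_left (coprime_two hs s2))
    obtain ⟨k, hk, h1, -⟩ := cases_F4 hw hχ
    have := dvd_of_isConj h h1
    rw [hx, Nat.cast_mul] at this
    exact ⟨k, hk, (Dvd.intro _ rfl).trans this, (Dvd.intro_left _ rfl).trans this⟩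
  · obtain ⟨w, hw, h3, -⟩ := exists_PP k
    obtain ⟨χ, hχ, e1⟩ := chevF4.exists_mem_twT F hw hr (h3 _ ▸ h1)
    obtain ⟨ψ, hψ, e2⟩ := chevF4.exists_mem_twT F hw hs (h3 _ ▸ h2)
    obtain ⟨g, hg⟩ := chevF4.exists_orderOf_of_mem_twT F (stTor_injective_F4 _) inj_stProj hw
      (mul_mem hχ hψ)
    exact ⟨g, by rw [hg, (Commute.all χ ψ).orderOf_mul_eq_mul_orderOf_of_coprime
      (by rw [e1, e2]; exact (Nat.coprime_primes hr hs).2 hrs), e1, e2]⟩

theorem two_adj (hs : s.Prime) (s2 : s ≠ 2) (hG : s ∣ Nat.card (chevF4.group F)) :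
    (¬ ∃ x : chevF4.group F, orderOf x = s * 2) ↔
      orderOf ((Fintype.card F : ℕ) : ZMod s) ∈ ({8, 12} : Finset ℕ) := by
  have hP := dvd_PP_iff hs s2 (card_ne_zero (F := F) hs s2)
  have hm := mem_orders hs s2 hG
  have hinj := stTor_injective_F4 (AlgebraicClosure F)
  refine ⟨fun h => ?_, fun h ⟨x, hx⟩ => ?_⟩
  · have key : ∀ w ∈ chevF4.stRoot.weyl, (∃ r, w r = r) →
        (s : ℤ) ∣ (chevF4.wm w - (Fintype.card F : ℤ) • 1).det →
          orderOf ((Fintype.card F : ℕ) : ZMod s) = 1 := by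
      rintro w hw ⟨r, hr⟩ hd
      obtain ⟨χ, hχ, e⟩ := chevF4.exists_mem_twT F hw hs hd
      by_contra h1
      refine h (e ▸ chevF4.exists_orderOf_mul_of_mem_twT F hinj inj_stProj 2 hw hχ (e ▸ hs.ne_zero) hr ?_)
      have h2 := hχ (chevF4.wt r)
      rw [chevF4.wl_wt hw, hr] at h2
      have h3 : orderOf (cv χ (chevF4.wt r)) ∣ s := by
        rw [orderOf_dvd_iff_pow_eq_one, ← cv_pow, ← e, pow_orderOf_eq_one, cv_one]
      refine orderOf_eq_one_iff.1 (((Nat.dvd_prime hs).1 h3).resolve_right fun h4 => h1 ?_)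
      rw [orderOf_eq_one_iff, ← Nat.cast_one, ZMod.natCast_eq_natCast_iff, ← h4, ← pow_eq_pow_iff_modEq,
        pow_one, ← h2]
    have h1 : orderOf ((Fintype.card F : ℕ) : ZMod s) ≠ 1 := fun h1 => by
      obtain ⟨ζ, hζ⟩ := exists_primitiveRoot_units (AlgebraicClosure F) (N := s) (by
        rw [Ne, CharP.cast_eq_zero_iff _ 2, Nat.prime_dvd_prime_iff_eq Nat.prime_two hs]; exact s2.symm)
      let e : chevF4.Lat →+ ℤ := Pi.evalAddMonoidHom (fun _ => ℤ) (nd 1)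
      have h2 : orderOf (chrExp ζ e) = s := by
        have := Fact.mk hs
        refine orderOf_eq_prime (chr_ext fun v => ?_) fun h => hζ.ne_one hs.one_lt ?_
        · rw [cv_pow, cv_chrExp, ← zpow_natCast, ← zpow_mul, mul_comm, zpow_mul, zpow_natCast,
            hζ.pow_eq_one, one_zpow, cv_one]
        · simpa [cv_chrExp, cv_one, e] using congrArg (cv · (Pi.single (nd 1) 1)) h
      refine h (h2 ▸ chevF4.exists_orderOf_mul_of_mem_twT F hinj inj_stProj 2 (one_mem _) (fun v => ?_)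
        (h2 ▸ hs.ne_zero) (r := ⟨0, by decide⟩) rfl ?_)
      · rw [wl_one, eq_comm, ← cv_pow]
        rw [orderOf_eq_one_iff, ← Nat.cast_one, ZMod.natCast_eq_natCast_iff, hζ.eq_orderOf] at h1
        rw [cv_pow, cv_chrExp, ← zpow_natCast, ← zpow_mul, mul_comm, zpow_mul, zpow_natCast,
          pow_eq_pow_iff_modEq.2 h1, pow_one]
      · rw [cv_chrExp, show e (chevF4.wt (⟨0, by decide⟩ : chevF4.Rt)) = 0 by decide +kernel, zpow_zero]
    obtain ⟨w1, hw1, d1, f1⟩ := exists_PP 1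
    obtain ⟨w2, hw2, d2, f2⟩ := exists_PP 2
    obtain ⟨w3, hw3, d3, f3⟩ := exists_three
    have k1 := mt (key w1 hw1 (f1 (by simp))) h1
    have k2 := mt (key w2 hw2 (f2 (by simp))) h1
    have k3 := mt (key w3 hw3 f3) h1
    rw [d1, hP] at k1
    rw [d2, hP] at k2
    have k4 : orderOf ((Fintype.card F : ℕ) : ZMod s) ≠ 3 := fun h => k3 (by
      rw [d3]
      refine Dvd.dvd.mul_right ?_ _
      rw [← ZMod.intCast_zmod_eq_zero_iff_dvd]
      push_cast
      rw [← h, pow_orderOf_eq_one, sub_self])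
    revert hm k1 k2 k4
    generalize orderOf ((Fintype.card F : ℕ) : ZMod s) = k
    revert k
    decide
  · have h1 : orderOf (x ^ 2) = s := by rw [orderOf_pow' _ two_ne_zero, hx]; simp
    have h2 : orderOf (x ^ s) = 2 := by rw [orderOf_pow' _ hs.ne_zero, hx]; simp [hs.ne_zero]
    obtain ⟨w, hw, χ, hχ, hc⟩ := chevF4.exists_isConj_torC_group F hinj 2 (x ^ 2) (h1 ▸ coprime_two hs s2)
    obtain ⟨c, hc'⟩ := isConj_iff.1 hc
    obtain ⟨r, hr⟩ := chevF4.exists_root_of_commute (χ := χ)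
      (g := c * fieldHom chevF4 (algebraMap F _) (x ^ s) * c⁻¹)
      (fun e => by
        rw [conj_eq_one_iff, map_eq_one_iff _ (fieldHom_injective _ _)] at e
        simp [e] at h2)
      (by rw [conj_mul, ← map_mul, ← sq, ← h2, pow_orderOf_eq_one, map_one, mul_one, mul_inv_cancel])
      (by rw [← hc']; exact ((Commute.pow_pow_self x 2 s).map _).conj c)
    obtain ⟨v, hv, hd⟩ := chevF4.exists_weyl_dom r
    rw [← stRoot_weyl] at hv
    have h3 : ∀ u, chevF4.wl v⁻¹ (chevF4.wl v u) = u := fun u => by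
      rw [← chevF4.wl_mul (inv_mem hv) hv, inv_mul_cancel, wl_one]
    obtain ⟨k, hk, h4, h5⟩ := cases_F4 (mul_mem (mul_mem hv hw) (inv_mem hv))
      (χ := chrComp χ (chevF4.wl v⁻¹)) (q := Fintype.card F) (fun u => by
        rw [cv_chrComp, cv_chrComp, chevF4.wl_mul (mul_mem hv hw) (inv_mem hv), chevF4.wl_mul hv hw, h3, hχ])
    have h6 : ∀ z : ℤ, chrComp χ (chevF4.wl v⁻¹) ^ z = 1 → (s : ℤ) ∣ z := fun z hz =>
      h1 ▸ dvd_of_isConj hc (chr_ext fun u => by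
        rw [cv_zpow, ← h3 u, ← cv_chrComp, ← cv_zpow, hz, cv_one, cv_one])
    rcases h5 with h5 | h5
    · have := (hP k).1 (h6 _ h4)
      revert this h
      generalize orderOf ((Fintype.card F : ℕ) : ZMod s) = l
      interval_cases k <;> revert l <;> decide
    · have := h6 _ (h5 _ hd (by rw [cv_chrComp, ← chevF4.wl_wt hv, h3, hr]))
      exact s2 ((Nat.prime_dvd_prime_iff_eq hs Nat.prime_two).1
        (hs.dvd_of_dvd_pow (n := 3) (by exact_mod_cast this)))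



/-- Let F be a finite field with q = 2^n elements and G = F₄(F). For an odd prime r let e(r, q) be the multiplicative order of q modulo r. Two distinct primes r, s dividing the order of G are non-adjacent in the prime graph of G (no element of order rs) if and only if, up to swapping r and s, either r = 2 and e(s, q) ∈ {8, 12}, or r, s are both odd with k = e(r, q) < l = e(s, q) and one of: l ∈ {8, 12}; l = 6 and k ∈ {3, 4}; l = 4 and k = 3. -/
theorem result {F : Type*} [Field F] [Fintype F] (n : ℕ) (hn : 1 ≤ n) (hF : Fintype.card F = 2 ^ n)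
    (r s : ℕ) (hr : r.Prime) (hs : s.Prime) (hrs : r ≠ s) (hrG : r ∣ Nat.card ↥(Cfsg.Lie.chevF4.group F)) (hsG : s ∣ Nat.card ↥(Cfsg.Lie.chevF4.group F)) :
    (¬ ∃ x : ↥(Cfsg.Lie.chevF4.group F), orderOf x = r * s) ↔
      ((r = 2 ∧ orderOf ((Fintype.card F : ℕ) : ZMod s) ∈ ({8, 12} : Finset ℕ)) ∨ (s = 2 ∧ orderOf ((Fintype.card F : ℕ) : ZMod r) ∈ ({8, 12} : Finset ℕ)) ∨
       (r ≠ 2 ∧ s ≠ 2 ∧
         ((orderOf ((Fintype.card F : ℕ) : ZMod r) < orderOf ((Fintype.card F : ℕ) : ZMod s) ∧ (orderOf ((Fintype.card F : ℕ) : ZMod s) ∈ ({8, 12} : Finset ℕ) ∨ (orderOf ((Fintype.card F : ℕ) : ZMod s) = 6 ∧ orderOf ((Fintype.card F : ℕ) : ZMod r) ∈ ({3, 4} : Finset ℕ)) ∨ (orderOf ((Fintype.card F : ℕ) : ZMod s) = 4 ∧ orderOf ((Fintype.card F : ℕ) : ZMod r) = 3))) ∨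
          (orderOf ((Fintype.card F : ℕ) : ZMod s) < orderOf ((Fintype.card F : ℕ) : ZMod r) ∧ (orderOf ((Fintype.card F : ℕ) : ZMod r) ∈ ({8, 12} : Finset ℕ) ∨ (orderOf ((Fintype.card F : ℕ) : ZMod r) = 6 ∧ orderOf ((Fintype.card F : ℕ) : ZMod s) ∈ ({3, 4} : Finset ℕ)) ∨ (orderOf ((Fintype.card F : ℕ) : ZMod r) = 4 ∧ orderOf ((Fintype.card F : ℕ) : ZMod s) = 3)))))) := by

  have hc : CharP F 2 := by
    obtain ⟨n, rfl⟩ := Nat.exists_eq_add_of_le' hn
    exact charP_of_card_eq_prime_pow hF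
  have hm := fun (r : ℕ) (hr : r.Prime) h2 hG => mem_orders (F := F) hr h2 hG
  by_cases r2 : r = 2
  · subst r2
    have := hm s hs hrs.symm hsG
    rw [mul_comm, two_adj hs hrs.symm hsG]
    simp [hrs.symm]
  by_cases s2 : s = 2
  · subst s2
    rw [two_adj hr r2 hrG]
    simp [r2]
  rw [odd_adj hr hs r2 s2 hrs]
  have h1 := hm r hr r2 hrG
  have h2 := hm s hs s2 hsG
  simp only [dvd_PP_iff hr r2 (card_ne_zero hr r2), dvd_PP_iff hs s2 (card_ne_zero hs s2), r2, s2,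
    false_and, false_or, ne_eq, not_false_eq_true, true_and]
  revert h2
  generalize orderOf ((Fintype.card F : ℕ) : ZMod s) = l
  revert l h1
  generalize orderOf ((Fintype.card F : ℕ) : ZMod r) = k
  revert k
  decide


end Cfsg.Agent.S2525
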