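import Cfsg.Statements.S2536
import Cfsg.Agent.Sym.Hall2

set_option autoImplicit false
open Cfsg

namespace Cfsg.Agent.S2536

/-- Let `π` be a set of primes and `n` a natural number such that at least two primes of `π` divide `n!` but not every prime dividing `n!` lies in `π`. Then the symmetric group of degree `n` has a Hall `π`-subgroup if and only if either `n` is prime and the primes of `π` dividing `n!` are exactly the primes smaller than `n` (a point stabilizer is then such a subgroup), or `n ∈ {7, 8}` and the primes of `π` dividing `n!` are exactly 2 and 3. -/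
theorem result (n : ℕ) (π : Set ℕ)
    (h2 : ∃ r s : ℕ, r.Prime ∧ s.Prime ∧ r ≠ s ∧ r ∈ π ∧ s ∈ π ∧ r ≤ n ∧ s ≤ n)
    (hns : ∃ r : ℕ, r.Prime ∧ r ≤ n ∧ r ∉ π) :
    Cfsg.IsEPiGroup π (Equiv.Perm (Fin n)) ↔
      ((n.Prime ∧ ∀ r : ℕ, r.Prime → r ≤ n → (r ∈ π ↔ r < n)) ∨
       ((n = 7 ∨ n = 8) ∧ ∀ r : ℕ, r.Prime → r ≤ n → (r ∈ π ↔ (r = 2 ∨ r = 3)))) := by
  obtain ⟨r, s, hr, hs, hrs, hrπ, hsπ, hrn, hsn⟩ := h2
  have hr2 := hr.two_le
  have hs2 := hs.two_le
  constructor
  · intro h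
    obtain ⟨H, hH⟩ := Sym.isEPiGroup_alternatingGroup h
    rcases Sym.hall_main hH.map_subtype hr hs hrs hrπ hsπ (by simpa) (by simpa) with
      h | ⟨a, h | h, -⟩
    · obtain ⟨t, ht, htn, ht'⟩ := hns
      exact absurd (h t ht (by simpa)) ht'
    · exact Or.inl (by simpa using h.2)
    · rw [Fintype.card_fin] at h
      exact Or.inr ⟨by omega, h.2⟩
  have key : ∀ (H : Subgroup (Equiv.Perm (Fin n))) (m k : ℕ), Nat.card H = m →
      m * k = n.factorial → GT.IsPiNum π m → GT.IsPiNum πᶜ k →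
      IsEPiGroup π (Equiv.Perm (Fin n)) := fun H m k h1 h2 h3 h4 => by
    refine ⟨H, GT.isPiHall_iff.2 ⟨h1 ▸ h3, ?_⟩⟩
    have h5 := H.card_mul_index
    rw [Nat.card_perm, Nat.card_eq_fintype_card (α := Fin n), Fintype.card_fin, ← h2, h1] at h5
    rwa [Nat.eq_of_mul_eq_mul_left (h1 ▸ Nat.card_pos) h5]
  have h23 : ∀ {m : ℕ}, (∀ r : ℕ, r.Prime → r ≤ n → (r ∈ π ↔ (r = 2 ∨ r = 3))) → 7 ≤ n →
      ∀ a b : ℕ, GT.IsPiNum π (2 ^ a * 3 ^ b) ∧ GT.IsPiNum πᶜ (5 * 7) := fun h h7 a b =>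
    ⟨(GT.isPiNum_prime_pow Nat.prime_two ((h 2 Nat.prime_two (by omega)).2 (by omega)) a).mul
      (GT.isPiNum_prime_pow Nat.prime_three ((h 3 Nat.prime_three (by omega)).2 (by omega)) b),
    (GT.isPiNum_of_prime_mem Nat.prime_five fun h5 => by
      have := (h 5 Nat.prime_five (by omega)).1 h5; omega).mul
      (GT.isPiNum_of_prime_mem (by norm_num) fun h5 => by
        have := (h 7 (by norm_num) (by omega)).1 h5; omega)⟩
  rintro (⟨hn, h⟩ | ⟨rfl | rfl, h⟩)
  · obtain ⟨m, rfl⟩ : ∃ m, n = m + 1 := ⟨n - 1, by omega⟩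
    refine key (MulAction.stabilizer _ (0 : Fin (m + 1))) m.factorial (m + 1) ?_
      (by rw [Nat.factorial_succ, mul_comm])
      (Sym.isPiNum_factorial fun p hp hle => (h p hp (by omega)).2 (by omega))
      (GT.isPiNum_of_prime_mem hn fun h1 => lt_irrefl _ ((h _ hn le_rfl).1 h1))
    have h5 := (MulAction.stabilizer (Equiv.Perm (Fin (m + 1))) (0 : Fin (m + 1))).card_mul_index
    rw [Sym.index_stabilizer_perm, Nat.card_perm, Nat.card_eq_fintype_card (α := Fin (m + 1)),
      Fintype.card_fin, Nat.factorial_succ, mul_comm] at h5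
    exact Nat.eq_of_mul_eq_mul_left (Nat.succ_pos m) h5
  · refine key (Sym.fiberStab fun x : Fin 7 => decide (x < 3)) (2 ^ 4 * 3 ^ 2) (5 * 7) ?_ (by decide)
      (h23 (m := 0) h le_rfl 4 2).1 (h23 (m := 0) h le_rfl 4 2).2
    rw [Sym.card_fiberStab]
    simp only [Nat.card_eq_fintype_card]
    decide
  · refine key (Sym.partStab fun x : Fin 8 => decide (x < 4)) (2 ^ 7 * 3 ^ 2) (5 * 7) ?_ (by decide)
      (h23 (m := 0) h (by norm_num) 7 2).1 (h23 (m := 0) h (by norm_num) 7 2).2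
    have h1 := Sym.card_partStab_dvd (f := fun x : Fin 8 => decide (x < 4)) (by decide)
    have h2 := Sym.card_fiberStab fun x : Fin 8 => decide (x < 4)
    have h3 : (∏ i : Bool, (Nat.card {x : Fin 8 // decide (x < 4) = i}).factorial) = 576 := by
      simp only [Nat.card_eq_fintype_card]
      decide
    rw [h3] at h1 h2
    have h4 := GT.card_lt_of_lt (lt_of_le_of_ne
      (Sym.fiberStab_le_partStab fun x : Fin 8 => decide (x < 4)) fun h => by
        have : finRotate 8 ^ 4 ∈ Sym.partStab fun x : Fin 8 => decide (x < 4) :=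
          Sym.mem_partStab.2 (by decide)
        rw [← h] at this
        exact absurd (this 0) (by decide))
    obtain ⟨c, hc⟩ := Subgroup.card_dvd_of_le
      (Sym.fiberStab_le_partStab fun x : Fin 8 => decide (x < 4))
    have h5 := Nat.le_of_dvd (by decide) h1
    rw [hc, h2] at h4 h5 ⊢
    have : c = 2 := by
      simp [Nat.factorial] at h5
      omega
    rw [this]; norm_num

end Cfsg.Agent.S2536
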