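import Mathlib
import Cfsg.Statements.S2556
import Cfsg.Agent.Chev.Sz2TA
import Cfsg.Agent.Chev.SzLie
import Cfsg.Agent.Chev.SzAut
import Cfsg.Agent.GT.PGroupElemAb
-- import your own Cfsg.Agent.* helpers here

set_option autoImplicit false
open Cfsg

namespace Cfsg.Agent.S2556

open Cfsg.Agent.Chev.Sz Cfsg.Agent.Chev.Sz2

/-- Let S be a Sylow 2-subgroup of the Suzuki group Sz(q), q = 2ⁿ with n = 2m + 1 ≥ 3 (realised as 4 × 4 matrices over the field with q elements). Then the largest normal 2-subgroup of the automorphism group of S is elementary abelian of order 2^(n²), and the automorphism group of S has order 2^(n²) · n · (q − 1). -/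
theorem result {S : Type*} [Group S] [Finite S] (m : ℕ) (hm : 1 ≤ m)
    {F : Type*} [Field F] [Fintype F] (hF : Fintype.card F = 2 ^ (2 * m + 1))
    (P : Sylow 2 ↥(Cfsg.Lie.Sz F (2 ^ (m + 1)))) (hS : Nonempty (S ≃* ↥(P : Subgroup ↥(Cfsg.Lie.Sz F (2 ^ (m + 1)))))) :
    Cfsg.IsElementaryAbelian 2 (Cfsg.pCore 2 (MulAut S)) ∧ Nat.card ↥(Cfsg.pCore 2 (MulAut S)) = 2 ^ ((2 * m + 1) ^ 2) ∧
      Nat.card (MulAut S) = 2 ^ ((2 * m + 1) ^ 2) * ((2 * m + 1) * (2 ^ (2 * m + 1) - 1)) := by
  have := SzF.of_card hm hF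
  obtain ⟨e⟩ := hS
  have e1 : P ≃* (P.mapSurjective (f := (szEquiv F m).symm.toMonoidHom)
      (szEquiv F m).symm.surjective) := (szEquiv F m).symm.subgroupMap _
  have e2 : MulAut S ≃* MulAut (TA (thE F : F →+* F)) := MulAut.congr
    (((e.trans e1).trans (Sylow.equiv _ (sylowU F m))).trans (TA.equivSylU F m).symm)
  have h1 := thE_ne_one F
  have h4 := thE_pow_four_ne_one F
  have hs : Function.Surjective fun x => x * thE F x := mul_th_surjective
  have h2 := TA.pCore_mulAut h1 h4 hs (by rw [card_ringEquiv F]; exact odd_two_mul_add_one m)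
  rw [← GT.map_pCore_equiv e2] at h2
  have h3 := TA.isElementaryAbelian_range_cenAut (θ := thE F)
  rw [← h2] at h3
  refine ⟨h3.of_map e2.injective, ?_, ?_⟩
  · rw [← Subgroup.card_map_of_injective
      (f := (e2 : MulAut S →* MulAut (TA (thE F : F →+* F)))) e2.injective, h2,
      TA.card_range_cenAut, card_ringEquiv F, card_F F, ← pow_mul, sq]
  · rw [Nat.card_congr e2.toEquiv, TA.card_mulAut h1 h4 hs, card_ringEquiv F, card_F F, ← pow_mul, sq]

end Cfsg.Agent.S2556
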