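import Mathlib
import Cfsg.Statements.S2557
import Cfsg.Agent.Cl.ClassTwoD

set_option autoImplicit false
open Cfsg

namespace Cfsg.Agent.S2557

/-- The number of conjugacy classes of Sp(2n,q), q even: for F a finite field of even order q and n ≥ 1, the number k of conjugacy classes of Sp(2n,F) satisfies q^n ≤ k ≤ 15.2·q^n. -/
theorem result {F : Type*} [Field F] [Fintype F] (heven : Even (Fintype.card F)) (n : ℕ) (hn : 1 ≤ n) :
    Fintype.card F ^ n ≤ Nat.card (ConjClasses (Matrix.symplecticGroup (Fin n) F)) ∧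
      5 * Nat.card (ConjClasses (Matrix.symplecticGroup (Fin n) F)) ≤ 76 * Fintype.card F ^ n := by
  have h2 : CharP F 2 := by
    obtain ⟨p, hp⟩ := CharP.exists F
    obtain ⟨k, h1, h3⟩ := FiniteField.card F p
    rw [h3, Nat.even_pow] at heven
    exact (h1.even_iff.1 heven.1) ▸ hp
  refine ⟨?_, Cl.Two.card_classes_sp_two_le n⟩
  rw [← Cl.SpO.card_ss_classes_sp (F := F) 2 n]
  exact Finite.card_subtype_le _

end Cfsg.Agent.S2557
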