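import Mathlib
import Cfsg.Statements.S2559
import Cfsg.Agent.Cl.ClassTwoE

set_option autoImplicit false
open Cfsg

namespace Cfsg.Agent.S2559

/-- The number of conjugacy classes of the full orthogonal groups O⁺(2n,q) and O⁻(2n,q), q even, 2n ≥ 4: for F a finite field of even order q and n ≥ 2, the number k of conjugacy classes of the isometry group of the hyperbolic quadratic form Σ xᵢyᵢ on F^{2n}, and likewise of the elliptic form Σ xᵢyᵢ + (z₁² + a z₁z₂ + b z₂²) with anisotropic binary part, satisfies q^n/2 ≤ k ≤ 15·q^n. -/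
theorem result {F : Type*} [Field F] [Fintype F] (heven : Even (Fintype.card F)) (n : ℕ) (hn : 2 ≤ n) (a b : F) (hab : ∀ z₁ z₂ : F, z₁ ^ 2 + a * z₁ * z₂ + b * z₂ ^ 2 = 0 → z₁ = 0 ∧ z₂ = 0) :
    (Fintype.card F ^ n ≤ 2 * Nat.card (ConjClasses ↥(Cfsg.isometryGroup F (Cfsg.quadFormPlus n F))) ∧
      Nat.card (ConjClasses ↥(Cfsg.isometryGroup F (Cfsg.quadFormPlus n F))) ≤ 15 * Fintype.card F ^ n) ∧
    (Fintype.card F ^ n ≤ 2 * Nat.card (ConjClasses ↥(Cfsg.isometryGroup F (Cfsg.quadFormMinus (n - 1) F a b))) ∧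
      Nat.card (ConjClasses ↥(Cfsg.isometryGroup F (Cfsg.quadFormMinus (n - 1) F a b))) ≤ 15 * Fintype.card F ^ n) := by
  have h2 : CharP F 2 := by
    obtain ⟨p, hp⟩ := CharP.exists F
    obtain ⟨k, h1, h3⟩ := FiniteField.card F p
    rw [h3, Nat.even_pow] at heven
    exact (h1.even_iff.1 heven.1) ▸ hp
  obtain ⟨m, rfl⟩ : ∃ m, n = m + 2 := ⟨n - 2, by omega⟩
  have e1 := FG.card_conjClasses_congr (Cl.omatEquiv (Cl.quad_plus (m + 2) F))
  have e2 := FG.card_conjClasses_congr (Cl.omatEquiv (Cl.quad_minus (m + 1) F a b))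
  have h3 := Cl.o_minus_nondeg (m := m + 1) hab
  exact ⟨⟨(Cl.Two.pow_le_card_classes_two Cl.quad_plus_nondeg Cl.o_finrank_plus).trans_eq
      (congrArg _ e1.symm), e1.trans_le
      (Cl.Two.card_classes_o_two_le Cl.quad_plus_nondeg Cl.o_finrank_plus)⟩,
    (Cl.Two.pow_le_card_classes_two h3 Cl.o_finrank_minus).trans_eq (congrArg _ e2.symm),
    e2.trans_le (Cl.Two.card_classes_o_two_le h3 (n := m + 2) Cl.o_finrank_minus)⟩

end Cfsg.Agent.S2559
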