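import Mathlib
import Cfsg.Statements.S2560
import Cfsg.Agent.Cl.ClassSpONumD

set_option autoImplicit false
open Cfsg

namespace Cfsg.Agent.S2560

/-- The number of conjugacy classes of Ω(2n+1,q), q odd, n ≥ 2: for F a finite field of odd order q, the number k of conjugacy classes of the commutator subgroup of the isometry group of the quadratic form x₀² + Σ xᵢyᵢ on F^{2n+1} satisfies q^n/2 ≤ k ≤ 7.3·q^n. -/
theorem result {F : Type*} [Field F] [Fintype F] (hodd : Odd (Fintype.card F)) (n : ℕ) (hn : 2 ≤ n) :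
    Fintype.card F ^ n ≤ 2 * Nat.card (ConjClasses ↥(Cfsg.Omega F (Cfsg.quadFormOdd n F))) ∧
      10 * Nat.card (ConjClasses ↥(Cfsg.Omega F (Cfsg.quadFormOdd n F))) ≤ 73 * Fintype.card F ^ n := by
  have h2 := Cl.o_two_ne_zero_of_odd_card hodd
  obtain ⟨m, rfl⟩ : ∃ m, n = m + 2 := ⟨n - 2, by omega⟩
  have e1 := FG.card_conjClasses_congr (Cl.omegaEquivOG (Cl.quad_odd (m + 2) F))
  have hQ := Cl.quad_odd_nondeg (m := m + 2) h2
  have := Cl.SpO.finite_aut (F := F) (V := Unit ⊕ (Fin (m + 2) ⊕ Fin (m + 2)) → F)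
  have h3 := (Cl.SpO.two_mul_pow_le_card_classes_odd h2 (m + 2)).trans
    (FG.card_conjClasses_le_index_mul (commutator _))
  rw [Cl.index_commutator_OG_of_two_ne_zero hQ h2 (by rw [Cl.o_finrank_odd]; omega), ← e1] at h3
  exact ⟨Nat.le_of_mul_le_mul_left (h3.trans_eq (mul_assoc 2 2 _)) two_pos,
    (congrArg _ e1).trans_le (Cl.SpO.card_classes_omega_odd_le h2 hQ Cl.o_finrank_odd)⟩

end Cfsg.Agent.S2560
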