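import Mathlib
import Cfsg.Statements.S2648
import Cfsg.Agent.Cl.SpSylow
-- import your own Cfsg.Agent.* helpers here

set_option autoImplicit false
open Cfsg

namespace Cfsg.Agent.S2648

/-- Let q be odd, F a field with q elements and n ≥ 1. A Sylow 2-subgroup R of the symplectic group Sp_{2n}(F) has derived length exactly k + 1, where 2^k ≤ 2n < 2^{k+1}: the (k+1)-st term of its derived series is trivial and the k-th is not. -/
theorem result {F : Type*} [Field F] [Fintype F] [DecidableEq F] (q : ℕ) (hF : Fintype.card F = q) (hq : Odd q) (n : ℕ) (hn : 1 ≤ n) (R : Sylow 2 ↥(Matrix.symplecticGroup (Fin n) F)) : derivedSeries ↥(R : Subgroup ↥(Matrix.symplecticGroup (Fin n) F)) (Nat.log 2 (2 * n) + 1) = ⊥ ∧ derivedSeries ↥(R : Subgroup ↥(Matrix.symplecticGroup (Fin n) F)) (Nat.log 2 (2 * n)) ≠ ⊥ := by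
--PROOF--
  have hF' : Odd (Nat.card F) := by rwa [Nat.card_eq_fintype_card, hF]
  have hlog : Nat.log 2 (2 * n) = Nat.log 2 n + 1 := by
    rw [mul_comm, Nat.log_mul_base one_lt_two (by omega)]
  rw [hlog]
  constructor
  · obtain ⟨T⟩ : Nonempty (Sylow 2 (Equiv.Perm (Fin n))) := inferInstance
    obtain ⟨k, hk, ⟨e⟩⟩ := Cl.sp_sylow_two_wr_std hF' n T R
    have hT := Cl.wr_derivedSeries_perm_eq_bot _ T.isPGroup'
    rw [Nat.card_fin] at hT
    exact Cl.wr_derivedSeries_eq_bot_of_surjective e.toMonoidHom e.surjective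
      (Cl.wr_derivedSeries_eq_bot (a := 2) (b := Nat.log 2 n) (Cl.quat_derivedSeries_two _) hT)
  · intro h
    obtain ⟨R₀, hR₀, hne⟩ := Cl.sp_exists_two_subgroup_derivedSeries_ne_bot hF' (Nat.log 2 n)
    obtain ⟨r, hr⟩ := Nat.exists_eq_add_of_le (Nat.pow_log_le_self 2 (show n ≠ 0 by omega))
    obtain ⟨e⟩ := Cl.sp_nonempty_equiv (Cl.spProd_nondegenerate
      (Cl.spB_nondegenerate (m := 2 ^ Nat.log 2 n) (R := F)) (Cl.spB_nondegenerate (m := r)))
      (Cl.spProd_isAlt Cl.spB_isAlt Cl.spB_isAlt) (m := n) (by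
        rw [Module.finrank_prod, Cl.sp_finrank_std, Cl.sp_finrank_std]; omega)
    obtain ⟨f, hf⟩ : ∃ f : R₀ →* Matrix.symplecticGroup (Fin n) F, Function.Injective f :=
      ⟨e.toMonoidHom.comp ((Cl.spProdHom _ _).comp ((MonoidHom.inl _ _).comp R₀.subtype)),
        e.injective.comp (Cl.spProdHom_injective.comp
          fun _ _ h => Subtype.ext (Prod.ext_iff.1 h).1)⟩
    obtain ⟨R', hR'⟩ := (hR₀.of_equiv (MonoidHom.ofInjective hf)).exists_le_sylow
    obtain ⟨e'⟩ := Cl.wr_nonempty_sylow_equiv (MulEquiv.refl _) R' R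
    refine hne (Cl.wr_derivedSeries_eq_bot_of_injective (e'.toMonoidHom.comp
      ((Subgroup.inclusion hR').comp (MonoidHom.ofInjective hf).toMonoidHom)) ?_ h)
    exact e'.injective.comp ((Subgroup.inclusion_injective hR').comp
      (MonoidHom.ofInjective hf).injective)

end Cfsg.Agent.S2648
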