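import Mathlib
import Cfsg.Statements.S2808
import Cfsg.Agent.S2988
import Cfsg.Agent.GT.PGroupElemAb

set_option autoImplicit false
universe u
open Cfsg

namespace Cfsg.Agent.S2808

/-- Let p be a prime and S a finite p-group with J(S) generated by the abelian subgroups of largest order, Z(J(S)) its centre and J̃(S) = C_S(Z(J(S))). Put S₀ = [Φ(S), S]·Φ(Φ(S)) if p = 2, S₀ = [[Φ(S), S], S]·Φ(Φ(S)) if p = 3, and S₀ = [Φ(S), S]·℧¹(S) if p > 3. If [Z(J(S)), S] ≠ 1 or S₀ ≠ 1, then S has nontrivial characteristic subgroups S₁ ≤ Z(S) and S₂ ≤ J̃(S), with S₂ characteristic in J̃(S), such that in every finite group G containing S as a Sylow p-subgroup with C_G(O_p(G)) ≤ O_p(G), S in exactly one maximal subgroup of G, and G/K ≅ PSL₂(p^n) for some normal K and n ≥ 1, at least one of S₁, S₂ is normal. -/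
theorem result {S : Type u} [Group S] [Finite S] {p : ℕ} [Fact p.Prime] (hS : IsPGroup p S) (S₀ : Subgroup S) (hS₀ : S₀ = if p = 2 then ⁅frattini S, (⊤ : Subgroup S)⁆ ⊔ (frattini ↥(frattini S)).map (frattini S).subtype else if p = 3 then ⁅⁅frattini S, (⊤ : Subgroup S)⁆, (⊤ : Subgroup S)⁆ ⊔ (frattini ↥(frattini S)).map (frattini S).subtype else ⁅frattini S, (⊤ : Subgroup S)⁆ ⊔ Cfsg.powerClosure p 1 (⊤ : Subgroup S)) (h : ⁅Cfsg.thompsonSubgroupA S ⊓ Subgroup.centralizer (Cfsg.thompsonSubgroupA S : Set S), (⊤ : Subgroup S)⁆ ≠ ⊥ ∨ S₀ ≠ ⊥) : ∃ S₁ S₂ : Subgroup S, S₁ ≠ ⊥ ∧ S₂ ≠ ⊥ ∧ S₁.Characteristic ∧ S₂.Characteristic ∧ S₁ ≤ Subgroup.center S ∧ S₂ ≤ Subgroup.centralizer ((Cfsg.thompsonSubgroupA S ⊓ Subgroup.centralizer (Cfsg.thompsonSubgroupA S : Set S) : Subgroup S) : Set S) ∧ (S₂.subgroupOf (Subgroup.centralizer ((Cfsg.thompsonSubgroupA S ⊓ Subgroup.centralizer (Cfsg.thompsonSubgroupA S : Set S) : Subgroup S) : Set S))).Characteristic ∧ ∀ (G : Type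 u) [Group G] [Finite G] (τ : S →* G), Function.Injective τ → (∃ P : Sylow p G, (P : Subgroup G) = τ.range) → Subgroup.centralizer (Cfsg.pCore p G : Set G) ≤ Cfsg.pCore p G → (∃! M : Subgroup G, IsCoatom M ∧ τ.range ≤ M) → (∃ (K : Subgroup G) (_ : K.Normal) (F : Type) (_ : Field F) (_ : Fintype F) (n : ℕ), 1 ≤ n ∧ Fintype.card F = p ^ n ∧ Nonempty (G ⧸ K ≃* Matrix.ProjectiveSpecialLinearGroup (Fin 2) F)) → (S₁.map τ).Normal ∨ (S₂.map τ).Normal := by
  classical
  have hnt : Nontrivial S := by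
    by_contra hn
    have hsub : Subsingleton S := not_nontrivial_iff_subsingleton.mp hn
    rcases h with h | h
    · exact h (Subsingleton.elim _ _)
    · exact h (Subsingleton.elim _ _)
  have hp : p.Prime := Fact.out
  have hcomm : ∀ A : Subgroup S, A ≤ Subgroup.center S → ⁅A, (⊤ : Subgroup S)⁆ = ⊥ := by
    intro A hA
    rw [Subgroup.commutator_eq_bot_iff_le_centralizer]
    intro x hx
    rw [Subgroup.mem_centralizer_iff]
    intro y _
    exact (Subgroup.mem_center_iff.mp (hA hx) y)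
  obtain ⟨S₁, S₂, h1, h2, h3, h4, h5, h6, h7, h8⟩ := Cfsg.Agent.S2988.result (p := p) S hS (by
    rintro ⟨-, hJ, -, hΦ, hp2, hp3, hp5, -, -⟩
    have hΦΦ : (frattini ↥(frattini S)).map (frattini S).subtype = ⊥ := by
      rw [Cfsg.IsElementaryAbelian.frattini_eq_bot hΦ, Subgroup.map_bot]
    rcases h with h | h
    · apply h
      apply hcomm
      rw [hJ, top_inf_eq]
      intro x hx
      rw [Subgroup.mem_center_iff]
      intro y
      exact (Subgroup.mem_centralizer_iff.mp hx y (by simp))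
    · apply h
      rw [hS₀]
      split_ifs with h2 h3
      · rw [hΦΦ, hcomm _ (hp2 h2), sup_bot_eq]
      · rw [hΦΦ, sup_bot_eq]
        apply hcomm
        rw [Subgroup.commutator_le]
        intro x hx y _
        have hx2 := hp3 h3 hx
        rw [Subgroup.mem_upperCentralSeries_succ_iff] at hx2
        have := hx2 y
        rwa [Subgroup.upperCentralSeries_one] at this
      · have h3p : 3 < p := by
          have := hp.two_le
          omega
        obtain ⟨ha, hb⟩ := hp5 h3p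
        rw [hcomm _ ha, bot_sup_eq]
        unfold Cfsg.powerClosure
        rw [Subgroup.closure_eq_bot_iff]
        rintro _ ⟨x, -, rfl⟩
        rw [pow_one, ← hb]
        exact Monoid.pow_exponent_eq_one x)
  refine ⟨S₁, S₂, h1, h2, h3, h4, h5, h6, h7, ?_⟩
  intro G _ _ τ hτ hP hC hM hK
  have hcomp : ((τ.range.subtype).comp (MonoidHom.ofInjective hτ : S ≃* ↥τ.range).toMonoidHom) = τ := by
    ext x
    simp [MonoidHom.ofInjective_apply]
  have := h8 G τ.range (MonoidHom.ofInjective hτ) ⟨?_, hP, hC, hM, ?_⟩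
  · rwa [hcomp] at this
  · intro htop
    obtain ⟨x, hx⟩ := exists_ne (1 : S)
    have : τ x ∈ (⊥ : Subgroup G) := htop ▸ Subgroup.mem_top _
    rw [Subgroup.mem_bot] at this
    exact hx (hτ (by rw [this, map_one]))
  · obtain ⟨K, hKn, F, hF, hFf, n, -, hc, he⟩ := hK
    exact ⟨K, hKn, F, hF, hFf, n, hc, he⟩

end Cfsg.Agent.S2808
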