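import Mathlib
import Cfsg.Statements.S2897
import Cfsg.Agent.Loc.CharP
import Cfsg.Agent.Loc.SylowControl

set_option autoImplicit false
open Cfsg

namespace Cfsg.Agent.S2897

/-- Let p be a prime dividing the order of the finite group G, suppose G has parabolic characteristic p, let S be a Sylow p-subgroup of G and G₁ a normal subgroup of G. If Ω₁(Z(S ∩ G₁)) is nontrivial and contained in Ω₁(Z(S)), then G₁ has parabolic characteristic p. -/
theorem result {G : Type*} [Group G] [Finite G] {p : ℕ} [Fact p.Prime] (hdiv : p ∣ Nat.card G) (hG : Cfsg.IsOfParabolicCharacteristic p G) (S : Sylow p G) (G₁ : Subgroup G) [G₁.Normal] (hne : Cfsg.omegaOne p (((S : Subgroup G) ⊓ G₁) ⊓ Subgroup.centralizer (((S : Subgroup G) ⊓ G₁ : Subgroup G) : Set G)) ≠ ⊥) (hle : Cfsg.omegaOne p (((S : Subgroup G) ⊓ G₁) ⊓ Subgroup.centralizer (((S : Subgroup G) ⊓ G₁ : Subgroup G) : Set G)) ≤ Cfsg.omegaOne p ((S : Subgroup G) ⊓ Subgroup.centralizer ((S : Subgroup G) : Set G))) : Cfsg.IsOfParabolicCharacteristic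 p ↥G₁ := by
  open Subgroup Cfsg.Agent.Loc.Am Cfsg.Agent.Loc.CP Cfsg.Agent.GT in
  have hS := isSylowOf_top S
  have hn : (⊤ : Subgroup G) ≤ normalizer (G₁ : Set G) := by rw [normalizer_eq_top]
  have h1 : IsSylowOf p (((S : Subgroup G) ⊓ G₁).subgroupOf G₁) ⊤ := by
    have := (Loc.SC.isSylowOf_subgroupOf_iff (M := G₁) inf_le_right le_rfl).mpr
      (hS.inf_of_normal le_top hn)
    rwa [subgroupOf_self] at this
  rw [isOfParabolicCharacteristic_iff hS] at hG
  rw [isOfParabolicCharacteristic_iff h1]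
  intro z hz hz1
  obtain ⟨hz2, hz3, hz4⟩ := mem_omZ.mp hz
  have hz5 : (z : G) ∈ omZ p ((S : Subgroup G) ⊓ G₁) := by
    refine mem_omZ.mpr ⟨hz2, fun x hx => ?_, by exact_mod_cast hz4⟩
    exact congrArg Subtype.val (hz3 ⟨x, hx.2⟩ hx)
  have h2 := hG z (hle hz5) (fun h => hz1 (Subtype.ext h))
  rw [centralizer_singleton_subgroup, ← inf_subgroupOf_right, isCharP_subgroupOf_iff inf_le_right]
  exact isCharP_of_normal h2 inf_le_left
    (Loc.Am.le_normalizer_inf le_normalizer (le_top.trans hn))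

end Cfsg.Agent.S2897
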