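import Mathlib
import Cfsg.Statements.S2898
import Cfsg.Agent.Loc.CharP
import Cfsg.Agent.GT.FrobeniusFpf

set_option autoImplicit false
open Cfsg

namespace Cfsg.Agent.S2898

/-- Let G be a finite group of even order with parabolic characteristic 2. If the centre of G ⧸ O(G) is trivial, then O(G) = 1. -/
theorem result {G : Type*} [Group G] [Finite G] (h2 : 2 ∣ Nat.card G) (hG : Cfsg.IsOfParabolicCharacteristic 2 G) [hN : (Cfsg.oddCore G).Normal] (hZ : Subgroup.center (G ⧸ Cfsg.oddCore G) = ⊥) : Cfsg.oddCore G = ⊥ := by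
  open Subgroup Cfsg.Agent.Loc.Am Cfsg.Agent.Loc.CP Cfsg.Agent.GT in
  obtain ⟨S⟩ : Nonempty (Sylow 2 G) := inferInstance
  have hS := isSylowOf_top S
  rw [isOfParabolicCharacteristic_iff hS] at hG
  have key : ∀ z ∈ omZ 2 (S : Subgroup G), z ≠ 1 → ∀ g : G,
      oddCore G ⊓ centralizer ({g * z * g⁻¹} : Set G) = ⊥ := by
    intro z hz hz1 g
    have h := isCharP_centralizer_conj (hG z hz hz1) g
    exact le_bot_iff.mp ((isCharP_iff_layer.mp h).2 ▸ pPrimeCore_inf_le _)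
  obtain ⟨⟨z, hz⟩, hz1⟩ := (Subgroup.ne_bot_iff_exists_ne_one).mp
    (omZ_ne_bot S.isPGroup' (hS.ne_bot (by simpa using h2)))
  have hz1' : z ≠ 1 := fun h => hz1 (Subtype.ext h)
  have hz2 : z * z = 1 := by simpa [sq] using (mem_omZ.mp hz).2.2
  have hinv : ∀ g : G, ∀ k ∈ oddCore G, g * z * g⁻¹ * k * (g * z * g⁻¹)⁻¹ = k⁻¹ := by
    intro g
    refine (Frob.conj_eq_inv_of_fpf (by rw [normalizer_eq_top]; trivial) ?_ (key z hz hz1' g)).1
    calc g * z * g⁻¹ * (g * z * g⁻¹) = g * (z * z) * g⁻¹ := by group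
      _ = 1 := by rw [hz2]; simp
  by_contra hne
  -- the centralizer of `O(G)` has odd order
  set C := centralizer (oddCore G : Set G) with hC
  have hCn : (⊤ : Subgroup G) ≤ normalizer (C : Set G) := by rw [normalizer_eq_top]
  have hCS : (S : Subgroup G) ⊓ C = ⊥ := by
    by_contra h
    obtain ⟨⟨w, hw1, hw⟩, hw2⟩ := (Subgroup.ne_bot_iff_exists_ne_one).mp
      (inf_omZ_ne_bot S.isPGroup' inf_le_left
        (Loc.Am.le_normalizer_inf le_normalizer (le_top.trans hCn)) h)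
    have := key w hw (fun h => hw2 (Subtype.ext h)) 1
    apply hne
    rw [← this, one_mul, inv_one, mul_one, eq_comm, inf_eq_left, le_centralizer_singleton_iff]
    exact hw1.2
  have hCodd : C ≤ oddCore G := by
    apply le_pPrimeCore_of_not_dvd Nat.prime_two
    intro h
    exact (hS.inf_of_normal le_top hCn).ne_bot h hCS
  have hzc : (QuotientGroup.mk z : G ⧸ oddCore G) ∈ center (G ⧸ oddCore G) := by
    rw [mem_center_iff]
    intro x
    obtain ⟨g, rfl⟩ := QuotientGroup.mk_surjective x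
    rw [← QuotientGroup.mk_mul, ← QuotientGroup.mk_mul, QuotientGroup.eq]
    apply hCodd
    intro k hk
    have e1 := hinv 1 k hk
    have e2 := hinv g⁻¹ k hk
    calc k * ((g * z)⁻¹ * (z * g))
        = z⁻¹ * (1 * z * 1⁻¹ * k * (1 * z * 1⁻¹)⁻¹) * (g⁻¹ * z * g) := by group
      _ = z⁻¹ * (g⁻¹ * z * g⁻¹⁻¹ * k * (g⁻¹ * z * g⁻¹⁻¹)⁻¹) * (g⁻¹ * z * g) := by rw [e1, e2]
      _ = (g * z)⁻¹ * (z * g) * k := by group
  rw [hZ, mem_bot, QuotientGroup.eq_one_iff] at hzc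
  have := pPrimeCore_inf_eq_bot (p := 2) S.isPGroup'
  exact hz1' (mem_bot.mp (this ▸ mem_inf.mpr ⟨hzc, omZ_le 2 _ hz⟩))

end Cfsg.Agent.S2898
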