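import Mathlib
import Cfsg.Statements.S2905
import Cfsg.Agent.GT.PMinimal

set_option autoImplicit false
open Cfsg

namespace Cfsg.Agent.S2905

open Cfsg.Agent.GT Subgroup

/-- Let P be a finite p-minimal group (a Sylow p-subgroup S is not normal and lies in a unique maximal subgroup M of P) and let F be the normal core of M. Then: every subnormal subgroup N of P contained in M satisfies N ∩ S ≤ O_p(P); if O^p(P) has a normal Sylow p-subgroup then the order of P has at most two prime divisors; every normal subgroup N of P either contains O^p(P) or is contained in F; and O^p(P)F ⧸ F is a minimal normal subgroup of P ⧸ F. -/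
theorem result {P : Type*} [Group P] [Finite P] {p : ℕ} [Fact p.Prime] (hP : Cfsg.IsPMinimal p P) (S : Sylow p P) (M : Subgroup P) (hM : IsCoatom M) (hSM : (S : Subgroup P) ≤ M) [hF : M.normalCore.Normal] : (∀ N : Subgroup P, N.IsSubnormal → N ≤ M → N ⊓ (S : Subgroup P) ≤ Cfsg.pCore p P) ∧ ((∀ T : Sylow p ↥(Cfsg.pResidual p P), (T : Subgroup ↥(Cfsg.pResidual p P)).Normal) → (Nat.card P).primeFactors.card ≤ 2) ∧ (∀ N : Subgroup P, N.Normal → Cfsg.pResidual p P ≤ N ∨ N ≤ M.normalCore) ∧ (∀ N : Subgroup P, N.Normal → M.normalCore ≤ N → N ≤ Cfsg.pResidual p P ⊔ M.normalCore → N = M.normalCore ∨ N = Cfsg.pResidual p P ⊔ M.normalCore) ∧ M.normalCore < Cfsg.pResidual p P ⊔ M.normalCore := by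
    refine ⟨fun N hN hNM => ?_, hP.card_primeFactors_le_two, fun N _ => hP.pResidual_le_or_le hM hSM N,
      fun N _ h1 h2 => ?_, left_lt_sup.mpr ?_ |>.trans_eq (sup_comm _ _)⟩
    · exact (le_inf inf_le_right (inf_le_left.trans
        (le_normalCore_of_isSubnormal_of_isCoatom hM hN hNM))).trans (hP.inf_normalCore_le_pCore hM hSM)
    · exact (hP.pResidual_le_or_le hM hSM N).symm.imp (fun h => le_antisymm h h1)
        fun h => le_antisymm h2 (sup_le h h1)
    · exact fun h => not_pResidual_le hM.1 hSM (h.trans M.normalCore_le)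

end Cfsg.Agent.S2905
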