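import Mathlib
import Cfsg.Statements.S2906
import Cfsg.Agent.GT.PMinimal

set_option autoImplicit false
open Cfsg

namespace Cfsg.Agent.S2906

open Cfsg.Agent.GT Subgroup

/-- Let P be a finite p-minimal group with O_p(P) = 1, S a Sylow p-subgroup of P and K a component of P. Then O^p(P) = F*(P) = E(P) is generated by the S-conjugates of K, and the subgroup K·N_S(K) is again p-minimal. -/
theorem result {P : Type*} [Group P] [Finite P] {p : ℕ} [Fact p.Prime] (hP : Cfsg.IsPMinimal p P) (hOp : Cfsg.pCore p P = ⊥) (S : Sylow p P) (K : Subgroup P) (hK : Cfsg.IsComponent K) : Cfsg.pResidual p P = Cfsg.generalizedFittingSubgroup P ∧ Cfsg.generalizedFittingSubgroup P = Cfsg.layer P ∧ Cfsg.layer P = ⨆ s : ↥(S : Subgroup P), K.map (MulAut.conj (s : P)).toMonoidHom ∧ Cfsg.IsPMinimal p ↥(K ⊔ ((S : Subgroup P) ⊓ Subgroup.normalizer (K : Set P))) := by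
    obtain ⟨M, ⟨hM, hSM⟩, -⟩ := (hP S).2
    have hKM : ¬ K ≤ M := fun h => hK.isQuasisimple.not_le_of_isSolvable
      (have := hP.isNilpotent_normalCore hM hSM hOp; inferInstance)
      (le_normalCore_of_isSubnormal_of_isCoatom hM hK.isSubnormal h)
    have hE : Cfsg.pResidual p P = Cfsg.layer P := le_antisymm
      ((hP.pResidual_le_or_le hM hSM _).resolve_right fun h =>
        hKM (hK.le_layer.trans (h.trans M.normalCore_le)))
      (perfect_le_of_isSolvable_quotient commutator_layer
        (have := (isPGroup_quotient_pResidual (G := P) p).isNilpotent; inferInstance))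
    have hF : Cfsg.generalizedFittingSubgroup P = Cfsg.layer P := by
      rw [genFitting_eq, sup_eq_left, ← hE]
      refine (fitting_le_pCore_sup p).trans ?_
      rw [hOp, bot_sup_eq]
      exact le_pResidual (coprime_card_pPrimeCore p)
    have hn : ∀ X : Subgroup P, (S : Subgroup P) ≤ normalizer
        ((⨆ s : S, X.map (MulAut.conj (s : P)).toMonoidHom : Subgroup P) : Set P) := fun X s hs =>
      mem_normalizer_of_map_conj_le (by
        rw [Subgroup.map_iSup]
        exact iSup_le fun t => le_iSup_of_le (⟨s, hs⟩ * t) (map_conj_map_conj _ _ _).le)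
    have h1 : ∀ X : Subgroup P, X ≤ ⨆ s : S, X.map (MulAut.conj (s : P)).toMonoidHom := fun X =>
      le_iSup_of_le 1 (map_conj_one X).ge
    have key : ∀ X : Subgroup P, (X ≤ M) ∨
        Cfsg.layer P ≤ ⨆ s : S, X.map (MulAut.conj (s : P)).toMonoidHom := fun X => by
      rcases hP.le_or_eq_top hM hSM (le_sup_left (b := ⨆ s : S,
        X.map (MulAut.conj (s : P)).toMonoidHom)) with h | h
      · exact Or.inl ((h1 X).trans (le_sup_right.trans h))
      · have := normal_of_sup_eq_top h (hn X) le_normalizer
        refine Or.inr (hE ▸ (hP.pResidual_le_or_le hM hSM _).resolve_right fun h2 => hM.1 ?_)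
        exact top_le_iff.mp (h.ge.trans (sup_le hSM (h2.trans M.normalCore_le)))
    have key2 : ∀ X : Subgroup P, X ≤ K → X ≠ K →
        (S : Subgroup P) ⊓ normalizer (K : Set P) ≤ normalizer (X : Set P) → X ≤ M :=
      fun X hXK hne hR => (key X).resolve_right fun h => hne <|
        hK.isQuasisimple.eq_of_le_sup_centralizer hXK <| by
          rw [← inf_sup_eq_of_le_normalizer' hXK
            (hXK.trans (le_normalizer.trans (normalizer_le_normalizer_centralizer K)))]
          refine le_inf le_rfl (hK.le_layer.trans (h.trans (iSup_le fun s => ?_)))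
          by_cases hs : (s : P) ∈ normalizer (K : Set P)
          · exact (map_conj_eq_of_mem_norm (hR ⟨s.2, hs⟩)).le.trans le_sup_left
          · exact (map_mono hXK).trans (((hK.map_conj s).le_centralizer_of_ne hK
              (mt map_conj_eq_self_iff.mp hs)).trans le_sup_right)
    refine ⟨hE.trans hF.symm, hF, le_antisymm ((key K).resolve_left hKM)
      (iSup_le fun s => (hK.map_conj s).le_layer), ?_⟩
    have hRK : (S : Subgroup P) ⊓ normalizer (K : Set P) ≤ normalizer (K : Set P) := inf_le_right
    have hSK := not_dvd_relIndex_sylow_inf_of_isSubnormal hK.isSubnormal S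
    have hRK' : (S : Subgroup P) ⊓ normalizer (K : Set P) ⊓ K = (S : Subgroup P) ⊓ K := by
      rw [inf_assoc, inf_eq_right.mpr (le_normalizer (H := K))]
    have hi : ¬ p ∣ ((S : Subgroup P) ⊓ normalizer (K : Set P)).relIndex
        (K ⊔ (S : Subgroup P) ⊓ normalizer (K : Set P)) := by
      rwa [sup_comm, relIndex_sup_of_le_normalizer_left hRK, ← inf_relIndex_right, hRK']
    refine isPMinimal_of_sylow (Tr.sylowOfRel S.2.to_inf_left hi) (fun hN => hKM ?_)
      (M := M.subgroupOf _) (fun h => hKM (le_sup_left.trans (subgroupOf_eq_top.mp h)))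
      (comap_mono (inf_le_left.trans hSM)) fun X hX hne => ?_
    · rw [Tr.coe_sylowOfRel, normal_subgroupOf_iff_le_normalizer le_sup_right] at hN
      have h2 : (S : Subgroup P) ⊓ K = ⊥ := by
        refine le_bot_iff.mp (hOp ▸ le_pCore_of_isSubnormal ?_ S.2.to_inf_left)
        rw [← hRK']
        exact (SubnormalIn.of_le_normalizer inf_le_right (CopAct.le_normalizer_inf
          (le_sup_left.trans hN) le_normalizer)).isSubnormal hK.isSubnormal
      rw [h2, relIndex_bot_left] at hSK
      exact CopAct.le_of_forall_invariant_pgroup_le hRK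
        (CopAct.coprime_of_isPGroup_left S.2.to_inf_left hSK)
        (Or.inl (CopAct.isSolvable_of_isPGroup S.2.to_inf_left)) fun q _ Q hQ hq hSQ =>
          key2 Q hQ (fun h => hK.isQuasisimple.not_isPGroup (h ▸ hq)) hSQ
    · rw [Tr.coe_sylowOfRel] at hX
      have h2 := map_mono (f := Subgroup.subtype _) hX
      rw [subgroupOf_map_subtype, inf_eq_left.mpr le_sup_right] at h2
      have h3 := inf_sup_eq_of_le_normalizer' (K := K) h2 hRK
      rw [sup_comm _ K, inf_eq_left.mpr (map_subtype_le X)] at h3
      refine map_le_iff_le_comap.mp (h3.le.trans ?_)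
      refine sup_le (inf_le_left.trans hSM) (key2 _ inf_le_right (fun h => hne ?_)
        (CopAct.le_normalizer_inf (h2.trans le_normalizer) hRK))
      rw [h] at h3
      rw [← map_subtype_inj, h3, ← MonoidHom.range_eq_map, range_subtype, sup_comm]

end Cfsg.Agent.S2906
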