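import Mathlib
import Cfsg.Statements.S2907
import Cfsg.Agent.GT.PGroupExtraspecial
import Cfsg.Agent.GT.PGroupChain
import Cfsg.Agent.GT.Conj
-- import your own Cfsg.Agent.* helpers here

set_option autoImplicit false
open Cfsg

namespace Cfsg.Agent.S2907

/-- Let X be a finite semi-extraspecial p-group and x an element of X outside the centre. Then the index of C_X(x) in X equals the order of Z(X), and the commutators [x, y], y ∈ X, form exactly the centre Z(X). -/
theorem result {X : Type*} [Group X] [Finite X] {p : ℕ} [Fact p.Prime] (hX : Cfsg.IsSemiExtraspecial p X) (x : X) (hx : x ∉ Subgroup.center X) : (Subgroup.centralizer ({x} : Set X)).index = Nat.card ↥(Subgroup.center X) ∧ {z : X | ∃ y : X, z = x * y * x⁻¹ * y⁻¹} = (Subgroup.center X : Set X) := by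
  classical
  have hcl := hX.1.commutator_le_center
  have hmem : ∀ y : X, x * y * x⁻¹ * y⁻¹ ∈ Subgroup.center X := fun y =>
    hcl (Subgroup.commutator_mem_commutator (Subgroup.mem_top x) (Subgroup.mem_top y))
  let f : X →* X := MonoidHom.mk' (fun y => x * y * x⁻¹ * y⁻¹) fun a b => by
    have := Subgroup.mem_center_iff.1 (hmem b) a
    calc x * (a * b) * x⁻¹ * (a * b)⁻¹
        = x * a * x⁻¹ * a⁻¹ * (a * (x * b * x⁻¹ * b⁻¹)) * a⁻¹ := by group
      _ = _ := by rw [this]; group
  have hle : f.range ≤ Subgroup.center X := by rintro _ ⟨y, rfl⟩; exact hmem y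
  have heq : f.range = Subgroup.center X := by
    by_contra hne
    have hZ : IsPGroup p (Subgroup.center X) := hX.1.1.to_subgroup _
    have h1 : f.range.subgroupOf (Subgroup.center X) ≠ ⊤ := fun h =>
      hne (le_antisymm hle (Subgroup.subgroupOf_eq_top.1 h))
    obtain ⟨M, hM1, hM2⟩ := GT.PG.exists_index_eq_prime_of_ne_top hZ h1
    have hM3 : (M.map (Subgroup.center X).subtype).subgroupOf (Subgroup.center X) = M :=
      Subgroup.comap_map_eq_self_of_injective (Subgroup.subtype_injective _) M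
    obtain ⟨hn, hE⟩ := hX.2 (M.map (Subgroup.center X).subtype) (Subgroup.map_subtype_le M)
      (by rw [hM3]; exact GT.PG.isCoatom_of_index_prime Fact.out hM2)
    set Y := M.map (Subgroup.center X).subtype
    have h2 : (Subgroup.center X).map (QuotientGroup.mk' Y) ≤ Subgroup.center (X ⧸ Y) := by
      rintro _ ⟨z, hz, rfl⟩
      refine Subgroup.mem_center_iff.2 fun g => ?_
      obtain ⟨g, rfl⟩ := QuotientGroup.mk'_surjective Y g
      rw [← map_mul, ← map_mul, Subgroup.mem_center_iff.1 hz g]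
    have h3 : Nat.card ((Subgroup.center X).map (QuotientGroup.mk' Y)) = p := by
      rw [← Nat.card_congr (GT.quotientSubgroupOfEquivMap (Subgroup.center X) Y).toEquiv, hM3]
      exact hM2
    have h4 := GT.PG.eq_of_le_of_card_le h2 (by rw [h3, hE.2])
    have h5 : (QuotientGroup.mk' Y x) ∈ Subgroup.center (X ⧸ Y) := by
      refine Subgroup.mem_center_iff.2 fun g => ?_
      obtain ⟨g, rfl⟩ := QuotientGroup.mk'_surjective Y g
      have h6 : x * g * x⁻¹ * g⁻¹ ∈ Y := ⟨⟨_, hmem g⟩, hM1 ⟨g, rfl⟩, rfl⟩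
      have h7 := (QuotientGroup.eq_one_iff _).2 h6
      simp only [QuotientGroup.mk_mul, QuotientGroup.mk_inv] at h7
      simp only [QuotientGroup.mk'_apply]
      rw [mul_inv_eq_one, mul_inv_eq_iff_eq_mul] at h7
      exact h7.symm
    rw [← h4] at h5
    have h8 : x ∈ Subgroup.center X ⊔ Y := by
      rw [← GT.comap_map_mk']; exact h5
    exact hx ((sup_le le_rfl (Subgroup.map_subtype_le M)) h8)
  refine ⟨?_, ?_⟩
  · rw [← heq, ← Subgroup.index_ker]
    congr 1
    ext y
    rw [Subgroup.mem_centralizer_singleton_iff, MonoidHom.mem_ker]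
    change _ ↔ x * y * x⁻¹ * y⁻¹ = 1
    rw [mul_inv_eq_one, mul_inv_eq_iff_eq_mul, eq_comm]
  · rw [← heq]
    ext z
    exact ⟨fun ⟨y, hy⟩ => ⟨y, hy.symm⟩, fun ⟨y, hy⟩ => ⟨y, hy.symm⟩⟩

end Cfsg.Agent.S2907
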