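import Mathlib
import Cfsg.Statements.S2908
import Cfsg.Agent.Loc.MssSyl
import Cfsg.Agent.GT.TransferFrobenius
import Cfsg.Agent.GT.CoprimeFixed

set_option autoImplicit false
open Cfsg

namespace Cfsg.Agent.S2908

/-- Let P be a p-subgroup of a finite group, normalized by a p-subgroup A and by a subgroup B of order prime to p that commutes elementwise with A. If [P, B] ≤ [P, A], then B centralizes P. -/
theorem result {G : Type*} [Group G] [Finite G] {p : ℕ} [Fact p.Prime] (P A B : Subgroup G) (hP : IsPGroup p ↥P) (hA : IsPGroup p ↥A) (hB : ¬ p ∣ Nat.card ↥B) (hnA : A ≤ Subgroup.normalizer (P : Set G)) (hnB : B ≤ Subgroup.normalizer (P : Set G)) (hAB : ⁅A, B⁆ = ⊥) (hcomm : ⁅P, B⁆ ≤ ⁅P, A⁆) : ⁅P, B⁆ = ⊥ := by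
  open Subgroup Cfsg.Agent.GT Cfsg.Agent.Loc Cfsg.Agent.Loc.Mss in
  have hc : (Nat.card B).Coprime (Nat.card P) := CopAct.coprime_of_isPGroup_right
    ((Nat.Prime.coprime_iff_not_dvd Fact.out).mpr hB).symm hP
  have hBA : B ≤ 𝐍[A] := norm_of_cent (comm_eq_bot_iff'.mp hAB)
  have n1 : A ⊔ P ≤ 𝐍[⁅P, B⁆] := sup_le (norm_comm hnA (norm_of_cent (comm_eq_bot_iff.mp hAB)))
    (normalizer_commutator_ge_left P B)
  have n2 : A ⊔ P ≤ 𝐍[⁅⁅P, B⁆, A ⊔ P⁆] := normalizer_commutator_ge_right _ _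
  refine Tr.eq_bot_of_le_commutator (pg_sup hA hP hnA).isNilpotent
    (le_sup_of_le_right (comm_le_left hnB)) ((CopAct.commutator_commutator_eq hnB hc).ge.trans
      ((commutator_mono hcomm le_rfl).trans (three_subgroups (le_sup_right.trans n2)
        (le_sup_left.trans n2) (norm_comm (normalizer_commutator_ge_right _ _) (norm_sup hBA hnB))
        ?_ ?_)))
  · rw [hAB, commutator_bot_left]; exact bot_le
  · exact commutator_mono (commutator_comm _ _).le le_sup_left

end Cfsg.Agent.S2908
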