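import Mathlib
import Cfsg.Statements.S2909
import Cfsg.Agent.S2908
import Cfsg.Agent.GT.CoprimeGen
import Cfsg.Agent.GT.CoprimeNilp

set_option autoImplicit false
open Cfsg

namespace Cfsg.Agent.S2909

/-- Let p be a prime, E a normal p-subgroup of the finite group G, and U a non-cyclic elementary abelian p-subgroup of G such that either C_E(U) = C_E(u) for every nontrivial u ∈ U, or [E, U] = [E, ⟨u⟩] for every nontrivial u ∈ U. If R is a subgroup of order prime to p normalized by U, then [R, U] centralizes E. -/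
theorem result {G : Type*} [Group G] [Finite G] {p : ℕ} [Fact p.Prime] (E : Subgroup G) [E.Normal] (hE : IsPGroup p ↥E) (U : Subgroup G) (hU : Cfsg.IsElementaryAbelian p U) (hnc : ¬ IsCyclic ↥U) (hcond : (∀ u ∈ U, u ≠ 1 → E ⊓ Subgroup.centralizer (U : Set G) = E ⊓ Subgroup.centralizer ({u} : Set G)) ∨ (∀ u ∈ U, u ≠ 1 → ⁅E, U⁆ = ⁅E, Subgroup.zpowers u⁆)) (R : Subgroup G) (hR : ¬ p ∣ Nat.card ↥R) (hRU : U ≤ Subgroup.normalizer (R : Set G)) : ⁅R, U⁆ ≤ Subgroup.centralizer (E : Set G) := by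
  open Subgroup Cfsg.Agent.GT Cfsg.Agent.Loc Cfsg.Agent.Loc.Mss in
  have hp := CopAct.isPGroup_of_isElementaryAbelian hU
  refine CopAct.commutator_le_of_centralizer_elt hU.1 hnc hRU
    (CopAct.coprime_of_isPGroup_left hp hR) fun u hu h1 => ?_
  have e : centralizer ({u} : Set G) = 𝐂[zpowers u] := by
    rw [zpowers_eq_closure, centralizer_closure]
  have hUu : U ≤ 𝐂[zpowers u] :=
    (le_centralizer_iff_isMulCommutative.mpr hU.1).trans (cent_anti (zpowers_le.mpr hu))
  have k1 : ⁅R ⊓ 𝐂[zpowers u], U⁆ ≤ R ⊓ 𝐂[zpowers u] := comm_le_left (norm_inf hRU (norm_of_le hUu))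
  have k2 : ¬ p ∣ Nat.card (⁅R ⊓ 𝐂[zpowers u], U⁆ : Subgroup G) := fun h =>
    hR (h.trans (card_dvd_of_le (k1.trans inf_le_left)))
  have k3 := hp.to_le (zpowers_le.mpr hu)
  rw [e]
  rcases hcond with h | h
  · refine CopAct.thompson_times k3 ((Nat.Prime.coprime_iff_not_dvd Fact.out).mpr k2).symm hE
      (cent_comm (k1.trans inf_le_right)) (norm_normal _ E) (norm_normal _ E) (cent_comm ?_)
    refine CopAct.commutator_le_centralizer_of_normalizer (norm_inf (norm_normal _ E)
      (norm_of_le inf_le_right)) ?_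
    rw [← e, ← h u hu h1]
    exact cent_comm inf_le_right
  · refine comm_eq_bot_iff'.mp (S2908.result E (zpowers u) _ hE k3 k2 (norm_normal _ E)
      (norm_normal _ E) (comm_eq_bot_iff'.mpr (k1.trans inf_le_right)) ?_)
    have n1 : R ⊓ 𝐂[zpowers u] ≤ 𝐍[⁅E, zpowers u⁆] :=
      norm_comm (norm_normal _ E) (norm_of_cent inf_le_right)
    refine (commutator_comm _ _).le.trans (three_subgroups n1 (norm_comm (norm_normal _ E)
      (norm_of_cent hUu)) (normalizer_commutator_ge_left _ _) ?_ ?_)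
    · rw [commutator_comm U E, h u hu h1]
      exact comm_le_left n1
    · exact (commutator_mono (comm_le_left (norm_normal _ E)) le_rfl).trans (h u hu h1).le

end Cfsg.Agent.S2909
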