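import Mathlib
import Cfsg.Statements.S2912
import Cfsg.Agent.GT.ExtraspecialDim
-- import your own Cfsg.Agent.* helpers here

set_option autoImplicit false
open Cfsg

namespace Cfsg.Agent.S2912

/-- Let p and r be distinct primes, let E be an extraspecial subgroup of order p^(2w+1) of a finite group, and let A be an elementary abelian r-subgroup normalized by E on which E acts faithfully (C_E(A) = 1). If n ≥ 1 is least with p dividing rⁿ − 1 (the smallest dimension of a faithful representation of a group of order p over the field with r elements), then the order of A is at least r^(n·p^w). -/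
theorem result {G : Type*} [Group G] [Finite G] {p r : ℕ} [Fact p.Prime] [hr : Fact r.Prime] (hpr : p ≠ r) (E A : Subgroup G) (w : ℕ) (hE : Cfsg.IsExtraspecial p ↥E) (hEcard : Nat.card ↥E = p ^ (2 * w + 1)) (hA : Cfsg.IsElementaryAbelian r A) (hnorm : E ≤ Subgroup.normalizer (A : Set G)) (hfaith : E ⊓ Subgroup.centralizer (A : Set G) = ⊥) (n : ℕ) (hn : 1 ≤ n) (hdiv : p ∣ r ^ n - 1) (hmin : ∀ k : ℕ, 1 ≤ k → p ∣ r ^ k - 1 → n ≤ k) : r ^ (n * p ^ w) ≤ Nat.card ↥A := by
  obtain ⟨z, h, -⟩ := GT.PG.exists_esz hE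
  have hAr := GT.CopAct.isPGroup_of_isElementaryAbelian hA
  have hz : Subgroup.zpowers z ≤ Subgroup.normalizer (A : Set G) := h.zpowers_le.trans hnorm
  have hle : ⁅A, Subgroup.zpowers z⁆ ≤ A := GT.CopAct.commutator_le_of_le_normalizer hz
  have hcop : (Nat.card (Subgroup.zpowers z)).Coprime (Nat.card A) :=
    GT.CopAct.coprime_of_isPGroup_right (by
      rw [h.card_zpowers]; exact (Nat.coprime_primes Fact.out hr.out).2 hpr) hAr
  have h1 := GT.CopAct.commutator_inf_centralizer_eq_bot hA.1 hz hcop
  rw [GT.centralizer_zpowers] at h1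
  refine le_trans (GT.PG.ESZ.pow_le_card hpr hmin w h hEcard
    (GT.CopAct.isMulCommutative_of_le' hA.1 hle) (hAr.to_le hle)
    (GT.le_normalizer_commutator hnorm (h.le_normalizer_of_zpowers_le le_rfl h.zpowers_le))
    (fun e => ?_) h1) (Subgroup.card_le_of_le hle)
  rw [GT.CopAct.commutator_eq_bot_iff] at e
  apply h.z_ne_one
  rw [← Subgroup.mem_bot, ← hfaith]
  exact ⟨h.z_mem, e (Subgroup.mem_zpowers z)⟩

end Cfsg.Agent.S2912
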