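import Mathlib
import Cfsg.Statements.S2924
import Cfsg.Agent.Loc.CharP
import Cfsg.Agent.GT.FrobeniusFpf
import Cfsg.Agent.GT.CoprimeGen

set_option autoImplicit false
open Cfsg

namespace Cfsg.Agent.S2924

section
open Subgroup Cfsg.Agent.Loc.Am Cfsg.Agent.Loc.CP Cfsg.Agent.GT
variable {X : Type*} [Group X] [Finite X]

/-- `O(C(y))`. -/
abbrev th (y : X) : Subgroup X := pPrimeCoreOf 2 (centralizer ({y} : Set X))

theorem th_inf_eq_bot {y z : X} (hy : y ^ 2 = 1) (hyz : y * z = z * y)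
    (hz : IsCharP 2 (centralizer ({z} : Set X))) : th y ⊓ centralizer ({z} : Set X) = ⊥ := by
  have hP : IsPGroup 2 (zpowers y) := by
    rintro ⟨_, k, rfl⟩
    refine ⟨1, Subtype.ext ?_⟩
    simp only [pow_one, SubgroupClass.coe_pow, OneMemClass.coe_one]
    rw [← zpow_natCast, ← zpow_mul, mul_comm, zpow_mul, zpow_natCast, hy, one_zpow]
  have h1 := isCharP_inf_centralizer hz hP
    (by simpa using mem_centralizer_singleton_iff.mpr hyz)
  rw [centralizer_zpowers] at h1
  have h2 := pPrimeCoreOf_inf_le (p := 2) (inf_le_right :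
    centralizer ({z} : Set X) ⊓ centralizer ({y} : Set X) ≤ centralizer ({y} : Set X))
  rw [(isCharP_iff_layer.mp h1).2] at h2
  exact le_bot_iff.mp (le_trans (le_inf inf_le_left (le_inf inf_le_right
    (inf_le_left.trans (pPrimeCoreOf_le _)))) h2)

theorem th_inv {y z : X} (hy : y ^ 2 = 1) (hz2 : z ^ 2 = 1) (hyz : y * z = z * y)
    (hz : IsCharP 2 (centralizer ({z} : Set X))) :
    (∀ k ∈ th y, z * k * z⁻¹ = k⁻¹) ∧ IsMulCommutative (th y) :=
  Frob.conj_eq_inv_of_fpf
    (le_normalizer_pPrimeCoreOf _ (mem_centralizer_singleton_iff.mpr hyz.symm))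
    (by rwa [← sq]) (th_inf_eq_bot hy hyz hz)

theorem balance {x y z : X} (hx : x ^ 2 = 1) (hy : y ^ 2 = 1) (hz2 : z ^ 2 = 1)
    (hxy : x * y = y * x) (hxz : x * z = z * x) (hyz : y * z = z * y)
    (hz : IsCharP 2 (centralizer ({z} : Set X)))
    (hE : subgroupLayer (centralizer ({x} : Set X)) = ⊥) :
    th y ⊓ centralizer ({x} : Set X) ≤ th x := by
  set C := centralizer ({x} : Set X) with hC
  set A := th y ⊓ C with hA
  have hAodd : (Nat.card A).Coprime 2 :=
    Nat.Coprime.coprime_dvd_left (card_dvd_of_le inf_le_left) (coprime_card_pPrimeCoreOf 2 _)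
  have h1 : A ≤ centralizer (th x : Set X) := by
    intro a ha
    have hinv := (th_inv hy hz2 hyz hz).1 a ha.1
    have h2 : a ^ 2 ∈ centralizer (th x : Set X) := by
      intro k hk
      have hk' : a⁻¹ * k * a ∈ th x :=
        conj_mem_of_mem_normalizer' (le_normalizer_pPrimeCoreOf _ ha.2) hk
      have e1 := (th_inv hx hz2 hxz hz).1 _ hk'
      have e2 := (th_inv hx hz2 hxz hz).1 _ hk
      have e3 : z * a⁻¹ * z⁻¹ = a := by
        calc z * a⁻¹ * z⁻¹ = (z * a * z⁻¹)⁻¹ := by group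
          _ = a := by rw [hinv, inv_inv]
      have e4 : a * k⁻¹ * a⁻¹ = a⁻¹ * k⁻¹ * a := by
        calc a * k⁻¹ * a⁻¹ = (z * a⁻¹ * z⁻¹) * (z * k * z⁻¹) * (z * a * z⁻¹) := by
              rw [e3, e2, hinv]
          _ = z * (a⁻¹ * k * a) * z⁻¹ := by group
          _ = a⁻¹ * k⁻¹ * a := by rw [e1]; group
      rw [sq]
      calc k * (a * a) = k * a * (a * k⁻¹ * a⁻¹) * (a * k) := by group
        _ = a * a * k := by rw [e4]; group
    have h3 : (orderOf a).Coprime 2 :=
      Nat.Coprime.coprime_dvd_left (orderOf_dvd_natCard (⟨a, ha⟩ : A) |> fun h => by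
        simpa using h) hAodd
    obtain ⟨m, hm⟩ := exists_pow_eq_self_of_coprime h3.symm
    rw [← hm]
    exact pow_mem h2 m
  have hyC : zpowers y ≤ C := by simpa using mem_centralizer_singleton_iff.mpr hxy.symm
  have hP : IsPGroup 2 (zpowers y) := by
    rintro ⟨_, k, rfl⟩
    refine ⟨1, Subtype.ext ?_⟩
    simp only [pow_one, SubgroupClass.coe_pow, OneMemClass.coe_one]
    rw [← zpow_natCast, ← zpow_mul, mul_comm, zpow_mul, zpow_natCast, hy, one_zpow]
  have hAy : A ≤ centralizer ({y} : Set X) := inf_le_left.trans (pPrimeCoreOf_le _)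
  have h2 : A ≤ centralizer (pCoreOf 2 C : Set X) := by
    have hn := GT.le_normalizer_pCoreOf (p := 2) C
    refine CopAct.thompson_times hP hAodd (isPGroup_pCoreOf 2 C)
      (le_centralizer_iff.mp (by rwa [centralizer_zpowers])) (hyC.trans hn)
      (inf_le_right.trans hn) ?_
    rw [centralizer_zpowers]
    apply le_centralizer_of_le_normalizer
    · exact Loc.Am.le_normalizer_inf (inf_le_right.trans (le_normalizer_pPrimeCoreOf _))
        ((inf_le_left.trans (GT.pCoreOf_le C)).trans le_normalizer)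
    · exact Loc.Am.le_normalizer_inf (inf_le_right.trans hn) (hAy.trans le_normalizer)
    · have := CopAct.inf_eq_bot_of_coprime
        (CopAct.coprime_of_isPGroup_right hAodd (isPGroup_pCoreOf 2 C))
      exact le_bot_iff.mp (this ▸ le_inf inf_le_right (inf_le_left.trans inf_le_left))
  have h3 : A ≤ centralizer (genFittingOf C : Set X) := by
    rw [genFittingOf_eq, hE, bot_sup_eq, fittingOf_eq_iSup_pCoreOf, centralizer_iSup]
    refine le_iInf fun q => ?_
    by_cases hq : (q : ℕ) = 2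
    · rw [hq]; exact h2
    · exact h1.trans (centralizer_le (map_mono (pCore_le_pPrimeCore Nat.prime_two q.2 hq)))
  have h4 : A ≤ fittingOf C :=
    (le_inf inf_le_right h3).trans (inf_centralizer_genFittingOf_le_fittingOf C)
  exact ((subnormalIn_of_isNilpotent (isNilpotent_fittingOf C) h4).trans
    (subnormalIn_fittingOf C)).le_pPrimeCoreOf hAodd

theorem th_comm {Y : Subgroup X} (hY : IsElementaryAbelian 2 Y) (h8 : 8 ≤ Nat.card Y)
    (hE : ∀ x ∈ Y, x ≠ 1 → subgroupLayer (centralizer ({x} : Set X)) = ⊥) {z : X} (hzY : z ∈ Y)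
    (hz : IsCharP 2 (centralizer ({z} : Set X))) {x y : X} (hx : x ∈ Y) (hy : y ∈ Y) :
    th x ≤ centralizer (th y : Set X) := by
  have hc : ∀ a ∈ Y, ∀ b ∈ Y, a * b = b * a := fun a ha b hb =>
    congrArg Subtype.val (hY.1.is_comm.comm (⟨a, ha⟩ : Y) ⟨b, hb⟩)
  have hne : Y ≠ ⊥ := by
    rintro rfl
    simp at h8
  have hn : ∀ a ∈ Y, Y ≤ normalizer (th a : Set X) := fun a ha =>
    le_trans (fun b hb => mem_centralizer_singleton_iff.mpr (hc b hb a ha))
      (le_normalizer_pPrimeCoreOf _)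
  have hodd : ∀ a : X, ¬ 2 ∣ Nat.card (th a) := fun a =>
    (Nat.Prime.coprime_iff_not_dvd Nat.prime_two).mp (coprime_card_pPrimeCoreOf 2 _).symm
  refine CopAct.le_of_hyperplane_centralizer_le hY hne (hn x hx) (hodd x) fun B hB hBi => ?_
  rw [le_centralizer_iff]
  refine CopAct.le_of_hyperplane_centralizer_le hY hne (hn y hy) (hodd y) fun B' hB' hBi' => ?_
  have hBB : B ⊓ B' ≠ ⊥ := by
    intro h
    have := relIndex_inf_le (H := B) (K := B') (L := Y)
    rw [h, relIndex_bot_left, hBi, hBi'] at this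
    omega
  obtain ⟨⟨w, hw, hw'⟩, hw1⟩ := (Subgroup.ne_bot_iff_exists_ne_one).mp hBB
  have hw1' : w ≠ 1 := fun h => hw1 (Subtype.ext h)
  have hwY := hB hw
  have hb : ∀ a ∈ Y, th a ⊓ centralizer ({w} : Set X) ≤ th w := fun a ha =>
    balance (hY.2 w hwY) (hY.2 a ha) (hY.2 z hzY) (hc w hwY a ha) (hc w hwY z hzY)
      (hc a ha z hzY) hz (hE w hwY hw1')
  have hcomm := (th_inv (hY.2 w hwY) (hY.2 z hzY) (hc w hwY z hzY) hz).2
  refine ((inf_le_inf_left _ (centralizer_le_centralizer_singleton hw')).trans (hb y hy)).trans ?_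
  refine (le_centralizer (th w)).trans (centralizer_le ?_)
  exact (inf_le_inf_left _ (centralizer_le_centralizer_singleton hw)).trans (hb x hx)

end

/-- Let X be a finite group and Y an elementary abelian 2-subgroup of X of order at least 8 such that C_X(x) has no components (E(C_X(x)) = 1) for every nontrivial x ∈ Y, and F*(C_X(z)) = O₂(C_X(z)) for some nontrivial z ∈ Y. Then the subgroup generated by the cores O(C_X(y)), y ∈ Y nontrivial, has odd order and is normalized by N_X(Y). -/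
theorem result {X : Type*} [Group X] [Finite X] (Y : Subgroup X) (hY : Cfsg.IsElementaryAbelian 2 Y) (h8 : 8 ≤ Nat.card ↥Y) (hE : ∀ x ∈ Y, x ≠ 1 → Cfsg.layer ↥(Subgroup.centralizer ({x} : Set X)) = ⊥) (hz : ∃ z ∈ Y, z ≠ 1 ∧ Cfsg.generalizedFittingSubgroup ↥(Subgroup.centralizer ({z} : Set X)) = Cfsg.pCore 2 ↥(Subgroup.centralizer ({z} : Set X))) : Odd (Nat.card ↥(⨆ y : {y : X // y ∈ Y ∧ y ≠ 1}, (Cfsg.oddCore ↥(Subgroup.centralizer ({(y : X)} : Set X))).map (Subgroup.centralizer ({(y : X)} : Set X)).subtype)) ∧ Subgroup.normalizer (Y : Set X) ≤ Subgroup.normalizer ((⨆ y : {y : X // y ∈ Y ∧ y ≠ 1}, (Cfsg.oddCore ↥(Subgroup.centralizer ({(y : X)} : Set X))).map (Subgroup.centralizer ({(y : X)} : Set X)).subtype : Subgroup X) : Set X) := by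
  open Subgroup Cfsg.Agent.Loc.Am Cfsg.Agent.Loc.CP Cfsg.Agent.GT in
  obtain ⟨z, hzY, -, hz⟩ := hz
  have hz' := isCharP_iff_genFitting.mpr hz
  have hE' : ∀ x ∈ Y, x ≠ 1 → subgroupLayer (centralizer ({x} : Set X)) = ⊥ :=
    fun x hx h1 => subgroupLayer_eq_bot_iff.mpr (hE x hx h1)
  change Odd (Nat.card (⨆ y : {y : X // y ∈ Y ∧ y ≠ 1}, th (y : X) : Subgroup X)) ∧
    normalizer (Y : Set X) ≤
      normalizer ((⨆ y : {y : X // y ∈ Y ∧ y ≠ 1}, th (y : X) : Subgroup X) : Set X)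
  set J : Subgroup X := ⨆ y : {y : X // y ∈ Y ∧ y ≠ 1}, th (y : X) with hJ
  have hle : ∀ y : {y : X // y ∈ Y ∧ y ≠ 1}, th (y : X) ≤ J := fun y =>
    le_iSup (fun y : {y : X // y ∈ Y ∧ y ≠ 1} => th (y : X)) y
  constructor
  · have h1 : J ≤ pPrimeCoreOf 2 J := iSup_le fun y =>
      le_pPrimeCoreOf (hle y) (le_trans (iSup_le fun x => th_comm hY h8 hE' hzY hz' x.2.1 y.2.1)
        (centralizer_le_normalizer _)) (coprime_card_pPrimeCoreOf 2 _)
    exact Nat.coprime_two_right.mp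
      (Nat.Coprime.coprime_dvd_left (card_dvd_of_le h1) (coprime_card_pPrimeCoreOf 2 _))
  · apply le_normalizer_of_cj
    intro g hg
    rw [hJ, cj, Subgroup.map_iSup]
    refine iSup_le fun y => ?_
    have := hle ⟨g * y * g⁻¹, conj_mem_of_mem_normalizer hg y.2.1, by simpa using y.2.2⟩
    simp only [th] at this
    rw [centralizer_singleton_conj, pPrimeCoreOf_map_conj] at this
    exact this

end Cfsg.Agent.S2924
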