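import Mathlib
import Cfsg.Statements.S2925
import Cfsg.Agent.GT.LocalLayer
import Cfsg.Agent.GT.Subnormal2

set_option autoImplicit false
open Cfsg

namespace Cfsg.Agent.S2925

open Cfsg.Agent.GT Subgroup

/-- Let K be a component of the finite group X and T a Sylow 2-subgroup of X. If some abelian normal subgroup Y of T does not normalize K, then K ⧸ Z(K) has abelian Sylow 2-subgroups. -/
theorem result {X : Type*} [Group X] [Finite X] (K : Subgroup X) (hK : Cfsg.IsComponent K) (T : Sylow 2 X) (Y : Subgroup X) (hYT : Y ≤ (T : Subgroup X)) (hYn : (Y.subgroupOf (T : Subgroup X)).Normal) (hYab : IsMulCommutative ↥Y) (hnot : ¬ Y ≤ Subgroup.normalizer (K : Set X)) (P : Sylow 2 (↥K ⧸ Subgroup.center ↥K)) : IsMulCommutative ↥(P : Subgroup (↥K ⧸ Subgroup.center ↥K)) := by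
    obtain ⟨y, hy, hyK⟩ := SetLike.not_le_iff_exists.mp hnot
    have hne : K.map (MulAut.conj y).toMonoidHom ≠ K := fun e => hyK (map_conj_eq_self_iff.mp e)
    have hc := (hK.map_conj y).le_centralizer_of_ne hK hne
    have hTY : (T : Subgroup X) ≤ normalizer (Y : Set X) :=
      (normal_subgroupOf_iff_le_normalizer hYT).mp hYn
    set Q := (Tr.sylowOfRel T.2 (by
      simpa only [inf_relIndex_right] using not_dvd_relIndex_sylow_inf_of_isSubnormal hK.isSubnormal T)).mapSurjective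
        (QuotientGroup.mk'_surjective (center K))
    suffices h : IsMulCommutative (Q : Subgroup (K ⧸ center K)) from
      ⟨⟨fun a b => (P.equiv Q).injective (by rw [map_mul, map_mul, h.is_comm.comm])⟩⟩
    refine ⟨⟨?_⟩⟩
    rintro ⟨_, ⟨a, haK⟩, ha, rfl⟩ ⟨_, ⟨b, hbK⟩, hb, rfl⟩
    refine Subtype.ext (QuotientGroup.eq.mpr ?_)
    rw [← centralizer_subgroupOf_self, mem_subgroupOf]
    have key : ∀ s ∈ (T : Subgroup X), s * (y * s⁻¹ * y⁻¹) ∈ Y := fun s hs => by
      have := Y.mul_mem (conj_mem_of_mem_normalizer (hTY hs) hy) (Y.inv_mem hy)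
      simpa only [mul_assoc] using this
    have h1 : a * (y * a⁻¹ * y⁻¹) * (b * (y * b⁻¹ * y⁻¹)) =
        b * (y * b⁻¹ * y⁻¹) * (a * (y * a⁻¹ * y⁻¹)) :=
      congrArg Subtype.val (hYab.is_comm.comm ⟨_, key a ha⟩ ⟨_, key b hb⟩)
    have ha' : y * a⁻¹ * y⁻¹ ∈ centralizer (K : Set X) := hc (conj_mem_map_conj.mpr (K.inv_mem haK))
    have hb' : y * b⁻¹ * y⁻¹ ∈ centralizer (K : Set X) := hc (conj_mem_map_conj.mpr (K.inv_mem hbK))
    have h2 := mul_mem (mul_mem ha' hb') (inv_mem (mul_mem hb' ha'))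
    change (a * b)⁻¹ * (b * a) ∈ _
    convert h2 using 1
    generalize y * a⁻¹ * y⁻¹ = a' at *
    generalize y * b⁻¹ * y⁻¹ = b' at *
    rw [mul_assoc a, ← mul_assoc a', ← ha' b hbK, mul_assoc b b', ← mul_assoc b', ← hb' a haK] at h1
    calc (a * b)⁻¹ * (b * a) = (a * b)⁻¹ * (b * (a * b' * a')) * (b' * a')⁻¹ := by group
      _ = _ := by rw [← h1]; group

end Cfsg.Agent.S2925
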