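import Mathlib
import Cfsg.Statements.S2928
import Cfsg.Agent.Loc.SymOver

set_option autoImplicit false
open Cfsg

namespace Cfsg.Agent.S2928

/-- Let n ≥ 8 and let H be a subgroup of the symmetric group of degree n whose generalized Fitting subgroup F*(H) is quasisimple. If H contains a Sylow 2-subgroup of the alternating group of degree n, then F*(H) is isomorphic to an alternating group of degree m for some m ∈ {n − 3, n − 2, n − 1, n}. -/
theorem result (n : ℕ) (hn : 8 ≤ n) (H : Subgroup (Equiv.Perm (Fin n))) (hF : Cfsg.IsQuasisimple ↥(Cfsg.generalizedFittingSubgroup ↥H)) (hS : ∃ P : Sylow 2 ↥(alternatingGroup (Fin n)), ((P : Subgroup ↥(alternatingGroup (Fin n))).map (alternatingGroup (Fin n)).subtype) ≤ H) : ∃ m : ℕ, (m = n - 3 ∨ m = n - 2 ∨ m = n - 1 ∨ m = n) ∧ Nonempty (↥(Cfsg.generalizedFittingSubgroup ↥H) ≃* ↥(alternatingGroup (Fin m))) := by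
  open Subgroup Equiv Equiv.Perm Cfsg.Agent.GT Cfsg.Agent.Sym Cfsg.Agent.Loc.SO in
  obtain ⟨R, hR⟩ := hS
  have hq : IsQuasisimple (genFittingOf H) :=
    (isQuasisimple_map_iff_of_injective H.subtype_injective).2 hF
  obtain ⟨P, hP⟩ := exists_sylow_subgroupOf_eq R
  obtain ⟨ι, hι⟩ := exists_eq_wr (β := Fin (n / 2)) (by simp) P default
  have hle : (P : Subgroup (Perm (Fin n))) ⊓ alternatingGroup (Fin n) ≤ H := by
    rw [← hP, subgroupOf_map_subtype] at hR
    exact hR
  rw [hι] at hle
  have hK := fun i j => hle (swap_mul_swap_mem_wr_inf ι _ i j)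
  have h4 : 4 ≤ Fintype.card (Fin (n / 2)) := by simp; omega
  obtain ⟨c, hc, h3⟩ := exists_isThreeCycle_of_pairs hq (genFittingOf_le H)
    (le_normalizer_genFittingOf H) h4 (by simp) hK fun h => hle ⟨wrEmb_mem_wr.2 (one_mem _), by
      show sign _ = 1
      rw [sign_wrEmb, Finset.prod_const, Finset.card_univ, h, map_one, one_pow, one_mul]
      rcases Int.units_eq_one_or (sign (Equiv.addLeft (1 : ZMod 2))) with e | e <;> rw [e] <;>
        decide⟩
  obtain ⟨s, ⟨e⟩, h1, h2⟩ := exists_alt_of_isThreeCycle hq (genFittingOf_le H)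
    (le_normalizer_genFittingOf H) (inf_centralizer_genFittingOf_le H) h3 hc
  have hpair : ∀ i t, ι (i, t) ∈ s → ∀ u, ι (i, u) ∈ s := by
    intro i t ht u
    obtain ⟨j, hj⟩ := exists_pair_avoiding ι [ι (i, t)] (by simp; omega)
    have hji : j ≠ i := by rintro rfl; simpa using hj t
    have := h1 _ (hK i j) _ ht
    rw [mul_apply, swap_apply_of_ne_of_ne (x := ι (i, t)) (by simp [hji.symm])
      (by simp [hji.symm])] at this
    rcases zmod_two_cases t u with rfl | rfl
    · exact ht
    · rcases zmod_two_cases 0 t with rfl | rfl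
      · simpa using this
      · simpa [zmod_two_add_one_add_one, one_add_one_eq_two, show (2 : ZMod 2) = 0 from rfl]
          using this
  have huniq : ∀ i j, ι (i, 0) ∉ s → ι (j, 0) ∉ s → i = j := by
    intro i j hi hj
    by_contra hij
    have := h2 _ (hK i j) fun x hx => by
      have a : ∀ k t, ι (k, 0) ∉ s → x ≠ ι (k, t) := by
        rintro k t hk rfl; exact hk (hpair k t hx 0)
      rw [mul_apply, swap_apply_of_ne_of_ne (a _ _ hj) (a _ _ hj),
        swap_apply_of_ne_of_ne (a _ _ hi) (a _ _ hi)]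
    have h := congrArg (fun σ : Perm (Fin n) => σ (ι (i, 0))) this
    simp only [mul_apply] at h
    rw [swap_apply_of_ne_of_ne (x := ι (i, 0)) (by simp [hij]) (by simp [hij])] at h
    simp at h
  obtain ⟨i₀, hi₀⟩ : ∃ i₀, ∀ i ≠ i₀, ι (i, 0) ∈ s := by
    by_cases h : ∃ i, ι (i, 0) ∉ s
    · obtain ⟨i, hi⟩ := h
      exact ⟨i, fun j hj => by by_contra h; exact hj (huniq j i h hi)⟩
    · push Not at h
      exact ⟨⟨0, by omega⟩, fun i _ => h i⟩
  have c1 : ((Finset.univ.erase i₀) ×ˢ (Finset.univ : Finset (ZMod 2))).card ≤ s.card := by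
    rw [← Finset.card_map ι]
    exact Finset.card_le_card fun x hx => by
      obtain ⟨⟨i, t⟩, hi, rfl⟩ := Finset.mem_map.1 hx
      exact hpair i 0 (hi₀ i (by simpa using hi)) t
  have c2 : s.card ≤ n := by simpa using s.card_le_univ
  simp only [Finset.card_product, Finset.card_erase_of_mem (Finset.mem_univ _), Finset.card_univ,
    Fintype.card_fin, ZMod.card] at c1
  exact ⟨s.card, by omega, ⟨((generalizedFittingSubgroup H).equivMapOfInjective _
    H.subtype_injective).trans e⟩⟩

end Cfsg.Agent.S2928
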