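import Mathlib
import Cfsg.Statements.S2929
import Cfsg.Agent.Loc.SymOver

set_option autoImplicit false
open Cfsg

namespace Cfsg.Agent.S2929

/-- Let n ≥ 5 and let H be a subgroup of the symmetric group of degree n whose generalized Fitting subgroup F*(H) is quasisimple. If H contains a Sylow 3-subgroup of the symmetric group, then F*(H) is isomorphic to an alternating group of degree m for some m ∈ {n − 2, n − 1, n}. -/
theorem result (n : ℕ) (hn : 5 ≤ n) (H : Subgroup (Equiv.Perm (Fin n))) (hF : Cfsg.IsQuasisimple ↥(Cfsg.generalizedFittingSubgroup ↥H)) (hS : ∃ P : Sylow 3 (Equiv.Perm (Fin n)), (P : Subgroup (Equiv.Perm (Fin n))) ≤ H) : ∃ m : ℕ, (m = n - 2 ∨ m = n - 1 ∨ m = n) ∧ Nonempty (↥(Cfsg.generalizedFittingSubgroup ↥H) ≃* ↥(alternatingGroup (Fin m))) := by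
  open Subgroup Equiv Equiv.Perm Cfsg.Agent.GT Cfsg.Agent.Sym Cfsg.Agent.Loc.SO in
  obtain ⟨P, hP⟩ := hS
  have hq : IsQuasisimple (genFittingOf H) :=
    (isQuasisimple_map_iff_of_injective H.subtype_injective).2 hF
  obtain ⟨ι, hι⟩ := exists_eq_wr (β := Fin (n / 3)) (by simp) P default
  have z3 : ∀ s t : ZMod 3, t = s ∨ t = 1 + s ∨ t = 1 + (1 + s) := by decide
  have hg : ∀ i, wrEmb ι 1 (Pi.single i 1) ∈ H := fun i => hP (hι ▸ wrEmb_mem_wr.2 (one_mem _))
  have hfix : ∀ i x, (∀ s, x ≠ ι (i, s)) → wrEmb ι 1 (Pi.single i (1 : ZMod 3)) x = x := by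
    intro i x hx
    by_cases hr : x ∈ Set.range ι
    · obtain ⟨⟨j, s⟩, rfl⟩ := hr
      have : j ≠ i := by rintro rfl; exact hx s rfl
      simp [wrEmb_apply, this]
    · exact wrEmb_apply_of_not_mem ι _ _ hr
  have hap : ∀ i s, wrEmb ι 1 (Pi.single i (1 : ZMod 3)) (ι (i, s)) = ι (i, 1 + s) := by
    intro i s; simp [wrEmb_apply]
  have h3 : ∀ i, (wrEmb ι 1 (Pi.single i (1 : ZMod 3))).IsThreeCycle := by
    intro i
    have n01 : ι (i, 0) ≠ ι (i, 1) := by simp
    have n02 : ι (i, 0) ≠ ι (i, 2) := by simp; decide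
    have n12 : ι (i, 1) ≠ ι (i, 2) := by simp; decide
    have : wrEmb ι 1 (Pi.single i (1 : ZMod 3)) = cyc3 (ι (i, 0)) (ι (i, 1)) (ι (i, 2)) := by
      ext1 x
      by_cases h0 : x = ι (i, 0)
      · rw [h0, hap, cyc3_apply_fst n01 n02]; rfl
      by_cases h1 : x = ι (i, 1)
      · rw [h1, hap, cyc3_apply_snd n02 n12]; rfl
      by_cases h2 : x = ι (i, 2)
      · rw [h2, hap, cyc3_apply_thd]; rfl
      rw [cyc3_apply_of_ne h0 h1 h2, hfix]
      intro s
      rcases z3 0 s with rfl | rfl | rfl <;> assumption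
    rw [this]; exact isThreeCycle_cyc3 n01 n02 n12
  obtain ⟨s, ⟨e⟩, h1, h2⟩ := exists_alt_of_isThreeCycle hq (genFittingOf_le H)
    (le_normalizer_genFittingOf H) (inf_centralizer_genFittingOf_le H) (h3 ⟨0, by omega⟩) (hg _)
  have hmem : ∀ i t, ι (i, t) ∈ s := by
    intro i t
    by_contra ht
    refine (h3 i).ne_one (h2 _ (hg i) fun x hx => hfix i x ?_)
    rintro u rfl
    have a1 := h1 _ (hg i) _ hx
    rw [hap] at a1
    have a2 := h1 _ (hg i) _ a1
    rw [hap] at a2
    rcases z3 u t with rfl | rfl | rfl <;> contradiction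
  have c1 : Fintype.card (Fin (n / 3) × ZMod 3) ≤ s.card := by
    rw [← Finset.card_univ, ← Finset.card_map ι]
    exact Finset.card_le_card fun x hx => by
      obtain ⟨⟨i, t⟩, -, rfl⟩ := Finset.mem_map.1 hx
      exact hmem i t
  have c2 : s.card ≤ n := by simpa using s.card_le_univ
  simp only [Fintype.card_prod, Fintype.card_fin, ZMod.card] at c1
  exact ⟨s.card, by omega, ⟨((generalizedFittingSubgroup H).equivMapOfInjective _
    H.subtype_injective).trans e⟩⟩

end Cfsg.Agent.S2929
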