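import Mathlib
import Cfsg.Statements.S2930
import Cfsg.Agent.Loc.SymOver
import Cfsg.Agent.Sym.Aut

set_option autoImplicit false
open Cfsg

namespace Cfsg.Agent.S2930

section
open Subgroup Equiv Equiv.Perm MulAction Cfsg.Agent.GT Cfsg.Agent.Sym Cfsg.Agent.Loc.SO Pointwise
variable {α : Type*} [DecidableEq α] [Fintype α]

theorem not_le_stab (h3 : 3 ≤ Fintype.card α) {s : Set α} {x y : α} (hx : x ∈ s) (hy : y ∉ s) :
    ¬ alternatingGroup α ≤ stabilizer (Perm α) s := by
  intro h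
  have := alternatingGroup.isPretransitive_of_three_le_card α (by simpa using h3)
  obtain ⟨g, hg⟩ := exists_smul_eq (alternatingGroup α) x y
  have h1 : (g : Perm α) • s = s := h g.2
  exact hy (h1 ▸ ⟨x, hx, hg⟩)

omit [Fintype α] in
theorem cyc3_mem_stab {s : Set α} {x y z : α} (hx : x ∈ s) (hy : y ∈ s) (hz : z ∈ s) :
    cyc3 x y z ∈ stabilizer (Perm α) s :=
  mul_mem (swap_mem_stabilizer hx hy) (swap_mem_stabilizer hy hz)

theorem exists_cyc3_not_mem {β : Type*} {f : α → β} (hf : ∀ i, Nat.card {x // f x = i} = 3)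
    {s : Set α} (hs : 4 ≤ s.ncard) : ∃ x ∈ s, ∃ y ∈ s, ∃ z ∈ s, x ≠ y ∧ y ≠ z ∧
      cyc3 x y z ∉ partStab f := by
  obtain ⟨x, hx⟩ : s.Nonempty := (Set.ncard_pos).1 (by omega)
  obtain ⟨y, hy, hxy⟩ : ∃ y ∈ s, f y ≠ f x := by
    by_contra! h
    have := Set.ncard_le_ncard (show s ⊆ {y | f y = f x} from h)
    have h2 : {y | f y = f x}.ncard = 3 := hf (f x)
    omega
  have hne : x ≠ y := by rintro rfl; exact hxy rfl
  obtain ⟨z, hz, hz'⟩ : ∃ z ∈ s, z ∉ ({x, y} : Set α) :=
    Set.exists_mem_notMem_of_ncard_lt_ncard (by rw [Set.ncard_pair hne]; omega)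
  simp only [Set.mem_insert_iff, Set.mem_singleton_iff, not_or] at hz'
  refine ⟨x, hx, y, hy, z, hz, hne, Ne.symm hz'.2, fun h => ?_⟩
  obtain ⟨u, v, huv, hu, hv, fu, fv⟩ := exists_triple_fiber le_rfl hf x
  have key : ∀ w, w ≠ x → f w = f x → w = z := fun w hw fw => by
    by_contra hwz
    have := (mem_partStab.1 h w x).1 fw
    rw [cyc3_apply_of_ne hw (by rintro rfl; exact hxy fw) hwz,
      cyc3_apply_fst hne (Ne.symm hz'.1)] at this
    exact hxy (this.symm.trans fw)
  exact huv ((key u hu fu).trans (key v hv fv).symm)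

theorem two_over (h5 : 5 ≤ Fintype.card α) (h6 : Fintype.card α ≠ 6) (h9 : Fintype.card α ≠ 9)
    (hn : ∀ k, 2 ≤ k → Fintype.card α ≠ 3 ^ k + 1) (P : Sylow 3 (Perm α)) :
    ∃ H K : Subgroup (Perm α), (P : Subgroup (Perm α)) ≤ H ∧ (P : Subgroup (Perm α)) ≤ K ∧
      IsCoatom (H.subgroupOf (alternatingGroup α)) ∧
      ¬ alternatingGroup α ≤ K ∧ ∃ g ∈ alternatingGroup α, g ∈ K ∧ g ∉ H := by
  obtain ⟨Q⟩ : Nonempty (Sylow 3 (Perm (Fin (Fintype.card α / 3)))) := inferInstance
  obtain ⟨ι, h⟩ := exists_eq_wr (by simp) P Q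
  have hc : ∀ s : Set α, s.ncard + sᶜ.ncard = Fintype.card α := fun s => by
    rw [Set.ncard_add_ncard_compl, Nat.card_eq_fintype_card]
  by_cases hι : Function.Surjective ι
  · set e := Equiv.ofBijective ι ⟨ι.injective, hι⟩ with he
    have h2 : Fintype.card α = Fintype.card α / 3 * 3 := by
      simpa using Fintype.card_congr e.symm
    set f : α → Fin (Fintype.card α / 3) := fun x => (e.symm x).1 with hf
    have fι : ∀ i s, f (ι (i, s)) = i := fun i s => by
      simp only [hf]; rw [show ι (i, s) = e (i, s) from rfl, e.symm_apply_apply]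
    have hf3 : ∀ i, Nat.card {x // f x = i} = 3 := fun i => by
      rw [← Nat.card_congr (Equiv.ofBijective (fun s : ZMod 3 => (⟨ι (i, s), fι i s⟩ :
        {x // f x = i})) ⟨fun s t e => by simpa using e, fun ⟨x, hx⟩ => by
          obtain ⟨⟨j, s⟩, rfl⟩ := hι x
          rw [fι] at hx
          exact ⟨s, by simp [hx]⟩⟩), Nat.card_zmod]
    have hP : (P : Subgroup (Perm α)) ≤ partStab f := by
      rw [h]
      rintro _ ⟨σ, -, v, rfl⟩
      refine mem_partStab_of_apply_eq σ fun x => ?_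
      obtain ⟨⟨j, s⟩, rfl⟩ := hι x
      rw [wrEmb_apply, fι, fι]
    have hco := isCoatom_partStab_alternating (a := 3) (by omega) (by simp; omega) (by simp) hf3
    by_cases hk : ∃ k, Fintype.card α = 3 ^ k
    · obtain ⟨k, hk⟩ := hk
      have := Perm.sylow_isPretransitive_of_card_eq_pow (Ω := α) (f := k) (by simp [hk]) P
      have : Nontrivial α := Fintype.one_lt_card_iff_nontrivial.1 (by omega)
      obtain ⟨g, a, h3, h4⟩ := exists_partStab_of_isPGroup P.isPGroup'
      have h7 := card_eq_mul_of_card_fiber h3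
      rw [Fintype.card_fin] at h7
      have ha : 4 ≤ a := by
        by_contra ha
        have : Fintype.card α ≤ 9 := by omega
        omega
      obtain ⟨x, hx, y, hy, z, hz, hxy, hyz, hh⟩ := exists_cyc3_not_mem hf3 (s := {x | g x = 0})
        (ha.trans (h3 0).ge)
      exact ⟨_, _, hP, h4, hco, not_alternatingGroup_le_partStab (by omega) h3, _,
        cyc3_mem_alternatingGroup hxy hyz, mul_mem (swap_mem_partStab (hx.trans hy.symm))
          (swap_mem_partStab (hy.trans hz.symm)), hh⟩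
    · obtain ⟨x⟩ : Nonempty α := Fintype.card_pos_iff.1 (by omega)
      obtain ⟨k, h3⟩ := exists_ncard_orbit_eq_pow P.isPGroup' x
      have h4 : (orbit P x).ncard ≠ Fintype.card α := fun e => hk ⟨k, e.symm.trans h3⟩
      obtain ⟨y, hy⟩ : (orbit P x)ᶜ.Nonempty :=
        (Set.ncard_pos).1 (by have := hc (orbit P x); omega)
      refine ⟨_, _, hP, le_stabilizer_orbit _ x, hco,
        not_le_stab (by omega) (mem_orbit_self x) hy, ?_⟩
      by_cases h7 : 4 ≤ (orbit P x).ncard
      · obtain ⟨x, hx, y, hy, z, hz, hxy, hyz, hh⟩ := exists_cyc3_not_mem hf3 h7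
        exact ⟨_, cyc3_mem_alternatingGroup hxy hyz, cyc3_mem_stab hx hy hz, hh⟩
      · obtain ⟨w, hw, y, hy, z, hz, hxy, hyz, hh⟩ := exists_cyc3_not_mem hf3
          (s := (orbit P x)ᶜ) (by have := hc (orbit P x); omega)
        exact ⟨_, cyc3_mem_alternatingGroup hxy hyz,
          stabilizer_compl (G := Perm α) (s := orbit P x) ▸ cyc3_mem_stab hw hy hz, hh⟩
  · obtain ⟨x, hx⟩ : ∃ x, x ∉ Set.range ι := not_forall.1 hι
    have hP : (P : Subgroup (Perm α)) ≤ stabilizer (Perm α) ({x} : Set α) := by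
      rw [h, stabilizer_singleton]
      rintro _ ⟨σ, -, v, rfl⟩
      exact wrEmb_apply_of_not_mem ι σ v hx
    obtain ⟨s, hs, ⟨y, hy⟩, hxs, h3⟩ : ∃ s : Set α, (P : Subgroup (Perm α)) ≤ stabilizer (Perm α) s ∧
        s.Nonempty ∧ x ∉ s ∧ 3 ≤ sᶜ.ncard := by
      obtain ⟨y, hy⟩ := exists_not_mem_of_card_lt (s := {x}) (by simp; omega)
      obtain ⟨k, h3⟩ := exists_ncard_orbit_eq_pow P.isPGroup' y
      have h4 : x ∉ orbit P y := by
        rintro ⟨g, e⟩
        have := hP g.2
        rw [stabilizer_singleton] at this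
        exact hy (by simpa using g.1.injective (e.trans this.symm))
      by_cases h7 : 3 ≤ (orbit P y)ᶜ.ncard
      · exact ⟨_, le_stabilizer_orbit _ y, nonempty_orbit y, h4, h7⟩
      have h8 := (Set.ncard_pos).2 (⟨x, h4⟩ : (orbit P y)ᶜ.Nonempty)
      have h10 : (orbit P y)ᶜ.ncard = 2 := by
        have := hc (orbit P y)
        have := hn k
        by_contra
        have : k < 2 := by omega
        interval_cases k <;> omega
      have h11 : ((orbit P y)ᶜ \ {x}).ncard = 1 := by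
        rw [Set.ncard_sdiff_singleton_of_mem h4, h10]
      refine ⟨(orbit P y)ᶜ \ {x}, fun g hg => ?_, (Set.ncard_pos).1 (by omega), by simp,
        by have := hc ((orbit P y)ᶜ \ {x}); omega⟩
      rw [mem_stabilizer_iff, Set.smul_set_sdiff, Set.smul_set_compl, le_stabilizer_orbit _ y hg,
        hP hg]
    obtain ⟨z, hz, w, hw, hzw⟩ := (Set.one_lt_ncard (s := sᶜ \ {x})).1 (by
      rw [Set.ncard_sdiff_singleton_of_mem hxs]; omega)
    refine ⟨_, _, hP, hs, alternatingGroup.isCoatom_stabilizer_singleton (by simp; omega)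
      (by simp) (by simp), not_le_stab (by omega) hy hxs, _,
      cyc3_mem_alternatingGroup (Ne.symm hz.2) hzw,
      stabilizer_compl (G := Perm α) (s := s) ▸ cyc3_mem_stab hxs hz.1 hw.1, fun hh => ?_⟩
    rw [stabilizer_singleton, mem_stabilizer_iff, Perm.smul_def,
      cyc3_apply_fst (Ne.symm hz.2) (Ne.symm hw.2)] at hh
    exact hz.2 hh

end

/-- Let X be a finite 3-minimal group (a Sylow 3-subgroup is not normal and lies in a unique maximal subgroup) whose generalized Fitting subgroup is isomorphic to an alternating group of degree n ≥ 5. Then X = F*(X), and n = 6, n = 9, or n = 3ᵃ + 1 for some a ≥ 2. -/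
theorem result {X : Type*} [Group X] [Finite X] (hX : Cfsg.IsPMinimal 3 X) (n : ℕ) (hn : 5 ≤ n) (hF : Nonempty (↥(Cfsg.generalizedFittingSubgroup X) ≃* ↥(alternatingGroup (Fin n)))) : Cfsg.generalizedFittingSubgroup X = ⊤ ∧ (n = 6 ∨ n = 9 ∨ ∃ a : ℕ, 2 ≤ a ∧ n = 3 ^ a + 1) := by
  open Subgroup Equiv Equiv.Perm MulAction Cfsg.Agent.GT Cfsg.Agent.Sym Cfsg.Agent.Loc.SO Pointwise in
  obtain ⟨e⟩ := hF
  obtain ⟨S⟩ : Nonempty (Sylow 3 X) := inferInstance
  obtain ⟨hS, M, ⟨hM, hSM⟩, huniq⟩ := hX S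
  have hall : ∀ K : Subgroup X, (S : Subgroup X) ≤ K → K ≠ ⊤ → K ≤ M := fun K h1 h2 => by
    obtain ⟨N, hN, hKN⟩ := (eq_top_or_exists_le_coatom K).resolve_left h2
    exact huniq N ⟨hN, h1.trans hKN⟩ ▸ hKN
  have h4 : ∀ x : X, x ^ 4 ∈ generalizedFittingSubgroup X := fun x => by
    obtain ⟨l, hl⟩ := aut_alternating_pow_four_mem (by simp; omega)
      (MulAut.congr e (MulAut.conjNormal x))
    rw [← map_pow, ← map_pow] at hl
    have h1 : ((e.symm l : X))⁻¹ * x ^ 4 ∈ generalizedFittingSubgroup X := by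
      refine centralizer_genFitting_le fun y hy => ?_
      have := congrArg (fun φ : MulAut _ => ((e.symm (φ (e ⟨y, hy⟩)) : generalizedFittingSubgroup X) : X)) hl
      simp only [MulAut.conj_apply, map_mul, map_inv, MulEquiv.symm_apply_apply,
        MulAut.congr_apply, MulEquiv.trans_apply, Subgroup.coe_mul, Subgroup.coe_inv,
        MulAut.conjNormal_apply] at this
      calc y * ((e.symm l : X)⁻¹ * x ^ 4)
          = (e.symm l : X)⁻¹ * ((e.symm l : X) * y * (e.symm l : X)⁻¹) * x ^ 4 := by group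
        _ = _ := by rw [this]; group
    simpa using mul_mem (e.symm l).2 h1
  have hSL : (S : Subgroup X) ≤ generalizedFittingSubgroup X := fun x hx => by
    obtain ⟨k, hk⟩ := S.isPGroup' ⟨x, hx⟩
    have hk' : x ^ 3 ^ k = 1 := congrArg Subtype.val hk
    have hco : (orderOf x).Coprime 4 := (Nat.Coprime.pow_left k (by norm_num)).coprime_dvd_left
      (orderOf_dvd_of_pow_eq_one hk')
    obtain ⟨m, hm⟩ := exists_pow_eq_self_of_coprime hco.symm
    rw [← hm]; exact pow_mem (h4 x) m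
  have htop : generalizedFittingSubgroup X = ⊤ := by
    by_contra hne
    refine hM.1 (eq_top_iff.2 ?_)
    rw [← Sylow.normalizer_sup_eq_top' S hSL]
    exact sup_le (hall _ le_normalizer fun h => hS (normalizer_eq_top_iff.1 h)) (hall _ hSL hne)
  refine ⟨htop, ?_⟩
  by_contra! hcon
  set e' : X ≃* alternatingGroup (Fin n) :=
    topEquiv.symm.trans ((MulEquiv.subgroupCongr htop.symm).trans e)
  set f : X →* Perm (Fin n) := (alternatingGroup (Fin n)).subtype.comp e'.toMonoidHom with hf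
  obtain ⟨P, hP⟩ := (S.isPGroup'.map f).exists_le_sylow
  obtain ⟨H, K, h1, h2, h3, h5, g, hg, hgK, hgH⟩ := two_over (by simpa using hn)
    (by simpa using hcon.1) (by simpa using hcon.2.1) (by simpa using hcon.2.2) P
  have key : ∀ K : Subgroup (Perm (Fin n)), (P : Subgroup (Perm (Fin n))) ≤ K →
      ¬ alternatingGroup (Fin n) ≤ K →
      K.subgroupOf (alternatingGroup (Fin n)) ≤ M.comap e'.symm.toMonoidHom := by
    intro K hK hK' a ha
    refine hall (K.comap f) (map_le_iff_le_comap.1 (hP.trans hK)) (fun h => hK' fun b hb => ?_) ?_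
    · have : e'.symm ⟨b, hb⟩ ∈ K.comap f := h ▸ mem_top _
      simpa [hf] using this
    · simpa [hf, mem_subgroupOf] using ha
  have hne : M.comap e'.symm.toMonoidHom ≠ ⊤ := fun h => hM.1 (eq_top_iff.2 fun x _ => by
    have : e' x ∈ M.comap e'.symm.toMonoidHom := h ▸ mem_top _
    simpa using this)
  have hH := (h3.le_iff.1 (key H h1 fun h => h3.1 (subgroupOf_eq_top.2 h))).resolve_left hne
  exact hgH (show (⟨g, hg⟩ : alternatingGroup (Fin n)) ∈ H.subgroupOf _ from
    hH ▸ key K h2 h5 hgK)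

end Cfsg.Agent.S2930
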