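import Mathlib
import Cfsg.Statements.S2939
import Cfsg.Agent.Loc.SylowControl

set_option autoImplicit false
open Cfsg

namespace Cfsg.Agent.S2939

open Loc.Am Loc.SC Subgroup in
theorem aux {G : Type*} [Group G] [Finite G] {p : ℕ} [Fact p.Prime] (𝓕 : Set (Subgroup G))
    (h𝓕 : Cfsg.IsNormalSet 𝓕) :
    RelControl p 𝓕 ⊤ ↔ Cfsg.FamilyStronglyControlsFusion p 𝓕 := by
  constructor
  · rintro h S A g hA ⟨a, ha, ha1⟩ hg
    have hg' : A ⊆ (cj g S : Set G) := conjRight_subset_iff.mp hg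
    have hD : A ⊆ ((S : Subgroup G) ⊓ cj g S : Subgroup G) := fun x hx => ⟨hA hx, hg' hx⟩
    have h1 := h S (cj g S) (isSylowOf_top S) ((isSylowOf_top S).cj_of_mem (mem_top g))
      (fun h0 => ha1 (by simpa [h0] using hD ha))
    obtain ⟨w, hw, hwS⟩ := exists_fchain_of_chain h𝓕 hD h1
    obtain ⟨n, Y, y, h2, rfl, h3⟩ := fchain_iff_list.mp hw
    refine ⟨n, Y, y, (List.ofFn y).prod⁻¹ * g, ?_, h2, by simp, h3⟩
    rw [← cj_eq_self_iff, cj_mul, ← hwS, cj_inv_cj]
  · intro h S T hS hT hne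
    obtain ⟨g, -, rfl⟩ := hS.exists_cj hT
    obtain ⟨S, rfl⟩ := hS.exists_sylow_top
    obtain ⟨⟨a, ha⟩, ha1⟩ := ne_bot_iff_exists_ne_one.mp hne
    obtain ⟨n, Y, y, y₀, hy₀, h1, h2, h3⟩ := h S ((S : Subgroup G) ⊓ cj g S : Subgroup G) g
      (fun x hx => hx.1) ⟨a, ha, fun h0 => ha1 (Subtype.ext h0)⟩
      (conjRight_subset_iff.mpr fun x hx => hx.2)
    have h4 := (chain_of_fchain h𝓕 hS inf_le_left
      (fchain_iff_list.mpr ⟨n, Y, y, h1, rfl, h3⟩)).2
    have : cj (List.ofFn y).prod (S : Subgroup G) = cj g S := by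
      rw [h2, cj_mul, cj_eq_of_mem_normalizer hy₀]
    rwa [this] at h4

/-- Let p be a prime dividing the order of the finite group G and 𝓕 a family of subgroups of G closed under conjugation, with conjugates taken as X^g = g⁻¹Xg. Then 𝓕 controls Sylow p-intersections in G (any two distinct Sylow p-subgroups S and T with S ∩ T ≠ 1 are joined by a chain S = S₀, S₁, …, Sₙ = T of Sylow p-subgroups where, for each i, some member Xᵢ of 𝓕 meets both S_{i-1} and Sᵢ in Sylow p-subgroups of Xᵢ, satisfies S ∩ T ≤ Sᵢ ∩ Xᵢ, and contains an element xᵢ with Sᵢ^{xᵢ} = S_{i-1}) if and only if 𝓕 strongly controls p-fusion in G (whenever A is a subset of a Sylow p-subgroup S, A contains an element other than 1, and A^g ⊆ S, the element g factorises as g = y₁⋯yₙy with y ∈ N_G(S) and each yᵢ in a member Yᵢ of 𝓕 that meets S in a Sylow p-subgroup of Yᵢ, with A^{y₁⋯yᵢ} ⊆ S ∩ Yᵢ for each i). -/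
theorem result {G : Type*} [Group G] [Finite G] {p : ℕ} [Fact p.Prime] (hdiv : p ∣ Nat.card G) (𝓕 : Set (Subgroup G)) (h𝓕 : Cfsg.IsNormalSet 𝓕) : Cfsg.ControlsSylowIntersections p 𝓕 ↔ Cfsg.FamilyStronglyControlsFusion p 𝓕 := by
  rw [Loc.SC.controls_iff_relControl]
  exact aux 𝓕 h𝓕

end Cfsg.Agent.S2939
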