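import Mathlib
import Cfsg.Statements.S2955
import Cfsg.Agent.Loc.SylowControl

set_option autoImplicit false
open Cfsg

namespace Cfsg.Agent.S2955

/-- Let p be a prime dividing the order of the finite group G and 𝓕 a conjugation-closed family of subgroups that controls Sylow p-intersections in G. Suppose the Sylow p-subgroups of G are chain-connected: any two of them are joined by a chain of Sylow p-subgroups, consecutive ones distinct with nontrivial intersection, all containing the intersection of the two ends (equivalently, the graph on the Sylow p-subgroups whose edges are the distinct pairs meeting nontrivially is connected). Then for every Sylow p-subgroup S, G is generated by N_G(S) together with the members of 𝓕 that meet S in a Sylow p-subgroup of themselves. -/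
theorem result {G : Type*} [Group G] [Finite G] (p : ℕ) [Fact p.Prime] (hdiv : p ∣ Nat.card G)
    (𝓕 : Set (Subgroup G)) (h𝓕 : Cfsg.IsNormalSet 𝓕) (hc : Cfsg.ControlsSylowIntersections p 𝓕)
    (hconn : Cfsg.IsSylowChainConnected p G) (S : Sylow p G) :
    (⨆ X ∈ Cfsg.sylowMembers p 𝓕 (S : Subgroup G), X) ⊔ Subgroup.normalizer ((S : Subgroup G) : Set G) = ⊤ := by
  open Loc.Am Loc.SC Subgroup in
  rw [controls_iff_relControl] at hc
  set H := (⨆ X ∈ Cfsg.sylowMembers p 𝓕 (S : Subgroup G), X) ⊔
    Subgroup.normalizer ((S : Subgroup G) : Set G) with hH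
  rw [eq_top_iff]
  intro g _
  obtain ⟨T, hT⟩ := ((isSylowOf_top S).cj_of_mem (mem_top g)).exists_sylow_top
  obtain ⟨n, c, h0, hl, -, hs⟩ := hconn S T
  have key : ∀ i : Fin (n + 1), ∃ h ∈ H, cj h S = c i := by
    intro i
    induction i using Fin.induction with
    | zero => exact ⟨1, one_mem _, by rw [h0, cj_one]⟩
    | succ i ih =>
      obtain ⟨h, hh, hc'⟩ := ih
      have h1 := hc S (cj h⁻¹ (c i.succ)) (isSylowOf_top S)
        ((isSylowOf_top _).cj_of_mem (mem_top _)) (by
          have := (hs i).2
          rwa [← hc', Ne, ← cj_eq_bot_iff h⁻¹, cj_inf, cj_inv_cj] at this)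
      obtain ⟨w, hw, hwS⟩ := exists_fchain_of_chain h𝓕 subset_rfl h1
      exact ⟨h * w, mul_mem hh (mem_sup_left (mem_iSup_of_fchain hw)),
        by rw [cj_mul, hwS, cj_cj_inv]⟩
  obtain ⟨h, hh, hc'⟩ := key (Fin.last n)
  rw [hl, hT] at hc'
  have : h⁻¹ * g ∈ normalizer ((S : Subgroup G) : Set G) := by
    rw [← cj_eq_self_iff, cj_mul, ← hc', cj_inv_cj]
  rw [← mul_inv_cancel_left h g]
  exact mul_mem hh (mem_sup_right this)

end Cfsg.Agent.S2955
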