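import Mathlib
import Cfsg.Statements.S2956
import Cfsg.Agent.Loc.SylowControl

set_option autoImplicit false
open Cfsg

namespace Cfsg.Agent.S2956

section
open Loc.Am Loc.SC Subgroup Relation

theorem exists_max {G : Type*} [Group G] [Finite G] {p : ℕ} {F : Subgroup G} (hF : IsPGroup p F)
    (hne : F ≠ ⊥) : ∃ M, IsMaximalPLocal p M ∧ normalizer (F : Set G) ≤ M := by
  obtain ⟨M, h1, h2, h3⟩ := GT.exists_maximal_ge (P := IsPLocal p) ⟨F, hF, hne, rfl⟩
  exact ⟨M, ⟨h2, h3⟩, h1⟩

end

/-- Let p be a prime dividing the order of the finite group G, and f an assignment to every p-subgroup P of a set f(P) of subgroups of P, each normalized by N_G(P), compatible with conjugation, such that for P ≠ 1 the members of f(P) are nontrivial. Let 𝓕 be the family of the normalizers N_G(F) of the members F of f(S) over the Sylow p-subgroups S of G, and 𝓕' the family of the maximal p-local subgroups M of G that are singular for f (the corresponding family of normalizers inside M does not control Sylow p-intersections in M). Then 𝓕 ∪ 𝓕'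 controls Sylow p-intersections in G. -/
theorem result {G : Type*} [Group G] [Finite G] (p : ℕ) [Fact p.Prime] (hdiv : p ∣ Nat.card G)
    (f : Subgroup G → Set (Subgroup G)) (hf : Cfsg.IsNormalizerFunctor p f)
    (hf1 : ∀ P : Subgroup G, IsPGroup p ↥P → P ≠ ⊥ → ∀ F ∈ f P, F ≠ ⊥)
    (𝓕 𝓕' : Set (Subgroup G)) (h𝓕 : 𝓕 = Cfsg.functorFamily p f ⊤)
    (h𝓕' : 𝓕' = {M | Cfsg.IsMaximalPLocal p M ∧ ¬ Cfsg.IsFunctorRegular p f M}) :
    Cfsg.ControlsSylowIntersections p (𝓕 ∪ 𝓕') := by
  open Loc.Am Loc.SC Subgroup Relation in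
  subst h𝓕 h𝓕'
  rw [controls_iff_relControl]
  set 𝓖 := Cfsg.functorFamily p f ⊤ ∪ {M | Cfsg.IsMaximalPLocal p M ∧ ¬ Cfsg.IsFunctorRegular p f M}
  have main : ∀ D : Subgroup G, D ≠ ⊥ → ∀ S T : Subgroup G, IsSylowOf p S ⊤ → IsSylowOf p T ⊤ →
      D ≤ S → D ≤ T → ReflTransGen (SStep p 𝓖 ⊤ D) S T := by
    intro D
    induction D using GT.subgroup_gt_induction with
    | h D ihD =>
    intro hD
    have big : ∀ S T : Subgroup G, IsSylowOf p S ⊤ → IsSylowOf p T ⊤ → D < S ⊓ T →
        ReflTransGen (SStep p 𝓖 ⊤ D) S T := fun S T hS hT hlt =>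
      chain_anti (ihD _ hlt hlt.ne_bot S T hS hT inf_le_left inf_le_right) hlt.le
    have sec : ∀ n : ℕ, ∀ M R : Subgroup G, IsMaximalPLocal p M → IsSylowOf p R M →
        Nat.card G - Nat.card R = n → ∀ S T : Subgroup G, IsSylowOf p S ⊤ → IsSylowOf p T ⊤ →
        D < S ⊓ M → D < T ⊓ M → ReflTransGen (SStep p 𝓖 ⊤ D) S T := by
      intro n
      induction n using Nat.strong_induction_on with
      | h n ihn =>
      intro M R hM hR hn S T hS hT hSM hTM
      obtain ⟨S₁, hS₁, hSS₁⟩ := exists_isSylowOf_ge (p := p) (R := S ⊓ M) (H := M)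
        (hS.isPGroup.to_le inf_le_left) inf_le_right
      obtain ⟨T₁, hT₁, hTT₁⟩ := exists_isSylowOf_ge (p := p) (R := T ⊓ M) (H := M)
        (hT.isPGroup.to_le inf_le_left) inf_le_right
      have hDS₁ : D < S₁ := hSM.trans_le hSS₁
      have hDT₁ : D < T₁ := hTM.trans_le hTT₁
      by_cases hreg : IsFunctorRegular p f M
      · rw [isFunctorRegular_iff] at hreg
        have hc := chain_anti (hreg S₁ T₁ hS₁ hT₁
          (ne_bot_of_le_ne_bot hD (le_inf hDS₁.le hDT₁.le))) (le_inf hDS₁.le hDT₁.le)
        have lift : ∀ B, ReflTransGen (SStep p (functorFamily p f M) M D) S₁ B →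
            ∀ B', IsSylowOf p B' ⊤ → B ≤ B' → ReflTransGen (SStep p 𝓖 ⊤ D) S B' := by
          intro B hB
          induction hB with
          | refl =>
            intro B' hB' hle
            exact big S B' hS hB' (hSM.trans_le (le_inf inf_le_left (hSS₁.trans hle)))
          | @tail A B _ hAB ih =>
            intro B' hB' hle
            by_cases hA : IsSylowOf p A ⊤
            · have h1 := hAB.functor_top hf hA
              have h2 : B' = B := h1.2.1.max B' hB'.isPGroup hle le_top
              subst h2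
              refine (ih A hA le_rfl).tail ?_
              obtain ⟨a1, a2, X, hX, a3⟩ := h1
              exact ⟨a1, a2, X, Or.inl hX, a3⟩
            · obtain ⟨A', hA', hle'⟩ := exists_isSylowOf_ge (p := p) hAB.1.isPGroup le_top
              refine (ih A' hA' hle').trans ?_
              obtain ⟨h1, h2, X, hX, h3, h4, -, h6, h7, -⟩ := hAB
              obtain ⟨P, hP, F, hF, rfl⟩ := mem_functorFamily.mp hX
              have hFP := (hf P hP.isPGroup).1 F hF
              have hPF : P ≤ normalizer (F : Set G) := le_normalizer.trans hFP.2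
              have hAX := le_of_isSylowOf_inf hP (le_inf hP.le hPF) inf_le_left h1 h3
              have hBX := le_of_isSylowOf_inf hP (le_inf hP.le hPF) inf_le_left h2 h4
              have hcD := GT.Tr.card_lt_of_lt hDS₁
              have hDA : D < A := lt_of_le_of_ne h6 fun h => by
                have := h1.card_eq_card hS₁; rw [← h] at this; omega
              have hDB : D < B := lt_of_le_of_ne h7 fun h => by
                have := h2.card_eq_card hS₁; rw [← h] at this; omega
              have hP1 : P ≠ ⊥ := fun h => by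
                have := hP.card_eq_card hS₁
                have h0 : 0 < Nat.card D := Nat.card_pos
                rw [h, card_bot] at this; omega
              obtain ⟨M', hM', hFM'⟩ := exists_max (hP.isPGroup.to_le hFP.1)
                (hf1 P hP.isPGroup hP1 F hF)
              obtain ⟨P', hP', hPP'⟩ := exists_isSylowOf_ge (p := p) hP.isPGroup le_top
              have hlt : P < P' := lt_of_le_of_ne hPP' fun h =>
                hA (hP'.of_card_eq le_top (h ▸ h1.card_eq_card hP))
              have hlt' := GT.Tr.lt_inf_normalizer hP'.isPGroup hlt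
              obtain ⟨R', hR', hle''⟩ := exists_isSylowOf_ge (p := p)
                (R := P' ⊓ normalizer (P : Set G)) (H := M') (hP'.isPGroup.to_le inf_le_left)
                (inf_le_right.trans (hFP.2.trans hFM'))
              have hc1 := GT.Tr.card_lt_of_lt (hlt'.trans_le hle'')
              have hc2 := hP.card_eq_card hR
              have hc3 : Nat.card R' ≤ Nat.card G := card_le_card_group R'
              exact ihn (Nat.card G - Nat.card R') (by omega) M' R' hM' hR' rfl A' B' hA' hB'
                (hDA.trans_le (le_inf hle' (hAX.trans (inf_le_right.trans hFM'))))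
                (hDB.trans_le (le_inf hle (hBX.trans (inf_le_right.trans hFM'))))
        obtain ⟨T₂, hT₂, hle⟩ := exists_isSylowOf_ge (p := p) hT₁.isPGroup le_top
        exact (lift T₁ hc T₂ hT₂ hle).trans
          (big T₂ T hT₂ hT (hTM.trans_le (le_inf (hTT₁.trans hle) inf_le_left)))
      · obtain ⟨S₂, hS₂, hle⟩ := exists_isSylowOf_ge (p := p) hS₁.isPGroup le_top
        obtain ⟨x, hx, hxS⟩ := hS₁.exists_cj hT₁
        have hT₂ : IsSylowOf p (cj x S₂) ⊤ := hS₂.cj_of_mem (mem_top x)
        have hle' : T₁ ≤ cj x S₂ := hxS ▸ cj_mono x hle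
        have e1 : S₂ ⊓ M = S₁ := hS₁.max _ (hS₂.isPGroup.to_le inf_le_left) (le_inf hle hS₁.le)
          inf_le_right
        have e2 : cj x S₂ ⊓ M = T₁ := hT₁.max _ (hT₂.isPGroup.to_le inf_le_left)
          (le_inf hle' hT₁.le) inf_le_right
        refine ((big S S₂ hS hS₂ (hSM.trans_le (le_inf inf_le_left (hSS₁.trans hle)))).tail
          ⟨hS₂, hT₂, M, Or.inr ⟨hM, hreg⟩, e1 ▸ hS₁, e2 ▸ hT₁, ⟨x, hx, rfl⟩, hDS₁.le.trans hle,
            hDT₁.le.trans hle', hDS₁.le.trans hS₁.le⟩).trans
          (big _ T hT₂ hT (hTM.trans_le (le_inf (hTT₁.trans hle') inf_le_left)))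
    intro S T hS hT hDS hDT
    by_cases hST : S = T
    · subst hST; exact ReflTransGen.refl
    have hDS' : D < S := lt_of_le_of_ne hDS fun h =>
      hST (hS.max T hT.isPGroup (h ▸ hDT) le_top).symm
    have hDT' : D < T := lt_of_le_of_ne hDT fun h =>
      hST (hT.max S hS.isPGroup (h ▸ hDS) le_top)
    obtain ⟨M, hM, hDM⟩ := exists_max (hS.isPGroup.to_le hDS) hD
    obtain ⟨R, hR⟩ := exists_isSylowOf p M
    exact sec _ M R hM hR rfl S T hS hT
      ((GT.Tr.lt_inf_normalizer hS.isPGroup hDS').trans_le (inf_le_inf_left _ hDM))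
      ((GT.Tr.lt_inf_normalizer hT.isPGroup hDT').trans_le (inf_le_inf_left _ hDM))
  intro S T hS hT hne
  exact main _ hne S T hS hT inf_le_left inf_le_right

end Cfsg.Agent.S2956
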