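import Mathlib
import Cfsg.Statements.S2957
import Cfsg.Agent.Loc.SylowControl

set_option autoImplicit false
open Cfsg

namespace Cfsg.Agent.S2957

/-- Let p be a prime dividing the order of the finite group G, f an equivariant assignment of a set of subgroups f(P) of P to every p-subgroup P, each normalized by N_G(P), and S a Sylow p-subgroup. If G = G₁G₂ for subgroups G₁, G₂ both containing S and both regular for f (in each Gᵢ, the family of normalizers in Gᵢ of the members of f(P), P a Sylow p-subgroup of Gᵢ, controls Sylow p-intersections), then G itself is regular for f. -/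
theorem result {G : Type*} [Group G] [Finite G] (p : ℕ) [Fact p.Prime] (hdiv : p ∣ Nat.card G)
    (f : Subgroup G → Set (Subgroup G)) (hf : Cfsg.IsNormalizerFunctor p f) (S : Sylow p G)
    (G₁ G₂ : Subgroup G) (h₁ : (S : Subgroup G) ≤ G₁) (h₂ : (S : Subgroup G) ≤ G₂)
    (hprod : ∀ g : G, ∃ g₁ ∈ G₁, ∃ g₂ ∈ G₂, g = g₁ * g₂)
    (hr₁ : Cfsg.IsFunctorRegular p f G₁) (hr₂ : Cfsg.IsFunctorRegular p f G₂) :
    Cfsg.IsFunctorRegular p f ⊤ := by
  open Loc.Am Loc.SC Subgroup in
  rw [isFunctorRegular_iff] at hr₁ hr₂ ⊢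
  have hS := isSylowOf_top S
  have key : ∀ g : G, (S : Subgroup G) ⊓ cj g S ≠ ⊥ → Relation.ReflTransGen
      (SStep p (functorFamily p f ⊤) ⊤ ((S : Subgroup G) ⊓ cj g S)) S (cj g S) := by
    intro g hne
    obtain ⟨U, hU, h3, h4⟩ := exists_sylow_between hS h₁ h₂ hprod g
    have hU1 : U ≤ G₁ := h4.trans inf_le_left
    have hU2 : U ≤ cj g G₂ := h4.trans inf_le_right
    have hS' : IsSylowOf p (cj g S) ⊤ := hS.cj_of_mem (mem_top g)
    have a1 : (S : Subgroup G) ⊓ cj g S ≤ (S : Subgroup G) ⊓ U := le_inf inf_le_left h3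
    have a2 : (S : Subgroup G) ⊓ cj g S ≤ U ⊓ cj g S := le_inf h3 inf_le_right
    have c1 := hr₁ S U (hS.mono h₁ le_top) (hU.mono hU1 le_top) (ne_bot_of_le_ne_bot hne a1)
    have c2 := (hr₂.cj g fun X hX => cj_mem_functorFamily hf hX g) U (cj g S)
      (hU.mono hU2 le_top) (hS'.mono (cj_mono g h₂) le_top) (ne_bot_of_le_ne_bot hne a2)
    exact (chain_anti (chain_functor_top hf c1 hS h₁) a1).trans
      (chain_anti (chain_functor_top hf c2 hU hU2) a2)
  intro A B hA hB hne
  obtain ⟨a, -, rfl⟩ := hS.exists_cj hA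
  obtain ⟨b, -, rfl⟩ := hS.exists_cj hB
  have h1 := key (a⁻¹ * b) (by rwa [Ne, ← cj_eq_bot_iff a, cj_inf, cj_mul, cj_cj_inv])
  have h2 := rtg_lift h1 (s := SStep p (functorFamily p f ⊤) ⊤ (cj a S ⊓ cj b S)) (cj a)
    (fun X Y hXY => by
      have := hXY.cj (𝓕' := functorFamily p f ⊤) a
        (fun X hX => cj_top a ▸ cj_mem_functorFamily hf hX a)
      rwa [cj_top, cj_inf, cj_mul, cj_cj_inv] at this)
  rwa [cj_mul, cj_cj_inv] at h2

end Cfsg.Agent.S2957
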