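import Mathlib
import Cfsg.Statements.S2958
import Cfsg.Agent.Loc.AmBasic

set_option autoImplicit false
open Cfsg

namespace Cfsg.Agent.S2958

/-- Let X, A, B be subgroups of a group G such that G is generated by the conjugates of X and every conjugate of X is contained in A or in B. Then A = G or B = G. -/
theorem result {G : Type*} [Group G] (X A B : Subgroup G) (hgen : (⨆ g : G, X.map (MulAut.conj g).toMonoidHom) = ⊤) (hcover : ∀ g : G, X.map (MulAut.conj g).toMonoidHom ≤ A ∨ X.map (MulAut.conj g).toMonoidHom ≤ B) : A = ⊤ ∨ B = ⊤ := by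
  open Subgroup Cfsg.Agent.Loc.Am in
  by_cases hA : ∀ g : G, cj g X ≤ A
  · left
    rw [eq_top_iff, ← hgen]
    exact iSup_le hA
  right
  push Not at hA
  obtain ⟨g₀, hg₀⟩ := hA
  set B₀ : Subgroup G := ⨆ g : {g : G // ¬ cj g X ≤ A}, cj (g : G) X with hB₀
  have hle : ∀ g : G, ¬ cj g X ≤ A → cj g X ≤ B₀ := fun g hg =>
    le_iSup (fun g : {g : G // ¬ cj g X ≤ A} => cj (g : G) X) ⟨g, hg⟩
  have hB : B₀ ≤ B := iSup_le fun g => (hcover g).resolve_left g.2
  have hAn : A ≤ normalizer (B₀ : Set G) := by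
    apply le_normalizer_of_cj
    intro a ha
    rw [hB₀, cj, Subgroup.map_iSup]
    refine iSup_le fun g => ?_
    have := hle (a * g) (fun h => g.2 (by
      rw [cj_mul] at h
      exact (cj_le_cj_iff a).mp (h.trans (cj_eq_of_mem ha).ge)))
    rw [cj_mul] at this
    exact this
  have hn : (⊤ : Subgroup G) ≤ normalizer (B₀ : Set G) := by
    rw [← hgen]
    refine iSup_le fun g => ?_
    by_cases h : cj g X ≤ A
    · exact h.trans hAn
    · exact (hle g h).trans le_normalizer
  rw [eq_top_iff, ← hgen]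
  refine iSup_le fun g => le_trans ?_ hB
  have h1 := cj_mono (g * g₀⁻¹) (hle g₀ hg₀)
  rw [← cj_mul, cj_eq_of_mem_normalizer (hn (mem_top _)), inv_mul_cancel_right] at h1
  exact h1

end Cfsg.Agent.S2958
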