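import Mathlib
import Cfsg.Statements.S2963

set_option autoImplicit false
open Cfsg

namespace Cfsg.Agent.S2963

theorem odd_choose {m r : ℕ} (h : r < 2 ^ m) : ¬ 2 ∣ (2 ^ m + r).choose r := by
  intro hd
  have h1 := (Nat.prime_two.dvd_iff_one_le_factorization (Nat.choose_pos (by omega)).ne').1 hd
  rw [Nat.factorization_choose' Nat.prime_two (b := m + 1) (Nat.log_lt_of_lt_pow
    (by positivity) (by rw [pow_succ]; omega)), Nat.succ_le_iff, Finset.card_pos] at h1
  obtain ⟨i, hi⟩ := h1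
  simp only [Finset.mem_filter, Finset.mem_Ico] at hi
  have h2 : 2 ^ m % 2 ^ i = 0 := Nat.mod_eq_zero_of_dvd (pow_dvd_pow 2 (by omega))
  have h3 : r % 2 ^ i < 2 ^ i := Nat.mod_lt _ (by positivity)
  omega

open MulAction Pointwise in
theorem exists_stab {n k : ℕ} (S : Sylow 2 (Equiv.Perm (Fin n))) (h : ¬ 2 ∣ n.choose k) :
    ∃ A : Set (Fin n), A.ncard = k ∧ (S : Subgroup (Equiv.Perm (Fin n))) ≤ stabilizer _ A := by
  obtain ⟨A, hA⟩ := S.isPGroup'.nonempty_fixed_point_of_prime_not_dvd_card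
    (Set.powersetCard (Fin n) k) (by rwa [Set.powersetCard.card, Nat.card_fin])
  refine ⟨A, Set.powersetCard.ncard_eq A, fun g hg => ?_⟩
  rw [← Set.powersetCard.stabilizer_coe]
  exact hA ⟨g, hg⟩


/-- Let n be odd. If the symmetric group of degree n is a minimal parabolic group for the prime 2, that is, a Sylow 2-subgroup is not normal and lies in exactly one maximal subgroup, then n = 2^m + 1 for some natural number m. -/
theorem result (n : ℕ) (hn : Odd n) (h : Cfsg.IsPMinimal 2 (Equiv.Perm (Fin n))) : ∃ m : ℕ, n = 2 ^ m + 1 := by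
  open Pointwise in
  obtain ⟨S⟩ := (inferInstance : Nonempty (Sylow 2 (Equiv.Perm (Fin n))))
  obtain ⟨hS, M, -, hM⟩ := h S
  by_contra hne
  push Not at hne
  have hn0 : n ≠ 0 := hn.pos.ne'
  have hn1 : n ≠ 1 := by
    rintro rfl
    exact hS ⟨fun a ha g => by rwa [Subsingleton.elim (g * a * g⁻¹) a]⟩
  obtain ⟨r, hr⟩ := Nat.exists_eq_add_of_le (Nat.pow_log_le_self 2 hn0)
  have hlt := Nat.lt_pow_succ_log_self one_lt_two n
  generalize Nat.log 2 n = m at hr hlt
  rw [pow_succ] at hlt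
  have hr1 := hne m
  have hm : m ≠ 0 := by rintro rfl; omega
  have h2 : 2 ∣ 2 ^ m := dvd_pow_self 2 hm
  have hn2 := Nat.odd_iff.1 hn
  obtain ⟨A, hA, hSA⟩ := exists_stab S (k := r) (hr ▸ odd_choose (by omega))
  obtain ⟨B, hB, hSB⟩ := exists_stab S (k := 1) (by rw [Nat.choose_one_right]; omega)
  have hc : ∀ C : Set (Fin n), Cᶜ.ncard = n - C.ncard := fun C => by
    have := Set.ncard_add_ncard_compl C
    rw [Nat.card_fin] at this
    omega
  have hco : ∀ C : Set (Fin n), 0 < C.ncard → C.ncard < n →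
      IsCoatom (MulAction.stabilizer (Equiv.Perm (Fin n)) C) := fun C h1 h2 =>
    Equiv.Perm.isCoatom_stabilizer ((Set.ncard_pos (Set.toFinite _)).1 h1)
      ((Set.ncard_pos (Set.toFinite _)).1 (by rw [hc]; omega)) (by rw [Nat.card_fin]; omega)
  have he := (hM _ ⟨hco A (by omega) (by omega), hSA⟩).trans
    (hM _ ⟨hco B (by omega) (by omega), hSB⟩).symm
  obtain ⟨b, rfl⟩ := Set.ncard_eq_one.1 hB
  obtain ⟨x, hx, hxb⟩ := Set.exists_ne_of_one_lt_ncard (s := A) (by omega) b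
  obtain ⟨y, hy, hyb⟩ := Set.exists_ne_of_one_lt_ncard (s := Aᶜ) (by rw [hc]; omega) b
  have h3 : Equiv.swap x y ∈ MulAction.stabilizer (Equiv.Perm (Fin n)) ({b} : Set (Fin n)) := by
    rw [MulAction.mem_stabilizer_iff, Set.smul_set_singleton, Equiv.Perm.smul_def,
      Equiv.swap_apply_of_ne_of_ne hxb.symm hyb.symm]
  rw [← he, MulAction.mem_stabilizer_iff] at h3
  refine hy (h3 ▸ ⟨x, hx, ?_⟩)
  simp

end Cfsg.Agent.S2963
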