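import Mathlib
import Cfsg.Statements.S2981
import Cfsg.Agent.Loc.BHLocal

set_option autoImplicit false
open Cfsg

namespace Cfsg.Agent.S2981

/-- The local C**(G,T)-Theorem for minimal parabolic groups. Let G be a finite p-minimal group (a Sylow p-subgroup T is not normal and lies in exactly one maximal subgroup) of characteristic p (C_G(O_p(G)) ≤ O_p(G)), and suppose G ≠ C**(G,T), the subgroup generated by C_G(Ω₁(Z(T))) and N_G(J(T)) (J(T) generated by the elementary abelian p-subgroups of T of largest order). Put V = Ω₁(Z(O_p(G))) and C = C_G(V). Then there are subgroups E₁, …, E_r of G containing C such that: J(G)TC = G and the E_i C/C form an internal direct product equal to J(G)C/C; any two of the E_i are conjugate by an element of T; V = C_V(⟨E_i⟩)·∏[V, E_i] with [V, E_i, E_j] = 1 for i ≠ j; for some n ≥ 1, each E_i/C is isomorphic to SL₂(pⁿ), or p = 2 and to the symmetric group of degree 2ⁿ + 1; and E_i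 acts on [V, E_i]/C_{[V,E_i]}(E_i) as the natural two-dimensional SL₂(pⁿ)-module, respectively as the symmetric group of degree 2ⁿ+1 on its even-weight permutation module. -/
theorem result {G : Type*} [Group G] [Finite G] {p : ℕ} [Fact p.Prime] (hmin : Cfsg.IsPMinimal p G) (hG : Subgroup.centralizer (Cfsg.pCore p G : Set G) ≤ Cfsg.pCore p G) (T : Sylow p G) (hne : Cfsg.cStarStarOf p (T : Subgroup G) ≠ ⊤) : ∃ (r : ℕ) (E : Fin r → Subgroup G), (∀ i, Subgroup.centralizer (Cfsg.omegaOneCenter p (Cfsg.pCore p G) : Set G) ≤ E i) ∧ Cfsg.thompsonSubgroup p G ⊔ (T : Subgroup G) ⊔ Subgroup.centralizer (Cfsg.omegaOneCenter p (Cfsg.pCore p G) : Set G) = ⊤ ∧ (⨆ i, E i) = Cfsg.thompsonSubgroup p G ⊔ Subgroup.centralizer (Cfsg.omegaOneCenter p (Cfsg.pCore p G) : Set G) ∧ (∀ i j, i ≠ j → ⁅E i, E j⁆ ≤ Subgroup.centralizer (Cfsg.omegaOneCenter p (Cfsg.pCore p G) : Set G)) ∧ (∀ i, E i ⊓ (⨆ j ∈ {j | j ≠ i}, E j) ≤ Subgroup.centralizer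 (Cfsg.omegaOneCenter p (Cfsg.pCore p G) : Set G)) ∧ (∀ i j, ∃ t ∈ (T : Subgroup G), (E i).map (MulAut.conj t).toMonoidHom = E j) ∧ (Cfsg.omegaOneCenter p (Cfsg.pCore p G) ⊓ Subgroup.centralizer ((⨆ i, E i : Subgroup G) : Set G)) ⊔ (⨆ i, ⁅Cfsg.omegaOneCenter p (Cfsg.pCore p G), E i⁆) = Cfsg.omegaOneCenter p (Cfsg.pCore p G) ∧ (∀ i j, i ≠ j → ⁅⁅Cfsg.omegaOneCenter p (Cfsg.pCore p G), E i⁆, E j⁆ = ⊥) ∧ ∀ i, ∃ n : ℕ, 1 ≤ n ∧ ((∃ (F : Type) (_ : Field F) (_ : Fintype F), Fintype.card F = p ^ n ∧ (∃ _ : ((Subgroup.centralizer (Cfsg.omegaOneCenter p (Cfsg.pCore p G) : Set G)).subgroupOf (E i)).Normal, Nonempty (↥(E i) ⧸ (Subgroup.centralizer (Cfsg.omegaOneCenter p (Cfsg.pCore p G) : Set G)).subgroupOf (E i) ≃* Matrix.SpecialLinearGroup (Fin 2) F)) ∧ Cfsg.ActsAsSL2OnSection F ⊤ (E i) ⁅Cfsg.omegaOneCenter p (Cfsg.pCore p G), E i⁆ (⁅Cfsg.omegaOneCenter p (Cfsg.pCore p G), E i⁆ ⊓ Subgroup.centralizer ((E i : Subgroup G) :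 Set G))) ∨ (p = 2 ∧ (∃ _ : ((Subgroup.centralizer (Cfsg.omegaOneCenter p (Cfsg.pCore p G) : Set G)).subgroupOf (E i)).Normal, Nonempty (↥(E i) ⧸ (Subgroup.centralizer (Cfsg.omegaOneCenter p (Cfsg.pCore p G) : Set G)).subgroupOf (E i) ≃* Equiv.Perm (Fin (2 ^ n + 1)))) ∧ Cfsg.ActsAsOddPermModuleOnSection (2 ^ n + 1) ⊤ (E i) ⁅Cfsg.omegaOneCenter p (Cfsg.pCore p G), E i⁆ (⁅Cfsg.omegaOneCenter p (Cfsg.pCore p G), E i⁆ ⊓ Subgroup.centralizer ((E i : Subgroup G) : Set G)))) := by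
  open Subgroup Loc Loc.Am Loc.BH Cfsg.Agent.GT in
  obtain ⟨M, h⟩ := exists_pm hmin T
  have hM : cStarStarOf p (T : Subgroup G) ≤ M := h.le_of_ne
    ((le_centralizer_omZ p _).trans le_sup_left) hne
  have hz : centralizer (omZ p (T : Subgroup G) : Set G) ≤ M := le_sup_left.trans hM
  have hJ : normalizer (thJ p (T : Subgroup G) : Set G) ≤ M :=
    thompsonSubgroupOf_eq p (T : Subgroup G) ▸ le_sup_right.trans hM
  have S := h.setup_quot hG hz
  obtain ⟨𝒟, q, hD, eD⟩ := h.exists_oFam_thJ hG hz hJ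
  obtain ⟨r, E, -, h1, h2, h3, h4⟩ := S.exists_family hD
  have h5 := fun i => (h4 i).cm_sup_fx
  have hσ := compat_quotRep (ea_omZ p (pCore p G))
  have hs := S.sSup_sup hD
  rw [thompsonSubgroup_eq, show omegaOneCenter p (pCore p G) = omZ p (pCore p G) from rfl]
  set V := omZ p (pCore p G)
  set C := centralizer (V : Set G)
  set π := QuotientGroup.mk' C
  have hπ : Function.Surjective π := QuotientGroup.mk'_surjective C
  have hk : π.ker = C := QuotientGroup.ker_mk' C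
  have him : ∀ X, img (topMk C) (X.comap π) = X := fun X => by
    rw [img_topMk, map_comap_eq_self_of_surjective hπ]
  have hC : ∀ X : Subgroup (G ⧸ C), C ≤ X.comap π := fun X => hk.ge.trans (ker_le_comap π X)
  have hle : ∀ X : Subgroup G, X.map π = ⊥ → X ≤ C := fun X e =>
    ((Subgroup.map_eq_bot_iff _).1 e).trans_eq hk
  have hi : Nonempty (Fin r) := by
    by_contra e
    rw [not_nonempty_iff] at e
    obtain ⟨D, hD1⟩ := hD.ne
    exact (hD.off D hD1).ne_bot (eq_bot_iff.2 ((le_sSup hD1).trans (h1.ge.trans (iSup_of_empty _).le)))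
  have hsup : ⨆ i, (E i).comap π = (⨆ i, E i).comap π := by
    obtain ⟨i⟩ := hi
    rw [← comap_map_eq_self (f := π) (H := ⨆ i, (E i).comap π)
      (hk.trans_le ((hC (E i)).trans (le_iSup (fun i => (E i).comap π) i))), Subgroup.map_iSup]
    simp only [map_comap_eq_self_of_surjective hπ]
  refine ⟨r, fun i => (E i).comap π, fun i => hC _, ?_, ?_, fun i j hij => hle _ ?_,
    fun i => hle _ ?_, fun i j => ?_, ?_, fun i j hij => ?_, fun i => ?_⟩
  · rw [← hk, ← comap_map_eq, Subgroup.map_sup, ← eD, hs, comap_top]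
  · rw [hsup, h1, eD, comap_map_eq, hk]
  · rw [map_commutator, map_comap_eq_self_of_surjective hπ, map_comap_eq_self_of_surjective hπ]
    exact commutator_eq_bot_iff_le_centralizer.2
      (comm_of_cm_le_fx S.inj (h2 i j hij) (h2 j i hij.symm))
  · refine eq_bot_iff.2 ((map_inf_le _ _ _).trans ?_)
    simp only [Subgroup.map_iSup, map_comap_eq_self_of_surjective hπ]
    exact (inf_iSup_eq_bot S.inj h2 h5 i).le
  · obtain ⟨_, ⟨t, ht, rfl⟩, e⟩ := h3 i j
    refine ⟨t, ht, ?_⟩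
    have := pre_cj (f := topMk C) ⟨t, mem_top t⟩ (E i)
    rw [pre_topMk, pre_topMk] at this
    exact this.symm.trans (congrArg (comap π) e)
  · rw [hsup, ← hσ.grp_fx_img le_top, him]
    have e : ∀ i, ⁅V, (E i).comap π⁆ = EAV.grp (cm (quotRep (ea_omZ p (pCore p G))) ⊤ (E i)) :=
      fun i => by rw [← hσ.grp_cm_top_img le_top, him]
    rw [iSup_congr e, ← grp_iSup, ← grp_sup, fx_iSup_sup h2 h5, EAV.grp_top]
  · rw [← hσ.grp_cm_top_img le_top, ← hσ.grp_cm_img le_top, him, him, grp_eq_bot_iff,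
      cm_eq_bot_iff]
    exact h2 i j hij
  · obtain ⟨e⟩ := quotient_equiv_map C ((E i).comap π)
    rw [← img_topMk] at e
    obtain ⟨n, hn, ⟨F, _, _, hF, ⟨e'⟩, k⟩ | ⟨hp, ⟨e'⟩, k⟩⟩ := hσ.of_typ (E := (E i).comap π) le_top
      (top_le_normalizer V) (by rw [him]; exact h4 i)
    · exact ⟨n, hn, Or.inl ⟨F, _, _, hF, ⟨_, ⟨e.trans e'⟩⟩, k⟩⟩
    · exact ⟨n, hn, Or.inr ⟨hp, ⟨_, ⟨e.trans e'⟩⟩, k⟩⟩

end Cfsg.Agent.S2981
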