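import Mathlib
import Cfsg.Statements.S2982
import Cfsg.Agent.Loc.CGTop
import Cfsg.Agent.GT.HallTools

set_option autoImplicit false
open Cfsg

namespace Cfsg.Agent.S2982

/-- Pushing up for minimal parabolic groups. Let G be a finite p-minimal group (a Sylow p-subgroup T is not normal and lies in exactly one maximal subgroup) of characteristic p (C_G(O_p(G)) ≤ O_p(G)). Suppose that no nontrivial characteristic subgroup of the Baumann subgroup B(T) is normal in G and that Ω₁(Z(T)) is not normal in G. Then G has a set of B(T)-blocks with the block structure of the local C*(G,T)-Theorem, every block E with E/O_p(E) alternating of degree 2m+1 (p = 2) has 2m+1 = 2ⁿ+1, and C*(G,T) = (C*(G,T) ∩ ⟨blocks⟩)·T. -/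
theorem result {G : Type*} [Group G] [Finite G] {p : ℕ} [Fact p.Prime] (hmin : Cfsg.IsPMinimal p G) (hG : Subgroup.centralizer (Cfsg.pCore p G : Set G) ≤ Cfsg.pCore p G) (T : Sylow p G) (hchar : ∀ C : Subgroup G, C ≤ Cfsg.baumannSubgroupOf p (T : Subgroup G) → C ≠ ⊥ → (C.subgroupOf (Cfsg.baumannSubgroupOf p (T : Subgroup G))).Characteristic → ¬ C.Normal) (hz : ¬ (Cfsg.omegaOneCenter p (T : Subgroup G)).Normal) : ∃ 𝓑 : Set (Subgroup G), Cfsg.HasBaumannBlockStructure p (T : Subgroup G) 𝓑 ∧ (∀ E ∈ 𝓑, ∀ m : ℕ, Nonempty (↥E ⧸ Cfsg.pCore p ↥E ≃* ↥(alternatingGroup (Fin (2 * m + 1)))) → ∃ n : ℕ, 2 * m + 1 = 2 ^ n + 1) ∧ Cfsg.cStarOf p (T : Subgroup G) = (Cfsg.cStarOf p (T : Subgroup G) ⊓ sSup 𝓑) ⊔ (T : Subgroup G) := by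
  obtain ⟨V, _, hV, 𝒟, c, h, -, h6⟩ := Loc.CG.exists_ctx hG T
  obtain ⟨M₀, ⟨h1, h2⟩, h3⟩ := (hmin T).2
  have h₀ : ∀ H, (T : Subgroup G) ≤ H → H ≠ ⊤ → H ≤ M₀ := fun H a b => by
    obtain ⟨M, c, d⟩ := (eq_top_or_exists_le_coatom H).resolve_left b
    exact h3 M ⟨c, a.trans d⟩ ▸ d
  have hM : cStarOf p (T : Subgroup G) ≤ M₀ := by
    refine sup_le (h₀ _ (Loc.Mss.le_cent_oz _) fun e => hz (Subgroup.normalizer_eq_top_iff.1
      (top_le_iff.1 (e.ge.trans (Subgroup.centralizer_le_normalizer _))))) (iSup_le ?_)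
    rintro ⟨C, a, b, d⟩
    refine h₀ _ ?_ fun e => hchar C a b d (Subgroup.normalizer_eq_top_iff.1 e)
    have := GT.HT.normalizer_le_normalizer_map_of_characteristic _ _ (hB := d)
    rw [Subgroup.map_subgroupOf_eq_of_le a] at this
    exact (Loc.Blk.norm_bB Subgroup.le_normalizer).trans this
  obtain ⟨E, A, N, K, _, _, S, hn, hA⟩ := h6 _ hM h1.1
  refine ⟨_, h, fun F hF m hm => c.alt_of_conj hF (fun _ D hD hle _ B hB hB' =>
    c.conj_of_min hM h₀ S hn hA hD hle hB (hB'.trans inf_le_left)) hm, ?_⟩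
  have := c.ci.normal_sSup
  have h4 : sSup (Loc.CG.BB (T : Subgroup G) hV 𝒟) ⊔ T = ⊤ := by_contra fun hne =>
    h1.1 (top_le_iff.1 (c.sup_top.ge.trans
      (sup_le hM (le_sup_left.trans (h₀ _ le_sup_right hne)))))
  rw [inf_comm, ← Loc.Mss.dedekind' (Loc.Mss.norm_normal _ _) c.tle, h4, top_inf_eq]

end Cfsg.Agent.S2982
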