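import Cfsg.Statements.S2989
import Cfsg.Agent.Loc.PUCL

set_option autoImplicit false
open Cfsg

namespace Cfsg.Agent.S2989

open Cfsg.Agent.GT Cfsg.Agent.Loc.Mss Subgroup
open scoped commutatorElement

/-- Let G be a finite group and S a Sylow p-subgroup of G in the basic pushing-up situation (G ≠ 1, C_G(O_p(G)) ≤ O_p(G), S lies in a unique maximal subgroup of G, and some quotient of G is isomorphic to PSL₂ over a field of order a power of p), and suppose that S centralizes Z(J(S)), where J(S) is generated by the abelian subgroups of S of largest order (that is, J̃(S) = C_S(Z(J(S))) = S). Call a subgroup R of S centrally large if |R|·|Z(R)| is as large as possible among subgroups of S, and let S_Φ be the subgroup generated by the Frattini subgroups Φ(Q) of those minimal centrally large subgroups Q of S whose Ω₁(Z(Q)) has the largest order among minimal centrally large subgroups. Then Z(S) or S_Φ is normal in G; and if S_Φ = 1, the minimal centrally large subgroups of S are exactly the abelian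 subgroups of S of largest order, and at least one of them is elementary abelian. -/
theorem result {G : Type*} [Group G] [Finite G] {p : ℕ} [Fact p.Prime] (S : Subgroup G) (hE : Cfsg.IsPushingUpSituation p S) (hJ : S ≤ Subgroup.centralizer (Cfsg.centerThompsonAOf S : Set G)) : ((S ⊓ Subgroup.centralizer (S : Set G)).Normal ∨ ((Cfsg.frattiniOfMinimalCLJoin p ↥S).map S.subtype).Normal) ∧ (Cfsg.frattiniOfMinimalCLJoin p ↥S = ⊥ → (∀ Q : Subgroup ↥S, Cfsg.IsMinimalCentrallyLarge Q ↔ Q ∈ Cfsg.maxAbelianSubgroups ↥S) ∧ ∃ A ∈ Cfsg.maxAbelianSubgroups ↥S, Cfsg.IsElementaryAbelian p A) := by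
  open Cfsg.Agent.Loc Cfsg.Agent.Loc.PU in
  obtain ⟨q, M, h⟩ := pud_of_situation hE
  refine ⟨?_, fun h0 => ?_⟩
  · by_cases hZ : ⊤ ≤ 𝐂[𝐙[S]]
    · exact Or.inl (normal_of_top_le_cent hZ)
    · rw [phiJoin_map]
      exact Or.inr (normal_of_top (h.norm_phiJoin_syl hZ))
  · obtain ⟨Q, hQ⟩ := exists_mclmax p (⊤ : Subgroup S)
    have hQ' := mclmax_top.1 hQ
    have h1 : Φ[Q] ≤ ⊥ := h0 ▸ le_iSup (fun Q : {Q : Subgroup S // IsMinimalCentrallyLarge Q ∧
      Nat.card (omegaOneCenter p Q) = maxOmegaCenterOfMinimalCL p S} => Φ[Q.1]) ⟨Q, hQ'⟩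
    rw [frat_le_iff (h.syl.pg.to_subgroup Q)] at h1
    have h2 := le_centralizer_iff_isMulCommutative.1 (comm_eq_bot_iff.1 (le_bot_iff.1 h1.1))
    exact ⟨mcl_iff_maxAb_of_comm hQ'.1 h2, Q, (mcl_iff_maxAb_of_comm hQ'.1 h2 Q).1 hQ'.1, h2, h1.2⟩

end Cfsg.Agent.S2989
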