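import Mathlib
import Cfsg.Statements.S2999
import Cfsg.Agent.Loc.BHDict

set_option autoImplicit false
open Cfsg

namespace Cfsg.Agent.S2999

/-- Let p be a prime and let P and V be subgroups of a finite group with V elementary abelian, P normalizing V and acting faithfully on it (P ∩ C(V) = 1). Suppose P is p-minimal (a Sylow p-subgroup T of P is not normal and lies in a unique maximal subgroup M of P) and A ≤ T is an elementary abelian subgroup such that: |V/C_V(A)| ≤ |A| while |A₀|·|C_V(A₀)| < |A|·|C_V(A)| for every nontrivial proper subgroup A₀ of A; [C_V(T), P] ≠ 1; and P = ⟨A, xAx⁻¹⟩ for every x ∈ P outside M. Then, with q = |A|, there is a field F with q elements such that P ≅ SL₂(F), C_V(A) = [V, A]·C_V(P), and P acts on V/C_V(P) as SL₂(F) on its natural two-dimensional module. -/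
theorem result {G : Type*} [Group G] [Finite G] {p : ℕ} [Fact p.Prime] (V P : Subgroup G) (hV : Cfsg.IsElementaryAbelian p V) (hPV : P ≤ Subgroup.normalizer (V : Set G)) (hfaith : P ⊓ Subgroup.centralizer (V : Set G) = ⊥) (hmin : Cfsg.IsPMinimal p ↥P) (T : Sylow p ↥P) (M : Subgroup ↥P) (hM : IsCoatom M) (hTM : (T : Subgroup ↥P) ≤ M) (A : Subgroup G) (hAT : A ≤ ((T : Subgroup ↥P).map P.subtype)) (hAel : Cfsg.IsElementaryAbelian p A) (hi : Nat.card ↥V ≤ Nat.card ↥A * Nat.card ↥(V ⊓ Subgroup.centralizer ((A : Subgroup G) : Set G)) ∧ ∀ A₀ : Subgroup G, A₀ ≤ A → A₀ ≠ ⊥ → A₀ ≠ A → Nat.card ↥A₀ * Nat.card ↥(V ⊓ Subgroup.centralizer ((A₀ : Subgroup G) : Set G)) < Nat.card ↥A * Nat.card ↥(V ⊓ Subgroup.centralizer ((A : Subgroup G) : Set G))) (hii : ⁅(V ⊓ Subgroup.centralizer ((((T : Subgroup ↥P).map P.subtype) : Subgroup G) : Set G)), P⁆ ≠ ⊥) (hiii : ∀ x : ↥P, x ∉ M → A ⊔ A.map (MulAut.conj (x : G)).toMonoidHom = P) : ∃ (F : Type) (_ : Field F) (_ : Fintype F), Fintype.card F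 = Nat.card ↥A ∧ Nonempty (↥P ≃* Matrix.SpecialLinearGroup (Fin 2) F) ∧ (V ⊓ Subgroup.centralizer ((A : Subgroup G) : Set G)) = ⁅V, A⁆ ⊔ (V ⊓ Subgroup.centralizer ((P : Subgroup G) : Set G)) ∧ Cfsg.ActsAsSL2OnSection F ⊤ P V (V ⊓ Subgroup.centralizer ((P : Subgroup G) : Set G)) := by
  open Subgroup Loc Loc.Am Loc.BH Cfsg.Agent.GT in
  have hσ := compat_eaRep (hV := hV) hPV
  set ρ := eaRep hV hPV
  set f := MonoidHom.id P
  have hf : Function.Surjective f := Function.surjective_id
  have hAP : A ≤ P := hAT.trans (map_subtype_le _)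
  have hcard : ∀ B : Subgroup G, B ≤ P → Nat.card (img f B) = Nat.card B := fun B hB => by
    rw [img_id]
    exact Nat.card_congr (subgroupOfEquivOfLe hB).toEquiv
  have hmu : ∀ B : Subgroup G, B ≤ P →
      mu ρ (img f B) = Nat.card B * Nat.card ↥(V ⊓ centralizer (B : Set G)) := fun B hB => by
    rw [mu, hcard B hB, hσ.card_fx_img hB]
  have hinj : ∀ B C : Subgroup G, B ≤ P → C ≤ P → img f B = img f C → B = C := fun B C hB hC h => by
    rw [img_id, img_id] at h
    rw [← map_subgroupOf_eq_of_le hB, h, map_subgroupOf_eq_of_le hC]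
  have hT : img f ((T : Subgroup P).map P.subtype) = T := by
    rw [← pre_id, img_pre hf]
  have hgen : ∀ x ∈ (⊤ : Subgroup P), x ∉ M → img f A ⊔ cj x (img f A) = ⊤ := fun x _ hx => by
    have := congrArg (img f) (hiii x hx)
    rw [img_top hf, img_sup hAP (le_sup_right.trans (hiii x hx).le)] at this
    rw [← this]
    congr 1
    exact (img_cj (f := f) x A).symm
  have hne : ¬ ⊤ ≤ M := fun h => hM.1 (top_le_iff.1 h)
  obtain ⟨x, hx, hx0⟩ := SetLike.not_le_iff_exists.1 hne
  have H : CoreHyp ρ ⊤ M T (img f A) :=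
    { inj := eaRep_injective hfaith
      syl := isSylowOf_top T
      le₁ := hTM
      le₂ := le_top
      ne := hne
      leS := hT ▸ img_mono hAT
      off :=
        { ea := ea_of_comm (by
            rintro _ ⟨a, ha, rfl⟩ _ ⟨b, hb, rfl⟩
            exact Subtype.ext (comm_of_ea hAel ha hb)) (by
            rintro _ ⟨a, ha, rfl⟩
            exact Subtype.ext (hAel.2 _ ha))
          ne_bot := fun h => hne (by rw [← hgen x hx hx0, h, cj_bot, sup_idem]; exact bot_le)
          le := by rw [hmu A hAP]; exact hi.1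
          min := fun A₀ h1 h2 h3 => by
            rw [← img_pre hf A₀, hmu A hAP, hmu _ (pre_le _)]
            refine hi.2 _ ?_ (fun h => h2 ?_) fun h => h3 ?_
            · rw [pre_id, ← map_subgroupOf_eq_of_le hAP, ← img_id]
              exact map_mono h1
            · rw [← img_pre hf A₀, h, img_id, bot_subgroupOf]
            · rw [← img_pre hf A₀, h] }
      nc := fun h => hii (by
        rw [commutator_eq_bot_iff_le_centralizer, ← hσ.grp_fx_img (map_subtype_le _), hT]
        refine (EAV.grp_mono h).trans ?_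
        rw [← img_top hf, hσ.grp_fx_img le_rfl]
        exact inf_le_right)
      gen := hgen }
  obtain ⟨F, iF, iF', n, -, -, hF⟩ := exists_field_of_ea H.off.ea H.off.ne_bot
  obtain ⟨D⟩ := H.natData hx hx0 F hF
  have hK : Faith ρ (img f A ⊔ cj x (img f A)) := hgen x hx hx0 ▸ H.faith
  refine ⟨F, iF, iF', by rw [← Nat.card_eq_fintype_card, hF, hcard A hAP],
    ⟨(topEquiv.symm.trans (MulEquiv.subgroupCongr (hgen x hx hx0).symm)).trans (D.equiv hK)⟩, ?_, ?_⟩
  · rw [← hσ.grp_fx_img hAP, D.fx_eq_cm_sup, grp_sup, hσ.grp_cm_top_img hAP, hgen x hx hx0,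
      ← img_top hf, hσ.grp_fx_img le_rfl]
  · refine hσ.actsAsSL2 D le_rfl ((img_top hf).trans (hgen x hx hx0).symm) le_rfl hPV ?_
    rw [(EAV.sub_eq_top_iff le_rfl).2 rfl, top_sup_eq]

end Cfsg.Agent.S2999
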