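import Mathlib
import Cfsg.Statements.S3000
import Cfsg.Agent.Loc.BHMain

set_option autoImplicit false
open Cfsg

namespace Cfsg.Agent.S3000

/-- Let p be a prime and let P and V be subgroups of a finite group with V elementary abelian, P normalizing V and acting faithfully on it (P ∩ C(V) = 1). Suppose P is p-minimal (a Sylow p-subgroup T of P is not normal and lies in a unique maximal subgroup M of P), O_p(P) = 1, C_P(C_V(T)) ≤ M, and P has a best offender on V: a subgroup A not centralizing V, with A/C_A(V) elementary abelian, such that |B|·|C_V(B)| ≤ |A|·|C_V(A)| for every subgroup B of A. Then there are subgroups E₁, …, E_r of P (r ≥ 1), pairwise commuting and forming with T a product P = (E₁ × ⋯ × E_r)T (internal direct product of the E_i), any two of which are conjugate by an element of T, such that V = C_V(E₁⋯E_r)·∏[V, E_i] with [V, E_i, E_j] = 1 for i ≠ j, and for each i there is n ≥ 1 with either E_i ≅ SL₂(pⁿ)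 acting on [V, E_i]/C_{[V,E_i]}(E_i) as on its natural two-dimensional module, or p = 2 and E_i isomorphic to the symmetric group of degree 2ⁿ + 1 acting on [V, E_i]/C_{[V,E_i]}(E_i) as on its even-weight permutation module. -/
theorem result {G : Type*} [Group G] [Finite G] {p : ℕ} [Fact p.Prime] (V P : Subgroup G) (hV : Cfsg.IsElementaryAbelian p V) (hPV : P ≤ Subgroup.normalizer (V : Set G)) (hfaith : P ⊓ Subgroup.centralizer (V : Set G) = ⊥) (hmin : Cfsg.IsPMinimal p ↥P) (T : Sylow p ↥P) (M : Subgroup ↥P) (hM : IsCoatom M) (hTM : (T : Subgroup ↥P) ≤ M) (hOp : Cfsg.pCore p ↥P = ⊥) (hoff : ∃ A : Subgroup G, A ≤ P ∧ ¬ A ≤ Subgroup.centralizer (V : Set G) ∧ Cfsg.IsBestOffenderOn p V A) (hCT : P ⊓ Subgroup.centralizer ((V ⊓ Subgroup.centralizer ((((T : Subgroup ↥P).map P.subtype) : Subgroup G) : Set G)) : Set G) ≤ M.map P.subtype) : ∃ (r : ℕ) (E : Fin r → Subgroup G), 1 ≤ r ∧ (∀ i, E i ≤ P) ∧ (∀ i j, i ≠ j → ⁅E i, E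 j⁆ = ⊥) ∧ (∀ i, E i ⊓ (⨆ j ∈ {j | j ≠ i}, E j) = ⊥) ∧ (⨆ i, E i) ⊔ ((T : Subgroup ↥P).map P.subtype) = P ∧ (∀ i j, ∃ t ∈ ((T : Subgroup ↥P).map P.subtype), (E i).map (MulAut.conj t).toMonoidHom = E j) ∧ (V ⊓ Subgroup.centralizer (((⨆ i, E i) : Subgroup G) : Set G)) ⊔ (⨆ i, ⁅V, E i⁆) = V ∧ (∀ i j, i ≠ j → ⁅⁅V, E i⁆, E j⁆ = ⊥) ∧ ∀ i, ∃ n : ℕ, 1 ≤ n ∧ ((∃ (F : Type) (_ : Field F) (_ : Fintype F), Fintype.card F = p ^ n ∧ Nonempty (↥(E i) ≃* Matrix.SpecialLinearGroup (Fin 2) F) ∧ Cfsg.ActsAsSL2OnSection F ⊤ (E i) ⁅V, E i⁆ (⁅V, E i⁆ ⊓ Subgroup.centralizer ((E i : Subgroup G) : Set G))) ∨ (p = 2 ∧ Nonempty (↥(E i) ≃* Equiv.Perm (Fin (2 ^ n + 1))) ∧ Cfsg.ActsAsOddPermModuleOnSection (2 ^ n + 1) ⊤ (E i) ⁅V, E i⁆ (⁅V, E i⁆ ⊓ Subgroup.centralizer ((E i : Subgroup G) : Set G)))) := by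
  open Subgroup Loc Loc.Am Loc.BH Cfsg.Agent.GT in
  have hσ := compat_eaRep (hV := hV) hPV
  set ρ := eaRep hV hPV
  set f := MonoidHom.id P
  have hf : Function.Surjective f := Function.surjective_id
  have hT : img f ((T : Subgroup P).map P.subtype) = T := by rw [← pre_id, img_pre hf]
  have hpm := pm_of_isPMinimal hmin T hM hTM
  have h : Setup ρ T M :=
    { hpm with
      inj := eaRep_injective hfaith
      op := hOp
      nc := fun h => hM.1 (top_le_iff.1 fun x _ => by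
        rw [← grp_le_grp_iff, ← hT, ← img_top hf, hσ.grp_fx_img (map_subtype_le _),
          hσ.grp_fx_img le_rfl] at h
        obtain ⟨y, hy, e⟩ := hCT ⟨x.2, le_centralizer_iff.1 (h.trans inf_le_right) x.2⟩
        exact Subtype.ext e ▸ hy) }
  obtain ⟨A, hAP, hA1, hA2, hA3, hA4⟩ := hoff
  have hfa : ∀ g ∈ P, g ∈ centralizer (V : Set G) → g = 1 := fun g h1 h2 =>
    mem_bot.1 (hfaith.le ⟨h1, h2⟩)
  have hea : IsElementaryAbelian p (img f A) := ea_of_comm (by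
      rintro _ ⟨a, ha, rfl⟩ _ ⟨b, hb, rfl⟩
      exact Subtype.ext (commutatorElement_eq_one_iff_mul_comm.1 (hfa _
        (mul_mem (mul_mem (mul_mem a.2 b.2) (inv_mem a.2)) (inv_mem b.2))
        (hA3 (commutator_mem_commutator ha hb))))) (by
      rintro _ ⟨a, ha, rfl⟩
      exact Subtype.ext (hfa _ (pow_mem a.2 p) (hA4 _ ha)))
  have hmu : Nat.card (EAV hV) ≤ mu ρ (img f A) := by
    have := hA2 ⊥ bot_le
    rw [mu, hσ.card_fx_img hAP, EAV.card_eq, img_id,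
      Nat.card_congr (subgroupOfEquivOfLe hAP).toEquiv]
    rwa [card_bot, one_mul, coe_bot, centralizer_eq_top_iff_subset.2 (by simp), inf_top_eq] at this
  obtain ⟨D, -, hD, -⟩ := exists_isMinOff hea (fun e => hA1 (by
    rw [← map_subgroupOf_eq_of_le hAP, ← img_id, e, Subgroup.map_bot]
    exact bot_le)) hmu
  obtain ⟨r, E, hr, h1, h2, h3, h4⟩ := h.exists_family hD.oFam
  have h5 := fun i => (h4 i).cm_sup_fx
  have hE : ∀ i, pre f (E i) ≤ P := fun i => pre_le _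
  have hsup : ⨆ i, pre f (E i) = pre f (⨆ i, E i) := by simp only [f, pre_id, Subgroup.map_iSup]
  refine ⟨r, fun i => pre f (E i), hr, hE, fun i j hij => ?_, fun i => ?_, ?_, fun i j => ?_, ?_,
    fun i j hij => ?_, fun i => ?_⟩
  · simp only [f, pre_id]
    rw [← map_commutator, commutator_eq_bot_iff_le_centralizer.2
      (comm_of_cm_le_fx h.inj (h2 i j hij) (h2 j i hij.symm)), Subgroup.map_bot]
  · simp only [f, pre_id]
    rw [← Subgroup.map_bot P.subtype, ← inf_iSup_eq_bot h.inj h2 h5 i,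
      map_inf _ _ _ P.subtype_injective]
    simp only [Subgroup.map_iSup]
  · rw [hsup, h1, pre_id, ← Subgroup.map_sup, h.sSup_sup hD.oFam, ← MonoidHom.range_eq_map,
      range_subtype]
  · obtain ⟨t, ht, e⟩ := h3 i j
    exact ⟨t, mem_map_of_mem _ ht, (pre_cj (f := f) t (E i)).symm.trans (congrArg (pre f) e)⟩
  · rw [hsup, ← hσ.grp_fx_img (pre_le _), img_pre hf]
    simp only [← hσ.grp_cm_top_img (hE _), img_pre hf]
    rw [← grp_iSup, ← grp_sup, fx_iSup_sup h2 h5, EAV.grp_top]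
  · rw [← hσ.grp_cm_top_img (hE i), ← hσ.grp_cm_img (hE j), img_pre hf, img_pre hf,
      grp_eq_bot_iff, cm_eq_bot_iff]
    exact h2 i j hij
  · have e : pre f (E i) ≃* img f (pre f (E i)) :=
      (subgroupOfEquivOfLe (hE i)).symm.trans (MulEquiv.subgroupCongr (img_id _).symm)
    obtain ⟨n, hn, ⟨F, _, _, hF, ⟨e'⟩, k⟩ | ⟨hp, ⟨e'⟩, k⟩⟩ :=
      hσ.of_typ (hE i) hPV (by rw [img_pre hf]; exact h4 i)
    · exact ⟨n, hn, Or.inl ⟨F, _, _, hF, ⟨e.trans e'⟩, k⟩⟩
    · exact ⟨n, hn, Or.inr ⟨hp, ⟨e.trans e'⟩, k⟩⟩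

end Cfsg.Agent.S3000
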