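import Mathlib
import Cfsg.Statements.S3001
import Cfsg.Agent.Loc.BHLift

set_option autoImplicit false
open Cfsg

namespace Cfsg.Agent.S3001

/-- Let p be a prime and let P and V be subgroups of a finite group with V elementary abelian, P normalizing V and acting faithfully on it (P ∩ C(V) = 1). Suppose P is p-minimal (a Sylow p-subgroup is not normal and lies in a unique maximal subgroup), O_p(P) = 1, and P has a best offender on V (a subgroup A not centralizing V, with A/C_A(V) elementary abelian and |B|·|C_V(B)| ≤ |A|·|C_V(A)| for every B ≤ A). Then [C_V(T), P] ≠ 1 for every Sylow p-subgroup T of P. -/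
theorem result {G : Type*} [Group G] [Finite G] {p : ℕ} [Fact p.Prime] (V P : Subgroup G) (hV : Cfsg.IsElementaryAbelian p V) (hPV : P ≤ Subgroup.normalizer (V : Set G)) (hfaith : P ⊓ Subgroup.centralizer (V : Set G) = ⊥) (hmin : Cfsg.IsPMinimal p ↥P) (hOp : Cfsg.pCore p ↥P = ⊥) (hoff : ∃ A : Subgroup G, A ≤ P ∧ ¬ A ≤ Subgroup.centralizer (V : Set G) ∧ Cfsg.IsBestOffenderOn p V A) (T : Sylow p ↥P) : ⁅(V ⊓ Subgroup.centralizer ((((T : Subgroup ↥P).map P.subtype) : Subgroup G) : Set G)), P⁆ ≠ ⊥ := by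
  open Subgroup Loc Loc.Am Loc.BH Cfsg.Agent.GT in
  have hσ := compat_eaRep (hV := hV) hPV
  set ρ := eaRep hV hPV
  set f := MonoidHom.id P
  have hf : Function.Surjective f := Function.surjective_id
  have hT : img f ((T : Subgroup P).map P.subtype) = T := by rw [← pre_id, img_pre hf]
  obtain ⟨M, hpm⟩ := exists_pm hmin T
  obtain ⟨A, hAP, hA1, hA2, hA3, hA4⟩ := hoff
  have hfa : ∀ g ∈ P, g ∈ centralizer (V : Set G) → g = 1 := fun g h1 h2 =>
    mem_bot.1 (hfaith.le ⟨h1, h2⟩)
  have hea : IsElementaryAbelian p (img f A) := ea_of_comm (by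
      rintro _ ⟨a, ha, rfl⟩ _ ⟨b, hb, rfl⟩
      exact Subtype.ext (commutatorElement_eq_one_iff_mul_comm.1 (hfa _
        (mul_mem (mul_mem (mul_mem a.2 b.2) (inv_mem a.2)) (inv_mem b.2))
        (hA3 (commutator_mem_commutator ha hb))))) (by
      rintro _ ⟨a, ha, rfl⟩
      exact Subtype.ext (hfa _ (pow_mem a.2 p) (hA4 _ ha)))
  have hmu : Nat.card (EAV hV) ≤ mu ρ (img f A) := by
    have := hA2 ⊥ bot_le
    rw [mu, hσ.card_fx_img hAP, EAV.card_eq, img_id,
      Nat.card_congr (subgroupOfEquivOfLe hAP).toEquiv]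
    rwa [card_bot, one_mul, coe_bot, centralizer_eq_top_iff_subset.2 (by simp), inf_top_eq] at this
  intro h
  refine not_fx_le_of_offender _ ρ rfl hpm (eaRep_injective hfaith) hOp hea (fun e => hA1 (by
    rw [← map_subgroupOf_eq_of_le hAP, ← img_id, e, Subgroup.map_bot]
    exact bot_le)) hmu ?_
  rw [← grp_le_grp_iff, ← hT, ← img_top hf, hσ.grp_fx_img (map_subtype_le _), hσ.grp_fx_img le_rfl]
  exact le_inf inf_le_left (commutator_eq_bot_iff_le_centralizer.1 h)

end Cfsg.Agent.S3001
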