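import Mathlib
import Cfsg.Statements.S3003
import Cfsg.Agent.Loc.Isolated
import Cfsg.Agent.GT.CoprimeGen
import Cfsg.Agent.GT.PGroupBasic

set_option autoImplicit false
open Cfsg

namespace Cfsg.Agent.S3003

/-- Let G be a finite group, p a prime and Q a large p-subgroup of G: C_G(Q) ≤ Q and N_G(U) ≤ N_G(Q) for every nontrivial subgroup U of C_G(Q). Let Q ≤ G₁ ≤ G, let R be a subgroup of order prime to p normalized by G₁, and let U ≤ G₁ be a p-subgroup. If U contains a nontrivial element which is G₁-conjugate to an element of Z(Q), then C_R(U) = 1. In particular, if U is elementary abelian of order at least p² and every maximal subgroup of U contains a nontrivial element G₁-conjugate into Z(Q), then R = 1. -/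
theorem result {G : Type*} [Group G] [Finite G] {p : ℕ} [Fact p.Prime] (Q : Subgroup G) (hQp : IsPGroup p ↥Q) (hlarge : Cfsg.IsLarge Q) (G₁ : Subgroup G) (hQG : Q ≤ G₁) (R : Subgroup G) (hR : (Nat.card ↥R).Coprime p) (hGR : G₁ ≤ Subgroup.normalizer (R : Set G)) (U : Subgroup G) (hUG : U ≤ G₁) (hUp : IsPGroup p ↥U) : ((∃ x ∈ U, x ≠ 1 ∧ ∃ g ∈ G₁, g * x * g⁻¹ ∈ Q ⊓ Subgroup.centralizer (Q : Set G)) → R ⊓ Subgroup.centralizer (U : Set G) = ⊥) ∧ (Cfsg.IsElementaryAbelian p U → p ^ 2 ≤ Nat.card ↥U → (∀ U₀ : Subgroup G, U₀ ≤ U → IsCoatom (U₀.subgroupOf U) → ∃ x ∈ U₀, x ≠ 1 ∧ ∃ g ∈ G₁, g * x * g⁻¹ ∈ Q ⊓ Subgroup.centralizer (Q : Set G)) → R = ⊥) := by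
  open Subgroup Loc Loc.Am in
  have key : ∀ x : G, x ≠ 1 → (∃ g ∈ G₁, g * x * g⁻¹ ∈ Q ⊓ centralizer (Q : Set G)) →
      R ⊓ centralizer ({x} : Set G) = ⊥ := by
    rintro x hx1 ⟨g, hg, hz⟩
    rw [eq_bot_iff]
    intro r hr
    have hQR : Q ⊓ R = ⊥ := GT.CopAct.inf_eq_bot_of_coprime
      (GT.CopAct.coprime_of_isPGroup_right hR hQp).symm
    have hz1 : zpowers (g * x * g⁻¹) ≠ ⊥ := by
      rw [Ne, zpowers_eq_bot, conj_eq_one_iff]; exact hx1
    have h1 : g * r * g⁻¹ ∈ R := GT.CopAct.conj_mem hGR hg hr.1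
    have h2 : g * r * g⁻¹ ∈ centralizer ({g * x * g⁻¹} : Set G) := by
      have := mem_centralizer_singleton_iff.1 hr.2
      rw [mem_centralizer_singleton_iff]
      calc g * r * g⁻¹ * (g * x * g⁻¹) = g * (r * x) * g⁻¹ := by group
        _ = _ := by rw [this]; group
    have h3 : g * r * g⁻¹ ∈ normalizer (Q : Set G) :=
      hlarge.2 _ (zpowers_le.2 hz.2) hz1
        (centralizer_le_normalizer _ (by rwa [centralizer_zpowers_eq]))
    have h4 : g * r * g⁻¹ ∈ centralizer (Q : Set G) := by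
      intro q hq
      have h5 : q * (g * r * g⁻¹) * q⁻¹ * (g * r * g⁻¹)⁻¹ ∈ Q ⊓ R := by
        refine ⟨?_, R.mul_mem (GT.CopAct.conj_mem hGR (hQG hq) h1) (R.inv_mem h1)⟩
        have := Q.mul_mem hq ((mem_normalizer_iff.1 h3 _).1 (Q.inv_mem hq))
        simpa [mul_assoc] using this
      rw [hQR, mem_bot, mul_inv_eq_one, mul_inv_eq_iff_eq_mul] at h5
      exact h5
    have h6 : g * r * g⁻¹ ∈ Q ⊓ R := ⟨hlarge.1 h4, h1⟩
    rw [hQR, mem_bot, conj_eq_one_iff] at h6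
    exact h6
  refine ⟨fun ⟨x, hx, hx1, hc⟩ => ?_, fun hU hcard h => ?_⟩
  · rw [eq_bot_iff, ← key x hx1 hc]
    exact inf_le_inf_left _ (GT.CopAct.centralizer_le_centralizer_singleton hx)
  · rw [eq_bot_iff]
    have hU1 : U ≠ ⊥ := by
      rintro rfl
      have := (Fact.out : p.Prime).one_lt
      rw [card_bot] at hcard
      nlinarith
    refine GT.CopAct.le_of_hyperplane_centralizer_le hU hU1 (hUG.trans hGR)
      ((Nat.Prime.coprime_iff_not_dvd Fact.out).1 hR.symm) fun B hB hi => ?_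
    obtain ⟨x, hx, hx1, hc⟩ := h B hB (GT.PG.isCoatom_of_index_prime Fact.out hi)
    rw [← key x hx1 hc]
    exact inf_le_inf_left _ (GT.CopAct.centralizer_le_centralizer_singleton hx)

end Cfsg.Agent.S3003
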