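import Mathlib
import Cfsg.Statements.S3009
import Cfsg.Agent.Loc.BHSL2
import Cfsg.Agent.Loc.BHDict

set_option autoImplicit false
open Cfsg

namespace Cfsg.Agent.S3009

/-- Let p be a prime and let G and V be subgroups of a finite group with V elementary abelian and normalized by G, and G isomorphic to SL₂(F) for a finite field F with pⁿ elements. Suppose G acts irreducibly and nontrivially on V by conjugation (no G-invariant subgroups of V other than 1 and V, and [V, G] ≠ 1), and let S be a Sylow p-subgroup of G and V₀ = C_V(S). If [V, S, S] = 1 or |V| ≤ |V₀|², then G acts on V as SL₂(F) on its natural two-dimensional module; in particular |V| = |F|². -/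
theorem result {X : Type*} [Group X] [Finite X] {p : ℕ} [Fact p.Prime] (G V : Subgroup X) (hV : Cfsg.IsElementaryAbelian p V) (hGV : G ≤ Subgroup.normalizer (V : Set X)) (F : Type) [Field F] [Fintype F] (n : ℕ) (hF : Fintype.card F = p ^ n) (hG : Nonempty (↥G ≃* Matrix.SpecialLinearGroup (Fin 2) F)) (hirr : ∀ U : Subgroup X, U ≤ V → G ≤ Subgroup.normalizer (U : Set X) → U = ⊥ ∨ U = V) (hnt : ⁅V, G⁆ ≠ ⊥) (S : Sylow p ↥G) (hyp : ⁅⁅V, (S : Subgroup ↥G).map G.subtype⁆, (S : Subgroup ↥G).map G.subtype⁆ = ⊥ ∨ Nat.card ↥V ≤ Nat.card ↥(V ⊓ Subgroup.centralizer (((S : Subgroup ↥G).map G.subtype : Subgroup X) : Set X)) ^ 2) : Cfsg.ActsAsSL2OnSection F ⊤ G V ⊥ := by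
  open Subgroup Loc Loc.Am Loc.BH Cfsg.Agent.GT in
  obtain ⟨e⟩ := hG
  let σ : Representation (ZMod p) (Matrix.SpecialLinearGroup (Fin 2) F) (EAV hV) :=
    (eaRep hV hGV).comp e.symm.toMonoidHom
  have hc : Compat hV e.toMonoidHom σ := fun h x => by
    simp [σ, val_eaRep]
  have ht : img e.toMonoidHom G = ⊤ := img_top e.surjective
  have hS : img e.toMonoidHom ((S : Subgroup G).map G.subtype) =
      (S.mapSurjective (f := e.toMonoidHom) e.surjective : Subgroup _) := by
    rw [img, subgroupOf, comap_map_eq_self_of_injective G.subtype_injective]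
    rfl
  have hle := map_subtype_le (H := G) (S : Subgroup G)
  obtain ⟨⟨D⟩, h0⟩ := natData_of_irreducible (ρ := σ) (Nat.card_eq_fintype_card.trans hF)
    (fun U hU => (hirr _ (EAV.grp_le U) (hc.le_normalizer_grp le_rfl (ht ▸ hU))).imp
      (fun h => grp_eq_bot_iff.1 h) fun h => EAV.grp_injective (h.trans EAV.grp_top.symm))
    (fun h => hnt (by rw [← hc.grp_cm_top_img le_rfl, ht, h, EAV.grp_bot]))
    (hS ▸ isSylowOf_top _) (hyp.imp (fun h => cm_eq_bot_iff.1 (grp_eq_bot_iff.1 (by
      rw [hc.grp_cm_img hle, hc.grp_cm_top_img hle, h])))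
      fun h => by rwa [hc.card_fx_img hle, EAV.card_eq])
  have := hc.actsAsSL2 D le_rfl (ht.trans upS_sup_loS.symm) le_rfl hGV
    (by rw [(EAV.sub_eq_top_iff le_rfl).2 rfl, top_sup_eq])
  rwa [← hc.grp_fx_img le_rfl, ht, h0, EAV.grp_bot] at this

end Cfsg.Agent.S3009
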