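import Mathlib
import Cfsg.Statements.S3011
import Cfsg.Agent.GT.Zipper
import Cfsg.Agent.Inv.Isolated

set_option autoImplicit false
open Cfsg

namespace Cfsg.Agent.S3011

theorem eq_one_of_inv {G : Type*} [Group G] {x : G} (hx : Odd (orderOf x)) (h : x = x⁻¹) :
    x = 1 :=
  Inv.iso_eq_one_of_odd_of_mul_self hx (by nth_rewrite 2 [h]; simp)

theorem mem_four {G : Type*} [Group G] [Finite G] {V : Subgroup G} (h4 : Nat.card V ≤ 4)
    {a b u : G} (ha : a ∈ V) (hb : b ∈ V) (hu : u ∈ V) (ha1 : a ≠ 1) (hb1 : b ≠ 1) (hab : a ≠ b)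
    (haa : a * a = 1) (hu1 : u ≠ 1) : u = a ∨ u = b ∨ u = a * b := by
  by_contra hne
  push Not at hne
  obtain ⟨h1, h2, h3⟩ := hne
  have hab1 : a * b ≠ 1 := fun h => hab (mul_left_cancel (haa.trans h.symm))
  have hsub : ({u, 1, a, b, a * b} : Set G) ⊆ V := by
    intro y hy
    simp only [Set.mem_insert_iff, Set.mem_singleton_iff] at hy
    rcases hy with rfl | rfl | rfl | rfl | rfl
    exacts [hu, V.one_mem, ha, hb, V.mul_mem ha hb]
  have h5 := Set.ncard_le_ncard hsub
  have h6 : ({u, 1, a, b, a * b} : Set G).ncard = 5 := by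
    rw [Set.ncard_insert_of_notMem (by simp [hu1, h1, h2, h3]),
      Set.ncard_insert_of_notMem (by simp [ha1.symm, hb1.symm, hab1.symm]),
      Set.ncard_insert_of_notMem (by simp [hab, hb1]),
      Set.ncard_pair (by simp [ha1])]
  have h7 : (V : Set G).ncard = Nat.card V := rfl
  omega


/-- Let G be a finite group and V a nontrivial elementary abelian 2-subgroup of G of order at most 4 such that, whenever an element of V inverts an element h of G of odd order, some nontrivial element of V commutes with h. Then V meets O₂(G) nontrivially. (The case of order at most 4 has a short argument from the Baer–Suzuki theorem.) -/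
theorem result {G : Type*} [Group G] [Finite G] (V : Subgroup G) (hV : Cfsg.IsElementaryAbelian 2 V) (hV1 : V ≠ ⊥) (hS : Cfsg.IsSidkiPair V) (h4 : Nat.card V ≤ 4) : V ⊓ Cfsg.pCore 2 G ≠ ⊥ := by
  intro hO
  have hsq : ∀ v ∈ V, v * v = 1 := fun v hv => by rw [← sq]; exact hV.2 v hv
  have hcomm : ∀ v ∈ V, ∀ w ∈ V, v * w = w * v := fun v hv w hw =>
    congrArg Subtype.val (hV.1.is_comm.comm ⟨v, hv⟩ ⟨w, hw⟩)
  have hinv : ∀ v ∈ V, v ≠ 1 → ∃ x : G, x ≠ 1 ∧ Odd (orderOf x) ∧ v * x * v⁻¹ = x⁻¹ ∧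
      ∃ w ∈ V, w ≠ 1 ∧ w ≠ v ∧ w * x = x * w := by
    intro v hv hv1
    obtain ⟨x, hx1, hxo, hx⟩ := GT.exists_odd_inverted_of_not_mem_pCore (hsq v hv) (fun h => by
      have : v ∈ V ⊓ pCore 2 G := ⟨hv, h⟩
      rw [hO] at this
      exact hv1 this)
    obtain ⟨w, hw, hw1, hc⟩ := hS x v hv hxo hx
    refine ⟨x, hx1, hxo, hx, w, hw, hw1, ?_, hc⟩
    rintro rfl
    rw [hc, mul_inv_cancel_right] at hx
    exact hx1 (eq_one_of_inv hxo hx)
  obtain ⟨⟨v, hv⟩, hv1⟩ := Subgroup.ne_bot_iff_exists_ne_one.1 hV1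
  have hv1' : v ≠ 1 := fun h => hv1 (Subtype.ext h)
  obtain ⟨x, hx1, hxo, hvx, b, hb, hb1, hbv, hbx⟩ := hinv v hv hv1'
  obtain ⟨y, hy1, hyo, hby, a, ha, ha1, hab, hay⟩ := hinv b hb hb1
  have four := fun u hu hu1 => mem_four (u := u) h4 ha hb hu ha1 hb1 hab (hsq a ha) hu1
  have hbx' : Commute b x := hbx
  have hay' : Commute a y := hay
  have hab' : Commute a b := hcomm a ha b hb
  have hax : a * x * a⁻¹ = x⁻¹ := by
    rcases four v hv hv1' with rfl | rfl | rfl
    · exact hvx
    · exact absurd rfl hbv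
    · rw [← hvx, mul_assoc a b, hbx]; group
  have hcx : a * b * x * (a * b)⁻¹ = x⁻¹ := by
    rw [mul_assoc a b, hbx, ← hax]; group
  have hcy : a * b * y * (a * b)⁻¹ = y⁻¹ := by
    calc a * b * y * (a * b)⁻¹ = a * (b * y * b⁻¹) * a⁻¹ := by group
      _ = y⁻¹ := by rw [hby, hay'.inv_right.eq]; group
  -- `x` centralizes `y`
  have hxy : Commute x y := by
    have h1 : Odd (orderOf (x⁻¹ * y * x)) := by
      have := (MulAut.conj x⁻¹).orderOf_eq y
      simp only [MulAut.conj_apply, inv_inv] at this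
      rwa [this]
    have h2 : b * (x⁻¹ * y * x) * b⁻¹ = (x⁻¹ * y * x)⁻¹ := by
      calc b * (x⁻¹ * y * x) * b⁻¹ = (b * x⁻¹) * y * (x * b⁻¹) := by group
        _ = x⁻¹ * (b * y * b⁻¹) * x := by rw [hbx'.inv_right.eq, ← hbx'.inv_left.eq]; group
        _ = _ := by rw [hby]; group
    obtain ⟨u, hu, hu1, huc⟩ := hS _ b hb h1 h2
    have h3 : Commute (x * u * x⁻¹) y := by
      calc x * u * x⁻¹ * y = x * (u * (x⁻¹ * y * x)) * x⁻¹ := by group
        _ = _ := by rw [huc]; group
    have hsq2 : ∀ z : G, Commute (x * x) z → Commute x z := by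
      intro z hz
      obtain ⟨j, hj⟩ := Inv.iso_exists_half hxo
      rw [← hj, pow_mul, sq]
      exact hz.pow_left j
    rcases four u hu hu1 with rfl | rfl | rfl
    · apply hsq2
      have h4 : x * u * x⁻¹ = x * x * u := by
        rw [mul_assoc x u, ← hax]
        have : u * (u * x * u⁻¹) = x * u := by
          rw [← mul_assoc, ← mul_assoc, hsq u hu, one_mul, inv_eq_of_mul_eq_one_right (hsq u hu)]
        rw [this, mul_assoc]
      rw [h4] at h3
      have := h3.mul_left hay'.inv_left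
      rwa [mul_inv_cancel_right] at this
    · exfalso
      rw [← hbx, mul_inv_cancel_right] at h3
      rw [h3.eq, mul_inv_cancel_right] at hby
      exact hy1 (eq_one_of_inv hyo hby)
    · exfalso
      have hc2 := hsq _ hu
      have h4 : x * (a * b) * x⁻¹ = x * x * (a * b) := by
        rw [mul_assoc x (a * b), ← hcx]
        have : a * b * (a * b * x * (a * b)⁻¹) = x * (a * b) := by
          rw [← mul_assoc, ← mul_assoc (a * b), hc2, one_mul, inv_eq_of_mul_eq_one_right hc2]
        rw [this, mul_assoc x x]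
      rw [h4] at h3
      have h5 : x * x * y⁻¹ * (x * x)⁻¹ = y := by
        rw [← hcy]
        calc x * x * (a * b * y * (a * b)⁻¹) * (x * x)⁻¹
            = (x * x * (a * b) * y) * (x * x * (a * b))⁻¹ := by group
          _ = y := by rw [h3.eq]; group
      have h6 : Commute (x * x * (x * x)) y := by
        have h7 : x * x * y * (x * x)⁻¹ = y⁻¹ := by
          conv_rhs => rw [← h5]
          simp only [mul_inv_rev, inv_inv, mul_assoc]
        calc x * x * (x * x) * y = x * x * (x * x * y * (x * x)⁻¹) * (x * x)⁻¹ *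
            (x * x * (x * x)) := by group
          _ = _ := by rw [h7, h5]
      have h8 : Commute (x * x) y := by
        obtain ⟨j, hj⟩ := Inv.iso_exists_half (Inv.iso_odd_orderOf_pow hxo 2)
        rw [← sq, ← hj, pow_mul, sq, sq]
        exact h6.pow_left j
      rw [h8.inv_right.eq, mul_inv_cancel_right] at h5
      exact hy1 (eq_one_of_inv hyo h5.symm)
  have hodd : Odd (orderOf (x * y)) :=
    Odd.of_dvd_nat (hxo.mul hyo) hxy.orderOf_mul_dvd_mul_orderOf
  have hc : a * b * (x * y) * (a * b)⁻¹ = (x * y)⁻¹ := by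
    calc a * b * (x * y) * (a * b)⁻¹ = (a * b * x * (a * b)⁻¹) * (a * b * y * (a * b)⁻¹) := by
          group
      _ = _ := by rw [hcx, hcy, hxy.eq, mul_inv_rev]
  obtain ⟨u, hu, hu1, huc⟩ := hS _ _ (V.mul_mem ha hb) hodd hc
  rcases four u hu hu1 with rfl | rfl | rfl
  · apply hx1 (eq_one_of_inv hxo _)
    rw [← hax]
    calc x = (x * y * u) * y⁻¹ * u⁻¹ := by rw [mul_assoc x y u, ← hay]; group
      _ = _ := by rw [← huc]; group
  · apply hy1 (eq_one_of_inv hyo _)
    rw [← hby]
    calc y = x⁻¹ * (x * y * u) * u⁻¹ := by group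
      _ = _ := by rw [← huc, ← mul_assoc u x y, hbx]; group
  · rw [huc, mul_inv_cancel_right] at hc
    have h1 := eq_one_of_inv hodd hc
    have h2 : y = x⁻¹ := eq_inv_of_mul_eq_one_right h1
    rw [h2, hbx'.inv_right.eq, mul_inv_cancel_right, inv_inv] at hby
    exact hx1 (eq_one_of_inv hxo hby.symm)

end Cfsg.Agent.S3011
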