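import Mathlib
import Cfsg.Statements.S3012
import Cfsg.Agent.Inv.Isolated
import Cfsg.Agent.GT.TransferPNilp

set_option autoImplicit false
open Cfsg

namespace Cfsg.Agent.S3012

/-- Let G be a finite group, V a nontrivial elementary abelian 2-subgroup of G satisfying the Sidki pair condition (every odd-order element inverted by an element of V commutes with a nontrivial element of V), and K a normal subgroup of G with V ∩ K = 1. Then the image of V in G/K satisfies the Sidki pair condition in G/K. -/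
theorem result {G : Type*} [Group G] [Finite G] (V K : Subgroup G) [K.Normal] (hV : Cfsg.IsElementaryAbelian 2 V) (hV1 : V ≠ ⊥) (hS : Cfsg.IsSidkiPair V) (hVK : V ⊓ K = ⊥) : Cfsg.IsSidkiPair (V.map (QuotientGroup.mk' K)) := by
  rintro h _ ⟨v, hv, rfl⟩ hodd hinv
  have hvv : v * v = 1 := by rw [← sq]; exact hV.2 v hv
  obtain ⟨j, hj⟩ := Inv.iso_exists_half hodd
  obtain ⟨k, hk⟩ := QuotientGroup.mk_surjective (h ^ j)
  have hy := Inv.iso_inverts_mul hvv (Inv.iso_conj_mul_self hvv k⁻¹)
  set y := v * (k⁻¹ * v * k⁻¹⁻¹) with hydef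
  have hyh : QuotientGroup.mk' K y = h := by
    have h1 := Inv.iso_inverts_pow hinv j
    have h2 : QuotientGroup.mk' K v * QuotientGroup.mk' K v = 1 := by rw [← map_mul, hvv, map_one]
    have h3 : QuotientGroup.mk' K k = h ^ j := hk
    rw [hydef, map_mul, map_mul, map_mul, inv_inv, map_inv, h3, ← h1,
      inv_eq_of_mul_eq_one_right h2]
    calc _ = (QuotientGroup.mk' K v * QuotientGroup.mk' K v) * h ^ j *
        (QuotientGroup.mk' K v * QuotientGroup.mk' K v) * h ^ j := by group
      _ = h := by rw [h2, one_mul, mul_one, ← pow_add, ← two_mul, hj]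
  obtain ⟨m, hm⟩ := GT.Tr.exists_pow_coprime_orderOf (p := 2) y
  obtain ⟨w, hw, hw1, hc⟩ := hS _ v hv (Nat.coprime_two_right.1 hm) (Inv.iso_inverts_pow hy _)
  refine ⟨QuotientGroup.mk' K w, ⟨w, hw, rfl⟩, fun h1 => ?_, ?_⟩
  · have : w ∈ V ⊓ K := ⟨hw, (QuotientGroup.eq_one_iff w).1 h1⟩
    rw [hVK] at this
    exact hw1 this
  · have h1 : Commute (QuotientGroup.mk' K w) (h ^ 2 ^ m) := by
      have := congrArg (QuotientGroup.mk' K) hc
      rwa [map_mul, map_mul, map_pow, hyh] at this
    obtain ⟨n, hn⟩ := exists_pow_eq_self_of_coprime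
      (x := h) (n := 2 ^ m) (Nat.Coprime.pow_left m (Nat.coprime_two_left.2 hodd))
    rw [← hn]
    exact h1.pow_right n

end Cfsg.Agent.S3012
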