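import Mathlib
import Cfsg.Statements.S3013
import Cfsg.Agent.Inv.Isolated

set_option autoImplicit false
open Cfsg

namespace Cfsg.Agent.S3013

/-- Let G be a finite group and V a nontrivial elementary abelian 2-subgroup of G satisfying the Sidki pair condition. Let v ∈ V and let x be an element of odd order inverted by v, and put C = C_G(v) ∩ C_G(x), the centralizer of the dihedral subgroup generated by v and x. Then C ∩ V is nontrivial and satisfies the Sidki pair condition inside C: every odd-order element of C inverted by an element of C ∩ V commutes with a nontrivial element of C ∩ V. -/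
theorem result {G : Type*} [Group G] [Finite G] (V : Subgroup G) (hV : Cfsg.IsElementaryAbelian 2 V) (hV1 : V ≠ ⊥) (hS : Cfsg.IsSidkiPair V) (v x : G) (hv : v ∈ V) (hx : Odd (orderOf x)) (hinv : v * x * v⁻¹ = x⁻¹) (C : Subgroup G) (hC : C = Subgroup.centralizer ({v} : Set G) ⊓ Subgroup.centralizer ({x} : Set G)) : C ⊓ V ≠ ⊥ ∧ Cfsg.IsSidkiPair ((C ⊓ V).subgroupOf C) := by
  subst hC
  have hcomm : ∀ v ∈ V, ∀ w ∈ V, v * w = w * v := fun v hv w hw =>
    congrArg Subtype.val (hV.1.is_comm.comm ⟨v, hv⟩ ⟨w, hw⟩)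
  refine ⟨fun h0 => ?_, fun y w hw hy hwy => ?_⟩
  · obtain ⟨w, hw, hw1, hc⟩ := hS x v hv hx hinv
    have : w ∈ Subgroup.centralizer ({v} : Set G) ⊓ Subgroup.centralizer ({x} : Set G) ⊓ V :=
      ⟨⟨Subgroup.mem_centralizer_singleton_iff.2 (hcomm w hw v hv),
        Subgroup.mem_centralizer_singleton_iff.2 hc⟩, hw⟩
    rw [h0] at this
    exact hw1 this
  · obtain ⟨y, hyC⟩ := y
    obtain ⟨w, hwC⟩ := w
    have hwV : w ∈ V := hw.2
    have hwy' : w * y * w⁻¹ = y⁻¹ := congrArg Subtype.val hwy
    rw [Subgroup.orderOf_mk] at hy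
    have hyv : Commute y v := Subgroup.mem_centralizer_singleton_iff.1 hyC.1
    have hyx : Commute y x := Subgroup.mem_centralizer_singleton_iff.1 hyC.2
    have hwx : Commute w x := Subgroup.mem_centralizer_singleton_iff.1 hwC.2
    have hodd : Odd (orderOf (x * y)) :=
      Odd.of_dvd_nat (hx.mul hy) hyx.symm.orderOf_mul_dvd_mul_orderOf
    have hc : v * w * (x * y) * (v * w)⁻¹ = (x * y)⁻¹ := by
      calc v * w * (x * y) * (v * w)⁻¹ = v * (w * x) * w⁻¹ * (w * y * w⁻¹) * v⁻¹ := by group
        _ = v * x * (y⁻¹ * v⁻¹) := by rw [hwx.eq, hwy']; group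
        _ = (v * x * v⁻¹) * y⁻¹ := by rw [hyv.inv_inv.eq]; group
        _ = _ := by rw [hinv, ← hyx.eq, mul_inv_rev]
    obtain ⟨u, hu, hu1, huc⟩ := hS _ _ (V.mul_mem hv hwV) hodd hc
    have huv : Commute u v := hcomm u hu v hv
    have huc' : Commute u (x * y) := huc
    have h1 : Commute u (v * (x * y) * v⁻¹) := (huv.mul_right huc').mul_right huv.inv_right
    have h2 : v * (x * y) * v⁻¹ = y * x⁻¹ := by
      calc v * (x * y) * v⁻¹ = v * x * (y * v⁻¹) := by group
        _ = (v * x * v⁻¹) * y := by rw [hyv.inv_right.eq]; group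
        _ = _ := by rw [hinv, hyx.inv_right.eq]
    rw [h2] at h1
    have h3 : Commute u (y * y) := by
      have := h1.mul_right huc'
      rwa [mul_assoc, inv_mul_cancel_left] at this
    have h4 : Commute u y := by
      obtain ⟨j, hj⟩ := Inv.iso_exists_half hy
      rw [← hj, pow_mul, sq]
      exact h3.pow_right j
    have h5 : Commute u x := by
      have := huc'.mul_right h4.inv_right
      rwa [mul_inv_cancel_right] at this
    have huC : u ∈ Subgroup.centralizer ({v} : Set G) ⊓ Subgroup.centralizer ({x} : Set G) :=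
      ⟨Subgroup.mem_centralizer_singleton_iff.2 huv, Subgroup.mem_centralizer_singleton_iff.2 h5⟩
    exact ⟨⟨u, huC⟩, ⟨huC, hu⟩, fun h => hu1 (congrArg Subtype.val h), Subtype.ext h4⟩

end Cfsg.Agent.S3013
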