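import Mathlib
import Cfsg.Statements.S3014
import Cfsg.Agent.Loc.TransferOne

set_option autoImplicit false
open Cfsg

namespace Cfsg.Agent.S3014

/-- Let G be a finite group and H ≤ M ≤ G subgroups such that for every g ∈ G the subgroup generated by H and g H g⁻¹ meets M exactly in H. If H is a maximal subgroup of M and M is a maximal subgroup of G, then the normal closure of H in G meets M exactly in H. -/
theorem result {G : Type*} [Group G] [Finite G] (H M : Subgroup G) (hHM : H ≤ M) (hcl : ∀ g : G, (H ⊔ H.map (MulAut.conj g).toMonoidHom) ⊓ M = H) (hmaxH : IsCoatom (H.subgroupOf M)) (hmaxM : IsCoatom M) : Subgroup.normalClosure (H : Set G) ⊓ M = H := by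
  open Subgroup Loc Loc.Am in
  have hMH : M ≤ normalizer (H : Set G) := by
    intro m hm
    rw [← cj_eq_self_iff]
    refine eq_of_le_of_card_le (fun y hy => ?_) (card_cj m H).ge
    rw [← hcl m]
    exact ⟨mem_sup_right hy, by
      have := cj_mono m hHM hy
      rwa [cj_eq_of_mem hm] at this⟩
  have hn : (H.subgroupOf M).Normal := (normal_subgroupOf_iff_le_normalizer hHM).2 hMH
  have fin : ∀ N : Subgroup G, N.Normal → H ≤ N → N ⊓ M ≤ H →
      normalClosure (H : Set G) ⊓ M = H := fun N _ h1 h2 =>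
    le_antisymm ((inf_le_inf_right M (normalClosure_le_normal h1)).trans h2)
      (le_inf le_normalClosure hHM)
  by_cases hex : ∃ t : G, t ∉ M ∧ ∃ y ∈ M, y ∉ H ∧ t * y * t⁻¹ ∈ M
  · obtain ⟨t, ht, y, hyM, hyH, hty⟩ := hex
    by_cases hH : H ⊔ cj t⁻¹ H ≤ M
    · -- `H` is normal in `G`
      have h1 : cj t⁻¹ H = H := by
        refine eq_of_le_of_card_le (fun z hz => ?_) (card_cj _ H).ge
        rw [← hcl t⁻¹]
        exact ⟨mem_sup_right hz, hH (mem_sup_right hz)⟩
      have h2 : t ∈ normalizer (H : Set G) := inv_mem_iff.1 (cj_eq_self_iff.1 h1)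
      have h3 : normalizer (H : Set G) = ⊤ :=
        hmaxM.2 _ (lt_of_le_of_ne hMH fun h => ht (h ▸ h2))
      exact fin H (GT.normal_of_top_le_normalizer h3.ge) le_rfl inf_le_left
    · set T := H ⊔ cj t⁻¹ H with hT
      have hyT : y ∈ normalizer (T : Set G) := by
        have h1 : y ∈ normalizer (cj t⁻¹ H : Set G) := by
          rw [← cj_normalizer, mem_cj, inv_inv]; exact hMH hty
        exact Am.le_normalizer_sup (zpowers_le.2 (hMH hyM)) (zpowers_le.2 h1) (mem_zpowers y)
      have h1 : M ≤ normalizer (T : Set G) := by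
        rw [← sup_zpowers_eq_of_isCoatom hHM hmaxH hyM hyH]
        exact sup_le (le_sup_left.trans le_normalizer) (zpowers_le.2 hyT)
      have h3 : normalizer (T : Set G) = ⊤ :=
        hmaxM.2 _ (lt_of_le_of_ne h1 fun h => hH (h ▸ le_normalizer))
      exact fin T (GT.normal_of_top_le_normalizer h3.ge) le_sup_left (hcl t⁻¹).le
  · push Not at hex
    obtain ⟨N, hN, -, h⟩ := exists_hom_of_single hn (isMulCommutative_quotient_of_isCoatom hmaxH)
    have key : ∀ x ∈ M, x ∈ N ↔ x ∈ H := fun x hx => h x hx fun t k hk ht _ _ => by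
      by_contra hne
      refine hex t ht _ hk hne ?_
      have : t * (t⁻¹ * x ^ k * t) * t⁻¹ = x ^ k := by group
      rw [this]
      exact M.pow_mem hx k
    exact fin N hN (fun x hx => (key x (hHM hx)).2 hx) fun x hx => (key x hx.2).1 hx.1

end Cfsg.Agent.S3014
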