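import Mathlib
import Cfsg.Statements.S3015
import Cfsg.Agent.Loc.TransferOne

set_option autoImplicit false
open Cfsg

namespace Cfsg.Agent.S3015

/-- Let G be a finite non-abelian simple group, M a maximal subgroup of G and H a normal subgroup of M of prime index in M. Then G is generated by H together with one of its conjugates. -/
theorem result {G : Type*} [Group G] [Finite G] [IsSimpleGroup G] (hG : ¬ IsMulCommutative G) (M H : Subgroup G) (hmaxM : IsCoatom M) (hHM : H ≤ M) (hHn : (H.subgroupOf M).Normal) (hidx : (H.relIndex M).Prime) : ∃ g : G, H ⊔ H.map (MulAut.conj g).toMonoidHom = ⊤ := by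
  open Subgroup Loc Loc.Am in
  by_contra hne
  push Not at hne
  have hMH : M ≤ normalizer (H : Set G) := (normal_subgroupOf_iff_le_normalizer hHM).1 hHn
  have hmaxH : IsCoatom (H.subgroupOf M) := GT.PG.isCoatom_of_index_prime hidx rfl
  have hex : ∃ x, x ∈ M ∧ x ∉ H := by
    by_contra h
    push Not at h
    exact hmaxH.1 (subgroupOf_eq_top.2 h)
  classical
  obtain ⟨x, ⟨hxM, hxH⟩, hmin⟩ : ∃ x, (x ∈ M ∧ x ∉ H) ∧
      ∀ y, (y ∈ M ∧ y ∉ H) → orderOf x ≤ orderOf y := by
    obtain ⟨x0, hx0⟩ := hex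
    exact exists_minimalFor_of_wellFoundedLT _ orderOf ⟨x0, hx0⟩ |>.imp fun x hx =>
      ⟨hx.1, fun y hy => hx.le hy⟩
  have hMn : ∀ t : G, t ∉ M → cj t M ≠ M := by
    intro t ht h
    have h3 : normalizer (M : Set G) = ⊤ :=
      hmaxM.2 _ (lt_of_le_of_ne le_normalizer fun h' => ht (h' ▸ cj_eq_self_iff.1 h))
    rcases (GT.normal_of_top_le_normalizer h3.ge).eq_bot_or_eq_top with h0 | h0
    · rw [h0, mem_bot] at hxM
      exact hxH (hxM ▸ H.one_mem)
    · exact hmaxM.1 h0
  obtain ⟨N, hN, hGN, h⟩ := exists_hom_of_single hHn (isMulCommutative_quotient_of_isCoatom hmaxH)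
  have hxN : x ∈ N := by
    rcases (inferInstance : (_root_.commutator G).Normal).eq_bot_or_eq_top with h0 | h0
    · exact absurd ((commutator_eq_bot_iff G).1 h0) hG
    · exact hGN (h0 ▸ mem_top x)
  refine hxH ((h x hxM fun t k hk ht h0 hd => ?_).1 hxN)
  by_contra hnH
  by_cases hk1 : k = 1
  · subst hk1
    rw [pow_one] at hk hnH
    have e1 := sup_zpowers_eq_of_isCoatom hHM hmaxH hxM hxH
    have e2 : cj t H ⊔ zpowers x = cj t M := by
      rw [← sup_zpowers_eq_of_isCoatom hHM hmaxH hk hnH, cj_sup]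
      congr 1
      rw [cj, MonoidHom.map_zpowers]
      congr 1
      simp [mul_assoc]
    set T := H ⊔ cj t H with hT
    have hxT : x ∈ normalizer (T : Set G) := by
      have h1 : x ∈ normalizer (cj t H : Set G) := by
        rw [← cj_normalizer, mem_cj]; exact hMH hk
      exact Am.le_normalizer_sup (zpowers_le.2 (hMH hxM)) (zpowers_le.2 h1) (mem_zpowers x)
    have h1 : M ≤ normalizer (T : Set G) := by
      rw [← e1]
      exact sup_le (le_sup_left.trans le_normalizer) (zpowers_le.2 hxT)
    have h2 : cj t M ≤ normalizer (T : Set G) := by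
      rw [← e2]
      exact sup_le (le_sup_right.trans le_normalizer) (zpowers_le.2 hxT)
    have h3 : normalizer (T : Set G) = ⊤ :=
      hmaxM.2 _ (lt_of_le_of_ne h1 fun h' => hMn t ht
        (eq_of_le_of_card_le (h' ▸ h2) (card_cj t M).ge))
    rcases (GT.normal_of_top_le_normalizer h3.ge).eq_bot_or_eq_top with h4 | h4
    · have h5 : H = ⊥ := le_bot_iff.1 (h4 ▸ le_sup_left)
      rw [h5, cj_bot] at e2
      rw [h5] at e1
      exact hMn t ht (e2.symm.trans e1)
    · exact hne t h4
  · have h1 := hmin _ ⟨hk, hnH⟩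
    have h2 : orderOf (t⁻¹ * x ^ k * t) = orderOf x / k := by
      rw [← orderOf_pow_of_dvd h0.ne' hd]
      have := (MulAut.conj t⁻¹).orderOf_eq (x ^ k)
      simpa using this
    have h3 : orderOf x / k < orderOf x := Nat.div_lt_self (orderOf_pos x) (by omega)
    omega

end Cfsg.Agent.S3015
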