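import Mathlib
import Cfsg.Statements.S3016
import Cfsg.Agent.XC.Ind

set_option autoImplicit false
open Cfsg

namespace Cfsg.Agent.S3016

/-- Let G be a finite group, p an odd prime, and H an abelian p-subgroup of G that is extremely closed (for every g, the subgroup generated by H and g H g⁻¹ meets N_G(H) exactly in H). Then the normal closure of H meets N_G(H) exactly in H, and G = N_G(H) O_{p'}(G). -/
theorem result {G : Type*} [Group G] [Finite G] {p : ℕ} [Fact p.Prime] (hp : p ≠ 2) (H : Subgroup G) (hHp : IsPGroup p H) (hHab : IsMulCommutative H) (hcl : Cfsg.IsExtremelyClosed H) : Subgroup.normalClosure (H : Set G) ⊓ Subgroup.normalizer (H : Set G) = H ∧ Subgroup.normalizer (H : Set G) ⊔ Cfsg.pPrimeCore p G = ⊤ := by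
  have h : XC.EC p H := ⟨hHp, fun a ha b hb => congrArg Subtype.val
    (hHab.is_comm.comm (⟨a, ha⟩ : H) ⟨b, hb⟩), fun g => (hcl g).le⟩
  have h1 := h.ncl_inf hp ⊤
  have : (XC.ncl ⊤ H).Normal :=
    Subgroup.normalizer_eq_top_iff.1 (eq_top_iff.2 (XC.le_normalizer_ncl ⊤ H))
  refine ⟨le_antisymm ((inf_le_inf_right _ (Subgroup.normalClosure_le_normal
    (SetLike.coe_subset_coe.2 (XC.le_ncl ⊤ H)))).trans h1)
    (le_inf Subgroup.le_normalClosure Subgroup.le_normalizer), eq_top_iff.2 fun g _ => ?_⟩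
  obtain ⟨l, hl, hl', n, hn, rfl⟩ := h.split g
  exact mul_mem (Subgroup.mem_sup_right (GT.pPrimeCoreOf_le_pPrimeCore _ (h.mem_core
    (XC.le_ncl ⊤ H) h1 (sup_le (XC.le_ncl ⊤ H) (XC.cj_le_ncl (Subgroup.mem_top _)) hl) hl')))
    (Subgroup.mem_sup_left hn)

end Cfsg.Agent.S3016
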