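import Cfsg.Statements.S3019
import Cfsg.Agent.PS2.Main

set_option autoImplicit false
open Cfsg

namespace Cfsg.Agent.S3019

/-- Let G be a finite group, p a prime and P a Sylow p-subgroup of G. Then G is p-solvable if and only if, for every g ∈ G, the subgroup generated by P and g P g⁻¹ is p-solvable. -/
theorem result {G : Type*} [Group G] [Finite G] {p : ℕ} [Fact p.Prime] (P : Sylow p G) : Cfsg.IsPSolvable p G ↔ ∀ g : G, Cfsg.IsPSolvable p ↥((P : Subgroup G) ⊔ (P : Subgroup G).map (MulAut.conj g).toMonoidHom) := by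
  exact ⟨fun h _ => h.subgroup _, fun h => PS2.isPSolvable_of_pairs G
    (PS2.pairs_of_one (Loc.Mss.Syl.of_sylow P) h)⟩

end Cfsg.Agent.S3019
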