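import Mathlib
import Cfsg.Statements.S3020
import Cfsg.Agent.Loc.Isolated

set_option autoImplicit false
open Cfsg

namespace Cfsg.Agent.S3020

/-- Let G be a finite group, p a prime and H an abelian p-subgroup of G that is extremely closed (for every g, the subgroup generated by H and g H g⁻¹ meets N_G(H) exactly in H). Then for every g ∈ G, the subgroup T generated by H and g H g⁻¹ is the product of H with O_{p'}(T), and H meets O_{p'}(T) trivially; that is, O_{p'}(T) is a normal p-complement of H in T. -/
theorem result {G : Type*} [Group G] [Finite G] {p : ℕ} [Fact p.Prime] (H : Subgroup G) (hHp : IsPGroup p H) (hHab : IsMulCommutative H) (hcl : Cfsg.IsExtremelyClosed H) (g : G) (T : Subgroup G) (hT : T = H ⊔ H.map (MulAut.conj g).toMonoidHom) : H ⊔ (Cfsg.pPrimeCore p ↥T).map T.subtype = T ∧ H ⊓ (Cfsg.pPrimeCore p ↥T).map T.subtype = ⊥ := by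
  open Subgroup Loc Loc.Am in
  have hHT : H ≤ T := hT ▸ le_sup_left
  have hN : T ⊓ normalizer (H : Set G) = H := hT ▸ hcl g
  have hS : IsSylowOf p H T := by
    refine ⟨hHT, hHp, fun R hR hHR hRT => ?_⟩
    by_contra hne
    have : Group.IsNilpotent R := hR.isNilpotent
    obtain ⟨y, hyR, hyn, hyN⟩ := GT.PG.exists_mem_normalizer_notMem
      (lt_of_le_of_ne hHR (Ne.symm hne))
    exact hyn (hN ▸ ⟨hRT hyR, hyN⟩)
  have hc : HasNormalPComplement p T := by
    refine GT.Tr.hasNormalPComplement_of_normalizer_le_centralizer hS.toSylow fun y hy => ?_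
    rw [hS.coe_toSylow] at hy ⊢
    have h1 : (y : G) ∈ H := by
      rw [← hN]
      refine ⟨y.2, GT.Tr.mem_normalizer_of_conj_mem fun a ha => ?_⟩
      exact (mem_normalizer_iff.1 hy ⟨a, hHT ha⟩).1 ha
    intro z hz
    exact Subtype.ext (GT.PG.isMulCommutative_iff_forall.1 hHab _ hz _ h1)
  have hcompl := hc.isComplement'_pResidual hS.toSylow
  rw [← hc.pPrimeCore_eq_pResidual] at hcompl
  constructor
  · have := congrArg (map T.subtype) hcompl.sup_eq_top
    rw [Subgroup.map_sup, hS.map_toSylow, sup_comm, ← MonoidHom.range_eq_map, range_subtype] at this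
    exact this
  · have := congrArg (map T.subtype) hcompl.disjoint.eq_bot
    rw [map_inf _ _ _ T.subtype_injective, hS.map_toSylow, inf_comm, Subgroup.map_bot] at this
    exact this

end Cfsg.Agent.S3020
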