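import Mathlib
import Cfsg.Statements.S3021
import Cfsg.Agent.Loc.Isolated

set_option autoImplicit false
open Cfsg

namespace Cfsg.Agent.S3021

/-- Let G be a finite group, p a prime and H a p-subgroup of G that is extremely closed (for every g, the subgroup generated by H and g H g⁻¹ meets N_G(H) exactly in H). Then every p-subgroup Q of G containing H has N_G(Q) ≤ N_G(H); in particular every Sylow p-subgroup P of G containing H normalizes H, and H is strongly closed in P with respect to G. -/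
theorem result {G : Type*} [Group G] [Finite G] {p : ℕ} [Fact p.Prime] (H : Subgroup G) (hHp : IsPGroup p H) (hcl : Cfsg.IsExtremelyClosed H) : (∀ Q : Subgroup G, IsPGroup p Q → H ≤ Q → Subgroup.normalizer (Q : Set G) ≤ Subgroup.normalizer (H : Set G)) ∧ ∀ P : Sylow p G, H ≤ (P : Subgroup G) → (P : Subgroup G) ≤ Subgroup.normalizer (H : Set G) ∧ Cfsg.IsStronglyClosed H (P : Subgroup G) := by
  open Subgroup Loc Loc.Am in
  have key : ∀ g y : G, y ∈ cj g H → y ∈ normalizer (H : Set G) → y ∈ H := fun g y h1 h2 => by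
    rw [← hcl g]; exact ⟨mem_sup_right h1, h2⟩
  have key2 : ∀ g : G, cj g H ≤ normalizer (H : Set G) → g ∈ normalizer (H : Set G) :=
    fun g hg => cj_eq_self_iff.1 (eq_of_le_of_card_le (fun y hy => key g y hy (hg hy))
      (card_cj g H).ge)
  have h1 : ∀ Q : Subgroup G, IsPGroup p Q → H ≤ Q → Q ≤ normalizer (H : Set G) := by
    intro Q hQ hHQ
    by_contra hne
    have hlt : Q ⊓ normalizer (H : Set G) < Q :=
      lt_of_le_of_ne inf_le_left fun h' => hne (h' ▸ inf_le_right)
    have : Group.IsNilpotent Q := hQ.isNilpotent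
    obtain ⟨g, hgQ, hgn, hgN⟩ := GT.PG.exists_mem_normalizer_notMem hlt
    refine hgn ⟨hgQ, key2 g ?_⟩
    calc cj g H ≤ cj g (Q ⊓ normalizer (H : Set G)) := cj_mono g (le_inf hHQ le_normalizer)
      _ = _ := cj_eq_of_mem_normalizer hgN
      _ ≤ _ := inf_le_right
  refine ⟨fun Q hQ hHQ g hg => key2 g ?_, fun P hP => ⟨h1 _ P.isPGroup' hP, hP, ?_⟩⟩
  · calc cj g H ≤ cj g Q := cj_mono g hHQ
      _ = Q := cj_eq_of_mem_normalizer hg
      _ ≤ _ := h1 Q hQ hHQ
  · intro x hx g hg
    exact key g _ (conj_mem_cj g hx) (h1 _ P.isPGroup' hP hg)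

end Cfsg.Agent.S3021
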