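import Mathlib
import Cfsg.Statements.S3023
import Cfsg.Agent.Loc.CharP

set_option autoImplicit false
open Cfsg

namespace Cfsg.Agent.S3023

open Subgroup Loc Loc.Am in
theorem isSylowOf_inf {G : Type*} [Group G] [Finite G] {p : ℕ} [Fact p.Prime] {S H L : Subgroup G}
    (hS : IsSylowOf p S L) (h : GT.SubnormalIn H L) : IsSylowOf p (S ⊓ H) H := by
  refine h.induction_on (motive := fun H => IsSylowOf p (S ⊓ H) H) ?_ ?_
  · rwa [inf_eq_left.2 hS.le]
  · intro H K hHK hn _ hK
    have := hK.inf_of_normal hHK hn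
    rwa [inf_assoc, inf_eq_right.2 hHK] at this


/-- Let p be a prime, G a finite group of parabolic characteristic p (every p-local subgroup containing a Sylow p-subgroup of G has characteristic p), S a Sylow p-subgroup of G and G₁ a subnormal subgroup of G. If the centre of S ∩ G₁ is nontrivial and contained in the centre of S, then G₁ has parabolic characteristic p. -/
theorem result {G : Type*} [Group G] [Finite G] {p : ℕ} [Fact p.Prime] (hG : Cfsg.IsOfParabolicCharacteristic p G) (S : Sylow p G) (G₁ : Subgroup G) (hsn : G₁.IsSubnormal) (hne : ((S : Subgroup G) ⊓ G₁) ⊓ Subgroup.centralizer (((S : Subgroup G) ⊓ G₁ : Subgroup G) : Set G) ≠ ⊥) (hle : ((S : Subgroup G) ⊓ G₁) ⊓ Subgroup.centralizer (((S : Subgroup G) ⊓ G₁ : Subgroup G) : Set G) ≤ (S : Subgroup G) ⊓ Subgroup.centralizer ((S : Subgroup G) : Set G)) : Cfsg.IsOfParabolicCharacteristic p ↥G₁ := by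
  open Subgroup Loc Loc.Am in
  have hS := isSylowOf_inf (isSylowOf_top S) (GT.subnormalIn_top_iff.2 hsn)
  have hS1 : IsSylowOf p (((S : Subgroup G) ⊓ G₁).subgroupOf G₁) ⊤ := by
    rw [← hS.coe_toSylow]; exact isSylowOf_top _
  rw [CP.isOfParabolicCharacteristic_iff hS1]
  intro z hz hz1
  rw [mem_omZ] at hz
  have h1 : (z : G) ∈ (S : Subgroup G) ⊓ centralizer ((S : Subgroup G) : Set G) :=
    hle ⟨hz.1, fun y hy => congrArg Subtype.val (hz.2.1 ⟨y, hy.2⟩ hy)⟩
  have h2 := (CP.isOfParabolicCharacteristic_iff (isSylowOf_top S)).1 hG z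
    (mem_omZ.2 ⟨h1.1, h1.2, congrArg Subtype.val hz.2.2⟩) fun h => hz1 (Subtype.ext h)
  have h3 := CP.isCharP_of_subnormalIn h2 (GT.subnormalIn_inf_right_of_isSubnormal hsn _)
  rw [← CP.isCharP_subgroupOf_iff (M := G₁) inf_le_left] at h3
  convert h3 using 1
  ext y
  simp only [mem_subgroupOf, mem_inf, mem_centralizer_singleton_iff, y.2, true_and]
  exact ⟨fun h => congrArg Subtype.val h, fun h => Subtype.ext h⟩

end Cfsg.Agent.S3023
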