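import Mathlib
import Cfsg.Statements.S3025
import Cfsg.Agent.Loc.Isolated
import Cfsg.Agent.GT.MinNormal
import Cfsg.Agent.GT.CoprimeGen
import Cfsg.Agent.S0016

set_option autoImplicit false
open Cfsg

namespace Cfsg.Agent.S3025

/-- Let F be a finite group and H a nontrivial subgroup of F that is contained in every nontrivial subgroup of F which H normalizes. Then F has a nontrivial normal subgroup N contained in every nontrivial normal subgroup of F (a unique minimal normal subgroup), N is simple, and one of the following holds: C_F(N) = 1; or H = N has prime order p, C_F(N) is cyclic of order a power of p, and F/C_F(N) is cyclic of order dividing p − 1; or H = N has order 2, N is central in F, and F is a generalized quaternion group. -/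
theorem result {F : Type*} [Group F] [Finite F] (H : Subgroup F) (hH : H ≠ ⊥)
    (hmin : ∀ R : Subgroup F, R ≠ ⊥ → H ≤ Subgroup.normalizer (R : Set F) → H ≤ R) :
    ∃ N : Subgroup F, N.Normal ∧ N ≠ ⊥ ∧ (∀ M : Subgroup F, M.Normal → M ≠ ⊥ → N ≤ M) ∧ IsSimpleGroup ↥N ∧
      (Subgroup.centralizer (N : Set F) = ⊥ ∨
       (H = N ∧ (Nat.card N).Prime ∧ IsCyclic ↥(Subgroup.centralizer (N : Set F)) ∧
          (∃ k : ℕ, 1 ≤ k ∧ Nat.card ↥(Subgroup.centralizer (N : Set F)) = Nat.card N ^ k) ∧
          (∃ g : F, Subgroup.centralizer (N : Set F) ⊔ Subgroup.zpowers g = ⊤) ∧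
          (Subgroup.centralizer (N : Set F)).index ∣ Nat.card N - 1) ∨
       (H = N ∧ Nat.card N = 2 ∧ Subgroup.centralizer (N : Set F) = ⊤ ∧
          ∃ k : ℕ, 1 ≤ k ∧ Nonempty (F ≃* QuaternionGroup (2 ^ k)))) := by
  open Subgroup Loc Loc.Am in
  have hntop : ∀ (N : Subgroup F) [N.Normal] (K : Subgroup F), K ≤ normalizer (N : Set F) := by
    intro N _ K; rw [normalizer_eq_top]; exact le_top
  have hcl : normalClosure (H : Set F) ≠ ⊥ := fun h => hH (le_bot_iff.1 (h ▸ le_normalClosure))
  have huniq : ∀ M : Subgroup F, M.Normal → M ≠ ⊥ → normalClosure (H : Set F) ≤ M :=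
    fun M _ hM => normalClosure_le_normal (hmin M hM (hntop M H))
  have hHN : H ≤ normalClosure (H : Set F) := le_normalClosure
  have hNn : (normalClosure (H : Set F)).Normal := inferInstance
  generalize normalClosure (H : Set F) = N at hcl huniq hHN hNn
  have hsimple : IsSimpleGroup N := by
    have : Nontrivial N := (Subgroup.nontrivial_iff_ne_bot _).2 hcl
    refine ⟨fun L hL => ?_⟩
    by_cases hL1 : L = ⊥
    · exact Or.inl hL1
    right
    have hL2 : L.map N.subtype ≠ ⊥ := by
      rwa [Ne, map_eq_bot_iff_of_injective _ N.subtype_injective]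
    obtain ⟨M, hM, hML⟩ := GT.exists_isMinInv_le (GT.CopAct.le_normalizer_map_subtype_of_normal L)
      hL2
    obtain ⟨hKM, hM1, hMmin⟩ := hM
    have hMn : M.Normal := by
      refine GT.normal_of_top_le_normalizer fun x _ => ?_
      have h1 : N ≤ normalizer (cj x M : Set F) := by
        rw [← cj_normalizer]
        calc N = cj x N := (cj_eq_of_mem_normalizer (hntop N ⊤ (mem_top x))).symm
          _ ≤ _ := cj_mono x hKM
      have hinf : N ≤ normalizer ((M ⊓ cj x M : Subgroup F) : Set F) :=
        Am.le_normalizer_inf hKM h1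
      have hinf1 : M ⊓ cj x M ≠ ⊥ := fun h0 => hH (le_bot_iff.1 (h0 ▸ le_inf
        (hmin M hM1 (hHN.trans hKM)) (hmin _ (by rwa [Ne, cj_eq_bot_iff]) (hHN.trans h1))))
      have heq : M ⊓ cj x M = M := (hMmin _ hinf inf_le_left).resolve_left hinf1
      rw [← cj_eq_self_iff]
      exact (eq_of_le_of_card_le (inf_eq_left.1 heq) (card_cj x M).le).symm
    have h3 := (huniq M hMn hM1).trans hML
    rw [eq_top_iff]
    intro y _
    obtain ⟨z, hz, he⟩ := h3 y.2
    exact (Subtype.ext he : z = y) ▸ hz
  refine ⟨N, hNn, hcl, huniq, hsimple, ?_⟩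
  by_cases hC : centralizer (N : Set F) = ⊥
  · exact Or.inl hC
  right
  have hNC : N ≤ centralizer (N : Set F) := huniq _ inferInstance hC
  have hNab : IsMulCommutative N := GT.PG.isMulCommutative_iff_le_centralizer.2 hNC
  have hp : (Nat.card N).Prime := by
    letI : CommGroup N := IsMulCommutative.instCommGroup
    exact IsSimpleGroup.prime_card
  have hHeq : H = N := by
    rcases (Nat.dvd_prime hp).1 (card_dvd_of_le hHN) with h | h
    · exact absurd (Subgroup.eq_bot_of_card_eq H h) hH
    · exact eq_of_le_of_card_le hHN h.ge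
  subst hHeq
  set p := Nat.card H with hpdef
  have := Fact.mk hp
  set C := centralizer (H : Set F) with hCdef
  have hsub : ∀ R : Subgroup F, R ≤ C → R ≠ ⊥ → H ≤ R := fun R hR h1 =>
    hmin R h1 ((le_centralizer_iff.1 hR).trans (centralizer_le_normalizer _))
  have hCp : IsPGroup p C := by
    rw [IsPGroup.iff_card]
    refine ⟨_, Nat.eq_prime_pow_of_unique_prime_dvd Nat.card_pos.ne' fun {d} hd hdvd => ?_⟩
    have := Fact.mk hd
    obtain ⟨y, hy⟩ := exists_prime_orderOf_dvd_card' d hdvd
    have hy' : orderOf (y : F) = d := by rw [Subgroup.orderOf_coe, hy]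
    have h1 := card_dvd_of_le (hsub (zpowers (y : F)) (zpowers_le.2 y.2) (by
      rw [Ne, zpowers_eq_bot]
      intro h0
      rw [h0, orderOf_one] at hy'
      exact hd.one_lt.ne hy'))
    rw [Nat.card_zpowers, hy'] at h1
    exact ((Nat.prime_dvd_prime_iff_eq hp hd).1 h1).symm
  have hcyc : IsCyclic H := isCyclic_of_prime_card rfl
  have hker : (MulAut.conjNormal (H := H) (G := F)).ker = C := by
    ext g
    rw [MonoidHom.mem_ker, hCdef, mem_centralizer_iff]
    constructor
    · intro h y hy
      have := congrArg (fun φ : MulAut H => ((φ ⟨y, hy⟩ : H) : F)) h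
      simp only [MulAut.conjNormal_apply, MulAut.one_apply] at this
      rw [mul_inv_eq_iff_eq_mul] at this
      exact this.symm
    · intro h
      ext y
      simp only [MulAut.conjNormal_apply, MulAut.one_apply]
      rw [← h y y.2, mul_inv_cancel_right]
  have hidx : C.index ∣ p - 1 := by
    rw [← hker, index_ker, ← Nat.totient_prime hp, hpdef, ← IsCyclic.card_mulAut]
    exact card_subgroup_dvd_card _
  have huq : ∀ A B : Subgroup C, Nat.card A = p → Nat.card B = p → A = B := by
    have aux : ∀ A : Subgroup C, Nat.card A = p → A.map C.subtype = H := by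
      intro A hA
      have h1 : Nat.card (A.map C.subtype) = p := by
        rw [card_map_of_injective C.subtype_injective, hA]
      refine (eq_of_le_of_card_le (hsub _ (map_subtype_le A) fun h0 => ?_) h1.le).symm
      rw [h0, card_bot] at h1
      exact hp.one_lt.ne h1
    intro A B hA hB
    exact map_injective C.subtype_injective ((aux A hA).trans (aux B hB).symm)
  have hcase : IsCyclic C ∨ (p = 2 ∧ ∃ n : ℕ, Nonempty (C ≃* QuaternionGroup (2 ^ (n + 1)))) := by
    rcases S0016.result p hCp huq with h1 | ⟨h2, n, ⟨e⟩⟩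
    · exact Or.inl h1
    · cases n with
      | zero =>
        have := QuaternionGroup.quaternionGroup_one_isCyclic
        exact Or.inl (isCyclic_of_surjective e.symm e.symm.surjective)
      | succ n => exact Or.inr ⟨h2, n, ⟨e⟩⟩
  rcases hcase with h1 | ⟨h2, n, ⟨e⟩⟩
  · left
    refine ⟨rfl, hp, h1, ?_, ?_, hidx⟩
    · obtain ⟨k, hk⟩ := IsPGroup.iff_card.1 hCp
      refine ⟨k, ?_, hk⟩
      rcases k with _ | k
      · exact absurd (Subgroup.eq_bot_of_card_eq C (by simpa using hk)) hC
      · omega
    · rw [← hker]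
      refine GT.CopAct.exists_ker_sup_zpowers_eq_top _ ?_
      have e := IsCyclic.mulAutMulEquiv H
      have : IsCyclic (ZMod (Nat.card H))ˣ := ZMod.isCyclic_units_prime hp
      have : IsCyclic (MulAut H) := isCyclic_of_surjective e.symm e.symm.surjective
      infer_instance
  · right
    have htop : C = ⊤ := by
      rw [h2] at hidx
      exact index_eq_one.1 (Nat.dvd_one.1 hidx)
    exact ⟨rfl, h2, htop, n + 1, by omega,
      ⟨(topEquiv.symm.trans (MulEquiv.subgroupCongr htop.symm)).trans e⟩⟩

end Cfsg.Agent.S3025
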