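import Mathlib
import Cfsg.Statements.S3031
import Cfsg.Agent.Loc.HSubgroup
import Cfsg.Agent.GT.TransferTate
import Cfsg.Agent.GT.TransferAlperin

set_option autoImplicit false
open Cfsg

namespace Cfsg.Agent.S3031

/-- Let G be a finite group, p the smallest prime dividing |G| and P a Sylow p-subgroup. Suppose that P is cyclic, or that P has a subgroup D with 1 < |D| < |P| such that every subgroup E of P of order |D|, and also every subgroup E of P of order 4 when |D| = 2, satisfies g E g⁻¹ ∩ N_G(E) ≤ E for all g ∈ G (E is strongly closed in its normalizer with respect to G). Then G has a normal p-complement. -/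
theorem result {G : Type*} [Group G] [Finite G] {p : ℕ} [Fact p.Prime] (hdiv : p ∣ Nat.card G)
    (hmin : ∀ q : ℕ, q.Prime → q ∣ Nat.card G → p ≤ q) (P : Sylow p G)
    (h : IsCyclic ↥(P : Subgroup G) ∨ ∃ D : Subgroup G, D ≤ (P : Subgroup G) ∧ 1 < Nat.card D ∧ Nat.card D < Nat.card (P : Subgroup G) ∧
      ∀ E : Subgroup G, E ≤ (P : Subgroup G) → (Nat.card E = Nat.card D ∨ (Nat.card D = 2 ∧ Nat.card E = 4)) →
        ∀ g : G, E.map (MulAut.conj g).toMonoidHom ⊓ Subgroup.normalizer (E : Set G) ≤ E) :
    Cfsg.HasNormalPComplement p G := by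
  open Subgroup Loc Loc.Am in
  have hp : p.Prime := Fact.out
  have hpred := coprime_pred_of_min hp hmin
  rcases h with hc | ⟨D, hDP, hD1, hD2, hE⟩
  · have hmf : (Nat.card G).minFac = p := by
      have h1 : Nat.card G ≠ 1 := fun h => hp.one_lt.ne' (Nat.dvd_one.1 (h ▸ hdiv))
      exact le_antisymm (Nat.minFac_le_of_dvd hp.two_le hdiv)
        (hmin _ (Nat.minFac_prime h1) (Nat.minFac_dvd _))
    exact GT.Tr.hasNormalPComplement_of_normalizer_le_centralizer P
      (hc.normalizer_le_centralizer hmf)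
  obtain ⟨k, hk⟩ := GT.PG.card_eq_pow_of_isPGroup (P.isPGroup'.to_le hDP)
  rw [hk] at hD1 hD2 hE
  have hk1 : 1 ≤ k := by
    rcases k with _ | k
    · simp at hD1
    · omega
  have hle : p ^ (k + 1) ≤ Nat.card (P : Subgroup G) := by
    obtain ⟨n, hn⟩ := GT.PG.card_eq_pow_of_isPGroup P.isPGroup'
    rw [hn] at hD2 ⊢
    exact Nat.pow_le_pow_right hp.pos ((Nat.pow_lt_pow_iff_right hp.one_lt).1 hD2)
  set Φ := (frattini (P : Subgroup G)).map (P : Subgroup G).subtype with hΦ
  have hPΦ : (P : Subgroup G) ≤ normalizer (Φ : Set G) :=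
    GT.CopAct.le_normalizer_map_subtype_of_normal _
  obtain ⟨hcomm, hpow⟩ := (GT.PG.map_frattini_subtype_le_iff P.isPGroup').1 (le_refl Φ)
  have key : ∀ (A : Subgroup G), A ≤ P → ∀ g : G, (∀ a ∈ A, g * a * g⁻¹ ∈ (P : Subgroup G)) →
      ∀ a ∈ A, a⁻¹ * (g * a * g⁻¹) ∈ Φ := by
    refine GT.Tr.alperin_induction P (fun A g => ∀ a ∈ A, a⁻¹ * (g * a * g⁻¹) ∈ Φ)
      (fun A D g hAD h a ha => h a (hAD ha)) (fun A g h h1 h2 a ha => ?_)
      (fun A g h1 a ha => ?_) (fun B hB hi _ n hn b hb => ?_)
    · have := Φ.mul_mem (h1 a ha) (h2 _ (conj_mem_cj g ha))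
      convert this using 1
      group
    · have := Φ.inv_mem (h1 _ (mem_cj.1 ha))
      convert this using 1
      group
    · have hBp : IsPGroup p B := P.isPGroup'.to_le hB
      by_cases hlt : p ^ k < Nat.card B
      · obtain ⟨s, hs, he⟩ := GT.Tr.exists_conj_eq_of_coprime_centralize (B := B)
          (S := (P : Subgroup G) ⊓ normalizer (B : Set G)) inf_le_right hi (fun g hg hc => by
            refine le_centralizer_of_invariant_of_sec (A := zpowers g) le_rfl
              (by rwa [Nat.card_zpowers]) (fun a ha F z h1 h2 h3 h4 => ?_) hBp hk1 hlt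
              (zpowers_le.2 hg) (fun E hEB hcard => zpowers_le.2 ?_) (mem_zpowers g)
            · exact conj_mul_inv_mem_of_coprime hp (h1 ha) h3 h4
                (GT.CopAct.conj_mem h2 ha (mem_sup_right (mem_zpowers z))) (hpred a)
            · exact GT.Tr.mem_normalizer_of_conj_mem fun y hy =>
                conj_mem_of_hsub P.isPGroup' (hEB.trans hB) (hE E (hEB.trans hB) hcard) hy
                  (hB ((mem_normalizer_iff.1 hg y).1 (hEB hy)))) inf_le_right hn
        rw [he b hb]
        have := hcomm (commutator_mem_commutator ((P : Subgroup G).inv_mem (hB hb)) hs.1)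
        rw [commutatorElement_def] at this
        convert this using 1
        group
      · obtain ⟨R, hR1, hR2, hR3⟩ := GT.PG.exists_card_eq_pow_between P.isPGroup' hB
          (k := k + 1) ((not_lt.1 hlt).trans (Nat.pow_le_pow_right hp.pos k.le_succ)) hle
        have hBR : B < R := lt_of_le_of_ne hR1 fun h => by
          rw [h, hR3] at hlt
          exact hlt (Nat.pow_lt_pow_right hp.one_lt k.lt_succ_self)
        have h1 : ∀ c ∈ B, n * c * n⁻¹ ∈ Φ ⊔ zpowers c := by
          intro c hc
          refine sup_le_sup_right (GT.PG.map_frattini_subtype_mono P.isPGroup' hR2) _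
            (mem_of_forall_relIndex (P.isPGroup'.to_le hR2) le_sup_left
              (frattini_sup_lt (lt_of_le_of_lt (zpowers_le.2 hc) hBR)) fun M h1 h2 h3 => ?_)
          exact conj_mem_of_hsub P.isPGroup' (h2.trans hR2)
            (hE M (h2.trans hR2) (Or.inl (card_eq_of_relIndex h2 h3 hR3)))
            (h1 (mem_sup_right (mem_zpowers c))) (hB ((mem_normalizer_iff.1 hn c).1 hc))
        have h2 : n ∈ normalizer ((Φ ⊓ B : Subgroup G) : Set G) := by
          refine GT.Tr.mem_normalizer_of_conj_mem fun c hc => ⟨?_, (mem_normalizer_iff.1 hn c).1 hc.2⟩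
          have := h1 c hc.2
          rwa [sup_eq_left.2 (zpowers_le.2 hc.1)] at this
        have h3 : b ∈ normalizer ((Φ ⊓ B : Subgroup G) : Set G) :=
          Am.le_normalizer_inf (hB.trans hPΦ) le_normalizer hb
        have h4 : n * b * n⁻¹ ∈ (Φ ⊓ B) ⊔ zpowers b := by
          obtain ⟨u, hu, i, he⟩ := (GT.PG.mem_sup_zpowers_of_mem_normalizer (hPΦ (hB hb))).1
            (h1 b hb)
          have hu' : u ∈ B := by
            have := B.mul_mem ((mem_normalizer_iff.1 hn b).1 hb) (B.inv_mem (B.zpow_mem hb i))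
            rwa [← he, mul_inv_cancel_right] at this
          rw [← he]
          exact mul_mem_sup ⟨hu, hu'⟩ (zpow_mem (mem_zpowers b) i)
        have h5 := conj_mul_inv_mem_of_coprime hp h2 h3 ⟨hpow b (hB hb), B.pow_mem hb p⟩ h4
          (hpred n)
        have := GT.CopAct.conj_mem' hPΦ (hB hb) h5.1
        convert this using 1
        group
  refine GT.Tr.hasNormalPComplement_of_pResidual_inf_le_frattini P ?_
  rw [inf_comm]
  refine (GT.Tr.sylow_inf_pResidual_le_focalSubgroup P).trans
    (GT.Tr.focalSubgroup_le_iff.2 fun x hx g hg => ?_)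
  refine key (zpowers x) (zpowers_le.2 hx) g (fun a ha => ?_) x (mem_zpowers x)
  obtain ⟨j, rfl⟩ := mem_zpowers_iff.1 ha
  rw [← conj_zpow]
  exact zpow_mem hg j

end Cfsg.Agent.S3031
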