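import Mathlib
import Cfsg.Statements.S3032
import Cfsg.Agent.Loc.HSubgroup
import Cfsg.Agent.S3031

set_option autoImplicit false
open Cfsg

namespace Cfsg.Agent.S3032

open Subgroup Loc Loc.Am

universe u

/-- The hypothesis on the Sylow subgroups of `E`. -/
def Hyp {G : Type*} [Group G] (E : Subgroup G) : Prop :=
  ∀ (p : ℕ), p.Prime → ∀ P : Subgroup G, P ≤ E → IsPGroup p P → ¬ p ∣ P.relIndex E →
    ¬ IsCyclic ↥P → ∃ D : Subgroup G, D ≤ P ∧ 1 < Nat.card D ∧ Nat.card D < Nat.card P ∧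
      ∀ F : Subgroup G, F ≤ P → (Nat.card F = Nat.card D ∨ (Nat.card D = 2 ∧ Nat.card F = 4)) →
        ∀ g : G, cj g F ⊓ normalizer (F : Set G) ≤ F

theorem relIndex_comap_comap_of_surjective {G K : Type*} [Group G] [Group K] {f : G →* K}
    (hf : Function.Surjective f) (A B : Subgroup K) :
    (A.comap f).relIndex (B.comap f) = A.relIndex B := by
  rw [relIndex_comap, map_comap_eq_self_of_surjective hf]

theorem hsub_map {G K : Type*} [Group G] [Finite G] [Group K] {p : ℕ} [Fact p.Prime]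
    {F : Subgroup G} (hF : IsPGroup p F) (h : ∀ g : G, cj g F ⊓ normalizer (F : Set G) ≤ F)
    (f : G →* K) (hf : Function.Surjective f) (k : K) :
    cj k (F.map f) ⊓ normalizer (F.map f : Set K) ≤ F.map f := by
  obtain ⟨g, rfl⟩ := hf k
  rintro _ ⟨⟨_, ⟨y, hy, rfl⟩, rfl⟩, hx⟩
  have hFH : F ≤ (normalizer (F.map f : Set K)).comap f := fun z hz =>
    le_normalizer (mem_map_of_mem f hz)
  have hxH : g * y * g⁻¹ ∈ (normalizer (F.map f : Set K)).comap f := by
    rw [mem_comap, map_mul, map_mul, map_inv]; exact hx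
  obtain ⟨T, hT, hFT⟩ := exists_isSylowOf_ge hF hFH
  obtain ⟨c, hc, hle⟩ := hT.exists_cj_le
    (isPGroup_zpowers_of_orderOf (exists_orderOf_conj (exists_orderOf_eq_of_mem hF hy) g))
    (zpowers_le.2 hxH)
  have h1 : (c * g) * y * (c * g)⁻¹ ∈ T := by
    have := hle (conj_mem_cj c (mem_zpowers _))
    simpa [mul_assoc] using this
  have h2 := mem_map_of_mem f (conj_mem_of_hsub hT.isPGroup hFT h hy h1)
  refine (mem_normalizer_iff.1 hc _).2 ?_
  simpa [mul_assoc] using h2

theorem hasNormalPComplement {G : Type*} [Group G] [Finite G] {K : Subgroup G} (h : Hyp K)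
    {p : ℕ} [Fact p.Prime] (hdiv : p ∣ Nat.card K)
    (hmin : ∀ q : ℕ, q.Prime → q ∣ Nat.card K → p ≤ q) : HasNormalPComplement p K := by
  obtain ⟨P⟩ := (inferInstance : Nonempty (Sylow p K))
  refine S3031.result hdiv hmin P ?_
  by_cases hc : IsCyclic (P : Subgroup K)
  · exact Or.inl hc
  right
  have hS := isSylowOf_map_subtype P
  have e := (P : Subgroup K).equivMapOfInjective K.subtype K.subtype_injective
  obtain ⟨D, hD1, hD2, hD3, hD4⟩ := h p Fact.out _ hS.le hS.isPGroup hS.not_dvd_relIndex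
    fun h' => hc (isCyclic_of_surjective e.symm e.symm.surjective)
  have hDK : D ≤ K := hD1.trans hS.le
  have hc1 : Nat.card (D.subgroupOf K) = Nat.card D :=
    Nat.card_congr (subgroupOfEquivOfLe hDK).toEquiv
  refine ⟨D.subgroupOf K, ?_, hc1 ▸ hD2, ?_, fun F hF hcard g y hy => ?_⟩
  · rw [← map_le_map_iff_of_injective K.subtype_injective, subgroupOf_map_subtype,
      inf_eq_left.2 hDK]
    exact hD1
  · rw [hc1, Nat.card_congr e.toEquiv]; exact hD3
  · have h1 := hD4 (F.map K.subtype) (map_mono hF)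
      (by rwa [card_map_of_injective K.subtype_injective, ← hc1]) g (x := y) ⟨by
        obtain ⟨z, hz, rfl⟩ := hy.1
        exact conj_mem_cj _ (mem_map_of_mem _ hz), le_normalizer_map K.subtype ⟨y, hy.2, rfl⟩⟩
    obtain ⟨z, hz, he⟩ := h1
    exact (Subtype.ext he : z = y) ▸ hz

theorem exists_normal_sylow {G : Type*} [Group G] [Finite G] (K : Subgroup G) :
    K.Normal → K ≠ ⊥ → Hyp K →
      ∃ (q : ℕ) (Q : Subgroup G), q.Prime ∧ Q.Normal ∧ Q ≠ ⊥ ∧ Q ≤ K ∧ IsPGroup q Q ∧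
        ¬ q ∣ Q.relIndex K := by
  induction K using GT.subgroup_lt_induction with
  | _ K ih =>
  intro hK hK1 h
  have h1 : Nat.card K ≠ 1 := fun h0 => hK1 (Subgroup.eq_bot_of_card_eq K h0)
  have hp := Nat.minFac_prime h1
  set p := (Nat.card K).minFac with hpdef
  have := Fact.mk hp
  have hc := hasNormalPComplement h (Nat.minFac_dvd _)
    fun q hq hd => Nat.minFac_le_of_dvd hq.two_le hd
  have hL : ¬ p ∣ Nat.card (pResidualOf p K) := by
    rw [pResidualOf, card_map_of_injective K.subtype_injective]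
    exact hc.not_dvd_card_pResidual
  obtain ⟨a, ha⟩ : ∃ a, (pResidualOf p K).relIndex K = p ^ a :=
    GT.Tr.exists_relIndex_map_pResidual K
  have hLK := GT.pResidualOf_le (p := p) K
  set L := pResidualOf p K with hLdef
  by_cases hL1 : L = ⊥
  · refine ⟨p, K, hp, hK, hK1, le_rfl, IsPGroup.of_card (n := a) ?_, ?_⟩
    · rw [← ha, hL1, relIndex_bot_left]
    · rw [relIndex_self]; exact hp.one_lt.ne' ∘ Nat.dvd_one.1
  have hlt : L < K := lt_of_le_of_ne hLK fun h0 => hL (h0 ▸ Nat.minFac_dvd _)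
  have key : ∀ r : ℕ, r.Prime → ∀ P : Subgroup G, P ≤ L → IsPGroup r P → P ≠ ⊥ →
      ¬ r ∣ P.relIndex L → ¬ r ∣ P.relIndex K := by
    intro r hr P hP hrP hP1 hi hd
    rw [← relIndex_mul_relIndex P L K hP hLK, ha] at hd
    rcases (Nat.Prime.dvd_mul hr).1 hd with h2 | h2
    · exact hi h2
    · obtain rfl := (Nat.prime_dvd_prime_iff_eq hr hp).1 (hr.dvd_of_dvd_pow h2)
      apply hP1
      rw [← GT.Tr.inf_eq_bot_of_isPGroup_of_not_dvd hrP hL, inf_eq_left.2 hP]
  obtain ⟨q, Q, hq, hQ, hQ1, hQL, hqQ, hi⟩ := ih L hlt inferInstance hL1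
    fun r hr P hP hrP hi hc => h r hr P (hP.trans hLK) hrP
      (key r hr P hP hrP (fun h0 => hc (h0 ▸ inferInstance)) hi) hc
  exact ⟨q, Q, hq, hQ, hQ1, hQL.trans hLK, hqQ, key q hq Q hQL hqQ hQ1 hi⟩

theorem hyp_map {G : Type*} [Group G] [Finite G] {E Q : Subgroup G} [Q.Normal] (h : Hyp E)
    {q : ℕ} (hq : q.Prime) (hQE : Q ≤ E) (hQ : IsPGroup q Q) (hi : ¬ q ∣ Q.relIndex E) :
    Hyp (E.map (QuotientGroup.mk' Q)) := by
  intro p hp P' hP' hpP' hi' hc
  have := Fact.mk hp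
  have := Fact.mk hq
  set f := QuotientGroup.mk' Q with hf
  have hfs : Function.Surjective f := QuotientGroup.mk'_surjective Q
  have hker : f.ker = Q := QuotientGroup.ker_mk' Q
  have hcE : (E.map f).comap f = E := by rw [comap_map_eq, hker, sup_eq_left.2 hQE]
  have hpq : p ≠ q := by
    rintro rfl
    have h1 : Nat.card (E.map f) = Q.relIndex E := by
      rw [← relIndex_bot_left, ← relIndex_comap_comap_of_surjective hfs, hcE,
        MonoidHom.comap_bot, hker]
    have h2 := GT.Tr.inf_eq_bot_of_isPGroup_of_not_dvd hpP' (h1 ▸ hi)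
    rw [inf_eq_left.2 hP'] at h2
    exact hc (h2 ▸ inferInstance)
  obtain ⟨P, hP⟩ := exists_isSylowOf p (P'.comap f)
  have hPQ : P ⊓ Q = ⊥ := by
    refine GT.Tr.inf_eq_bot_of_isPGroup_of_not_dvd hP.isPGroup fun hd => ?_
    obtain ⟨n, hn⟩ := IsPGroup.iff_card.1 hQ
    exact hpq ((Nat.prime_dvd_prime_iff_eq hp hq).1 (hp.dvd_of_dvd_pow (hn ▸ hd)))
  have hcard : ∀ X : Subgroup G, X ≤ P → Nat.card (X.map f) = Nat.card X := by
    intro X hX
    have h1 : Function.Injective (f.subgroupMap X) := by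
      rw [injective_iff_map_eq_one]
      intro x hx
      have h2 : (x : G) ∈ P ⊓ Q := ⟨hX x.2, hker ▸ (congrArg Subtype.val hx : f x = 1)⟩
      rw [hPQ] at h2
      exact Subtype.ext h2
    exact (Nat.card_congr (Equiv.ofBijective _ ⟨h1, f.subgroupMap_surjective X⟩)).symm
  have hPle : P.map f ≤ P' := map_le_iff_le_comap.2 hP.le
  have hPmap : P.map f = P' := by
    obtain ⟨n, hn⟩ := GT.PG.relIndex_eq_pow_of_isPGroup hpP' (P.map f)
    have h1 : (P.map f).relIndex P' ∣ P.relIndex (P'.comap f) := by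
      rw [← relIndex_comap_comap_of_surjective hfs]
      exact relIndex_dvd_of_le_left _ (le_comap_map f P)
    rcases n with _ | n
    · exact le_antisymm hPle (relIndex_eq_one.1 (by simpa using hn))
    · exact absurd ((dvd_pow_self p n.succ_ne_zero).trans (hn ▸ h1)) hP.not_dvd_relIndex
  have hle : P'.comap f ≤ E := hcE ▸ comap_mono hP'
  obtain ⟨D, hD1, hD2, hD3, hD4⟩ := h p hp P (hP.le.trans hle) hP.isPGroup (fun hd => by
      rw [← relIndex_mul_relIndex P _ E hP.le hle] at hd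
      rcases (Nat.Prime.dvd_mul hp).1 hd with h2 | h2
      · exact hP.not_dvd_relIndex h2
      · rw [← hcE, relIndex_comap_comap_of_surjective hfs] at h2
        exact hi' h2)
    (fun h' => hc (hPmap ▸ isCyclic_of_surjective _ (f.subgroupMap_surjective P)))
  refine ⟨D.map f, hPmap ▸ map_mono hD1, by rwa [hcard D hD1], by
    rwa [← hPmap, hcard D hD1, hcard P le_rfl], fun F' hF' hcF k => ?_⟩
  have hF : (P ⊓ F'.comap f).map f = F' := by
    refine le_antisymm (map_le_iff_le_comap.2 inf_le_right) fun y hy => ?_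
    obtain ⟨x, hx, rfl⟩ := (hPmap ▸ hF' hy : y ∈ P.map f)
    exact ⟨x, ⟨hx, hy⟩, rfl⟩
  rw [← hF, hcard _ inf_le_left, hcard D hD1] at hcF
  rw [← hF]
  exact hsub_map (hP.isPGroup.to_le inf_le_left) (hD4 _ inf_le_left hcF) f hfs k

theorem step {G : Type*} [Group G] [Finite G] {Q : Subgroup G} [Q.Normal] {q k : ℕ}
    [hq : Fact q.Prime] (hQ : IsPGroup q Q) (hk : 1 ≤ k) (hlt : q ^ k < Nat.card Q)
    (hinv : ∀ F : Subgroup G, F ≤ Q → (Nat.card F = q ^ k ∨ (q ^ k = 2 ∧ Nat.card F = 4)) →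
      ⊤ ≤ normalizer (F : Set G)) (M : Subgroup G) (hM : M.Normal) (hQM : ¬ Q ≤ M) :
    ∃ g, g ∉ M ∧ (M ⊔ zpowers g).Normal := by
  set f := QuotientGroup.mk' M with hf
  have hfs : Function.Surjective f := QuotientGroup.mk'_surjective M
  set N : Subgroup G := _root_.commutator G ⊔ closure (Set.range fun g : G => g ^ (q - 1)) with hN
  have hNn : N.Normal := GT.PG.normal_of_commutator_le le_sup_left
  have h1 : pResidualOf q N ≤ centralizer (Q : Set G) := by
    rw [GT.pResidualOf_eq_closure, closure_le]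
    rintro a ⟨ha, hc⟩
    refine le_centralizer_of_invariant_of_sec (A := ⊤) (A₀ := zpowers a) le_top
      (by rwa [Nat.card_zpowers]) (fun b hb F z h1 h2 _ h4 => ?_) hQ hk hlt
      (by rw [normalizer_eq_top]; exact le_top) hinv (mem_zpowers a)
    have := GT.normal_of_top_le_normalizer h1
    exact conj_mul_inv_mem_of_normal hq.out h4 (GT.normal_of_top_le_normalizer h2)
      (zpowers_le.2 ha hb)
  have hQn : (Q.map f).Normal := Subgroup.Normal.map inferInstance f hfs
  obtain ⟨V, hV, hVQ⟩ := GT.exists_isMinNormal_le (H := Q.map f) (by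
    rwa [Ne, Subgroup.map_eq_bot_iff, QuotientGroup.ker_mk'])
  have hVn := hV.normal
  have hVq : IsPGroup q V := (hQ.map f).to_le hVQ
  obtain ⟨S⟩ := (inferInstance : Nonempty (Sylow q N))
  have hSq : IsPGroup q (((S : Subgroup N).map N.subtype).map f) := (S.isPGroup'.map _).map f
  have h2 := GT.PG.inf_centralizer_ne_bot_of_isPGroup hVq hSq
    (by rw [normalizer_eq_top]; exact le_top) hV.ne_bot
  have hNf : (N.map f).Normal := hNn.map f hfs
  have h3 : V ⊓ centralizer (N.map f : Set (G ⧸ M)) = V := by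
    refine (hV.eq_bot_or_eq inf_le_left).resolve_left fun h0 => h2 (le_bot_iff.1 (h0 ▸ ?_))
    rintro v ⟨hv, hvc⟩
    refine ⟨hv, ?_⟩
    rintro _ ⟨n, hn, rfl⟩
    obtain ⟨r, hr, u, hu, he⟩ := GT.Tr.exists_pResidual_mul_sylow S ⟨n, hn⟩
    have he' : n = r * u := congrArg Subtype.val he
    obtain ⟨w, hw, rfl⟩ := hVQ hv
    have h4 : w * r = r * w := h1 ⟨r, hr, rfl⟩ w hw
    have h5 : f u * f w = f w * f u := hvc _ ⟨u, ⟨u, hu, rfl⟩, rfl⟩
    rw [he', map_mul, mul_assoc, h5, ← mul_assoc, ← map_mul, ← h4, map_mul, mul_assoc]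
  obtain ⟨⟨v, hv⟩, hv1⟩ := Subgroup.ne_bot_iff_exists_ne_one.1 hV.ne_bot
  have h4 := zpowers_normal_of_isMinNormal hV (hV.elementary_of_isPGroup hq.out hVq) (by
    refine le_trans ?_ (le_centralizer_iff.1 (h3.ge.trans inf_le_right))
    refine sup_le ?_ ((closure_le _).2 ?_)
    · refine le_trans ?_ (map_mono le_sup_left)
      rw [map_commutator_eq, MonoidHom.range_eq_top.2 hfs]; rfl
    · rintro _ ⟨y, rfl⟩
      obtain ⟨g, rfl⟩ := hfs y
      exact ⟨g ^ (q - 1), mem_sup_right (subset_closure ⟨g, rfl⟩), map_pow f g _⟩) hv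
  obtain ⟨g, rfl⟩ := hfs v
  refine ⟨g, fun hg => hv1 (Subtype.ext ((QuotientGroup.eq_one_iff g).2 hg)), ?_⟩
  have := h4.comap f
  rwa [← MonoidHom.map_zpowers, comap_map_eq, QuotientGroup.ker_mk', sup_comm] at this

theorem aux (G : Type u) [Group G] [Finite G] : ∀ (E : Subgroup G) [E.Normal],
    IsSupersolvable (G ⧸ E) → Hyp E → IsSupersolvable G := by
  refine GT.subgroup_quotient_induction (P := fun G _ _ => ∀ (E : Subgroup G) [E.Normal],
    IsSupersolvable (G ⧸ E) → Hyp E → IsSupersolvable G) ?_ G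
  intro G _ _ _ ihq E _ hGE h
  by_cases hE : E = ⊥
  · subst hE
    exact GT.SS.of_mulEquiv hGE QuotientGroup.quotientBot
  obtain ⟨q, Q, hq, hQ, hQ1, hQE, hqQ, hi⟩ := exists_normal_sylow E inferInstance hE h
  have := Fact.mk hq
  have h1 : IsSupersolvable (G ⧸ Q) := ihq Q hQ1 (E.map (QuotientGroup.mk' Q))
    (GT.SS.of_mulEquiv hGE (QuotientGroup.quotientQuotientEquivQuotient Q E hQE).symm)
    (hyp_map h hq hQE hqQ hi)
  by_cases hc : IsCyclic Q
  · exact GT.SS.of_cyclic_normal Q h1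
  obtain ⟨D, hD1, hD2, hD3, hD4⟩ := h q hq Q hQE hqQ hi hc
  obtain ⟨k, hk⟩ := GT.PG.card_eq_pow_of_isPGroup (hqQ.to_le hD1)
  rw [hk] at hD2 hD3 hD4
  have hk1 : 1 ≤ k := by
    rcases k with _ | k
    · simp at hD2
    · omega
  refine GT.SS.of_quotient_of_steps Q h1 (step hqQ hk1 hD3 fun F hF hcard g _ => ?_)
  exact GT.Tr.mem_normalizer_of_conj_mem fun y hy =>
    conj_mem_of_hsub hqQ hF (hD4 F hF hcard) hy (hQ.conj_mem y (hF hy) g)


/-- Let G be a finite group and E a normal subgroup with G/E supersolvable. Suppose that for every prime p and every non-cyclic Sylow p-subgroup P of E there is a subgroup D of P with 1 < |D| < |P| such that every subgroup F of P of order |D|, and also every subgroup F of P of order 4 when |D| = 2, satisfies g F g⁻¹ ∩ N_G(F) ≤ F for all g ∈ G. Then G is supersolvable. -/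
theorem result {G : Type*} [Group G] [Finite G] (E : Subgroup G) [E.Normal] (hGE : Cfsg.IsSupersolvable (G ⧸ E))
    (h : ∀ (p : ℕ), p.Prime → ∀ P : Subgroup G, P ≤ E → IsPGroup p P → ¬ p ∣ P.relIndex E → ¬ IsCyclic ↥P →
      ∃ D : Subgroup G, D ≤ P ∧ 1 < Nat.card D ∧ Nat.card D < Nat.card P ∧
        ∀ F : Subgroup G, F ≤ P → (Nat.card F = Nat.card D ∨ (Nat.card D = 2 ∧ Nat.card F = 4)) →
          ∀ g : G, F.map (MulAut.conj g).toMonoidHom ⊓ Subgroup.normalizer (F : Set G) ≤ F) :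
    Cfsg.IsSupersolvable G := by
  exact aux G E hGE h

end Cfsg.Agent.S3032
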