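import Mathlib
import Cfsg.Statements.S3047
import Cfsg.Agent.R47.Mod

set_option autoImplicit false
open Cfsg

namespace Cfsg.Agent.S3047

open Cfsg.Agent.R47

theorem charP_of {F : Type*} [Field F] [Fintype F] {p a : ℕ} [hp : Fact p.Prime] (ha : a ≠ 0)
    (h : Fintype.card F = p ^ a) : CharP F p := by
  obtain ⟨r, hr⟩ := CharP.exists F
  obtain ⟨n, hr', hn⟩ := FiniteField.card F r
  have : p ∣ r ^ (n : ℕ) := by rw [← hn, h]; exact dvd_pow_self p ha
  have e := (Nat.prime_dvd_prime_iff_eq hp.out hr').1 (hp.out.dvd_of_dvd_pow this)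
  exact e ▸ hr

/-- Let p ≥ 5 be a prime, G a finite group all of whose composition factors are known simple groups, S a Sylow p-subgroup and P a p-minimal subgroup of G containing S such that O^p(P/O_p(P)) is isomorphic to SL₂(pᵃ), PSL₂(pᵃ), SU₃(pᵃ) or PSU₃(pᵃ) for some a ≥ 1. Let L be the subgroup generated by N_G(S) and the p-minimal subgroups of G containing S other than P. Then either O^p(P) is normal in G, or every p-element of the centre of L lies in O_p(P). -/
theorem result {G : Type*} [Group G] [Finite G] {p : ℕ} [Fact p.Prime] (hp : 5 ≤ p) (hK : Cfsg.IsCompositionKGroup G)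
    (S : Sylow p G) (P : Subgroup G) (hSP : (S : Subgroup G) ≤ P) (hPmin : Cfsg.IsPMinimal p ↥P) [hn : (Cfsg.pCore p ↥P).Normal]
    (hrk1 : ∃ (F : Type) (_ : Field F) (_ : Fintype F) (a : ℕ), 1 ≤ a ∧
      ((Fintype.card F = p ^ a ∧ (Nonempty (↥(Cfsg.pResidual p (↥P ⧸ Cfsg.pCore p ↥P)) ≃* Matrix.SpecialLinearGroup (Fin 2) F) ∨
                                  Nonempty (↥(Cfsg.pResidual p (↥P ⧸ Cfsg.pCore p ↥P)) ≃* Matrix.ProjectiveSpecialLinearGroup (Fin 2) F))) ∨
       (Fintype.card F = p ^ (2 * a) ∧ (Nonempty (↥(Cfsg.pResidual p (↥P ⧸ Cfsg.pCore p ↥P)) ≃* ↥(Cfsg.SU 3 F (p ^ a))) ∨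
                                        Nonempty (↥(Cfsg.pResidual p (↥P ⧸ Cfsg.pCore p ↥P)) ≃* Cfsg.PSU 3 F (p ^ a))))))
    (L : Subgroup G)
    (hL : L = Subgroup.normalizer ((S : Subgroup G) : Set G) ⊔ ⨆ P' : {P' : Subgroup G // (S : Subgroup G) ≤ P' ∧ Cfsg.IsPMinimal p ↥P' ∧ P' ≠ P}, (P' : Subgroup G)) :
    ((Cfsg.pResidual p ↥P).map P.subtype).Normal ∨
    ∀ z ∈ L ⊓ Subgroup.centralizer (L : Set G), (∃ k : ℕ, orderOf z = p ^ k) → z ∈ (Cfsg.pCore p ↥P).map P.subtype := by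
  refine Or.inr fun z hz hzo => ?_
  obtain ⟨d0⟩ : Nonempty (R1 p (pResidual p (P ⧸ pCore p P))) := by
    obtain ⟨F, _, _, a, ha, ⟨hF, h⟩ | ⟨hF, h⟩⟩ := hrk1
    · have := charP_of (by omega) hF
      obtain ⟨d⟩ := r1_sl (F := F) hp
      rcases h with ⟨⟨e⟩⟩ | ⟨⟨e⟩⟩
      · exact d.of_equiv e.symm
      · obtain ⟨d'⟩ := d.quot
        exact d'.of_equiv e.symm
    · have := charP_of (by omega) hF
      obtain ⟨σ, hσ⟩ := Cl.exists_uField (F := F) (q := p ^ a) (by rw [hF, ← pow_mul, mul_comm])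
      obtain ⟨d⟩ := r1_su hp hσ (by
        have := Nat.le_self_pow (show a ≠ 0 by omega) p
        omega)
      rcases h with ⟨⟨e⟩⟩ | ⟨⟨e⟩⟩
      · exact d.of_equiv e.symm
      · obtain ⟨d'⟩ := d.quot
        exact d'.of_equiv e.symm
  have hNL : Subgroup.normalizer ((S : Subgroup G) : Set G) ≤ L := hL ▸ le_sup_left
  have hc : ∀ x ∈ Subgroup.normalizer ((S : Subgroup G) : Set G), x * z = z * x := fun x hx =>
    Subgroup.mem_centralizer_iff.1 hz.2 x (hNL hx)
  have hzS : z ∈ (S : Subgroup G) := by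
    obtain ⟨k, hk⟩ := hzo
    have h1 : IsPGroup p (Subgroup.zpowers z) := IsPGroup.of_card (by rw [Nat.card_zpowers, hk])
    have h2 : Subgroup.zpowers z ≤ Subgroup.normalizer ((S : Subgroup G) : Set G) := by
      rw [Subgroup.zpowers_le]
      refine Subgroup.mem_normalizer_fintype fun s hs => ?_
      rw [← hc s (Subgroup.le_normalizer hs)]
      simpa using hs
    have h3 := S.is_maximal' (IsPGroup.to_sup_of_normal_right' h1 S.isPGroup' h2) le_sup_right
    rw [← h3]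
    exact Subgroup.mem_sup_left (Subgroup.mem_zpowers z)
  let π := QuotientGroup.mk' (pCore p P)
  have hπ : Function.Surjective π := QuotientGroup.mk'_surjective _
  let S1 : Sylow p P := S.subtype hSP
  have hQ : pCore p P ≤ S1 := GT.pCore_le_sylow S1
  have h1 := key (GT.pCore_quotient_pCore (G := P) (p := p)) d0 (S1.mapSurjective hπ) (z := π ⟨z, hSP hzS⟩)
    ⟨_, hzS, rfl⟩ fun x hx => by
      obtain ⟨x, rfl⟩ := hπ x
      have hx1 : (x : G) ∈ Subgroup.normalizer ((S : Subgroup G) : Set G) := by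
        refine Subgroup.mem_normalizer_fintype fun s hs => ?_
        obtain ⟨y, hy, e⟩ := (Subgroup.mem_normalizer_iff.1 hx (π ⟨s, hSP hs⟩)).1 ⟨_, hs, rfl⟩
        have h2 : y⁻¹ * (x * ⟨s, hSP hs⟩ * x⁻¹) ∈ pCore p P := by
          rw [← QuotientGroup.eq]
          exact e
        have h3 : x * ⟨s, hSP hs⟩ * x⁻¹ ∈ (S1 : Subgroup P) := by
          simpa using mul_mem hy (hQ h2)
        exact h3
      rw [← map_mul, ← map_mul]
      exact congrArg π (Subtype.ext (hc x hx1))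
  exact ⟨⟨z, hSP hzS⟩, (QuotientGroup.eq_one_iff _).1 h1, rfl⟩

end Cfsg.Agent.S3047
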