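import Mathlib
import Cfsg.Agent.GT.FStar
import Cfsg.Agent.GT.HallTools
import Cfsg.Agent.GT.CoprimeFixed
import Cfsg.Agent.GT.TransferEval
import Cfsg.Agent.GT.MinNormal
import Cfsg.Agent.GT.Conj
import Cfsg.Statements.S3048
-- import your own Cfsg.Agent.* helpers here

set_option autoImplicit false
universe u
open Cfsg

namespace Cfsg.Agent.S3048

open Subgroup Cfsg.Agent.GT
open scoped commutatorElement

local notation "𝐂(" X ")" => centralizer ((X : Subgroup _) : Set _)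
local notation "𝐍(" X ")" => normalizer ((X : Subgroup _) : Set _)
local notation:75 H " ^ᶜ " g:76 => Subgroup.map (MulEquiv.toMonoidHom (MulAut.conj g)) H

theorem exists_odd_part (G : Type*) [Group G] [Finite G] : ∃ e : ℕ,
    (∀ w : G, Odd (orderOf (w ^ e))) ∧ ∀ n, Odd n → n ∣ Nat.card G → e ≡ 1 [MOD n] := by
  obtain ⟨a, n, hn, h⟩ := Nat.exists_eq_two_pow_mul_odd (Nat.card_pos (α := G)).ne'
  have hc : (2 ^ a).Coprime n := (Nat.coprime_two_left.2 hn).pow_left a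
  refine ⟨(2 ^ a) ^ n.totient, fun w => hn.of_dvd_nat (orderOf_dvd_of_pow_eq_one ?_),
    fun d hd hdn => (Nat.ModEq.pow_totient hc).of_dvd ?_⟩
  · obtain ⟨c, hc⟩ := dvd_pow_self (2 ^ a) (Nat.totient_pos.2 hn.pos).ne'
    rw [hc, ← pow_mul, mul_right_comm, ← h, pow_mul, pow_card_eq_one', one_pow]
  · exact ((Nat.coprime_two_right.2 hd).pow_right a).dvd_of_dvd_mul_left (h ▸ hdn)

variable {G : Type u} [Group G] [Finite G] {V : Subgroup G}

theorem eq_one_of_sq {x : G} (h : Odd (orderOf x)) (h2 : x * x = 1) : x = 1 :=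
  orderOf_eq_one_iff.1 (Nat.eq_one_of_dvd_coprimes (Nat.coprime_two_left.2 h)
    (orderOf_dvd_of_pow_eq_one (by rwa [sq])) dvd_rfl)

/-- minimality hypothesis -/
def Mn (G : Type u) [Group G] : Prop := ∀ (H : Type u) [Group H] [Finite H] (W : Subgroup H),
  Nat.card H < Nat.card G → IsElementaryAbelian 2 W → W ≠ ⊥ → IsSidkiPair W → W ⊓ pCore 2 H ≠ ⊥

theorem lemP (hm : Mn G) (hV : IsElementaryAbelian 2 V) {W N : Subgroup G} (hW : W ≤ V)
    (h0 : W ≠ ⊥) (hn : W ≤ 𝐍(N)) (ht : N ⊔ W ≠ ⊤)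
    (hO : ∀ T ≤ N, IsPGroup 2 T → N ≤ 𝐍(T) → T = ⊥) (hC : W ⊓ 𝐂(N) = ⊥) :
    ∃ w ∈ W, ∃ h ∈ N, Odd (orderOf h) ∧ w * h * w⁻¹ = h⁻¹ ∧ ∀ y ∈ W, y * h = h * y → y = 1 := by
  by_contra hc
  push Not at hc
  have := hV.1
  refine hm ↥(N ⊔ W) (W.subgroupOf _) (by
    rw [← card_top (G := G)]; exact HT.card_lt_of_lt (lt_top_iff_ne_top.2 ht))
    ⟨⟨⟨fun a b => Subtype.ext (Subtype.ext (setLike_mul_comm (s := V) (hW a.2) (hW b.2)))⟩⟩,
      fun x hx => Subtype.ext (hV.2 _ (hW hx))⟩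
    (fun e => h0 (by rwa [subgroupOf_eq_bot, disjoint_iff, inf_eq_left.2 le_sup_right] at e))
    (fun h v hv ho hi => ?_) (eq_bot_iff.2 fun y hy => ?_)
  · rw [← orderOf_coe] at ho
    have hh : (h : G) ∈ N := by
      obtain ⟨n, hn', w, hw, e⟩ := (CopAct.mem_sup_iff_of_le_normalizer hn).1 h.2
      refine Tr.mem_of_pow_mem_of_coprime (n := 2) ?_ (Nat.coprime_two_right.2 ho)
      have : (h : G) ^ 2 = n * (w * n * w⁻¹) * w ^ 2 := by rw [← e]; simp only [sq]; group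
      rw [this, hV.2 w (hW hw), mul_one]
      exact mul_mem hn' (CopAct.conj_mem hn hw hn')
    obtain ⟨y, hy, e, h1⟩ := hc v hv h hh ho (congrArg Subtype.val hi)
    exact ⟨⟨y, mem_sup_right hy⟩, hy, fun e => h1 (congrArg Subtype.val e), Subtype.ext e⟩
  · have h1 : N ⊔ W ≤ 𝐍(pCoreOf 2 (N ⊔ W)) := CopAct.le_normalizer_map_subtype_of_normal _
    have h2 := hO (N ⊓ pCoreOf 2 (N ⊔ W)) inf_le_left
      (((isPGroup_pCore 2).map _).to_le inf_le_right)
      (CopAct.le_normalizer_inf le_normalizer (le_sup_left.trans h1))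
    refine Subtype.ext (hC.le ⟨hy.1, fun n hn' => commutatorElement_eq_one_iff_mul_comm.1
      (h2.le ⟨?_, ?_⟩)⟩)
    · rw [commutatorElement_def, mul_assoc, mul_assoc, ← mul_assoc (y : G)]
      exact N.mul_mem hn' (CopAct.conj_mem hn hy.1 (N.inv_mem hn'))
    · have h3 : (y : G) ∈ pCoreOf 2 (N ⊔ W) := mem_map_of_mem _ hy.2
      exact (pCoreOf 2 (N ⊔ W)).mul_mem (CopAct.conj_mem h1 (mem_sup_left hn') h3) (inv_mem h3)

theorem lemQ (hm : Mn G) (hV : IsElementaryAbelian 2 V) (h0 : V ≠ ⊥) (hS : IsSidkiPair V)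
    (N : Subgroup G) [N.Normal] (hN : N ≠ ⊥) (hVN : V ⊓ N = ⊥) :
    ∃ v ∈ V, v ≠ 1 ∧ (v : G ⧸ N) ∈ pCore 2 (G ⧸ N) := by
  have := hV.1
  have h1 := hm (G ⧸ N) (V.map (QuotientGroup.mk' N)) (by
    rw [card_eq_card_quotient_mul_card_subgroup N]
    exact lt_mul_of_one_lt_right Nat.card_pos ((one_lt_card_iff_ne_bot N).2 hN))
    ⟨inferInstance, by
      rintro _ ⟨x, hx, rfl⟩
      rw [← map_pow, hV.2 x hx, map_one]⟩
    (fun e => h0 (by rwa [map_mk'_eq_bot_iff, ← inf_eq_left, hVN, eq_comm] at e)) (by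
      rintro h _ ⟨v, hv, rfl⟩ ho hi
      obtain ⟨g, rfl⟩ := QuotientGroup.mk'_surjective N h
      obtain ⟨e, he1, he2⟩ := exists_odd_part G
      have hv2 : v⁻¹ = v := inv_eq_of_mul_eq_one_left (by rw [← sq, hV.2 v hv])
      obtain ⟨w, hw, hw1, hc⟩ := hS (⁅g, v⁆ ^ e) v hv (he1 _) (by
        rw [← conj_pow, ← inv_pow]
        congr 1
        rw [commutatorElement_inv, commutatorElement_def, commutatorElement_def, hv2, mul_assoc,
          mul_assoc v, mul_assoc _ v v, ← sq, hV.2 v hv]; group)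
      refine ⟨_, ⟨w, hw, rfl⟩, fun e => hw1 (hVN.le ⟨hw, (QuotientGroup.eq_one_iff w).1 e⟩), ?_⟩
      have h2 : Commute (QuotientGroup.mk' N w) (QuotientGroup.mk' N (⁅g, v⁆ ^ e)) :=
        Commute.map hc _
      set x := QuotientGroup.mk' N g
      have h3 : QuotientGroup.mk' N ⁅g, v⁆ = x ^ 2 := by
        rw [map_commutatorElement, commutatorElement_def, sq, mul_assoc, mul_assoc, ← mul_assoc _ x⁻¹,
          ← conj_inv, hi, inv_inv]
      obtain ⟨k, hk⟩ := ho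
      have h4 := h2.pow_right (k + 1)
      rwa [map_pow, h3, ← pow_mul, ← pow_mul, (pow_eq_pow_iff_modEq (n := 2 * (e * (k + 1)))
        (m := 1)).2 ?_, pow_one] at h4
      have h5 := ((he2 _ ⟨k, hk⟩ ((orderOf_dvd_natCard x).trans (card_quotient_dvd_card N))).mul_right
        (k + 1)).mul_left 2
      refine h5.trans ?_
      rw [show 2 * (1 * (k + 1)) = orderOf x + 1 by omega]
      exact Nat.add_modEq_left)
  obtain ⟨_, ⟨⟨v, hv, rfl⟩, h2⟩, h3⟩ := ((V.map (QuotientGroup.mk' N) ⊓ pCore 2 _).bot_or_exists_ne_one).resolve_left h1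
  exact ⟨v, hv, fun e => h3 (by rw [e, map_one]), h2⟩

/-- the minimal counterexample -/
structure Mc (V : Subgroup G) : Prop where
  mn : Mn G
  el : IsElementaryAbelian 2 V
  ne : V ≠ ⊥
  sid : IsSidkiPair V
  core : pCore 2 G = ⊥

namespace Mc

variable (m : Mc V) {N : Subgroup G}
include m

theorem hS {L : Subgroup G} (hL : L.IsSubnormal) : ∀ T ≤ L, IsPGroup 2 T → L ≤ 𝐍(T) → T = ⊥ :=
  fun T h1 h2 h3 => eq_bot_iff.2 ((SubnormalIn.le_pCoreOf (X := ⊤) (subnormalIn_top_iff.2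
    ((SubnormalIn.of_le_normalizer h1 h3).isSubnormal hL)) h2).trans (by rw [pCoreOf_top, m.core]))

theorem hO [hN : N.Normal] : ∀ T ≤ N, IsPGroup 2 T → N ≤ 𝐍(T) → T = ⊥ :=
  m.hS (Normal.isSubnormal hN)

theorem le_of_cent [N.Normal] {K : Subgroup G} (hK : K.Normal) (h1 : N ≤ K) (h2 : K ≤ 𝐂(N))
    (h3 : IsPGroup 2 (K.map (QuotientGroup.mk' N))) : K ≤ N := by
  obtain ⟨T, hT, hT2, hT3⟩ := HT.exists_sylow_le 2 K
  obtain ⟨k, hk⟩ := IsPGroup.iff_card.1 h3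
  rw [← relIndex_ker, QuotientGroup.ker_mk'] at hk
  have h4 : N ⊔ T = K := HT.sup_eq_of_coprime_relIndex h1 hT
    (hk ▸ ((Nat.prime_two.coprime_iff_not_dvd).2 hT3).pow_left k)
  have h5 := m.hO (N := K) T hT hT2 (h4.ge.trans (sup_le (le_normalizer_of_le_centralizer
    (le_centralizer_iff.1 (hT.trans h2))) le_normalizer))
  rw [h5, sup_bot_eq] at h4
  exact h4.ge

theorem comm {a b : G} (ha : a ∈ V) (hb : b ∈ V) : a * b = b * a := by
  have := m.el.1
  exact setLike_mul_comm ha hb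

theorem inv {a : G} (ha : a ∈ V) : a⁻¹ = a :=
  inv_eq_of_mul_eq_one_left (by rw [← sq, m.el.2 a ha])

theorem pV : IsPGroup 2 V := isPGroup_of_forall_pow_eq_one m.el.2

theorem lem [N.Normal] {W : Subgroup G} (hW : W ≤ V) (h0 : W ≠ ⊥) (ht : N ⊔ W ≠ ⊤)
    (hC : W ⊓ 𝐂(N) = ⊥) :
    ∃ w ∈ W, ∃ h ∈ N, Odd (orderOf h) ∧ w * h * w⁻¹ = h⁻¹ ∧ ∀ y ∈ W, y * h = h * y → y = 1 :=
  lemP m.mn m.el hW h0 le_normalizer_of_normal ht m.hO hC

theorem cent [N.Normal] {W : Subgroup G} (hW : W ≤ V) (h : W ≤ N) : W ⊓ 𝐂(N) = ⊥ :=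
  m.hO _ (inf_le_left.trans h) (m.pV.to_le (inf_le_left.trans hW))
    (le_normalizer_of_le_centralizer (le_centralizer_iff.1 inf_le_right))

theorem top [N.Normal] (hC : V ⊓ 𝐂(N) = ⊥) : N ⊔ V = ⊤ := by
  by_contra h
  obtain ⟨w, hw, h, -, ho, hi, hc⟩ := m.lem le_rfl m.ne h hC
  obtain ⟨y, hy, h1, h2⟩ := m.sid h w hw ho hi
  exact h1 (hc y hy h2)

theorem odd_of_comm (hN : IsMinNormal N) (hc : IsMulCommutative N) : ∀ n ∈ N, Odd (orderOf n) := by
  have hNn := hN.normal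
  have : Group.IsSolvable N := isSolvable_of_isMulCommutative
  obtain ⟨p, hp, hE⟩ := hN.elementary
  have hp2 : p ≠ 2 := by
    rintro rfl
    exact hN.ne_bot (m.hO N le_rfl (isPGroup_of_forall_pow_eq_one hE.2) le_normalizer)
  exact fun n hn => (hp.odd_of_ne_two hp2).of_dvd_nat (orderOf_dvd_of_pow_eq_one (hE.2 n hn))

theorem hdi (hN : IsMinNormal N) (hc : IsMulCommutative N) :
    ∀ v ∈ V, v ∉ 𝐂(N) → ∀ n ∈ N, v * n * v⁻¹ = n⁻¹ := by
  have hNn := hN.normal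
  have hNM : N ≤ 𝐂(N) := le_centralizer_iff_isMulCommutative.2 hc
  have ht : 𝐂(N) ⊔ V = ⊤ := m.top (eq_bot_iff.2 fun x hx => (m.cent (N := 𝐂(N)) (W := V ⊓ 𝐂(N))
    inf_le_left inf_le_right).le ⟨⟨hx.1, centralizer_anti hNM hx.2⟩, hx.2⟩)
  intro v hv hv'
  have h1 : (N ⊓ 𝐂(zpowers v)).Normal := normal_of_sup_eq_top ht
    (le_normalizer_of_le_centralizer (centralizer_anti inf_le_left))
    (CopAct.le_normalizer_inf le_normalizer_of_normal (CopAct.le_normalizer_centralizer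
      (le_normalizer_of_le_centralizer (le_centralizer_iff.1 (zpowers_le.2
        fun y hy => m.comm hy hv)))))
  have h2 := (hN.eq_bot_or_eq (K := N ⊓ 𝐂(zpowers v)) inf_le_left).resolve_right fun e =>
    hv' (le_centralizer_iff.1 (inf_eq_left.1 e) (mem_zpowers v))
  intro n hn
  refine eq_inv_of_mul_eq_one_left (h2.le ⟨N.mul_mem (hNn.conj_mem n hn v) hn, ?_⟩)
  rw [centralizer_zpowers]
  refine mem_centralizer_singleton_iff.2 ?_
  have hvv : v * v = 1 := by rw [← sq, m.el.2 v hv]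
  calc v * n * v⁻¹ * n * v = v * n * v⁻¹ * (v * v)⁻¹⁻¹ * n * v := by rw [hvv]; group
    _ = v * (n * (v * n * v⁻¹)) * (v * v) := by group
    _ = _ := by rw [hvv, mul_one, setLike_mul_comm hn (hNn.conj_mem n hn v)]

theorem exists_v (hN : IsMinNormal N) (hc : IsMulCommutative N) :
    ∃ v ∈ V, v ∉ 𝐂(N) ∧ ∀ h ∈ 𝐂(N), ⁅v, h⁆ ∈ N := by
  have hNn := hN.normal
  have ho := m.odd_of_comm hN hc
  have hNM : N ≤ 𝐂(N) := le_centralizer_iff_isMulCommutative.2 hc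
  have hVN : V ⊓ N = ⊥ := eq_bot_iff.2 fun x hx =>
    eq_one_of_sq (ho x hx.2) (by rw [← sq, m.el.2 x hx.1])
  obtain ⟨v, hv, hv1, hvO⟩ := lemQ m.mn m.el m.ne m.sid N hN.ne_bot hVN
  have hCn : (centralizer (N : Set G)).Normal := inferInstance
  have hOn : (pCore 2 (G ⧸ N)).Normal := inferInstance
  have hKN : (pCore 2 (G ⧸ N)).comap (QuotientGroup.mk' N) ⊓ 𝐂(N) ≤ N :=
    m.le_of_cent inferInstance (le_inf (fun x hx => by
      rw [mem_comap, QuotientGroup.mk'_apply, (QuotientGroup.eq_one_iff x).2 hx]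
      exact one_mem _) hNM) inf_le_right
      ((isPGroup_pCore 2).to_le ((map_mono inf_le_left).trans (map_comap_le _ _)))
  refine ⟨v, hv, fun h => hv1 (hVN.le ⟨hv, hKN ⟨hvO, h⟩⟩), fun h hh => hKN (mem_inf.2 ⟨?_, ?_⟩)⟩
  · rw [mem_comap, map_commutatorElement, commutatorElement_def, mul_assoc,
      mul_assoc, ← mul_assoc (QuotientGroup.mk' N h)]
    exact Subgroup.mul_mem _ hvO (hOn.conj_mem _ (Subgroup.inv_mem _ hvO) _)
  · exact Subgroup.mul_mem _ (hCn.conj_mem _ hh v) (Subgroup.inv_mem _ hh)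

theorem not_comm (hN : IsMinNormal N) : ¬ IsMulCommutative N := by
  intro hc
  have hNn := hN.normal
  have ho := m.odd_of_comm hN hc
  have hdi := m.hdi hN hc
  obtain ⟨v, hv, hvM, hvc⟩ := m.exists_v hN hc
  obtain ⟨n, hn, hn1⟩ := N.bot_or_exists_ne_one.resolve_left hN.ne_bot
  have hn2 : ∀ y ∈ V, y * n = n * y → y ∈ 𝐂(N) := fun y hy h => by
    by_contra h'
    have := hdi y hy h' n hn
    rw [h, mul_inv_cancel_right, eq_inv_iff_mul_eq_one] at this
    exact hn1 (eq_one_of_sq (ho n hn) this)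
  by_cases hA : V ⊓ 𝐂(N) = ⊥
  · obtain ⟨y, hy, h1, h2⟩ := m.sid n v hv (ho n hn) (hdi v hv hvM n hn)
    exact h1 (hA.le ⟨hy, hn2 y hy h2⟩)
  obtain ⟨a, ha, h, hh, hho, hi, hc'⟩ := m.lem (N := 𝐂(N)) inf_le_left hA
    (fun e => hvM ((e.ge.trans (sup_le le_rfl inf_le_right)) (mem_top v)))
    (m.cent inf_le_left inf_le_right)
  have key : ∀ y ∈ V, ∀ z ∈ N, y * h * y⁻¹ = z * h → z = 1 := fun y hy z hz e => by
    refine eq_one_of_sq (ho z hz) ?_
    have e1 : a * (y * h * y⁻¹) * a⁻¹ = (y * h * y⁻¹)⁻¹ := by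
      calc a * (y * h * y⁻¹) * a⁻¹ = (a * y) * h * (a * y)⁻¹ := by group
        _ = y * (a * h * a⁻¹) * y⁻¹ := by rw [m.comm ha.1 hy]; group
        _ = _ := by rw [hi]; group
    rw [e, ← mul_assoc, ← ha.2 z hz, mul_assoc z, mul_assoc z, hi, hh z hz] at e1
    calc z * z = z * h⁻¹ * (h * z) := by group
      _ = _ := by rw [e1]; group
  have hvh : v * h * v⁻¹ = h := by
    have := key v hv ⁅v, h⁆ (hvc h hh) (by rw [commutatorElement_def, inv_mul_cancel_right])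
    exact mul_inv_eq_iff_eq_mul.2 (commutatorElement_eq_one_iff_mul_comm.1 this)
  have hnh : Commute n h := hh n hn
  obtain ⟨y, hy, h1, h2⟩ := m.sid (n * h) (a * v) (mul_mem ha.1 hv)
    (((ho n hn).mul hho).of_dvd_nat hnh.orderOf_mul_dvd_mul_orderOf) (by
      calc a * v * (n * h) * (a * v)⁻¹ = a * (v * n * v⁻¹) * a⁻¹ * (a * (v * h * v⁻¹) * a⁻¹) := by
            group
        _ = _ := by rw [hdi v hv hvM n hn, hvh, hi, ← ha.2 _ (inv_mem hn), hnh.eq]; group)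
  have h3 := key y hy ((y * n * y⁻¹)⁻¹ * n) (mul_mem (inv_mem (hNn.conj_mem n hn y)) hn) (by
    rw [mul_assoc _ n h, ← mul_inv_eq_iff_eq_mul.2 h2]; group)
  have h4 : y * n = n * y := mul_inv_eq_iff_eq_mul.1 (inv_mul_eq_one.1 h3)
  refine h1 (hc' y ⟨hy, hn2 y hy h4⟩ (mul_left_cancel (a := n) ?_))
  rw [← mul_assoc, ← h4, mul_assoc, h2, mul_assoc]

theorem inf_cent (hN : IsMinNormal N) : N ⊓ 𝐂(N) = ⊥ := by
  have := hN.normal
  exact (hN.eq_bot_or_eq inf_le_left).resolve_right fun e =>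
    m.not_comm hN (le_centralizer_iff_isMulCommutative.1 (inf_eq_left.1 e))

theorem sup_top (hN : IsMinNormal N) : N ⊔ V = ⊤ := by
  have hNn := hN.normal
  by_contra hne
  have hA : V ⊓ 𝐂(N) ≠ ⊥ := fun e => hne (m.top e)
  obtain ⟨a, ha, h, hh, ho, hi, hc⟩ := m.lem (N := 𝐂(N)) inf_le_left hA
    (fun e => hN.ne_bot (by
      rw [← m.inf_cent hN, eq_comm, inf_eq_left]
      exact le_top.trans (e.ge.trans (sup_le le_rfl inf_le_right))))
    (m.cent inf_le_left inf_le_right)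
  obtain ⟨y, hy, hy1, hy2⟩ := m.sid h a ha.1 ho hi
  obtain ⟨c, hc1, x, hx, hxo, hxi, hxc⟩ := m.lem (N := N) (W := V ⊓ centralizer {h}) inf_le_left
    (fun e => hy1 (e.le ⟨hy, mem_centralizer_singleton_iff.2 hy2⟩))
    (fun e => hne (eq_top_iff.2 (e.ge.trans (sup_le_sup_left inf_le_left _))))
    (eq_bot_iff.2 fun z hz => hc z ⟨hz.1.1, hz.2⟩ (mem_centralizer_singleton_iff.1 hz.1.2))
  have hxh : Commute x h := hh x hx
  obtain ⟨z, hz, h1, h2⟩ := m.sid (x * h) (a * c) (mul_mem ha.1 hc1.1)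
    ((hxo.mul ho).of_dvd_nat hxh.orderOf_mul_dvd_mul_orderOf) (by
      calc a * c * (x * h) * (a * c)⁻¹ = a * (c * x * c⁻¹) * a⁻¹ * (a * (c * h * c⁻¹) * a⁻¹) := by
            group
        _ = _ := by
          rw [hxi, mem_centralizer_singleton_iff.1 hc1.2, mul_inv_cancel_right, hi,
            ← ha.2 _ (inv_mem hx), hxh.eq]; group)
  have h3 : (z * x * z⁻¹)⁻¹ * x = z * h * z⁻¹ * h⁻¹ := by
    rw [eq_mul_inv_iff_mul_eq, mul_assoc _ x h, ← mul_inv_eq_iff_eq_mul.2 h2]; group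
  have h4 : (z * x * z⁻¹)⁻¹ * x = 1 := (m.inf_cent hN).le ⟨N.mul_mem (N.inv_mem (hNn.conj_mem x hx z)) hx,
    h3 ▸ (centralizer (N : Set G)).mul_mem (Normal.conj_mem inferInstance _ hh z) (inv_mem hh)⟩
  refine h1 (hxc z ⟨hz, mem_centralizer_singleton_iff.2 ?_⟩
    (mul_inv_eq_iff_eq_mul.1 (inv_mul_eq_one.1 h4)))
  rw [h4, eq_comm, mul_inv_eq_one] at h3
  exact mul_inv_eq_iff_eq_mul.1 h3

theorem cent_bot (hN : IsMinNormal N) : centralizer (N : Set G) = ⊥ := by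
  have hNn := hN.normal
  by_contra hne
  obtain ⟨M, hM, hMN⟩ := exists_isMinNormal_le hne
  have := hM.normal
  refine hN.ne_bot (m.hO N le_rfl (fun x => ⟨1, Subtype.ext ?_⟩) le_normalizer)
  obtain ⟨n, hn', w, hw, e⟩ := (CopAct.mem_sup_iff_of_le_normalizer (K := M) (A := V)
    le_normalizer_of_normal (g := x)).1 (m.sup_top hM ▸ mem_top _)
  refine (m.inf_cent hN).le ⟨N.pow_mem x.2 _, hMN ?_⟩
  have : (x : G) ^ 2 ^ 1 = n * (w * n * w⁻¹) * w ^ 2 := by rw [← e]; simp only [pow_one, sq]; group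
  rw [coe_pow, this, m.el.2 w hw, mul_one]
  exact mul_mem hn' (Normal.conj_mem inferInstance _ hn' w)

theorem simple (hN : IsMinNormal N) : IsSimpleGroup N := by
  have hNn := hN.normal
  obtain ⟨L, hL, hLN⟩ := exists_isMinInv_le (M := N) (H := N) le_normalizer hN.ne_bot
  suffices h : L.Normal by
    obtain rfl := (hN.eq_bot_or_eq hLN).resolve_left hL.2.1
    have := (nontrivial_iff_ne_bot L).2 hN.ne_bot
    exact ⟨fun K hK => (hL.2.2 _ (CopAct.le_normalizer_map_subtype_of_normal K)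
      (map_subtype_le K)).imp (fun e => (map_eq_bot_iff_of_injective _ L.subtype_injective).1 e)
      fun e => map_injective L.subtype_injective (by rwa [← MonoidHom.range_eq_map, range_subtype])⟩
  by_contra hn
  have hU : ¬ V ≤ 𝐍(L) := fun h => hn (normal_of_sup_eq_top (m.sup_top hN) hL.1 h)
  have hO := m.hS ((SubnormalIn.of_le_normalizer hLN hL.1).isSubnormal (Normal.isSubnormal hNn))
  have hc : ∀ g : G, N ≤ 𝐍(L ^ᶜ g) := fun g => by
    rw [normalizer_map_conj, ← map_conj_eq_of_normal N g]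
    exact map_mono hL.1
  have h1 : ∀ g ∉ 𝐍(L), L ⊓ L ^ᶜ g = ⊥ := fun g hg =>
    (hL.2.2 _ (CopAct.le_normalizer_inf hL.1 (hc g)) inf_le_left).resolve_right fun e =>
      hg (mem_normalizer_of_le_map_conj (inf_eq_left.1 e))
  have h2 : ∀ g ∉ 𝐍(L), ∀ x ∈ L, g * x * g⁻¹ ∈ 𝐂(L) := fun g hg x hx => by
    refine le_centralizer_iff.1 (commutator_eq_bot_iff_le_centralizer.1 (eq_bot_iff.2
      (le_trans (le_inf ?_ ?_) (h1 g hg).le))) (conj_mem_map_conj.2 hx)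
    · exact CopAct.commutator_le_of_le_normalizer ((map_conj_le_of_normal hLN g).trans hL.1)
    · rw [commutator_comm]
      exact CopAct.commutator_le_of_le_normalizer (hLN.trans (hc g))
  have h3 : ∀ u : G, (∀ v ∈ V, v * u * v⁻¹ ∈ 𝐂(L)) → u = 1 := fun u h => by
    refine (m.cent_bot hN).le (?_ : u ∈ 𝐂(N))
    have e : normalClosure (L : Set G) = N :=
      (hN.eq_bot_or_eq (normalClosure_le_normal hLN)).resolve_left fun e =>
        hL.2.1 (eq_bot_iff.2 (le_normalClosure.trans e.le))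
    rw [← e, normalClosure_eq_iSup_map_conj, centralizer_iSup, mem_iInf]
    intro g
    obtain ⟨n, hn', w, hw, e⟩ := (CopAct.mem_sup_iff_of_le_normalizer (K := N) (A := V)
      le_normalizer_of_normal (g := g⁻¹)).1 ((m.sup_top hN).ge (mem_top _))
    rw [centralizer_map_conj, mem_map_conj, ← inv_inv g, ← e, inv_inv]
    have := CopAct.conj_mem (CopAct.le_normalizer_centralizer hL.1) hn' (h w hw)
    convert this using 1
    group
  have h4 : L ⊓ 𝐂(L) = ⊥ := by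
    refine (hL.2.2 _ (CopAct.le_normalizer_inf hL.1 (CopAct.le_normalizer_centralizer hL.1))
      inf_le_left).resolve_right fun e => hL.2.1 (eq_bot_iff.2 fun x hx => h3 x fun v hv => ?_)
    by_cases hv' : v ∈ 𝐍(L)
    · exact inf_eq_left.1 e (conj_mem_of_mem_normalizer hv' hx)
    · exact h2 v hv' x hx
  by_cases hW : V ⊓ 𝐍(L) = ⊥
  · obtain ⟨t, ht, ht1⟩ := V.bot_or_exists_ne_one.resolve_left m.ne
    have h5 : ∀ y ∈ V, y ≠ 1 → y ∉ 𝐍(L) := fun y hy h1 h => h1 (hW.le ⟨hy, h⟩)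
    obtain ⟨x, hx, hx1, hxo⟩ : ∃ x ∈ L, x ≠ 1 ∧ Odd (orderOf x) := by
      by_contra hh
      push Not at hh
      obtain ⟨e, he1, he2⟩ := exists_odd_part G
      refine hL.2.1 (hO L le_rfl (IsPGroup.iff_orderOf.2 fun x => ?_) le_normalizer)
      obtain ⟨a, n, hn, h⟩ := Nat.exists_eq_two_pow_mul_odd (orderOf_pos x).ne'
      have : (x : G) ^ 2 ^ a = 1 := by
        by_contra h'
        refine hh _ (L.pow_mem x.2 _) h' (hn.of_dvd_nat (orderOf_dvd_of_pow_eq_one ?_))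
        rw [← pow_mul, ← h, ← orderOf_coe, pow_orderOf_eq_one]
      obtain ⟨b, -, hb⟩ := (Nat.dvd_prime_pow Nat.prime_two).1 (orderOf_dvd_of_pow_eq_one this)
      exact ⟨b, by rw [← orderOf_coe, hb]⟩
    have hxt : Commute x (t * x⁻¹ * t⁻¹) := h2 t (h5 t ht ht1) _ (L.inv_mem hx) x hx
    have ho : Odd (orderOf (x * (t * x⁻¹ * t⁻¹))) :=
      (hxo.mul (by rwa [orderOf_conj, orderOf_inv])).of_dvd_nat hxt.orderOf_mul_dvd_mul_orderOf
    have htt : t * t = 1 := by rw [← sq, m.el.2 t ht]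
    have hi : t * (x * (t * x⁻¹ * t⁻¹)) * t⁻¹ = (x * (t * x⁻¹ * t⁻¹))⁻¹ := by
      calc t * (x * (t * x⁻¹ * t⁻¹)) * t⁻¹ = t * x * (t * t) * t⁻¹ * x⁻¹ * (t * t)⁻¹ := by group
        _ = _ := by rw [htt]; group
    obtain ⟨y, hy, hy1, hy2⟩ := m.sid _ t ht ho hi
    have hy3 : y * (x * (t * x⁻¹ * t⁻¹)) * y⁻¹ = x * (t * x⁻¹ * t⁻¹) :=
      mul_inv_eq_iff_eq_mul.2 hy2
    refine hx1 (h4.le ⟨hx, ?_⟩)
    by_cases hyt : y = t
    · rw [hyt, hi, inv_eq_iff_mul_eq_one] at hy3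
      rw [mul_eq_one_iff_eq_inv.1 (eq_one_of_sq ho hy3)]
      exact Subgroup.inv_mem _ (h2 t (h5 t ht ht1) _ (L.inv_mem hx))
    · have : x = y * x * y⁻¹ * (y * t * x⁻¹ * (y * t)⁻¹) * (t * x * t⁻¹) := by
        calc x = x * (t * x⁻¹ * t⁻¹) * (t * x * t⁻¹) := by group
          _ = _ := by rw [← hy3]; group
      rw [this]
      refine mul_mem (mul_mem (h2 y (h5 y hy hy1) x hx) (h2 _ (h5 _ (V.mul_mem hy ht) fun e => hyt ?_)
        _ (L.inv_mem hx))) (h2 t (h5 t ht ht1) x hx)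
      rw [mul_eq_one_iff_eq_inv.1 e, m.inv ht]
  · obtain ⟨u, hu, x, hx, ho, hi, hc'⟩ := lemP m.mn m.el (W := V ⊓ 𝐍(L)) (N := L) inf_le_left hW
      inf_le_right (fun e => hn (normal_of_sup_eq_top e le_normalizer inf_le_right)) hO
      (eq_bot_iff.2 fun u hu => h3 u fun v hv => by
        rw [m.comm hv hu.1.1, mul_inv_cancel_right]; exact hu.2)
    obtain ⟨y, hy, hy1, hy2⟩ := m.sid x u hu.1 ho hi
    refine hy1 (hc' y ⟨hy, ?_⟩ hy2)
    by_contra hy'
    have hx1 : x = 1 := (h1 y hy').le ⟨hx, by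
      have := conj_mem_map_conj (g := y) |>.2 hx
      rwa [hy2, mul_inv_cancel_right] at this⟩
    obtain ⟨z, hz, hz1⟩ := (V ⊓ 𝐍(L)).bot_or_exists_ne_one.resolve_left hW
    exact hz1 (hc' z hz (by rw [hx1, mul_one, one_mul]))

end Mc

/-- Minimal counterexample reduction for the Sidki pair problem. Let G be a finite group and V a nontrivial elementary abelian 2-subgroup satisfying the Sidki pair condition with V ∩ O₂(G) = 1. Suppose that for every finite group H of smaller order, every nontrivial elementary abelian 2-subgroup W of H satisfying the Sidki pair condition meets O₂(H) nontrivially, and that the same holds in G for every such subgroup W of order smaller than that of V. Then the generalized Fitting subgroup F*(G) is a non-abelian simple group and G = V F*(G). -/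
theorem result {G : Type u} [Group G] [Finite G] (V : Subgroup G) (hV : Cfsg.IsElementaryAbelian 2 V) (hV1 : V ≠ ⊥) (hS : Cfsg.IsSidkiPair V) (hVO : V ⊓ Cfsg.pCore 2 G = ⊥) (hminG : ∀ (H : Type u) [Group H] [Finite H] (W : Subgroup H), Nat.card H < Nat.card G → Cfsg.IsElementaryAbelian 2 W → W ≠ ⊥ → Cfsg.IsSidkiPair W → W ⊓ Cfsg.pCore 2 H ≠ ⊥) (hminV : ∀ W : Subgroup G, Nat.card W < Nat.card V → Cfsg.IsElementaryAbelian 2 W → W ≠ ⊥ → Cfsg.IsSidkiPair W → W ⊓ Cfsg.pCore 2 G ≠ ⊥) : IsSimpleGroup ↥(Cfsg.generalizedFittingSubgroup G) ∧ ¬ IsMulCommutative ↥(Cfsg.generalizedFittingSubgroup G) ∧ V ⊔ Cfsg.generalizedFittingSubgroup G = ⊤ := by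
  have hO : pCore 2 G = ⊥ := by
    by_contra h
    obtain ⟨v, hv, h1, h2⟩ := lemQ hminG hV hV1 hS _ h hVO
    rw [pCore_quotient_pCore, mem_bot, QuotientGroup.eq_one_iff] at h2
    exact h1 (hVO.le ⟨hv, h2⟩)
  have m : Mc V := ⟨hminG, hV, hV1, hS, hO⟩
  have : Nontrivial G := by
    obtain ⟨v, -, h⟩ := V.bot_or_exists_ne_one.resolve_left hV1
    exact nontrivial_of_ne v 1 h
  obtain ⟨N, hN, hNF⟩ := exists_isMinNormal_le (genFitting_ne_bot (G := G))
  have := hN.normal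
  have hF : fittingSubgroup G = ⊥ := by
    by_contra h
    obtain ⟨M, hM, hMF⟩ := exists_isMinNormal_le h
    exact m.not_comm hM (le_centralizer_iff_isMulCommutative.1
      (hMF.trans (hM.le_centralizer_of_isNilpotent _)))
  rw [le_antisymm (genFitting_le_of_centralizer_le (Normal.isSubnormal this) (hF ▸ bot_le)
    (m.cent_bot hN ▸ bot_le)) hNF]
  exact ⟨m.simple hN, m.not_comm hN, sup_comm N V ▸ m.sup_top hN⟩

end Cfsg.Agent.S3048
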