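import Cfsg.Statements.S3049
import Cfsg.Agent.Loc.Isolated
import Cfsg.Agent.GT.FStar
import Cfsg.Agent.GT.Conj
import Cfsg.Agent.GT.Subnormal2
import Cfsg.Agent.GT.PElementClosure
import Cfsg.Agent.GT.TransferFrobenius
import Cfsg.Agent.GT.PGroupRank
import Cfsg.Agent.FT.BG1_6
import Cfsg.Agent.S0542

set_option autoImplicit false
open Cfsg

namespace Cfsg.Agent.S3049

open Subgroup Cfsg.Agent.GT

/-- Let G be a finite group and p an odd prime with O_{p'}(G) = 1. Suppose that G has p-rank at most 2 (no elementary abelian subgroup of order p³) and that some element x of order p is isolated in G (no G-conjugate of x other than x commutes with x) and not central. Then the generalized Fitting subgroup F*(G) is a non-abelian simple group. Since O_{p'}(G) = 1, such an x is not central modulo O_{p'}(G): the hypotheses describe a counterexample to the Z*_p statement in p-rank at most 2. -/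
theorem result {G : Type*} [Group G] [Finite G] {p : ℕ} [Fact p.Prime] (hp : p ≠ 2) (hcore : Cfsg.pPrimeCore p G = ⊥)
    (hrank : Cfsg.PRankLE p 2 G) (x : G) (hx : orderOf x = p) (hiso : Cfsg.IsIsolated x) (hnc : x ∉ Subgroup.center G) :
    IsSimpleGroup ↥(Cfsg.generalizedFittingSubgroup G) ∧ ¬ IsMulCommutative ↥(Cfsg.generalizedFittingSubgroup G) := by
  have hp' : p.Prime := Fact.out
  have hxp : x ^ p = 1 := hx ▸ pow_orderOf_eq_one x
  obtain ⟨P, hP⟩ := (IsElementaryAbelian.zpowers hxp).isPGroup.exists_le_sylow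
  have hxP : x ∈ (P : Subgroup G) := hP (mem_zpowers x)
  have hPx := Loc.IsIsolated.le_centralizer hiso P.2 hxP
  have hdvd : ∀ H : Subgroup G, H.IsSubnormal → H ≠ ⊥ → p ∣ Nat.card H := fun H hH hne => by
    by_contra hd
    have := (subnormalIn_top_iff.2 hH).le_pPrimeCoreOf ((Nat.Prime.coprime_iff_not_dvd hp').2 hd).symm
    rw [pPrimeCoreOf_top, hcore] at this
    exact hne (le_bot_iff.1 this)
  obtain ⟨K, hK, hxK⟩ : ∃ K : Subgroup G, IsComponent K ∧ x ∉ centralizer (K : Set G) := by
    by_contra! hc
    have h1 : generalizedFittingSubgroup G ≤ centralizer ({x} : Set G) := by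
      rw [genFitting_eq_layer_sup_pCore hp' hcore]
      exact sup_le (layer_le fun K hK => le_centralizer_singleton_iff.2 (hc K hK))
        ((pCore_le_sylow P).trans hPx)
    exact hnc (Loc.IsIsolated.mem_center_of_normal hiso ⟨1, by rw [hx, pow_one]⟩
      (centralizer_genFitting_le (le_centralizer_singleton_iff.1 h1)) h1)
  by_cases h0 : generalizedFittingSubgroup G ⊓ centralizer (K : Set G) = ⊥
  · have h1 : generalizedFittingSubgroup G = K := by
      refine le_antisymm (genFitting_le ?_ ?_) hK.le_genFitting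
      · rw [← hK.sup_layer_inf_centralizer]
        exact sup_le le_rfl (((inf_le_inf_right _ layer_le_genFitting).trans h0.le).trans bot_le)
      · exact ((le_inf fitting_le_genFitting
          (le_centralizer_iff.1 hK.le_centralizer_fitting)).trans h0.le).trans bot_le
    rw [h1] at h0 ⊢
    refine ⟨hK.isQuasisimple.isSimpleGroup ?_, hK.isQuasisimple.not_isMulCommutative⟩
    rw [← map_eq_bot_iff_of_injective _ K.subtype_injective, map_center_subtype, h0]
  exfalso
  set R := generalizedFittingSubgroup G ⊓ centralizer (K : Set G)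
  have hR : R.IsSubnormal := subnormalIn_top_iff.1
    ((SubnormalIn.of_le_normalizer inf_le_left ((le_inf le_normalizer
      (hK.genFitting_le_normalizer.trans (normalizer_le_normalizer_centralizer K))).trans
      inf_normalizer_le_normalizer_inf)).trans (SubnormalIn.of_normal le_top))
  obtain ⟨z, hz, hzo⟩ := exists_mem_orderOf_eq_prime (H := (P : Subgroup G) ⊓ R) hp' (by
    have h1 := hdvd R hR h0
    rw [← PG.relIndex_mul_card (inf_le_right : (P : Subgroup G) ⊓ R ≤ R)] at h1
    exact (hp'.dvd_mul.1 h1).resolve_left (not_dvd_relIndex_sylow_inf_of_isSubnormal hR P))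
  have hzp : z ^ p = 1 := hzo ▸ pow_orderOf_eq_one z
  have hxz : x ∈ centralizer (zpowers z : Set G) := by
    rw [centralizer_zpowers]
    exact mem_centralizer_singleton_iff.2 (mem_centralizer_singleton_iff.1 (hPx hz.1)).symm
  have hE := (IsElementaryAbelian.zpowers hzp).sup_zpowers hxp hxz
  have hlt : ∀ {A B : Subgroup G} {k : ℕ}, IsElementaryAbelian p B → A < B → p ^ k ≤ Nat.card A →
      p ^ (k + 1) ≤ Nat.card B := fun {A B k} hB hAB hk => by
    obtain ⟨n, hn⟩ := hB.card_eq_pow
    have := hk.trans_lt (card_lt_of_lt hAB)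
    rw [hn] at this ⊢
    exact Nat.pow_le_pow_right hp'.pos ((Nat.pow_lt_pow_iff_right hp'.one_lt).1 this)
  have hE2 := hlt (k := 1) hE (lt_of_le_of_ne le_sup_left fun e =>
    hxK (zpowers_le.2 hz.2.2 (e.ge (mem_sup_right (mem_zpowers x)))))
    (by rw [Nat.card_zpowers, hzo, pow_one])
  obtain ⟨Q, hQ⟩ := S0542.result p K hK.isSubnormal P
  have hN : HasNormalPComplement p K := Tr.frobenius_of_sylow Q fun T hT _ g hg hgo => by
    have hTp : IsPGroup p T := Q.2.to_le hT
    have hTo : Odd (Nat.card T) := by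
      obtain ⟨n, hn⟩ := hTp.exists_card_eq
      rw [hn]; exact (hp'.odd_of_ne_two hp).pow
    refine zpowers_le.1 (FT.coprime_odd_faithful_Ohm1 (p := p) hTp (zpowers_le.2 hg) ?_ hTo
      (zpowers_le.2 (le_centralizer_singleton_iff.1 (PG.omegaOne_le_iff.2 fun y hy hyp => ?_))))
    · obtain ⟨n, hn⟩ := hTp.exists_card_eq
      rw [hn, Nat.card_zpowers]; exact hgo.symm.pow_left n
    have hmem : ∀ w ∈ T, (w : G) ∈ (P : Subgroup G) := fun w hw => (hQ.le (hT hw) :)
    have hy1 : (y : G) ^ p = 1 := by exact_mod_cast congrArg Subtype.val hyp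
    have hyc : (y : G) ∈ centralizer ((zpowers z ⊔ zpowers x : Subgroup G) : Set G) := by
      rw [centralizer_sup, centralizer_zpowers, centralizer_zpowers]
      exact ⟨mem_centralizer_singleton_iff.2 (hz.2.2 y y.2), hPx (hmem y hy)⟩
    have hyE : (y : G) ∈ zpowers z ⊔ zpowers x := by
      by_contra hn
      have h3 := (hlt (hE.sup_zpowers hy1 hyc) (lt_of_le_of_ne le_sup_left fun e =>
        hn (e.ge (mem_sup_right (mem_zpowers _)))) hE2).trans (hrank.card_le (hE.sup_zpowers hy1 hyc))
      have := (Nat.pow_le_pow_iff_right hp'.one_lt).1 h3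
      omega
    obtain ⟨a, ha, b, hb, hab⟩ := (CopAct.mem_sup_iff_of_le_normalizer (zpowers_le.2
      (centralizer_le_normalizer _ hxz))).1 hyE
    have hag : a * g = g * a := ((zpowers_le.2 hz.2.2 ha) g g.2).symm
    have h4 : (g : G) * b * (g : G)⁻¹ = a⁻¹ * (g * y * g⁻¹ : K) := by
      push_cast; rw [← hab, ← mul_assoc (g : G), ← hag]; group
    have h5 := Loc.IsIsolated.eq_of_conj_mem_of_mem_zpowers hiso P.2 hxP hb (g := g) (by
      rw [h4]; exact mul_mem (inv_mem (zpowers_le.2 hz.1 ha))
        (hmem _ (conj_mem_of_mem_normalizer hg hy)))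
    refine mem_centralizer_singleton_iff.2 (Subtype.ext ?_)
    push_cast
    rw [← hab, ← mul_assoc, ← hag, mul_assoc, mul_assoc, mul_inv_eq_iff_eq_mul.1 h5]
  have h6 := hN.not_dvd_card_pResidual
  rw [← card_map_of_injective K.subtype_injective, show (pResidual p K).map K.subtype = K from
    pResidualOf_eq_self_of_perfect hp' hK.commutator_eq] at h6
  exact h6 (hdvd K hK.isSubnormal hK.ne_bot)

end Cfsg.Agent.S3049
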