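import Mathlib
import Cfsg.Statements.S3053
import Cfsg.Agent.Loc.XP3
import Cfsg.Agent.GT.PiGroups

set_option autoImplicit false
open Cfsg

namespace Cfsg.Agent.S3053

open Cfsg.Agent.GT Cfsg.Agent.GT.PG Cfsg.Agent.Loc.H78
open scoped commutatorElement


/-- Let p be an odd prime and G a finite group with a Sylow p-subgroup P that is extraspecial of order p³ and exponent p². Then the centre of P is strongly closed in P with respect to G: a G-conjugate of an element of Z(P) that lies in P already lies in Z(P). In particular a nontrivial central element of P is conjugate in G to no noncentral element of P. -/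
theorem result {G : Type*} [Group G] [Finite G]
    {p : ℕ} [Fact p.Prime] (hp : p ≠ 2) (P : Sylow p G) (hE : Cfsg.IsExtraspecial p ↥P)
    (hcard : Nat.card P = p ^ 3) (hexp : Monoid.exponent ↥P = p ^ 2) :
    Cfsg.IsStronglyClosed ((Subgroup.center ↥P).map (P : Subgroup G).subtype) (P : Subgroup G) := by
  have hp' : p.Prime := Fact.out
  obtain ⟨z₀, h₀, -⟩ := exists_esz hE
  rw [show (Subgroup.center ↥P).map (P : Subgroup G).subtype = _ from
    (map_center_subtype' (P : Subgroup G)).trans h₀.center_eq]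
  refine ⟨h₀.zpowers_le, fun z hz g hx => ?_⟩
  by_contra hxz
  have hz1 : z ≠ 1 := by rintro rfl; simp at hxz
  have e := h₀.zpowers_eq_of_mem hz hz1
  have h : ESZ p (P : Subgroup G) z := ⟨orderOf_eq_prime (h₀.pow_eq_one_of_mem_zpowers hz) hz1,
    e ▸ h₀.comm_mem, e ▸ h₀.pow_mem, e ▸ h₀.center_eq⟩
  rw [← e] at hxz
  have hb := ind_of_conj h P.not_dvd_index hx hxz
  set x := g * z * g⁻¹
  have hxp : x ^ p = 1 := by rw [conj_pow, h.z_pow]; simp
  obtain ⟨n, hn, ⟨w, hw, h1⟩, h2⟩ := exists_torus h P.not_dvd_index hx hxz hxp (by simp) hb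
    (l := -1) (by simp)
  rw [inv_neg, inv_one, zp_neg_one h.z_pow] at h2
  rw [zp_neg_one hxp] at h1
  have hZ : ∀ c ∈ Subgroup.zpowers z, n * c * n⁻¹ = c⁻¹ := by
    rintro _ ⟨k, rfl⟩
    rw [← conj_zpow, h2, inv_zpow]
  have hpow : ∀ u ∈ (P : Subgroup G), ∀ v ∈ (P : Subgroup G), (u * v) ^ p = u ^ p * v ^ p :=
    fun u hu v hv => congrArg Subtype.val ((powHom (hp'.odd_of_ne_two hp)
      hE.1.commutator_le_center fun c hc => hE.1.pow_eq_one_of_mem_center
        (hE.1.commutator_le_center hc)).map_mul ⟨u, hu⟩ ⟨v, hv⟩)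
  have hC : ∀ u ∈ (P : Subgroup G), Commute x u → u ^ p = 1 := by
    have h3 : Subgroup.zpowers z ⊔ Subgroup.zpowers x ≤
        (P : Subgroup G) ⊓ Subgroup.centralizer {x} := sup_le
      (Subgroup.zpowers_le.2 ⟨h.z_mem,
        Subgroup.mem_centralizer_singleton_iff.2 (h.commute_z hx).eq.symm⟩)
      (Subgroup.zpowers_le.2 ⟨hx, Subgroup.mem_centralizer_singleton_iff.2 rfl⟩)
    have h4 := card_inf_mul_relIndex (Subgroup.centralizer {x}) (P : Subgroup G)
    rw [h.relIndex_centralizer hx hxz, hcard, pow_succ, inf_comm] at h4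
    have h5 := Nat.eq_of_mul_eq_mul_right hp'.pos h4
    have hE' : IsElementaryAbelian p (Subgroup.zpowers z ⊔ Subgroup.zpowers x) :=
      (IsElementaryAbelian.zpowers h.z_pow).sup_zpowers hxp
        (Subgroup.le_centralizer_iff.1 h.zpowers_le_centralizer hx)
    obtain ⟨i, hi, h6⟩ := (Nat.dvd_prime_pow hp').1 (h5 ▸ Subgroup.card_dvd_of_le h3)
    have h7 := Tr.card_lt_of_lt (lt_of_le_of_ne (le_sup_left : Subgroup.zpowers z ≤
      Subgroup.zpowers z ⊔ Subgroup.zpowers x) fun e' => hxz (e' ▸ Subgroup.mem_sup_right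
        (Subgroup.mem_zpowers x)))
    rw [h.card_zpowers, h6] at h7
    have h8 : i = 2 := by
      have : 1 < i := (Nat.pow_lt_pow_iff_right hp'.one_lt).1 (by rwa [pow_one])
      omega
    have h9 := Subgroup.eq_of_le_of_card_ge h3 (by rw [h5, h6, h8])
    exact fun u hu hc => hE'.2 u (h9 ▸ ⟨hu, Subgroup.mem_centralizer_singleton_iff.2 hc.eq.symm⟩)
  have hall : ∀ u ∈ (P : Subgroup G), u ^ p = 1 := by
    intro u hu
    have hu' := CopAct.conj_mem le_rfl hn hu
    have h3 : ⁅x, n * u * n⁻¹⁆ = ⁅x, u⁆ := by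
      have h4 := hZ _ (h.comm_mem x hx u hu)
      rw [conjugate_commutatorElement, h1, h.commutator_mul_left (h.zpowers_le hw) (inv_mem hx) hu',
        (h.commute_of_mem_zpowers hu' hw).symm.commutator_eq, one_mul, ← zpow_neg_one x,
        h.commutator_zpow_left hx hu', zpow_neg_one] at h4
      exact inv_injective h4
    have h4 := hC _ (mul_mem hu' (inv_mem hu)) (by
      rw [← commutatorElement_eq_one_iff_commute, h.commutator_mul_right hx hu' (inv_mem hu), h3,
        ← zpow_neg_one u, h.commutator_zpow_right hx hu, zpow_neg_one, mul_inv_cancel])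
    rw [hpow _ hu' _ (inv_mem hu), conj_pow, hZ _ (h.pow_mem u hu), inv_pow, ← mul_inv_rev,
      inv_eq_one, ← sq] at h4
    exact (pow_eq_one_iff_of_coprime ((Nat.coprime_primes Nat.prime_two hp').2 hp.symm)).1
      ⟨h4, h.pow_eq_one_of_mem_zpowers (h.pow_mem u hu)⟩
  have h3 : p ^ 2 ∣ p :=
    hexp ▸ Monoid.exponent_dvd_of_forall_pow_eq_one fun u => Subtype.ext (hall u u.2)
  have := Nat.le_of_dvd hp'.pos h3
  nlinarith [hp'.two_le]

end Cfsg.Agent.S3053
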