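import Mathlib
import Cfsg.Statements.S3054
import Cfsg.Agent.Loc.XP3

set_option autoImplicit false
open Cfsg

namespace Cfsg.Agent.S3054

open Cfsg.Agent.GT Cfsg.Agent.GT.PG Cfsg.Agent.Loc.H78 Cfsg.Agent.Cl.L2
open scoped IsMulCommutative

theorem exists_ind {G : Type*} [Group G] [Finite G] {p : ℕ} [hp : Fact p.Prime] {A : Subgroup G}
    (hA : IsElementaryAbelian p A) (hcard : Nat.card A = p ^ 2) {x z : G} (hx : x ∈ A) (hz : z ∈ A)
    (hx1 : x ≠ 1) (hzx : z ∉ Subgroup.zpowers x)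
    (hSL : ∀ φ : MulAut A, orderOf φ = p → ∃ g : G, ∀ a : A, (φ a : G) = g * (a : G) * g⁻¹) :
    ∃ s : ZMod p, s ≠ 0 ∧ Ind x z 1 s 0 1 := by
  have := hA.1
  set X := Subgroup.zpowers (⟨x, hx⟩ : A)
  have ho : orderOf (⟨x, hx⟩ : A) = p := by rw [Subgroup.orderOf_mk, hA.orderOf_eq hx hx1]
  have hX : Nat.card X = p := by rw [Nat.card_zpowers, ho]
  have hQ : Nat.card (A ⧸ X) = p := by
    have := Subgroup.card_eq_card_quotient_mul_card_subgroup X
    rw [hcard, hX, sq] at this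
    exact (Nat.eq_of_mul_eq_mul_right hp.out.pos this).symm
  let e := mulEquivOfPrimeCardEq hQ hX
  let ψ : A →* A := (X.subtype.comp e.toMonoidHom).comp (QuotientGroup.mk' X)
  have hψ : ∀ a, ψ a ∈ X := fun a => (e _).2
  have hker : ∀ a, ψ a = 1 ↔ a ∈ X := fun a => by simp [ψ]
  have hψ2 : ∀ a, ψ (ψ a) = 1 := fun a => (hker _).2 (hψ a)
  let φ : MulAut A :=
    { toFun := fun a => ψ a * a
      invFun := fun a => (ψ a)⁻¹ * a
      left_inv := fun a => by simp [hψ2]
      right_inv := fun a => by simp [hψ2]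
      map_mul' := fun a b => by simp only [map_mul]; exact mul_mul_mul_comm _ _ _ _ }
  have hφ : ∀ (k : ℕ) a, (φ ^ k) a = ψ a ^ k * a := by
    intro k a
    induction k with
    | zero => simp
    | succ k ih =>
      rw [pow_succ', MulAut.mul_apply, ih]
      change ψ _ * _ = _
      rw [map_mul, map_pow, hψ2, one_pow, one_mul, pow_succ', mul_assoc]
  have hz' : ψ ⟨z, hz⟩ ≠ 1 := fun h => hzx (by
    obtain ⟨k, hk⟩ := (hker _).1 h
    exact ⟨k, congrArg Subtype.val hk⟩)
  obtain ⟨g, hg⟩ := hSL φ (orderOf_eq_prime (MulEquiv.ext fun a => by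
    rw [hφ, show ψ a ^ p = 1 from Subtype.ext (hA.2 _ (ψ a).2), one_mul]; rfl) fun h => hz' (by
    have := congrArg (fun f : MulAut A => f ⟨z, hz⟩) h
    exact mul_eq_right.1 this))
  obtain ⟨k, hk⟩ := (mem_powers_iff_mem_zpowers.2 (hψ ⟨z, hz⟩))
  have hk' : zp x (k : ZMod p) = ψ ⟨z, hz⟩ := by
    rw [zp, ZMod.val_natCast, ← pow_eq_pow_mod _ (hA.2 x hx)]
    exact congrArg Subtype.val hk
  refine ⟨k, fun h => hz' (Subtype.ext (by rw [← hk', h, zp_zero]; rfl)), g, ?_, ?_⟩
  · rw [zp_one, zp_zero, mul_one, ← hg ⟨x, hx⟩]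
    change (ψ _ : G) * x = x
    rw [(hker _).2 (Subgroup.mem_zpowers _)]
    simp
  · rw [zp_one, hk', ← hg ⟨z, hz⟩]
    rfl


/-- Let p be an odd prime and G a finite group with a Sylow p-subgroup P that is extraspecial of order p³ and exponent p. Suppose P contains three distinct subgroups A of order p² (each is elementary abelian of rank 2) such that every automorphism of A of order p is induced by conjugation by an element of G; equivalently the automorphism group induced on A by its normalizer contains the special linear group of A. Then p ≤ 13. -/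
theorem result {G : Type*} [Group G] [Finite G]
    {p : ℕ} [Fact p.Prime] (hp : p ≠ 2) (P : Sylow p G) (hE : Cfsg.IsExtraspecial p ↥P)
    (hcard : Nat.card P = p ^ 3) (hexp : Monoid.exponent ↥P = p)
    (A : Fin 3 → Subgroup G) (hA : Function.Injective A) (hAP : ∀ i, A i ≤ (P : Subgroup G))
    (hAcard : ∀ i, Nat.card ↥(A i) = p ^ 2)
    (hSL : ∀ i, ∀ φ : MulAut ↥(A i), orderOf φ = p → ∃ g : G, ∀ a : ↥(A i), (φ a : G) = g * (a : G) * g⁻¹) :
    p ≤ 13 := by
  classical
  have hp' : p.Prime := Fact.out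
  obtain ⟨z, h, hne⟩ := exists_esz hE
  obtain ⟨Φ, c, hc⟩ := exists_coord h hcard
  have hH := hc.not_dvd_card h P.not_dvd_index
  have := Finite.of_surjective _ Φ.rangeRestrict_surjective
  have hpow : ∀ u ∈ (P : Subgroup G), u ^ p = 1 := fun u hu =>
    congrArg Subtype.val (hexp ▸ Monoid.pow_exponent_eq_one (⟨u, hu⟩ : P))
  have hEA : ∀ i, IsElementaryAbelian p (A i) := fun i =>
    ⟨IsPGroup.isMulCommutative_of_card_eq_prime_sq (hAcard i), fun a ha => hpow a (hAP i ha)⟩
  have hlt : ∀ {B C : Subgroup G} {k : ℕ}, B < C → Nat.card B = p ^ k → C ≤ P →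
      p ^ (k + 1) ≤ Nat.card C := by
    intro B C k h1 h2 h3
    obtain ⟨j, -, hj⟩ := (Nat.dvd_prime_pow hp').1 (hcard ▸ Subgroup.card_dvd_of_le h3)
    have := Tr.card_lt_of_lt h1
    rw [h2, hj] at this
    rw [hj]
    exact Nat.pow_le_pow_right hp'.pos ((Nat.pow_lt_pow_iff_right hp'.one_lt).1 this)
  have hz : ∀ i, z ∈ A i := fun i => by
    by_contra hz
    have h1 := (hEA i).sup_zpowers h.z_pow fun a ha => (h.commute_z (hAP i ha)).eq
    have h2 : A i ⊔ Subgroup.zpowers z ≤ P := sup_le (hAP i) h.zpowers_le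
    have h3 := Subgroup.eq_of_le_of_card_ge h2 (hcard ▸ hlt (lt_of_le_of_ne le_sup_left fun e =>
      hz (e ▸ Subgroup.mem_sup_right (Subgroup.mem_zpowers z))) (hAcard i) h2)
    rw [h3] at h1
    exact hne (h.center_eq ▸ (inf_eq_left.2 h1.le_centralizer).symm)
  have hx : ∀ i, ∃ x ∈ A i, x ∉ Subgroup.zpowers z := fun i => by
    by_contra h1
    push Not at h1
    have := Subgroup.card_le_of_le (show A i ≤ _ from h1)
    rw [hAcard, h.card_zpowers] at this
    nlinarith [hp'.two_le]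
  choose x hxA hxz using hx
  have h0 : ∀ i, c (x i) ≠ 0 := fun i => mt (hc.eq_zero _ (hAP i (hxA i))).1 (hxz i)
  have hsup : ∀ i, Subgroup.zpowers z ⊔ Subgroup.zpowers (x i) = A i := fun i => by
    have h1 : Subgroup.zpowers z ⊔ Subgroup.zpowers (x i) ≤ A i :=
      sup_le (Subgroup.zpowers_le.2 (hz i)) (Subgroup.zpowers_le.2 (hxA i))
    exact Subgroup.eq_of_le_of_card_ge h1 (hAcard i ▸ hlt (k := 1) (lt_of_le_of_ne le_sup_left
      fun e => hxz i (e ▸ Subgroup.mem_sup_right (Subgroup.mem_zpowers _)))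
      (by rw [pow_one, h.card_zpowers]) (h1.trans (hAP i)))
  have hinj : Function.Injective fun i => Projectivization.mk (ZMod p) (c (x i)) (h0 i) := by
    intro i j hij
    obtain ⟨d, hd⟩ := (Projectivization.mk_eq_mk_iff' _ _ _ _ _).1 hij
    obtain ⟨w, hw, e⟩ := hc.exists_eq_of_eq (hAP i (hxA i)) (zp_mem (hAP j (hxA j)) d)
      (by rw [hc.zp (hAP j (hxA j)), hd])
    refine hA (Subgroup.eq_of_le_of_card_ge ?_ (by rw [hAcard, hAcard]))
    rw [← hsup i]
    exact sup_le (Subgroup.zpowers_le.2 (hz j)) (Subgroup.zpowers_le.2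
      (e ▸ mul_mem (zp_mem (hxA j) d) (Subgroup.zpowers_le.2 (hz j) hw)))
  by_contra hlt'
  have := card_le_two_of_six p _ hH (Finset.univ.map ⟨_, hinj⟩) fun s hs => by
    obtain ⟨i, -, rfl⟩ := Finset.mem_map.1 hs
    have hx1 : x i ≠ 1 := fun e => hxz i (e ▸ one_mem _)
    obtain ⟨s, hs, hb⟩ := exists_ind (hEA i) (hAcard i) (hxA i) (hz i) hx1 (fun h1 => hxz i (by
      rw [(esz_zpowers ((hEA i).orderOf_eq (hxA i) hx1)).zpowers_eq_of_mem h1 h.z_ne_one]
      exact Subgroup.mem_zpowers _)) (hSL i)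
    obtain ⟨g, h1, h2, h3, h4⟩ := hc.exists_fix h P.not_dvd_index (hAP i (hxA i))
      (hpow _ (hAP i (hxA i))) hs hb (h0 i)
    refine ⟨g, h1, h2, ?_⟩
    have h5 := Nat.le_of_dvd (by omega) h3
    by_contra h6
    have h7 : p ≤ 16 := by omega
    interval_cases p <;> exact absurd hp' (by norm_num)
  simp at this

end Cfsg.Agent.S3054
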