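import Mathlib
import Cfsg.Statements.S3055
import Cfsg.Agent.Loc.XP3

set_option autoImplicit false
open Cfsg

namespace Cfsg.Agent.S3055

open Cfsg.Agent.GT Cfsg.Agent.GT.PG Cfsg.Agent.Loc.H78 Cfsg.Agent.Cl.L2


/-- Let p be an odd prime and G a finite group with a Sylow p-subgroup P that is extraspecial of order p³ and exponent p. If all nonidentity elements of P are conjugate in G, then p ≤ 7. -/
theorem result {G : Type*} [Group G] [Finite G]
    {p : ℕ} [Fact p.Prime] (hp : p ≠ 2) (P : Sylow p G) (hE : Cfsg.IsExtraspecial p ↥P)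
    (hcard : Nat.card P = p ^ 3) (hexp : Monoid.exponent ↥P = p)
    (hconj : ∀ x y : ↥P, x ≠ 1 → y ≠ 1 → ∃ g : G, g * (x : G) * g⁻¹ = (y : G)) :
    p ≤ 7 := by
  classical
  have hp' : p.Prime := Fact.out
  obtain ⟨z, h, -⟩ := exists_esz hE
  obtain ⟨Φ, c, hc⟩ := exists_coord h hcard
  have hH := hc.not_dvd_card h P.not_dvd_index
  have := Finite.of_surjective _ Φ.rangeRestrict_surjective
  have key : ∀ s : P1 (ZMod p), ∃ g ∈ Φ.range, g • s = s ∧ p - 1 ∣ 3 * orderOf g ∧
      0 < orderOf g := by
    intro s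
    induction s using Projectivization.ind with | h v hv => ?_
    obtain ⟨x, hx, rfl⟩ := hc.surj v
    have hxz := mt (hc.eq_zero x hx).2 hv
    obtain ⟨g, hg⟩ := hconj ⟨z, h.z_mem⟩ ⟨x, hx⟩ (fun e => h.z_ne_one (congrArg Subtype.val e))
      fun e => hxz (by rw [show x = 1 from congrArg Subtype.val e]; exact one_mem _)
    obtain rfl : g * z * g⁻¹ = x := hg
    exact hc.exists_fix h P.not_dvd_index hx (by rw [conj_pow, h.z_pow]; simp) (by simp)
      (ind_of_conj h P.not_dvd_index hx hxz) hv
  have : Finite (P1 (ZMod p)) := Finite.of_equiv _ optionEquiv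
  have := Fintype.ofFinite (P1 (ZMod p))
  have hc1 : (Finset.univ : Finset (P1 (ZMod p))).card = p + 1 := by
    rw [Finset.card_univ, ← Nat.card_eq_fintype_card, card_P1, Nat.card_zmod]
  by_contra hlt
  by_cases h13 : p = 13
  · have := card_le_twelve_of_four p _ hH Finset.univ fun s _ => (key s).imp fun g hg =>
      ⟨hg.1, hg.2.1, by
        have h1 : 13 - 1 ∣ 3 * orderOf g := h13 ▸ hg.2.2.1
        clear * - h1
        omega⟩
    omega
  · have := card_le_two_of_six p _ hH Finset.univ fun s _ => (key s).imp fun g hg =>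
      ⟨hg.1, hg.2.1, by
        have h1 := hg.2.2.1
        have h2 := Nat.le_of_dvd (by have := hg.2.2.2; omega) h1
        by_contra h3
        have h4 : p ≤ 16 := by omega
        interval_cases p <;> first | omega | exact absurd hp' (by norm_num)⟩
    omega

end Cfsg.Agent.S3055
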