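import Mathlib
import Cfsg.Statements.S3056
import Cfsg.Agent.Inv.SPEGraph

set_option autoImplicit false
open Cfsg

namespace Cfsg.Agent.S3056

open Cfsg.Agent.Inv.SE Subgroup

/-- Let G be a finite group and p a prime. Join two Sylow p-subgroups when they are distinct and meet nontrivially. This graph on the Sylow p-subgroups is disconnected (the Sylow p-subgroups are not chain-connected through nontrivial intersections) if and only if G has a strongly p-embedded subgroup in the classical sense: a proper subgroup H of order divisible by p such that H ∩ gHg⁻¹ has order prime to p for every g outside H. -/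
theorem result {G : Type*} [Group G] [Finite G]
    (p : ℕ) [Fact p.Prime] :
    ¬ Cfsg.IsSylowChainConnected p G ↔
      ∃ H : Subgroup G, H ≠ ⊤ ∧ p ∣ Nat.card H ∧
        ∀ g : G, g ∉ H → ¬ p ∣ Nat.card ↥(H ⊓ H.map (MulAut.conj g).toMonoidHom) := by
  rw [not_isSylowChainConnected_iff]
  simp only [strEmb_iff_classical]

end Cfsg.Agent.S3056
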