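import Mathlib
import Cfsg.Statements.S3057
import Cfsg.Agent.Inv.SPEGraph
import Cfsg.Agent.Inv.RankOneP
import Cfsg.Agent.GT.PSolvable

set_option autoImplicit false
open Cfsg

namespace Cfsg.Agent.S3057

open Cfsg.Agent.Inv.SE Subgroup

/-- Let p be a prime and G a finite p-solvable group of order divisible by p, with Sylow p-subgroup P. Then the Sylow p-subgroups of G fail to be chain-connected through nontrivial intersections (equivalently, G has a strongly p-embedded subgroup) if and only if O_p(G) = 1 and P is cyclic or, for p = 2, generalized quaternion. -/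
theorem result {G : Type*} [Group G] [Finite G]
    (p : ℕ) [Fact p.Prime] (hdiv : p ∣ Nat.card G) (hsol : Cfsg.IsPSolvable p G) (P : Sylow p G) :
    ¬ Cfsg.IsSylowChainConnected p G ↔
      Cfsg.pCore p G = ⊥ ∧ (IsCyclic ↥P ∨ (p = 2 ∧ ∃ n : ℕ, Nonempty (↥P ≃* QuaternionGroup (2 ^ n)))) := by
  rw [not_isSylowChainConnected_iff]
  constructor
  · rintro ⟨H, h⟩
    refine ⟨h.pCore_eq_bot, cyclic_or_quaternion_of_uniqOrd P.2
      (uniqOrd_of_not_prankAtLeast P.2 fun hr => ?_)⟩
    have h1 := h.map_mk' (pPrimeCore p G) (by rw [sup_eq_left.mpr (h.pPrimeCore_le hr)]; exact h.ne_top)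
    have : Nontrivial (G ⧸ pPrimeCore p G) := by
      obtain ⟨g, hg⟩ := h1.exists_not_mem
      exact ⟨⟨g, 1, fun h2 => hg (h2 ▸ one_mem _)⟩⟩
    rcases (hsol.quotient (pPrimeCore p G)).pCore_ne_bot_or with h2 | h2
    · exact h2 h1.pCore_eq_bot
    · exact h2 GT.pPrimeCore_quotient_pPrimeCore
  · rintro ⟨hO, hP⟩
    have h : UniqOrd p (P : Subgroup G) := uniqOrd_of_cyclic_or_quaternion P.2
      (hP.imp id fun ⟨_, n, hn⟩ => ⟨_, hn⟩)
    obtain ⟨x, hx, hxp⟩ := exists_mem_orderOf_eq (P.dvd_card_of_dvd_card hdiv)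
    refine ⟨_, strEmb_of_uniqOrd P h hx hxp (fun h1 => ?_) le_rfl⟩
    have := normalizer_eq_top_iff.mp h1
    have h2 : zpowers x ≤ pCore p G :=
      GT.le_pCore (isPGroup_zpowers (k := 1) (by simpa using hxp))
    rw [hO, le_bot_iff, zpowers_eq_bot] at h2
    rw [h2] at hxp
    exact (Fact.out : p.Prime).one_lt.ne (by simpa using hxp)

end Cfsg.Agent.S3057
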