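import Mathlib
import Cfsg.Statements.S3059
import Cfsg.Agent.Inv.SPE

set_option autoImplicit false
open Cfsg

namespace Cfsg.Agent.S3059

open Cfsg.Agent.Inv.SE Subgroup

/-- Let p be a prime and H a strongly p-embedded subgroup of the finite group G in the classical sense: H is proper, p divides the order of H, and H ∩ gHg⁻¹ has order prime to p for every g outside H. Then for every normal subgroup N of G of order divisible by p, G = H · O^p(N), where O^p(N) is the subgroup generated by the elements of N of order prime to p. -/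
theorem result {G : Type*} [Group G] [Finite G]
    (p : ℕ) [Fact p.Prime] (H : Subgroup G) (hH : H ≠ ⊤) (hpH : p ∣ Nat.card H)
    (hse : ∀ g : G, g ∉ H → ¬ p ∣ Nat.card ↥(H ⊓ H.map (MulAut.conj g).toMonoidHom))
    (N : Subgroup G) [N.Normal] (hN : p ∣ Nat.card N) :
    H ⊔ Subgroup.closure {g : G | g ∈ N ∧ (orderOf g).Coprime p} = ⊤ := by
  have h : StrEmb p H := strEmb_iff_classical.mpr ⟨hH, hpH, hse⟩
  set R := Subgroup.closure {g : G | g ∈ N ∧ (orderOf g).Coprime p} with hR
  by_contra hne
  have h1 : StrEmb p (H ⊔ R) := h.of_le le_sup_left hne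
  apply h1.not_dvd_card_of_normal (N := N) _ hN
  by_contra hNM
  -- `N ⊓ (H ⊔ R)` has index prime to `p` in `N` and contains all elements of order prime to `p`
  have h2 : StrEmb p ((H ⊔ R).subgroupOf N) := h1.subgroupOf_normal N hN
  have h3 := h2.not_dvd_index
  apply h2.ne_top
  rw [← index_eq_one]
  by_contra h4
  obtain ⟨q, hq, hqd⟩ := Nat.exists_prime_and_dvd h4
  have : Fact q.Prime := ⟨hq⟩
  have hqp : q ≠ p := by
    rintro rfl
    exact h3 hqd
  obtain ⟨Q⟩ : Nonempty (Sylow q N) := inferInstance
  have hQ : (Q : Subgroup N) ≤ (H ⊔ R).subgroupOf N := by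
    intro x hx
    rw [mem_subgroupOf]
    apply (le_sup_right : R ≤ H ⊔ R)
    apply Subgroup.subset_closure
    refine ⟨x.2, ?_⟩
    have := Q.2.orderOf_coprime (n := p) ((Nat.coprime_primes hq Fact.out).mpr hqp) ⟨x, hx⟩
    simpa using this
  exact Q.not_dvd_index (hqd.trans (index_dvd_of_le hQ))

end Cfsg.Agent.S3059
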