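import Mathlib
import Cfsg.Statements.S3062
import Cfsg.Agent.GT.ThompsonDStar

set_option autoImplicit false
open Cfsg

namespace Cfsg.Agent.S3062

open Subgroup Cfsg.Agent.GT
open scoped commutatorElement Pointwise

/-- Let S be a finite p-group, J(S) the subgroup generated by the abelian subgroups of S of largest order and Z(J(S)) its centre. Then Z(S) ≤ D*(S) ≤ Z(J(S)), and every maximal normal abelian subgroup of S contains D*(S). -/
theorem result {S : Type*} [Group S] [Finite S] {p : ℕ} [Fact p.Prime]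
    (hS : IsPGroup p S) :
    Subgroup.center S ≤ Cfsg.dStar S ∧
    Cfsg.dStar S ≤ Cfsg.thompsonSubgroupA S ⊓ Subgroup.centralizer (Cfsg.thompsonSubgroupA S : Set S) ∧
    ∀ A : Subgroup S, A.Normal → IsMulCommutative A →
      (∀ B : Subgroup S, B.Normal → IsMulCommutative B → A ≤ B → B = A) → Cfsg.dStar S ≤ A := by
  rw [← dsOf_top, thompsonSubgroupA_eq]
  refine ⟨le_trans ?_ (le_dsOf (center_mem_dsFam ⊤)), dsOf_le_thZ (hS.to_subgroup ⊤),
    fun A hA hc hmax => ?_⟩
  · rw [centralizer_top, top_inf_eq]
  · have := hS.isNilpotent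
    obtain ⟨N, h1, hN, h2⟩ := PG.exists_self_centralizing_normal A hc
    obtain rfl := hmax N hN (le_centralizer_iff_isMulCommutative.1 h2.ge) h1
    exact (dsOf_le_centralizer (hS.to_subgroup ⊤) le_top hc th_le_norm).trans h2.le

end Cfsg.Agent.S3062
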