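import Mathlib
import Cfsg.Statements.S3063
import Cfsg.Agent.GT.ThompsonDStar

set_option autoImplicit false
open Cfsg

namespace Cfsg.Agent.S3063

open Subgroup Cfsg.Agent.GT
open scoped commutatorElement Pointwise

/-- A weak replacement Theorem for metabelian p-groups: let S be a finite p-group whose derived subgroup is abelian and A an abelian subgroup of S of largest possible order. Then the normal closure of A in S contains an abelian subgroup B of the same order as A that is normal in S. -/
theorem result {S : Type*} [Group S] [Finite S] {p : ℕ} [Fact p.Prime]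
    (hS : IsPGroup p S) (hmeta : IsMulCommutative ↥(commutator S))
    (A : Subgroup S) (hA : A ∈ Cfsg.maxAbelianSubgroups S) :
    ∃ B ∈ Cfsg.maxAbelianSubgroups S, B.Normal ∧ B ≤ Subgroup.normalClosure (A : Set S) := by
  rw [maxAbelianSubgroups_eq] at hA ⊢
  obtain ⟨B, hB, hmax⟩ := Set.exists_max_image
    {B : Subgroup S | B ∈ abFam 0 (⊤ : Subgroup S) ∧ B ≤ normalClosure (A : Set S)}
    (fun B => Nat.card (B ⊓ commutator S : Subgroup S)) (Set.toFinite _) ⟨A, hA, le_normalClosure⟩
  refine ⟨B, hB.1, ⟨fun a ha g => ?_⟩, hB.2⟩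
  have h1 : thCommElt g⁻¹ B ≤ commutator S :=
    (thCommElt_le_commutator (mem_top _)).trans (commutator_mono le_rfl le_top)
  obtain ⟨h2, h3⟩ := thompson_commElt (abFam_comm hB.1) (th_comm_mono hmeta h1)
  have h4 := hmax _ ⟨mem_abFam_of_card_le hB.1 le_top h2 (by simp) h3, sup_le
    ((thCommElt_le_commutator (mem_top _)).trans
      ((commutator_mono le_rfl hB.2).trans (commutator_le_right _ _))) (inf_le_left.trans hB.2)⟩
  have h5 : B ⊓ commutator S ≤ (thCommElt g⁻¹ B ⊔ (B ⊓ centralizer (thCommElt g⁻¹ B : Set S))) ⊓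
      commutator S := le_inf (le_sup_of_le_right (inf_le_inf_left _
        ((le_centralizer_iff_isMulCommutative.2 hmeta).trans (centralizer_le h1)))) inf_le_right
  have h6 : thCommElt g⁻¹ B ≤ B :=
    ((le_inf le_sup_left h1).trans (eq_of_le_of_card_ge h5 h4).ge).trans inf_le_left
  simpa using B.mul_mem (h6 (mem_thCommElt ha)) ha

end Cfsg.Agent.S3063
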