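import Mathlib
import Cfsg.Statements.S3064
import Cfsg.Agent.GT.FrobeniusThm
import Cfsg.Agent.GT.SchurZassenhaus
import Cfsg.Agent.GT.PPrimeCore
import Cfsg.Agent.GT.MinNormal
-- import your own Cfsg.Agent.* helpers here

set_option autoImplicit false
open Cfsg

namespace Cfsg.Agent.S3064

open Subgroup Cfsg.Agent.GT

universe u

theorem main (p : ℕ) [hp : Fact p.Prime] (G : Type u) [Group G] [Finite G] :
    ∀ x : G, IsPGroup p (zpowers x) →
    (∀ T : Subgroup G, IsPGroup p T → x ∈ T → ∀ g : G, g⁻¹ * x * g ∈ T → g⁻¹ * x * g = x) →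
    (∀ H : Subgroup G, (Nat.card H).Coprime p → (∀ h ∈ H, x * h * x⁻¹ ∈ H) →
      ∀ h ∈ H, x * h = h * x) → x ∈ center G := by
  refine card_induction (P := fun G _ _ => ∀ x : G, IsPGroup p (zpowers x) →
    (∀ T : Subgroup G, IsPGroup p T → x ∈ T → ∀ g : G, g⁻¹ * x * g ∈ T → g⁻¹ * x * g = x) →
    (∀ H : Subgroup G, (Nat.card H).Coprime p → (∀ h ∈ H, x * h * x⁻¹ ∈ H) →
      ∀ h ∈ H, x * h = h * x) → x ∈ center G) ?_ G
  intro G _ _ ih
  intro x hx hU hb
  by_contra hxZ
  set M := centralizer ({x} : Set G) with hM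
  have memM : ∀ {g : G}, g ∈ M ↔ x * g = g * x := mem_centralizer_singleton_iff.trans eq_comm
  have hZM : center G ≤ M := fun z hz => memM.2 (mem_center_iff.1 hz x)
  have hMtop : M ≠ ⊤ := fun h => hxZ (mem_center_iff.2 fun g => (memM.1 (h ▸ mem_top g)).symm)
  have step1 : ∀ H : Subgroup G, H ≠ ⊤ → x ∈ H → H ≤ M := by
    intro H hH hxH
    have := ih H (card_lt_of_ne_top hH) ⟨x, hxH⟩ ?_ ?_ ?_
    · intro h hh
      exact memM.2 (congrArg Subtype.val (mem_center_iff.1 this ⟨h, hh⟩)).symm
    · obtain ⟨k, hk⟩ := hx ⟨x, mem_zpowers x⟩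
      have hk0 : x ^ p ^ k = 1 := congrArg Subtype.val hk
      have hk' : (⟨x, hxH⟩ : H) ^ p ^ k = 1 := Subtype.ext hk0
      rintro ⟨_, n, rfl⟩
      refine ⟨k, Subtype.ext ?_⟩
      change ((⟨x, hxH⟩ : H) ^ n) ^ p ^ k = 1
      rw [← zpow_natCast, ← zpow_mul, mul_comm, zpow_mul, zpow_natCast, hk', one_zpow]
    · intro T hT hxT g hg
      refine Subtype.ext (hU (T.map H.subtype) (hT.map _) ⟨_, hxT, rfl⟩ g ⟨_, hg, rfl⟩)
    · intro K hK hKx k hk
      refine Subtype.ext (hb (K.map H.subtype) (by rwa [card_map_subtype]) ?_ k ⟨_, hk, rfl⟩)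
      rintro _ ⟨y, hy, rfl⟩
      exact ⟨_, hKx y hy, rfl⟩
  have step2 : ∀ g y : G, y ∈ M → g * y * g⁻¹ ∈ M → g ∉ M → y ∈ center G := by
    intro g y hy hgy hg
    have hx' : IsPGroup p (zpowers (g⁻¹ * x * g)) := by
      have := hx.map (MulAut.conj g⁻¹).toMonoidHom
      rw [MonoidHom.map_zpowers] at this
      have e : (MulAut.conj g⁻¹).toMonoidHom x = g⁻¹ * x * g := by simp
      rwa [e] at this
    have htop : zpowers x ⊔ zpowers (g⁻¹ * x * g) = ⊤ := by
      by_contra hne
      have hle := step1 _ hne (mem_sup_left (mem_zpowers x))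
      have hc : zpowers (g⁻¹ * x * g) ≤ centralizer (zpowers x : Set G) := by
        rw [zpowers_eq_closure x, centralizer_closure]
        exact le_sup_right.trans hle
      have hT : IsPGroup p (zpowers x ⊔ zpowers (g⁻¹ * x * g) : Subgroup G) :=
        IsPGroup.to_sup_of_normal_left' hx hx' (hc.trans (centralizer_le_normalizer _))
      have := hU _ hT (mem_sup_left (mem_zpowers x)) g (mem_sup_right (mem_zpowers _))
      apply hg
      rw [memM]
      calc x * g = g * (g⁻¹ * x * g) := by group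
        _ = g * x := by rw [this]
    have hle : (⊤ : Subgroup G) ≤ centralizer ({y} : Set G) := by
      rw [← htop]
      refine sup_le (zpowers_le.2 (mem_centralizer_singleton_iff.2 (memM.1 hy)))
        (zpowers_le.2 (mem_centralizer_singleton_iff.2 ?_))
      have := memM.1 hgy
      calc g⁻¹ * x * g * y = g⁻¹ * (x * (g * y * g⁻¹)) * g := by group
        _ = g⁻¹ * (g * y * g⁻¹ * x) * g := by rw [this]
        _ = y * (g⁻¹ * x * g) := by group
    exact mem_center_iff.2 fun h => mem_centralizer_singleton_iff.1 (hle (mem_top h))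
  let f := QuotientGroup.mk' (center G)
  have hf : Function.Surjective f := QuotientGroup.mk'_surjective _
  have hcm : (M.map f).comap f = M := by
    rw [comap_map_eq, QuotientGroup.ker_mk', sup_eq_left.2 hZM]
  have memf : ∀ {g : G}, f g ∈ M.map f ↔ g ∈ M := by
    intro g
    rw [← mem_comap, hcm]
  have hF : IsFrobeniusComplement (M.map f) := by
    rw [Frob.isFrobeniusComplement_iff]
    refine ⟨fun h => hxZ ?_, fun h => hMtop ?_, ?_⟩
    · have : f x ∈ M.map f := memf.2 (memM.2 rfl)
      rw [h] at this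
      exact (QuotientGroup.eq_one_iff x).1 this
    · rw [← hcm, h, comap_top]
    · intro g y hy hy1 hgy
      obtain ⟨g, rfl⟩ := hf g
      obtain ⟨y, rfl⟩ := hf y
      rw [← map_inv, ← map_mul, ← map_mul, memf] at hgy
      by_contra hg
      exact hy1 ((QuotientGroup.eq_one_iff y).2
        (step2 g y (memf.1 hy) hgy fun h => hg (memf.2 h)))
  obtain ⟨S, hS⟩ := hx.exists_le_sylow
  have hSM : (S : Subgroup G) ≤ M := by
    intro s hs
    have hxS : x ∈ (S : Subgroup G) := hS (mem_zpowers x)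
    have := hU S S.isPGroup' hxS s (mul_mem (mul_mem (inv_mem hs) hxS) hs)
    rw [memM]
    calc x * s = s * (s⁻¹ * x * s) := by group
      _ = s * x := by rw [this]
  have hidx : ¬ p ∣ M.index := fun h => S.not_dvd_index (h.trans (index_dvd_of_le hSM))
  have hKn := hF.kernel_normal
  let K := hF.kernel.comap f
  have hKcard : Nat.card K = M.index * Nat.card (center G) := by
    rw [card_comap_mk', hF.card_kernel_subgroup, ← index_comap_of_surjective _ hf, hcm]
  let N := pCoreOf p (center G)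
  have hNZ : N ≤ center G := pCoreOf_le _
  have hZK : center G ≤ K := by
    intro z hz
    rw [mem_comap, (QuotientGroup.eq_one_iff z).2 hz |> fun h => show f z = 1 from h]
    exact one_mem _
  have hNi : ¬ p ∣ N.relIndex (center G) := by
    obtain ⟨P⟩ : Nonempty (Sylow p (center G)) := inferInstance
    have : pCore p (center G) = P := pCore_eq_sylow P
    rw [relIndex, pCoreOf_subgroupOf, this]
    exact P.not_dvd_index
  have hrel : N.relIndex K = N.relIndex (center G) * M.index := by
    rw [← relIndex_mul_relIndex N (center G) K hNZ hZK]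
    congr 1
    have := card_mul_relIndex hZK
    rw [hKcard, mul_comm M.index] at this
    exact Nat.eq_of_mul_eq_mul_left Nat.card_pos this
  have hco : (N.relIndex K).Coprime p := by
    rw [hrel]
    exact Nat.Coprime.mul_left ((Nat.Prime.coprime_iff_not_dvd hp.out).2 hNi).symm
      ((Nat.Prime.coprime_iff_not_dvd hp.out).2 hidx).symm
  obtain ⟨H, hHK, hNH, -, hHc⟩ := exists_complement_of_coprime_relIndex (hNZ.trans hZK)
    (by rw [normalizer_eq_top]; exact le_top)
    (coprime_card_of_isPGroup hp.out (isPGroup_pCoreOf p _) hco)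
  have hHO : H ≤ pPrimeCore p G := by
    refine (le_pPrimeCoreOf hHK ?_ (hHc ▸ hco)).trans (pPrimeCoreOf_le_pPrimeCore K)
    rw [← hNH]
    exact sup_le (hNZ.trans ((center_le_centralizer _).trans (centralizer_le_normalizer _)))
      le_normalizer
  have hOM : pPrimeCore p G ≤ M := fun h hh => memM.2
    (hb _ (coprime_card_pPrimeCore p) (fun y hy => Normal.conj_mem inferInstance y hy x) h hh)
  have hKM : K ≤ M := by
    rw [← hNH]
    exact sup_le (hNZ.trans hZM) (hHO.trans hOM)
  apply hF.kernel_ne_bot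
  rw [eq_bot_iff]
  intro k hk
  obtain ⟨k, rfl⟩ := hf k
  exact Frob.eq_one_of_mem_frobeniusKernel (hF.mem_kernel.1 hk) (memf.2 (hKM hk))


/-- Let S be a Sylow p-subgroup of the finite group G and x an element of S such that (i) x is the only G-conjugate of x lying in S, and (ii) x centralizes every subgroup of order prime to p that it normalizes. Then x lies in the centre of G. -/
theorem result {G : Type*} [Group G] [Finite G] {p : ℕ} [Fact p.Prime]
    (S : Sylow p G) (x : G) (hx : x ∈ S)
    (hU : ∀ g : G, g⁻¹ * x * g ∈ S → g⁻¹ * x * g = x)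
    (hb : ∀ H : Subgroup G, (Nat.card H).Coprime p → (∀ h ∈ H, x * h * x⁻¹ ∈ H) → ∀ h ∈ H, x * h = h * x) :
    x ∈ Subgroup.center G := by
  refine main p G x (S.isPGroup'.to_le (zpowers_le.2 hx)) ?_ hb
  intro T hT hxT g hg
  obtain ⟨S', hS'⟩ := hT.exists_le_sylow
  obtain ⟨h, rfl⟩ := MulAction.exists_smul_eq G S S'
  have mem : ∀ {y : G}, y ∈ T → h⁻¹ * y * h ∈ S := by
    intro y hy
    have := hS' hy
    rw [Sylow.coe_subgroup_smul, Frob.mem_conj_smul_iff] at this
    exact this
  have h1 := hU h (mem hxT)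
  have h2 := hU (g * h) (by simpa [mul_assoc] using mem hg)
  calc g⁻¹ * x * g = h * ((g * h)⁻¹ * x * (g * h)) * h⁻¹ := by group
    _ = h * (h⁻¹ * x * h) * h⁻¹ := by rw [h1, h2]
    _ = x := by group

end Cfsg.Agent.S3064
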