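import Mathlib
import Cfsg.Statements.S3066
import Cfsg.Agent.Loc.GlaubOut

set_option autoImplicit false
open Cfsg

namespace Cfsg.Agent.S3066

/-- Let G be a finite non-abelian simple group with a nontrivial Sylow 2-subgroup S (that is, G has even order). Then Out(G) = Aut(G)/Inn(G) is solvable provided one of the following holds: (a) S is generated by two elements; (b) S is generated by three elements and N_G(S)/C_G(S) is not a 2-group (some element of N_G(S) of odd order does not centralize S); (c) the involutions of S commute pairwise and are all conjugate in G. -/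
theorem result {G : Type*} [Group G] [Finite G] [IsSimpleGroup G]
    (hG : ¬ IsMulCommutative G) (S : Sylow 2 G) (hS1 : (S : Subgroup G) ≠ ⊥)
    (h : (∃ a b : ↥S, Subgroup.closure ({a, b} : Set ↥S) = ⊤) ∨
      ((∃ a b c : ↥S, Subgroup.closure ({a, b, c} : Set ↥S) = ⊤) ∧
        ∃ g ∈ Subgroup.normalizer ((S : Subgroup G) : Set G), Odd (orderOf g) ∧ g ∉ Subgroup.centralizer ((S : Subgroup G) : Set G)) ∨
      ((∀ s ∈ S, ∀ t ∈ S, orderOf s = 2 → orderOf t = 2 → s * t = t * s) ∧
        (∀ s ∈ S, ∀ t ∈ S, orderOf s = 2 → orderOf t = 2 → ∃ g : G, g * s * g⁻¹ = t))) :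
    Group.IsSolvable (Cfsg.Out G) := by
  have hO := Loc.GA.oddCore_eq_bot_of_simple S hS1
  rcases h with ⟨a, b, h⟩ | ⟨⟨a, b, c, h⟩, g, hg, hodd, hgc⟩ | ⟨h1, h2⟩
  · have := Loc.GA.isSolvable_mulAut_of_two S.isPGroup' h
    exact Loc.GA.isSolvable_out S hO inferInstance
  · exact Loc.GA.isSolvable_out S hO (Loc.GA.isSolvable_range_of_three S h hg hodd hgc)
  · exact Loc.GA.isSolvable_out_of_involutions S hO h1 h2

end Cfsg.Agent.S3066
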