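import Mathlib
import Cfsg.Statements.S3067
import Cfsg.Agent.Loc.GlaubCop

set_option autoImplicit false
open Cfsg

namespace Cfsg.Agent.S3067

/-- Let G be a finite non-abelian simple group, τ an involution of G, and α a nontrivial automorphism of G whose order is coprime to the order of G. Then α moves some element of the centralizer of τ: α does not fix C_G(τ) elementwise. -/
theorem result {G : Type*} [Group G] [Finite G] [IsSimpleGroup G]
    (hG : ¬ IsMulCommutative G) (τ : G) (hτ : orderOf τ = 2) (α : MulAut G) (hα : α ≠ 1)
    (hcop : (orderOf α).Coprime (Nat.card G)) :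
    ∃ c ∈ Subgroup.centralizer ({τ} : Set G), α c ≠ c := by
  by_contra h
  push Not at h
  apply hα
  have hO : oddCore G = ⊥ := by
    rcases (inferInstance : (oddCore G).Normal).eq_bot_or_eq_top with h | h
    · exact h
    · exfalso
      have h1 := GT.odd_card_oddCore (G := G)
      rw [h, Subgroup.card_top] at h1
      exact (Nat.not_even_iff_odd.2 h1) (even_iff_two_dvd.2 (hτ ▸ orderOf_dvd_natCard τ))
  have : Group.IsSolvable (Subgroup.zpowers α) := Group.isSolvable_of_comm mul_comm'
  ext g
  have := Loc.GA.commutator_mem_oddCore_of_coprime (φ := (Subgroup.zpowers α).subtype)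
    (by rwa [Nat.card_zpowers]) hτ (fun c hc => GT.CopAct.mem_actFixed_zpowers.2 (h c hc))
    ⟨α, Subgroup.mem_zpowers α⟩ g
  rw [hO, Subgroup.mem_bot, inv_mul_eq_one] at this
  exact this.symm

end Cfsg.Agent.S3067
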