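import Mathlib
import Cfsg.Statements.S3068
import Cfsg.Agent.GT.ThompsonDegree
import Cfsg.Agent.Loc.CFTrApp
import Cfsg.Agent.Fus.Control
import Cfsg.Agent.GT.TransferTate

set_option autoImplicit false
open Cfsg

namespace Cfsg.Agent.S3068

open Subgroup Cfsg.Agent.GT
open scoped commutatorElement Pointwise

/-- Let p ≥ 7 be a prime, S a Sylow p-subgroup of the finite group G, J(S) the subgroup generated by the abelian subgroups of S of largest order and M = N_G(J(S)). Then G/O^p(G) ≅ M/O^p(M): the largest p-factor group of G is that of M (here O^p(X) is the subgroup generated by the elements of X of order prime to p). -/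
theorem result {G : Type*} [Group G] [Finite G] {p : ℕ} [Fact p.Prime]
    (hp : 7 ≤ p) (S : Sylow p G)
    [hn : (Cfsg.pResidual p G).Normal]
    [hm : (Cfsg.pResidual p ↥(Subgroup.normalizer (Cfsg.thompsonSubgroupAOf (S : Subgroup G) : Set G))).Normal] :
    Nonempty (G ⧸ Cfsg.pResidual p G ≃*
      ↥(Subgroup.normalizer (Cfsg.thompsonSubgroupAOf (S : Subgroup G) : Set G)) ⧸
        Cfsg.pResidual p ↥(Subgroup.normalizer (Cfsg.thompsonSubgroupAOf (S : Subgroup G) : Set G))) := by
  have hW := Fus.isCharPFunctor_thJ (p := p)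
  have h1 := (Loc.CF.transfer_of_criterion (G := G) hW (fun H _ _ _ _ => ⟨default, fun h => Or.inr (by
    have h2 : ¬ (thJ 0 ((default : Sylow p H) : Subgroup H)).Normal := by rwa [← thJ_top_map]
    obtain ⟨g, h3, h4, h5, -⟩ := exists_degree_of_not_normal (by omega) _ h2
    refine ⟨g, h3, h4, fun U V h6 h7 => ?_⟩
    have := h6.2.2.1
    exact Loc.CF.iterCommutator_le_of_le (by omega) (h5 U V h6 h7))⟩) G
    (Loc.CF.involves_refl G)).eq_top (Loc.CF.isConjugacyFunctor_induced hW) S
  set M := normalizer (thompsonSubgroupAOf (S : Subgroup G) : Set G) with hM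
  have hS : (S : Subgroup G) ≤ M := by
    rw [hM, thompsonSubgroupAOf_eq]
    exact le_normalizer_thJ 0 _
  have h2 := Tr.tate_of_sylow_inf_commutator S hS (h1.le.trans (by
    rw [hM, thompsonSubgroupAOf_eq, ← thJ_top_map]
    exact inf_le_right))
  let f : M →* G ⧸ pResidual p G := (QuotientGroup.mk' _).comp M.subtype
  have hf : Function.Surjective f := fun y => by
    obtain ⟨g, rfl⟩ := QuotientGroup.mk_surjective y
    obtain ⟨a, ha, s, hs, rfl⟩ := mem_sup_of_normal_left.1
      ((Tr.pResidual_sup_sylow S).ge (mem_top g))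
    exact ⟨⟨s, hS hs⟩, by
      rw [QuotientGroup.mk_mul, (QuotientGroup.eq_one_iff a).2 ha, one_mul]; rfl⟩
  have hk : f.ker = pResidual p M := by
    refine map_injective M.subtype_injective ?_
    rw [h2, ← MonoidHom.comap_ker, QuotientGroup.ker_mk', map_comap_eq, range_subtype, inf_comm]
  exact ⟨(QuotientGroup.quotientKerEquivOfSurjective f hf).symm.trans
    (QuotientGroup.quotientMulEquivOfEq hk)⟩

end Cfsg.Agent.S3068
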