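import Mathlib
import Cfsg.Statements.S3070
import Cfsg.Agent.GT.ThompsonDegree
import Cfsg.Agent.Loc.CFNilp
import Cfsg.Agent.Fus.Control
import Cfsg.Agent.GT.TransferPNilp

set_option autoImplicit false
open Cfsg

namespace Cfsg.Agent.S3070

open Subgroup Cfsg.Agent.GT
open scoped commutatorElement Pointwise

/-- Let p ≥ 5 be a prime, S a Sylow p-subgroup of the finite group G and J(S) the subgroup generated by the abelian subgroups of S of largest order. Then G has a normal p-complement if and only if N_G(J(S))/C_G(J(S)) is a p-group (every element of N_G(J(S)) of order prime to p centralizes J(S)). -/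
theorem result {G : Type*} [Group G] [Finite G] {p : ℕ} [Fact p.Prime]
    (hp : 5 ≤ p) (S : Sylow p G) :
    Cfsg.HasNormalPComplement p G ↔
      ∀ g ∈ Subgroup.normalizer (Cfsg.thompsonSubgroupAOf (S : Subgroup G) : Set G), (orderOf g).Coprime p →
        g ∈ Subgroup.centralizer (Cfsg.thompsonSubgroupAOf (S : Subgroup G) : Set G) := by
  rw [thompsonSubgroupAOf_eq]
  refine ⟨fun h g hg hc => h.mem_centralizer (S.isPGroup'.to_le (thJ_le 0 _)) hg hc, fun h => ?_⟩
  refine Loc.CF.npc_of_normal (Fus.isCharPFunctor_thJ (p := p)) (fun H _ _ _ ⟨T, hT⟩ => ⟨T, ?_⟩) S ?_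
  · change ((thJ 0 (⊤ : Subgroup (T : Subgroup H))).map (T : Subgroup H).subtype).Normal
    rw [thJ_top_map]
    by_contra h1
    obtain ⟨g, -, -, -, h2⟩ := exists_degree_of_not_normal (by omega) T h1
    obtain ⟨U, V, h3, h4, h5, h6⟩ := h2 hT.charP
    have := h3.2.2.1
    exact h6 (hT.pap.commutator_le h3 ((isPGroup_pCore p).to_le h4)
      (Loc.CF.iterCommutator_le_of_le (by omega) h5))
  · change HasNormalPComplement p (normalizer
      (((thJ 0 (⊤ : Subgroup (S : Subgroup G))).map (S : Subgroup G).subtype : Subgroup G) : Set G))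
    rw [thJ_top_map]
    exact Loc.CF.npc_normalizer_of_coprime S (le_normalizer_thJ 0 _)
      ((thZ_zero_eq _).ge.trans (thZ_le_thJ 0 _)) h

end Cfsg.Agent.S3070
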