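import Mathlib
import Cfsg.Statements.S3072
import Cfsg.Agent.GT.TransferChains
import Cfsg.Agent.GT.TransferAlperin
import Cfsg.Agent.GT.Conj
import Cfsg.Agent.Inv.SPEGraph
import Cfsg.Agent.Inv.SPECore
-- import your own Cfsg.Agent.* helpers here

set_option autoImplicit false
open Cfsg

namespace Cfsg.Agent.S3072

open Subgroup Cfsg.Agent.GT.Tr

section
variable {G : Type*} [Group G]

/-- normal subgroups of `N(H)/H` of order divisible by `p` -/
def Fam (p : ℕ) (H Y : Subgroup G) : Prop :=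
  H ≤ Y ∧ Y ≤ normalizer (H : Set G) ∧ (Y.subgroupOf (normalizer (H : Set G))).Normal ∧
    p ∣ H.relIndex Y

/-- essential subgroups -/
def Ess (p : ℕ) (P H : Subgroup G) : Prop :=
  H ≤ P ∧ ¬ p ∣ (P ⊓ normalizer (H : Set G)).relIndex (normalizer (H : Set G)) ∧
    P ⊓ centralizer (H : Set G) ≤ H ∧
    (pPrimePCore p (normalizer (H : Set G))).map (normalizer (H : Set G)).subtype =
      H ⊔ centralizer (H : Set G) ∧
    ¬ IsSylowChainConnected p
      (normalizer (H : Set G) ⧸ H.subgroupOf (normalizer (H : Set G)))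

/-- admissible steps -/
def Good (p : ℕ) (P H : Subgroup G) (x : G) : Prop :=
  Ess p P H ∧ ∃ X : Subgroup G, Fam p H X ∧ (∀ Y, Fam p H Y → X ≤ Y) ∧ x ∈ pResidualOf p X

/-- admissible steps, made invariant under `N(P)` -/
def Good' (p : ℕ) (P H : Subgroup G) (x : G) : Prop :=
  ∀ y ∈ normalizer (P : Set G), Good p P (H.map (MulAut.conj y).toMonoidHom) (y * x * y⁻¹)

theorem Good'.good {p : ℕ} {P H : Subgroup G} {x : G} (h : Good' p P H x) : Good p P H x := by
  have := h 1 (one_mem _)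
  rwa [map_conj_one, one_mul, inv_one, mul_one] at this

theorem Good'.conj {p : ℕ} {P H : Subgroup G} {x y : G} (h : Good' p P H x)
    (hy : y ∈ normalizer (P : Set G)) :
    Good' p P (H.map (MulAut.conj y).toMonoidHom) (y * x * y⁻¹) := by
  intro z hz
  have := h (z * y) (mul_mem hz hy)
  rw [map_conj_map_conj]
  convert this using 1
  group

theorem Good'.inv {p : ℕ} {P : Subgroup G} (H : Subgroup G) (x : G) (h : Good' p P H x) :
    Good' p P H x⁻¹ ∧ x ∈ normalizer (H : Set G) := by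
  refine ⟨fun y hy => ?_, ?_⟩
  · obtain ⟨h1, X, h2, h3, h4⟩ := h y hy
    refine ⟨h1, X, h2, h3, ?_⟩
    convert inv_mem h4 using 1
    group
  · obtain ⟨-, X, h2, -, h4⟩ := h.good
    exact h2.2.1 (GT.pResidualOf_le X h4)

theorem chain_conj {p : ℕ} {P : Subgroup G} {y : G} (hy : y ∈ normalizer (P : Set G))
    {A : Set G} {g : G} (h : ConjChain (Good' p P) A g) :
    ConjChain (Good' p P) ((fun a => y * a * y⁻¹) '' A) (y * g * y⁻¹) := by
  induction h with
  | nil => simpa using ConjChain.nil _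
  | @cons A D x g h1 h2 _ ih =>
    have e : y * (x * g) * y⁻¹ = (y * x * y⁻¹) * (y * g * y⁻¹) := by group
    rw [e]
    refine .cons (h1.conj hy) ?_ ?_
    · rintro _ ⟨a, ha, rfl⟩
      exact conj_mem_map_conj.2 (h2 ha)
    · refine ih.mono ?_
      rintro _ ⟨_, ⟨a, ha, rfl⟩, rfl⟩
      exact ⟨_, ⟨a, ha, rfl⟩, by group⟩

theorem Fam.conj {p : ℕ} {H Y : Subgroup G} (h : Fam p H Y) (y : G) :
    Fam p (H.map (MulAut.conj y).toMonoidHom) (Y.map (MulAut.conj y).toMonoidHom) := by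
  obtain ⟨h1, h2, h3, h4⟩ := h
  have h2' : Y.map (MulAut.conj y).toMonoidHom ≤
      normalizer ((H.map (MulAut.conj y).toMonoidHom : Subgroup G) : Set G) := by
    rw [normalizer_map_conj]
    exact map_mono h2
  refine ⟨map_mono h1, h2', ?_, by rwa [relIndex_map_conj]⟩
  rw [normal_subgroupOf_iff_le_normalizer h2] at h3
  rw [normal_subgroupOf_iff_le_normalizer h2', normalizer_map_conj, normalizer_map_conj]
  exact map_mono h3

/-- the fusion relation -/
def Rel (p : ℕ) (P A : Subgroup G) (g : G) : Prop :=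
  ∃ c ∈ centralizer (A : Set G), ∃ y ∈ normalizer (P : Set G), ∃ X : G,
    ConjChain (Good' p P) A X ∧ g⁻¹ = c * X * y

variable {p : ℕ} {P : Subgroup G}

theorem Rel.mono (A D : Subgroup G) (g : G) (hAD : A ≤ D) (h : Rel p P D g) : Rel p P A g := by
  obtain ⟨c, hc, y, hy, X, hX, e⟩ := h
  exact ⟨c, centralizer_le (show (A : Set G) ⊆ D from hAD) hc, y, hy, X, hX.mono hAD, e⟩

theorem Rel.mul (A : Subgroup G) (g h : G) (h1 : Rel p P A g)
    (h2 : Rel p P (A.map (MulAut.conj g).toMonoidHom) h) : Rel p P A (h * g) := by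
  obtain ⟨c, hc, y, hy, X, hX, e⟩ := h1
  obtain ⟨d, hd, z, hz, W, hW, e'⟩ := h2
  rw [centralizer_map_conj, mem_map_conj] at hd
  refine ⟨g⁻¹ * d * g * c, mul_mem hd hc, y * z, mul_mem hy hz, X * (y * W * y⁻¹),
    hX.trans ((chain_conj hy hW).mono ?_), ?_⟩
  · rintro _ ⟨a, ha, rfl⟩
    refine ⟨g * a * g⁻¹, conj_mem_map_conj.2 ha, ?_⟩
    have hg : g = (c * X * y)⁻¹ := by rw [← e, inv_inv]
    calc y * (g * a * g⁻¹) * y⁻¹ = X⁻¹ * (c⁻¹ * (a * c)) * X := by rw [hg]; group
      _ = X⁻¹ * a * X := by rw [hc a ha]; group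
  · calc (h * g)⁻¹ = g⁻¹ * d * g * g⁻¹ * (d⁻¹ * h⁻¹) := by group
      _ = g⁻¹ * d * g * (c * X * y) * (d⁻¹ * (d * W * z)) := by rw [← e, ← e']
      _ = _ := by group

theorem Rel.inv (A : Subgroup G) (g : G) (h1 : Rel p P A g) :
    Rel p P (A.map (MulAut.conj g).toMonoidHom) g⁻¹ := by
  obtain ⟨c, hc, y, hy, X, hX, e⟩ := h1
  have hg : g = (c * X * y)⁻¹ := by rw [← e, inv_inv]
  refine ⟨g * c⁻¹ * g⁻¹, ?_, y⁻¹, inv_mem hy, y⁻¹ * X⁻¹ * y⁻¹⁻¹,
    (chain_conj (inv_mem hy) (hX.inv Good'.inv)).mono ?_, ?_⟩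
  · rw [centralizer_map_conj, conj_mem_map_conj]
    exact inv_mem hc
  · rintro _ ⟨a, ha, rfl⟩
    refine ⟨_, ⟨a, ha, rfl⟩, ?_⟩
    change _ = g * a * g⁻¹
    calc y⁻¹ * (X⁻¹ * a * X) * y⁻¹⁻¹ = y⁻¹ * X⁻¹ * (c⁻¹ * (c * a)) * X * y := by group
      _ = g * a * g⁻¹ := by rw [← hc a ha, hg]; group
  · rw [hg]
    group

theorem Rel.cent (A : Subgroup G) (c : G) (hc : c ∈ centralizer (A : Set G)) : Rel p P A c :=
  ⟨c⁻¹, inv_mem hc, 1, one_mem _, 1, .nil _, by simp⟩

theorem Rel.norm (A : Subgroup G) (y : G) (hy : y ∈ normalizer (P : Set G)) : Rel p P A y :=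
  ⟨1, one_mem _, y⁻¹, inv_mem hy, 1, .nil _, by simp⟩

theorem Rel.single (A : Subgroup G) (x : G) (hx : Good' p P A x) : Rel p P A x :=
  ⟨1, one_mem _, 1, one_mem _, x⁻¹, .single (hx.inv A x).1 subset_rfl, by simp⟩

/-- the elements of `N(B)` satisfying the relation -/
def relSub (p : ℕ) (P B : Subgroup G) : Subgroup G where
  carrier := {n | n ∈ normalizer (B : Set G) ∧ Rel p P B n}
  one_mem' := ⟨one_mem _, Rel.cent _ _ (one_mem _)⟩
  mul_mem' := fun {a b} ha hb => ⟨mul_mem ha.1 hb.1,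
    Rel.mul B b a hb.2 (by rw [map_conj_eq_of_mem hb.1]; exact ha.2)⟩
  inv_mem' := fun {a} ha => ⟨inv_mem ha.1, by
    have := Rel.inv B a ha.2
    rwa [map_conj_eq_of_mem ha.1] at this⟩

variable [Finite G] [Fact p.Prime]

theorem step1 (P : Sylow p G) (B : Subgroup G) (hB : B ≤ P)
    (hfn : ¬ p ∣ ((P : Subgroup G) ⊓ normalizer (B : Set G)).relIndex (normalizer (B : Set G)))
    (IH : ∀ D : Subgroup G, D ≤ P → Nat.card B < Nat.card D → ∀ g : G,
      (∀ d ∈ D, g * d * g⁻¹ ∈ (P : Subgroup G)) → Rel p P D g)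
    (hne : ¬ Ess p P B) : normalizer (B : Set G) ≤ relSub p P B := by
  rcases hB.eq_or_lt with rfl | hBP
  · exact fun n hn => ⟨hn, Rel.norm _ _ hn⟩
  set N := normalizer (B : Set G) with hN
  have hBN : B ≤ N := le_normalizer
  let B' : Subgroup N := B.subgroupOf N
  have hB' : IsPGroup p B' := (P.2.to_le hB).comap_subtype
  have hCC : ∀ x : N, x ∈ centralizer (B' : Set N) ↔ (x : G) ∈ centralizer (B : Set G) := fun x =>
    ⟨fun h b hb => congrArg Subtype.val (h ⟨b, hBN hb⟩ hb), fun h b hb => Subtype.ext (h b hb)⟩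
  let M' := (pCore p (N ⧸ centralizer (B' : Set N))).comap (QuotientGroup.mk' _)
  let M := M'.map N.subtype
  have hMN : M ≤ N := map_subtype_le _
  have hNM : N ≤ normalizer (M : Set G) := GT.le_normalizer_map_subtype N M'
  have hT : ¬ p ∣ ((P : Subgroup G) ⊓ N ⊓ M).relIndex M :=
    not_dvd_relIndex_inf_of_normal hfn P.2.to_inf_left hMN hNM
  have hBM : B ≤ M := fun b hb => by
    refine ⟨⟨b, hBN hb⟩, ?_, rfl⟩
    have : (B'.map (QuotientGroup.mk' (centralizer (B' : Set N)))).Normal :=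
      Normal.map inferInstance _ (QuotientGroup.mk'_surjective _)
    exact GT.le_pCore (hB'.map _) ⟨_, hb, rfl⟩
  have hBT : B ≤ (P : Subgroup G) ⊓ N ⊓ M := le_inf (le_inf hB hBN) hBM
  have hIH : ∀ D : Subgroup G, B < D → D ≤ P → ∀ n ∈ N, n ∈ normalizer (D : Set G) →
      n ∈ relSub p P B := fun D h1 h2 n hn hnD =>
    ⟨hn, Rel.mono _ _ _ h1.le (IH D h2 (card_lt_of_lt h1) n
      fun d hd => h2 (conj_mem_of_mem_normalizer hnD hd))⟩
  rcases hBT.eq_or_lt with heq | hlt
  · rw [← heq] at hT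
    obtain ⟨h1, h2, h3, h4, h5, h6⟩ := goldschmidt_conditions_of_sylowIn (P.2.to_le hB) (by
      rwa [← relIndex_map_map_of_injective _ _ N.subtype_injective, map_subgroupOf_eq_of_le hBN])
    have hOC : (pPrimeCore p N).map N.subtype ≤ centralizer (B : Set G) :=
      fun a ha b hb => (h4 a ha b hb).symm
    have c3 : (P : Subgroup G) ⊓ centralizer (B : Set G) ≤ B := by
      have h7 : (P : Subgroup G) ⊓ centralizer (B : Set G) ≤
          (P : Subgroup G) ⊓ (B ⊔ (pPrimeCore p N).map N.subtype) :=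
        inf_le_inf le_rfl (h1.trans (by rw [sup_comm]; exact h6.ge))
      rw [GT.inf_sup_eq_of_le_normalizer hB (hOC.trans (centralizer_le_normalizer _))] at h7
      refine h7.trans (sup_le le_rfl ?_)
      rw [(disjoint_of_coprime_natCard (GT.coprime_card_of_isPGroup Fact.out P.2
        (by rw [GT.card_map_subtype]; exact GT.coprime_card_pPrimeCore p))).eq_bot]
      exact bot_le
    have c4 : (pPrimePCore p N).map N.subtype = B ⊔ centralizer (B : Set G) :=
      le_antisymm (h6.ge.trans (sup_le (hOC.trans le_sup_right) le_sup_left)) (sup_le h3 h1)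
    have c5 : IsSylowChainConnected p (N ⧸ B') := by
      by_contra h
      exact hne ⟨hB, hfn, c3, c4, h⟩
    by_contra hcon
    let π := QuotientGroup.mk' B'
    have hπ : Function.Surjective π := QuotientGroup.mk'_surjective B'
    let K := (relSub p P B).subgroupOf N
    have hlt := lt_inf_normalizer P.2 hBP
    have hSK : ∀ s ∈ (P : Subgroup G) ⊓ N, s ∈ relSub p P B := fun s hs =>
      hIH _ hlt inf_le_left s hs.2 (le_normalizer hs)
    have hBK : B' ≤ K := fun b hb => hSK b (hlt.le hb)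
    have hK : (K.map π).comap π = K := by
      rw [comap_map_eq, QuotientGroup.ker_mk', sup_eq_left.2 hBK]
    let S := sylowOfRel (P.2.to_inf_left : IsPGroup p ((P : Subgroup G) ⊓ N : Subgroup G)) hfn
    have hBS : B' ≤ S := fun b hb => hlt.le hb
    refine Inv.SE.not_isSylowChainConnected_iff.2 ⟨K.map π, Inv.SE.StrEmb.of_normalizer_sylow ?_ ?_
      (S.mapSurjective hπ) ?_⟩ c5
    · intro h
      rw [h, comap_top] at hK
      exact hcon fun n hn => (hK ▸ mem_top (⟨n, hn⟩ : N) : (⟨n, hn⟩ : N) ∈ K)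
    · obtain ⟨s, hs, hsB⟩ := SetLike.exists_of_lt hlt
      refine (Inv.SE.dvd_card_of_pgroup (S.mapSurjective hπ).2 ?_).trans (card_subgroup_dvd_card _)
      intro h
      have : π ⟨s, hs.2⟩ ∈ (S.mapSurjective hπ : Subgroup (N ⧸ B')) := ⟨_, hs, rfl⟩
      rw [h] at this
      exact hsB ((QuotientGroup.eq_one_iff (N := B') (⟨s, hs.2⟩ : N)).1 this)
    · intro A hA hA1 n hn
      obtain ⟨n, rfl⟩ := hπ n
      refine mem_map_of_mem π (hIH ((A.comap π).map N.subtype) ?_ ?_ n n.2 ?_)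
      · refine lt_of_le_of_ne (fun b hb => ⟨⟨b, hBN hb⟩, ?_, rfl⟩) fun h => hA1 ?_
        · exact GT.le_comap_mk' A (show (⟨b, hBN hb⟩ : N) ∈ B' from hb)
        · rw [eq_bot_iff]
          intro a ha
          obtain ⟨a, rfl⟩ := hπ a
          have : (a : G) ∈ B := h ▸ ⟨a, ha, rfl⟩
          exact (QuotientGroup.eq_one_iff _).2 this
      · rintro _ ⟨a, ha, rfl⟩
        have : a ∈ ((S : Subgroup N).map π).comap π := hA ha
        rw [comap_map_eq, QuotientGroup.ker_mk', sup_eq_left.2 hBS] at this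
        exact this.1
      · refine mem_normalizer_of_conj_mem ?_
        rintro _ ⟨a, ha, rfl⟩
        refine ⟨n * a * n⁻¹, ?_, rfl⟩
        change π (n * a * n⁻¹) ∈ A
        rw [map_mul, map_mul, map_inv]
        exact conj_mem_of_mem_normalizer hn ha
  · intro n hn
    set T := (P : Subgroup G) ⊓ N ⊓ M with hTdef
    have hTp : IsPGroup p T := P.2.to_inf_left.to_inf_left
    obtain ⟨m, hm, k, hk, rfl⟩ := frattini_sylowIn hTp inf_le_right hT (hNM hn)
    obtain ⟨j, hj⟩ : ∃ j, (centralizer (B : Set G)).relIndex M = p ^ j := by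
      have h4 : (centralizer (B' : Set N)) = (centralizer (B : Set G)).comap N.subtype :=
        Subgroup.ext hCC
      rw [← relIndex_comap, ← h4, ← QuotientGroup.ker_mk' (centralizer (B' : Set N)), relIndex_ker,
        map_comap_eq_self_of_surjective (QuotientGroup.mk'_surjective _)]
      exact (GT.isPGroup_pCore p).exists_card_eq
    obtain ⟨c, hc, t, ht, rfl⟩ := exists_mul_of_sylowIn inf_le_right hT
      (hMN.trans (normalizer_le_normalizer_centralizer B)) hj hm
    have htk : t * k ∈ normalizer (T : Set G) := mul_mem (le_normalizer ht) hk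
    have htkB : t * k ∈ N := by
      rw [mul_assoc] at hn
      exact (mul_mem_cancel_left (centralizer_le_normalizer _ hc)).1 hn
    rw [mul_assoc]
    exact mul_mem ⟨centralizer_le_normalizer _ hc, Rel.cent _ _ hc⟩
      (hIH T hlt (inf_le_left.trans inf_le_left) _ htkB htk)

theorem exists_min (P : Subgroup G) (B : Subgroup G) (h : Ess p P B) :
    ∃ X, Fam p B X ∧ ∀ Y, Fam p B Y → X ≤ Y := by
  set N := normalizer (B : Set G) with hN
  have hBN : B ≤ N := le_normalizer
  let B' : Subgroup N := B.subgroupOf N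
  let π := QuotientGroup.mk' B'
  obtain ⟨H, hH⟩ := Inv.SE.not_isSylowChainConnected_iff.1 h.2.2.2.2
  have hcard : ∀ Y : Subgroup G, Y ≤ N →
      Nat.card ((Y.subgroupOf N).map π) = B.relIndex Y := by
    intro Y hY
    rw [GT.card_map_mk'_eq_relIndex, relIndex_subgroupOf hY]
  have hNf : Fam p B N := ⟨hBN, le_rfl, by rw [subgroupOf_self]; infer_instance, hH.dvd_card⟩
  obtain ⟨X, hX, hmin⟩ := WellFounded.has_min (wellFounded_lt (α := Subgroup G))
    {Y | Fam p B Y} ⟨N, hNf⟩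
  refine ⟨X, hX, fun Y hY => ?_⟩
  have hXY : Fam p B (X ⊓ Y) := by
    have n1 := hX.2.2.1
    have n2 := hY.2.2.1
    refine ⟨le_inf hX.1 hY.1, inf_le_left.trans hX.2.1, ?_, ?_⟩
    · have : (X ⊓ Y).subgroupOf N = X.subgroupOf N ⊓ Y.subgroupOf N := comap_inf _ _ _
      rw [this]
      infer_instance
    · have m1 := GT.normal_map_mk' (N := B') (X.subgroupOf N)
      have m2 := GT.normal_map_mk' (N := B') (Y.subgroupOf N)
      have := hH.dvd_card_inf_normal ((X.subgroupOf N).map π) ((Y.subgroupOf N).map π)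
        (by rw [hcard X hX.2.1]; exact hX.2.2.2) (by rw [hcard Y hY.2.1]; exact hY.2.2.2)
      rw [← hcard _ (inf_le_left.trans hX.2.1)]
      refine this.trans (card_dvd_of_le ?_)
      rintro _ ⟨⟨x, hx, rfl⟩, hy⟩
      have : x ∈ ((Y.subgroupOf N).map π).comap π := hy
      rw [comap_map_eq, QuotientGroup.ker_mk', sup_eq_left.2
        (show B' ≤ Y.subgroupOf N from comap_mono hY.1)] at this
      exact ⟨x, ⟨hx, this⟩, rfl⟩
  by_contra hn
  exact hmin _ hXY (lt_of_le_of_ne inf_le_left fun e => hn (inf_eq_left.1 e))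

theorem step2 (P : Sylow p G) (B : Subgroup G) (hB : B ≤ P)
    (hfn : ¬ p ∣ ((P : Subgroup G) ⊓ normalizer (B : Set G)).relIndex (normalizer (B : Set G)))
    (IH : ∀ D : Subgroup G, D ≤ P → Nat.card B < Nat.card D → ∀ g : G,
      (∀ d ∈ D, g * d * g⁻¹ ∈ (P : Subgroup G)) → Rel p P D g) :
    ∀ n ∈ normalizer (B : Set G), Rel p P B n := by
  by_cases hE : ∀ y ∈ normalizer ((P : Subgroup G) : Set G),
      Ess p P (B.map (MulAut.conj y).toMonoidHom)
  · have hE1 : Ess p P B := by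
      have := hE 1 (one_mem _)
      rwa [map_conj_one] at this
    obtain ⟨X, hX, hmin⟩ := exists_min _ B hE1
    have hgood : ∀ x ∈ pResidualOf p X, Good' p P B x := by
      intro x hx y hy
      refine ⟨hE y hy, _, hX.conj y, fun Y hY => ?_, ?_⟩
      · have := hY.conj y⁻¹
        rw [map_conj_inv_map_conj] at this
        rw [map_conj_le_iff]
        intro a ha
        have h2 := hmin _ this ha
        rw [mem_map_conj, inv_inv] at h2
        exact h2
      · obtain ⟨x, hx, rfl⟩ := hx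
        have : (pResidual p X).map ((MulAut.conj y).toMonoidHom.comp X.subtype) ≤
            pResidualOf p (X.map (MulAut.conj y).toMonoidHom) := by
          rw [map_le_iff_le_comap, GT.pResidual_le_iff]
          intro g hg
          refine ⟨⟨y * g * y⁻¹, conj_mem_map_conj.2 g.2⟩, GT.mem_pResidual ?_, rfl⟩
          rw [← orderOf_coe, GT.orderOf_conj, orderOf_coe]
          exact hg
        exact this ⟨x, hx, rfl⟩
    set N := normalizer (B : Set G) with hN
    have hNX : N ≤ normalizer (X : Set G) := (normal_subgroupOf_iff_le_normalizer hX.2.1).1 hX.2.2.1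
    have hT : ¬ p ∣ ((P : Subgroup G) ⊓ N ⊓ X).relIndex X :=
      not_dvd_relIndex_inf_of_normal hfn P.2.to_inf_left hX.2.1 hNX
    set T := (P : Subgroup G) ⊓ N ⊓ X with hTdef
    have hTp : IsPGroup p T := P.2.to_inf_left.to_inf_left
    have hBT : B < T := lt_of_le_of_ne (le_inf (le_inf hB le_normalizer) hX.1)
      fun h => hT (h ▸ hX.2.2.2)
    intro n hn
    obtain ⟨m, hm, k, hk, rfl⟩ := frattini_sylowIn hTp inf_le_right hT (hNX hn)
    obtain ⟨j, hj⟩ : ∃ j, (pResidualOf p X).relIndex X = p ^ j := by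
      obtain ⟨j, hj⟩ := GT.exists_index_pResidual (G := X) (p := p) Fact.out
      refine ⟨j, ?_⟩
      rw [← hj, relIndex, pResidualOf, GT.subgroupOf_map_subtype_self]
    obtain ⟨c, hc, t, ht, rfl⟩ := exists_mul_of_sylowIn inf_le_right hT
      (GT.le_normalizer_pResidualOf X) hj hm
    have htk : t * k ∈ normalizer (T : Set G) := mul_mem (le_normalizer ht) hk
    have hcN : c ∈ N := hX.2.1 (GT.pResidualOf_le X hc)
    have htkB : t * k ∈ N := by
      rw [mul_assoc] at hn
      exact (mul_mem_cancel_left hcN).1 hn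
    rw [mul_assoc]
    have h1 : c ∈ relSub p P B := ⟨hcN, Rel.single _ _ (hgood c hc)⟩
    have h2 : t * k ∈ relSub p P B := ⟨htkB, Rel.mono _ _ _ hBT.le
      (IH T (inf_le_left.trans inf_le_left) (card_lt_of_lt hBT) _
        fun d hd => (conj_mem_of_mem_normalizer htk hd).1.1)⟩
    exact (mul_mem h1 h2).2
  · push Not at hE
    obtain ⟨y, hy, hne⟩ := hE
    have h1 := step1 P (B.map (MulAut.conj y).toMonoidHom)
      (map_conj_le_iff.2 fun b hb => conj_mem_of_mem_normalizer hy (hB hb))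
      (by
        rw [normalizer_map_conj, ← map_conj_eq_of_mem hy, ← map_conj_inf, relIndex_map_conj]
        exact hfn)
      (by rw [card_map_conj]; exact IH) hne
    intro n hn
    have h2 := (h1 (show y * n * y⁻¹ ∈ _ by
      rw [normalizer_map_conj, conj_mem_map_conj]; exact hn)).2
    have h3 := Rel.mul B y _ (Rel.norm _ _ hy) h2
    have h4 := Rel.mul B _ y⁻¹ h3 (Rel.norm _ _ (inv_mem hy))
    convert h4 using 1
    group

end


/-- A strong form of the Alperin–Goldschmidt fusion Theorem. Let P be a Sylow p-subgroup of the finite group G, A a subset of P containing a nonidentity element, and g an element with g⁻¹Ag ⊆ P. Then g = c·x₁⋯xₙ·y with c ∈ C_G(A), y ∈ N_G(P) and, for each i, an element xᵢ and a subgroup Hᵢ ≤ P such that: N_P(Hᵢ) is a Sylow p-subgroup of N_G(Hᵢ); C_P(Hᵢ) ≤ Hᵢ; O_{p',p}(N_G(Hᵢ)) = Hᵢ·C_G(Hᵢ); the Sylow p-subgroups of N_G(Hᵢ)/Hᵢ are not chain-connected through nontrivial intersections (the quotient has a strongly p-embedded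 subgroup); xᵢ lies in O^p(Xᵢ), where Xᵢ/Hᵢ is the smallest normal subgroup of N_G(Hᵢ)/Hᵢ of order divisible by p; and (x₁⋯xᵢ₋₁)⁻¹A(x₁⋯xᵢ₋₁) ⊆ Hᵢ. -/
theorem result {G : Type*} [Group G] [Finite G] {p : ℕ} [Fact p.Prime]
    (P : Sylow p G) (A : Set G) (hA : A ⊆ (P : Set G)) (hA1 : ∃ a ∈ A, a ≠ 1)
    (g : G) (hAg : (fun a => g⁻¹ * a * g) '' A ⊆ (P : Set G)) :
    ∃ (n : ℕ) (H X : Fin n → Subgroup G) (x : Fin n → G) (c y : G),
      c ∈ Subgroup.centralizer A ∧ y ∈ Subgroup.normalizer ((P : Subgroup G) : Set G) ∧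
      g = c * (List.ofFn x).prod * y ∧
      ∀ i : Fin n,
        H i ≤ (P : Subgroup G) ∧
        ¬ p ∣ ((P : Subgroup G) ⊓ Subgroup.normalizer (H i : Set G)).relIndex (Subgroup.normalizer (H i : Set G)) ∧
        (P : Subgroup G) ⊓ Subgroup.centralizer (H i : Set G) ≤ H i ∧
        (Cfsg.pPrimePCore p ↥(Subgroup.normalizer (H i : Set G))).map (Subgroup.normalizer (H i : Set G)).subtype =
          H i ⊔ Subgroup.centralizer (H i : Set G) ∧
        ¬ Cfsg.IsSylowChainConnected p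
            (↥(Subgroup.normalizer (H i : Set G)) ⧸ (H i).subgroupOf (Subgroup.normalizer (H i : Set G))) ∧
        (H i ≤ X i ∧ X i ≤ Subgroup.normalizer (H i : Set G) ∧
          ((X i).subgroupOf (Subgroup.normalizer (H i : Set G))).Normal ∧ p ∣ (H i).relIndex (X i) ∧
          ∀ Y : Subgroup G, H i ≤ Y → Y ≤ Subgroup.normalizer (H i : Set G) →
            (Y.subgroupOf (Subgroup.normalizer (H i : Set G))).Normal → p ∣ (H i).relIndex Y → X i ≤ Y) ∧
        x i ∈ (Cfsg.pResidual p ↥(X i)).map (X i).subtype ∧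
        (fun a => (((List.ofFn x).take i.val).prod)⁻¹ * a * ((List.ofFn x).take i.val).prod) '' A ⊆ (H i : Set G) := by
  obtain ⟨c, hc, y, hy, X, hX, e⟩ := alperin_induction P (Rel p P) Rel.mono Rel.mul Rel.inv
    (step2 P) (closure A) ((closure_le _).2 hA) g⁻¹ (closure_conj_le hAg)
  obtain ⟨n, H, x, h1, h2, h3⟩ := (hX.mono Subgroup.subset_closure).exists_fin
  choose h4 Y h5 h6 h7 using fun i => (h2 i).good
  refine ⟨n, H, Y, x, c, y, centralizer_le Subgroup.subset_closure hc, hy, by rw [h1, ← e, inv_inv],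
    fun i => ⟨(h4 i).1, (h4 i).2.1, (h4 i).2.2.1, (h4 i).2.2.2.1, (h4 i).2.2.2.2,
      ⟨(h5 i).1, (h5 i).2.1, (h5 i).2.2.1, (h5 i).2.2.2,
        fun Z a b c d => h6 i Z ⟨a, b, c, d⟩⟩, h7 i, h3 i⟩⟩

end Cfsg.Agent.S3072
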