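import Mathlib
import Cfsg.Statements.S3073
import Cfsg.Agent.S1988
import Cfsg.Agent.Loc.CFKseq
import Cfsg.Agent.GT.TransferPNilp

set_option autoImplicit false
universe u
open Cfsg

namespace Cfsg.Agent.S3073

open Subgroup Cfsg.Agent.GT
open scoped commutatorElement Pointwise

/-- For an odd prime p, every finite p-group S has a characteristic subgroup K with C_S(K) ≤ K such that, whenever S is (isomorphic to) a Sylow p-subgroup of a finite group G, G has a normal p-complement if and only if N_G(K)/C_G(K) is a p-group, i.e. every element of N_G(K) of order prime to p centralizes K (K transported into G along the isomorphism). -/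
theorem result (p : ℕ) [Fact p.Prime] (hp : p ≠ 2)
    (S : Type u) [Group S] [Finite S] (hS : IsPGroup p S) :
    ∃ K : Subgroup S, K.Characteristic ∧ Subgroup.centralizer (K : Set S) ≤ K ∧
      ∀ (G : Type u) [Group G] [Finite G] (P : Sylow p G) (e : ↥(P : Subgroup G) ≃* S),
        Cfsg.HasNormalPComplement p G ↔
          ∀ g ∈ Subgroup.normalizer (((K.comap (e : ↥(P : Subgroup G) →* S)).map (P : Subgroup G).subtype : Subgroup G) : Set G),
            (orderOf g).Coprime p →
              g ∈ Subgroup.centralizer (((K.comap (e : ↥(P : Subgroup G) →* S)).map (P : Subgroup G).subtype : Subgroup G) : Set G) := by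
  have := hS.isNilpotent
  refine ⟨kInfLower S, Subgroup.characteristic_iff_map_eq.2 fun e => (Loc.CF.map_kInf_equiv e).1,
    Loc.CF.centralizer_kInfLower_le, fun G _ _ P e => ?_⟩
  have h1 : ((kInfLower S).comap (e : (P : Subgroup G) →* S)).map (P : Subgroup G).subtype =
      inducedFunctor kInfLower (P : Subgroup G) := by
    rw [← (Loc.CF.map_kInf_equiv e).1]
    exact congrArg _ (comap_map_eq_self_of_injective (f := e.toMonoidHom) e.injective _)
  rw [h1]
  exact ⟨fun h g hg hc => h.mem_centralizer (P.isPGroup'.to_le (map_subtype_le _)) hg hc,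
    fun h => S1988.result hp P (Or.inr h)⟩

end Cfsg.Agent.S3073
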