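import Mathlib
import Cfsg.Statements.S3075
import Cfsg.Agent.GT.Supersolvable2
import Cfsg.Agent.GT.CoprimeAbelian

set_option autoImplicit false
open Cfsg

namespace Cfsg.Agent.S3075

open Cfsg.Agent.GT
open scoped commutatorElement

theorem isCyclic_of_lt {N : Type*} [Group N] [Finite N] {p : ℕ} [hp : Fact p.Prime]
    {A C : Subgroup N} (hA : Nat.card A = p ^ 2) (h : C ≤ A) (hne : C ≠ A) : IsCyclic C := by
  obtain ⟨i, hi, e⟩ := (Nat.dvd_prime_pow hp.out).1 (hA ▸ Subgroup.card_dvd_of_le h)
  have : i ≤ 1 := by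
    by_contra h2
    exact hne (Subgroup.eq_of_le_of_card_ge h (by rw [hA, e, show i = 2 by omega]))
  exact isCyclic_of_card_dvd_prime (p := p) (e ▸ (pow_dvd_pow p this).trans (pow_one p).dvd)


/-- Let p be an odd prime and N a finite group with a normal elementary abelian subgroup A of order p² that is its own centralizer in N, such that N/A is isomorphic to SL₂(p) (over any field F with p elements). Then N splits over A: some subgroup U of N satisfies A ∩ U = 1 and AU = N. -/
theorem result {N : Type*} [Group N] [Finite N] {p : ℕ} [Fact p.Prime] (hp : p ≠ 2)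
    (A : Subgroup N) [A.Normal] (hAcomm : IsMulCommutative A) (hAcard : Nat.card A = p ^ 2) (hAexp : Monoid.exponent ↥A = p)
    (hAself : Subgroup.centralizer (A : Set N) = A)
    {F : Type*} [Field F] [Fintype F] (hF : Fintype.card F = p) (e : N ⧸ A ≃* Matrix.SpecialLinearGroup (Fin 2) F) :
    ∃ U : Subgroup N, A ⊓ U = ⊥ ∧ A ⊔ U = ⊤ := by
  have hp' : p.Prime := Fact.out
  have hodd : Odd p := hp'.odd_of_ne_two hp
  let f := e.toMonoidHom.comp (QuotientGroup.mk' A)
  have hf : Function.Surjective f := e.surjective.comp (QuotientGroup.mk'_surjective A)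
  have hker : ∀ x, f x = 1 ↔ x ∈ A := fun x => by
    simp [f]
  have hpow : ∀ a ∈ A, a ^ p = 1 := fun a ha =>
    congrArg Subtype.val (hAexp ▸ Monoid.pow_exponent_eq_one (⟨a, ha⟩ : A))
  have h2 : (2 : F) ≠ 0 := by
    intro h
    have h1 : ((Fintype.card F : ℕ) : F) = 0 := FiniteField.cast_card_eq_zero F
    obtain ⟨k, hk⟩ := hodd
    rw [hF, hk] at h1
    simp [h] at h1
  obtain ⟨t₀, ht₀⟩ := hf (-1)
  have ht : f (t₀ ^ p) = -1 := by rw [map_pow, ht₀, hodd.neg_one_pow]
  set t := t₀ ^ p with htdef
  have ht2 : t ^ 2 = 1 := by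
    rw [htdef, ← pow_mul, mul_comm, pow_mul]
    exact hpow _ ((hker _).1 (by rw [map_pow, ht₀]; simp))
  have htA : t ∉ A := by
    rw [← hker, ht]
    intro h
    have := congrArg (fun M : Matrix.SpecialLinearGroup (Fin 2) F => M 0 0) h
    simp only [Matrix.SpecialLinearGroup.coe_neg, Matrix.SpecialLinearGroup.coe_one,
      Matrix.neg_apply, Matrix.one_apply_eq] at this
    exact h2 (by linear_combination -this)
  set R := Subgroup.zpowers t
  have hcomm : ∀ n : N, ∀ a ∈ R, ⁅n, a⁆ ∈ A := by
    rintro n _ ⟨k, rfl⟩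
    rw [← hker, map_commutatorElement, map_zpow, ht, commutatorElement_eq_one_iff_commute]
    exact ((Commute.one_right _).neg_right).zpow_right k
  have hcop : (Nat.card R).Coprime (Nat.card A) := by
    rw [Nat.card_zpowers, hAcard]
    exact Nat.Coprime.coprime_dvd_left (orderOf_dvd_of_pow_eq_one ht2)
      (Nat.Coprime.pow_right _ ((Nat.coprime_primes Nat.prime_two hp').2 hp.symm))
  have hsol : Group.IsSolvable A :=
    CopAct.isSolvable_of_isPGroup (p := p) (IsPGroup.of_card hAcard)
  have hsup : A ⊔ Subgroup.centralizer (R : Set N) = ⊤ := by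
    refine eq_top_iff.2 fun n _ => ?_
    obtain ⟨x, hx, c, hc, rfl⟩ := CopAct.exists_eq_mul_centralizer
      Subgroup.le_normalizer_of_normal hcop (Or.inr hsol) (hcomm n)
    exact Subgroup.mul_mem_sup hx hc
  refine ⟨Subgroup.centralizer (R : Set N), ?_, hsup⟩
  by_contra hne
  have hn : ∀ C ≤ A, Subgroup.centralizer (R : Set N) ≤ Subgroup.normalizer (C : Set N) →
      C.Normal := fun C h1 h3 => Subgroup.normalizer_eq_top_iff.1 (eq_top_iff.2 (hsup ▸
    sup_le (CopAct.le_normalizer_of_isMulCommutative hAcomm le_rfl h1) h3))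
  have hRn := CopAct.le_normalizer_of_le_centralizer (le_refl (Subgroup.centralizer (R : Set N)))
  have n1 := hn (A ⊓ Subgroup.centralizer (R : Set N)) inf_le_left
    (CopAct.le_normalizer_inf Subgroup.le_normalizer_of_normal Subgroup.le_normalizer)
  have n2 := hn ⁅A, R⁆ (Subgroup.commutator_le_left _ _)
    (CopAct.le_normalizer_commutator Subgroup.le_normalizer_of_normal hRn)
  have c1 := isCyclic_of_lt hAcard (inf_le_left : A ⊓ Subgroup.centralizer (R : Set N) ≤ A) fun h =>
    htA (hAself ▸ Subgroup.le_centralizer_iff.1 (h.ge.trans inf_le_right) (Subgroup.mem_zpowers t))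
  have c2 := isCyclic_of_lt hAcard (Subgroup.commutator_le_left A R) fun h => hne (by
    have := CopAct.commutator_inf_centralizer_eq_bot hAcomm Subgroup.le_normalizer_of_normal hcop
    rwa [h] at this)
  have h3 : commutator N ≤ A := by
    rw [← hAself, Subgroup.le_centralizer_iff]
    conv_lhs => rw [← CopAct.commutator_sup_centralizer Subgroup.le_normalizer_of_normal hcop
      (Or.inr hsol)]
    exact sup_le (Subgroup.le_centralizer_iff.1 (SS.commutator_le_centralizer_of_isCyclic _))
      (Subgroup.le_centralizer_iff.1 (SS.commutator_le_centralizer_of_isCyclic _))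
  obtain ⟨x, hx⟩ := hf ⟨!![1, 1; 0, 1], by simp [Matrix.det_fin_two]⟩
  obtain ⟨y, hy⟩ := hf ⟨!![1, 0; 1, 1], by simp [Matrix.det_fin_two]⟩
  have h4 := (hker _).2 (h3 (Subgroup.commutator_mem_commutator (Subgroup.mem_top x)
    (Subgroup.mem_top y)))
  rw [map_commutatorElement, commutatorElement_eq_one_iff_mul_comm] at h4
  have h5 := congrArg Subtype.val h4
  rw [Matrix.SpecialLinearGroup.coe_mul, Matrix.SpecialLinearGroup.coe_mul, hx, hy] at h5
  have := congrFun (congrFun h5 0) 0
  simp [Matrix.mul_apply, Fin.sum_univ_two] at this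

end Cfsg.Agent.S3075
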