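import Mathlib
import Cfsg.Statements.S3076
import Cfsg.Agent.GT.PPrimeCore
import Cfsg.Agent.GT.SchurZassenhaus
import Cfsg.Agent.GT.PGroupChain

set_option autoImplicit false
open Cfsg

namespace Cfsg.Agent.S3076

open Cfsg.Agent.GT

theorem isPGroup_map_mk'_iff {K : Type*} [Group K] {p : ℕ} (X M : Subgroup K) [M.Normal] :
    IsPGroup p (X.map (QuotientGroup.mk' M)) ↔ ∀ x ∈ X, ∃ k, x ^ p ^ k ∈ M := by
  constructor
  · intro h x hx
    obtain ⟨k, hk⟩ := h ⟨_, Subgroup.mem_map_of_mem _ hx⟩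
    refine ⟨k, ?_⟩
    have := congrArg Subtype.val hk
    simp only [SubmonoidClass.mk_pow, OneMemClass.coe_one] at this
    rwa [← map_pow, QuotientGroup.mk'_apply, QuotientGroup.eq_one_iff] at this
  · rintro h ⟨_, x, hx, rfl⟩
    obtain ⟨k, hk⟩ := h x hx
    refine ⟨k, Subtype.ext ?_⟩
    show (QuotientGroup.mk' M x) ^ p ^ k = 1
    rwa [← map_pow, QuotientGroup.mk'_apply, QuotientGroup.eq_one_iff]

theorem key {K : Type*} [Group K] [Finite K] {p : ℕ} [hp : Fact p.Prime] (H S C : Subgroup K)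
    [H.Normal] [C.Normal] (hH : IsPGroup p H) (hS : IsPGroup p S) (hSi : ¬ p ∣ S.index)
    (hC : C = Subgroup.centralizer (H : Set K)) :
    (H ≤ (pCore p (K ⧸ C)).comap (QuotientGroup.mk' C) ∧
      ¬ p ∣ H.relIndex ((pCore p (K ⧸ C)).comap (QuotientGroup.mk' C))) ↔
    (S ⊓ C ≤ H ∧ pPrimePCore p K = H ⊔ C) := by
  set N := (pCore p (K ⧸ C)).comap (QuotientGroup.mk' C) with hN
  have hNn : N.Normal := inferInstance
  have hCN : C ≤ N := by
    intro c hc
    have : QuotientGroup.mk' C c = 1 := (QuotientGroup.eq_one_iff c).mpr hc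
    rw [hN, Subgroup.mem_comap, this]; exact Subgroup.one_mem _
  have hNp : ∀ x ∈ N, ∃ k, x ^ p ^ k ∈ C := by
    rw [← isPGroup_map_mk'_iff]
    exact (isPGroup_pCore p).to_le (Subgroup.map_comap_le _ _)
  have hleN : ∀ X : Subgroup K, X.Normal → (∀ x ∈ X, ∃ k, x ^ p ^ k ∈ C) → X ≤ N := by
    intro X hX h
    rw [hN, ← Subgroup.map_le_iff_le_comap]
    have : (X.map (QuotientGroup.mk' C)).Normal := hX.map _ (QuotientGroup.mk'_surjective C)
    exact le_pCore ((isPGroup_map_mk'_iff X C).mpr h)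
  have hOp : ∀ x ∈ pPrimePCore p K, ∃ k, x ^ p ^ k ∈ pPrimeCore p K := by
    rw [← isPGroup_map_mk'_iff, map_pPrimePCore]
    exact isPGroup_pCore p
  have hOC : pPrimeCore p K ≤ C := hC ▸ pPrimeCore_le_centralizer hH
  have hHN : H ≤ N := hleN H inferInstance fun x hx => by
    obtain ⟨k, hk⟩ := PG.exists_pow_pow_eq_one_of_mem hH hx
    exact ⟨k, hk ▸ C.one_mem⟩
  have hrel : H.relIndex (C ⊔ H) = H.relIndex C :=
    relIndex_sup_of_le_normalizer Subgroup.le_normalizer_of_normal
  constructor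
  · rintro ⟨-, hi⟩
    have hHall : IsPiHallOf {p} H N := isPiHallOf_iff.mpr
      ⟨hHN, (isPGroup_iff_isPiNum hp.out).mp hH,
        (isPiNum_compl_singleton_iff_not_dvd hp.out).mpr hi⟩
    have hsub : ∀ Q : Subgroup K, Q ≤ N → IsPGroup p Q → Q ≤ H := fun Q hQ hQp =>
      hHall.le_of_normalizes ((isPGroup_iff_isPiNum hp.out).mp hQp) hQ
        Subgroup.le_normalizer_of_normal
    refine ⟨hsub _ (inf_le_right.trans hCN) (hS.to_le inf_le_left), le_antisymm ?_ ?_⟩
    · have h1 : pPrimePCore p K ≤ N := hleN _ inferInstance fun x hx => by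
        obtain ⟨k, hk⟩ := hOp x hx
        exact ⟨k, hOC hk⟩
      refine h1.trans ?_
      intro x hx
      obtain ⟨a, b, ha, hb, ha', hb', -, rfl⟩ := exists_piPart_elem {p} x
      have haN : a ∈ N := (Subgroup.zpowers_le.mpr hx) ha
      have hbN : b ∈ N := (Subgroup.zpowers_le.mpr hx) hb
      refine Subgroup.mul_mem _ (Subgroup.mem_sup_left ?_) (Subgroup.mem_sup_right ?_)
      · refine hsub (Subgroup.zpowers a) (Subgroup.zpowers_le.mpr haN) ?_ (Subgroup.mem_zpowers a)
        rw [isPGroup_iff_isPiNum hp.out, Nat.card_zpowers]; exact ha'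
      · obtain ⟨k, hk⟩ := hNp b hbN
        have hcop : (orderOf b).Coprime (p ^ k) :=
          ((isPiNum_compl_singleton_iff hp.out).mp hb').pow_right k
        obtain ⟨m, hm⟩ := exists_pow_eq_self_of_coprime hcop.symm
        rw [← hm]; exact C.pow_mem hk m
    · refine sup_le ((le_pCore hH).trans pCore_le_pPrimePCore) ?_
      have hiC : ¬ p ∣ (H ⊓ C).relIndex C := by
        rw [Subgroup.inf_relIndex_right, ← hrel]
        intro hd
        apply hi
        rw [← Subgroup.relIndex_mul_relIndex H (C ⊔ H) N le_sup_right (sup_le hCN hHN)]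
        exact hd.mul_right _
      have hcop : ((H ⊓ C).relIndex C).Coprime p :=
        ((Nat.Prime.coprime_iff_not_dvd hp.out).mpr hiC).symm
      obtain ⟨R, hRC, hsup, -, hRc⟩ := exists_complement_of_coprime_relIndex (N := H ⊓ C) (L := C)
        inf_le_right Subgroup.le_normalizer_of_normal
        (coprime_card_of_isPGroup hp.out (hH.to_le inf_le_left) hcop)
      have hRn : C ≤ Subgroup.normalizer (R : Set K) := by
        conv_lhs => rw [← hsup]
        refine sup_le ?_ Subgroup.le_normalizer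
        refine inf_le_left.trans (le_trans ?_ (PG.centralizer_le_normalizer' R))
        rw [Subgroup.le_centralizer_iff, ← hC]; exact hRC
      have hRO : R ≤ pPrimeCore p K :=
        (le_pPrimeCoreOf hRC hRn (hRc ▸ hcop)).trans (pPrimeCoreOf_le_pPrimeCore C)
      refine le_pPrimePCore ?_
      have : C.map (QuotientGroup.mk' (pPrimeCore p K)) ≤
          H.map (QuotientGroup.mk' (pPrimeCore p K)) := by
        conv_lhs => rw [← hsup]
        rw [Subgroup.map_sup]
        refine sup_le (Subgroup.map_mono inf_le_left) ?_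
        rw [(Subgroup.map_eq_bot_iff _).mpr (by rwa [QuotientGroup.ker_mk'])]
        exact bot_le
      exact (hH.map _).to_le this
  · rintro ⟨h1, h2⟩
    refine ⟨hHN, ?_⟩
    have hNle : N ≤ pPrimePCore p K := by
      refine le_pPrimePCore ((isPGroup_map_mk'_iff _ _).mpr fun x hx => ?_)
      obtain ⟨k, hk⟩ := hNp x hx
      obtain ⟨l, hl⟩ := hOp _ (h2 ▸ Subgroup.mem_sup_right hk)
      exact ⟨k + l, by rwa [pow_add, pow_mul]⟩
    have hNeq : N = C ⊔ H := le_antisymm (by rw [sup_comm, ← h2]; exact hNle) (sup_le hCN hHN)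
    rw [hNeq, hrel]
    have hSH : IsPiHall {p} S := isPiHall_iff.mpr ⟨(isPGroup_iff_isPiNum hp.out).mp hS,
        (isPiNum_compl_singleton_iff_not_dvd hp.out).mpr hSi⟩
    have h3 := (isPiNum_compl_singleton_iff_not_dvd hp.out).mp (hSH.inf_normal C).relIndex
    intro hd
    exact h3 (hd.trans (Subgroup.relIndex_dvd_of_le_left C h1))


/-- Let P be a Sylow p-subgroup of the finite group G and H ≤ P a subgroup with N_P(H) a Sylow p-subgroup of N_G(H). Let N be the preimage in N_G(H) of O_p(N_G(H)/C_G(H)). Then H is a Sylow p-subgroup of N if and only if C_P(H) ≤ H and O_{p',p}(N_G(H)) = H·C_G(H). -/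
theorem result {G : Type*} [Group G] [Finite G] {p : ℕ} [Fact p.Prime]
    (P : Sylow p G) (H : Subgroup G) (hHP : H ≤ (P : Subgroup G))
    (hSyl : ¬ p ∣ ((P : Subgroup G) ⊓ Subgroup.normalizer (H : Set G)).relIndex (Subgroup.normalizer (H : Set G)))
    [hC : ((Subgroup.centralizer (H : Set G)).subgroupOf (Subgroup.normalizer (H : Set G))).Normal] :
    (H ≤ ((Cfsg.pCore p (↥(Subgroup.normalizer (H : Set G)) ⧸
              (Subgroup.centralizer (H : Set G)).subgroupOf (Subgroup.normalizer (H : Set G)))).comap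
            (QuotientGroup.mk' _)).map (Subgroup.normalizer (H : Set G)).subtype ∧
      ¬ p ∣ H.relIndex (((Cfsg.pCore p (↥(Subgroup.normalizer (H : Set G)) ⧸
              (Subgroup.centralizer (H : Set G)).subgroupOf (Subgroup.normalizer (H : Set G)))).comap
            (QuotientGroup.mk' _)).map (Subgroup.normalizer (H : Set G)).subtype)) ↔
    ((P : Subgroup G) ⊓ Subgroup.centralizer (H : Set G) ≤ H ∧
      (Cfsg.pPrimePCore p ↥(Subgroup.normalizer (H : Set G))).map (Subgroup.normalizer (H : Set G)).subtype =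
        H ⊔ Subgroup.centralizer (H : Set G)) := by
  set N0 := Subgroup.normalizer (H : Set G) with hN0
  have hHN : H ≤ N0 := Subgroup.le_normalizer
  have hCN : Subgroup.centralizer (H : Set G) ≤ N0 := PG.centralizer_le_normalizer' H
  have hHn : (H.subgroupOf N0).Normal := Subgroup.normal_in_normalizer
  have hHp : IsPGroup p H := P.isPGroup'.to_le hHP
  have hC' : (Subgroup.centralizer (H : Set G)).subgroupOf N0 =
      Subgroup.centralizer ((H.subgroupOf N0 : Subgroup N0) : Set N0) := by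
    ext x
    rw [Subgroup.mem_subgroupOf, Subgroup.mem_centralizer_iff, Subgroup.mem_centralizer_iff]
    constructor
    · intro h y hy
      exact Subtype.ext (h y hy)
    · intro h y hy
      exact congrArg Subtype.val (h ⟨y, hHN hy⟩ hy)
  have hk := key (p := p) (H.subgroupOf N0) (((P : Subgroup G) ⊓ N0).subgroupOf N0)
    ((Subgroup.centralizer (H : Set G)).subgroupOf N0) (hHp.comap_subtype)
    ((P.isPGroup'.to_le inf_le_left).comap_subtype) hSyl hC'
  have e1 : ∀ X : Subgroup N0, H ≤ X.map N0.subtype ↔ H.subgroupOf N0 ≤ X := by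
    intro X
    constructor
    · intro h
      rw [← subgroupOf_map_subtype_self N0 X]
      exact Subgroup.subgroupOf_mono _ h
    · exact le_map_subtype_of_subgroupOf_le hHN
  have e2 : ∀ X : Subgroup N0, H.relIndex (X.map N0.subtype) = (H.subgroupOf N0).relIndex X := by
    intro X
    rw [Subgroup.subgroupOf, Subgroup.relIndex_comap]
  have e3 : (P : Subgroup G) ⊓ Subgroup.centralizer (H : Set G) ≤ H ↔
      ((P : Subgroup G) ⊓ N0).subgroupOf N0 ⊓ (Subgroup.centralizer (H : Set G)).subgroupOf N0 ≤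
        H.subgroupOf N0 := by
    constructor
    · rintro h x ⟨hx1, hx2⟩
      exact h ⟨hx1.1, hx2⟩
    · rintro h x ⟨hx1, hx2⟩
      exact h (show (⟨x, hCN hx2⟩ : N0) ∈ _ from ⟨⟨hx1, hCN hx2⟩, hx2⟩)
  have e4 : (Cfsg.pPrimePCore p N0).map N0.subtype = H ⊔ Subgroup.centralizer (H : Set G) ↔
      Cfsg.pPrimePCore p N0 =
        H.subgroupOf N0 ⊔ (Subgroup.centralizer (H : Set G)).subgroupOf N0 := by
    rw [← (Subgroup.map_injective N0.subtype_injective).eq_iff, Subgroup.map_sup,
      map_subtype_subgroupOf_of_le hHN, map_subtype_subgroupOf_of_le hCN]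
  rw [e1, e2, e3, e4]
  exact hk

end Cfsg.Agent.S3076
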