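import Mathlib
import Cfsg.Statements.S3078
import Cfsg.Agent.GT.ThompsonReplace

set_option autoImplicit false
open Cfsg

namespace Cfsg.Agent.S3078

open Subgroup Cfsg.Agent.GT
open scoped commutatorElement Pointwise

/-- A replacement Theorem for abelian subgroups of p-groups, p odd. Let G be a finite p-group with p odd, A an abelian subgroup of G, and B a subgroup of nilpotency class at most 2 with [B, B] ≤ A, such that A normalizes B but B does not normalize A. Then there is an abelian subgroup A* of G of the same order as A with A ∩ B strictly contained in A* ∩ B, A* contained in N_G(A) and in the normal closure of A, the exponent of A* dividing the exponent of A, and with the subgroup generated by the elements of order dividing p in A of order at most that of the corresponding subgroup of A* (the rank of A is at most the rank of A*). -/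
theorem result {G : Type*} [Group G] [Finite G] {p : ℕ} [Fact p.Prime] (hp : p ≠ 2) (hG : IsPGroup p G) (A B : Subgroup G) (hA : IsMulCommutative A) (hB2 : ⁅⁅B, B⁆, B⁆ = ⊥) (hBA : ⁅B, B⁆ ≤ A) (hAB : A ≤ Subgroup.normalizer (B : Set G)) (hBnA : ¬ B ≤ Subgroup.normalizer (A : Set G)) : ∃ Astar : Subgroup G, IsMulCommutative Astar ∧ Nat.card Astar = Nat.card A ∧ A ⊓ B < Astar ⊓ B ∧ Astar ≤ Subgroup.normalizer (A : Set G) ∧ Astar ≤ Subgroup.normalClosure (A : Set G) ∧ Monoid.exponent Astar ∣ Monoid.exponent A ∧ Nat.card (Cfsg.omegaOne p A) ≤ Nat.card (Cfsg.omegaOne p Astar) := by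
  have hSB : A ⊔ B ≤ normalizer (B : Set G) := sup_le hAB le_normalizer
  obtain ⟨b, hb, hbN, hbA⟩ := th_exists_repl_elt (S := A ⊔ B) (hG.to_subgroup _) le_sup_right
    hSB hBnA
  have h : ThReplData A B b := thReplData_of_normalizer hA le_sup_left hSB hBA hb hbN
    (Or.inr (th_sq_eq_one_imp hp (hG.to_subgroup B)))
  have hpo : Odd p := (Fact.out : p.Prime).odd_of_ne_two hp
  refine ⟨thRepl A b, h.repl_comm, h.card_repl, h.inf_lt hbA, h.repl_le_normalizer, ?_, ?_,
    h.card_omegaOne_le hpo⟩
  · refine ThReplData.le_sup_conj.trans (sup_le le_normalClosure ?_)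
    rintro _ ⟨a, ha, rfl⟩
    exact (normalClosure_normal (s := (A : Set G))).conj_mem _ (le_normalClosure ha) b⁻¹
  · obtain ⟨k, hk⟩ := isPGroup_iff_exponent_eq_pow.1 (hG.to_subgroup A)
    have hodd : Odd (Monoid.exponent A) := by rw [hk]; exact hpo.pow
    refine Monoid.exponent_dvd_of_forall_pow_eq_one fun x => Subtype.ext ?_
    refine h.repl_pow hodd (fun a ha => ?_) x x.2
    exact congrArg Subtype.val (Monoid.pow_exponent_eq_one (⟨a, ha⟩ : A))

end Cfsg.Agent.S3078
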