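import Mathlib
import Cfsg.Statements.S3079
import Cfsg.Agent.GT.ThompsonZJ

set_option autoImplicit false
open Cfsg

namespace Cfsg.Agent.S3079

open Subgroup Cfsg.Agent.GT
open scoped commutatorElement Pointwise

/-- Glauberman's ZJ-Theorem for strongly closed subgroups, p odd. Let G be a finite group that is p-stable in the normalizer form (for every p-subgroup U and g ∈ N_G(U) with [U, g, g] = 1, the image of g lies in O_p(N_G(U)/C_G(U))), with C_G(O_p(G)) ≤ O_p(G), let P be a Sylow p-subgroup and D a subgroup of P strongly closed in P with respect to G. Then Z(J(D)) is normal in G, where J(D) is generated by the abelian subgroups of D of largest order; and so is Ω₁(Z(J_e(D))), where J_e(D) is generated by the elementary abelian subgroups of D of largest order. -/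
theorem result {G : Type*} [Group G] [Finite G] {p : ℕ} [Fact p.Prime] (hp : p ≠ 2) (P : Sylow p G) (D : Subgroup G) (hD : Cfsg.IsStronglyClosed D (P : Subgroup G)) (hst : Cfsg.IsNormalizerPStable p G) (hc : Subgroup.centralizer ((Cfsg.pCore p G : Subgroup G) : Set G) ≤ Cfsg.pCore p G) : (Cfsg.centerThompsonAOf D).Normal ∧ (Cfsg.omegaOne p (Cfsg.centerThompsonOf p D)).Normal := by
  rw [centerThompsonAOf_eq, centerThompsonOf_eq]
  have hs := thStable_of_isNormalizerPStable P.isPGroup' hst
  have := thZ_normal_of_stable hp (Or.inr rfl) P hD hs hc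
  exact ⟨thZ_normal_of_stable hp (Or.inl rfl) P hD hs hc, th_omegaOne_normal p _⟩

end Cfsg.Agent.S3079
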