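import Mathlib
import Cfsg.Statements.S3086
import Cfsg.Agent.Loc.PGVMain
import Cfsg.Agent.GT.Components
import Cfsg.Agent.GT.CoprimeAct
import Cfsg.Agent.Ch.Burnside

set_option autoImplicit false
open Cfsg

namespace Cfsg.Agent.S3086


open Subgroup Cfsg.Agent.Loc.PGV Cfsg.Agent.GT.CopAct

/-- the action on the multiplicative copy of the module -/
def aut {R G V : Type*} [CommRing R] [Group G] [AddCommGroup V] [Module R V]
    (ρ : Representation R G V) : G →* MulAut (Multiplicative V) where
  toFun g :=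
    { toFun := fun v => Multiplicative.ofAdd (ρ g v.toAdd)
      invFun := fun v => Multiplicative.ofAdd (ρ g⁻¹ v.toAdd)
      left_inv := fun v => by
        simp only [toAdd_ofAdd]
        rw [← Module.End.mul_apply, ← map_mul, inv_mul_cancel, map_one]; rfl
      right_inv := fun v => by
        simp only [toAdd_ofAdd]
        rw [← Module.End.mul_apply, ← map_mul, mul_inv_cancel, map_one]; rfl
      map_mul' := fun v w => by simp }
  map_one' := by ext v; simp
  map_mul' := fun g h => by ext v; simp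

theorem qs_of {H : Type*} [Group H] {K : Subgroup H} (hK : IsQuasisimple K) : ∀ k ∈ K,
    k ∉ centralizer (K : Set H) → ∀ C : Subgroup H,
    (∀ x ∈ K, x * k * x⁻¹ * k⁻¹ ∈ C) → K ≤ C := by
  intro k hk hk' C hC
  rcases (IsComponentOf.self hK).le_commutator_or (zpowers_le.mpr hk) with h | h
  · refine h.trans (commutator_le.mpr fun x hx y hy => ?_)
    have h1 : k ∈ act K C := ⟨le_normalizer hk, fun w hw => by
      convert inv_mem (hC w hw) using 1; group⟩
    convert inv_mem ((zpowers_le.mpr h1 hy).2 x hx) using 1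
    rw [commutatorElement_def]; group
  · exact absurd (le_centralizer_iff.mp (commutator_eq_bot_iff_le_centralizer.mp h)
      (mem_zpowers k)) hk'

theorem ex_of {H : Type*} [Group H] [Finite H] {K : Subgroup H} (hK : IsQuasisimple K) :
    ∃ k ∈ K, k ^ 12 ∉ centralizer (K : Set H) := by
  by_contra hc
  push Not at hc
  have hs : Group.IsSolvable (K ⧸ center K) := by
    refine Ch.burnside_isSolvable_of_primes (p := 2) (q := 3) Nat.prime_three fun r hr hd => ?_
    have := Fact.mk hr
    obtain ⟨x, hx⟩ := exists_prime_orderOf_dvd_card' r hd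
    obtain ⟨k, rfl⟩ := QuotientGroup.mk_surjective x
    have h1 : ((k : K ⧸ center K)) ^ 12 = 1 := by
      rw [← QuotientGroup.mk_pow, QuotientGroup.eq_one_iff, mem_center_iff]
      exact fun y => Subtype.ext (hc k k.2 y y.2)
    have h2 : r ∣ 2 ^ 2 * 3 := hx ▸ orderOf_dvd_of_pow_eq_one h1
    rcases (Nat.Prime.dvd_mul hr).mp h2 with h | h
    · exact Or.inl ((Nat.prime_dvd_prime_iff_eq hr Nat.prime_two).mp (hr.dvd_of_dvd_pow h))
    · exact Or.inr ((Nat.prime_dvd_prime_iff_eq hr Nat.prime_three).mp h)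
  exact hK.center_ne_top (top_le_iff.mp
    (GT.perfect_le_of_isSolvable_quotient hK.commutator_eq_top hs))



/-- The P(G,V)-theorem. Let p be a prime, G a finite group acting faithfully and linearly on a finite vector space V over the field with p elements, and A a nontrivial elementary abelian p-subgroup of G such that |A|·|C_V(A)| ≥ |B|·|C_V(B)| for every subgroup B of A. Then A normalizes every component (subnormal quasisimple subgroup) of G. -/
theorem result {G V : Type*} [Group G] [Finite G] [AddCommGroup V] [Finite V] (p : ℕ) [Fact p.Prime] [Module (ZMod p) V]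
    (ρ : Representation (ZMod p) G V) (hρ : Function.Injective ρ)
    (A : Subgroup G) (hA : A ≠ ⊥) (hAel : Cfsg.IsElementaryAbelian p A)
    (hP : ∀ B : Subgroup G, B ≤ A →
      Nat.card ↥B * Nat.card {v : V // ∀ b ∈ B, ρ b v = v} ≤ Nat.card ↥A * Nat.card {v : V // ∀ a ∈ A, ρ a v = v}) :
    ∀ K : Subgroup G, Cfsg.IsComponent K → A ≤ Subgroup.normalizer (K : Set G) := by
  intro K hK
  have hq : IsQuasisimple (sdR (aut ρ) K) := hK.2.of_mulEquiv (sdREquiv (aut ρ) K)
  have hcard : ∀ B : Subgroup G, Nat.card (sdL (aut ρ) ⊤ ⊓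
      centralizer (sdR (aut ρ) B : Set (Multiplicative V ⋊[aut ρ] G)) :
      Subgroup (Multiplicative V ⋊[aut ρ] G)) = Nat.card {v : V // ∀ b ∈ B, ρ b v = v} := by
    intro B
    rw [sdL_inf_centralizer, card_sdL]
    exact Nat.card_congr
      { toFun := fun v => ⟨v.1.toAdd, fun b hb => congrArg Multiplicative.toAdd (v.2.2 ⟨b, hb⟩)⟩
        invFun := fun v => ⟨Multiplicative.ofAdd v.1, mem_top _, fun b =>
          congrArg Multiplicative.ofAdd (v.2 b b.2)⟩
        left_inv := fun _ => rfl
        right_inv := fun _ => rfl }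
  have hN : ∀ a : G, (SemidirectProduct.inr a : Multiplicative V ⋊[aut ρ] G) ∈
      normalizer (sdR (aut ρ) K : Set (Multiplicative V ⋊[aut ρ] G)) ↔
      a ∈ normalizer (K : Set G) := by
    intro a
    constructor
    · intro h
      refine mem_norm fun x hx => (inr_mem_sdR (aut ρ)).mp ?_
      simpa using nm h ((inr_mem_sdR (aut ρ)).mpr hx)
    · intro h
      refine mem_norm ?_
      rintro _ ⟨x, hx, rfl⟩
      exact ⟨_, nm h hx, by simp⟩
  have h : Hyp p (sdL (aut ρ) ⊤) (sdR (aut ρ) A) (sdR (aut ρ) K) := by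
    refine ⟨⟨isMulCommutative_sdL _ inferInstance, ?_⟩, ⟨isMulCommutative_sdR _ hAel.1, ?_⟩,
      sdR_le_normalizer_top _ _, sdR_le_normalizer_top _ _, qs_of hq, ?_, ex_of hq, ?_, ?_⟩
    · rintro _ ⟨v, -, rfl⟩
      rw [← map_pow]
      have : v ^ p = 1 := by
        apply Multiplicative.toAdd.injective
        rw [toAdd_pow, toAdd_one, ← Nat.cast_smul_eq_nsmul (ZMod p), ZMod.natCast_self, zero_smul]
      rw [this, map_one]
    · rintro _ ⟨a, ha, rfl⟩
      rw [← map_pow, hAel.2 a ha, map_one]
    · rintro _ ⟨a, ha, rfl⟩ hn _ ⟨x, hx, rfl⟩ _ ⟨y, hy, rfl⟩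
      rw [hN] at hn
      have hne : K.map (MulAut.conj a).toMonoidHom ≠ K := fun e => hn (mem_norm fun w hw =>
        e.le ⟨w, hw, rfl⟩)
      have := ((hK.map_conj a).commute_of_ne hK hne (x := a * x * a⁻¹) ⟨x, hx, rfl⟩ hy).map
        (SemidirectProduct.inr : G →* Multiplicative V ⋊[aut ρ] G)
      simpa using this
    · rw [sdR_le_centralizer_iff]
      intro h
      refine hK.ne_bot (eq_bot_iff.mpr fun x hx => mem_bot.mpr (hρ ?_))
      ext v
      rw [map_one]
      exact congrArg Multiplicative.toAdd (h x hx (Multiplicative.ofAdd v) (mem_top _))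
    · intro B hB
      obtain ⟨B, rfl⟩ := exists_eq_sdR (aut ρ) (hB.trans (map_mono le_top))
      rw [hcard, hcard, card_sdR, card_sdR]
      exact hP B fun b hb => (inr_mem_sdR (aut ρ)).mp (hB ((inr_mem_sdR (aut ρ)).mpr hb))
  exact fun a ha => (hN a).mp (h.main ((inr_mem_sdR (aut ρ)).mpr ha))

end Cfsg.Agent.S3086
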