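import Mathlib
import Cfsg.Statements.S3087

set_option autoImplicit false
open Cfsg

namespace Cfsg.Agent.S3087

theorem add_card_sup {V : Type*} [AddCommGroup V] (H K : AddSubgroup V) :
    Nat.card ↥(H ⊔ K) * Nat.card ↥(H ⊓ K) = Nat.card H * Nat.card K := by
  have h1 : ∀ {A B : AddSubgroup V}, A ≤ B → A.relIndex B * Nat.card A = Nat.card B := by
    intro A B h
    have := (A.addSubgroupOf B).index_mul_card
    rw [AddSubgroup.relIndex, ← this,
      Nat.card_congr (AddSubgroup.addSubgroupOfEquivOfLe h).toEquiv]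
  rw [← h1 (le_sup_right : K ≤ H ⊔ K), ← h1 (inf_le_left : H ⊓ K ≤ H),
    AddSubgroup.relIndex_sup_right, AddSubgroup.inf_relIndex_left]
  ring


/-- Let p be a prime, G a finite group acting linearly on a finite vector space V over the field with p elements, W a G-invariant subspace, and A a subgroup of G with |A|·|C_V(A)| ≥ |B|·|C_V(B)| for every subgroup B of A. Then |A|·|C_W(A)| ≥ |B|·|C_W(B)| for every subgroup B of A that contains C_A(W); that is, the image of A in the group induced on W satisfies the same maximality condition. -/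
theorem result {G V : Type*} [Group G] [Finite G] [AddCommGroup V] [Finite V] (p : ℕ) [Fact p.Prime] [Module (ZMod p) V]
    (ρ : Representation (ZMod p) G V) (W : Submodule (ZMod p) V) (hW : ∀ g : G, ∀ w ∈ W, ρ g w ∈ W)
    (A : Subgroup G)
    (hP : ∀ B : Subgroup G, B ≤ A →
      Nat.card ↥B * Nat.card {v : V // ∀ b ∈ B, ρ b v = v} ≤ Nat.card ↥A * Nat.card {v : V // ∀ a ∈ A, ρ a v = v})
    (B : Subgroup G) (hBA : B ≤ A) (hCB : ∀ a ∈ A, (∀ w ∈ W, ρ a w = w) → a ∈ B) :
    Nat.card ↥B * Nat.card {w : W // ∀ b ∈ B, ρ b w = w} ≤ Nat.card ↥A * Nat.card {w : W // ∀ a ∈ A, ρ a w = w} := by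
  let F : Subgroup G → AddSubgroup V := fun X =>
    { carrier := {v | ∀ x ∈ X, ρ x v = v}
      zero_mem' := fun x _ => by simp
      add_mem' := fun {a b} ha hb x hx => by rw [map_add, ha x hx, hb x hx]
      neg_mem' := fun {a} ha x hx => by rw [map_neg, ha x hx] }
  have hF : ∀ X : Subgroup G, Nat.card {v : V // ∀ b ∈ X, ρ b v = v} = Nat.card (F X) :=
    fun X => rfl
  have hFW : ∀ X : Subgroup G, Nat.card {w : W // ∀ b ∈ X, ρ b w = w} =
      Nat.card ↥(W.toAddSubgroup ⊓ F X) := fun X =>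
    Nat.card_congr
      { toFun := fun w => ⟨w.1.1, w.1.2, w.2⟩
        invFun := fun w => ⟨⟨w.1, w.2.1⟩, w.2.2⟩
        left_inv := fun _ => rfl
        right_inv := fun _ => rfl }
  have hAB : F A ≤ F B := fun v hv x hx => hv x (hBA hx)
  have h1 := hP B hBA
  rw [hF, hF] at h1
  rw [hFW, hFW]
  have h2 := add_card_sup (W.toAddSubgroup ⊓ F B) (F A)
  have h3 : (W.toAddSubgroup ⊓ F B) ⊓ F A = W.toAddSubgroup ⊓ F A := by
    rw [inf_assoc, inf_eq_right.2 hAB]
  rw [h3] at h2
  have h4 : Nat.card ↥((W.toAddSubgroup ⊓ F B) ⊔ F A) ≤ Nat.card (F B) :=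
    AddSubgroup.card_le_of_le (sup_le inf_le_right hAB)
  have h5 : 0 < Nat.card (F A) := Nat.card_pos
  refine Nat.le_of_mul_le_mul_right ?_ h5
  calc Nat.card B * Nat.card ↥(W.toAddSubgroup ⊓ F B) * Nat.card (F A)
      = Nat.card B * (Nat.card ↥((W.toAddSubgroup ⊓ F B) ⊔ F A) *
          Nat.card ↥(W.toAddSubgroup ⊓ F A)) := by rw [h2]; ring
    _ ≤ Nat.card B * (Nat.card (F B) * Nat.card ↥(W.toAddSubgroup ⊓ F A)) := by gcongr
    _ = (Nat.card B * Nat.card (F B)) * Nat.card ↥(W.toAddSubgroup ⊓ F A) := by ring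
    _ ≤ (Nat.card A * Nat.card (F A)) * Nat.card ↥(W.toAddSubgroup ⊓ F A) := by gcongr
    _ = _ := by ring

end Cfsg.Agent.S3087
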