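import Mathlib
import Cfsg.Statements.S3144
import Cfsg.Agent.Std.E8H
import Cfsg.Agent.GT.FourGroup
import Cfsg.Agent.Blk.ZStar

set_option autoImplicit false
open Cfsg

namespace Cfsg.Agent.S3144

open Subgroup Std.E8 in
/-- A group with a cyclic Sylow `2`-subgroup and a central involution. -/
theorem cyc {K : Type*} [Group K] [Finite K] (hR : ∀ R : Sylow 2 K, IsCyclic R) {z : K} (h1 : z ≠ 1) (h2 : z * z = 1)
    (hz : ∀ k, Commute k z) :
    (∀ k : K, k * k = 1 → k = 1 ∨ k = z) ∧ ∀ k k' : K, Od k → Od k' → Od (k * k') := by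
  have : Fact (Nat.Prime 2) := ⟨Nat.prime_two⟩
  have h3 : 2 ∣ Nat.card K := orderOf_eq_prime ((pow_two z).trans h2) h1 ▸ orderOf_dvd_natCard z
  obtain ⟨P⟩ : Nonempty (Sylow 2 K) := inferInstance
  have := hR P
  let τ := MonoidHom.transferSylow P (IsCyclic.normalizer_le_centralizer ((Nat.minFac_eq_two_iff _).2 h3) this)
  have h4 : ∀ k, τ k = 1 → Od k := fun k hk => ⟨_, Nat.odd_iff.2 (Nat.two_dvd_ne_zero.1
    (MonoidHom.not_dvd_card_ker_transferSylow P _)), congrArg Subtype.val (pow_card_eq_one' (x := (⟨k, hk⟩ : τ.ker)))⟩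
  have h5 : ∀ k, Od k → τ k = 1 := fun k ⟨n, h5, h6⟩ => by
    obtain ⟨m, hm⟩ := P.2 (τ k)
    exact Od.eq_one ⟨n, h5, by rw [← map_pow, h6, map_one]⟩ hm
  refine ⟨fun k hk => or_iff_not_imp_left.2 fun h6 => ?_, fun k k' a b => h4 _ (by rw [map_mul, h5 _ a, h5 _ b, one_mul])⟩
  have h7 : ∀ k : K, k ≠ 1 → k * k = 1 → orderOf (τ k) = 2 := fun k a b =>
    orderOf_eq_prime (by rw [← map_pow, pow_two, b, map_one]) fun c => a ((h4 k c).eq_one (m := 1) ((pow_two k).trans b))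
  have h8 : τ k = τ z := by
    classical
    have := Fintype.ofFinite P
    exact Finset.card_le_one.1 (IsCyclic.card_orderOf_eq_totient (α := P) (d := 2)
      ((h7 z h1 h2).symm.dvd.trans orderOf_dvd_card)).le _ (by simp [h7 k h6 hk]) _
      (by simp [h7 z h1 h2])
  exact eq_inv_of_mul_eq_one_left ((h4 (k * z) (by rw [map_mul, h8, ← map_mul, h2, map_one])).eq_one (m := 1)
    (by rw [pow_one, (hz k).mul_pow, pow_two, pow_two, hk, h2, one_mul])) |>.trans (inv_eq_of_mul_eq_one_right h2)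

/-- Let G be a finite group with no nontrivial normal subgroup of odd order and L a standard subgroup of G which is a double cover of the simple orthogonal group PΩ⁺ of dimension 8 over the field with 2 elements (the centre of L has order 2 and L modulo its centre is isomorphic to that group), and suppose the centralizer of L in G has cyclic Sylow 2-subgroups. Then L is normal in G. -/
theorem result {G : Type*} [Group G] [Finite G] (hO : Cfsg.oddCore G = ⊥) (L : Subgroup G) (hL : Cfsg.IsStandardSubgroup L)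
    {F : Type*} [Field F] [Fintype F] (hF : Fintype.card F = 2)
    (hZ : Nat.card ↥(Subgroup.center ↥L) = 2) (hLX : Nonempty ((↥L ⧸ Subgroup.center ↥L) ≃* Cfsg.POmega F (Cfsg.quadFormPlus 4 F)))
    (hR : ∀ R : Sylow 2 ↥(Subgroup.centralizer (L : Set G)), IsCyclic ↥(R : Subgroup ↥(Subgroup.centralizer (L : Set G)))) :
    L.Normal := by
  obtain ⟨φ⟩ := hLX
  obtain ⟨σ⟩ := Cl.nonempty_ringEquiv_GF2 F hF
  replace φ := φ.trans (Cl.pomegaMapEquiv σ (Cl.quadFormPlus_comp 4 σ))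
  obtain ⟨z, hz, hu⟩ := (Nat.card_eq_two_iff' (1 : Subgroup.center L)).1 hZ
  have := hL.1.1
  have h0 : z * z = 1 := by rw [← pow_two, ← hZ, pow_card_eq_one']
  obtain ⟨_, ⟨ψ⟩⟩ := Std.E8.exists_equiv (π := φ.toMonoidHom.comp (QuotientGroup.mk' _))
    (φ.surjective.comp (QuotientGroup.mk'_surjective _)) (z := z.1)
    (fun h => hz (Subtype.ext h)) (Subgroup.mem_center_iff.1 z.2) (congrArg Subtype.val h0) fun a => by
      rw [MonoidHom.comp_apply, MulEquiv.coe_toMonoidHom, map_eq_one_iff _ (MulEquiv.injective _),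
        QuotientGroup.mk'_apply, QuotientGroup.eq_one_iff]
      refine ⟨fun ha => or_iff_not_imp_left.2 fun h => congrArg Subtype.val (hu ⟨a, ha⟩ fun e => h (congrArg Subtype.val e)), ?_⟩
      rintro (rfl | rfl)
      exacts [one_mem _, z.2]
  let ι := L.subtype.comp ψ.toMonoidHom
  have h1 : Function.Injective ι := L.subtype_injective.comp ψ.injective
  have h2 : ∀ {k}, Std.E8.Acts ι k 1 ↔ k ∈ Subgroup.centralizer (L : Set G) :=
    Std.E8.acts_iff.trans ⟨fun h a ha => by simpa [ι] using (h (ψ.symm ⟨a, ha⟩)).eq.symm, fun h a => (h _ (ψ a).2).symm⟩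
  have h3 : ι Std.E8.c0 ∈ Subgroup.centralizer (L : Set G) :=
    h2.1 (Std.E8.acts_iff.2 fun a => Commute.map (Std.E8.c0_comm a).symm ι)
  have h4 : ι Std.E8.c0 ≠ 1 := (map_ne_one_iff _ h1).2 Std.E8.c0_ne
  have : Fact (Nat.Prime 2) := ⟨Nat.prime_two⟩
  have h5 := orderOf_eq_prime ((pow_two _).trans Std.E8.Emb.zz) h4
  obtain ⟨h6, h7⟩ := cyc hR (z := ⟨_, h3⟩) (fun h => h4 (congrArg Subtype.val h)) (Subtype.ext Std.E8.Emb.zz)
    fun k => Subtype.ext (k.2 _ (ψ _).2).symm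
  have e : Std.E8.Emb ι := ⟨h1, fun g hg => by
      obtain ⟨u, hu⟩ := Std.E8.exists_cj (ψ.trans ((L.normalizerMonoidHom ⟨g, hL.centralizer_le h5 h3
        (Subgroup.mem_centralizer_singleton_iff.2 hg)⟩).trans ψ.symm))
      exact ⟨u, fun a => by rw [← hu]; simp [ι]⟩,
    fun k hk h => by simpa [Subtype.ext_iff] using h6 ⟨k, h2.1 hk⟩ (Subtype.ext h),
    fun k k' a b ⟨m, c, d⟩ ⟨n, c', d'⟩ => (h7 ⟨k, h2.1 a⟩ ⟨k', h2.1 b⟩ ⟨m, c, Subtype.ext d⟩ ⟨n, c', Subtype.ext d'⟩).imp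
      fun _ h => ⟨h.1, congrArg Subtype.val h.2⟩⟩
  have h8 := IsIsolatedInvolution.mem_center ⟨h5, fun g hg => by_contra fun h => (e.pr rfl hg (Ne.symm h)).false⟩ hO
  rw [← Subgroup.normalizer_eq_top_iff, eq_top_iff]
  exact fun g _ => hL.centralizer_le h5 h3 (Subgroup.mem_centralizer_singleton_iff.2 (Subgroup.mem_center_iff.1 h8 g))

end Cfsg.Agent.S3144
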