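import Mathlib
import Cfsg.Statements.S3153
import Cfsg.Agent.GT.FourGroup
import Cfsg.Agent.GT.RankOneTwo

set_option autoImplicit false
open Cfsg

namespace Cfsg.Agent.S3153

open Cfsg.Agent.GT Subgroup

/-- Let X be a finite group and P a standard subgroup of X whose centralizer has 2-rank at most 1 and whose centre has odd order. Let S be a Sylow 2-subgroup of N_X(P) and t an involution of S centralizing P. Suppose some element g of X normalizes S, does not lie in S, has its square in S, and conjugates t into P·C_X(P). Then P commutes elementwise with the largest normal odd-order subgroup O(X) of X; consequently every t-invariant 2-component of X containing P is quasisimple. -/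
theorem result {X : Type*} [Group X] [Finite X] (P : Subgroup X) (hP : Cfsg.IsStandardSubgroup P)
    (hr : Cfsg.PRankLE 2 1 ↥(Subgroup.centralizer (P : Set X))) (hZ : Odd (Nat.card ↥(Subgroup.center ↥P)))
    (S : Sylow 2 ↥(Subgroup.normalizer (P : Set X))) (t : X) (ht : orderOf t = 2) (htS : t ∈ (S : Subgroup ↥(Subgroup.normalizer (P : Set X))).map (Subgroup.normalizer (P : Set X)).subtype)
    (htP : t ∈ Subgroup.centralizer (P : Set X))
    (g : X) (hgN : ∀ s ∈ (S : Subgroup ↥(Subgroup.normalizer (P : Set X))).map (Subgroup.normalizer (P : Set X)).subtype, g * s * g⁻¹ ∈ (S : Subgroup ↥(Subgroup.normalizer (P : Set X))).map (Subgroup.normalizer (P : Set X)).subtype)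
    (hgS : g ∉ (S : Subgroup ↥(Subgroup.normalizer (P : Set X))).map (Subgroup.normalizer (P : Set X)).subtype) (hg2 : g ^ 2 ∈ (S : Subgroup ↥(Subgroup.normalizer (P : Set X))).map (Subgroup.normalizer (P : Set X)).subtype)
    (hgt : g * t * g⁻¹ ∈ P ⊔ Subgroup.centralizer (P : Set X)) :
    ⁅P, Cfsg.oddCore X⁆ = ⊥ ∧
      ∀ L : Subgroup X, Cfsg.IsPComponent 2 L → P ≤ L → (∀ l ∈ L, t * l * t⁻¹ ∈ L) → Cfsg.IsQuasisimple ↥L := by
    set S' := (S : Subgroup (normalizer (P : Set X))).map (normalizer (P : Set X)).subtype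
    have hS : IsPGroup 2 S' := S.2.map _
    have hSN : S' ≤ normalizer (P : Set X) := map_subtype_le _
    have hq := hP.1
    have hCt := hP.centralizer_le ht htP
    have hcen : ∀ s ∈ S', s * t * s⁻¹ = t := fun s hs => eq_of_isPGroup_of_pRankLE_one
      (hS.to_inf_left (K := centralizer (P : Set X))) (hr.of_le inf_le_right)
      ⟨S'.mul_mem (S'.mul_mem hs htS) (S'.inv_mem hs), conj_mem_of_mem_normalizer
        (normalizer_le_normalizer_centralizer P (hSN hs)) htP⟩ ⟨htS, htP⟩
      (by rw [orderOf_conj, ht]) ht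
    set u := g * t * g⁻¹ with hu
    have hu2 : orderOf u = 2 := by rw [hu, orderOf_conj, ht]
    have huS : u ∈ S' := hgN t htS
    have hut : Commute t u := (mul_inv_eq_iff_eq_mul.mp (hcen u huS)).symm
    have hne : t ≠ u := fun e => by
      have hg : g ∈ normalizer (P : Set X) :=
        hCt (mem_centralizer_singleton_iff.mpr (mul_inv_eq_iff_eq_mul.mp e.symm))
      have hgS' : g ∈ normalizer (S' : Set X) := mem_normalizer_iff_of_finite.mpr hgN
      obtain ⟨k, hk⟩ := hS ⟨_, hg2⟩
      have hz : IsPGroup 2 (zpowers g) := by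
        obtain ⟨j, -, hj⟩ := (Nat.dvd_prime_pow Nat.prime_two).mp (orderOf_dvd_of_pow_eq_one
          (show g ^ 2 ^ (k + 1) = 1 by rw [pow_succ', pow_mul]; exact congrArg Subtype.val hk))
        exact isPGroup_zpowers_of_orderOf_eq hj
      exact hgS (Tr.le_of_sylowIn_le (Tr.not_dvd_relIndex_map_sylow S)
        (hS.to_sup_of_normal_left' hz (zpowers_le.mpr hgS')) le_sup_left
        (sup_le hSN (zpowers_le.mpr hg)) (mem_sup_right (mem_zpowers g)))
    -- `u = a c` with `a ∈ P`, `c ∈ {1, t}`
    obtain ⟨a, ha, c, hc, ha2, hc2, hac⟩ : ∃ a ∈ P, ∃ c ∈ centralizer (P : Set X),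
        a ^ 2 = 1 ∧ c ^ 2 = 1 ∧ a * c = u := by
      obtain ⟨a, ha, c, hc, e⟩ := (CopAct.mem_sup_iff_of_le_normalizer
        (centralizer_le_normalizer (P : Set X))).mp hgt
      have hcm : Commute a c := hc a ha
      have h1 : a ^ 2 * c ^ 2 = 1 := by rw [← hcm.mul_pow, e, ← hu2, pow_orderOf_eq_one]
      have h2 : (⟨a ^ 2, P.pow_mem ha 2⟩ : P) ∈ center P := by
        rw [← centralizer_subgroupOf_self, mem_subgroupOf]
        change a ^ 2 ∈ _
        rw [eq_inv_of_mul_eq_one_left h1]
        exact inv_mem (pow_mem hc 2)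
      have h3 : (a ^ 2) ^ Nat.card (center P) = 1 :=
        congrArg (fun x : center P => ((x : P) : X)) (pow_card_eq_one' (x := (⟨_, h2⟩ : center P)))
      refine ⟨a ^ Nat.card (center P), P.pow_mem ha _, c ^ Nat.card (center P), pow_mem hc _,
        by rw [← pow_mul, mul_comm, pow_mul, h3], ?_, ?_⟩
      · rw [← pow_mul, mul_comm, pow_mul, eq_inv_of_mul_eq_one_right h1, inv_pow, h3, inv_one]
      · obtain ⟨m, hm⟩ := hZ
        rw [← hcm.mul_pow, e, hm, pow_succ, pow_mul, ← hu2, pow_orderOf_eq_one, one_pow, one_mul]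
    have hct : c = 1 ∨ c = t := by
      refine or_iff_not_imp_left.mpr fun h1 => congrArg Subtype.val (eq_of_commute_of_pRankLE_one hr
        ⟨c, hc⟩ ⟨t, htP⟩ (by rw [orderOf_mk]; exact orderOf_eq_prime hc2 h1) (by rwa [orderOf_mk])
        (Subtype.ext ?_))
      have h2 : Commute t a := (htP a ha).symm
      have h3 := h2.inv_right.mul_right (hac ▸ hut)
      rw [inv_mul_cancel_left] at h3
      exact h3.symm.eq
    have ha1 : a ≠ 1 := by
      rintro rfl
      rw [one_mul] at hac
      rcases hct with h | h
      · rw [← hac, h] at hu2; simp at hu2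
      · exact hne (h.symm.trans hac)
    have ha2' : orderOf a = 2 := orderOf_eq_prime ha2 ha1
    have hO : ¬ 2 ∣ Nat.card (pPrimeCore 2 X) := not_dvd_card_pPrimeCore Nat.prime_two
    have hPO : ¬ P ≤ pPrimeCore 2 X := fun h => hO (ha2'.symm.dvd.trans (Subgroup.orderOf_dvd_natCard _ (h ha)))
    have h1 : pPrimeCore 2 X ⊓ centralizer {t} ≤ centralizer (P : Set X) :=
      perfect_le_centralizer hq.commutator_eq ((le_inf ((commutator_mono inf_le_left le_rfl).trans
        (commutator_le_left _ _)) (le_normalizer_iff_commutator_le_right.mp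
          (inf_le_right.trans hCt))).trans
        ((hq.le_or_inf_le_centralizer le_normalizer_of_normal).resolve_left hPO))
    have h2 : pPrimeCore 2 X ⊓ centralizer {t} ≤ centralizer {u} := fun x hx => by
      rw [mem_centralizer_singleton_iff, ← hac]
      refine (Commute.mul_right (h1 hx a ha).symm ?_).eq
      rcases hct with rfl | rfl
      · exact Commute.one_right x
      · exact mem_centralizer_singleton_iff.mp hx.2
    have h3 : pPrimeCore 2 X ⊓ centralizer {u} ≤ centralizer {t} := by
      have h4 := map_mono (f := (MulAut.conj g).toMonoidHom) h2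
      rwa [map_conj_inf, map_conj_eq_of_normal, ← centralizer_singleton_conj,
        ← centralizer_singleton_conj, ← hu, show g * u * g⁻¹ = g ^ 2 * t * (g ^ 2)⁻¹ by
          rw [hu, pow_two]; group, hcen _ hg2] at h4
    have hm : ∀ x : X, x ∈ centralizer {t} → x ∈ centralizer {u} → x ∈ centralizer {t * u} :=
      fun x h h' => mem_centralizer_singleton_iff.mpr (Commute.mul_right
        (mem_centralizer_singleton_iff.mp h) (mem_centralizer_singleton_iff.mp h')).eq
    have h4 : t * u ∈ centralizer (pPrimeCore 2 X : Set X) := le_centralizer_singleton_iff.mp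
      (le_of_four_group ht hu2 hne hut (le_normalizer_of_normal (mem_top t))
        (le_normalizer_of_normal (mem_top u)) hO (fun x hx => hm x hx.2 (h2 hx))
        (fun x hx => hm x (h3 hx) hx.2) inf_le_right)
    have h5 : P ≤ centralizer (pPrimeCore 2 X : Set X) := by
      rcases hq.commutator_eq_or_eq_bot (X := zpowers (t * u))
        (zpowers_le.mpr (hSN (S'.mul_mem htS huS))) with h | h
      · exact h.ge.trans ((commutator_mono le_rfl (zpowers_le.mpr h4)).trans (commutator_le_right _ _))
      · have h6 : t * u ∈ centralizer (P : Set X) :=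
          le_centralizer_iff.mp (commutator_eq_bot_iff_le_centralizer.mp h) (mem_zpowers _)
        rw [mul_mem_cancel_left htP, ← hac, mul_mem_cancel_right hc] at h6
        have h7 : (⟨a, ha⟩ : P) ∈ center P := by rwa [← centralizer_subgroupOf_self]
        have := orderOf_dvd_natCard _ h7
        rw [orderOf_mk, ha2'] at this
        exact absurd (even_iff_two_dvd.mpr this) (Nat.not_even_iff_odd.mpr hZ)
    refine ⟨commutator_eq_bot_iff_le_centralizer.mpr h5, fun L hL hPL _ => ?_⟩
    refine ((hL.isComponent_iff Nat.prime_two).mpr (commutator_eq_bot_iff_le_centralizer.mpr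
      ?_)).isQuasisimple
    rw [hL.pPrimeCoreOf_eq]
    refine le_trans ?_ (centralizer_anti inf_le_left)
    refine (hL.le_or_commutator_le Nat.prime_two (Normal.isSubnormal inferInstance)).resolve_right
      fun h => hPO (hq.commutator_eq.ge.trans ((commutator_mono hPL h5).trans (h.trans ?_)))
    rw [hL.pPrimeCoreOf_eq]
    exact inf_le_left

end Cfsg.Agent.S3153
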