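import Mathlib
import Cfsg.Statements.S3155

set_option autoImplicit false
open Cfsg

namespace Cfsg.Agent.S3155

private theorem aux (f : (ZMod 4 × ZMod 4 × ZMod 4) →+ (ZMod 4 × ZMod 4 × ZMod 4))
    (h : ∀ x, f (f x) = -x) : False := by
  let g : (ZMod 4 × ZMod 4 × ZMod 4) →ₗ[ZMod 4] (ZMod 4 × ZMod 4 × ZMod 4) := f.toZModLinearMap 4
  have hg : g ∘ₗ g = (-1 : ZMod 4) • LinearMap.id := by
    apply LinearMap.ext
    intro x
    simp [g, h]
  have hd := congrArg LinearMap.det hg
  rw [LinearMap.det_comp, LinearMap.det_smul, LinearMap.det_id] at hd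
  have hr : Module.finrank (ZMod 4) (ZMod 4 × ZMod 4 × ZMod 4) = 3 := by
    have : Fact (1 < 4) := ⟨by norm_num⟩
    simp [Module.finrank_prod]
  rw [hr] at hd
  revert hd
  generalize LinearMap.det g = d
  revert d
  decide

/-- Let B be the direct product of three cyclic groups of order 4. Then the automorphism of B inverting every element is not the square of any automorphism of B. -/
theorem result {B : Type*} [CommGroup B] [Finite B] (hB : Nonempty (B ≃* Multiplicative (ZMod 4 × ZMod 4 × ZMod 4)))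
    (τ : B ≃* B) : τ.trans τ ≠ MulEquiv.inv B := by
  intro h
  obtain ⟨e⟩ := hB
  let σ : Multiplicative (ZMod 4 × ZMod 4 × ZMod 4) →* Multiplicative (ZMod 4 × ZMod 4 × ZMod 4) :=
    (e.toMonoidHom.comp τ.toMonoidHom).comp e.symm.toMonoidHom
  apply aux (MonoidHom.toAdditive σ)
  intro x
  have h1 : ∀ b, τ (τ b) = b⁻¹ := fun b => by
    have := MulEquiv.congr_fun h b
    simpa using this
  have : σ (σ (Multiplicative.ofAdd x)) = (Multiplicative.ofAdd x)⁻¹ := by
    simp [σ, h1]
  exact this

end Cfsg.Agent.S3155
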