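import Mathlib
import Cfsg.Statements.S3156
import Cfsg.Agent.Inv.U3Aut

set_option autoImplicit false
open Cfsg

namespace Cfsg.Agent.S3156

/-- If a finite group T is isomorphic to a Sylow 2-subgroup of the projective special unitary group of dimension 3 with parameter 4 (realised over the field with 16 elements), then no subgroup of the automorphism group of T is isomorphic to the symmetric group of degree 3. -/
theorem result {T : Type*} [Group T] [Finite T] (hT : (∃ (F : Type) (_ : Field F) (_ : Fintype F), Fintype.card F = 16 ∧ ∃ S : Sylow 2 (Cfsg.PSU 3 F 4), Nonempty (T ≃* ↥(S : Subgroup (Cfsg.PSU 3 F 4))))) (H : Subgroup (MulAut T)) : ¬ Nonempty (↥H ≃* Equiv.Perm (Fin 3)) := by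
  obtain ⟨F, _, _, hF, S, ⟨e1⟩⟩ := hT
  obtain ⟨σ, hq⟩ := Cl.exists_uField (F := F) (q := 4) hF
  have : Fact (Cl.UInvol σ) := ⟨hq.invol⟩
  have : CharP F 2 := Cl.Aut.charP_of_card (p := 2) (f := 4) (by rw [hq.card]; rfl)
  obtain ⟨e2⟩ := Inv.U3.sylow_PSU (p := 2) (k := 2) hq S
  rintro ⟨e3⟩
  let f := ((MulAut.congr (e1.trans e2)).toMonoidHom.comp H.subtype).comp e3.symm.toMonoidHom
  have hf : Function.Injective f :=
    ((MulAut.congr (e1.trans e2)).injective.comp H.subtype_injective).comp e3.symm.injective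
  have h := Inv.U3.UQ.eq_one_of_inverted hq (ρ := f (finRotate 3)) (t := f (Equiv.swap 0 1))
    (by rw [← map_pow, show finRotate 3 ^ 3 = 1 by decide, map_one])
    (by rw [← map_mul, Equiv.swap_mul_self, map_one])
    (by rw [← map_inv, ← map_inv, ← map_mul, ← map_mul]; congr 1; decide)
  exact absurd ((map_eq_one_iff f hf).1 h) (by decide)

end Cfsg.Agent.S3156
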