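import Mathlib
import Cfsg.Statements.S3162
import Cfsg.Agent.Inv.U3Aut

set_option autoImplicit false
open Cfsg

namespace Cfsg.Agent.S3162

/-- Let S be a Sylow 2-subgroup of the special unitary group of dimension 3 with parameter q = 2^n (n ≥ 2; realised over the field with q² elements). Then the largest normal 2-subgroup of the automorphism group of S is elementary abelian of order 2^(2n²), and the automorphism group has order 2^(2n²) · 2n(q² − 1). -/
theorem result {S : Type*} [Group S] [Finite S] (n : ℕ) (hn : 2 ≤ n) {F : Type*} [Field F] [Fintype F] (hF : Fintype.card F = 4 ^ n)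
    (P : Sylow 2 ↥(Cfsg.SU 3 F (2 ^ n))) (hS : Nonempty (S ≃* ↥(P : Subgroup ↥(Cfsg.SU 3 F (2 ^ n))))) :
    Cfsg.IsElementaryAbelian 2 (Cfsg.pCore 2 (MulAut S)) ∧ Nat.card ↥(Cfsg.pCore 2 (MulAut S)) = 2 ^ (2 * n ^ 2) ∧
      Nat.card (MulAut S) = 2 ^ (2 * n ^ 2) * (2 * n * ((2 ^ n) ^ 2 - 1)) := by
  obtain ⟨σ, hq⟩ := Cl.exists_uField (F := F) (q := 2 ^ n) (by rw [hF, ← pow_mul, mul_comm, pow_mul]; rfl)
  have : Fact (Cl.UInvol σ) := ⟨hq.invol⟩
  have : CharP F 2 := Cl.Aut.charP_of_card (p := 2) (f := n * 2) (by rw [hq.card, pow_mul])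
  obtain ⟨e1⟩ := hS
  obtain ⟨e2⟩ := Inv.U3.sylow_SU hq P
  let e := (MulAut.congr (e1.trans e2)).symm
  have h1 := GT.map_pCore_equiv (p := 2) e
  rw [Inv.U3.UQ.pCore_eq_cAut hq] at h1
  have h2 := Inv.U3.UQ.isElementaryAbelian_cAut hq
  refine ⟨?_, ?_, ?_⟩
  · rw [← h1]
    have := h2.1
    refine ⟨Subgroup.map_isMulCommutative _ _, ?_⟩
    rintro _ ⟨a, ha, rfl⟩
    rw [← map_pow, h2.2 a ha, map_one]
  · rw [← h1, Subgroup.card_map_of_injective e.injective, Inv.U3.UQ.card_cAut hq]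
  · rw [← Nat.card_congr e.toEquiv, Inv.U3.UQ.card_mulAut hq]

end Cfsg.Agent.S3162
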