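import Mathlib
import Cfsg.Statements.S3171
import Cfsg.Agent.Inv.UT5Sh
import Cfsg.Agent.GT.PGroupChain

set_option autoImplicit false
open Cfsg

namespace Cfsg.Agent.S3171

open Subgroup Cfsg.Agent.Inv

/-- Let P be a Sylow 2-subgroup of the Mathieu group of degree 24 and S the quotient of P by its centre. Then the centre of every maximal subgroup of S has order at most 8; S has an elementary abelian subgroup of order 64; and S has only one abelian subgroup of order 64. -/
theorem result (P : Sylow 2 ↥Cfsg.M24) :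
    (∀ M : Subgroup (↥(P : Subgroup ↥Cfsg.M24) ⧸ Subgroup.center ↥(P : Subgroup ↥Cfsg.M24)), IsCoatom M →
        Nat.card ↥(Subgroup.center ↥M) ≤ 8) ∧
      (∃ A : Subgroup (↥(P : Subgroup ↥Cfsg.M24) ⧸ Subgroup.center ↥(P : Subgroup ↥Cfsg.M24)),
        Cfsg.IsElementaryAbelian 2 A ∧ Nat.card ↥A = 64) ∧
      ∀ A B : Subgroup (↥(P : Subgroup ↥Cfsg.M24) ⧸ Subgroup.center ↥(P : Subgroup ↥Cfsg.M24)),
        IsMulCommutative ↥A → Nat.card ↥A = 64 → IsMulCommutative ↥B → Nat.card ↥B = 64 → A = B := by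
  obtain ⟨e⟩ := U5.nonempty_quot_equiv P
  have := Finite.of_equiv _ e.symm.toEquiv
  have h := sh_of_hom (φ := e.symm.toMonoidHom) e.symm.injective
  rw [MonoidHom.range_eq_top.2 e.symm.surjective] at h
  generalize Q5.A.map e.symm.toMonoidHom = A at h
  have hX := Nat.card_congr e.toEquiv
  rw [Q5.card] at hX
  refine ⟨fun M hM => ?_, ⟨A, ⟨Gold.R2.mulComm_of h.comm, fun a ha => by
    rw [pow_two, h.sq a ha]⟩, h.card⟩, fun B C hB hB' hC hC' => ?_⟩
  · have h1 := M.card_mul_index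
    rw [(GT.PG.isCoatom_iff_index_eq (p := 2) (IsPGroup.of_card (n := 9) hX)).1 hM, hX] at h1
    have h2 := A.card_mul_index
    rw [h.card, hX] at h2
    have h3 := Loc.card_eq_relIndex_mul_card_inf A M
    have h4 : A.relIndex M ≤ A.index := by
      rw [← relIndex_top_right]
      exact relIndex_le_of_le_right le_top (by rw [relIndex_top_right]; omega)
    have h5 := h.card ▸ card_le_of_le (inf_le_left : A ⊓ M ≤ A)
    obtain ⟨s, hs, t, ht, h6, h7, h8⟩ := exists_pair (A := A) (B := M) (by nlinarith)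
    rw [← card_map_of_injective M.subtype_injective]
    refine (card_le_of_le ?_).trans (h.c2 s trivial t trivial h6 h7 h8)
    rintro _ ⟨x, hx, rfl⟩
    have hc : ∀ y ∈ M, y * x = x * y := fun y hy =>
      congrArg Subtype.val (mem_center_iff.1 hx ⟨y, hy⟩)
    refine ⟨⟨?_, Gold.R2.mem_C1.2 (hc s hs).symm⟩, Gold.R2.mem_C1.2 (hc t ht).symm⟩
    by_contra hxA
    have h9 := (card_le_of_le (le_inf inf_le_left fun y (hy : y ∈ A ⊓ M) =>
      Gold.R2.mem_C1.2 (hc y hy.2))).trans (h.c1 x trivial hxA)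
    nlinarith
  · rw [h.uniq le_top (fun x hx y hy => congrArg Subtype.val (hB.is_comm.comm ⟨x, hx⟩ ⟨y, hy⟩)) hB',
      h.uniq le_top (fun x hx y hy => congrArg Subtype.val (hC.is_comm.comm ⟨x, hx⟩ ⟨y, hy⟩)) hC']

end Cfsg.Agent.S3171
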