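import Mathlib
import Cfsg.Agent.RuS.D
import Cfsg.Agent.FG.H92PNil
import Cfsg.Agent.GT.TransferPNilp
import Cfsg.Statements.S3175

set_option autoImplicit false
open Cfsg

namespace Cfsg.Agent.S3175

/-- Let G be a finite group whose Sylow 2-subgroup T has order at least 2^14 and whose upper central series has fourth term of order 16; let W be the centralizer in T of the third term, and suppose the Frattini subgroup of W has order at most 8 and lies in every subgroup of W of index at most 16. Then the normalizer of T in G has a normal 2-complement, and W is weakly closed in T with respect to G. -/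
theorem result {G : Type*} [Group G] [Finite G]
    (T : Sylow 2 G) (ha : 2 ^ 14 ≤ Nat.card ↥(T : Subgroup G))
    (hb : Nat.card ↥(Subgroup.upperCentralSeries ↥(T : Subgroup G) 4) = 16)
    (W : Subgroup ↥(T : Subgroup G))
    (hW : W = Subgroup.centralizer ((Subgroup.upperCentralSeries ↥(T : Subgroup G) 3 : Subgroup ↥(T : Subgroup G)) : Set ↥(T : Subgroup G)))
    (hc : Nat.card ↥(frattini ↥W) ≤ 8)
    (hd : ∀ U : Subgroup ↥W, U.index ≤ 16 → frattini ↥W ≤ U) :
    Cfsg.HasNormalPComplement 2 ↥(Subgroup.normalizer ((T : Subgroup G) : Set G)) ∧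
      Cfsg.IsWeaklyClosed (W.map (T : Subgroup G).subtype) (T : Subgroup G) := by
  have h : RuS.Hyp ↥(T : Subgroup G) := by
    subst hW
    exact ⟨T.isPGroup', ha, hb, hc, hd⟩
  have hW' : W = RuS.W ↥(T : Subgroup G) := hW
  subst hW'
  haveI : Fact (Nat.Prime 2) := ⟨Nat.prime_two⟩
  refine ⟨?_, Subgroup.map_subtype_le _, fun g hg => ?_⟩
  · refine FG.H92.pnilp_of_quotient_of_centralize
      ((T : Subgroup G).subgroupOf (Subgroup.normalizer ((T : Subgroup G) : Set G))) ?_ ?_
    · refine GT.Tr.hasNormalPComplement_of_not_dvd fun k => T.not_dvd_index ?_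
      exact k.trans (Subgroup.relIndex_dvd_index_of_le Subgroup.le_normalizer)
    · intro g hg x hx
      have h1 := h.aut_eq_one (α := (T : Subgroup G).normalizerMonoidHom g) (n := orderOf g)
        (Nat.coprime_two_right.1 hg) (by rw [← map_pow, pow_orderOf_eq_one, map_one])
      have h2 := congrArg (fun a : MulAut ↥(T : Subgroup G) => ((a ⟨x, hx⟩ : (T : Subgroup G)) : G)) h1
      apply Subtype.ext
      have h3 : (g : G) * x * (g : G)⁻¹ = x := h2
      exact (mul_inv_eq_iff_eq_mul.1 h3).symm
  · let e1 := (RuS.W ↥(T : Subgroup G)).equivMapOfInjective (T : Subgroup G).subtype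
      (T : Subgroup G).subtype_injective
    let e2 := ((RuS.W ↥(T : Subgroup G)).map (T : Subgroup G).subtype).equivMapOfInjective
      (MulAut.conj g).toMonoidHom (MulAut.conj g).injective
    have h1 := h.eq_W ((e1.trans e2).trans (Subgroup.subgroupOfEquivOfLe hg).symm)
    exact (Subgroup.map_subgroupOf_eq_of_le hg).symm.trans (congrArg _ h1)

end Cfsg.Agent.S3175
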