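import Mathlib
-- Template for statement S3178 (row 3178; see /opt/grader/pristine/manifest.json for weights).
-- Copy to Cfsg/Agent/S3178.lean and replace the sorry. The statement below is byte-identical to the frozen
-- statement Cfsg.CfsgFrozen.S3178 (Cfsg/Statements/S3178.lean; the theorem Cfsg.syl2_modular_sylow_two_normal_complement);
-- the grader kernel-checks Cfsg.Agent.S3178.result against that frozen type. Keep the theorem IN THIS FILE
-- (a `result` declared elsewhere and merely imported here is not credited); helpers may live anywhere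
-- under Cfsg/Agent/.
import Cfsg.Statements.S3178
import Cfsg.Agent.Inv.QD
-- import your own Cfsg.Agent.* helpers here

set_option autoImplicit false
open Cfsg

namespace Cfsg.Agent.S3178

open Cfsg.Agent.Inv Cfsg.Agent.Inv.Fz Subgroup

/-- Groups with a modular Sylow 2-subgroup have a normal 2-complement. Let S, of order 2^(n+1) with n ≥ 3, be a Sylow 2-subgroup of a finite group G, and suppose S contains an element a of order 2^n and an involution b with b a b⁻¹ = a^(2^(n-1) + 1); so S is the non-abelian 2-group with a cyclic subgroup of index 2 that is neither dihedral, semidihedral nor generalized quaternion. Then G has a normal 2-complement. -/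
theorem result {G : Type*} [Group G] [Finite G]
    (S : Sylow 2 G) (n : ℕ) (hn : 3 ≤ n) (hS : Nat.card ↥(S : Subgroup G) = 2 ^ (n + 1))
    (a b : G) (ha : a ∈ (S : Subgroup G)) (hb : b ∈ (S : Subgroup G))
    (hao : orderOf a = 2 ^ n) (hbo : orderOf b = 2) (hrel : b * a * b⁻¹ = a ^ (2 ^ (n - 1) + 1)) :
    Cfsg.HasNormalPComplement 2 G := by
  obtain ⟨t, rfl⟩ : ∃ t, n = t + 1 := ⟨n - 1, by omega⟩
  have ht : 2 ≤ t := by omega
  obtain ⟨r, s, H⟩ := exists_mc_of_index (X := (S : Subgroup G)) (t := t) (a := ⟨a, ha⟩)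
    (b := ⟨b, hb⟩) (κ := 2 ^ t + 1) hS (by rw [← Subgroup.orderOf_coe, hao])
    (by rw [← Subgroup.orderOf_coe, hbo]) (Subtype.ext (by
      simp only [Subgroup.coe_mul, Subgroup.coe_inv, Subgroup.coe_zpow, hrel]; norm_cast))
    (fun h => hh_ne_zero (t := t) (by push_cast at h; rw [hh]; linear_combination h))
  obtain ⟨r, s, H⟩ : ∃ r s : R2 t → G, Mc (S : Subgroup G) t (hh t + 1) 0 r s :=
    ⟨_, _, by simpa [hh] using H.of_top⟩
  obtain ⟨w, hw⟩ := exists_quarter ht
  have hhh := hh_mul_hh (t := t) (by omega)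
  have hz : ∀ x ∈ (S : Subgroup G), ∀ i, hh t * i = 0 → x * r i = r i * x := fun x hx i hi => by
    obtain ⟨j, rfl | rfl⟩ := H.cases hx
    · exact H.rr_comm _ _
    · exact (H.rs_comm_iff.2 (by linear_combination -hi)).symm
  refine GT.Tr.hasNormalPComplement_of_fusion S fun x hx g hg => alperin_two_rel S _
    (equivalence_conj_in S) (fun a ha _ _ => ⟨a, ha, rfl⟩) (fun P hP _ hC ho => ?_) hx hg
  exfalso
  obtain ⟨ρ, hρ, ho, hc⟩ := ho
  have hmem : ∀ i, hh t * i = 0 → r i ∈ P := fun i hi =>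
    hC ⟨H.r_mem i, fun x hx => hz x (hP hx) i hi⟩
  have hψ := odd_orderOf_conj ho
  have hzP := hmem _ hhh
  have hz2 : r (hh t) * r (hh t) = 1 := by rw [H.rr, H.r_eq_one, ← two_mul, two_mul_hh]
  have hinv : ∀ x ∈ (S : Subgroup G), x * x = 1 →
      x = 1 ∨ x = r (hh t) ∨ x = s 0 ∨ x = s (hh t) := fun x hx h2 => by
    obtain ⟨i, rfl | rfl⟩ := H.cases hx
    · rw [H.rr, H.r_eq_one, ← two_mul, two_mul_eq_zero] at h2
      rcases h2 with rfl | rfl
      exacts [Or.inl H.r_zero, Or.inr (Or.inl rfl)]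
    · rw [H.ss, H.r_eq_one] at h2
      obtain ⟨u, hu⟩ := exists_mul_odd w
      rcases two_mul_eq_zero.1 (show 2 * i = 0 by
        linear_combination u * h2 - 2 * i * hu + u * i * hw) with rfl | rfl
      exacts [Or.inr (Or.inr (Or.inl rfl)), Or.inr (Or.inr (Or.inr rfl))]
  have hfz : ρ * r (hh t) * ρ⁻¹ = r (hh t) := by
    have h1 : ρ * r (hh t) * ρ⁻¹ = (ρ * r (2 * w) * ρ⁻¹) * (ρ * r (2 * w) * ρ⁻¹) := by
      rw [conj_mul, H.rr, ← hw]; congr 3; ring
    have h2 : ∃ i, ρ * r (hh t) * ρ⁻¹ = r i := by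
      rw [h1]
      obtain ⟨i, hi | hi⟩ := H.cases (hP (conj_mem_of_normalizer hρ (hmem _ (hh_mul_even w))))
      exacts [⟨_, by rw [hi, H.rr]⟩, ⟨_, by rw [hi, H.ss]⟩]
    obtain ⟨i, hi⟩ := h2
    rcases hinv _ (hP (conj_mem_of_normalizer hρ hzP)) (conj_mul_self_eq_one.2 hz2) with h | h | h | h
    · rw [conj_eq_one_iff, H.r_eq_one] at h; exact absurd h hh_ne_zero
    · exact h
    · exact absurd (hi.symm.trans h) (H.r_ne_s _ _)
    · exact absurd (hi.symm.trans h) (H.r_ne_s _ _)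
  have hfix : ∀ x ∈ P, x * x = 1 → ρ * x * ρ⁻¹ = x := fun x hx h2 => by
    have key : ∀ i, x = s i → x * r (hh t) = s (i + hh t) := fun i hi => by
      rw [hi, H.sr, H.s_eq]; linear_combination hhh
    have fin : ρ * x * ρ⁻¹ = x * r (hh t) → ρ * x * ρ⁻¹ = x := fun h =>
      fix_of_eq_mul_fixed hψ (k := 1) h hfz (by rwa [pow_one, pow_two])
    rcases hinv x (hP hx) h2 with h | h | h | h
    · simp [h]
    · rw [h, hfz]
    all_goals
      rcases hinv _ (hP (conj_mem_of_normalizer hρ hx)) (conj_mul_self_eq_one.2 h2)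
        with h' | h' | h' | h'
      · rw [conj_eq_one_iff, h] at h'; exact absurd h' (H.s_ne_one _)
      · exact absurd (h.symm.trans ((conj_eq_iff_of_fix hfz).2 h')) (H.s_ne_r _ _)
    · rw [h', h]
    · exact fin (by rw [h', key _ h, zero_add])
    · exact fin (by rw [h', key _ h, ← two_mul, two_mul_hh])
    · rw [h', h]
  have hq := two_mul_two_pow_pred (t := t) (by omega)
  have hq' := hh_mul_eq_zero_of_four ht (x := 2 ^ (t - 1)) (by linear_combination 2 * hq + two_mul_hh)
  have hEr : ∀ i, r i ∈ centralizer {s 0} ↔ hh t * i = 0 := fun i => by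
    rw [mem_centralizer_singleton_iff, H.rs_comm_iff]
    exact ⟨fun h => by linear_combination -h, fun h => by linear_combination -h⟩
  have hEs : ∀ i, s i ∈ centralizer {s 0} ↔ hh t * i = 0 := fun i => by
    rw [mem_centralizer_singleton_iff, H.ss_comm_iff]
    exact ⟨fun h => by linear_combination -h, fun h => by linear_combination -h⟩
  have hE : ∀ x ∈ P, x ∈ centralizer {s 0} ↔ x ^ 2 ^ t = 1 := fun x hx => by
    obtain ⟨i, rfl | rfl⟩ := H.cases (hP hx)
    · rw [hEr, H.r_pow, H.r_eq_one, hh]; push_cast; rfl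
    · have : s i ^ 2 ^ t = (s i * s i) ^ 2 ^ (t - 1) := by
        rw [← pow_two, ← pow_mul, ← pow_succ', Nat.sub_add_cancel (by omega)]
      rw [hEs, this, H.ss, H.r_pow, H.r_eq_one]; push_cast
      exact ⟨fun h => by linear_combination h + i * hq + i * hq',
        fun h => by linear_combination h - i * hq - i * hq'⟩
  have hA : ∀ x ∈ P ⊓ centralizer {s 0}, ρ * x * ρ⁻¹ = x := fun x hx => by
    obtain ⟨k, hk⟩ := S.isPGroup' ⟨x, hP hx.1⟩
    refine fix_of_comm hψ (A := P ⊓ centralizer {s 0}) (fun a ha b hb => ?_) (fun a ha => ?_)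
      (fun a ha => hfix a ha.1) (k := k) x hx (congrArg Subtype.val hk)
    · obtain ⟨i, rfl | rfl⟩ := H.cases (hP ha.1)
      · exact (hz b (hP hb.1) i ((hEr i).1 ha.2)).symm
      obtain ⟨j, rfl | rfl⟩ := H.cases (hP hb.1)
      · exact hz _ (H.s_mem i) j ((hEr j).1 hb.2)
      · exact H.ss_comm_iff.2 (by linear_combination (hEs j).1 hb.2 - (hEs i).1 ha.2)
    · have h1 := conj_mem_of_normalizer hρ ha.1
      exact ⟨h1, (hE _ h1).2 (by rw [conj_pow, (hE a ha.1).1 ha.2]; simp)⟩
  refine hc fun y hy => (mul_inv_eq_iff_eq_mul.1 ?_).symm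
  by_cases h1 : y ∈ centralizer {s 0}
  · exact hA y ⟨hy, h1⟩
  have h2 := conj_mem_of_normalizer hρ hy
  have h3 : ρ * y * ρ⁻¹ ∉ centralizer {s 0} := fun h => h1 (by
    have := hA _ ⟨h2, h⟩
    rwa [show y = ρ * y * ρ⁻¹ by simpa using this.symm])
  have h4 : y⁻¹ * (ρ * y * ρ⁻¹) ∈ centralizer {s 0} := by
    obtain ⟨i, hi | hi⟩ := H.cases (hP hy) <;> obtain ⟨j, hj | hj⟩ := H.cases (hP h2) <;>
      rw [hj] at h3 ⊢ <;> rw [hi] at h1 ⊢ <;>
      simp only [hEr, hEs, H.r_inv, H.s_inv, H.rr, H.rs, H.sr, H.ss] at h1 h3 ⊢ <;>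
      have a := (hh_mul_cases i).resolve_left h1 <;> have b := (hh_mul_cases j).resolve_left h3
    · linear_combination b - a
    · linear_combination b - a
    · linear_combination b - a + (j - i) * hhh
    · linear_combination b - a + (j - i) * hhh
  obtain ⟨k, hk⟩ := S.isPGroup' ⟨_, hP (P.mul_mem (P.inv_mem hy) h2)⟩
  exact fix_of_eq_mul_fixed hψ (c := y⁻¹ * (ρ * y * ρ⁻¹)) (by simp)
    (hA _ ⟨P.mul_mem (P.inv_mem hy) h2, h4⟩) (congrArg Subtype.val hk)

end Cfsg.Agent.S3178
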