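import Mathlib
import Cfsg.Statements.S3179
import Cfsg.Agent.Inv.U3Syl
import Cfsg.Agent.Cl.LinearBasic
import Cfsg.Agent.Cl.PSL2Struct
import Cfsg.Agent.Chev.SzLie

set_option autoImplicit false
open Cfsg

namespace Cfsg.Agent.S3179

theorem card_GL : Nat.card (GL (Fin 5) (ZMod 2)) = 9999360 := by
  rw [Matrix.card_GL_field]
  simp [Fin.prod_univ_five]

/-- A block diagonal element of order three. -/
def a : GL (Fin 5) (ZMod 2) :=
  ⟨!![0, 1, 0, 0, 0; 1, 1, 0, 0, 0; 0, 0, 1, 0, 0; 0, 0, 0, 1, 0; 0, 0, 0, 0, 1],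
   !![1, 1, 0, 0, 0; 1, 0, 0, 0, 0; 0, 0, 1, 0, 0; 0, 0, 0, 1, 0; 0, 0, 0, 0, 1],
   by decide, by decide⟩

/-- Another block diagonal element of order three. -/
def b : GL (Fin 5) (ZMod 2) :=
  ⟨!![1, 0, 0, 0, 0; 0, 1, 0, 0, 0; 0, 0, 0, 1, 0; 0, 0, 1, 1, 0; 0, 0, 0, 0, 1],
   !![1, 0, 0, 0, 0; 0, 1, 0, 0, 0; 0, 0, 1, 1, 0; 0, 0, 1, 0, 0; 0, 0, 0, 0, 1],
   by decide, by decide⟩

theorem orderOf_ne (g : GL (Fin 5) (ZMod 2)) : orderOf g ≠ 9 := fun hg => by
  classical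
  have ha : a ^ 3 = 1 := by decide
  have hb : b ^ 3 = 1 := by decide
  have hab : Commute a b := show a * b = b * a by decide
  have hp : ∀ x : GL (Fin 5) (ZMod 2), x ^ 3 = 1 → IsPGroup 3 (Subgroup.zpowers x) := fun x hx => by
    rintro ⟨_, i, rfl⟩
    exact ⟨1, Subtype.ext (by
      simp only [pow_one, Subgroup.coe_pow, Subgroup.coe_one]
      rw [← zpow_natCast, ← zpow_mul, mul_comm, zpow_mul, zpow_natCast, hx, one_zpow])⟩
  obtain ⟨Q, hQ⟩ := ((hp a ha).to_sup_of_normal_left' (hp b hb) (Subgroup.zpowers_le.2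
    (Subgroup.centralizer_le_normalizer _ (by
      rintro _ ⟨i, rfl⟩; exact (hab.zpow_left i).eq)))).exists_le_sylow
  let P : Sylow 3 (GL (Fin 5) (ZMod 2)) := Sylow.ofCard (Subgroup.zpowers g) (by
    rw [Nat.card_zpowers, hg, card_GL, show 9999360 = 3 ^ 2 * 1111040 from rfl,
      Nat.factorization_mul (by norm_num) (by norm_num), Nat.prime_three.factorization_pow]
    simp [Nat.factorization_eq_zero_of_not_dvd])
  have : IsCyclic P := (inferInstance : IsCyclic (Subgroup.zpowers g))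
  have : IsCyclic Q := isCyclic_of_surjective _ (Sylow.equiv P Q).surjective
  have := Fintype.ofFinite Q
  let a' : Q := ⟨a, hQ (Subgroup.mem_sup_left (Subgroup.mem_zpowers a))⟩
  let b' : Q := ⟨b, hQ (Subgroup.mem_sup_right (Subgroup.mem_zpowers b))⟩
  have h1 := IsCyclic.card_pow_eq_one_le (α := Q) (n := 3) (by norm_num)
  have h2 : ({1, a', a'⁻¹, b'} : Finset Q) ⊆ Finset.univ.filter (fun x : Q => x ^ 3 = 1) := by
    intro x hx
    simp only [Finset.mem_insert, Finset.mem_singleton] at hx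
    rcases hx with rfl | rfl | rfl | rfl <;> simp [a', b', Subtype.ext_iff, ha, hb]
  have h3 := Finset.card_le_card h2
  have n1 : (1 : GL (Fin 5) (ZMod 2)) ≠ a := by decide
  have n2 : (1 : GL (Fin 5) (ZMod 2)) ≠ a⁻¹ := by decide
  have n3 : (1 : GL (Fin 5) (ZMod 2)) ≠ b := by decide
  have n4 : a ≠ a⁻¹ := by decide
  have n5 : a ≠ b := by decide
  have n6 : a⁻¹ ≠ b := by decide
  rw [Finset.card_insert_of_notMem, Finset.card_insert_of_notMem, Finset.card_pair] at h3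
  · have h4 : (Finset.univ.filter (fun x : Q => x ^ 3 = 1)).card ≤ 3 := by
      convert h1; rfl
    omega
  · exact fun h => n6 (congrArg Subtype.val h)
  · simp only [Finset.mem_insert, Finset.mem_singleton, not_or]
    exact ⟨fun h => n4 (congrArg Subtype.val h), fun h => n5 (congrArg Subtype.val h)⟩
  · simp only [Finset.mem_insert, Finset.mem_singleton, not_or]
    exact ⟨fun h => n1 (congrArg Subtype.val h), fun h => n2 (congrArg Subtype.val h),
      fun h => n3 (congrArg Subtype.val h)⟩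

/-- Let X be a section of the general linear group GL(5, 2), that is, a quotient of a subgroup of it. If X is isomorphic to PSL(2, 2^n) for some n ≥ 2, to a Suzuki group over the field with 2^(2m+1) elements for some m ≥ 1, or to PSU(3, 2^n) for some n ≥ 2, then X is isomorphic to PSL(2, 4). -/
theorem result {H : Subgroup (GL (Fin 5) (ZMod 2))}
    {K : Subgroup ↥H} [K.Normal]
    (hX : (∃ (n : ℕ) (F : Type) (_ : Field F) (_ : Fintype F), 2 ≤ n ∧ Fintype.card F = 2 ^ n ∧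
        Nonempty (↥H ⧸ K ≃* Matrix.ProjectiveSpecialLinearGroup (Fin 2) F)) ∨
      (∃ (m : ℕ) (F : Type) (_ : Field F) (_ : Fintype F), 1 ≤ m ∧ Fintype.card F = 2 ^ (2 * m + 1) ∧
        Nonempty (↥H ⧸ K ≃* ↥(Cfsg.Lie.Sz F (2 ^ (m + 1))))) ∨
      (∃ (n : ℕ) (F : Type) (_ : Field F) (_ : Fintype F), 2 ≤ n ∧ Fintype.card F = 4 ^ n ∧
        Nonempty (↥H ⧸ K ≃* Cfsg.PSU 3 F (2 ^ n)))) :
    ∃ (F : Type) (_ : Field F) (_ : Fintype F), Fintype.card F = 4 ∧
      Nonempty (↥H ⧸ K ≃* Matrix.ProjectiveSpecialLinearGroup (Fin 2) F) := by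
  have hd : Nat.card (H ⧸ K) ∣ 9999360 :=
    (K.card_quotient_dvd_card.trans H.card_subgroup_dvd_card).trans card_GL.dvd
  have hb : ∀ {n : ℕ}, 2 ^ n ∣ 3 * 9999360 → n ≤ 24 := fun {n} h => by
    have := Nat.le_of_dvd (by norm_num) h
    by_contra h'
    have := Nat.pow_le_pow_right (show 0 < 2 by norm_num) (show 25 ≤ n by omega)
    omega
  rcases hX with ⟨n, F, i1, i2, hn, hF, ⟨e⟩⟩ | ⟨m, F, _, _, hm, hF, ⟨e⟩⟩ | ⟨n, F, _, _, hn, hF, ⟨e⟩⟩
  · have h1 := Cl.card_psl_two_mul (F := F)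
    rw [Nat.card_eq_fintype_card (α := F), hF, ← Nat.card_congr e.toEquiv] at h1
    have h2 : 2 ^ n * ((2 ^ n) ^ 2 - 1) ∣ 2 * 9999360 :=
      h1 ▸ mul_dvd_mul (Nat.gcd_dvd_left _ _) hd
    have h3 : n ≤ 25 := by
      have := Nat.le_of_dvd (by norm_num) ((dvd_mul_right _ _).trans h2)
      by_contra h'
      have := Nat.pow_le_pow_right (show 0 < 2 by norm_num) (show 26 ≤ n by omega)
      omega
    have h4 : n = 2 ∨ n = 3 := by interval_cases n <;> simp at h2 ⊢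
    rcases h4 with rfl | rfl
    · exact ⟨F, i1, i2, hF, ⟨e⟩⟩
    obtain ⟨g, -, hg⟩ := Cl.L2.exists_nofixS (F := F)
    rw [Nat.card_eq_fintype_card, hF] at hg
    norm_num at hg
    obtain ⟨x, hx⟩ := QuotientGroup.mk'_surjective K (e.symm g)
    have h5 := orderOf_map_dvd (QuotientGroup.mk' K) x
    rw [hx, e.symm.orderOf_eq, hg, ← Subgroup.orderOf_coe] at h5
    exact absurd (orderOf_pow_orderOf_div (orderOf_pos _).ne' h5) (orderOf_ne _)
  · have := Chev.Sz.SzF.of_card hm hF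
    rw [Nat.card_congr (e.trans (Chev.Sz.szEquiv F m).symm).toEquiv, Chev.Sz.card_Sz,
      Nat.card_eq_fintype_card, hF] at hd
    have h1 := hb (n := 2 * m + 1) ((dvd_pow_self _ two_ne_zero).trans
      (((dvd_mul_right _ _).trans (dvd_mul_right _ _)).trans (hd.mul_left 3)))
    have h2 : m ≤ 11 := by omega
    interval_cases m <;> simp at hd
  · obtain ⟨σ, hq⟩ := Cl.exists_uField (F := F) (q := 2 ^ n)
      (by rw [hF, ← pow_mul, mul_comm, pow_mul]; rfl)
    have h1 := Inv.U3.card_PSU_three hq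
    rw [← Nat.card_congr e.toEquiv] at h1
    have h2 : (2 ^ n) ^ 3 * (((2 ^ n) ^ 2 - 1) * ((2 ^ n) ^ 3 + 1)) ∣ 3 * 9999360 :=
      h1 ▸ mul_dvd_mul (Nat.gcd_dvd_left _ _) hd
    have h3 := hb ((dvd_pow_self _ three_ne_zero).trans ((dvd_mul_right _ _).trans h2))
    interval_cases n <;> simp at h2

end Cfsg.Agent.S3179
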