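import Mathlib
import Cfsg.Statements.S3180

set_option autoImplicit false
open Cfsg

namespace Cfsg.Agent.S3180

open scoped Pointwise

/-- Two `p`-subgroups of `H` can be conjugated by an element of `H` into one Sylow subgroup of `J`. -/
private theorem aux {J : Type*} [Group J] [Finite J] {p : ℕ} [Fact p.Prime] (P : Sylow p J)
    (H A B : Subgroup J) (hA : IsPGroup p A) (hB : IsPGroup p B) (hAH : A ≤ H) (hBH : B ≤ H) :
    ∃ h ∈ H, ∃ k : J, (∀ a ∈ A, k * (h * a * h⁻¹) * k⁻¹ ∈ (P : Subgroup J)) ∧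
      ∀ b ∈ B, k * b * k⁻¹ ∈ (P : Subgroup J) := by
  obtain ⟨QA, hQA⟩ := (hA.comap_subtype (K := H)).exists_le_sylow
  obtain ⟨QB, hQB⟩ := (hB.comap_subtype (K := H)).exists_le_sylow
  obtain ⟨h, hh⟩ := MulAction.exists_smul_eq H QA QB
  have hQ : IsPGroup p ((QB : Subgroup H).map H.subtype) := QB.isPGroup'.map _
  obtain ⟨R, hR⟩ := hQ.exists_le_sylow
  obtain ⟨k, hk⟩ := MulAction.exists_smul_eq J R P
  have key : ∀ x : H, x ∈ (QB : Subgroup H) → k * x * k⁻¹ ∈ (P : Subgroup J) := by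
    intro x hx
    rw [← hk]
    have : (x : J) ∈ (R : Subgroup J) := hR ⟨x, hx, rfl⟩
    exact Subgroup.smul_mem_pointwise_smul _ (MulAut.conj k) _ this
  refine ⟨h, h.2, k, fun a ha => ?_, fun b hb => key ⟨b, hBH hb⟩ (hQB hb)⟩
  have h1 : (⟨a, hAH ha⟩ : H) ∈ (QA : Subgroup H) := hQA ha
  have h2 : h * ⟨a, hAH ha⟩ * h⁻¹ ∈ (QB : Subgroup H) := by
    rw [← hh]
    exact Subgroup.smul_mem_pointwise_smul _ (MulAut.conj h) _ h1
  exact key _ h2

/-- Let P be a Sylow p-subgroup of a finite group J and P₁ a subgroup of P that is weakly closed in P with respect to J. If J acts on a set and two points, each fixed by every element of P₁, lie in one J-orbit, then they lie in one orbit of the normalizer of P₁ in J. -/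
theorem result {J : Type*} [Group J] [Finite J]
    {p : ℕ} [Fact p.Prime] (P : Sylow p J) (P₁ : Subgroup J) (hW : Cfsg.IsWeaklyClosed P₁ (P : Subgroup J))
    {Ω : Type*} [MulAction J Ω] (x y : Ω) (hx : ∀ g ∈ P₁, g • x = x) (hy : ∀ g ∈ P₁, g • y = y)
    (hc : ∃ g : J, g • x = y) :
    ∃ g ∈ Subgroup.normalizer (P₁ : Set J), g • x = y := by
  obtain ⟨g, rfl⟩ := hc
  have hP₁ : IsPGroup p P₁ := P.isPGroup'.to_le hW.1
  obtain ⟨h, hh, k, h1, h2⟩ := aux P (MulAction.stabilizer J (g • x))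
    (P₁.map (MulAut.conj g).toMonoidHom) P₁ (hP₁.map _) hP₁
    (by
      rintro _ ⟨a, ha, rfl⟩
      simp [MulAction.mem_stabilizer_iff, mul_smul, hx a ha])
    (fun a ha => hy a ha)
  have e1 := hW.2 (k * (h * g)) (by
    rintro _ ⟨a, ha, rfl⟩
    have := h1 _ ⟨a, ha, rfl⟩
    simpa [mul_assoc] using this)
  have e2 := hW.2 k (by
    rintro _ ⟨a, ha, rfl⟩
    simpa using h2 a ha)
  refine ⟨h * g, ?_, ?_⟩
  · have n1 : k * (h * g) ∈ Subgroup.normalizer (P₁ : Set J) :=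
      Subgroup.mem_normalizer_iff_map_conj_eq.2 e1
    have n2 : k ∈ Subgroup.normalizer (P₁ : Set J) :=
      Subgroup.mem_normalizer_iff_map_conj_eq.2 e2
    have := Subgroup.mul_mem _ (Subgroup.inv_mem _ n2) n1
    simpa using this
  · rw [mul_smul]; exact hh

end Cfsg.Agent.S3180
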