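import Mathlib
import Cfsg.Statements.S3184
import Cfsg.Agent.S0215
import Cfsg.Agent.S3183
import Cfsg.Agent.Inv.SylowTools

set_option autoImplicit false
open Cfsg

namespace Cfsg.Agent.S3184

open Cfsg.Agent.Inv.ST

private theorem unique_inv {C : Type*} [Group C] [Finite C] [IsCyclic C] {a b : C} (ha : orderOf a = 2)
    (hb : orderOf b = 2) : a = b := by
  classical
  have := Fintype.ofFinite C
  have hd : 2 ∣ Fintype.card C := ha ▸ orderOf_dvd_card
  have h := IsCyclic.card_orderOf_eq_totient hd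
  rw [Nat.totient_two, Finset.card_eq_one] at h
  obtain ⟨x, hx⟩ := h
  have h1 : a ∈ ({x} : Finset C) := by rw [← hx]; simp [ha]
  have h2 : b ∈ ({x} : Finset C) := by rw [← hx]; simp [hb]
  rw [Finset.mem_singleton] at h1 h2
  rw [h1, h2]

/-- Let G be a finite group in which the intersection of any two distinct Sylow 2-subgroups lies in the centre of some Sylow 2-subgroup. -/
theorem result {G : Type*} [Group G] [Finite G]
    (hCI : ∀ S T : Sylow 2 G, S ≠ T → ∃ U : Sylow 2 G,
      (S : Subgroup G) ⊓ (T : Subgroup G) ≤ (Subgroup.center ↥(U : Subgroup G)).map (U : Subgroup G).subtype)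
    (S : Sylow 2 G) (C : Subgroup ↥(S : Subgroup G)) (hC : C ≠ ⊥) (hCc : IsCyclic ↥C) (hCh : C.Characteristic)
    (c : ↥(S : Subgroup G)) (hc : c ∈ C) (hc2 : orderOf c = 2) :
    ∀ g : G, (QuotientGroup.mk (s := Cfsg.oddCore G) (g * (c : G) * g⁻¹)) =
      QuotientGroup.mk (s := Cfsg.oddCore G) (c : G) := by
  -- `c` is fixed by the normalizer of `S`
  have hN : ∀ n ∈ Subgroup.normalizer ((S : Subgroup G) : Set G), n * c * n⁻¹ = c := by
    intro n hn
    let φ : MulAut (S : Subgroup G) := (S : Subgroup G).normalizerMonoidHom ⟨n, hn⟩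
    have h1 : φ c ∈ C := by
      have := (Subgroup.characteristic_iff_le_comap.1 hCh) φ hc
      exact this
    have h2 : (⟨φ c, h1⟩ : C) = ⟨c, hc⟩ := by
      apply unique_inv
      · rw [Subgroup.orderOf_mk, MulEquiv.orderOf_eq, hc2]
      · rw [Subgroup.orderOf_mk, hc2]
    have h3 : φ c = c := congrArg Subtype.val h2
    exact congrArg Subtype.val h3
  have hZ : ∀ s ∈ (S : Subgroup G), s * c = c * s := fun s hs =>
    mul_inv_eq_iff_eq_mul.1 (hN s (Subgroup.le_normalizer hs))
  have hiso : ∀ g : G, g * c * g⁻¹ ∈ S → g * c * g⁻¹ = c := by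
    intro g hg
    have hT : ∀ s ∈ (S : Subgroup G), g * s * g⁻¹ ∈ Subgroup.centralizer ({g * c * g⁻¹} : Set G) := by
      intro s hs
      rw [Subgroup.mem_centralizer_singleton_iff]
      calc g * s * g⁻¹ * (g * c * g⁻¹) = g * (s * c) * g⁻¹ := by group
        _ = g * (c * s) * g⁻¹ := by rw [hZ s hs]
        _ = _ := by group
    have hS : (S : Subgroup G) ≤ Subgroup.centralizer ({g * c * g⁻¹} : Set G) := by
      by_cases h : S = g • S
      · intro s hs
        rw [h, mem_smul_sylow_iff] at hs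
        simpa [mul_assoc] using hT _ hs
      · have h1 : g * c * g⁻¹ ∈ ((g • S : Sylow 2 G) : Subgroup G) := by
          rw [mem_smul_sylow_iff]
          simp [mul_assoc]
        have := mem_center_map_iff.1 (S3183.inf_le_center hCI S (g • S) h ⟨hg, h1⟩)
        intro s hs
        exact Subgroup.mem_centralizer_singleton_iff.2 (this.2 s hs)
    obtain ⟨n, hn, hn'⟩ := exists_mul_mem_normalizer_sylow S g hS hT
    have e1 := hN _ hn'
    have e2 := Subgroup.mem_centralizer_singleton_iff.1 hn
    calc g * c * g⁻¹ = n * (g * c * g⁻¹) * n⁻¹ := by rw [e2]; group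
      _ = n * g * c * (n * g)⁻¹ := by group
      _ = c := e1
  obtain ⟨N, hNn, hNo, hNc⟩ := S0215.result S (c : G) (by rw [Subgroup.orderOf_coe, hc2]) c.2 hiso
  have hle : N ≤ Cfsg.oddCore G := le_sSup ⟨hNn, Nat.coprime_two_right.2 hNo⟩
  intro g
  rw [QuotientGroup.eq]
  have h2 := (inferInstance : (Cfsg.oddCore G).Normal).conj_mem _ (hle (hNc g)) ((g * c * g⁻¹)⁻¹)
  convert h2 using 1
  group

end Cfsg.Agent.S3184
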