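import Mathlib
import Cfsg.Statements.S3190
import Cfsg.Agent.Inv.SylowTools

set_option autoImplicit false
open Cfsg

namespace Cfsg.Agent.S3190

open Cfsg.Agent.Inv.ST

private theorem normal_meets_center {P : Type*} [Group P] [Finite P] {p : ℕ} [Fact p.Prime]
    (hP : IsPGroup p P) (W : Subgroup P) [W.Normal] (hW : W ≠ ⊥) :
    ∃ w ∈ W, w ≠ 1 ∧ w ∈ Subgroup.center P := by
  have : Nontrivial W := (Subgroup.nontrivial_iff_ne_bot W).2 hW
  have hc : IsPGroup p (ConjAct P) := hP.of_equiv ConjAct.toConjAct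
  have hWp : IsPGroup p W := hP.to_subgroup W
  obtain ⟨n, hn0, hn⟩ := hWp.nontrivial_iff_card.1 inferInstance
  have hdvd : p ∣ Nat.card W := by rw [hn]; exact dvd_pow_self p hn0.ne'
  obtain ⟨w, hw, hw1⟩ := hc.exists_fixed_point_of_prime_dvd_card_of_fixed_point W hdvd (a := 1)
    (by intro g; simp)
  refine ⟨w, w.2, fun h => hw1 (Subtype.ext h.symm), ?_⟩
  rw [Subgroup.mem_center_iff]
  intro g
  have := congrArg Subtype.val (hw (ConjAct.toConjAct g))
  have e : g * (w : P) * g⁻¹ = w := this
  exact mul_inv_eq_iff_eq_mul.1 e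

/-- Let p be an odd prime and, inside a finite group, let P be a p-subgroup normalized by a Klein four-group T. Let R be a subgroup of P, normal in P and normalized by T, such that P is the product of R with the centralizer of T in P. If T centralizes the centre of P, then T centralizes the centre of R. -/
theorem result {X : Type*} [Group X] [Finite X]
    {p : ℕ} (hp : p.Prime) (hodd : Odd p) (P T R : Subgroup X) (hP : IsPGroup p ↥P) (hT : IsKleinFour ↥T)
    (hTP : T ≤ Subgroup.normalizer (P : Set X)) (hRP : R ≤ P) (hRn : (R.subgroupOf P).Normal)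
    (hTR : T ≤ Subgroup.normalizer (R : Set X)) (hfac : R ⊔ (P ⊓ Subgroup.centralizer (T : Set X)) = P)
    (hZ : T ≤ Subgroup.centralizer (((Subgroup.center ↥P).map P.subtype : Subgroup X) : Set X)) :
    T ≤ Subgroup.centralizer (((Subgroup.center ↥R).map R.subtype : Subgroup X) : Set X) := by
  have : Fact p.Prime := ⟨hp⟩
  intro t ht
  have ht2 : t * t = 1 := by
    have := IsKleinFour.mul_self (⟨t, ht⟩ : T)
    exact congrArg Subtype.val this
  have hti : t⁻¹ = t := inv_eq_of_mul_eq_one_right ht2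
  have hPR : P ≤ Subgroup.normalizer (R : Set X) := (Subgroup.normal_subgroupOf_iff_le_normalizer hRP).1 hRn
  -- conjugation by a normalizing element preserves `Z(R)`
  have hconj : ∀ g ∈ Subgroup.normalizer (R : Set X), ∀ z ∈ (Subgroup.center ↥R).map R.subtype,
      g * z * g⁻¹ ∈ (Subgroup.center ↥R).map R.subtype := by
    intro g hg z hz
    rw [mem_center_map_iff] at hz ⊢
    refine ⟨(Subgroup.mem_normalizer_iff.1 hg z).1 hz.1, fun s hs => ?_⟩
    have := hz.2 _ ((Subgroup.mem_normalizer_iff''.1 hg s).1 hs)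
    calc s * (g * z * g⁻¹) = g * (g⁻¹ * s * g * z) * g⁻¹ := by group
      _ = g * (z * (g⁻¹ * s * g)) * g⁻¹ := by rw [this]
      _ = g * z * g⁻¹ * s := by group
  let W : Subgroup X :=
    { carrier := {z | z ∈ (Subgroup.center ↥R).map R.subtype ∧ t * z * t = z⁻¹}
      mul_mem' := by
        rintro a b ⟨ha, ha'⟩ ⟨hb, hb'⟩
        refine ⟨Subgroup.mul_mem _ ha hb, ?_⟩
        have e : a * b = b * a := (mem_center_map_iff.1 hb).2 a (mem_center_map_iff.1 ha).1
        calc t * (a * b) * t = (t * a * t) * (t * t)⁻¹ * (t * b * t) := by group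
          _ = a⁻¹ * b⁻¹ := by rw [ha', hb', ht2]; group
          _ = (a * b)⁻¹ := by rw [e]; group
      one_mem' := ⟨Subgroup.one_mem _, by simpa using ht2⟩
      inv_mem' := by
        rintro a ⟨ha, ha'⟩
        refine ⟨Subgroup.inv_mem _ ha, ?_⟩
        rw [inv_inv]
        calc t * a⁻¹ * t = t * (t * a * t) * t := by rw [ha']
          _ = (t * t) * a * (t * t) := by group
          _ = a := by rw [ht2]; group }
  have hWP : W ≤ P := fun z hz => hRP (mem_center_map_iff.1 hz.1).1
  have hWN : P ≤ Subgroup.normalizer (W : Set X) := by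
    rw [← hfac]
    apply sup_le
    · intro r hr
      apply Subgroup.centralizer_le_normalizer
      rw [Subgroup.mem_centralizer_iff]
      intro w hw
      exact ((mem_center_map_iff.1 hw.1).2 r hr).symm
    · have key : ∀ c ∈ P ⊓ Subgroup.centralizer (T : Set X), ∀ w ∈ W, c * w * c⁻¹ ∈ W := by
        intro c hc w hw
        refine ⟨hconj c (hPR hc.1) w hw.1, ?_⟩
        have e : t * c = c * t := Subgroup.mem_centralizer_iff.1 hc.2 t ht
        have e' : c⁻¹ * t = t * c⁻¹ := by
          rw [inv_mul_eq_iff_eq_mul, ← mul_assoc, ← e]; group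
        calc t * (c * w * c⁻¹) * t = (t * c) * w * (c⁻¹ * t) := by group
          _ = c * (t * w * t) * c⁻¹ := by rw [e, e']; group
          _ = (c * w * c⁻¹)⁻¹ := by rw [hw.2]; group
      intro c hc
      rw [Subgroup.mem_normalizer_iff]
      intro w
      refine ⟨key c hc w, fun hw => ?_⟩
      have := key c⁻¹ (Subgroup.inv_mem _ hc) _ hw
      simpa [mul_assoc] using this
  have hW : W = ⊥ := by
    by_contra hW
    have : (W.subgroupOf P).Normal := (Subgroup.normal_subgroupOf_iff_le_normalizer hWP).2 hWN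
    obtain ⟨w, hw, hw1, hwc⟩ := normal_meets_center hP (W.subgroupOf P) (by
      rwa [Ne, Subgroup.subgroupOf_eq_bot, disjoint_iff, inf_of_le_left hWP])
    have h1 : (w : X) * t = t * w := Subgroup.mem_centralizer_iff.1 (hZ ht) w ⟨w, hwc, rfl⟩
    have h2 : t * w * t = (w : X)⁻¹ := hw.2
    rw [mul_assoc, h1, ← mul_assoc, ht2, one_mul] at h2
    have h3 : w ^ 2 = 1 := by
      apply Subtype.ext
      rw [pow_two]
      exact mul_eq_one_iff_eq_inv.2 h2
    obtain ⟨k, hk⟩ := hP w
    have h4 : orderOf w ∣ Nat.gcd 2 (p ^ k) :=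
      Nat.dvd_gcd (orderOf_dvd_of_pow_eq_one h3) (orderOf_dvd_of_pow_eq_one hk)
    have h5 : Nat.gcd 2 (p ^ k) = 1 := (Nat.coprime_two_left.2 hodd.pow)
    rw [h5, Nat.dvd_one, orderOf_eq_one_iff] at h4
    exact hw1 h4
  rw [Subgroup.mem_centralizer_iff]
  intro z hz
  have hz' : t * z * t⁻¹ ∈ (Subgroup.center ↥R).map R.subtype := hconj t (hTR ht) z hz
  rw [hti] at hz'
  have hm : z⁻¹ * (t * z * t) ∈ W := by
    refine ⟨Subgroup.mul_mem _ (Subgroup.inv_mem _ hz) hz', ?_⟩
    have e : z * (t * z * t) = (t * z * t) * z :=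
      (mem_center_map_iff.1 hz').2 z (mem_center_map_iff.1 hz).1
    calc t * (z⁻¹ * (t * z * t)) * t = t * z⁻¹ * t * z * (t * t) := by group
      _ = (t * z * t)⁻¹ * z := by rw [ht2]; simp [hti, mul_assoc]
      _ = _ := by group
  rw [hW, Subgroup.mem_bot, inv_mul_eq_one] at hm
  calc z * t = t * z * t * t := by rw [← hm]
    _ = t * z := by rw [mul_assoc, ht2, mul_one]

end Cfsg.Agent.S3190
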