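import Mathlib
import Cfsg.Statements.S3195
import Cfsg.Agent.S0200

set_option autoImplicit false
open Cfsg

namespace Cfsg.Agent.S3195

private theorem inverts_prime {G : Type*} [Group G] [Finite G] (t : G) (ht : orderOf t = 2)
    (hO : t ∉ Cfsg.pCore 2 G) :
    ∃ x : G, (orderOf x).Prime ∧ Odd (orderOf x) ∧ t * x * t⁻¹ = x⁻¹ := by
  obtain ⟨h, h1, hodd, hinv⟩ := S0200.result t ht fun N hN hp hm => hO (le_sSup (s := {N : Subgroup G | N.Normal ∧ IsPGroup 2 N}) ⟨hN, hp⟩ hm)
  have hne : orderOf h ≠ 1 := by rwa [Ne, orderOf_eq_one_iff]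
  obtain ⟨r, hr, hd⟩ := Nat.exists_prime_and_dvd hne
  have ho : orderOf (h ^ (orderOf h / r)) = r := orderOf_pow_orderOf_div (orderOf_pos h).ne' hd
  refine ⟨h ^ (orderOf h / r), by rwa [ho], by rw [ho]; exact hodd.of_dvd_nat hd, ?_⟩
  rw [← conj_pow, hinv, inv_pow]

private theorem commute_of_pow {G : Type*} [Group G] [Finite G] {x y : G} (_hx : (orderOf x).Prime)
    (hodd : Odd (orderOf x)) {k : ℕ} (hk : k = 1 ∨ k = 2) (h : Commute y (x ^ (2 * k))) : Commute y x := by
  have hc : (orderOf x).Coprime (2 * k) := by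
    have h2 : (orderOf x).Coprime 2 := Nat.coprime_two_right.2 hodd
    rcases hk with rfl | rfl
    · simpa using h2
    · exact Nat.Coprime.mul_right h2 h2
  obtain ⟨m, hm⟩ := exists_pow_eq_self_of_coprime hc.symm
  rw [← hm]
  exact h.pow_right m

private theorem sq_ne {G : Type*} [Group G] [Finite G] {x : G} (hx : (orderOf x).Prime)
    (hodd : Odd (orderOf x)) {k : ℕ} (h : x ^ 2 ^ k = 1) : False := by
  have h1 := orderOf_dvd_of_pow_eq_one h
  have h2 := (Nat.prime_dvd_prime_iff_eq hx Nat.prime_two).1 (hx.dvd_of_dvd_pow h1)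
  rw [h2] at hodd
  exact absurd hodd (by decide)

/-- final contradiction: two commuting dihedral groups -/
private theorem final {G : Type*} [Group G] [Finite G] {a b x y : G} (ha : a * a = 1) (hb : b * b = 1)
    (hab : Commute a b) (hx : (orderOf x).Prime) (hxo : Odd (orderOf x)) (hy : (orderOf y).Prime)
    (hyo : Odd (orderOf y)) (hax : a * x * a⁻¹ = x⁻¹) (hby : b * y * b⁻¹ = y⁻¹) (hbx : Commute b x)
    (hay : Commute a y) (hxy : Commute x y)
    (h : ∀ g : G, Commute a (g * (a * b) * g⁻¹) ∨ Commute b (g * (a * b) * g⁻¹) ∨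
      Commute (a * b) (g * (a * b) * g⁻¹)) : False := by
  have hai : a⁻¹ = a := inv_eq_of_mul_eq_one_right ha
  have hbi : b⁻¹ = b := inv_eq_of_mul_eq_one_right hb
  have ea : a * (x * y) * a⁻¹ = x⁻¹ * y := by
    calc a * (x * y) * a⁻¹ = (a * x * a⁻¹) * (a * y * a⁻¹) := by group
      _ = _ := by rw [hax, hay.mul_inv_cancel]
  have eb : b * (x * y) * b⁻¹ = x * y⁻¹ := by
    calc b * (x * y) * b⁻¹ = (b * x * b⁻¹) * (b * y * b⁻¹) := by group
      _ = _ := by rw [hby, hbx.mul_inv_cancel]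
  have eab : (a * b) * (x * y) * (a * b)⁻¹ = (x * y)⁻¹ := by
    calc (a * b) * (x * y) * (a * b)⁻¹ = a * (b * (x * y) * b⁻¹) * a⁻¹ := by group
      _ = (a * x * a⁻¹) * (a * y * a⁻¹)⁻¹ := by rw [eb]; group
      _ = (x * y)⁻¹ := by rw [hax, hay.mul_inv_cancel, hxy.eq]; group
  have e : (x * y) * (a * b) * (x * y)⁻¹ = (x * y) ^ 2 * (a * b) := by
    rw [← eab]
    have : (a * b) * (a * b) = 1 := by
      rw [← pow_two, hab.mul_pow, pow_two, pow_two, ha, hb, one_mul]
    calc x * y * (a * b) * (a * b * (x * y) * (a * b)⁻¹) = x * y * ((a * b) * (a * b)) * (x * y) * (a * b)⁻¹ := by group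
      _ = _ := by rw [this, inv_eq_of_mul_eq_one_right this, pow_two]; group
  have key : ∀ c : G, Commute c (a * b) → Commute c ((x * y) * (a * b) * (x * y)⁻¹) →
      (c * (x * y) * c⁻¹) ^ 2 = (x * y) ^ 2 := by
    intro c h1 h2
    rw [e] at h2
    have : Commute c ((x * y) ^ 2) := by
      have := h2.mul_right h1.inv_right
      rwa [mul_inv_cancel_right] at this
    rw [conj_pow, this.mul_inv_cancel]
  have hx4 : ¬ (x⁻¹ * y) ^ 2 = (x * y) ^ 2 := by
    intro h1
    rw [hxy.mul_pow, hxy.inv_left.mul_pow, mul_left_inj, inv_pow, inv_eq_iff_mul_eq_one, ← pow_add] at h1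
    exact sq_ne hx hxo (k := 2) h1
  have hy4 : ¬ (x * y⁻¹) ^ 2 = (x * y) ^ 2 := by
    intro h1
    rw [hxy.mul_pow, hxy.inv_right.mul_pow, mul_right_inj, inv_pow, inv_eq_iff_mul_eq_one, ← pow_add] at h1
    exact sq_ne hy hyo (k := 2) h1
  rcases h (x * y) with h1 | h1 | h1
  · exact hx4 (ea ▸ key a ((Commute.refl a).mul_right hab) h1)
  · exact hy4 (eb ▸ key b (hab.symm.mul_right (Commute.refl b)) h1)
  · have h2 := key _ (Commute.refl _) h1
    rw [eab, inv_pow, inv_eq_iff_mul_eq_one, ← pow_add] at h2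
    have h3 : (a * (x * y) * a⁻¹) ^ (2 + 2) = 1 := by rw [conj_pow, h2]; group
    rw [ea, hxy.inv_left.mul_pow] at h3
    rw [hxy.mul_pow] at h2
    have h4 : x ^ 2 ^ 3 = 1 := by
      have := h2.trans h3.symm
      rw [mul_left_inj, inv_pow, eq_inv_iff_mul_eq_one, ← pow_add] at this
      exact this
    exact sq_ne hx hxo h4

/-- the step after finding an odd element inverted by `a` and centralized by `b` -/
private theorem step {G : Type*} [Group G] [Finite G] {a b x : G} (ha : a * a = 1) (hb : orderOf b = 2)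
    (hab : Commute a b) (hx : (orderOf x).Prime) (hxo : Odd (orderOf x)) (hax : a * x * a⁻¹ = x⁻¹)
    (hbx : Commute b x) (hbO : b ∉ Cfsg.pCore 2 G)
    (h : ∀ c : G, c = b ∨ c = a * b ∨ c = a → ∀ g : G, Commute a (g * c * g⁻¹) ∨ Commute b (g * c * g⁻¹) ∨
      Commute (a * b) (g * c * g⁻¹)) : False := by
  obtain ⟨y, hy, hyo, hby⟩ := inverts_prime b hb hbO
  have hb2 : b * b = 1 := by rw [← pow_two, ← hb, pow_orderOf_eq_one]
  have hai : a⁻¹ = a := inv_eq_of_mul_eq_one_right ha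
  have hbi : b⁻¹ = b := inv_eq_of_mul_eq_one_right hb2
  have eb : y * b * y⁻¹ = y ^ 2 * b := by
    rw [← hby, pow_two]
    calc y * b * (b * y * b⁻¹) = y * (b * b) * y * b⁻¹ := by group
      _ = _ := by rw [hb2, hbi]; group
  have hnc : ¬ Commute b (y * b * y⁻¹) := by
    intro h1
    rw [eb] at h1
    have h2 : Commute b (y ^ 2) := by simpa using h1.mul_right (Commute.refl b).inv_right
    have h3 : (b * y * b⁻¹) ^ 2 = y ^ 2 := by rw [conj_pow, h2.mul_inv_cancel]
    rw [hby, inv_pow, inv_eq_iff_mul_eq_one, ← pow_add] at h3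
    exact sq_ne hy hyo (k := 2) h3
  -- the conjugate `b'` commutes with `x^i a x^-i` or with its product by `b`
  have ea : ∀ i : ℕ, x ^ i * a * (x ^ i)⁻¹ = x ^ (2 * i) * a := by
    intro i
    have : a * x ^ i * a⁻¹ = (x ^ i)⁻¹ := by rw [← conj_pow, hax, inv_pow]
    rw [← this, two_mul, pow_add]
    calc x ^ i * a * (a * x ^ i * a⁻¹) = x ^ i * (a * a) * x ^ i * a⁻¹ := by group
      _ = _ := by rw [ha, hai]; group
  have hi : ∀ i : ℕ, Commute (y * b * y⁻¹) (x ^ (2 * i) * a) ∨ Commute (y * b * y⁻¹) (x ^ (2 * i) * a * b) := by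
    intro i
    have hc : ∀ c : G, Commute c ((x ^ i)⁻¹ * y * b * ((x ^ i)⁻¹ * y)⁻¹) →
        Commute (y * b * y⁻¹) (x ^ i * c * (x ^ i)⁻¹) := by
      intro c hc
      have := hc.symm.conj (x ^ i)
      simpa [mul_assoc] using this
    rcases h b (Or.inl rfl) ((x ^ i)⁻¹ * y) with h1 | h1 | h1
    · exact Or.inl (ea i ▸ hc _ h1)
    · exfalso
      have := hc _ h1
      rw [(hbx.pow_right i).symm.mul_inv_cancel] at this
      exact hnc this.symm
    · right
      have := hc _ h1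
      rw [← ea i]
      convert this using 1
      rw [mul_assoc (x ^ i * a), ← (hbx.pow_right i).inv_right.eq]
      group
  have hbx' : Commute (y * b * y⁻¹) x := by
    have k1 : ∀ i j : ℕ, ∀ c : G, Commute (y * b * y⁻¹) (x ^ (2 * i) * c) →
        Commute (y * b * y⁻¹) (x ^ (2 * (i + j)) * c) → Commute (y * b * y⁻¹) (x ^ (2 * j)) := by
      intro i j c h1 h2
      have := h2.mul_right h1.inv_right
      have e : x ^ (2 * (i + j)) * c * (x ^ (2 * i) * c)⁻¹ = x ^ (2 * j) := by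
        rw [mul_add, add_comm, pow_add]
        group
      rwa [e] at this
    have h0 := hi 0
    have h1 := hi 1
    have h2 := hi 2
    simp only [mul_assoc (x ^ _) a b] at h0 h1 h2
    rcases h0 with h0 | h0 <;> rcases h1 with h1 | h1 <;> rcases h2 with h2 | h2
    all_goals first
      | exact commute_of_pow hx hxo (Or.inl rfl) (k1 0 1 _ h0 h1)
      | exact commute_of_pow hx hxo (Or.inr rfl) (k1 0 2 _ h0 h2)
      | exact commute_of_pow hx hxo (Or.inl rfl) (k1 1 1 _ h1 h2)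
  have hyx : Commute x y := by
    apply commute_of_pow hy hyo (Or.inl rfl)
    rw [eb] at hbx'
    simpa using hbx'.symm.mul_right hbx.symm.inv_right
  have hcy : ∀ c : G, Commute c b → Commute (y * b * y⁻¹) c → Commute c y := by
    intro c h1 h2
    apply commute_of_pow hy hyo (Or.inl rfl)
    rw [eb] at h2
    simpa using h2.symm.mul_right h1.inv_right
  rcases hi 0 with h0 | h0
  · simp only [mul_zero, pow_zero, one_mul] at h0
    exact final ha hb2 hab hx hxo hy hyo hax hby hbx (hcy a hab h0) hyx (h _ (Or.inr (Or.inl rfl)))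
  · simp only [mul_zero, pow_zero, one_mul] at h0
    have hab2 : a * b * (a * b) = 1 := by
      rw [← pow_two, hab.mul_pow, pow_two, pow_two, ha, hb2, one_mul]
    have e : a * b * b = a := by rw [mul_assoc, hb2, mul_one]
    refine final hab2 hb2 (hab.mul_left (Commute.refl b)) hx hxo hy hyo ?_ hby hbx
      (hcy _ (hab.mul_left (Commute.refl b)) h0) hyx ?_
    · calc a * b * x * (a * b)⁻¹ = a * (b * x * b⁻¹) * a⁻¹ := by group
        _ = _ := by rw [hbx.mul_inv_cancel, hax]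
    · intro g
      rw [e]
      have := h a (Or.inr (Or.inr rfl)) g
      tauto

/-- Let A be a Klein four-subgroup of a finite group G. If every G-conjugate of every involution of A commutes with some involution of A (its centralizer meets A nontrivially), then A meets the largest normal 2-subgroup O₂(G) nontrivially. -/
theorem result {G : Type*} [Group G] [Finite G]
    (A : Subgroup G) (hA : IsKleinFour ↥A)
    (h : ∀ a ∈ A, a ≠ 1 → ∀ g : G, A ⊓ Subgroup.centralizer ({g * a * g⁻¹} : Set G) ≠ ⊥) :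
    A ⊓ Cfsg.pCore 2 G ≠ ⊥ := by
  intro hbot
  have hO : ∀ a ∈ A, a ≠ 1 → a ∉ Cfsg.pCore 2 G := fun a ha h1 h2 =>
    h1 (Subgroup.mem_bot.1 (hbot ▸ (⟨ha, h2⟩ : a ∈ A ⊓ Cfsg.pCore 2 G)))
  have hsq : ∀ a ∈ A, a * a = 1 := fun a ha => congrArg Subtype.val (IsKleinFour.mul_self (⟨a, ha⟩ : A))
  have hord : ∀ a ∈ A, a ≠ 1 → orderOf a = 2 := fun a ha h1 =>
    orderOf_eq_prime (by rw [pow_two, hsq a ha]) h1
  have hcomm : ∀ a ∈ A, ∀ b ∈ A, Commute a b := by
    intro a ha b hb
    have h1 := hsq _ (A.mul_mem ha hb)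
    have h2 : (a * b)⁻¹ = a * b := inv_eq_of_mul_eq_one_right h1
    rw [mul_inv_rev, inv_eq_of_mul_eq_one_right (hsq a ha), inv_eq_of_mul_eq_one_right (hsq b hb)] at h2
    exact h2.symm
  have h' : ∀ a ∈ A, a ≠ 1 → ∀ g : G, ∃ b ∈ A, b ≠ 1 ∧ Commute b (g * a * g⁻¹) := by
    intro a ha h1 g
    obtain ⟨⟨b, hb, hb'⟩, hb1⟩ := (Subgroup.ne_bot_iff_exists_ne_one).1 (h a ha h1 g)
    exact ⟨b, hb, fun e => hb1 (Subtype.ext e), Subgroup.mem_centralizer_singleton_iff.1 hb'⟩
  have : Nontrivial A := by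
    have := hA.card_four
    exact Finite.one_lt_card_iff_nontrivial.1 (by omega)
  obtain ⟨⟨a, ha⟩, ha1'⟩ := exists_ne (1 : A)
  have ha1 : a ≠ 1 := fun e => ha1' (Subtype.ext e)
  obtain ⟨x, hx, hxo, hax⟩ := inverts_prime a (hord a ha ha1) (hO a ha ha1)
  obtain ⟨b, hb, hb1, hbc⟩ := h' a ha ha1 x
  have hai : a⁻¹ = a := inv_eq_of_mul_eq_one_right (hsq a ha)
  have ea : x * a * x⁻¹ = x ^ 2 * a := by
    rw [← hax, pow_two]
    calc x * a * (a * x * a⁻¹) = x * (a * a) * x * a⁻¹ := by group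
      _ = _ := by rw [hsq a ha, hai]; group
  have hbx : Commute b x := by
    apply commute_of_pow hx hxo (Or.inl rfl)
    rw [ea] at hbc
    simpa using hbc.mul_right (hcomm b hb a ha).inv_right
  have hne : a ≠ b := by
    rintro rfl
    rw [hbx.mul_inv_cancel, eq_inv_iff_mul_eq_one, ← pow_two] at hax
    exact sq_ne hx hxo (k := 1) hax
  have hall : ∀ c ∈ A, c ≠ 1 → c = a ∨ c = b ∨ c = a * b := by
    intro c hc h1
    by_cases h2 : c = a
    · exact Or.inl h2
    by_cases h3 : c = b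
    · exact Or.inr (Or.inl h3)
    refine Or.inr (Or.inr ?_)
    have := IsKleinFour.eq_mul_of_ne_all (x := (⟨a, ha⟩ : A)) (y := ⟨b, hb⟩) (z := ⟨c, hc⟩)
      ha1' (fun e => hb1 (congrArg Subtype.val e)) (fun e => hne (congrArg Subtype.val e))
      (fun e => h1 (congrArg Subtype.val e)) (fun e => h2 (congrArg Subtype.val e))
      (fun e => h3 (congrArg Subtype.val e))
    exact congrArg Subtype.val this
  refine step (hsq a ha) (hord b hb hb1) (hcomm a ha b hb) hx hxo hax hbx (hO b hb hb1) ?_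
  intro c hc g
  have hcA : c ∈ A ∧ c ≠ 1 := by
    rcases hc with rfl | rfl | rfl
    · exact ⟨hb, hb1⟩
    · refine ⟨A.mul_mem ha hb, fun e => hne ?_⟩
      rw [← hai]; exact inv_eq_of_mul_eq_one_right e
    · exact ⟨ha, ha1⟩
  obtain ⟨d, hd, hd1, hdc⟩ := h' c hcA.1 hcA.2 g
  rcases hall d hd hd1 with rfl | rfl | rfl
  · exact Or.inl hdc
  · exact Or.inr (Or.inl hdc)
  · exact Or.inr (Or.inr hdc)

end Cfsg.Agent.S3195
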