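import Mathlib
import Cfsg.Statements.S3196

set_option autoImplicit false
open Cfsg

namespace Cfsg.Agent.S3196

open Subgroup

variable {G : Type*} [Group G]

private theorem comm_of_mem {x a b c : G} (ha : Commute x a) (hb : Commute x b)
    (hc : c ∈ zpowers a ⊔ zpowers b) : Commute x c := by
  have : zpowers a ⊔ zpowers b ≤ centralizer ({x} : Set G) :=
    sup_le (zpowers_le.2 (mem_centralizer_singleton_iff.2 ha.symm.eq))
      (zpowers_le.2 (mem_centralizer_singleton_iff.2 hb.symm.eq))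
  exact (mem_centralizer_singleton_iff.1 (this hc)).symm

private theorem comm_of_mem₁ {x a c : G} (ha : Commute x a) (hc : c ∈ zpowers a) : Commute x c :=
  comm_of_mem ha ha (mem_sup_left hc)

private theorem exists_of_mem {a b c : G} (hab : Commute a b) (hc : c ∈ zpowers a ⊔ zpowers b) :
    ∃ i j : ℤ, c = a ^ i * b ^ j := by
  let H : Subgroup G :=
    { carrier := {c | ∃ i j : ℤ, c = a ^ i * b ^ j}
      mul_mem' := by
        rintro _ _ ⟨i, j, rfl⟩ ⟨k, l, rfl⟩
        refine ⟨i + k, j + l, ?_⟩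
        rw [zpow_add, zpow_add, (hab.zpow_zpow k j).symm.mul_mul_mul_comm]
      one_mem' := ⟨0, 0, by simp⟩
      inv_mem' := by
        rintro _ ⟨i, j, rfl⟩
        refine ⟨-i, -j, ?_⟩
        rw [(hab.zpow_zpow i j).eq]
        simp }
  have : zpowers a ⊔ zpowers b ≤ H :=
    sup_le (zpowers_le.2 ⟨1, 0, by simp⟩) (zpowers_le.2 ⟨0, 1, by simp⟩)
  exact this hc

private theorem mem_of_mem [Finite G] {p : ℕ} (hp : p.Prime) {a c : G} (ha : orderOf a = p)
    (hc : c ∈ zpowers a) (h1 : c ≠ 1) : a ∈ zpowers c := by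
  have : Fact p.Prime := ⟨hp⟩
  have hcard : Nat.card (zpowers a) = p := by rw [Nat.card_zpowers, ha]
  have := mem_zpowers_of_prime_card hcard (g := (⟨c, hc⟩ : zpowers a)) (g' := ⟨a, mem_zpowers a⟩)
    (fun e => h1 (congrArg Subtype.val e))
  obtain ⟨k, hk⟩ := this
  exact ⟨k, congrArg Subtype.val hk⟩

private theorem exchange [Finite G] {p : ℕ} (hp : p.Prime) {a b c : G} (hb : orderOf b = p)
    (hab : Commute a b) (hc : c ∈ zpowers a ⊔ zpowers b) (hca : c ∉ zpowers a) :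
    b ∈ zpowers a ⊔ zpowers c := by
  obtain ⟨i, j, rfl⟩ := exists_of_mem hab hc
  have h1 : b ^ j ≠ 1 := fun e => hca (by rw [e, mul_one]; exact zpow_mem_zpowers a i)
  have h2 := mem_of_mem hp hb (zpow_mem_zpowers b j) h1
  refine (zpowers_le.2 ?_) h2
  have := mul_mem_sup (inv_mem (zpow_mem_zpowers a i)) (mem_zpowers (a ^ i * b ^ j))
  simpa using this

/-- the abstract geometry on elements -/
private structure Geo (p : ℕ) (D : Set G) : Prop where
  ord : ∀ a ∈ D, orderOf a = p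
  conj : ∀ a ∈ D, ∀ g : G, g * a * g⁻¹ ∈ D
  line : ∀ a ∈ D, ∀ b ∈ D, Commute a b → b ∉ zpowers a → ∀ c ∈ zpowers a ⊔ zpowers b, c ≠ 1 → c ∈ D
  perp : ∀ a ∈ D, ∀ b ∈ D, Commute a b → b ∉ zpowers a → ∀ w ∈ D,
    ∃ c ∈ zpowers a ⊔ zpowers b, c ≠ 1 ∧ Commute w c
  ex : ∃ a ∈ D, ∃ b ∈ D, Commute a b ∧ b ∉ zpowers a
  rad : ∀ a ∈ D, ∃ w ∈ D, ¬ Commute w a

private theorem Geo.sub [Finite G] {p : ℕ} (hp : p.Prime) {D : Set G} (h : Geo p D) {a b : G}
    (ha : a ∈ D) (hb : b ∈ D) (hab : ∀ x ∈ D, Commute x a → Commute x b) : b ∈ zpowers a := by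
  by_contra hba
  have cab : Commute a b := hab a ha (Commute.refl a)
  obtain ⟨c, hc, hcb⟩ := h.rad b hb
  obtain ⟨d, hd, hd1, hcd⟩ := h.perp a ha b hb cab hba c hc
  have hdD := h.line a ha b hb cab hba d hd hd1
  have had : ∀ x ∈ D, Commute x a → Commute x d := fun x hx hxa => comm_of_mem hxa (hab x hx hxa) hd
  obtain ⟨e, he, hed⟩ := h.rad d hdD
  have hbd : Commute b d := comm_of_mem cab.symm (Commute.refl b) hd
  have hcd' : c ∉ zpowers d := fun hm => hcb (comm_of_mem₁ hbd hm).symm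
  obtain ⟨f, hf, hf1, hef⟩ := h.perp d hdD c hc hcd.symm hcd' e he
  have hfD := h.line d hdD c hc hcd.symm hcd' f hf hf1
  have hfd : f ∉ zpowers d := fun hm => hed (comm_of_mem₁ hef (mem_of_mem hp (h.ord d hdD) hm hf1))
  have hfa : ¬ Commute a f := fun haf =>
    hcb (hab c hc (comm_of_mem (had a ha (Commute.refl a)) haf
      (exchange hp (h.ord c hc) hcd.symm hf hfd)).symm)
  have hdf : Commute d f := comm_of_mem (Commute.refl d) hcd.symm hf
  have hef' : e ∉ zpowers f := fun hm => hed (comm_of_mem₁ hdf hm).symm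
  obtain ⟨g, hg, hg1, hag⟩ := h.perp f hfD e he hef.symm hef' a ha
  have hgD := h.line f hfD e he hef.symm hef' g hg hg1
  have hgf : g ∉ zpowers f := fun hm => hfa (comm_of_mem₁ hag (mem_of_mem hp (h.ord f hfD) hm hg1))
  exact hed (comm_of_mem hdf (had g hgD hag.symm).symm (exchange hp (h.ord e he) hef.symm hg hgf)).symm

private theorem Geo.conj_comm [Finite G] {p : ℕ} (hp : p.Prime) {D : Set G} (h : Geo p D) {u y : G}
    (hu : u ∈ D) (hy : y ∈ D) (huy : ¬ Commute u y) : Commute u (y * u * y⁻¹) := by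
  have hq : ∃ q ∈ D, Commute y q ∧ q ∉ zpowers y := by
    obtain ⟨a, ha, b, hb, hab, hba⟩ := h.ex
    obtain ⟨c, hc, hc1, hyc⟩ := h.perp a ha b hb hab hba y hy
    by_cases hcy : c ∈ zpowers y
    · have hy' := mem_of_mem hp (h.ord y hy) hcy hc1
      have hay : Commute a y := comm_of_mem₁ (comm_of_mem (Commute.refl a) hab hc) hy'
      have hby : Commute b y := comm_of_mem₁ (comm_of_mem hab.symm (Commute.refl b) hc) hy'
      by_cases hay' : a ∈ zpowers y
      · refine ⟨b, hb, hby.symm, fun hm => hba ?_⟩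
        have ha1 : a ≠ 1 := by
          intro e
          have := h.ord a ha
          rw [e, orderOf_one] at this
          exact hp.one_lt.ne this
        exact zpowers_le.2 (mem_of_mem hp (h.ord y hy) hay' ha1) hm
      · exact ⟨a, ha, hay.symm, hay'⟩
    · exact ⟨c, h.line a ha b hb hab hba c hc hc1, hyc, hcy⟩
  obtain ⟨q, hq, hyq, hqy⟩ := hq
  obtain ⟨x, hx, hx1, hux⟩ := h.perp y hy q hq hyq hqy u hu
  have hxD := h.line y hy q hq hyq hqy x hx hx1
  have hyx : Commute y x := comm_of_mem (Commute.refl y) hyq hx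
  have hxy : x ∉ zpowers y := fun hm => huy (comm_of_mem₁ hux (mem_of_mem hp (h.ord y hy) hm hx1))
  have hz1 : y * x ≠ 1 := fun e => hxy (by rw [eq_inv_of_mul_eq_one_right e]; exact inv_mem (mem_zpowers y))
  have hzD : y * x ∈ D := h.line y hy x hxD hyx hxy _ (mul_mem_sup (mem_zpowers y) (mem_zpowers x)) hz1
  have hxu : x ∉ zpowers u := fun hm => huy (comm_of_mem₁ hyx (mem_of_mem hp (h.ord u hu) hm hx1)).symm
  have hn : ∃ n ∈ D, Commute n u ∧ ¬ Commute n x := by
    by_contra hcon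
    push Not at hcon
    exact hxu (h.sub hp hu hxD hcon)
  obtain ⟨n, hn, hnu, hnx⟩ := hn
  have hnu' : n ∉ zpowers u := fun hm => hnx (comm_of_mem₁ hux.symm hm).symm
  obtain ⟨n₁, hn₁, hn₁1, hyn₁⟩ := h.perp u hu n hn hnu.symm hnu' y hy
  obtain ⟨n₂, hn₂, hn₂1, hzn₂⟩ := h.perp u hu n hn hnu.symm hnu' _ hzD
  have hn₁D := h.line u hu n hn hnu.symm hnu' _ hn₁ hn₁1
  have hun₁ : Commute u n₁ := comm_of_mem (Commute.refl u) hnu.symm hn₁
  have hun₂ : Commute u n₂ := comm_of_mem (Commute.refl u) hnu.symm hn₂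
  have c1 : Commute (y * u * y⁻¹) n₁ := (hyn₁.mul_left hun₁).mul_left hyn₁.inv_left
  have c2 : Commute (y * u * y⁻¹) n₂ := by
    have e : y * u * y⁻¹ = y * x * u * (y * x)⁻¹ := by
      rw [mul_assoc y x u, ← hux.eq]; group
    rw [e]
    exact (hzn₂.mul_left hun₂).mul_left hzn₂.inv_left
  have hn₁u : n₁ ∉ zpowers u := fun hm =>
    huy (comm_of_mem₁ hyn₁ (mem_of_mem hp (h.ord u hu) hm hn₁1)).symm
  have hnm := exchange hp (h.ord n hn) hnu.symm hn₁ hn₁u
  have hn₂' : n₂ ∈ zpowers n₁ ⊔ zpowers u := by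
    rw [sup_comm]
    exact (sup_le le_sup_left (zpowers_le.2 hnm) : zpowers u ⊔ zpowers n ≤ _) hn₂
  have hn₂n₁ : n₂ ∉ zpowers n₁ := by
    intro hm
    have h1 : Commute (y * x) n₁ := comm_of_mem₁ hzn₂ (mem_of_mem hp (h.ord _ hn₁D) hm hn₂1)
    have h2 : Commute x n₁ := by simpa using hyn₁.inv_left.mul_left h1
    exact hnx (comm_of_mem hux.symm h2 hnm).symm
  exact (comm_of_mem c1 c2 (exchange hp (h.ord u hu) hun₁.symm hn₂' hn₂n₁)).symm

private theorem Geo.false [Finite G] {p : ℕ} (hp : p.Prime) {D : Set G} (h : Geo p D) : False := by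
  obtain ⟨y, hy, -⟩ := h.ex
  obtain ⟨u, hu, huy⟩ := h.rad y hy
  have h1 := h.conj_comm hp hu hy huy
  have h2 := h.conj_comm hp hy hu (fun e => huy e.symm)
  set w := u * (y * u * y⁻¹)⁻¹ with hw
  have hw1 : w ≠ 1 := by
    intro e
    rw [hw, mul_inv_eq_one, eq_mul_inv_iff_mul_eq] at e
    exact huy e
  have huw : Commute u w := (Commute.refl u).mul_right h1.inv_right
  have hyw : Commute y w := by
    have e : w = u * y * u⁻¹ * y⁻¹ := by rw [hw]; group
    rw [e]
    exact h2.mul_right (Commute.refl y).inv_right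
  have hwu : w ∉ zpowers u := fun hm =>
    huy (comm_of_mem₁ hyw (mem_of_mem hp (h.ord u hu) hm hw1)).symm
  have hu' : y * u * y⁻¹ ∉ zpowers u := fun hm => hwu (mul_mem (mem_zpowers u) (inv_mem hm))
  have hwD : w ∈ D := h.line u hu _ (h.conj u hu y) h1 hu' w
    (mul_mem_sup (mem_zpowers u) (inv_mem (mem_zpowers _))) hw1
  apply hwu
  apply h.sub hp hu hwD
  intro n hn hnu
  by_cases hm : n ∈ zpowers u
  · exact (comm_of_mem₁ huw.symm hm).symm
  · obtain ⟨n₁, hn₁, hn₁1, hyn₁⟩ := h.perp u hu n hn hnu.symm hm y hy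
    have hun₁ : Commute u n₁ := comm_of_mem (Commute.refl u) hnu.symm hn₁
    have hn₁u : n₁ ∉ zpowers u := fun hm =>
      huy (comm_of_mem₁ hyn₁ (mem_of_mem hp (h.ord u hu) hm hn₁1)).symm
    have hwn₁ : Commute w n₁ :=
      hun₁.mul_left ((hyn₁.mul_left hun₁).mul_left hyn₁.inv_left).inv_left
    exact (comm_of_mem huw.symm hwn₁ (exchange hp (h.ord n hn) hnu.symm hn₁ hn₁u)).symm

/-- Let p be a prime and K a set of subgroups of order p of a finite group G, closed under conjugation, such that at least two distinct members of K commute elementwise, and whenever two distinct members X, Y of K commute: every subgroup of order p of the group XY they generate belongs to K, and every member W of K has centralizer meeting XY nontrivially. Then some member V of K commutes elementwise with every member of K and lies in O_p(G); in particular G is not simple. -/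
theorem result {G : Type*} [Group G] [Finite G]
    {p : ℕ} (hp : p.Prime) (K : Set (Subgroup G)) (hK : ∀ X ∈ K, Nat.card ↥X = p)
    (hKc : ∀ X ∈ K, ∀ g : G, X.map (MulAut.conj g).toMonoidHom ∈ K)
    (hex : ∃ X ∈ K, ∃ Y ∈ K, X ≠ Y ∧ ∀ x ∈ X, ∀ y ∈ Y, x * y = y * x)
    (ha : ∀ X ∈ K, ∀ Y ∈ K, X ≠ Y → (∀ x ∈ X, ∀ y ∈ Y, x * y = y * x) →
      ∀ Z : Subgroup G, Z ≤ X ⊔ Y → Nat.card ↥Z = p → Z ∈ K)
    (hb : ∀ X ∈ K, ∀ Y ∈ K, X ≠ Y → (∀ x ∈ X, ∀ y ∈ Y, x * y = y * x) →
      ∀ W ∈ K, (X ⊔ Y) ⊓ Subgroup.centralizer (W : Set G) ≠ ⊥) :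
    (∃ V ∈ K, (∀ W ∈ K, ∀ v ∈ V, ∀ w ∈ W, v * w = w * v) ∧ V ≤ Cfsg.pCore p G) ∧ ¬ IsSimpleGroup G := by
  have : Fact p.Prime := ⟨hp⟩
  have hgen : ∀ X ∈ K, ∃ x : G, X = zpowers x := by
    intro X hX
    have : IsCyclic X := isCyclic_of_prime_card (hK X hX)
    obtain ⟨x, hx⟩ := (Subgroup.isCyclic_iff_exists_zpowers_eq_top X).1 this
    exact ⟨x, hx.symm⟩
  have hcz : ∀ a b : G, Commute a b → ∀ x ∈ zpowers a, ∀ y ∈ zpowers b, x * y = y * x :=
    fun a b hab x hx y hy => (comm_of_mem₁ (comm_of_mem₁ hab hy).symm hx).symm.eq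
  have hV : ∃ V ∈ K, ∀ W ∈ K, ∀ v ∈ V, ∀ w ∈ W, v * w = w * v := by
    by_contra hcon
    push Not at hcon
    have hord : ∀ a : G, zpowers a ∈ K → orderOf a = p := fun a ha => by
      rw [← Nat.card_zpowers, hK _ ha]
    apply Geo.false hp (D := {a : G | zpowers a ∈ K})
    refine ⟨hord, fun a ha g => ?_, fun a ha' b hb' hab hba c hc hc1 => ?_,
      fun a ha' b hb' hab hba w hw => ?_, ?_, fun a ha' => ?_⟩
    · have := hKc _ ha g
      rwa [MonoidHom.map_zpowers] at this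
    · refine ha _ ha' _ hb' (fun e => hba (e ▸ mem_zpowers b)) (hcz a b hab) _ (zpowers_le.2 hc) ?_
      rw [Nat.card_zpowers]
      refine orderOf_eq_prime ?_ hc1
      obtain ⟨i, j, rfl⟩ := exists_of_mem hab hc
      rw [(hab.zpow_zpow i j).mul_pow, ← zpow_natCast, ← zpow_natCast, ← zpow_mul, ← zpow_mul,
        mul_comm i, mul_comm j, zpow_mul, zpow_mul, zpow_natCast, zpow_natCast]
      conv_lhs => rw [← hord a ha', pow_orderOf_eq_one, hord a ha', ← hord b hb', pow_orderOf_eq_one]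
      simp
    · obtain ⟨⟨c, hc, hc'⟩, hc1⟩ := (ne_bot_iff_exists_ne_one).1
        (hb _ ha' _ hb' (fun e => hba (e ▸ mem_zpowers b)) (hcz a b hab) _ hw)
      exact ⟨c, hc, fun e => hc1 (Subtype.ext e), mem_centralizer_iff.1 hc' w (mem_zpowers w)⟩
    · obtain ⟨X, hX, Y, hY, hXY, hc⟩ := hex
      obtain ⟨x, rfl⟩ := hgen X hX
      obtain ⟨y, rfl⟩ := hgen Y hY
      refine ⟨x, hX, y, hY, hc x (mem_zpowers x) y (mem_zpowers y), fun hm => hXY ?_⟩
      exact (eq_of_le_of_card_ge (zpowers_le.2 hm) (by rw [hK _ hX, hK _ hY])).symm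
    · obtain ⟨W, hW, v, hv, w, hw, hvw⟩ := hcon _ ha'
      obtain ⟨x, rfl⟩ := hgen W hW
      exact ⟨x, hW, fun hc => hvw (hcz _ _ hc.symm v hv w hw)⟩
  obtain ⟨V, hVK, hVc⟩ := hV
  have hVp : IsPGroup p (normalClosure (V : Set G)) := by
    -- the normal closure is generated by commuting elements of order dividing `p`
    have hconj : ∀ a ∈ Group.conjugatesOfSet (V : Set G), ∃ g : G,
        a ∈ V.map (MulAut.conj g).toMonoidHom := by
      intro a ha
      obtain ⟨v, hv, hc⟩ := Group.mem_conjugatesOfSet_iff.1 ha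
      obtain ⟨g, rfl⟩ := isConj_iff.1 hc
      exact ⟨g, v, hv, rfl⟩
    have hcomm : ∀ a ∈ Group.conjugatesOfSet (V : Set G), ∀ b ∈ Group.conjugatesOfSet (V : Set G),
        a * b = b * a := by
      intro a ha b hb
      obtain ⟨g, v, hv, rfl⟩ := hconj a ha
      obtain ⟨g', hb'⟩ := hconj b hb
      have h1 := hKc _ (hKc _ hVK g') g⁻¹
      have h2 := hVc _ h1 v hv _ ⟨b, hb', rfl⟩
      simp only [MulEquiv.toMonoidHom_eq_coe, MonoidHom.coe_coe, MulAut.conj_apply] at h2 ⊢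
      calc g * v * g⁻¹ * b = g * (v * (g⁻¹ * b * g⁻¹⁻¹)) * g⁻¹ := by group
        _ = g * (g⁻¹ * b * g⁻¹⁻¹ * v) * g⁻¹ := by rw [h2]
        _ = _ := by group
    have hpow : ∀ a ∈ normalClosure (V : Set G), a ^ p = 1 := by
      intro a ha
      induction ha using closure_induction with
      | mem a ha =>
        obtain ⟨g, hg⟩ := hconj a ha
        have := pow_card_eq_one' (x := (⟨a, hg⟩ : V.map (MulAut.conj g).toMonoidHom))
        rw [hK _ (hKc _ hVK g)] at this
        exact congrArg Subtype.val this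
      | one => exact one_pow p
      | mul a b ha hb iha ihb =>
        have hI := isMulCommutative_closure hcomm
        have : Commute a b := congrArg Subtype.val (mul_comm' (⟨a, ha⟩ : Subgroup.closure (Group.conjugatesOfSet (V : Set G))) ⟨b, hb⟩)
        rw [this.mul_pow, iha, ihb, one_mul]
      | inv a ha iha => rw [inv_pow, iha, inv_one]
    intro a
    exact ⟨1, Subtype.ext (by simpa using hpow a a.2)⟩
  have hle : V ≤ Cfsg.pCore p G :=
    le_normalClosure.trans (le_sSup (s := {N : Subgroup G | N.Normal ∧ IsPGroup p N}) ⟨inferInstance, hVp⟩)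
  refine ⟨⟨V, hVK, hVc, hle⟩, fun hs => ?_⟩
  have hV1 : V ≠ ⊥ := by
    intro e
    have := hK V hVK
    rw [e, card_bot] at this
    exact hp.one_lt.ne this
  have htop : normalClosure (V : Set G) = ⊤ :=
    (normalClosure_normal.eq_bot_or_eq_top).resolve_left fun e => hV1 (le_bot_iff.1 (e ▸ le_normalClosure))
  have hG : IsPGroup p G := by
    rw [htop] at hVp
    exact hVp.of_equiv topEquiv
  have hc : center G = ⊤ :=
    ((inferInstance : (center G).Normal).eq_bot_or_eq_top).resolve_left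
      ((nontrivial_iff_ne_bot _).1 hG.center_nontrivial)
  obtain ⟨X, hX, Y, hY, hXY, -⟩ := hex
  have hall : ∀ X ∈ K, X = ⊤ := by
    intro X hX
    have hn : X.Normal := ⟨fun a ha g => by
      have := mem_center_iff.1 (hc ▸ mem_top a) g
      rw [this, mul_inv_cancel_right]; exact ha⟩
    refine hn.eq_bot_or_eq_top.resolve_left fun e => ?_
    have := hK X hX
    rw [e, card_bot] at this
    exact hp.one_lt.ne this
  exact hXY ((hall X hX).trans (hall Y hY).symm)

end Cfsg.Agent.S3196
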