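import Mathlib
import Cfsg.Statements.S3200
import Cfsg.Agent.S0143
import Cfsg.Agent.GT.Hall
import Cfsg.Agent.GT.MinNormal

set_option autoImplicit false
open Cfsg

namespace Cfsg.Agent.S3200

open Cfsg.Agent.GT
open scoped Pointwise

universe u

private theorem solv (G : Type u) [Group G] [Finite G] :
    (∃ C : Subgroup G, IsMulCommutative C ∧ IsPiHall ({2}ᶜ : Set ℕ) C) → Group.IsSolvable G := by
  refine subgroup_quotient_induction
    (P := fun G _ _ => (∃ C : Subgroup G, IsMulCommutative C ∧ IsPiHall ({2}ᶜ : Set ℕ) C) →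
      Group.IsSolvable G) ?_ G
  intro G _ _ ih1 ih2
  rintro ⟨C, hC, hH⟩
  by_cases hN : ∃ N : Subgroup G, N.Normal ∧ N ≠ ⊥ ∧ N ≠ ⊤
  · obtain ⟨N, hNn, h1, h2⟩ := hN
    have s1 := ih1 N h2 ⟨C.subgroupOf N, inferInstance, hH.subgroupOf_normal N⟩
    have s2 := ih2 N h1 ⟨C.map (QuotientGroup.mk' N), inferInstance,
      hH.map_of_surjective (QuotientGroup.mk'_surjective N)⟩
    exact Group.isSolvable_of_ker_le_range N.subtype (QuotientGroup.mk' N) (by simp)
  · rcases subsingleton_or_nontrivial G with h | h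
    · infer_instance
    have : IsSimpleGroup G := ⟨fun N hNn => by
      by_contra hcon
      push Not at hcon
      exact hN ⟨N, hNn, hcon.1, hcon.2⟩⟩
    obtain ⟨-, k, hk⟩ := (isPiHall_compl_singleton_iff Nat.prime_two).1 hH
    by_cases hC1 : C = ⊥
    · rw [hC1, Subgroup.index_bot] at hk
      have := (IsPGroup.of_card hk).isNilpotent
      infer_instance
    · obtain ⟨⟨c, hc⟩, hc1⟩ := Subgroup.ne_bot_iff_exists_ne_one.1 hC1
      have hle : C ≤ Subgroup.centralizer ({c} : Set G) := fun x hx =>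
        Subgroup.mem_centralizer_singleton_iff.2
          (congrArg Subtype.val (mul_comm' (⟨x, hx⟩ : C) ⟨c, hc⟩))
      have hd := Subgroup.index_dvd_of_le hle
      rw [hk] at hd
      obtain ⟨j, -, hj⟩ := (Nat.dvd_prime_pow Nat.prime_two).1 hd
      have hp := S0143.result 2 j Nat.prime_two c (fun e => hc1 (Subtype.ext e)) hj
      have : Fact (Nat.card G).Prime := ⟨hp⟩
      have : IsCyclic G := isCyclic_of_prime_card rfl
      exact Group.isSolvable_of_comm fun a b => mul_comm' a b

private theorem compl {G : Type*} [Group G] [Finite G] (D : Subgroup G) (hD : IsMulCommutative D)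
    (h : IsPiHall ({2}ᶜ : Set ℕ) D) :
    ∃ (P : Sylow 2 G) (D : Subgroup G), IsMulCommutative ↥D ∧ Subgroup.IsComplement' (P : Subgroup G) D := by
  obtain ⟨P⟩ : Nonempty (Sylow 2 G) := inferInstance
  exact ⟨P, D, hD, (isPiHall_sylow P).isComplement' h⟩

/-- Let H be a finite group in which a Sylow 2-subgroup has an abelian complement (an abelian subgroup meeting it trivially whose product with it is all of H). Then H is solvable, and every subgroup and every quotient group of H again has a Sylow 2-subgroup with an abelian complement. -/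
theorem result {H : Type*} [Group H] [Finite H]
    (S : Sylow 2 H) (C : Subgroup H) (hC : IsMulCommutative ↥C) (hSC : Subgroup.IsComplement' (S : Subgroup H) C) :
    Group.IsSolvable H ∧
    (∀ L : Subgroup H, ∃ (P : Sylow 2 ↥L) (D : Subgroup ↥L), IsMulCommutative ↥D ∧ Subgroup.IsComplement' (P : Subgroup ↥L) D) ∧
    (∀ (N : Subgroup H) [N.Normal], ∃ (P : Sylow 2 (H ⧸ N)) (D : Subgroup (H ⧸ N)),
      IsMulCommutative ↥D ∧ Subgroup.IsComplement' (P : Subgroup (H ⧸ N)) D) := by
  have hH : IsPiHall ({2}ᶜ : Set ℕ) C := (isPiHall_sylow S).of_isComplement' hSC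
  have hs : Group.IsSolvable H := solv H ⟨C, hC, hH⟩
  refine ⟨hs, fun L => ?_, fun N _ => ?_⟩
  · obtain ⟨D, hD⟩ := exists_isPiHall ({2}ᶜ : Set ℕ) L
    refine compl D ?_ hD
    obtain ⟨g, hg⟩ := hH.exists_conj_le hD.map_subtype.card
    refine ⟨⟨fun a b => Subtype.ext (Subtype.ext ?_)⟩⟩
    have ha : g * a.1.1 * g⁻¹ ∈ C :=
      hg (Subgroup.smul_mem_pointwise_smul _ (MulAut.conj g) _ ⟨a.1, a.2, rfl⟩)
    have hb : g * b.1.1 * g⁻¹ ∈ C :=
      hg (Subgroup.smul_mem_pointwise_smul _ (MulAut.conj g) _ ⟨b.1, b.2, rfl⟩)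
    have := congrArg Subtype.val (mul_comm' (⟨_, ha⟩ : C) ⟨_, hb⟩)
    have h2 : g * (a.1.1 * b.1.1) * g⁻¹ = g * (b.1.1 * a.1.1) * g⁻¹ := by
      simpa [mul_assoc] using this
    simpa using h2
  · exact compl (C.map (QuotientGroup.mk' N)) inferInstance
      (hH.map_of_surjective (QuotientGroup.mk'_surjective N))

end Cfsg.Agent.S3200
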