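import Mathlib
import Cfsg.Statements.S3202
import Cfsg.Agent.S0016
import Cfsg.Agent.GT.PGroupIso

set_option autoImplicit false
open Cfsg

namespace Cfsg.Agent.S3202

open Subgroup Cfsg.Agent.GT
open scoped commutatorElement

/-- A non-abelian finite 2-group with a unique involution has the quaternion generators. -/
theorem exists_generators {Q : Type*} [Group Q] [Finite Q] (hQ : IsPGroup 2 Q)
    (hna : ¬ IsMulCommutative Q) (hu : ∃! x : Q, orderOf x = 2) :
    ∃ (a b : Q) (k : ℕ), orderOf a = 2 * (2 * k) ∧ (zpowers a).index = 2 ∧ b ∉ zpowers a ∧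
      b * a * b⁻¹ = a⁻¹ ∧ b ^ 2 = a ^ (2 * k) := by
  obtain ⟨z, hz, hzu⟩ := hu
  have key : ∀ H : Subgroup Q, Nat.card H = 2 → H = zpowers z := by
    intro H hH
    obtain ⟨x, hx⟩ := exists_prime_orderOf_dvd_card' (G := H) 2 (hH ▸ dvd_rfl)
    have : (x : Q) = z := hzu x (by simpa using hx)
    exact (eq_of_le_of_card_ge (zpowers_le.2 (this ▸ x.2)) (by rw [Nat.card_zpowers, hz, hH])).symm
  rcases S0016.result 2 hQ (fun H K h1 h2 => (key H h1).trans (key K h2).symm) with h | ⟨-, n, ⟨e⟩⟩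
  · exact (hna inferInstance).elim
  · rcases n with _ | n
    · have : IsCyclic (QuaternionGroup (2 ^ 0)) := QuaternionGroup.quaternionGroup_one_isCyclic
      have : IsCyclic Q := isCyclic_of_injective e.toMonoidHom e.injective
      exact (hna inferInstance).elim
    · obtain ⟨a, b, h⟩ := PG.exists_generators_of_quaternion e
      exact ⟨a, b, 2 ^ n, by rwa [pow_succ'] at h⟩

theorem eq_top_of_index_two {Q : Type*} [Group Q] {a b : Q} (hi : (zpowers a).index = 2)
    (hb : b ∉ zpowers a) {K : Subgroup Q} (h1 : a ∈ K) (h2 : b ∈ K) : K = ⊤ := by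
  rw [eq_top_iff]
  intro g _
  by_cases hg : g ∈ zpowers a
  · exact zpowers_le.2 h1 hg
  · have : g * b ∈ zpowers a := by rw [mul_mem_iff_of_index_two hi]; tauto
    simpa using mul_mem (zpowers_le.2 h1 this) (inv_mem h2)

/-- Let S be a finite 2-group of 2-rank exactly 2 and D a maximal subgroup of the centre of S such that S/D is a non-abelian group with exactly one involution (a generalized quaternion group). Then S has a nontrivial cyclic characteristic subgroup. -/
theorem result {S : Type*} [Group S]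
    [Finite S] (hS : IsPGroup 2 S) (hr2 : Cfsg.PRankLE 2 2 S) (hr1 : ¬ Cfsg.PRankLE 2 1 S)
    (D : Subgroup ↥(Subgroup.center S)) (hD : IsCoatom D)
    (hq : ∃ (_ : (D.map (Subgroup.center S).subtype).Normal),
      ¬ IsMulCommutative (S ⧸ D.map (Subgroup.center S).subtype) ∧
      ∃! x : S ⧸ D.map (Subgroup.center S).subtype, orderOf x = 2) :
    ∃ C : Subgroup S, C ≠ ⊥ ∧ IsCyclic ↥C ∧ C.Characteristic := by
  obtain ⟨hn, hna, hu⟩ := hq
  have hDZ : D.map (center S).subtype ≤ center S := map_subtype_le _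
  generalize D.map (center S).subtype = E at hn hna hu hDZ
  obtain ⟨a, b, k, -, hi, hb, -, -⟩ := exists_generators (hS.to_quotient E) hna hu
  obtain ⟨x, rfl⟩ := QuotientGroup.mk_surjective a
  obtain ⟨y, rfl⟩ := QuotientGroup.mk_surjective b
  have hgen : ∀ K : Subgroup S, x ∈ K → y ∈ K → E ≤ K → K = ⊤ := by
    intro K h1 h2 h3
    have := eq_top_of_index_two hi hb (K := K.map (QuotientGroup.mk' E)) ⟨x, h1, rfl⟩ ⟨y, h2, rfl⟩
    have := congrArg (comap (QuotientGroup.mk' E)) this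
    rwa [comap_map_eq, QuotientGroup.ker_mk', sup_eq_left.2 h3, comap_top] at this
  -- elements over the cyclic subgroup commute with `x`
  have hX : ∀ g : S, (g : S ⧸ E) ∈ zpowers (x : S ⧸ E) → g * x = x * g := by
    rintro g ⟨i, hi⟩
    have h1 : (x ^ i)⁻¹ * g ∈ E := QuotientGroup.eq.1 hi
    have h2 := mem_center_iff.1 (hDZ h1) x
    calc g * x = x ^ i * (((x ^ i)⁻¹ * g) * x) := by group
      _ = x * g := by rw [← h2]; group
  have hnX := normal_of_index_eq_two hi
  have hu1 : y * x * y⁻¹ * x = x * (y * x * y⁻¹) := hX _ (hnX.conj_mem _ (mem_zpowers _) (y : S ⧸ E))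
  have hu2 : y ^ 2 * x = x * y ^ 2 := hX _ (sq_mem_of_index_two hi (y : S ⧸ E))
  have hK : (zpowers ⁅x, y⁆).Normal := by
    rw [← normalizer_eq_top_iff]
    have hc : ∀ g : S, g * ⁅x, y⁆ * g⁻¹ ∈ zpowers ⁅x, y⁆ → g ∈ normalizer (zpowers ⁅x, y⁆ : Set S) :=
      fun g hg => mem_normalizer_fintype (by
        rintro _ ⟨i, rfl⟩
        simpa using zpow_mem hg i)
    refine hgen _ (hc _ ?_) (hc _ ?_) ((hDZ.trans (center_le_normalizer _)))
    · have : x * ⁅x, y⁆ * x⁻¹ = ⁅x, y⁆ := by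
        rw [commutatorElement_def]
        have c : (y * x * y⁻¹)⁻¹ * x = x * (y * x * y⁻¹)⁻¹ := (Commute.inv_left hu1).eq
        calc x * (x * y * x⁻¹ * y⁻¹) * x⁻¹ = x * (x * (y * x * y⁻¹)⁻¹) * x⁻¹ := by group
          _ = _ := by rw [← c]; group
      rw [this]; exact mem_zpowers _
    · have : y * ⁅x, y⁆ * y⁻¹ = ⁅x, y⁆⁻¹ := by
        rw [commutatorElement_def]
        calc y * (x * y * x⁻¹ * y⁻¹) * y⁻¹ = y * x * y * (y ^ 2 * x)⁻¹ := by group
          _ = _ := by rw [hu2]; group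
      rw [this]; exact inv_mem (mem_zpowers _)
  have hle : commutator S ≤ zpowers ⁅x, y⁆ := by
    have hxy : ∀ g h : S, ⁅g, h⁆ ∈ zpowers ⁅x, y⁆ ↔
        (g : S ⧸ zpowers ⁅x, y⁆) ∈ centralizer {(h : S ⧸ zpowers ⁅x, y⁆)} := by
      intro g h
      rw [mem_centralizer_singleton_iff, ← commutatorElement_eq_one_iff_mul_comm,
        ← QuotientGroup.eq_one_iff]
      rfl
    have hcen : ∀ h : S, ⁅x, h⁆ ∈ zpowers ⁅x, y⁆ → ⁅y, h⁆ ∈ zpowers ⁅x, y⁆ →
        ∀ g : S, ⁅g, h⁆ ∈ zpowers ⁅x, y⁆ := by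
      intro h h1 h2 g
      have := hgen ((centralizer {(h : S ⧸ zpowers ⁅x, y⁆)}).comap (QuotientGroup.mk' _))
        ((hxy _ _).1 h1) ((hxy _ _).1 h2) fun e he => (hxy e h).1 (by
          rw [commutatorElement_eq_one_iff_mul_comm.2 (mem_center_iff.1 (hDZ he) h).symm]
          exact one_mem _)
      exact (hxy _ _).2 (show g ∈ (centralizer {(h : S ⧸ zpowers ⁅x, y⁆)}).comap
        (QuotientGroup.mk' _) from this ▸ mem_top g)
    have hinv : ∀ g h : S, ⁅g, h⁆ ∈ zpowers ⁅x, y⁆ → ⁅h, g⁆ ∈ zpowers ⁅x, y⁆ := fun g h e => by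
      rw [← commutatorElement_inv g h]; exact inv_mem e
    have h1 := hcen x (by simp) (hinv _ _ (mem_zpowers _))
    have h2 := hcen y (mem_zpowers _) (by simp)
    exact commutator_le.2 fun g _ h _ => hcen h (hinv _ _ (h1 h)) (hinv _ _ (h2 h)) g
  refine ⟨commutator S, fun h => hna ?_, isCyclic_of_injective (inclusion hle)
    (inclusion_injective hle), inferInstance⟩
  have := (commutator_eq_bot_iff S).1 h
  exact ⟨⟨fun a b => by
    obtain ⟨a, rfl⟩ := QuotientGroup.mk_surjective a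
    obtain ⟨b, rfl⟩ := QuotientGroup.mk_surjective b
    rw [← QuotientGroup.mk_mul, ← QuotientGroup.mk_mul, mul_comm' a b]⟩⟩

end Cfsg.Agent.S3202
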