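import Mathlib
import Cfsg.Statements.S3201
import Cfsg.Agent.S3202
import Cfsg.Agent.GT.PGroupChain

set_option autoImplicit false
open Cfsg

namespace Cfsg.Agent.S3201

open Subgroup Cfsg.Agent.GT

/-- Let S be a finite 2-group whose centre Z(S) has n ≥ 2 distinct maximal subgroups C₁, …, Cₙ with trivial intersection such that each quotient S/Cᵢ is a non-abelian group with exactly one involution (a generalized quaternion group). Then S is the internal direct product of an elementary abelian subgroup and a non-abelian subgroup with exactly one involution. -/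
theorem result {S : Type*} [Group S] [Finite S]
    (hS : IsPGroup 2 S) (n : ℕ) (hn : 2 ≤ n) (C : Fin n → Subgroup ↥(Subgroup.center S))
    (hCmax : ∀ i, IsCoatom (C i)) (hCinj : Function.Injective C) (hCint : ⨅ i, C i = ⊥)
    (hCq : ∀ i, ∃ (_ : ((C i).map (Subgroup.center S).subtype).Normal),
      ¬ IsMulCommutative (S ⧸ (C i).map (Subgroup.center S).subtype) ∧
      ∃! x : S ⧸ (C i).map (Subgroup.center S).subtype, orderOf x = 2) :
    ∃ E Q : Subgroup S, Cfsg.IsInternalDirectProduct E Q ⊤ ∧ Cfsg.IsElementaryAbelian 2 E ∧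
      ¬ IsMulCommutative ↥Q ∧ ∃! x : ↥Q, orderOf x = 2 := by
  have hidx : ∀ i, (C i).index = 2 := fun i =>
    (PG.isCoatom_iff_index_eq (hS.to_subgroup _)).1 (hCmax i)
  have hone : ∀ c : center S, (∀ i, c ∈ C i) → c = 1 := fun c hc =>
    mem_bot.1 (hCint ▸ mem_iInf.2 hc)
  have hmem : ∀ i (c : center S), (c : S) ∈ (C i).map (center S).subtype ↔ c ∈ C i := fun i c =>
    mem_map_iff_mem (center S).subtype_injective
  have hel : ∀ c ∈ center S, c ^ 2 = 1 := fun c hc =>
    congrArg Subtype.val (hone (⟨c, hc⟩ ^ 2) fun i => sq_mem_of_index_two (hidx i) _)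
  -- an element whose square lies in `C i` is central
  have hcen : ∀ i (s : S), s ^ 2 ∈ (C i).map (center S).subtype → s ∈ center S := by
    intro i s hs
    obtain ⟨hn, -, z, -, hz⟩ := hCq i
    by_cases h1 : s ∈ (C i).map (center S).subtype
    · exact map_subtype_le _ h1
    obtain ⟨c, -, hc⟩ := SetLike.exists_of_lt (hCmax i).1.lt_top
    have e1 := hz (s : S ⧸ (C i).map (center S).subtype) (orderOf_eq_prime
      ((QuotientGroup.eq_one_iff _).2 hs) (by rwa [Ne, QuotientGroup.eq_one_iff]))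
    have e2 := hz ((c : S) : S ⧸ (C i).map (center S).subtype) (orderOf_eq_prime
      (by rw [← QuotientGroup.mk_pow, hel _ c.2]; rfl)
      (by rwa [Ne, QuotientGroup.eq_one_iff, hmem]))
    have := map_subtype_le _ (QuotientGroup.eq.1 (e2.trans e1.symm))
    simpa using mul_mem c.2 this
  have hsq : ∀ s t : S, s ∉ center S → t ∉ center S → s ^ 2 ∈ center S → t ^ 2 ∈ center S →
      s ^ 2 = t ^ 2 := by
    intro s t hs ht hs2 ht2
    have := hone (⟨s ^ 2, hs2⟩ * ⟨t ^ 2, ht2⟩) fun i => by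
      rw [mul_mem_iff_of_index_two (hidx i), ← hmem, ← hmem]
      exact iff_of_false (fun h => hs (hcen i s h)) fun h => ht (hcen i t h)
    have h2 : s ^ 2 * t ^ 2 = 1 := congrArg Subtype.val this
    have h3 := hel _ ht2
    rw [sq] at h3
    exact mul_right_cancel (h2.trans h3.symm)
  let i : Fin n := ⟨0, by omega⟩
  obtain ⟨hn, hna, hu⟩ := hCq i
  have hEZ : (C i).map (center S).subtype ≤ center S := map_subtype_le _
  have hc := hcen i
  generalize (C i).map (center S).subtype = E at hn hna hu hEZ hc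
  obtain ⟨a, b, k, ha, hi, hb, hab, hb2⟩ := S3202.exists_generators (hS.to_quotient E) hna hu
  obtain ⟨x, rfl⟩ := QuotientGroup.mk_surjective a
  obtain ⟨y, rfl⟩ := QuotientGroup.mk_surjective b
  have hk : 0 < k := by have := orderOf_pos (x : S ⧸ E); omega
  have hz2 : ((x : S ⧸ E) ^ (2 * k)) ^ 2 = 1 := by
    rw [← pow_mul, mul_comm, ← ha, pow_orderOf_eq_one]
  have hz1 : (x : S ⧸ E) ^ (2 * k) ≠ 1 := pow_ne_one_of_lt_orderOf (by omega) (by omega)
  have hA : ∀ s : S, (s : S ⧸ E) ^ 2 = (x : S ⧸ E) ^ (2 * k) → s ∉ center S ∧ s ^ 2 ∈ center S := by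
    intro s hs
    refine ⟨fun h => hz1 ?_, hc _ ((QuotientGroup.eq_one_iff _).1 ?_)⟩
    · rw [← hs, ← QuotientGroup.mk_pow, hel s h]; rfl
    · rw [QuotientGroup.mk_pow, QuotientGroup.mk_pow, hs, hz2]
  have h1 := hA y hb2
  have h2 := hA (x * y) (by
    rw [← hb2, QuotientGroup.mk_mul]
    calc ((x : S ⧸ E) * y) ^ 2 = x * (y * x * (y : S ⧸ E)⁻¹) * y ^ 2 := by simp [sq, mul_assoc]
      _ = _ := by rw [hab]; group)
  have h3 := hA (x ^ k) (by rw [QuotientGroup.mk_pow, ← pow_mul, mul_comm])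
  have e1 : y ^ 2 = x ^ (2 * k) := by
    rw [mul_comm, pow_mul]; exact hsq _ _ h1.1 h3.1 h1.2 h3.2
  have e2 : y * x * y⁻¹ = x⁻¹ := by
    have := hsq _ _ h2.1 h1.1 h2.2 h1.2
    calc y * x * y⁻¹ = x⁻¹ * (x * y) ^ 2 * (y ^ 2)⁻¹ := by simp [sq, mul_assoc]
      _ = _ := by rw [this]; group
  have e3 : x ^ (2 * (2 * k)) = 1 := by rw [mul_comm, pow_mul, ← e1, hel _ h1.2]
  have hyn : y ∈ normalizer (zpowers x : Set S) := mem_normalizer_fintype (by
    rintro _ ⟨j, rfl⟩
    have : y * x ^ j * y⁻¹ = x⁻¹ ^ j := by rw [← e2, conj_zpow]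
    exact this ▸ zpow_mem (inv_mem (mem_zpowers x)) j)
  let Q : Subgroup S :=
    { carrier := {g | g ∈ zpowers x ∨ g * y⁻¹ ∈ zpowers x}
      one_mem' := Or.inl (one_mem _)
      mul_mem' := by
        have hy := fun g => (mem_normalizer_iff.1 hyn g).1
        rintro g h (hg | hg) (hh | hh)
        · exact Or.inl (mul_mem hg hh)
        · exact Or.inr (by simpa [mul_assoc] using mul_mem hg hh)
        · exact Or.inr (by simpa [mul_assoc] using mul_mem hg (hy _ hh))
        · refine Or.inl ?_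
          have := mul_mem (mul_mem hg (hy _ hh)) (e1 ▸ pow_mem (mem_zpowers x) (2 * k))
          simpa [mul_assoc, sq] using this
      inv_mem' := by
        have hy := fun g => (mem_normalizer_iff''.1 hyn g).1
        rintro g (hg | hg)
        · exact Or.inl (inv_mem hg)
        · refine Or.inr ?_
          have := mul_mem (hy _ (inv_mem hg)) (inv_mem (e1 ▸ pow_mem (mem_zpowers x) (2 * k)))
          simpa [mul_assoc, sq] using this }
  have hQE : ∀ g ∈ Q, g ∈ E → g = 1 := by
    rintro g (⟨j, rfl⟩ | hg) hgE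
    · have := (QuotientGroup.eq_one_iff _).2 hgE
      rw [QuotientGroup.mk_zpow, ← orderOf_dvd_iff_zpow_eq_one, ha] at this
      obtain ⟨m, rfl⟩ := this
      simp only
      rw [zpow_mul, zpow_natCast, e3, one_zpow]
    · exfalso
      have h4 : ((g * y⁻¹ : S) : S ⧸ E) ∈ zpowers (x : S ⧸ E) := by
        obtain ⟨j, hj⟩ := hg
        exact ⟨j, by rw [← hj]; rfl⟩
      rw [QuotientGroup.mk_mul, (QuotientGroup.eq_one_iff _).2 hgE, one_mul,
        QuotientGroup.mk_inv, inv_mem_iff] at h4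
      exact hb h4
  have hx : x ∈ Q := Or.inl (mem_zpowers x)
  have hy : y ∈ Q := Or.inr (by simp)
  have hmap := S3202.eq_top_of_index_two hi hb (K := Q.map (QuotientGroup.mk' E))
    ⟨x, hx, rfl⟩ ⟨y, hy, rfl⟩
  let f : Q →* S ⧸ E := (QuotientGroup.mk' E).comp Q.subtype
  have hf : Function.Bijective f := by
    constructor
    · rw [injective_iff_map_eq_one]
      exact fun g hg => Subtype.ext (hQE g g.2 ((QuotientGroup.eq_one_iff _).1 hg))
    · intro g
      obtain ⟨q, hq, rfl⟩ : g ∈ Q.map (QuotientGroup.mk' E) := hmap ▸ mem_top g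
      exact ⟨⟨q, hq⟩, rfl⟩
  let e := MulEquiv.ofBijective f hf
  refine ⟨E, Q, ⟨le_top, le_top, fun a ha b _ => (mem_center_iff.1 (hEZ ha) b).symm, ?_, ?_⟩,
    ⟨⟨⟨fun a b => Subtype.ext (mem_center_iff.1 (hEZ b.2) a)⟩⟩, fun a ha => hel a (hEZ ha)⟩,
    fun h => hna ⟨⟨fun a b => e.symm.injective (by rw [map_mul, map_mul, mul_comm'])⟩⟩, ?_⟩
  · exact eq_bot_iff.2 fun g hg => mem_bot.2 (hQE g hg.2 hg.1)
  · have := congrArg (comap (QuotientGroup.mk' E)) hmap
    rwa [comap_map_eq, QuotientGroup.ker_mk', comap_top, sup_comm] at this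
  · obtain ⟨z, hz, hzu⟩ := hu
    refine ⟨e.symm z, by simpa using hz, fun w hw => ?_⟩
    rw [← hzu (e w) (by simpa using hw), MulEquiv.symm_apply_apply]

end Cfsg.Agent.S3201
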