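import Mathlib
import Cfsg.Statements.S3208
import Cfsg.Agent.Inv.SylowTools

set_option autoImplicit false
open Cfsg

namespace Cfsg.Agent.S3208

/-- Let j be an involution of a finite group G, H a subgroup of G, and T a Sylow 2-subgroup of H ∩ C_G(j) containing j such that ⟨j⟩ is a characteristic subgroup of T. Then T is a Sylow 2-subgroup of H. -/
theorem result {G : Type*} [Group G] [Finite G]
    (j : G) (hj : orderOf j = 2) (H T : Subgroup G) (hT : T ≤ H ⊓ Subgroup.centralizer ({j} : Set G)) (h2 : IsPGroup 2 ↥T)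
    (hSyl : ¬ 2 ∣ T.relIndex (H ⊓ Subgroup.centralizer ({j} : Set G))) (hjT : j ∈ T)
    (hchar : ((Subgroup.zpowers j).subgroupOf T).Characteristic) :
    ¬ 2 ∣ T.relIndex H := by
  classical
  have : Fact (Nat.Prime 2) := ⟨Nat.prime_two⟩
  intro hdvd
  have hTH : T ≤ H := hT.trans inf_le_left
  -- a Sylow 2-subgroup of `H` containing `T`
  obtain ⟨P, hP⟩ := (h2.comap_subtype (K := H)).exists_le_sylow
  set S : Subgroup G := (P : Subgroup H).map H.subtype with hS
  have hSp : IsPGroup 2 S := P.isPGroup'.map _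
  have hTS : T ≤ S := by
    intro x hx
    exact ⟨⟨x, hTH hx⟩, hP hx, rfl⟩
  have hSH : S ≤ H := Subgroup.map_subtype_le _
  have hne : ¬ S ≤ T := by
    intro hle
    have hST : S = T := le_antisymm hle hTS
    have h1 : T.relIndex H = (P : Subgroup H).index := by
      rw [← hST, hS, Subgroup.relIndex, Subgroup.subgroupOf, Subgroup.comap_map_eq_self_of_injective
        (Subgroup.subtype_injective _)]
    rw [h1] at hdvd
    exact P.not_dvd_index hdvd
  obtain ⟨y, hyS, hyT, hyN⟩ := Inv.ST.exists_mem_normalizer_of_lt hSp hTS hne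
  -- `y` centralizes `j`
  have hyj : y * j * y⁻¹ ∈ Subgroup.zpowers j := by
    let φ : MulAut T := T.normalizerMonoidHom ⟨y, hyN⟩
    have h1 := (Subgroup.characteristic_iff_map_le.1 hchar) φ
    have h3 : φ ⟨j, hjT⟩ ∈ (Subgroup.zpowers j).subgroupOf T :=
      h1 ⟨⟨j, hjT⟩, Subgroup.mem_zpowers j, rfl⟩
    exact h3
  have hj2 : j * j = 1 := by rw [← pow_two, ← hj, pow_orderOf_eq_one]
  have hj1 : j ≠ 1 := by rintro rfl; simp at hj
  have hyj' : y * j * y⁻¹ = j := by
    rw [mem_zpowers_iff_mem_range_orderOf, hj] at hyj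
    simp only [Finset.mem_image, Finset.mem_range] at hyj
    obtain ⟨k, hk, hk'⟩ := hyj
    interval_cases k
    · exfalso
      apply hj1
      have : j = y⁻¹ * (y * j * y⁻¹) * y := by group
      rw [this, ← hk']; simp
    · simpa using hk'.symm
  have hyC : y ∈ H ⊓ Subgroup.centralizer ({j} : Set G) := by
    refine ⟨hSH hyS, Subgroup.mem_centralizer_singleton_iff.2 ?_⟩
    calc y * j = y * j * y⁻¹ * y := by group
      _ = j * y := by rw [hyj']
  set U : Subgroup G := Subgroup.zpowers y ⊔ T with hU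
  have hUp : IsPGroup 2 U :=
    Inv.ST.isPGroup_sup_zpowers h2 (Inv.ST.isPGroup_zpowers_of_mem hSp hyS) hyN
  have hUle : U ≤ H ⊓ Subgroup.centralizer ({j} : Set G) :=
    sup_le (by rwa [Subgroup.zpowers_le]) hT
  have hTU : T ≤ U := le_sup_right
  have hmul := Subgroup.relIndex_mul_relIndex T U _ hTU hUle
  apply hSyl
  rw [← hmul]
  apply Dvd.dvd.mul_right
  obtain ⟨k, hk⟩ := IsPGroup.iff_card.1 hUp
  have h4 : T.relIndex U ∣ 2 ^ k := hk ▸ Subgroup.relIndex_dvd_card T U
  obtain ⟨m, -, hm⟩ := (Nat.dvd_prime_pow Nat.prime_two).1 h4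
  rcases m with _ | m
  · exfalso
    rw [pow_zero, Subgroup.relIndex_eq_one] at hm
    exact hyT (hm (le_sup_left (a := Subgroup.zpowers y) (b := T) (Subgroup.mem_zpowers y)))
  · rw [hm, pow_succ]; exact Dvd.intro_left _ rfl

end Cfsg.Agent.S3208
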