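import Mathlib
import Cfsg.Statements.S3210
import Cfsg.Agent.Inv.SL2Prod
import Cfsg.Agent.Cl.CharGL2Card

set_option autoImplicit false
open Cfsg

namespace Cfsg.Agent.S3210

private theorem cube_inj {a b : ℕ} (h : a * (a - 1) * (a + 1) = b * (b - 1) * (b + 1))
    (ha : 1 < a) (hb : 1 < b) : a = b := by
  have key : ∀ a b : ℕ, 1 < a → a < b → a * (a - 1) * (a + 1) < b * (b - 1) * (b + 1) := by
    intro a b ha hab
    refine Nat.mul_lt_mul_of_le_of_lt (Nat.mul_le_mul hab.le (by omega)) (by omega) ?_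
    exact Nat.mul_pos (by omega) (by omega)
  rcases lt_trichotomy a b with h1 | h1 | h1
  · exact absurd h (key a b ha h1).ne
  · exact h1
  · exact absurd h (key b a hb h1).ne'

/-- Let G be a finite group with subgroups L₁ ≅ SL₂(q₁) and L₂ ≅ SL₂(q₂), q₁ and q₂ odd prime powers, which commute elementwise and meet in ⟨j⟩ for an involution j, and suppose L₁L₂ has index 2 in C_G(j). Then every element n of C_G(j) outside L₁L₂ either normalizes both L₁ and L₂, or conjugates L₁ onto L₂; in the second case q₁ = q₂ and there is an element n′ of C_G(j) outside L₁L₂ conjugating L₁ onto L₂ with n′² ∈ ⟨j⟩. -/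
theorem result {G : Type*} [Group G] [Finite G]
    {F₁ : Type*} [Field F₁] [Fintype F₁] {F₂ : Type*} [Field F₂] [Fintype F₂]
    (hF₁ : Odd (Fintype.card F₁)) (hF₂ : Odd (Fintype.card F₂)) (L₁ L₂ : Subgroup G)
    (e₁ : ↥L₁ ≃* Matrix.SpecialLinearGroup (Fin 2) F₁) (e₂ : ↥L₂ ≃* Matrix.SpecialLinearGroup (Fin 2) F₂)
    (hc : ∀ x ∈ L₁, ∀ y ∈ L₂, x * y = y * x) (j : G) (hj : orderOf j = 2) (hm : L₁ ⊓ L₂ = Subgroup.zpowers j)
    (hle : L₁ ⊔ L₂ ≤ Subgroup.centralizer ({j} : Set G)) (hi : (L₁ ⊔ L₂).relIndex (Subgroup.centralizer ({j} : Set G)) = 2) (n : G) (hn : n ∈ Subgroup.centralizer ({j} : Set G)) (hn' : n ∉ L₁ ⊔ L₂) :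
    (L₁.map (MulAut.conj n).toMonoidHom = L₁ ∧ L₂.map (MulAut.conj n).toMonoidHom = L₂) ∨
      (L₁.map (MulAut.conj n).toMonoidHom = L₂ ∧ Fintype.card F₁ = Fintype.card F₂ ∧
        ∃ n' ∈ Subgroup.centralizer ({j} : Set G), n' ∉ L₁ ⊔ L₂ ∧ L₁.map (MulAut.conj n').toMonoidHom = L₂ ∧ n' ^ 2 ∈ Subgroup.zpowers j) := by
  have h := Inv.SLF.cpData_of_equiv hF₁ hF₂ e₁ e₂ hc hj hm
  set C := Subgroup.centralizer ({j} : Set G) with hC
  have hidx : ∀ x ∈ C, ∀ y ∈ C, (x * y ∈ L₁ ⊔ L₂ ↔ (x ∈ L₁ ⊔ L₂ ↔ y ∈ L₁ ⊔ L₂)) :=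
    fun x hx y hy => Subgroup.mul_mem_iff_of_index_two (H := (L₁ ⊔ L₂).subgroupOf C) hi
      (a := ⟨x, hx⟩) (b := ⟨y, hy⟩)
  have hnorm : ∀ m ∈ C, ∀ y ∈ L₁ ⊔ L₂, m * y * m⁻¹ ∈ L₁ ⊔ L₂ := by
    intro m hm y hy
    rw [hidx _ (mul_mem hm (hle hy)) _ (inv_mem hm), hidx _ hm _ (hle hy), inv_mem_iff]
    tauto
  have hnj : (MulAut.conj n).toMonoidHom j = j := by
    have := Subgroup.mem_centralizer_singleton_iff.1 hn
    change n * j * n⁻¹ = j
    rw [this]; group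
  have hcard : ∀ L : Subgroup G, Nat.card (L.map (MulAut.conj n).toMonoidHom) = Nat.card L :=
    fun L => Subgroup.card_map_of_injective (MulAut.conj n).injective
  have key : ∀ L : Subgroup G, Inv.SLF.SLData L j → L ≤ L₁ ⊔ L₂ →
      (∀ y ∈ L₁ ⊔ L₂, ∀ x ∈ L, y * x * y⁻¹ ∈ L) →
      L.map (MulAut.conj n).toMonoidHom ≤ L₁ ∨ L.map (MulAut.conj n).toMonoidHom ≤ L₂ := by
    intro L hL hLle hLn
    have h1 := hL.map (MulAut.conj n).toMonoidHom (MulAut.conj n).injective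
    rw [hnj] at h1
    refine h.le_or_le h1 ?_ ?_
    · rintro _ ⟨x, hx, rfl⟩
      exact hnorm n hn x (hLle hx)
    · rintro y hy _ ⟨x, hx, rfl⟩
      refine ⟨_, hLn _ (hnorm n⁻¹ (inv_mem hn) y hy) x hx, ?_⟩
      change n * _ * n⁻¹ = y * (n * x * n⁻¹) * y⁻¹
      group
  have hnot : ∀ {L₁ L₂ : Subgroup G}, Inv.SLF.CPData L₁ L₂ j →
      L₁.map (MulAut.conj n).toMonoidHom ≤ L₁ → ¬ L₂.map (MulAut.conj n).toMonoidHom ≤ L₁ := by
    intro L₁ L₂ h h1 h2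
    have h3 := Subgroup.eq_of_le_of_card_ge h1 (hcard L₁).ge
    rw [← h3, Subgroup.map_le_map_iff_of_injective (MulAut.conj n).injective] at h2
    obtain ⟨b, hb, hb2⟩ := h.d₂.exists_four
    exact h.symm.four_not_mem hb hb2 (h2 hb)
  rcases key L₁ h.d₁ le_sup_left (fun y hy x hx => h.conj_mem_left hy hx) with h1 | h1 <;>
    rcases key L₂ h.d₂ le_sup_right (fun y hy x hx => h.conj_mem_right hy hx) with h2 | h2
  · exact absurd h2 (hnot h h1)
  · exact Or.inl ⟨Subgroup.eq_of_le_of_card_ge h1 (hcard L₁).ge,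
      Subgroup.eq_of_le_of_card_ge h2 (hcard L₂).ge⟩
  · right
    have c1 := Subgroup.card_le_of_le h1
    have c2 := Subgroup.card_le_of_le h2
    rw [hcard] at c1 c2
    have h3 := Subgroup.eq_of_le_of_card_ge h1 (by rw [hcard]; exact c2)
    have h4 : Nat.card L₁ = Nat.card L₂ := le_antisymm c1 c2
    refine ⟨h3, ?_, ?_⟩
    · rw [Nat.card_congr e₁.toEquiv, Nat.card_congr e₂.toEquiv, Cl.GL2.card_SL2,
        Cl.GL2.card_SL2] at h4
      exact cube_inj h4 Fintype.one_lt_card Fintype.one_lt_card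
    · obtain ⟨c, hc, d, hd, e⟩ := Inv.SLF.exists_mul_of_mem_sup h.comm
        ((hidx n hn n hn).2 Iff.rfl)
      have hc' : n * c * n⁻¹ ∈ L₂ := h1 ⟨c, hc, rfl⟩
      have hd' : n * d * n⁻¹ ∈ L₁ := h2 ⟨d, hd, rfl⟩
      have e1 : n * d * n⁻¹ * (n * c * n⁻¹) = c * d := by
        calc n * d * n⁻¹ * (n * c * n⁻¹) = n * (d * c) * n⁻¹ := by group
          _ = n * (n * n) * n⁻¹ := by rw [← h.comm c hc d hd, e]
          _ = n * n := by group
          _ = _ := e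
      have hcY : c⁻¹ ∈ L₁ ⊔ L₂ := inv_mem (Subgroup.mem_sup_left hc)
      refine ⟨c⁻¹ * n, mul_mem (hle hcY) hn, ?_, ?_, ?_⟩
      · rwa [Subgroup.mul_mem_cancel_left _ hcY]
      · refine Subgroup.eq_of_le_of_card_ge ?_ ?_
        · rintro _ ⟨x, hx, rfl⟩
          have := h.conj_mem_right hcY (h1 ⟨x, hx, rfl⟩)
          change c⁻¹ * (n * x * n⁻¹) * c⁻¹⁻¹ ∈ L₂ at this
          change c⁻¹ * n * x * (c⁻¹ * n)⁻¹ ∈ L₂
          convert this using 1
          group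
        · rw [Subgroup.card_map_of_injective (MulAut.conj (c⁻¹ * n)).injective]
          exact c2
      · have e2 : (c⁻¹ * n) ^ 2 = (n * c * n⁻¹)⁻¹ * d := by
          calc (c⁻¹ * n) ^ 2 = c⁻¹ * (n * c * n⁻¹)⁻¹ * (n * n) := by rw [pow_two]; group
            _ = (n * c * n⁻¹)⁻¹ * c⁻¹ * (c * d) := by
              rw [e, h.comm _ (inv_mem hc) _ (inv_mem hc')]
            _ = _ := by group
        rw [e2]
        rcases h.eq_of_mul_eq hd' hc' hc hd e1 with ⟨-, e3⟩ | ⟨-, e3⟩ <;> rw [e3]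
        · simp
        · rw [mul_inv_rev, mul_assoc, inv_mul_cancel, mul_one]
          exact inv_mem (Subgroup.mem_zpowers j)
  · exact absurd h1 (hnot h.symm h2)

end Cfsg.Agent.S3210
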