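import Mathlib
import Cfsg.Statements.S3211
import Cfsg.Agent.Inv.SL2Prod
import Cfsg.Agent.Blk.ZStar

set_option autoImplicit false
open Cfsg

namespace Cfsg.Agent.S3211

open Inv.SLF

private structure Setup {G : Type*} [Group G] (L₁ L₂ : Subgroup G) (j n : G) : Prop where
  cp : CPData L₁ L₂ j
  nn : n * n = j
  s₁ : ∀ x ∈ L₁, n * x * n⁻¹ ∈ L₂
  s₂ : ∀ x ∈ L₂, n * x * n⁻¹ ∈ L₁
  dec : ∀ d : G, d * j = j * d → d ∈ L₁ ⊔ L₂ ∨ ∃ y ∈ L₁ ⊔ L₂, d = y * n

section
variable {G : Type*} [Group G] {L₁ L₂ : Subgroup G} {j n : G}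

private theorem Setup.conj_conj (h : Setup L₁ L₂ j n) {x : G} (hx : x * j = j * x) :
    n * (n * x * n⁻¹) * n⁻¹ = x := by
  calc n * (n * x * n⁻¹) * n⁻¹ = (n * n) * x * (n * n)⁻¹ := by group
    _ = x := by rw [h.nn, ← hx]; group

private theorem Setup.sq_out (h : Setup L₁ L₂ j n) {c d : G} (hc : c ∈ L₁) (hd : d ∈ L₂) :
    c * d * n * (c * d * n) = c * (n * d * n⁻¹) * (d * (n * c * n⁻¹) * j) := by
  have h1 := h.cp.comm _ (h.s₂ d hd) _ (mul_mem hd (h.s₁ c hc))
  calc c * d * n * (c * d * n) = c * ((d * (n * c * n⁻¹)) * (n * d * n⁻¹)) * (n * n) := by group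
    _ = _ := by rw [← h1, h.nn]; group

/-- no involution of `C(j)` lies outside `L₁ L₂` -/
private theorem Setup.invol_mem (h : Setup L₁ L₂ j n) {t : G} (ht : t * j = j * t) (h2 : t * t = 1) :
    t ∈ L₁ ⊔ L₂ := by
  rcases h.dec t ht with e | ⟨y, hy, rfl⟩
  · exact e
  exfalso
  obtain ⟨c, hc, d, hd, rfl⟩ := exists_mul_of_mem_sup h.cp.comm hy
  rw [h.sq_out hc hd, ← one_mul (1 : G)] at h2
  have h3 : n * (c * (n * d * n⁻¹)) * n⁻¹ = n * c * n⁻¹ * d := by
    calc n * (c * (n * d * n⁻¹)) * n⁻¹ = n * c * n⁻¹ * (n * (n * d * n⁻¹) * n⁻¹) := by group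
      _ = _ := by rw [h.conj_conj (h.cp.d₂.central d hd)]
  have hnj : n * j * n⁻¹ = j := by rw [← h.nn]; group
  rcases h.cp.eq_of_mul_eq (mul_mem hc (h.s₂ d hd)) (mul_mem (mul_mem hd (h.s₁ c hc)) h.cp.d₂.mem)
    (one_mem _) (one_mem _) h2 with ⟨e1, e2⟩ | ⟨e1, e2⟩
  · rw [e1] at h3
    have h4 : d * (n * c * n⁻¹) = 1 := by
      rw [mul_eq_one_comm, ← h3]; group
    rw [h4, one_mul] at e2
    exact h.cp.j_ne e2
  · rw [e1, one_mul, hnj] at h3
    have h4 : d * (n * c * n⁻¹) = 1 := by simpa using e2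
    rw [mul_eq_one_comm] at h4
    exact h.cp.j_ne (h3.trans h4)

/-- the key counting lemma: no element swaps `j` and `a a^n`. -/
private theorem Setup.no_swap [Finite G] (h : Setup L₁ L₂ j n) {a : G} (ha : a ∈ L₁)
    (haa : a * a = j) {g : G} (hg1 : g * j * g⁻¹ = a * (n * a * n⁻¹))
    (hg2 : g * (a * (n * a * n⁻¹)) * g⁻¹ = j) : False := by
  classical
  have hb : n * a * n⁻¹ ∈ L₂ := h.s₁ a ha
  have hnj : n * j * n⁻¹ = j := by rw [← h.nn]; group
  have hbb : n * a * n⁻¹ * (n * a * n⁻¹) = j := by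
    rw [← hnj, ← haa]; group
  have hnb := h.conj_conj (h.cp.d₁.central a ha)
  generalize hbdef : n * a * n⁻¹ = b at *
  have hab := h.cp.comm a ha b hb
  have hjj := h.cp.jj
  have haj := h.cp.d₁.central a ha
  have hbj := h.cp.d₂.central b hb
  have hainv : a⁻¹ = a * j := by
    rw [inv_eq_iff_mul_eq_one, ← mul_assoc, haa, hjj]
  have hbinv : b⁻¹ = b * j := by
    rw [inv_eq_iff_mul_eq_one, ← mul_assoc, hbb, hjj]
  have hxx := h.cp.mul_four_sq ha hb haa hbb
  -- elements of `L₁ L₂` centralizing `x = a b`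
  have hY : ∀ c ∈ L₁, ∀ d ∈ L₂, c * d * (a * b) = a * b * (c * d) →
      (c * a = a * c ∧ d * b = b * d) ∨ (c * a * c⁻¹ = a⁻¹ ∧ d * b * d⁻¹ = b⁻¹) := by
    intro c hc d hd e
    have e1 : c * a * c⁻¹ * (d * b * d⁻¹) = a * b := by
      rw [← h.cp.conj_mul ha hb hc hd, e]; group
    rcases h.cp.eq_of_mul_eq (mul_mem (mul_mem hc ha) (inv_mem hc))
      (mul_mem (mul_mem hd hb) (inv_mem hd)) ha hb e1 with ⟨e2, e3⟩ | ⟨e2, e3⟩
    · exact Or.inl ⟨mul_inv_eq_iff_eq_mul.1 e2, mul_inv_eq_iff_eq_mul.1 e3⟩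
    · exact Or.inr ⟨by rw [e2, hainv], by rw [e3, hbinv]⟩
  have hnx : n * (a * b) = a * b * n := by
    rw [← mul_inv_eq_iff_eq_mul]
    calc n * (a * b) * n⁻¹ = (n * a * n⁻¹) * (n * b * n⁻¹) := by group
      _ = _ := by rw [hbdef, hnb, hab]
  -- square roots of `x`
  have hroot : ∀ d : G, d * j = j * d → d * d = a * b →
      (∃ c ∈ L₁, ∃ e ∈ L₂, d = c * e ∧ c * a = a * c ∧ e * b = b * e) ∨ d * a * d⁻¹ = b⁻¹ := by
    intro d hd hdd
    have hdx : d * (a * b) = a * b * d := by rw [← hdd]; group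
    rcases h.dec d hd with hy | ⟨y, hy, rfl⟩
    · obtain ⟨c, hc, e, he, rfl⟩ := exists_mul_of_mem_sup h.cp.comm hy
      rcases hY c hc e he hdx with ⟨e1, e2⟩ | ⟨e1, e2⟩
      · exact Or.inl ⟨c, hc, e, he, rfl, e1, e2⟩
      · exfalso
        rw [h.cp.mul_mul he hc, h.cp.d₁.inv_sq a ha haa c hc e1, h.cp.d₂.inv_sq b hb hbb e he e2,
          hjj] at hdd
        exact (h.cp.mul_four_ne ha hb haa).1 hdd.symm
    · obtain ⟨c, hc, e, he, rfl⟩ := exists_mul_of_mem_sup h.cp.comm hy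
      have hyx : c * e * (a * b) = a * b * (c * e) := by
        calc c * e * (a * b) = c * e * (a * b * n) * n⁻¹ := by group
          _ = c * e * n * (a * b) * n⁻¹ := by rw [← hnx]; group
          _ = _ := by rw [hdx]; group
      rcases hY c hc e he hyx with ⟨e1, e2⟩ | ⟨e1, e2⟩
      · exfalso
        rw [h.sq_out hc he] at hdd
        have h1 : n * c * n⁻¹ * b = b * (n * c * n⁻¹) := by
          rw [← hbdef]
          calc n * c * n⁻¹ * (n * a * n⁻¹) = n * (c * a) * n⁻¹ := by group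
            _ = _ := by rw [e1]; group
        have h2 := h.cp.d₂.cent_comm b hb hbb e he _ (h.s₁ c hc) e2 h1
        have h3 : n * (c * (n * e * n⁻¹)) * n⁻¹ = e * (n * c * n⁻¹) := by
          calc n * (c * (n * e * n⁻¹)) * n⁻¹ = n * c * n⁻¹ * (n * (n * e * n⁻¹) * n⁻¹) := by group
            _ = _ := by rw [h.conj_conj (h.cp.d₂.central e he), h2]
        rcases h.cp.eq_of_mul_eq (mul_mem hc (h.s₂ e he))
          (mul_mem (mul_mem he (h.s₁ c hc)) h.cp.d₂.mem) ha hb hdd with ⟨e3, e4⟩ | ⟨e3, e4⟩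
        · rw [← h3, e3, hbdef] at e4
          exact h.cp.j_ne (mul_eq_left.1 e4)
        · rw [← h3, e3, mul_left_inj] at e4
          have h4 : n * (a * j) * n⁻¹ = b * j := by
            calc n * (a * j) * n⁻¹ = n * a * n⁻¹ * (n * j * n⁻¹) := by group
              _ = _ := by rw [hbdef, hnj]
          rw [h4] at e4
          exact h.cp.j_ne (mul_eq_left.1 e4)
      · right
        calc c * e * n * a * (c * e * n)⁻¹ = c * e * (n * a * n⁻¹) * (c * e)⁻¹ := by group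
          _ = _ := by rw [hbdef, h.cp.conj_right hb hc he, e2]
  have hab' : a ≠ b⁻¹ := fun e => h.cp.four_not_mem ha haa (e ▸ inv_mem hb)
  have hab'' : a ≠ b := fun e => h.cp.four_not_mem ha haa (e ▸ hb)
  -- a multiplier for the square roots centralizing `a`
  obtain ⟨k, hka, hkj, hkx, hk⟩ : ∃ k : G, k * a = a * k ∧ k * j = j * k ∧
      k * (a * b) = a * b * k ∧
      ∀ d : G, d * j = j * d → d * d = a * b → d * a = a * d → k * d * (k * d) = j := by
    have hI : ∀ d : G, d * j = j * d → d * d = a * b → d * a = a * d →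
        ∃ c ∈ L₁, ∃ e ∈ L₂, d = c * e ∧ c * a = a * c ∧ e * b = b * e := by
      intro d h1 h2 h3
      refine (hroot d h1 h2).resolve_right fun e => hab' ?_
      rw [← e, h3]; group
    by_cases hex : ∃ d : G, d * j = j * d ∧ d * d = a * b ∧ d * a = a * d
    · obtain ⟨d₀, h1, h2, h3⟩ := hex
      have h1' : Commute d₀ j := h1
      have h3' : Commute d₀ a := h3
      have h4 : Commute d₀ (a * b) := by rw [← h2]; exact (Commute.refl d₀).mul_right (Commute.refl _)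
      have haj' : Commute a j := haj
      have hax : Commute a (a * b) := (Commute.refl a).mul_right hab
      refine ⟨a * d₀⁻¹, ((Commute.refl a).mul_left h3'.inv_left).eq,
        (haj'.mul_left h1'.inv_left).eq, (hax.mul_left h4.inv_left).eq, ?_⟩
      intro d e1 e2 e3
      have h5 : Commute d₀ d := by
        obtain ⟨c, hc, e, he, rfl, f1, f2⟩ := hI d e1 e2 e3
        obtain ⟨c', hc', e', he', rfl, f1', f2'⟩ := hI d₀ h1 h2 h3
        change c' * e' * (c * e) = c * e * (c' * e')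
        rw [h.cp.mul_mul he' hc, h.cp.mul_mul he hc', h.cp.d₁.cent_comm a ha haa c hc c' hc' f1 f1',
          h.cp.d₂.cent_comm b hb hbb e he e' he' f2 f2']
      have e3' : Commute d a := e3
      rw [← pow_two, (e3'.symm.mul_left h5.inv_left).mul_pow, h3'.symm.inv_right.mul_pow, inv_pow,
        pow_two, pow_two, pow_two, haa, h2, e2]
      group
    · push Not at hex
      exact ⟨1, by simp, by simp, by simp, fun d h1 h2 h3 => absurd h3 (hex d h1 h2)⟩
  let φ : G → G := fun d => if d * a = a * d then k * d else a * d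
  have hφ : ∀ d : G, d * j = j * d → d * d = a * b →
      φ d * (a * b) = a * b * φ d ∧ φ d * φ d = j := by
    intro d h1 h2
    have hdx : Commute d (a * b) := by rw [← h2]; exact (Commute.refl d).mul_right (Commute.refl _)
    have hkx' : Commute k (a * b) := hkx
    have hax : Commute a (a * b) := (Commute.refl a).mul_right hab
    by_cases h3 : d * a = a * d
    · simp only [φ, if_pos h3]
      exact ⟨(hkx'.mul_left hdx).eq, hk d h1 h2 h3⟩
    · simp only [φ, if_neg h3]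
      refine ⟨(hax.mul_left hdx).eq, ?_⟩
      rcases hroot d h1 h2 with ⟨c, hc, e, he, rfl, f1, -⟩ | e
      · exact absurd (by rw [mul_assoc, ← h.cp.comm a ha e he, ← mul_assoc, f1, mul_assoc]) h3
      · calc a * d * (a * d) = a * (d * a * d⁻¹) * (d * d) := by group
          _ = a * (b⁻¹ * a) * b := by rw [e, h2]; group
          _ = a * (a * b⁻¹) * b := by rw [(Commute.inv_right hab).eq]
          _ = j := by rw [← haa]; group
  have hφinj : Function.Injective φ := by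
    intro d d' e
    have hk' : Commute k a := hka
    by_cases h3 : d * a = a * d <;> by_cases h4 : d' * a = a * d' <;>
      simp only [φ, h3, h4, if_true, if_false] at e
    · exact mul_left_cancel e
    · exfalso
      have h3' : Commute d a := h3
      have h5 : Commute (a * d') a := e ▸ hk'.mul_left h3'
      exact h4 (by simpa using ((Commute.refl a).inv_left.mul_left h5).eq)
    · exfalso
      have h4' : Commute d' a := h4
      have h5 : Commute (a * d) a := e ▸ hk'.mul_left h4'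
      exact h3 (by simpa using ((Commute.refl a).inv_left.mul_left h5).eq)
    · exact mul_left_cancel e
  let R := {d : G // d * (a * b) = a * b * d ∧ d * d = j}
  have hconj : ∀ d : R, g * d * g⁻¹ * j = j * (g * d * g⁻¹) ∧
      g * d * g⁻¹ * (g * d * g⁻¹) = a * b := by
    rintro ⟨d, h1, h2⟩
    dsimp only
    constructor
    · rw [← hg2]
      calc g * d * g⁻¹ * (g * (a * b) * g⁻¹) = g * (d * (a * b)) * g⁻¹ := by group
        _ = _ := by rw [h1]; group
    · rw [← hg1, ← h2]; group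
  let ψ : R → R := fun d => ⟨φ (g * d * g⁻¹), hφ _ (hconj d).1 (hconj d).2⟩
  have hψ : Function.Injective ψ := by
    intro d d' e
    have := hφinj (congrArg Subtype.val e)
    exact Subtype.ext (by simpa using this)
  obtain ⟨d, hd⟩ := Finite.surjective_of_injective hψ ⟨n, hnx, h.nn⟩
  have hd' : φ (g * d * g⁻¹) = n := congrArg Subtype.val hd
  obtain ⟨h1, h2⟩ := hconj d
  generalize g * d * g⁻¹ = u at hd' h1 h2
  by_cases h3 : u * a = a * u
  · simp only [φ, if_pos h3] at hd'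
    have h4 : Commute n a := hd' ▸ Commute.mul_left hka h3
    apply hab''
    rw [← hbdef, h4.eq]; group
  · simp only [φ, if_neg h3] at hd'
    rcases hroot u h1 h2 with ⟨c, hc, e, he, rfl, f1, -⟩ | e
    · exact h3 (by rw [mul_assoc, ← h.cp.comm a ha e he, ← mul_assoc, f1, mul_assoc])
    · have h4 : b = b⁻¹ := by
        calc b = a * (u * a * u⁻¹) * a⁻¹ := by rw [← hbdef, ← hd']; group
          _ = b⁻¹ := by rw [e, (Commute.inv_right hab).eq]; group
      rw [← mul_eq_one_iff_eq_inv, hbb] at h4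
      exact h.cp.j_ne h4

private theorem Setup.isolated [Finite G] (h : Setup L₁ L₂ j n) : IsIsolatedInvolution j := by
  refine ⟨h.cp.d₁.order, fun g hg => ?_⟩
  by_contra hne
  have hjj := h.cp.jj
  have hcases : ∀ t : G, t * j = j * t → t * t = 1 → t ≠ 1 → t ≠ j →
      ∃ a ∈ L₁, ∃ b ∈ L₂, a * a = j ∧ b * b = j ∧ t = a * b := fun t h1 h2 h3 h4 =>
    ((h.cp.sq_cases (h.invol_mem h1 h2) h2).resolve_left h3).resolve_left h4
  have hYj : ∀ y ∈ L₁ ⊔ L₂, y * j * y⁻¹ = j := by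
    intro y hy
    obtain ⟨c, hc, d, hd, rfl⟩ := exists_mul_of_mem_sup h.cp.comm hy
    rw [h.cp.conj_left h.cp.d₁.mem hc hd, h.cp.d₁.central c hc]; group
  have hsq : ∀ u : G, u * j * u⁻¹ * (u * j * u⁻¹) = 1 := fun u => by
    calc u * j * u⁻¹ * (u * j * u⁻¹) = u * (j * j) * u⁻¹ := by group
      _ = 1 := by rw [hjj]; group
  have hne1 : ∀ u : G, u * j * u⁻¹ ≠ 1 := fun u e => h.cp.j_ne (by simpa using e)
  obtain ⟨a, ha, b, hb, haa, hbb, e⟩ := hcases _ hg.symm.eq (hsq g) (hne1 g) hne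
  have hnj : n * j * n⁻¹ = j := by rw [← h.nn]; group
  have hb' : n * a * n⁻¹ * (n * a * n⁻¹) = j := by rw [← hnj, ← haa]; group
  obtain ⟨y, hy, e1⟩ := h.cp.exists_conj ha hb ha (h.s₁ a ha) haa hbb haa hb'
  have e2 : y * g * j * (y * g)⁻¹ = a * (n * a * n⁻¹) := by rw [← e1, ← e]; group
  have hxj : a * (n * a * n⁻¹) * j = j * (a * (n * a * n⁻¹)) := by
    have := hYj _ (mul_mem (Subgroup.mem_sup_left ha) (Subgroup.mem_sup_right (h.s₁ a ha)))
    rw [← mul_inv_eq_iff_eq_mul, this]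
  generalize y * g = u at e2
  have h1 : u⁻¹ * j * u⁻¹⁻¹ * j = j * (u⁻¹ * j * u⁻¹⁻¹) := by
    rw [← e2] at hxj
    calc u⁻¹ * j * u⁻¹⁻¹ * j = u⁻¹ * (j * (u * j * u⁻¹)) * u := by group
      _ = _ := by rw [← hxj]; group
  have h2 : u⁻¹ * j * u⁻¹⁻¹ ≠ j := by
    intro e3
    apply (h.cp.mul_four_ne ha (h.s₁ a ha) haa).2
    rw [← e2]
    calc u * j * u⁻¹ = u * (u⁻¹ * j * u⁻¹⁻¹) * u⁻¹ := by rw [e3]
      _ = j := by group
  obtain ⟨c, hc, d, hd, hcc, hdd, e3⟩ := hcases _ h1 (hsq u⁻¹) (hne1 u⁻¹) h2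
  obtain ⟨v, hv, e4⟩ := h.cp.exists_conj ha (h.s₁ a ha) hc hd haa hb' hcc hdd
  refine h.no_swap ha haa (g := u * v) ?_ ?_
  · rw [← e2]
    calc u * v * j * (u * v)⁻¹ = u * (v * j * v⁻¹) * u⁻¹ := by group
      _ = _ := by rw [hYj v hv]
  · calc u * v * (a * (n * a * n⁻¹)) * (u * v)⁻¹ = u * (v * (a * (n * a * n⁻¹)) * v⁻¹) * u⁻¹ := by
          group
      _ = j := by rw [e4, ← e3]; group

end

/-- Let G be a finite group with subgroups L₁ ≅ SL₂(q₁) and L₂ ≅ SL₂(q₂), q₁ and q₂ odd prime powers, which commute elementwise and meet in ⟨j⟩ for an involution j, and suppose L₁L₂ has index 2 in C_G(j). If some n ∈ C_G(j) with n² = j interchanges L₁ and L₂ under conjugation (so that C_G(j) = L₁L₂⟨n⟩), then G = C_G(j)O(G). -/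
theorem result {G : Type*} [Group G] [Finite G]
    {F₁ : Type*} [Field F₁] [Fintype F₁] {F₂ : Type*} [Field F₂] [Fintype F₂]
    (hF₁ : Odd (Fintype.card F₁)) (hF₂ : Odd (Fintype.card F₂)) (L₁ L₂ : Subgroup G)
    (e₁ : ↥L₁ ≃* Matrix.SpecialLinearGroup (Fin 2) F₁) (e₂ : ↥L₂ ≃* Matrix.SpecialLinearGroup (Fin 2) F₂)
    (hc : ∀ x ∈ L₁, ∀ y ∈ L₂, x * y = y * x) (j : G) (hj : orderOf j = 2) (hm : L₁ ⊓ L₂ = Subgroup.zpowers j)
    (hle : L₁ ⊔ L₂ ≤ Subgroup.centralizer ({j} : Set G)) (hi : (L₁ ⊔ L₂).relIndex (Subgroup.centralizer ({j} : Set G)) = 2) (n : G) (hn : n ∈ Subgroup.centralizer ({j} : Set G))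
    (hn2 : n ^ 2 = j) (hswap : L₁.map (MulAut.conj n).toMonoidHom = L₂) :
    Subgroup.centralizer ({j} : Set G) ⊔ Cfsg.oddCore G = ⊤ := by
  have h := cpData_of_equiv hF₁ hF₂ e₁ e₂ hc hj hm
  rw [pow_two] at hn2
  have hs₁ : ∀ x ∈ L₁, n * x * n⁻¹ ∈ L₂ := fun x hx => hswap ▸ ⟨x, hx, rfl⟩
  have hs₂ : ∀ x ∈ L₂, n * x * n⁻¹ ∈ L₁ := by
    intro x hx
    rw [← hswap] at hx
    obtain ⟨y, hy, rfl⟩ := hx
    have : n * (n * y * n⁻¹) * n⁻¹ = y := by
      calc n * (n * y * n⁻¹) * n⁻¹ = (n * n) * y * (n * n)⁻¹ := by group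
        _ = y := by rw [hn2, ← h.d₁.central y hy]; group
    change n * (n * y * n⁻¹) * n⁻¹ ∈ L₁
    rwa [this]
  have hn' : n ∉ L₁ ⊔ L₂ := by
    intro hnY
    obtain ⟨a, ha, haa⟩ := h.d₁.exists_four
    refine h.four_not_mem (h.conj_mem_left hnY ha) ?_ (hs₁ a ha)
    calc n * a * n⁻¹ * (n * a * n⁻¹) = n * (a * a) * n⁻¹ := by group
      _ = j := by rw [haa, ← hn2]; group
  have hS : Setup L₁ L₂ j n := by
    refine ⟨h, hn2, hs₁, hs₂, fun d hd => ?_⟩
    by_cases hdY : d ∈ L₁ ⊔ L₂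
    · exact Or.inl hdY
    · refine Or.inr ⟨d * n⁻¹, ?_, by group⟩
      refine (Subgroup.mul_mem_iff_of_index_two (H := (L₁ ⊔ L₂).subgroupOf _) hi
        (a := ⟨d, Subgroup.mem_centralizer_singleton_iff.2 hd⟩) (b := ⟨n⁻¹, inv_mem hn⟩)).2 ?_
      change d ∈ L₁ ⊔ L₂ ↔ n⁻¹ ∈ L₁ ⊔ L₂
      rw [inv_mem_iff]
      tauto
  rw [eq_top_iff]
  intro g _
  obtain ⟨k, hk, c, hc', rfl⟩ := hS.isolated.exists_oddCore_mul_commute g
  exact mul_mem (Subgroup.mem_sup_right hk)
    (Subgroup.mem_sup_left (Subgroup.mem_centralizer_singleton_iff.2 hc'.eq))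

end Cfsg.Agent.S3211
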