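import Cfsg.Statements.S3213
import Mathlib

set_option autoImplicit false
open Cfsg

namespace Cfsg.Agent.S3213

open Matrix Module

theorem exists_five : ∀ x : SpecialLinearGroup (Fin 2) (ZMod 5), x ^ 3 = 1 → x ≠ 1 →
    ∃ c : SpecialLinearGroup (Fin 2) (ZMod 5), ((x * (c * x * c⁻¹)) ^ 2) ^ 5 = 1 ∧
      (x * (c * x * c⁻¹)) ^ 2 ≠ 1 := by
  decide +kernel

theorem exists_five' {K : Type*} [Field K] [Fintype K] (hK : Fintype.card K = 5)
    (x : SpecialLinearGroup (Fin 2) K) (hx : orderOf x = 3) :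
    ∃ c, ((x * (c * x * c⁻¹)) ^ 2) ^ 5 = 1 ∧
      (x * (c * x * c⁻¹)) ^ 2 ≠ 1 := by
  let e := ZMod.ringEquivOfPrime K (by norm_num) hK
  let f := SpecialLinearGroup.map (n := Fin 2) (e : ZMod 5 →+* K)
  let g := SpecialLinearGroup.map (n := Fin 2) (e.symm : K →+* ZMod 5)
  have h1 : ∀ y, f (g y) = y := fun y => by ext i j; simp [f, g]
  have h2 : ∀ y, g (f y) = y := fun y => by ext i j; simp [f, g]
  obtain ⟨c, h3, h4⟩ := exists_five (g x) (by rw [← map_pow, ← hx, pow_orderOf_eq_one, map_one])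
    fun k => by rw [← h1 x, k, map_one, orderOf_one] at hx; omega
  refine ⟨f c, by simpa only [map_pow, map_mul, map_inv, h1, map_one] using congrArg f h3, fun k => h4 ?_⟩
  simpa only [map_pow, map_mul, map_inv, h2, map_one] using congrArg g k

theorem two_le {k V : Type*} [Field k] [AddCommGroup V] [Module k V] [FiniteDimensional k V] (D : End k V)
    (h : finrank k (LinearMap.ker D) ≤ 1) (j : ℕ) : finrank k (LinearMap.ker (D ^ j)) ≤ j := by
  induction j with
  | zero => simp [End.one_eq_id]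
  | succ j ih =>
    have h1 := LinearMap.finrank_range_add_finrank_ker (D.domRestrict (LinearMap.ker (D ^ (j + 1))))
    have h2 : LinearMap.range (D.domRestrict (LinearMap.ker (D ^ (j + 1)))) ≤
        LinearMap.ker (D ^ j) := by
      rintro _ ⟨v, rfl⟩
      exact (congrArg (fun f : End k V => f v) (pow_succ D j)).symm.trans v.2
    have h3 : (LinearMap.ker (D.domRestrict (LinearMap.ker (D ^ (j + 1))))).map
        (Submodule.subtype _) ≤ LinearMap.ker D := by
      rintro _ ⟨v, hv, rfl⟩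
      exact hv
    have h4 := Submodule.finrank_mono h2
    have h5 := Submodule.finrank_mono h3
    rw [Submodule.finrank_map_subtype_eq] at h5
    omega

theorem eq_one {F n : Type*} [Field F] [Fintype F] (hF : Fintype.card F = 3) [Fintype n] [DecidableEq n]
    (hn : Fintype.card n = 4) {A : Matrix n n F} (h5 : A ^ 5 = 1)
    (h : 2 ≤ finrank F (LinearMap.ker (toLin' A - LinearMap.id))) : A = 1 := by
  classical
  have : Fact (Nat.Prime 5) := ⟨by norm_num⟩
  let φ : Function.End (n → F) := A.mulVec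
  have h1 : ∀ m : ℕ, ∀ w, (φ ^ m) w = (A ^ m).mulVec w := fun m => by
    induction m with
    | zero => intro w; simp [Function.End.one_def]
    | succ m ih =>
      intro w
      rw [pow_succ' φ, pow_succ' A, ← mulVec_mulVec, ← ih]; rfl
  have h2 := Equiv.Perm.card_fixedPoints_modEq (f := φ) (p := 5) (n := 1) (funext fun w => by
    rw [h1, pow_one, h5]; simp [Function.End.one_def])
  have h3 : Fintype.card (Function.fixedPoints φ) = 3 ^ finrank F (LinearMap.ker (toLin' A - LinearMap.id)) := by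
    rw [← hF, ← Module.card_eq_pow_finrank]
    exact Fintype.card_congr (Equiv.subtypeEquivRight fun v => by
      simp [φ, Function.IsFixedPt, sub_eq_zero])
  have h4 := Submodule.finrank_le (LinearMap.ker (toLin' A - LinearMap.id))
  rw [h3, Fintype.card_fun, hF, hn] at h2
  rw [finrank_fintype_fun_eq_card, hn] at h4
  have h6 : finrank F (LinearMap.ker (toLin' A - LinearMap.id)) = finrank F (n → F) := by
    rw [finrank_fintype_fun_eq_card, hn]
    generalize finrank F (LinearMap.ker (toLin' A - LinearMap.id)) = m at *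
    interval_cases m <;> simp_all [Nat.ModEq]
  exact toLin'.injective (by
    rw [toLin'_one]; exact sub_eq_zero.1 (LinearMap.ker_eq_top.1 (Submodule.eq_top_of_finrank_eq h6)))

/-- Let F be the field with 3 elements and K the field with 5 elements. For every injective homomorphism φ from SL₂(K) into the symplectic group Sp₄(F) (4 × 4 matrices g with g J gᵀ = J for the standard alternating matrix J) and every element x of order 3 of SL₂(K), the vectors of F⁴ fixed by φ(x) form a 2-dimensional subspace that is totally isotropic for the alternating form defined by J. -/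
theorem result {F : Type*} [Field F] [Fintype F] (hF : Fintype.card F = 3)
    {K : Type*} [Field K] [Fintype K] (hK : Fintype.card K = 5)
    (φ : Matrix.SpecialLinearGroup (Fin 2) K →* ↥(Matrix.symplecticGroup (Fin 2) F)) (hφ : Function.Injective φ)
    (x : Matrix.SpecialLinearGroup (Fin 2) K) (hx : orderOf x = 3) :
    Module.finrank F ↥(LinearMap.ker (Matrix.toLin' ((φ x : Matrix (Fin 2 ⊕ Fin 2) (Fin 2 ⊕ Fin 2) F)) - LinearMap.id)) = 2 ∧
      ∀ v w : Fin 2 ⊕ Fin 2 → F, (φ x : Matrix (Fin 2 ⊕ Fin 2) (Fin 2 ⊕ Fin 2) F).mulVec v = v →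
        (φ x : Matrix (Fin 2 ⊕ Fin 2) (Fin 2 ⊕ Fin 2) F).mulVec w = w →
          dotProduct v ((Matrix.J (Fin 2) F).mulVec w) = 0 := by
  classical
  have : CharP F 3 := charP_of_card_eq_prime_pow (p := 3) (f := 1) (by simpa using hF)
  have : Fact (Nat.Prime 3) := ⟨by norm_num⟩
  let M : SpecialLinearGroup (Fin 2) K →* Matrix (Fin 2 ⊕ Fin 2) (Fin 2 ⊕ Fin 2) F :=
    (symplecticGroup (Fin 2) F).subtype.comp φ
  let U := fun y => LinearMap.ker (toLin' (M y) - LinearMap.id)
  have hU : ∀ {y v}, v ∈ U y ↔ M y *ᵥ v = v := by simp [U, sub_eq_zero]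
  have h4 : finrank F (Fin 2 ⊕ Fin 2 → F) = 4 := by simp
  have hN : (toLin' (M x) - LinearMap.id : End F _) ^ 3 = 0 := by
    have : CharP (End F (Fin 2 ⊕ Fin 2 → F)) 3 := charP_of_injective_algebraMap (algebraMap F _).injective 3
    rw [sub_pow_char_of_commute 3 (Commute.one_right _), ← toLin'_pow, ← map_pow, ← hx, pow_orderOf_eq_one,
      map_one, toLin'_one, ← End.one_eq_id, one_pow, sub_self]
  have h2 : finrank F (U x) = 2 := by
    refine le_antisymm (not_lt.1 fun h => ?_) (not_lt.1 fun h => ?_)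
    · obtain ⟨c, h5, h6⟩ := exists_five' hK x hx
      have h7 : finrank F (U x) ≤ finrank F (U (c * x * c⁻¹)) := by
        refine (LinearMap.finrank_le_finrank_of_injective (f := (toLin' (M c)).restrict
          (p := U x) (q := U (c * x * c⁻¹)) fun v hv => hU.2 ?_) fun v w e => Subtype.ext ?_)
        · rw [toLin'_apply, mulVec_mulVec, ← map_mul, inv_mul_cancel_right, map_mul, ← mulVec_mulVec, hU.1 hv]
        · have := congrArg (fun u : U (c * x * c⁻¹) => M c⁻¹ *ᵥ (u : _ → F)) e
          simpa [← map_mul] using this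
      have h8 := Submodule.finrank_sup_add_finrank_inf_eq (U x) (U (c * x * c⁻¹))
      have h9 := Submodule.finrank_le (U x ⊔ U (c * x * c⁻¹))
      have h10 := Submodule.finrank_mono (show U x ⊓ U (c * x * c⁻¹) ≤ U ((x * (c * x * c⁻¹)) ^ 2) from
        fun v hv => hU.2 (by simp only [pow_two, map_mul M x, map_mul M (x * _), ← mulVec_mulVec, hU.1 hv.2,
          hU.1 hv.1]))
      exact h6 (hφ (Subtype.ext ((eq_one hF (by simp) (by rw [← map_pow, h5, map_one])
        (le_trans (by omega) h10)).trans (map_one M).symm)))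
    · have := two_le _ (Nat.le_of_lt_succ h) 3
      rw [hN, LinearMap.ker_zero, finrank_top, h4] at this
      omega
  refine ⟨h2, fun v w hv hw => ?_⟩
  have hB : ∀ s u, (M x *ᵥ s) ⬝ᵥ (J (Fin 2) F *ᵥ (M x *ᵥ u)) = s ⬝ᵥ (J (Fin 2) F *ᵥ u) := fun s u => by
    rw [← vecMul_transpose, ← dotProduct_mulVec, mulVec_mulVec, mulVec_mulVec]
    exact congrArg (fun A => s ⬝ᵥ (A *ᵥ u)) (SymplecticGroup.mem_iff'.1 (φ x).2)
  have hA : ∀ s u : Fin 2 ⊕ Fin 2 → F, s ⬝ᵥ (J (Fin 2) F *ᵥ u) = -(u ⬝ᵥ (J (Fin 2) F *ᵥ s)) := fun s u => by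
    rw [dotProduct_mulVec, dotProduct_comm, ← mulVec_transpose, J_transpose, neg_mulVec, dotProduct_neg]
  have h0 : ∀ s : Fin 2 ⊕ Fin 2 → F, s ⬝ᵥ (J (Fin 2) F *ᵥ s) = 0 := fun s => by
    have h3 : (3 : F) = 0 := by exact_mod_cast CharP.cast_eq_zero F 3
    linear_combination s ⬝ᵥ (J (Fin 2) F *ᵥ s) * h3 - hA s s
  obtain ⟨t, ht, t0, s, hs⟩ : ∃ t ∈ U x, t ≠ 0 ∧ ∃ s, M x *ᵥ s - s = t := by
    set N : End F _ := toLin' (M x) - LinearMap.id
    obtain ⟨s, hs⟩ : ∃ s, s ∉ U x := by
      by_contra! k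
      rw [show U x = ⊤ from eq_top_iff.2 fun s _ => k s, finrank_top, h4] at h2
      omega
    by_cases k : N s ∈ U x
    · exact ⟨N s, k, hs, s, rfl⟩
    · exact ⟨N (N s), congrArg (fun f : End F _ => f s) hN, k, N s, rfl⟩
  have ht' : ∀ u, M x *ᵥ u = u → t ⬝ᵥ (J (Fin 2) F *ᵥ u) = 0 := fun u hu => by
    rw [← hs, sub_dotProduct, ← hB s u, hu, sub_self]
  by_contra hb
  have hl : LinearIndependent F ![(⟨t, ht⟩ : U x), ⟨v, hU.2 hv⟩, ⟨w, hU.2 hw⟩] := by
    refine Fintype.linearIndependent_iff.2 fun a ha => ?_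
    have e : a 0 • t + a 1 • v + a 2 • w = 0 := by simpa [Fin.sum_univ_three] using congrArg Subtype.val ha
    have e1 := congrArg (· ⬝ᵥ (J (Fin 2) F *ᵥ w)) e
    have e2 := congrArg (· ⬝ᵥ (J (Fin 2) F *ᵥ v)) e
    simp only [add_dotProduct, smul_dotProduct, ht' w hw, ht' v hv, h0, hA w v, smul_eq_mul, mul_zero, zero_add,
      add_zero, zero_dotProduct, mul_eq_zero, neg_eq_zero, hb, or_false] at e1 e2
    rw [e1, e2] at e
    intro i
    fin_cases i
    exacts [by simpa [t0] using e, e1, e2]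
  have := hl.fintype_card_le_finrank
  simp [h2] at this

end Cfsg.Agent.S3213
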