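import Mathlib
import Cfsg.Statements.S3215
import Cfsg.Agent.Inv.SylowInter
import Cfsg.Agent.GT.PConstrained
import Cfsg.Agent.GT.TransferPNilp
import Cfsg.Agent.GT.FrobeniusComplement
import Cfsg.Agent.GT.MinNormal
import Cfsg.Agent.GT.Fitting
import Cfsg.Agent.GT.PGroupElemAb

set_option autoImplicit false
open Cfsg

namespace Cfsg.Agent.S3215

open Subgroup

/-- Let H be a finite solvable group with no nontrivial normal subgroup of odd order in which the centralizer of every involution has a normal 2-complement. Let X be a Hall 2'-subgroup of H (odd order, index a power of 2) and Y = O₂(H). Then no non-identity element of X commutes with a non-identity element of Y (so for X ≠ 1 the group XY is a Frobenius group with kernel Y), every Sylow subgroup of X is cyclic, XY is normal in H, and H/XY is a cyclic 2-group. -/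
theorem result {H : Type*} [Group H] [Finite H] (hsol : Group.IsSolvable H)
    (hO : Cfsg.oddCore H = ⊥)
    (hI : ∀ t : H, orderOf t = 2 → Cfsg.HasNormalPComplement 2 ↥(Subgroup.centralizer ({t} : Set H)))
    (X : Subgroup H) (hXodd : Odd (Nat.card X)) (hXidx : ∃ k : ℕ, X.index = 2 ^ k) :
    (∀ x ∈ X, x ≠ 1 → ∀ y ∈ Cfsg.pCore 2 H, y ≠ 1 → x * y ≠ y * x) ∧
      (∀ (p : ℕ) [Fact p.Prime] (P : Sylow p ↥X), IsCyclic ↥(P : Subgroup ↥X)) ∧
      (X ⊔ Cfsg.pCore 2 H).Normal ∧
      ∀ hN : (X ⊔ Cfsg.pCore 2 H).Normal, IsCyclic (H ⧸ (X ⊔ Cfsg.pCore 2 H)) ∧ IsPGroup 2 (H ⧸ (X ⊔ Cfsg.pCore 2 H)) := by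
  have hc : centralizer (pCore 2 H : Set H) ≤ pCore 2 H := GT.centralizer_pCore_le Nat.prime_two hO
  have hY : IsPGroup 2 (pCore 2 H) := GT.isPGroup_pCore 2
  have cit : ∀ t : H, orderOf t = 2 → IsPGroup 2 (centralizer ({t} : Set H)) := by
    intro t ht
    have h1 := GT.pPrimeCore_eq_bot_of_charP (GT.charP_centralizer hc (P := zpowers t)
      (Inv.isPGroup_zpowers_of_orderOf (k := 1) (by rw [ht, pow_one])))
    rw [GT.centralizer_zpowers] at h1
    obtain ⟨N, hN, hN1, k, hk⟩ := (hI t ht).exists_normal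
    have h2 : N = ⊥ := le_bot_iff.1 (h1 ▸ GT.le_pPrimeCore
      ((Nat.prime_two.coprime_iff_not_dvd.2 hN1).symm))
    rw [h2, index_bot] at hk
    exact IsPGroup.of_card hk
  have key : ∀ x : H, Odd (orderOf x) → x ≠ 1 → Odd (Nat.card (centralizer ({x} : Set H))) := by
    intro x hx hx1
    by_contra h
    rw [Nat.not_odd_iff_even, even_iff_two_dvd] at h
    obtain ⟨t, ht⟩ := exists_prime_orderOf_dvd_card' 2 h
    obtain ⟨k, hk⟩ := cit t (by rw [Subgroup.orderOf_coe, ht])
      ⟨x, mem_centralizer_singleton_iff.2 (mem_centralizer_singleton_iff.1 t.2).symm⟩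
    have h3 : orderOf x ∣ 2 ^ k := orderOf_dvd_of_pow_eq_one (congrArg Subtype.val hk)
    exact hx1 (orderOf_eq_one_iff.1 (Nat.eq_one_of_dvd_coprimes
      (Nat.Coprime.pow_right k (Nat.coprime_two_right.2 hx)) dvd_rfl h3))
  have fpf : ∀ x : H, Odd (orderOf x) → x ≠ 1 → pCore 2 H ⊓ centralizer ({x} : Set H) = ⊥ := by
    intro x hx hx1
    obtain ⟨k, hk⟩ := (hY.to_le (inf_le_left (b := centralizer ({x} : Set H)))).exists_card_eq
    refine card_eq_one.1 (Nat.eq_one_of_dvd_coprimes
      (Nat.Coprime.pow_right k (Nat.coprime_two_right.2 (key x hx hx1)))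
      (card_dvd_of_le inf_le_right) hk.dvd)
  have cyc : ∀ (r : ℕ) [Fact r.Prime] (P : Subgroup H), IsPGroup r P → Odd (Nat.card P) →
      IsCyclic P := by
    intro r _ P hP hPo
    by_cases hY1 : pCore 2 H = ⊥
    · rw [hY1, GT.centralizer_bot] at hc
      have : P = ⊥ := le_bot_iff.1 (le_top.trans hc)
      rw [this]; infer_instance
    have h1 := GT.Frob.hasFpfAction_of_isSolvable (A := P) hY1 le_normalizer_of_normal
      (fun a ha ha1 => fpf a (hPo.of_dvd_nat (P.orderOf_dvd_natCard ha)) ha1)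
      (Or.inl inferInstance)
    rcases h1.isCyclic_or_quaternion hP with h | ⟨-, n, ⟨e⟩⟩
    · exact h
    · rw [Nat.card_congr e.toEquiv, Nat.card_eq_fintype_card, QuaternionGroup.card] at hPo
      exact absurd hPo (by rw [Nat.not_odd_iff_even]; exact ⟨2 * 2 ^ n, by ring⟩)
  obtain ⟨k, hk⟩ := hXidx
  have main : ∃ K : Subgroup H, ∃ _ : K.Normal, K ≤ X ⊔ pCore 2 H ∧ IsCyclic (H ⧸ K) := by
    by_cases hT : pCore 2 H = ⊤
    · refine ⟨⊤, inferInstance, hT ▸ le_sup_right, ?_⟩
      have := QuotientGroup.subsingleton_quotient_top (G := H)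
      infer_instance
    have := QuotientGroup.nontrivial_iff.2 hT
    obtain ⟨R, hR⟩ := GT.exists_isMinNormal (H ⧸ pCore 2 H)
    have hRn := hR.normal
    obtain ⟨r, hr, hE⟩ := hR.elementary
    have := Fact.mk hr
    have hRp : IsPGroup r R := hE.isPGroup
    have hr2 : r ≠ 2 := by
      rintro rfl
      exact hR.ne_bot (le_bot_iff.1 (GT.pCore_quotient_pCore (p := 2) (G := H) ▸ GT.le_pCore hRp))
    have hf := QuotientGroup.mk'_surjective (pCore 2 H)
    obtain ⟨P, hP, hPR⟩ := Inv.SI.exists_isPGroup_map_eq hf hRp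
    have hPo : Odd (Nat.card P) := by
      obtain ⟨n, hn⟩ := hP.exists_card_eq
      rw [hn]; exact (hr.odd_of_ne_two hr2).pow
    have hRc : IsCyclic R := by
      have := cyc r P hP hPo
      rw [← hPR]
      exact isCyclic_of_surjective _ ((QuotientGroup.mk' _).subgroupMap_surjective P)
    have hRcard : Nat.card R = r := by
      obtain ⟨n, hn⟩ := hRp.exists_card_eq
      have h1 := hE.isCyclic_iff.1 hRc
      have h2 : n ≠ 0 := by
        rintro rfl
        exact hR.ne_bot (card_eq_one.1 hn)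
      rw [hn] at h1 ⊢
      exact le_antisymm h1 (Nat.le_self_pow h2 r)
    have hA : IsCyclic (MulAut R) := by
      have := ZMod.isCyclic_units_prime hr
      rw [← hRcard] at this
      exact isCyclic_of_surjective _ (IsCyclic.mulAutMulEquiv R).symm.surjective
    have hC : Odd (Nat.card (centralizer (R : Set (H ⧸ pCore 2 H)))) := by
      rw [← hPR, ← GT.map_centralizer_of_coprime_ker hf (by
        rw [QuotientGroup.ker_mk']
        obtain ⟨n, hn⟩ := hY.exists_card_eq
        rw [hn]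
        exact Nat.Coprime.pow_left n ((Nat.coprime_primes Nat.prime_two hr).2 hr2.symm)) hP]
      refine Odd.of_dvd_nat ?_ (card_map_dvd _ _)
      have hP1 : P ≠ ⊥ := by
        rintro rfl
        exact hR.ne_bot (by rw [← hPR, Subgroup.map_bot])
      obtain ⟨x, hx1⟩ := ne_bot_iff_exists_ne_one.1 hP1
      exact (key x (hPo.of_dvd_nat (P.orderOf_dvd_natCard x.2))
        (fun e => hx1 (Subtype.ext e))).of_dvd_nat
        (card_dvd_of_le (GT.centralizer_le_centralizer_singleton x.2))
    let g : H →* MulAut R := MulAut.conjNormal.comp (QuotientGroup.mk' _)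
    refine ⟨g.ker, inferInstance, ?_,
      isCyclic_of_injective _ (QuotientGroup.kerLift_injective g)⟩
    have hH : IsPiHall {2}ᶜ (X.map (QuotientGroup.mk' (pCore 2 H))) := by
      refine ⟨(GT.isPiNum_compl_singleton_iff Nat.prime_two).2
        (Nat.coprime_two_right.2 (hXodd.of_dvd_nat (card_map_dvd _ _))), fun q hq hq2 hd => hq2 ?_⟩
      have := (hd.trans (X.index_map_dvd hf))
      rw [hk] at this
      exact (Nat.prime_dvd_prime_iff_eq hq Nat.prime_two).1 (hq.dvd_of_dvd_pow this)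
    have h1 := hH.normal_le ((GT.isPiNum_compl_singleton_iff Nat.prime_two).2
      (Nat.coprime_two_right.2 hC))
    rw [← GT.comap_map_mk']
    intro x hx
    refine h1 fun y hy => ?_
    have := congrArg (fun φ : MulAut R => ((φ ⟨y, hy⟩ : R) : H ⧸ pCore 2 H)) hx
    exact (mul_inv_eq_iff_eq_mul.1 this).symm
  obtain ⟨K, hKn, hK, hKc⟩ := main
  refine ⟨fun x hx hx1 y hy hy1 h => hy1 ?_, fun p _ P => ?_, ?_, fun hN => ⟨?_, ?_⟩⟩
  · exact mem_bot.1 (fpf x (hXodd.of_dvd_nat (X.orderOf_dvd_natCard hx)) hx1 ▸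
      (⟨hy, mem_centralizer_singleton_iff.2 h.symm⟩ : y ∈ pCore 2 H ⊓ centralizer ({x} : Set H)))
  · have := cyc p ((P : Subgroup X).map X.subtype) (P.isPGroup'.map _)
      (hXodd.of_dvd_nat (card_dvd_of_le (map_subtype_le _)))
    exact isCyclic_of_surjective _
      ((P : Subgroup X).equivMapOfInjective _ X.subtype_injective).symm.surjective
  · refine Subgroup.Normal.of_commutator_le _ (le_trans ?_ hK)
    exact Subgroup.Normal.quotient_commutative_iff_commutator_le.1 hKc.isMulCommutative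
  · refine isCyclic_of_surjective (QuotientGroup.map K (X ⊔ pCore 2 H) (MonoidHom.id H) hK) fun y => ?_
    obtain ⟨y, rfl⟩ := QuotientGroup.mk_surjective y
    exact ⟨y, rfl⟩
  · have h1 : (X ⊔ pCore 2 H).index ∣ 2 ^ k := hk ▸ index_dvd_of_le le_sup_left
    obtain ⟨n, -, hn⟩ := (Nat.dvd_prime_pow Nat.prime_two).1 h1
    exact IsPGroup.of_card hn

end Cfsg.Agent.S3215
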