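import Mathlib
import Cfsg.Statements.S3231
import Cfsg.Agent.LX.Main
import Cfsg.Agent.S0815

set_option autoImplicit false
open Cfsg

namespace Cfsg.Agent.S3231

/-- Let G be a finite group with an involution z, H = C_G(z), such that J = O₂(H) is extraspecial of order 2⁹ with C_H(J) ≤ J and H/J ≅ Aut(PSp₄(3)). Then either G has a subgroup G₀ of index 2 with G₀ ≅ U₆(2) and C_G(G₀) = 1 (so that G embeds in Aut(G₀)), or G = H·O(G). -/
theorem result {G : Type*} [Group G] [Finite G] (z : G) (hz : orderOf z = 2)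
    {F : Type*} [Field F] [Fintype F] (hF : Fintype.card F = 3) {K : Type*} [Field K] [Fintype K] (hK : Fintype.card K = 4)
    (hJ : Cfsg.IsExtraspecial 2 ↥(Cfsg.pCore 2 ↥(Subgroup.centralizer ({z} : Set G)))) (hJc : Nat.card ↥(Cfsg.pCore 2 ↥(Subgroup.centralizer ({z} : Set G))) = 2 ^ 9)
    (hCJ : Subgroup.centralizer ((Cfsg.pCore 2 ↥(Subgroup.centralizer ({z} : Set G))) : Set ↥(Subgroup.centralizer ({z} : Set G))) ≤ Cfsg.pCore 2 ↥(Subgroup.centralizer ({z} : Set G))) [hJn : (Cfsg.pCore 2 ↥(Subgroup.centralizer ({z} : Set G))).Normal]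
    (e : (↥(Subgroup.centralizer ({z} : Set G)) ⧸ Cfsg.pCore 2 ↥(Subgroup.centralizer ({z} : Set G))) ≃* MulAut (Cfsg.PSp 2 F)) :
    (∃ G₀ : Subgroup G, G₀.index = 2 ∧ Nonempty (↥G₀ ≃* Cfsg.PSU 6 K 2) ∧ Subgroup.centralizer (G₀ : Set G) = ⊥) ∨
      Subgroup.centralizer ({z} : Set G) ⊔ Cfsg.oddCore G = ⊤ := by
  have h := LX.big_of_pCore hz hJ hJc hCJ
  obtain ⟨r, hr⟩ := LX.exists_four hF
  have hφ : Function.Surjective (e.toMonoidHom.comp (QuotientGroup.mk' _)) :=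
    e.surjective.comp (QuotientGroup.mk'_surjective _)
  have hk : ∀ x, (e.toMonoidHom.comp (QuotientGroup.mk' _)) x = 1 ↔ (x : G) ∈ LX.QQ z := fun x => by
    rw [MonoidHom.comp_apply, MulEquiv.coe_toMonoidHom, e.map_eq_one_iff, LX.mk_eq_one_iff]
  have inj : Function.Injective (MulAut.conj : Cfsg.PSp 2 F →* MulAut (Cfsg.PSp 2 F)) :=
    (injective_iff_map_eq_one _).2 fun a k => hr.eq_one fun x => by
      have := MulEquiv.congr_fun k x
      exact mul_inv_eq_iff_eq_mul.1 this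
  have hN : (MulAut.conj : Cfsg.PSp 2 F →* MulAut (Cfsg.PSp 2 F)).range.Normal := ⟨by
    rintro _ ⟨x, rfl⟩ g
    exact ⟨g x, by ext y; simp⟩⟩
  have hA : Nat.card (MulAut (Cfsg.PSp 2 F)) = 2 * 25920 := by
    have e1 : Cfsg.PSU 4 Cl.GF4 2 ≃* Cfsg.PSp 2 F := Cl.Sm.nonempty_U42_S43.some.trans
      (Cl.pspMapEquiv 2 (FiniteField.ringEquivOfCardEq (Cl.card_GF3.trans hF.symm)))
    rw [← Nat.card_congr (MulAut.congr e1).toEquiv,
      S0815.result 2 1 le_rfl (q := 2) rfl Cl.card_GF4 4 (by decide) (by decide), Cl.Sm.card_PSU42]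
    rfl
  have hi : (MulAut.conj : Cfsg.PSp 2 F →* MulAut (Cfsg.PSp 2 F)).range.index = 2 := by
    have := (MulAut.conj : Cfsg.PSp 2 F →* MulAut (Cfsg.PSp 2 F)).range.card_mul_index
    rw [← Nat.card_congr (MonoidHom.ofInjective inj).toEquiv, hr.card, hA] at this
    omega
  refine (LX.u6_or_isolated hr h _ hφ hk _ (MonoidHom.ofInjective inj).symm
    (fun a b k l => (Subgroup.mul_mem_iff_of_index_two hi).2 (iff_of_false k l))
    fun a k => ?_).imp (fun k => ⟨_, ?_, k.iso' hK, k.cen⟩) LX.sup_eq_top_of_isolated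
  · ext x
    have := k _ ⟨x, rfl⟩
    refine inj ?_
    rw [MulAut.one_apply, ← mul_inv_eq_iff_eq_mul.2 this.eq]
    ext y; simp
  · have k1 := k.index
    rw [LX.card_centralizer h _ hφ hk, hA] at k1
    omega

end Cfsg.Agent.S3231
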