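import Mathlib
import Cfsg.Statements.S3233
import Cfsg.Agent.F22X.F23

set_option autoImplicit false
open Cfsg

namespace Cfsg.Agent.S3233

open Cfsg.Agent.Spor.TT Cfsg.Agent.GT

open Cfsg.Agent.Spor Cfsg.Agent.LX Cfsg.Agent.F22X Subgroup

/-- Let G be a finite group with an involution z, H = C_G(z), such that (i) J = O₂(H) is an (internal) direct product of a four-group and an extraspecial group of order 2⁹, with C_H(J) ≤ J, and (ii) H contains an element c of order 3 such that J⟨c⟩ is normal in H with H/J⟨c⟩ ≅ Aut(PSp₄(3)) and C_H(c)/⟨c, z⟩ ≅ PSp₄(3). Then G = H·O(G), or G is isomorphic to the Fischer group Fi₂₃, or G has a normal four-group V with G/V ≅ Aut(U₆(2)). -/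
theorem result {G : Type*} [Group G] [Finite G] (z : G) (hz : orderOf z = 2)
    {F : Type*} [Field F] [Fintype F] (hF : Fintype.card F = 3) {K : Type*} [Field K] [Fintype K] (hK : Fintype.card K = 4)
    (V E : Subgroup ↥(Subgroup.centralizer ({z} : Set G))) (hVE : Cfsg.IsInternalDirectProduct V E (Cfsg.pCore 2 ↥(Subgroup.centralizer ({z} : Set G)))) (hV : Nat.card ↥V = 4) (hV2 : ∀ v ∈ V, v ^ 2 = 1)
    (hE : Cfsg.IsExtraspecial 2 ↥E) (hEc : Nat.card ↥E = 2 ^ 9)
    (hCJ : Subgroup.centralizer ((Cfsg.pCore 2 ↥(Subgroup.centralizer ({z} : Set G))) : Set ↥(Subgroup.centralizer ({z} : Set G))) ≤ Cfsg.pCore 2 ↥(Subgroup.centralizer ({z} : Set G)))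
    (zc c : ↥(Subgroup.centralizer ({z} : Set G))) (hzc : (zc : G) = z) (hc : orderOf c = 3)
    [hJc : (Cfsg.pCore 2 ↥(Subgroup.centralizer ({z} : Set G)) ⊔ Subgroup.zpowers c).Normal] (e : (↥(Subgroup.centralizer ({z} : Set G)) ⧸ (Cfsg.pCore 2 ↥(Subgroup.centralizer ({z} : Set G)) ⊔ Subgroup.zpowers c)) ≃* MulAut (Cfsg.PSp 2 F))
    [hcz : ((Subgroup.zpowers c ⊔ Subgroup.zpowers zc).subgroupOf (Subgroup.centralizer ({c} : Set ↥(Subgroup.centralizer ({z} : Set G))))).Normal]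
    (e' : (↥(Subgroup.centralizer ({c} : Set ↥(Subgroup.centralizer ({z} : Set G)))) ⧸ (Subgroup.zpowers c ⊔ Subgroup.zpowers zc).subgroupOf (Subgroup.centralizer ({c} : Set ↥(Subgroup.centralizer ({z} : Set G))))) ≃* Cfsg.PSp 2 F) :
    Subgroup.centralizer ({z} : Set G) ⊔ Cfsg.oddCore G = ⊤ ∨ Cfsg.Spor.IsoFi23 G ∨
      (∃ (W : Subgroup G) (hW : W.Normal), Nat.card ↥W = 4 ∧ (∀ w ∈ W, w ^ 2 = 1) ∧
        Nonempty ((G ⧸ W) ≃* MulAut (Cfsg.PSU 6 K 2))) := by
  classical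
  obtain ⟨ε, d⟩ := exists_dp hVE hV2 hE hEc hCJ
  obtain ⟨z1, zz⟩ := orderOf_eq_two_iff'.1 hz
  obtain ⟨ax, cA, -⟩ := ax_aut hF
  obtain ⟨r, hr⟩ := exists_four hF
  have ax' : AX (⊤ : Subgroup (PSp 2 F)) := ⟨inferInstance, ⟨_, hr.map topEquiv.symm⟩,
    fun _ _ _ _ => trivial, fun a k => hr.eq_one fun x => k x trivial⟩
  obtain ⟨φ, mu, hs, hk⟩ := exists_phi e
  have c3 : c ^ 3 = 1 := hc ▸ pow_orderOf_eq_one c
  have cz : Commute z c := mem_centralizer_singleton.1 c.2
  have zcen : ∀ g, Commute zc g := fun g => Subtype.ext (by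
    simpa [hzc] using mem_centralizer_singleton.1 g.2)
  have zJ : zc ∈ pCore 2 (centralizer ({z} : Set G)) := hCJ fun q _ => (zcen q).symm
  have : (zpowers zc).Normal := ⟨fun n hn g => by
    rwa [show g * n * g⁻¹ = n from cj_of_commute (Commute.symm (mem_cen_zpowers.2 (zcen g) n hn))]⟩
  let θ := e'.toMonoidHom.comp (QuotientGroup.mk' _)
  have θs : Function.Surjective θ := e'.surjective.comp (QuotientGroup.mk'_surjective _)
  have θk : ∀ g, θ g = 1 ↔ (g : centralizer ({z} : Set G)) ∈ zpowers c ⊔ zpowers zc := fun g =>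
    e'.map_eq_one_iff.trans (QuotientGroup.eq_one_iff g)
  have fp : ∀ x ∈ QQ z, Commute (c : G) x → x = 1 ∨ x = z := by
    rintro _ ⟨x, hx, rfl⟩ k
    have m : x ∈ centralizer {c} := mem_centralizer_singleton.2 (Subtype.ext k)
    obtain ⟨a, ha, b, hb, rfl⟩ := mem_sup_of_normal_right.1 ((θk ⟨x, m⟩).1 (ax'.core
      (P := ((pCore 2 _).subgroupOf _).map θ) ((isPGroup_pCore 2).comap_subtype.map θ) (by
        rintro g - _ ⟨a, ha, rfl⟩
        obtain ⟨g, rfl⟩ := θs g
        exact ⟨cj g a, cj_mem_of_normal (H := (pCore 2 _).subgroupOf _) g ha, map_cj θ g a⟩) ⟨⟨x, m⟩, hx, rfl⟩))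
    have a1 : a = 1 := eq_one_of_odd_of_isPGroup (by rw [Nat.card_zpowers, hc]; decide)
      (isPGroup_pCore 2) ha
      ((mul_mem_cancel_right (zpowers_le.2 zJ hb)).1 hx)
    rw [a1, one_mul]
    exact ((mem_zpowers_iff_of_sq (Subtype.ext (by simpa [hzc] using zz))).1 hb).imp
      (congrArg Subtype.val) fun k => (congrArg Subtype.val k).trans hzc
  obtain rfl : z = ε := by
    obtain ⟨x, hx, y, hy, k⟩ := d.nonab
    have k1 := congrArg (cj (c : G)) k
    rw [cj_dist, cj_mul] at k1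
    refine ((fp ε (d.le d.eZ) (cj_eq_self_iff.1 ?_)).resolve_left d.e1).symm
    rcases d.comm _ (QQ_norm cz hx) _ (QQ_norm cz hy) with l | l <;> rw [k1] at l
    exacts [absurd (mul_eq_right.1 l) (cj_ne_one d.e1), mul_right_cancel l]
  have pc : φ c = 1 := (hk c).2 (mem_sup_right (mem_zpowers c))
  refine H8.main (H3.h8 ⟨d, by rw [card_map_of_injective (subtype_injective _), hV], cz,
    by simpa [pow_succ] using congrArg Subtype.val c3, fp, ax, mu,
    by rintro _ ⟨x, hx, rfl⟩; exact (hk x).2 (mem_sup_left hx), pc, fun g hg k => ?_, hs, fun g hg k => ?_,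
    ?_⟩) hK
  · obtain ⟨j, hj, a, ha, l⟩ := mem_sup_of_normal_left.1 ((hk ⟨g, mem_centralizer_singleton.2 hg⟩).1 k)
    obtain rfl : (j : G) * a = g := congrArg Subtype.val l
    obtain ⟨n, hn, rfl⟩ := Finset.mem_image.1 (mem_zpowers_iff_mem_range_orderOf.1 ha)
    rw [hc, Finset.mem_range] at hn
    interval_cases n
    exacts [Or.inl ⟨j, hj, by simp⟩, Or.inr (Or.inr ⟨j, hj, by simp⟩), Or.inr (Or.inl ⟨j, hj, by
      rw [mul_assoc, ← coe_mul, ← pow_succ, c3]; simp⟩)]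
  · let g' : centralizer {c} := ⟨⟨g, mem_centralizer_singleton.2 hg⟩,
      mem_centralizer_singleton.2 (Subtype.ext k)⟩
    let ρ := mu.hom.comp (centralizer {c}).subtype
    obtain ⟨s, h1, h2⟩ := ax'.gen (S := (MulAut.conj.range.comap ρ).map θ) (fun x _ l => by
      obtain ⟨s, rfl⟩ := θs x
      refine ⟨s ^ 4, ?_, by rw [map_pow, pow_succ, l, one_mul]⟩
      have : ∀ a, a * a ∈ (MulAut.conj : PSp 2 F →* _).range := fun a =>
        (em _).elim (fun m => mul_mem m m) fun m => ax.h2 a a m m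
      rw [SetLike.mem_coe, mem_comap, map_pow, show 4 = 2 + 2 from rfl, pow_add]
      exact this _) (mem_top (θ g'))
    have : ρ (g' * s⁻¹) = 1 := (hk _).2 (sup_le le_sup_right (le_sup_of_le_left (zpowers_le.2 zJ))
      ((θk (g' * s⁻¹)).1 (by rw [map_mul, map_inv, h2, mul_inv_cancel])))
    rw [map_mul, map_inv, mul_inv_eq_one] at this
    exact (show φ g = ρ s from this) ▸ h1
  · by_contra! k
    have := ax.card
    rw [(eq_top_iff' _).2 k, card_top, cA] at this
    exact absurd this (by decide)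

end Cfsg.Agent.S3233
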