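import Mathlib
import Cfsg.Statements.S3244
import Cfsg.Agent.S3110
import Cfsg.Agent.Inv.LocalChar
import Cfsg.Agent.Inv.ZStarSimple
import Cfsg.Agent.Inv.RankOneP
import Cfsg.Agent.Loc.AmBasic
import Cfsg.Agent.GT.TransferSylow
import Cfsg.Agent.GT.PGroupRank

set_option autoImplicit false
open Cfsg

namespace Cfsg.Agent.S3244

open Subgroup

private def Good {G : Type*} [Group G] (w : G) : Prop :=
  orderOf w = 2 ∧ ∀ u : G, orderOf u = 2 → u ∈ centralizer ({w} : Set G) →
    u ∈ centralizer (pCoreOf 2 (centralizer ({w} : Set G)) : Set G) → u = w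

private theorem Good.conj {G : Type*} [Group G] {w : G} (h : Good w) (g : G) :
    Good (g * w * g⁻¹) := by
  refine ⟨by rw [GT.orderOf_conj, h.1], fun u hu h1 h2 => ?_⟩
  rw [GT.centralizer_singleton_conj] at h1 h2
  rw [GT.pCoreOf_map_conj, GT.centralizer_map_conj, GT.mem_map_conj] at h2
  rw [GT.mem_map_conj] at h1
  rw [← h.2 _ (by simpa using (GT.orderOf_conj u g⁻¹).trans hu) h1 h2]
  group

private theorem main {G : Type*} [Group G] [Finite G]
    (hF : ∀ T : Subgroup G, IsPGroup 2 T → T ≠ ⊥ →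
      ∃ w, Good w ∧ normalizer (T : Set G) ≤ centralizer ({w} : Set G))
    (R : Subgroup G) (hR : IsPGroup 2 R) (hR1 : R ≠ ⊥) {a b : G} (ha : Good a) (hb : Good b)
    (h1 : R ≤ centralizer ({a} : Set G)) (h2 : R ≤ centralizer ({b} : Set G)) : a = b := by
  induction R using WellFoundedGT.induction generalizing a b with
  | ind R ih =>
    obtain ⟨w, hw, hN⟩ := hF R hR hR1
    have key : ∀ c : G, Good c → R ≤ centralizer ({c} : Set G) → c = w := by
      intro c hc hRc
      obtain ⟨S, hS, hRS⟩ := Loc.Am.exists_isSylowOf_ge hR hRc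
      rcases hRS.eq_or_lt with rfl | hlt
      · refine (hc.2 w hw.1 ?_ ?_).symm
        · have : c ∈ R := by
            refine zpowers_le.1 (hS.le_of_normalizes (Inv.isPGroup_zpowers_of_two hc.1)
              (zpowers_le.2 (mem_centralizer_singleton_iff.2 rfl)) ?_)
            refine le_trans ?_ (centralizer_le_normalizer _)
            rwa [GT.centralizer_zpowers]
          exact mem_centralizer_singleton_iff.2
            (mem_centralizer_singleton_iff.1 (hN (le_normalizer this))).symm
        · exact fun x hx => mem_centralizer_singleton_iff.1 (hN (le_normalizer (hS.pCoreOf_le hx)))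
      · have hlt' := GT.Tr.lt_inf_normalizer hS.isPGroup hlt
        exact ih _ hlt' (hS.isPGroup.to_le inf_le_left) (bot_lt_iff_ne_bot.1 (bot_le.trans_lt hlt'))
          hc hw (inf_le_left.trans hS.le) (inf_le_right.trans hN)
    exact (key a ha h1).trans (key b hb h2).symm

/-- Say that a finite group G is of characteristic 2 type in the early sense when a Sylow 2-subgroup S of G has a self-centralizing normal subgroup of rank at least 3, S normalizes no nontrivial subgroup of odd order, and every 2-local subgroup of G is 2-constrained. If G is a non-abelian simple group of characteristic 2 type in this sense, then for some maximal 2-local subgroup M of G the centre of O₂(M) is not cyclic. -/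
theorem result {G : Type*} [Group G] [Finite G] [IsSimpleGroup G]
    (hG : ¬ IsMulCommutative G) (S : Sylow 2 G) (A : Subgroup G) (hA : Cfsg.IsSCN (S : Subgroup G) A) (hA3 : ¬ Cfsg.PRankLE 2 2 ↥A)
    (hinv : ∀ X : Subgroup G, Odd (Nat.card ↥X) → (S : Subgroup G) ≤ Subgroup.normalizer (X : Set G) → X = ⊥)
    (hcon : ∀ T : Subgroup G, IsPGroup 2 ↥T → T ≠ ⊥ → Cfsg.IsPConstrained 2 ↥(Subgroup.normalizer (T : Set G))) :
    ∃ M : Subgroup G, Cfsg.IsMaximalTwoLocal M ∧ ¬ IsCyclic ↥(Subgroup.center ↥(Cfsg.pCore 2 ↥M)) := by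
  classical
  by_contra hcyc
  push Not at hcyc
  have hS : ¬ PRankLE 2 1 (S : Subgroup G) := fun h =>
    hA3 ((h.of_le hA.1).mono (by norm_num) (by norm_num))
  have hcen : centralizer ((A.subgroupOf S : Subgroup (S : Subgroup G)) : Set (S : Subgroup G)) =
      A.subgroupOf S := by
    rw [GT.centralizer_subgroupOf_of_le hA.1, ← inf_subgroupOf_left, hA.2.2]
  obtain ⟨W, hW, hW'⟩ := S3110.result hcon S (A.subgroupOf S)
    ((normal_subgroupOf_iff_le_normalizer hA.1).2 hA.2.1)
    ⟨⟨fun a b => Subtype.ext (hcen.ge b.2 a a.2)⟩⟩ hcen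
    (fun h => hA3 (h.of_mulEquiv (subgroupOfEquivOfLe hA.1))) S
  obtain ⟨hW1, hW2⟩ := hW' S le_rfl hS
  have hW3 := hinv W hW (le_normalizer.trans hW2)
  have hchar : ∀ t : G, orderOf t = 2 → Inv.LC.CharP' 2 (centralizer ({t} : Set G)) := by
    have aux : ∀ t ∈ (S : Subgroup G), orderOf t = 2 →
        Inv.LC.CharP' 2 (centralizer ({t} : Set G)) := by
      intro t htS ht
      have ht1 : t ≠ 1 := by
        rintro rfl
        simp at ht
      have h1 : IsPConstrained 2 (centralizer ({t} : Set G)) := by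
        refine Inv.LC.isPConstrained_centralizer_singleton_of_le
          (hcon _ (Inv.isPGroup_zpowers_of_two ht) (by simpa using ht1)) ht ?_
        rw [← GT.centralizer_zpowers]
        exact centralizer_le_normalizer _
      refine h1.charP (GT.pPrimeCoreOf_eq_bot_iff.1 (le_bot_iff.1 ?_))
      rw [← hW3, hW1]
      exact le_iSup (fun b : {b : G // b ∈ (S : Subgroup G) ∧ b ≠ 1} =>
        centralizerPPrimeCore 2 (b : G)) ⟨t, htS, ht1⟩
    intro t ht
    obtain ⟨g, hg⟩ := Inv.exists_conj_mem_sylow_two ht S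
    have := aux _ hg (by rw [GT.orderOf_conj, ht])
    rw [GT.centralizer_singleton_conj] at this
    exact GT.charP_of_mulEquiv (GT.conjEquiv _ g).symm this
  have hF : ∀ T : Subgroup G, IsPGroup 2 T → T ≠ ⊥ →
      ∃ w, Good w ∧ normalizer (T : Set G) ≤ centralizer ({w} : Set G) := by
    intro T hT hT1
    obtain ⟨M, hM, hTM⟩ := Inv.LC.exists_maximalTwoLocal_ge ⟨T, hT, hT1, rfl⟩
    obtain ⟨U, hU, hU1, hMU⟩ := hM.1
    have hc : M ⊓ centralizer (pCoreOf 2 M : Set G) ≤ pCoreOf 2 M :=
      GT.charP_iff_pCoreOf.1 (hMU ▸ Inv.LC.charP_normalizer_of_forall hchar hU hU1)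
    have hQ1 : pCoreOf 2 M ≠ ⊥ := fun e => hU1 (le_bot_iff.1 (e ▸ GT.le_pCoreOf
      (hMU ▸ le_normalizer) hMU.le hU))
    have hZ : IsCyclic (pCoreOf 2 M ⊓ centralizer (pCoreOf 2 M : Set G) : Subgroup G) := by
      rw [← GT.map_center_subtype]
      have := hcyc M hM
      exact isCyclic_of_surjective _ (((Subgroup.centerCongr ((pCore 2 M).equivMapOfInjective _
        M.subtype_injective)).trans ((center _).equivMapOfInjective _
          (subtype_injective _)))).surjective
    obtain ⟨w, hw, hw2, hwc⟩ := Inv.exists_central_of_isPGroup (GT.isPGroup_pCoreOf 2 M) hQ1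
    have uniq : ∀ u ∈ M, orderOf u = 2 → u ∈ centralizer (pCoreOf 2 M : Set G) → u = w := by
      intro u hu hu2 hu3
      have h1 := Inv.SE.uniqOrd_of_isCyclic (p := 2) hZ w ⟨hw, fun x hx => (hwc x hx).eq⟩ u
        ⟨hc ⟨hu, hu3⟩, hu3⟩ hw2 hu2
      rw [mem_zpowers_iff_mem_range_orderOf, hw2] at h1
      simp only [Finset.mem_image, Finset.mem_range] at h1
      obtain ⟨k, hk, rfl⟩ := h1
      interval_cases k
      · simp at hu2
      · simp
    have hMw : M ≤ centralizer ({w} : Set G) := by
      intro m hm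
      have h1 := GT.le_normalizer_pCoreOf (p := 2) M hm
      rw [mem_centralizer_singleton_iff, ← mul_inv_eq_iff_eq_mul]
      refine uniq _ (M.mul_mem (M.mul_mem hm (GT.pCoreOf_le M hw)) (M.inv_mem hm))
        (by rw [GT.orderOf_conj, hw2]) ?_
      exact GT.conj_mem_of_mem_normalizer (GT.normalizer_le_normalizer_centralizer _ h1)
        fun x hx => (hwc x hx).eq
    have hw1 : zpowers w ≠ ⊥ := by
      rw [Ne, zpowers_eq_bot]
      rintro rfl
      simp at hw2
    have h2 : centralizer ({w} : Set G) ≤ normalizer (zpowers w : Set G) := by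
      rw [← GT.centralizer_zpowers]
      exact centralizer_le_normalizer _
    have h3 : centralizer ({w} : Set G) = M :=
      le_antisymm (h2.trans (hM.2 _ ⟨_, Inv.isPGroup_zpowers_of_two hw2, hw1, rfl⟩
        (hMw.trans h2)).le) hMw
    exact ⟨w, ⟨hw2, fun u hu h4 h5 => uniq u (h3 ▸ h4) hu (h3 ▸ h5)⟩, hTM.trans hMw⟩
  have hS1 : (S : Subgroup G) ≠ ⊥ := by
    intro e
    exact hS (GT.PG.pRankLE_of_card_le (by rw [e]; simp))
  obtain ⟨w, hw, -⟩ := hF S S.isPGroup' hS1
  obtain ⟨g, hg, hg'⟩ := Inv.ZS.exists_conj_commute_ne (Inv.ZS.card_ne_two_of_not_comm hG) hw.1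
  refine hg' (main hF (zpowers w) (Inv.isPGroup_zpowers_of_two hw.1) ?_ (hw.conj g) hw
    (zpowers_le.2 (mem_centralizer_singleton_iff.2 hg.eq))
    (zpowers_le.2 (mem_centralizer_singleton_iff.2 rfl)))
  rw [Ne, zpowers_eq_bot]
  rintro rfl
  simpa using hw.1

end Cfsg.Agent.S3244
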