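import Mathlib
import Cfsg.Statements.S3246
import Cfsg.Agent.Inv.LocalChar
import Cfsg.Agent.Inv.SylowTools
import Cfsg.Agent.GT.PGroupRank
import Cfsg.Agent.GT.CoprimeGen
import Cfsg.Agent.FG.ClassCount

set_option autoImplicit false
open Cfsg

namespace Cfsg.Agent.S3246

/-- Let G be a finite group whose Sylow 2-subgroup S has a self-centralizing normal subgroup of rank at least 3. Suppose that either every maximal 2-local subgroup of G is 2-constrained with no nontrivial normal subgroup of odd order, or the centralizer of every involution of G is 2-constrained with no nontrivial normal subgroup of odd order. Then S normalizes no nontrivial subgroup of G of odd order and every 2-local subgroup of G is 2-constrained. -/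
theorem result {G : Type*} [Group G] [Finite G]
    (S : Sylow 2 G) (A : Subgroup G) (hA : Cfsg.IsSCN (S : Subgroup G) A) (hA3 : ¬ Cfsg.PRankLE 2 2 ↥A)
    (h : (∀ M : Subgroup G, Cfsg.IsMaximalTwoLocal M → Cfsg.IsPConstrained 2 ↥M ∧ Cfsg.oddCore ↥M = ⊥) ∨
      (∀ t : G, orderOf t = 2 → Cfsg.IsPConstrained 2 ↥(Subgroup.centralizer ({t} : Set G)) ∧
        Cfsg.oddCore ↥(Subgroup.centralizer ({t} : Set G)) = ⊥)) :
    (∀ X : Subgroup G, Odd (Nat.card ↥X) → (S : Subgroup G) ≤ Subgroup.normalizer (X : Set G) → X = ⊥) ∧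
      (∀ T : Subgroup G, IsPGroup 2 ↥T → T ≠ ⊥ → Cfsg.IsPConstrained 2 ↥(Subgroup.normalizer (T : Set G))) := by
  have : Fact (Nat.Prime 2) := ⟨Nat.prime_two⟩
  have hC : ∀ t : G, orderOf t = 2 → Inv.LC.CharP' 2 (Subgroup.centralizer ({t} : Set G)) := by
    intro t ht
    rcases h with h | h
    · obtain ⟨M, hM, hle⟩ := Inv.LC.exists_maximalTwoLocal_ge (G := G)
        ⟨Subgroup.zpowers t, Inv.isPGroup_zpowers_of_two ht,
          by rw [Ne, Subgroup.zpowers_eq_bot]; exact Inv.ne_one_of_two ht, rfl⟩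
      refine Inv.LC.charP_centralizer_singleton_of_le ((h M hM).1.charP (h M hM).2) ht
        (le_trans ?_ hle)
      rw [← Inv.LC.centralizer_zpowers]
      exact Subgroup.centralizer_le_normalizer _
    · exact (h t ht).1.charP (h t ht).2
  refine ⟨fun X hX hSX => ?_, fun T hT hT1 =>
    GT.isPConstrained_of_charP (Inv.LC.charP_normalizer_of_forall hC hT hT1)⟩
  by_contra hX1
  obtain ⟨hAS, hSA, hAC⟩ := hA
  have hAc : IsMulCommutative A :=
    GT.PG.isMulCommutative_iff_le_centralizer.2 (hAC.ge.trans inf_le_right)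
  have hE := GT.PG.isElementaryAbelian_omegaOne (p := 2) hAc
  have hEc : 2 ^ 2 ≤ Nat.card (omegaOne 2 A) := by
    rw [GT.PG.pRankLE_subgroup_iff] at hA3
    push Not at hA3
    obtain ⟨B, hBA, hB, hcard⟩ := hA3
    exact hcard.le.trans (Subgroup.card_le_of_le (hB.le_omegaOne hBA))
  have hSE : (S : Subgroup G) ≤ Subgroup.normalizer (omegaOne 2 A : Set G) :=
    hSA.trans (GT.PG.normalizer_le_normalizer_omegaOne A)
  obtain ⟨Z, -, hZE, hZc, hSZ⟩ := GT.PG.exists_invariant_card_eq_pow (N := ⊥) (k := 1) hE.isPGroup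
    S.isPGroup' hSE Subgroup.le_normalizer_of_normal bot_le (by simp) (le_trans (by norm_num) hEc)
  obtain ⟨U, hZU, hUE, hUc, hSU, -, hUS⟩ := GT.PG.exists_invariant_card_eq_mul hE.isPGroup
    S.isPGroup' hSE hSZ (lt_of_le_of_ne hZE (by
      intro e
      rw [← e, hZc] at hEc
      norm_num at hEc))
  have hU := hE.mono hUE
  have hUle : U ≤ S := hUE.trans ((GT.PG.omegaOne_le A).trans hAS)
  have hX2 : (Nat.card X).Coprime 2 := Nat.coprime_two_right.2 hX
  obtain ⟨u, hu, hu1, hY⟩ := GT.CopAct.exists_inf_centralizer_ne_bot hU.1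
    (GT.CopAct.not_isCyclic_of_isElementaryAbelian hU (by rw [hUc, hZc]; norm_num))
    (hUle.trans hSX) (GT.CopAct.coprime_of_isPGroup_right hX2 hU.isPGroup).symm hX1
  have hu2 := hU.orderOf_eq hu hu1
  set H := Subgroup.centralizer ({u} : Set G) with hH
  have hidx : H.relIndex S ≤ 2 := by
    rw [hH, ← FG.ncard_conj_orbit_subgroup]
    refine le_trans ?_ hZc.le
    change _ ≤ (Z : Set G).ncard
    rw [← Set.ncard_image_of_injective (Z : Set G) (mul_right_injective u)]
    apply Set.ncard_le_ncard _ (Set.toFinite _)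
    rintro _ ⟨g, hg, rfl⟩
    refine ⟨_, hUS (Subgroup.commutator_mem_commutator (inv_mem hu) hg), ?_⟩
    simp [commutatorElement_def, mul_assoc]
  have hTH : (S : Subgroup G) ⊓ H ≤ H := inf_le_right
  have hTY : (S : Subgroup G) ⊓ H ≤ Subgroup.normalizer ((X ⊓ H : Subgroup G) : Set G) :=
    GT.CopAct.le_normalizer_inf (inf_le_left.trans hSX) (inf_le_right.trans Subgroup.le_normalizer)
  have hYc : (Nat.card (X ⊓ H : Subgroup G)).Coprime 2 :=
    hX2.coprime_dvd_left (Subgroup.card_dvd_of_le inf_le_left)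
  refine hY (Inv.LC.eq_bot_of_charP (hC u hu2) inf_le_right hYc hTY ?_)
  set Q := pCoreOf 2 H with hQ
  set T := (S : Subgroup G) ⊓ H with hT
  have hQp : IsPGroup 2 Q := GT.isPGroup_pCoreOf 2 H
  have hHQ : H ≤ Subgroup.normalizer (Q : Set G) := GT.le_normalizer_pCoreOf H
  have h1 : IsPGroup 2 (T ⊔ Q : Subgroup G) :=
    (S.isPGroup'.to_le inf_le_left).to_sup_of_normal_right' hQp (hTH.trans hHQ)
  have h2 := Inv.ST.card_le_card_sylow S h1
  have h3 := GT.card_sup_mul_card_inf_of_le_normalizer (hTH.trans hHQ)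
  have h4 := GT.card_inf_mul_relIndex H (S : Subgroup G)
  have h5 := GT.card_inf_mul_relIndex T Q
  have h6 : T.relIndex Q ≤ 2 := by
    rw [inf_comm, ← hT] at h4
    have p1 : 0 < Nat.card T := Nat.card_pos
    have p2 : 0 < Nat.card (T ⊓ Q : Subgroup G) := Nat.card_pos
    have h7 : Nat.card T * (Nat.card (T ⊓ Q : Subgroup G) * T.relIndex Q) ≤
        Nat.card T * (Nat.card (T ⊓ Q : Subgroup G) * 2) := by
      rw [h5, ← h3]
      calc _ ≤ Nat.card T * 2 * Nat.card (T ⊓ Q : Subgroup G) :=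
            Nat.mul_le_mul_right _ (h2.trans (h4.ge.trans (Nat.mul_le_mul_left _ hidx)))
        _ = _ := by ring
    exact Nat.le_of_mul_le_mul_left (Nat.le_of_mul_le_mul_left h7 p1) p2
  have hYQ : X ⊓ H ≤ Subgroup.normalizer (Q : Set G) := inf_le_right.trans hHQ
  have h0 : T.relIndex Q ≠ 0 := Subgroup.FiniteIndex.index_ne_zero
  have h7 : T.relIndex Q = 1 ∨ T.relIndex Q = 2 := by omega
  rcases h7 with h7 | h7
  · exact (GT.CopAct.commutator_le_of_le_normalizer hYQ).trans (Subgroup.relIndex_eq_one.1 h7)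
  · have hdis : Q ⊓ (X ⊓ H) = ⊥ := (Subgroup.disjoint_of_coprime_natCard
      (GT.CopAct.coprime_of_isPGroup_right hYc hQp).symm).eq_bot
    have hfix : ∀ y ∈ X ⊓ H, ∀ q ∈ Q, q ∈ T → y * q * y⁻¹ = q := by
      intro y hy q hq hqT
      have h8 : y * q * y⁻¹ * q⁻¹ ∈ Q ⊓ (X ⊓ H) := by
        refine ⟨Q.mul_mem ((Subgroup.mem_normalizer_iff.1 (hYQ hy) q).1 hq) (Q.inv_mem hq), ?_⟩
        have := (Subgroup.mem_normalizer_iff.1 (hTY hqT) y⁻¹).1 (inv_mem hy)
        simpa [mul_assoc] using mul_mem hy this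
      rw [hdis, Subgroup.mem_bot] at h8
      exact mul_inv_eq_one.1 h8
    rw [Subgroup.commutator_le]
    intro q hq y hy
    have h8 : y * q⁻¹ * y⁻¹ ∈ Q := (Subgroup.mem_normalizer_iff.1 (hYQ hy) q⁻¹).1 (inv_mem hq)
    have h9 := Subgroup.mul_mem_iff_of_index_two (H := T.subgroupOf Q) h7 (a := ⟨q, hq⟩)
      (b := ⟨_, h8⟩)
    have h10 : q * (y * q⁻¹ * y⁻¹) ∈ T := by
      refine h9.2 ⟨fun hqT => ?_, fun hqT => ?_⟩
      · change y * q⁻¹ * y⁻¹ ∈ T
        rw [hfix y hy q⁻¹ (inv_mem hq) (inv_mem hqT)]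
        exact inv_mem hqT
      · have := hfix y⁻¹ (inv_mem hy) _ h8 hqT
        change q ∈ T
        rw [← inv_mem_iff]
        have h11 : q⁻¹ = y * q⁻¹ * y⁻¹ := by rw [← this]; group
        rw [h11]; exact hqT
    simpa [commutatorElement_def, mul_assoc] using h10

end Cfsg.Agent.S3246
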