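import Mathlib
import Cfsg.Statements.S3260
import Cfsg.Agent.Flav.QuadInv
import Cfsg.Agent.Flav.KInf
import Cfsg.Agent.Loc.CFChief
import Cfsg.Agent.Loc.CFSection
import Cfsg.Agent.GT.ThompsonFusionZJ
import Cfsg.Agent.GT.CoprimeActThms
import Cfsg.Agent.Cl.Transport
import Cfsg.Agent.S0205

set_option autoImplicit false
open Cfsg

namespace Cfsg.Agent.S3260

open Subgroup Cfsg.Agent.GT Cfsg.Agent.Loc.Mss Cfsg.Agent.Loc Cfsg.Agent.Flav
open scoped commutatorElement

theorem involves_of_ker_le {H X Y : Type*} [Group H] [Group X] [Group Y] (g : H →* Y)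
    (hg : Function.Surjective g) (h : H →* X) (hk : h.ker ≤ g.ker) : Involves Y X := by
  refine CF.involves_of_inj_surj h.range.subtype h.range.subtype_injective
    ((QuotientGroup.lift h.ker g hk).comp (QuotientGroup.quotientKerEquivRange h).symm.toMonoidHom)
    (Function.Surjective.comp (g := QuotientGroup.lift h.ker g hk) (fun y => ?_)
      (QuotientGroup.quotientKerEquivRange h).symm.surjective)
  obtain ⟨x, rfl⟩ := hg y
  exact ⟨x, rfl⟩

/-- The group `L₂(p)`. -/
abbrev L2 (p : ℕ) : Type := Matrix.ProjectiveSpecialLinearGroup (Fin 2) (ZMod p)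

/-- An element of `Y` that is quadratic on a chief factor of `X = YA` acts trivially on it, if
`C_Y(A)` does not involve `L₂(p)`. -/
theorem quad_chief {X : Type*} [Group X] [Finite X] {p : ℕ} [Fact p.Prime] (hp : 5 ≤ p)
    {Y A : Subgroup X} [Y.Normal] (hcop : (Nat.card A).Coprime (Nat.card Y))
    (hsolv : Group.IsSolvable A ∨ Group.IsSolvable Y)
    (hfix : ¬ Involves (L2 p) (Y ⊓ 𝐂[A] : Subgroup X)) {U V : Subgroup X}
    (hUV : IsChiefFactor U V) (hU : IsPGroup p U) {g : X} (hg : g ∈ Y)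
    (hq : ⁅⁅U, zpowers g⁆, zpowers g⁆ ≤ V) : ⁅U, zpowers g⁆ ≤ V := by
  have := hUV.2.2.1
  have hM := hUV.isMinNormal_map
  have := hM.normal
  have hE := hM.elementary_of_isPGroup Fact.out (hU.map _)
  have hT : (⊤ : Subgroup (X ⧸ V)) ≤ 𝐍[U.map (QuotientGroup.mk' V)] := le_normalizer_of_normal
  let ρ : X →* (Module.End (ZMod p) (EAV hE))ˣ := (eaRep hE hT).toHomUnits.comp
    ((QuotientGroup.mk' V).codRestrict ⊤ fun _ => mem_top _)
  have hρ : ∀ x, (ρ x : Module.End (ZMod p) (EAV hE)) =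
      eaRep hE hT ⟨QuotientGroup.mk' V x, mem_top _⟩ := fun _ => rfl
  have h1 : IsIrreducibleFor ρ.range := by
    obtain ⟨⟨u, hu⟩, hu1⟩ := ne_bot_iff_exists_ne_one.1 hM.ne_bot
    refine ⟨⟨EAV.mk hE u hu, fun e => hu1 (Subtype.ext (EAV.val_eq_one_iff.2 e))⟩, fun W hW => ?_⟩
    have : (EAV.grp W).Normal := normal_of_top_le_normalizer (le_normalizer_grp (hHV := hT)
      fun ⟨x, _⟩ w hw => by
        obtain ⟨x, rfl⟩ := QuotientGroup.mk'_surjective V x
        exact hW (ρ x) ⟨x, rfl⟩ w hw)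
    exact (hM.eq_bot_or_eq (EAV.grp_le W)).imp (fun e => EAV.grp_injective (e.trans EAV.grp_bot.symm))
      fun e => EAV.grp_injective (e.trans EAV.grp_top.symm)
  have hAY : A ≤ 𝐍[Y] := le_normalizer_of_normal
  have h3 : ρ.range ≤ 𝐍[Y.map ρ] := by
    rw [MonoidHom.range_eq_map]
    exact map_norm_le ρ le_normalizer_of_normal
  have h4 : ρ g = 1 := by
    by_contra hne
    obtain ⟨φ, hφ, hker⟩ := quad_inv hp ((Chev.Tim.noUnip_of_irreducible h1).of_normal
      (map_le_range ρ Y) fun x hx => cj_of_norm (h3 hx)) (map_norm_le ρ hAY)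
      ((hcop.coprime_dvd_left (card_map_dvd A ρ)).coprime_dvd_right (card_map_dvd Y ρ))
      (hsolv.imp (fun (_ : Group.IsSolvable A) =>
          Group.isSolvable_of_surjective (ρ.subgroupMap_surjective A))
        fun (_ : Group.IsSolvable Y) =>
          Group.isSolvable_of_surjective (ρ.subgroupMap_surjective Y))
      (mem_map_of_mem ρ hg) hne (by
        rw [hρ]
        refine eaRep_quadratic (A := zpowers (QuotientGroup.mk' V g))
          (B := zpowers (QuotientGroup.mk' V g)) ?_ (mem_zpowers _) (mem_zpowers _)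
        rw [← MonoidHom.map_zpowers, ← map_commutator, ← map_commutator, map_mk'_eq_bot_iff]
        exact hq)
    rw [← CopAct.map_inf_centralizer' ρ hAY hcop hsolv] at hφ
    refine hfix (CF.involves_trans (involves_of_ker_le (QuotientGroup.mk' (center _))
      (QuotientGroup.mk'_surjective _) (φ.codRestrict _ fun x => hφ ⟨x, rfl⟩) ?_)
      (CF.involves_of_surjective _ (ρ.subgroupMap_surjective _)))
    rw [MonoidHom.ker_codRestrict, QuotientGroup.ker_mk']
    exact hker
  rw [commutator_le_iff_map_mk', MonoidHom.map_zpowers, CopAct.commutator_eq_bot_iff, zpowers_le]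
  exact (eaRep_eq_one_iff (hHV := hT) (h := ⟨_, mem_top _⟩)).1 (by rw [← hρ, h4, Units.val_one])

/-- The ZJ-theorem inside `X`, for a normal subgroup `Y` of characteristic `p` type. -/
theorem thZ_normal {X : Type*} [Group X] [Finite X] {p : ℕ} [hp : Fact p.Prime] (hp5 : 5 ≤ p)
    {Y A V : Subgroup X} [Y.Normal] [V.Normal] (hcop : (Nat.card A).Coprime (Nat.card Y))
    (hsolv : Group.IsSolvable A ∨ Group.IsSolvable Y)
    (hfix : ¬ Involves (L2 p) (Y ⊓ 𝐂[A] : Subgroup X)) (P : Sylow p X)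
    (hPY : (P : Subgroup X) ≤ Y) (hV : IsPGroup p V) (hC : Y ⊓ 𝐂[V] ≤ V) :
    (thZ 0 (P : Subgroup X)).Normal := by
  have hst : ThStable p (P : Subgroup X) := fun W _ hW a ha hq =>
    CF.chiefStab_le_thOp (P.isPGroup'.to_le hW) (CF.mem_chiefStab.2 fun U T hUT hUW =>
      quad_chief hp5 hcop hsolv hfix hUT (P.isPGroup'.to_le (hUW.trans hW)) (hPY ha)
        ((commutator_mono (commutator_mono hUW le_rfl) le_rfl).trans (hq.le.trans bot_le)))
  have hVP : V ≤ P := (le_pCore hV).trans (pCore_le_sylow P)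
  have h1 : thZ 0 (P : Subgroup X) ≤ thOp p V := hst.le_thOp_of_normalizer hVP (thZ_le _ _)
    (thZ_comm _ _) (hVP.trans (le_normalizer_thZ _ _))
  have hD : IsPGroup p (thOp p V ⊓ Y : Subgroup X) := by
    intro ⟨x, hx1, hx2⟩
    obtain ⟨k, hk⟩ := exists_pow_mem_of_mem_thOp hx1
    obtain ⟨j, hj⟩ := hV ⟨_, hC ⟨Y.pow_mem hx2 _, hk⟩⟩
    refine ⟨k + j, Subtype.ext ?_⟩
    have := congrArg Subtype.val hj
    simpa [pow_add, pow_mul] using this
  have h2 := thZ_inf_normal (by omega) (Or.inl rfl) P (th_isStronglyClosed_self _) hst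
    (thOp p V ⊓ Y) ((le_pCore hD).trans (pCore_le_sylow P))
  rwa [inf_eq_left.2 (le_inf h1 ((thZ_le _ _).trans hPY))] at h2

open CopAct in
/-- The ZJ-theorem for a group of characteristic `p` type with a coprime operator group. -/
theorem thZ_normal_act {G A : Type*} [Group G] [Finite G] [Group A] [Finite A] {p : ℕ}
    [hp : Fact p.Prime] (hp5 : 5 ≤ p) (φ : A →* MulAut G)
    (hcop : (Nat.card A).Coprime (Nat.card G)) (hpA : ¬ p ∣ Nat.card A)
    (hsolv : Group.IsSolvable A ∨ Group.IsSolvable G)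
    (hfix : ¬ Involves (L2 p) (actFixed φ)) (S : Sylow p G)
    (hC : 𝐂[pCore p G] ≤ pCore p G) : (thZ 0 (S : Subgroup G)).Normal := by
  have := sdL_top_normal φ
  have hV : (sdL φ (pCore p G)).Normal := by
    refine normal_of_top_le_normalizer ?_
    rw [← sdL_top_sup_sdR_top φ]
    exact sup_le (map_norm_le _ le_normalizer_of_normal)
      ((actInv_of_characteristic φ _).sdR_le_normalizer ⊤)
  obtain ⟨P, hP⟩ := ((isPGroup_sdL_iff φ (S : Subgroup G)).2 S.isPGroup').exists_le_sylow
  have hPY : (P : Subgroup (G ⋊[φ] A)) ≤ sdL φ ⊤ := by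
    intro x hx
    obtain ⟨k, hk⟩ := P.isPGroup' ⟨x, hx⟩
    have h1 : x.right ^ p ^ k = 1 := by
      have := congrArg (fun y => SemidirectProduct.rightHom (φ := φ) y.1) hk
      simp only [SubgroupClass.coe_pow, map_pow, OneMemClass.coe_one, map_one] at this
      exact this
    have h2 : x.right = 1 := by
      rw [← orderOf_eq_one_iff]
      exact Nat.eq_one_of_dvd_coprimes (((Nat.Prime.coprime_iff_not_dvd hp.out).2 hpA).pow_left k)
        (orderOf_dvd_of_pow_eq_one h1) (orderOf_dvd_natCard _)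
    exact ⟨x.left, mem_top _, by rw [← SemidirectProduct.inl_left_mul_inr_right x, h2]; simp⟩
  obtain ⟨U, hU⟩ := exists_eq_sdL φ hPY
  have hUS : U = S := S.is_maximal' ((isPGroup_sdL_iff φ U).1 (hU ▸ P.isPGroup'))
    ((sdL_le_sdL φ).1 (hU ▸ hP))
  have h := thZ_normal hp5 (V := sdL φ (pCore p G)) (coprime_sd_top φ hcop)
    (solvable_sd_top φ hsolv) (by
      rw [sdL_inf_centralizer_top, top_inf_eq]
      exact fun h => hfix (CF.involves_trans h
        (CF.involves_of_surjective (sdLEquiv φ (actFixed φ)).toMonoidHom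
          (sdLEquiv φ (actFixed φ)).surjective))) P hPY
    ((isPGroup_sdL_iff φ _).2 (isPGroup_pCore p)) (by
      rw [← CF.map_inf_centralizer_of_injective SemidirectProduct.inl_injective, top_inf_eq]
      exact map_mono hC)
  rw [hU, hUS, thZ_map_of_injective _ SemidirectProduct.inl_injective] at h
  have := h.comap (SemidirectProduct.inl (φ := φ))
  rwa [comap_map_eq_self_of_injective SemidirectProduct.inl_injective] at this

theorem result {G : Type*} [Group G] [Finite G] (p : ℕ) [hp : Fact p.Prime] (hp5 : 5 ≤ p)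
    (hG : Cfsg.IsPConstrained p G) (S : Sylow p G) (A : Subgroup (MulAut G)) (hA : (Nat.card ↥A).Coprime (Nat.card G))
    (C : Subgroup G) (hC : ∀ g : G, g ∈ C ↔ ∀ a ∈ A, a g = g)
    {F : Type*} [Field F] [Fintype F] (hF : Fintype.card F = p)
    (hfix : ¬ Cfsg.Involves (Matrix.ProjectiveSpecialLinearGroup (Fin 2) F) ↥C) :
    Cfsg.pPrimeCore p G ⊔ Subgroup.normalizer (Cfsg.centerThompsonAOf (S : Subgroup G) : Set G) = ⊤ := by
  rw [centerThompsonAOf_eq]
  by_cases hpG : ¬ p ∣ Nat.card G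
  · have : (S : Subgroup G) = ⊥ := S.isPGroup'.card_eq_or_dvd.elim (fun h => card_eq_one.1 h)
      fun h => absurd (h.trans (card_subgroup_dvd_card _)) hpG
    have h1 : thZ 0 (S : Subgroup G) = ⊥ := eq_bot_iff.2 ((thZ_le _ _).trans this.le)
    rw [h1, normalizer_eq_top, sup_top_eq]
  rw [not_not] at hpG
  have hpA : ¬ p ∣ Nat.card A := fun h =>
    hp.out.one_lt.ne' (Nat.eq_one_of_dvd_coprimes hA h hpG)
  have hsolv : Group.IsSolvable A ∨ Group.IsSolvable G := by
    rcases Nat.even_or_odd (Nat.card G) with h | h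
    · refine Or.inl (S0205.result ?_)
      by_contra h2
      rw [Nat.not_odd_iff_even] at h2
      exact absurd (Nat.eq_one_of_dvd_coprimes hA h2.two_dvd h.two_dvd) (by decide)
    · exact Or.inr (S0205.result h)
  have hCA : C = CopAct.actFixed A.subtype := by
    ext g
    rw [hC, CopAct.mem_actFixed]
    exact ⟨fun h a => h a a.2, fun h a ha => h ⟨a, ha⟩⟩
  have hπ := QuotientGroup.mk'_surjective (pPrimeCore p G)
  have hk := coprime_card_ker_mk'_pPrimeCore (G := G) (p := p)
  have hO := CopAct.actInv_of_characteristic A.subtype (pPrimeCore p G)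
  have e : ZMod p ≃+* F := ZMod.ringEquivOfPrime F hp.out hF
  have h := thZ_normal_act hp5 (CopAct.quotHom A.subtype _ hO)
    (hA.coprime_dvd_right (card_quotient_dvd_card _)) hpA
    (hsolv.imp id fun (_ : Group.IsSolvable G) => Group.isSolvable_of_surjective hπ) (by
      rw [CopAct.actFixed_quotHom hO (hA.coprime_dvd_right (card_subgroup_dvd_card _))
        (hsolv.imp id fun (_ : Group.IsSolvable G) => inferInstance), ← hCA]
      intro h
      refine hfix (CF.involves_trans (CF.involves_trans ?_ h)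
        (CF.involves_of_surjective _ ((QuotientGroup.mk' _).subgroupMap_surjective C)))
      refine involves_of_ker_le ((QuotientGroup.mk' (center _)).comp
        (Cl.slMapEquiv (Fin 2) e).toMonoidHom)
        ((QuotientGroup.mk'_surjective _).comp (Cl.slMapEquiv (Fin 2) e).surjective)
        (QuotientGroup.mk' (center _)) ?_
      rw [QuotientGroup.ker_mk', ← MonoidHom.comap_ker, QuotientGroup.ker_mk']
      intro x hx
      rw [mem_comap, mem_center_iff]
      intro y
      obtain ⟨y, rfl⟩ := (Cl.slMapEquiv (Fin 2) e).surjective y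
      change _ * (Cl.slMapEquiv (Fin 2) e) x = (Cl.slMapEquiv (Fin 2) e) x * _
      rw [← map_mul, ← map_mul, mem_center_iff.1 hx])
    (S.mapSurjective hπ) (isPConstrained_iff.1 hG)
  have h2 : (normalizer (thZ 0 (S : Subgroup G) : Set G)).map
      (QuotientGroup.mk' (pPrimeCore p G)) = ⊤ := by
    rw [map_normalizer_of_coprime_ker hπ hk (S.isPGroup'.to_le (thZ_le 0 _)),
      ← thZ_map _ (th_inf_ker_of_coprime S.isPGroup' hk)]
    exact normalizer_eq_top_iff.2 h
  rwa [map_mk'_eq_top_iff, sup_comm] at h2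

end Cfsg.Agent.S3260
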