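import Mathlib
import Cfsg.Statements.S3265
import Cfsg.Agent.Inv.OddGraph
import Cfsg.Agent.Inv.OddSym

set_option autoImplicit false
set_option linter.style.haveILetI false
set_option linter.unusedVariables false
open Cfsg

namespace Cfsg.Agent.S3265

open Equiv Equiv.Perm Cfsg.Agent.Inv.OddSym

section
variable {α : Type*} [Fintype α] [DecidableEq α]

/-- Two involutions supported in `S` moving the same number of points. -/
structure Hyp (S : Finset α) (x y : Perm α) : Prop where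
  hx : ∀ ω, x (x ω) = ω
  hy : ∀ ω, y (y ω) = ω
  sx : ∀ ω, ω ∈ S ∨ x ω = ω
  sy : ∀ ω, ω ∈ S ∨ y ω = ω
  card : x.support.card = y.support.card

/-- The exceptional configuration. -/
def Exc (S : Finset α) (x y : Perm α) : Prop :=
  S.card = 4 ∧ ∀ ω ∈ S, x ω ≠ ω ∧ y ω ≠ ω ∧ x ω ≠ y ω

/-- A common neighbour. -/
def Sol (S : Finset α) (x y : Perm α) : Prop :=
  ∃ z : Perm α, (∀ ω, z (z ω) = ω) ∧ (∀ ω, ω ∈ S ∨ z ω = ω) ∧ Odd (orderOf (x * z)) ∧
    Odd (orderOf (y * z))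

/-- A square. -/
def Sq (x y : Perm α) (a : α) : Prop := x a ≠ a ∧ y a ≠ a ∧ x a ≠ y a ∧ x (y a) = y (x a)

/-- The induction hypothesis. -/
def IH (S : Finset α) : Prop :=
  ∀ (S' : Finset α) (x' y' : Perm α), S'.card < S.card → Hyp S' x' y' → ¬ Exc S' x' y' →
    Sol S' x' y'

variable {S : Finset α} {x y : Perm α}

theorem Hyp.symm (h : Hyp S x y) : Hyp S y x := ⟨h.hy, h.hx, h.sy, h.sx, h.card.symm⟩

omit [DecidableEq α] [Fintype α] in
theorem Sol.symm (h : Sol S x y) : Sol S y x := by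
  obtain ⟨z, h1, h2, h3, h4⟩ := h
  exact ⟨z, h1, h2, h4, h3⟩

theorem Hyp.exc (h : Hyp S x y) (he : Exc S x y) {e : α} (hS : e ∈ S) :
    (∀ ω ∈ S, ω = e ∨ ω = x e ∨ ω = y e ∨ ω = x (y e)) ∧ Sq x y e := by
  obtain ⟨hx, hy, sx, sy, -⟩ := h
  obtain ⟨h4, h5⟩ := he
  have m1 : x e ∈ S := by grind
  have m2 : y e ∈ S := by grind
  have m3 : x (y e) ∈ S := by grind
  have m4 : y (x e) ∈ S := by grind
  have h6 : ({e, x e, y e, x (y e)} : Finset α) = S := by
    refine Finset.eq_of_subset_of_card_le (fun ω hω => by grind) ?_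
    rw [h4, Finset.card_insert_of_notMem (by grind), Finset.card_insert_of_notMem (by grind),
      Finset.card_insert_of_notMem (by grind), Finset.card_singleton]
  have h7 : ∀ ω ∈ S, ω = e ∨ ω = x e ∨ ω = y e ∨ ω = x (y e) := fun ω hω => by
    simpa [← h6] using hω
  refine ⟨h7, (h5 e hS).1, (h5 e hS).2.1, (h5 e hS).2.2, ?_⟩
  have := h7 _ m4
  grind

theorem Hyp.small (h : Hyp S x y) (hS : S.card = 8) (f : Fin 8 → α) (hf : ∀ ω ∈ S, ∃ i, f i = ω)
    (gx gy gz : Fin 8 → Fin 8) (hx : ∀ i, x (f i) = f (gx i)) (hy : ∀ i, y (f i) = f (gy i))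
    (hz : ∀ i, gz (gz i) = i) (ox : ∀ i, gx (gz (gx (gz (gx (gz i))))) = i)
    (oy : ∀ i, gy (gz (gy (gz (gy (gz i))))) = i) : Sol S x y := by
  have h1 : S ⊆ Finset.univ.image f := fun ω hω => by simpa using hf ω hω
  have h2 : (Finset.univ.image f).card ≤ S.card := Finset.card_image_le.trans (by simp [hS])
  have h3 := Finset.eq_of_subset_of_card_le h1 h2
  have h4 : Function.Injective f := by
    have := Finset.injOn_of_card_image_eq (s := Finset.univ) (f := f) (by rw [← h3, hS]; simp)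
    simpa using this
  let ι : Fin 8 ↪ α := ⟨f, h4⟩
  let z := (Function.Involutive.toPerm gz hz).viaEmbedding ι
  have z1 : ∀ i, z (f i) = f (gz i) := fun i => viaEmbedding_apply _ ι i
  have z2 : ∀ ω, ω ∈ S ∨ z ω = ω := fun ω => or_iff_not_imp_left.2 fun hω =>
    viaEmbedding_apply_of_notMem _ ι ω fun ⟨i, hi⟩ => hω (h3 ▸ Finset.mem_image.2 ⟨i, by simp, hi⟩)
  have key : ∀ (w : Perm α) (g : Fin 8 → Fin 8), (∀ ω, ω ∈ S ∨ w ω = ω) →
      (∀ i, w (f i) = f (g i)) → (∀ i, g (gz (g (gz (g (gz i))))) = i) →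
      Odd (orderOf (w * z)) := by
    intro w g h5 h6 h7
    refine odd_of_pointwise fun ω => ⟨3, by decide, ?_⟩
    simp only [pow_succ, pow_zero, one_mul, mul_apply]
    by_cases hω : ω ∈ S
    · obtain ⟨i, rfl⟩ := hf ω hω
      simp only [z1, h6, h7]
    · simp only [(z2 ω).resolve_left hω, (h5 ω).resolve_left hω]
  refine ⟨z, fun ω => ?_, z2, key x gx h.sx hx ox, key y gy h.sy hy oy⟩
  by_cases hω : ω ∈ S
  · obtain ⟨i, rfl⟩ := hf ω hω
    simp only [z1, hz]
  · simp only [(z2 ω).resolve_left hω]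

omit [Fintype α] in
theorem card_four {a b c d : α} (ha : a ∈ S) (hb : b ∈ S) (hc : c ∈ S) (hd : d ∈ S)
    (h1 : a ≠ b) (h2 : a ≠ c) (h3 : a ≠ d) (h4 : b ≠ c) (h5 : b ≠ d) (h6 : c ≠ d) :
    (S \ {a, b, c, d}).card + 4 = S.card := by
  rw [← Finset.card_sdiff_add_card_eq_card (s := {a, b, c, d}) (t := S) (by
    intro ω; simp only [Finset.mem_insert, Finset.mem_singleton]; grind),
    Finset.card_insert_of_notMem (by simp [*]), Finset.card_insert_of_notMem (by simp [*]),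
    Finset.card_insert_of_notMem (by simp [*]), Finset.card_singleton]

omit [Fintype α] in
theorem card_two {a b : α} (ha : a ∈ S) (hb : b ∈ S) (h1 : a ≠ b) :
    (S \ {a, b}).card + 2 = S.card := by
  rw [← Finset.card_sdiff_add_card_eq_card (s := {a, b}) (t := S) (by
    intro ω; simp only [Finset.mem_insert, Finset.mem_singleton]; grind),
    Finset.card_insert_of_notMem (by simp [*]), Finset.card_singleton]

omit [Fintype α] in
theorem mem4 {a b c d ω : α} : ω ∈ S \ {a, b, c, d} ↔ ω ∈ S ∧ ω ≠ a ∧ ω ≠ b ∧ ω ≠ c ∧ ω ≠ d := by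
  simp

omit [Fintype α] in
theorem mem2 {a b ω : α} : ω ∈ S \ {a, b} ↔ ω ∈ S ∧ ω ≠ a ∧ ω ≠ b := by
  simp

theorem caseA (h : Hyp S x y) (he : ¬ Exc S x y) (ih : IH S) {a : α} (ha : Sq x y a) :
    Sol S x y := by
  obtain ⟨hx, hy, sx, sy, hc⟩ := id h
  obtain ⟨a1, a2, a3, a4⟩ := ha
  obtain ⟨b, hb⟩ : ∃ b, x a = b := ⟨_, rfl⟩
  obtain ⟨c, hc'⟩ : ∃ c, y a = c := ⟨_, rfl⟩
  obtain ⟨d, hd⟩ : ∃ d, x c = d := ⟨_, rfl⟩
  have hd' : y b = d := by grind
  have xb : x b = a := by grind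
  have xd : x d = c := by grind
  have yc : y c = a := by grind
  have yd : y d = b := by grind
  have n1 : a ≠ b := by grind
  have n2 : a ≠ c := by grind
  have n3 : a ≠ d := by grind
  have n4 : b ≠ c := by grind
  have n5 : b ≠ d := by grind
  have n6 : c ≠ d := by grind
  have hcard := card_four (S := S) (a := a) (b := b) (c := c) (d := d) (by grind) (by grind)
    (by grind) (by grind) n1 n2 n3 n4 n5 n6
  obtain ⟨x₁, p1, p2, p3, p4, p5⟩ := exists_erase hx hb n1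
  obtain ⟨x', q1, q2, q3, q4, q5⟩ := exists_erase p1 ((p4 c n2.symm n4.symm).trans hd) n6
  obtain ⟨y₁, r1, r2, r3, r4, r5⟩ := exists_erase hy hc' n2
  obtain ⟨y', s1, s2, s3, s4, s5⟩ := exists_erase r1 ((r4 b n1.symm n4).trans hd') n5
  have x'a : x' a = a := by grind
  have x'b : x' b = b := by grind
  have y'a : y' a = a := by grind
  have y'c : y' c = c := by grind
  have hx' : ∀ ω, ω ≠ a → ω ≠ b → ω ≠ c → ω ≠ d → x ω = x' ω := by grind
  have hy' : ∀ ω, ω ≠ a → ω ≠ c → ω ≠ b → ω ≠ d → y ω = y' ω := by grind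
  have h' : Hyp (S \ {a, b, c, d}) x' y' :=
    ⟨q1, s1, fun ω => by rw [mem4]; grind +splitImp, fun ω => by rw [mem4]; grind +splitImp,
      by omega⟩
  clear p1 p2 p3 p4 p5 q4 q5 r1 r2 r3 r4 r5 s4 s5
  rcases (S \ {a, b, c, d}).eq_empty_or_nonempty with h0 | ⟨e, hS⟩
  · refine (he ⟨by rw [← hcard, h0]; rfl, fun ω hω => ?_⟩).elim
    have : ω ∉ S \ {a, b, c, d} := by simp [h0]
    rw [mem4] at this
    grind
  obtain ⟨m0, m1, m2, m3, m4⟩ := mem4.1 hS
  by_cases he' : Exc (S \ {a, b, c, d}) x' y'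
  · obtain ⟨h7, b1, b2, b3, b4⟩ := h'.exc he' hS
    have c1 : x e = x' e := hx' e m1 m2 m3 m4
    have c2 : y e = y' e := hy' e m1 m3 m2 m4
    have c3 : x (y e) = x' (y' e) := by grind +splitImp
    have c4 : y (x e) = y' (x' e) := by grind +splitImp
    refine h.small (by rw [← hcard, he'.1]) ![a, b, c, d, e, x e, y e, x (y e)] (fun ω hω => ?_)
      ![1, 0, 3, 2, 5, 4, 7, 6] ![2, 3, 0, 1, 6, 7, 4, 5] ![4, 3, 5, 1, 0, 2, 7, 6] (fun i => ?_)
      (fun i => ?_) (by decide) (by decide) (by decide)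
    · have := h7 ω
      rw [mem4] at this
      simp only [Fin.exists_fin_succ, Matrix.cons_val_zero, Matrix.cons_val_succ]
      grind
    · fin_cases i <;> simp <;> grind
    · fin_cases i <;> simp <;> grind
  obtain ⟨z', z1, z2, z3, z4⟩ := ih _ _ _ (by omega) h' he'
  have za : z' a = a := (z2 a).resolve_left (by simp)
  have zb : z' b = b := (z2 b).resolve_left (by simp)
  have zc : z' c = c := (z2 c).resolve_left (by simp)
  have zd : z' d = d := (z2 d).resolve_left (by simp)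
  have z2' : ∀ ω, ω ∈ S ∨ z' ω = ω := fun ω => (z2 ω).imp_left fun h => (mem4.1 h).1
  have ma : a ∈ S := by grind
  have mb : b ∈ S := by grind
  have mc : c ∈ S := by grind
  have md : d ∈ S := by grind
  by_cases hz : z' e = e
  · obtain ⟨z₁, t1, t2, t3, t4, -⟩ := exists_add z1 hz za m1
    obtain ⟨z, u1, u2, u3, u4, -⟩ := exists_add t1 ((t4 b m2.symm n1.symm).trans zb)
      ((t4 c m3.symm n2.symm).trans zc) n4
    refine ⟨z, u1, fun ω => by grind +splitImp, ?_, ?_⟩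
    · exact end4 z1 m1 m2 m3 m4 hz za zb zc zd x'a x'b q2 q3 (by grind) (by grind) u2 u3
        (by grind) (by grind) hb xb hd xd hx' z3
    · exact end4 z1 m1 m3 m2 m4 hz za zc zb zd y'a y'c s2 s3 (by grind) (by grind) u3 u2
        (by grind) (by grind) hc' yc hd' yd hy' z4
  · obtain ⟨f, hf⟩ : ∃ f, z' e = f := ⟨_, rfl⟩
    have k1 : f ≠ a := by grind
    have k2 : f ≠ b := by grind
    have k3 : f ≠ c := by grind
    have k4 : f ≠ d := by grind
    have k5 : e ≠ f := by grind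
    have mf : f ∈ S := by grind
    obtain ⟨z₀, v1, v2, v3, v4, -⟩ := exists_erase z1 hf k5
    obtain ⟨z₁, t1, t2, t3, t4, -⟩ := exists_add v1 v2 (show z₀ a = a by grind) m1
    obtain ⟨z₂, u1, u2, u3, u4, -⟩ := exists_add t1 (show z₁ b = b by grind)
      (show z₁ c = c by grind) n4
    obtain ⟨z, w1, w2, w3, w4, -⟩ := exists_add u1 (show z₂ d = d by grind)
      (show z₂ f = f by grind) k4.symm
    have hz' : ∀ ω, ω ≠ e → ω ≠ f → ω ≠ a → ω ≠ b → ω ≠ c → ω ≠ d → z ω = z' ω := by grind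
    have ze : z e = a := by grind
    have za' : z a = e := by grind
    have zb' : z b = c := by grind
    have zc' : z c = b := by grind
    refine ⟨z, w1, fun ω => by grind +splitImp, ?_, ?_⟩
    · exact sub4 z1 m1 m2 m3 m4 hf za zb zc zd x'a x'b q2 q3 ze za' zb' zc' w2 w3 hz'
        hb xb hd xd hx' z3
    · exact sub4 z1 m1 m3 m2 m4 hf za zc zb zd y'a y'c s2 s3 ze za' zc' zb' w2 w3 (by grind)
        hc' yc hd' yd hy' z4

theorem Hyp.not_exc {S' : Finset α} {x' y' : Perm α} (h' : Hyp S' x' y') (hn : ∀ a, ¬ Sq x y a)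
    (hx : ∀ ω ∈ S', x ω = x' ω) (hy : ∀ ω ∈ S', y ω = y' ω) : ¬ Exc S' x' y' := by
  intro he
  obtain ⟨e, hS⟩ : S'.Nonempty := Finset.card_pos.1 (by rw [he.1]; decide)
  obtain ⟨-, b1, b2, b3, b4⟩ := h'.exc he hS
  obtain ⟨h1, h2, h3, h4, -⟩ := h'
  refine hn e ⟨?_, ?_, ?_, ?_⟩ <;> grind

theorem caseB1 (h : Hyp S x y) (ih : IH S) (hn : ∀ a, ¬ Sq x y a) {a : α} (ha : a ∈ S)
    (hxy : x a = y a) : Sol S x y := by
  obtain ⟨hx, hy, sx, sy, hc⟩ := id h
  by_cases h1 : x a = a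
  · have h' : Hyp (S.erase a) x y :=
      ⟨hx, hy, fun ω => by rw [Finset.mem_erase]; grind, fun ω => by rw [Finset.mem_erase]; grind, hc⟩
    obtain ⟨z, z1, z2, z3, z4⟩ := ih _ _ _ (Finset.card_erase_lt_of_mem ha) h'
      (h'.not_exc hn (fun _ _ => rfl) fun _ _ => rfl)
    exact ⟨z, z1, fun ω => (z2 ω).imp_left Finset.mem_of_mem_erase, z3, z4⟩
  obtain ⟨b, hb⟩ : ∃ b, x a = b := ⟨_, rfl⟩
  have n1 : a ≠ b := by grind
  have mb : b ∈ S := by grind
  have hcard := card_two ha mb n1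
  obtain ⟨x', p1, p2, p3, p4, p5⟩ := exists_erase hx hb n1
  obtain ⟨y', r1, r2, r3, r4, r5⟩ := exists_erase hy (hxy.symm.trans hb) n1
  have h' : Hyp (S \ {a, b}) x' y' :=
    ⟨p1, r1, fun ω => by rw [mem2]; grind +splitImp, fun ω => by rw [mem2]; grind +splitImp,
      by omega⟩
  obtain ⟨z', z1, z2, z3, z4⟩ := ih _ _ _ (by omega) h' (h'.not_exc hn
    (fun ω hω => by rw [mem2] at hω; grind) fun ω hω => by rw [mem2] at hω; grind)
  have za : z' a = a := (z2 a).resolve_left (by simp)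
  have zb : z' b = b := (z2 b).resolve_left (by simp)
  have z2' : ∀ ω, ω ∈ S ∨ z' ω = ω := fun ω => (z2 ω).imp_left fun h => (mem2.1 h).1
  obtain ⟨z, t1, t2, t3, t4, -⟩ := exists_add z1 za zb n1
  have e1 : x * z = x' * z' := by
    ext ω
    simp only [mul_apply]
    grind +splitImp
  have e2 : y * z = y' * z' := by
    ext ω
    simp only [mul_apply]
    grind +splitImp
  exact ⟨z, t1, fun ω => by grind +splitImp, e1 ▸ z3, e2 ▸ z4⟩

theorem caseB2 (h : Hyp S x y) (ih : IH S) {a : α} (a1 : y a = a) (a2 : x a ≠ a)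
    (a3 : y (x a) ≠ x a) : Sol S x y := by
  obtain ⟨hx, hy, sx, sy, hc⟩ := id h
  obtain ⟨b, hb⟩ : ∃ b, x a = b := ⟨_, rfl⟩
  obtain ⟨c, hc'⟩ : ∃ c, y b = c := ⟨_, rfl⟩
  have n1 : a ≠ b := by grind
  have n2 : b ≠ c := by grind
  have n3 : a ≠ c := by grind
  have ma : a ∈ S := by grind
  have mb : b ∈ S := by grind
  have mc : c ∈ S := by grind
  have hcard := card_two ma mb n1
  obtain ⟨x', p1, p2, p3, p4, p5⟩ := exists_erase hx hb n1
  obtain ⟨y', r1, r2, r3, r4, r5⟩ := exists_erase hy hc' n2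
  have h' : Hyp (S \ {a, b}) x' y' :=
    ⟨p1, r1, fun ω => by rw [mem2]; grind +splitImp, fun ω => by rw [mem2]; grind +splitImp,
      by omega⟩
  obtain ⟨z', z1, z2, z3, z4⟩ := ih _ _ _ (by omega) h' fun he =>
    (he.2 c (mem2.2 ⟨mc, n3.symm, n2.symm⟩)).2.1 r3
  have za : z' a = a := (z2 a).resolve_left (by simp)
  have zb : z' b = b := (z2 b).resolve_left (by simp)
  have z2' : ∀ ω, ω ∈ S ∨ z' ω = ω := fun ω => (z2 ω).imp_left fun h => (mem2.1 h).1
  obtain ⟨z, t1, t2, t3, t4, -⟩ := exists_add z1 za zb n1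
  have e1 : x * z = x' * z' := by
    ext ω
    simp only [mul_apply]
    grind +splitImp
  refine ⟨z, t1, fun ω => by grind +splitImp, e1 ▸ z3, ?_⟩
  rw [orderOf_swap_mul] at z4 ⊢
  exact end2 (e := c) (a := b) (b := a) r1 n2.symm n3.symm r3 r2 (by grind) zb za (by grind) hc' a1
    (by grind) t3 t2 (by grind) z4

theorem caseB3 (h : Hyp S x y) (ih : IH S) (hn : ∀ a, ¬ Sq x y a) {a c : α} (a1 : y a = a)
    (a2 : x a ≠ a) (a3 : y (x a) = x a) (c1 : x c = c) (c2 : y c ≠ c) (c3 : x (y c) = y c) :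
    Sol S x y := by
  obtain ⟨hx, hy, sx, sy, hc⟩ := id h
  obtain ⟨b, hb⟩ : ∃ b, x a = b := ⟨_, rfl⟩
  obtain ⟨d, hd⟩ : ∃ d, y c = d := ⟨_, rfl⟩
  have n1 : a ≠ b := by grind
  have n2 : a ≠ c := by grind
  have n3 : a ≠ d := by grind
  have n4 : b ≠ c := by grind
  have n5 : b ≠ d := by grind
  have n6 : c ≠ d := by grind
  have mb : b ∈ S := by grind
  have mc : c ∈ S := by grind
  have hcard := card_four (S := S) (a := a) (b := b) (c := c) (d := d) (by grind) mb mc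
    (by grind) n1 n2 n3 n4 n5 n6
  obtain ⟨x', p1, p2, p3, p4, p5⟩ := exists_erase hx hb n1
  obtain ⟨y', r1, r2, r3, r4, r5⟩ := exists_erase hy hd n6
  have h' : Hyp (S \ {a, b, c, d}) x' y' :=
    ⟨p1, r1, fun ω => by rw [mem4]; grind +splitImp, fun ω => by rw [mem4]; grind +splitImp,
      by omega⟩
  obtain ⟨z', z1, z2, z3, z4⟩ := ih _ _ _ (by omega) h' (h'.not_exc hn
    (fun ω hω => by rw [mem4] at hω; grind) fun ω hω => by rw [mem4] at hω; grind)
  have za : z' a = a := (z2 a).resolve_left (by simp)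
  have zb : z' b = b := (z2 b).resolve_left (by simp)
  have zc : z' c = c := (z2 c).resolve_left (by simp)
  have zd : z' d = d := (z2 d).resolve_left (by simp)
  have z2' : ∀ ω, ω ∈ S ∨ z' ω = ω := fun ω => (z2 ω).imp_left fun h => (mem4.1 h).1
  obtain ⟨z, t1, t2, t3, t4, -⟩ := exists_add z1 zb zc n4
  refine ⟨z, t1, fun ω => by grind +splitImp, ?_, ?_⟩
  · exact end2 (e := c) (a := b) (b := a) z1 n4.symm n2.symm zc zb za p3 p2 t3 t2 (by grind)
      (by grind) (by grind) hb (by grind) z3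
  · exact end2 (e := b) (a := c) (b := d) z1 n4 n5 zb zc zd r2 r3 t2 t3 (by grind)
      (by grind) hd (by grind) (by grind) z4

theorem caseB4 (h : Hyp S x y) (ih : IH S) (hn : ∀ a, ¬ Sq x y a)
    (hf : ∀ ω ∈ S, x ω ≠ ω ∧ y ω ≠ ω ∧ x ω ≠ y ω) {u : α} (hu : u ∈ S) : Sol S x y := by
  obtain ⟨hx, hy, sx, sy, hc⟩ := id h
  obtain ⟨a, ha⟩ : ∃ a, y u = a := ⟨_, rfl⟩
  obtain ⟨b, hb⟩ : ∃ b, x a = b := ⟨_, rfl⟩
  obtain ⟨c, hc'⟩ : ∃ c, y b = c := ⟨_, rfl⟩
  obtain ⟨d, hd⟩ : ∃ d, x c = d := ⟨_, rfl⟩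
  obtain ⟨w, hw⟩ : ∃ w, y d = w := ⟨_, rfl⟩
  have ya : y a = u := by grind
  have xb : x b = a := by grind
  have yc : y c = b := by grind
  have xd : x d = c := by grind
  have yw : y w = d := by grind
  have ma : a ∈ S := by grind
  have mb : b ∈ S := by grind
  have mc : c ∈ S := by grind
  have md : d ∈ S := by grind
  have mw : w ∈ S := by grind
  have hu' := hf u hu
  have ha' := hf a ma
  have hb' := hf b mb
  have hc'' := hf c mc
  have hd' := hf d md
  have sb := hn b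
  have sc := hn c
  simp only [Sq] at sb sc
  have n1 : a ≠ b := by grind
  have n2 : a ≠ c := by grind
  have n4 : b ≠ c := by grind
  have n5 : b ≠ d := by grind
  have n6 : c ≠ d := by grind
  have u1 : u ≠ a := by grind
  have u2 : u ≠ b := by grind
  have u3 : u ≠ c := by grind
  have u4 : u ≠ d := by grind
  have n3 : a ≠ d := by grind
  have w1 : w ≠ a := by grind
  have w2 : w ≠ b := by grind
  have w3 : w ≠ c := by grind
  have w4 : w ≠ d := by grind
  have uw : u ≠ w := by grind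
  have hcard := card_four ma mb mc md n1 n2 n3 n4 n5 n6
  obtain ⟨x₁, p1, p2, p3, p4, p5⟩ := exists_erase hx hb n1
  obtain ⟨x', q1, q2, q3, q4, q5⟩ := exists_erase p1 ((p4 c n2.symm n4.symm).trans hd) n6
  obtain ⟨y₁, r1, r2, r3, r4, r5⟩ := exists_erase hy ha u1
  obtain ⟨y₂, s1, s2, s3, s4, s5⟩ := exists_erase r1 ((r4 b u2.symm n1.symm).trans hc') n4
  obtain ⟨y₃, t1, t2, t3, t4, t5⟩ := exists_erase s1 (show y₂ d = w by grind) w4.symm
  obtain ⟨y', v1, v2, v3, v4, v5⟩ := exists_add t1 (show y₃ u = u by grind) t3 uw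
  have x'a : x' a = a := by grind
  have x'b : x' b = b := by grind
  have y'a : y' a = a := by grind
  have y'b : y' b = b := by grind
  have y'c : y' c = c := by grind
  have y'd : y' d = d := by grind
  have hx' : ∀ ω, ω ≠ a → ω ≠ b → ω ≠ c → ω ≠ d → x ω = x' ω := by grind
  have hy' : ∀ ω, ω ≠ u → ω ≠ w → ω ≠ a → ω ≠ b → ω ≠ c → ω ≠ d → y ω = y' ω := by grind
  have h' : Hyp (S \ {a, b, c, d}) x' y' :=
    ⟨q1, v1, fun ω => by rw [mem4]; grind +splitImp, fun ω => by rw [mem4]; grind +splitImp,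
      by omega⟩
  clear p1 p2 p3 p4 p5 q4 q5 r1 r2 r3 r4 r5 s1 s2 s3 s4 s5 t1 t2 t3 t4 t5 v4 v5 sb sc
  by_cases he' : Exc (S \ {a, b, c, d}) x' y'
  · obtain ⟨h7, b1, b2, b3, b4⟩ := h'.exc he' (mem4.2 ⟨hu, u1, u2, u3, u4⟩)
    have c1 : x u = x' u := hx' u u1 u2 u3 u4
    have c2 : x w = x' w := hx' w w1 w2 w3 w4
    have c4 : y (x u) = x w := by grind +splitImp
    refine h.small (by rw [← hcard, he'.1]) ![x u, u, a, b, c, d, w, x w] (fun ω hω => ?_)
      ![1, 0, 3, 2, 5, 4, 7, 6] ![7, 2, 1, 4, 3, 6, 5, 0] ![4, 2, 1, 5, 0, 3, 7, 6] (fun i => ?_)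
      (fun i => ?_) (by decide) (by decide) (by decide)
    · have := h7 ω
      rw [mem4] at this
      simp only [Fin.exists_fin_succ, Matrix.cons_val_zero, Matrix.cons_val_succ]
      grind
    · fin_cases i <;> simp <;> grind
    · fin_cases i <;> simp <;> grind
  obtain ⟨z', z1, z2, z3, z4⟩ := ih _ _ _ (by omega) h' he'
  have za : z' a = a := (z2 a).resolve_left (by simp)
  have zb : z' b = b := (z2 b).resolve_left (by simp)
  have zc : z' c = c := (z2 c).resolve_left (by simp)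
  have zd : z' d = d := (z2 d).resolve_left (by simp)
  have z2' : ∀ ω, ω ∈ S ∨ z' ω = ω := fun ω => (z2 ω).imp_left fun h => (mem4.1 h).1
  obtain ⟨z₁, t1, t2, t3, t4, -⟩ := exists_add z1 za zb n1
  obtain ⟨z, s1, s2, s3, s4, -⟩ := exists_add t1 (show z₁ c = c by grind) (show z₁ d = d by grind) n6
  have hz' : ∀ ω, ω ≠ a → ω ≠ b → ω ≠ c → ω ≠ d → z ω = z' ω := by grind
  have za' : z a = b := by grind
  have zb' : z b = a := by grind
  have e1 : x * z = x' * z' := by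
    ext ω
    simp only [mul_apply]
    by_cases k : ω = a ∨ ω = b ∨ ω = c ∨ ω = d
    · grind
    · rw [hz' ω (by grind) (by grind) (by grind) (by grind)]
      exact hx' _ (by grind) (by grind) (by grind) (by grind)
  refine ⟨z, s1, fun ω => by grind +splitImp, e1 ▸ z3, ?_⟩
  rw [orderOf_swap_mul] at z4 ⊢
  exact sub4 v1 u1 u2 u3 u4 v2 y'a y'b y'c y'd za zb zc zd ha ya hc' yc hw yw hy' za' zb' s2 s3
    hz' z4

theorem Hyp.exists_fix (h : Hyp S x y) {a : α} (ha : a ∈ S) (h1 : y a = a) :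
    ∃ c ∈ S, x c = c := by
  by_contra hcon
  push Not at hcon
  have h2 : y.support ⊆ x.support := fun ω hω =>
    mem_support.2 (hcon ω ((h.sy ω).resolve_right (mem_support.1 hω)))
  have h3 := Finset.eq_of_subset_of_card_le h2 h.card.le
  exact mem_support.1 (h3 ▸ mem_support.2 (hcon a ha)) h1

theorem main (n : ℕ) : ∀ (S : Finset α) (x y : Perm α), S.card = n → Hyp S x y → ¬ Exc S x y →
    Sol S x y := by
  induction n using Nat.strong_induction_on with
  | _ n ihn =>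
  intro S x y hS h he
  have ih : IH S := fun S' x' y' h1 => ihn _ (hS ▸ h1) S' x' y' rfl
  rcases S.eq_empty_or_nonempty with rfl | ⟨u, hu⟩
  · have h1 : x = 1 := by ext ω; simpa using h.sx ω
    have h2 : y = 1 := by ext ω; simpa using h.sy ω
    exact ⟨1, fun _ => rfl, fun _ => Or.inr rfl, by simp [h1], by simp [h2]⟩
  by_cases hA : ∃ a, Sq x y a
  · obtain ⟨a, ha⟩ := hA
    exact caseA h he ih ha
  push Not at hA
  by_cases h1 : ∃ a ∈ S, x a = y a
  · obtain ⟨a, ha, h1⟩ := h1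
    exact caseB1 h ih hA ha h1
  push Not at h1
  by_cases h2 : ∃ a ∈ S, y a = a ∧ y (x a) ≠ x a
  · obtain ⟨a, ha, a1, a3⟩ := h2
    exact caseB2 h ih a1 (fun e => h1 a ha (e.trans a1.symm)) a3
  by_cases h3 : ∃ a ∈ S, x a = a ∧ x (y a) ≠ y a
  · obtain ⟨a, ha, a1, a3⟩ := h3
    exact (caseB2 h.symm ih a1 (fun e => h1 a ha (a1.trans e.symm)) a3).symm
  push Not at h2 h3
  by_cases h4 : ∃ a ∈ S, y a = a
  · obtain ⟨a, ha, a1⟩ := h4
    obtain ⟨c, hc, c1⟩ := h.exists_fix ha a1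
    exact caseB3 h ih hA a1 (fun e => h1 a ha (e.trans a1.symm)) (h2 a ha a1) c1
      (fun e => h1 c hc (c1.trans e.symm)) (h3 c hc c1)
  refine caseB4 h ih hA (fun ω hω => ⟨fun e => h4 (h.symm.exists_fix hω e),
    fun e => h4 ⟨ω, hω, e⟩, h1 ω hω⟩) hu

omit [DecidableEq α] [Fintype α] in
theorem not_odd {σ : Perm α} {a : α} (h1 : σ (σ a) = a) (h2 : σ a ≠ a) : ¬ Odd (orderOf σ) := by
  rintro ⟨k, hk⟩
  have h3 : (σ ^ (2 * k)) a = a := by
    rw [pow_mul]
    exact pow_apply_eq_self_of_apply_eq_self (by simpa [sq] using h1) k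
  have h4 := congrArg (fun τ : Perm α => τ a) (pow_orderOf_eq_one σ)
  simp only [hk, pow_succ', mul_apply, h3, one_apply] at h4
  exact h2 h4

end

/-- Let n ≥ 5 and let X be a conjugacy class of involutions of the symmetric group of degree n. The graph on X joining two distinct involutions whose product has odd order is connected and has diameter exactly 2. -/
theorem result (n : ℕ) (hn : 5 ≤ n) (t : Equiv.Perm (Fin n)) (ht : orderOf t = 2) :
    (SimpleGraph.fromRel fun x y : {x : Equiv.Perm (Fin n) // IsConj t x} =>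
        Odd (orderOf (x.1 * y.1))).Connected ∧
      (SimpleGraph.fromRel fun x y : {x : Equiv.Perm (Fin n) // IsConj t x} =>
        Odd (orderOf (x.1 * y.1))).diam = 2 := by
  have hsq : ∀ x, IsConj t x → ∀ ω, x (x ω) = ω := fun x hx ω => by
    obtain ⟨c, rfl⟩ := isConj_iff.1 hx
    have : t * t = 1 := by rw [← sq, ← ht, pow_orderOf_eq_one]
    have h2 : c * t * c⁻¹ * (c * t * c⁻¹) = 1 := by
      calc c * t * c⁻¹ * (c * t * c⁻¹) = c * (t * t) * c⁻¹ := by group
        _ = 1 := by rw [this]; group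
    exact congrArg (fun τ : Perm (Fin n) => τ ω) h2
  have hcd : ∀ x, IsConj t x → x.support.card = t.support.card := fun x hx => by
    obtain ⟨c, rfl⟩ := isConj_iff.1 hx
    exact card_support_conj
  refine Inv.oddGraph_diam_two ht (fun x y hx hy _ => ?_) ?_
  · obtain ⟨z, z1, -, z3, z4⟩ := main _ Finset.univ x y rfl ⟨hsq x hx, hsq y hy, by simp, by simp,
      (hcd x hx).trans (hcd y hy).symm⟩ fun he => by
        have := he.1
        simp at this
        omega
    exact ⟨z, Equiv.ext z1, z3, orderOf_swap_mul y z ▸ z4⟩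
  · have ht' := hsq t (IsConj.refl t)
    obtain ⟨a, ha⟩ : ∃ a, t a ≠ a := by
      by_contra h
      push Not at h
      have : t = 1 := Equiv.ext h
      simp [this] at ht
    obtain ⟨b, hb⟩ : ∃ b, t a = b := ⟨_, rfl⟩
    have tb : t b = a := by grind
    by_cases h : ∃ c, c ≠ a ∧ c ≠ b ∧ t c ≠ c
    · obtain ⟨c, c1, c2, c3⟩ := h
      refine ⟨t, swap b c * t * (swap b c)⁻¹, IsConj.refl t, isConj_iff.2 ⟨_, rfl⟩,
        not_odd (a := a) ?_ ?_⟩ <;> simp only [mul_apply, swap_inv, swap_apply_def] <;> grind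
    · push Not at h
      obtain ⟨c, d, c1, c2, d1, d2, cd⟩ : ∃ c d : Fin n, c ≠ a ∧ c ≠ b ∧ d ≠ a ∧ d ≠ b ∧ c ≠ d := by
        have h1 : 1 < (Finset.univ \ {a, b} : Finset (Fin n)).card := by
          have := card_two (S := Finset.univ) (Finset.mem_univ a) (Finset.mem_univ b) (by grind)
          simp only [Finset.card_univ, Fintype.card_fin] at this
          omega
        obtain ⟨c, hc, d, hd, cd⟩ := Finset.one_lt_card.1 h1
        rw [mem2] at hc hd
        exact ⟨c, d, hc.2.1, hc.2.2, hd.2.1, hd.2.2, cd⟩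
      have tc := h c c1 c2
      have td := h d d1 d2
      refine ⟨t, swap a c * swap b d * t * (swap a c * swap b d)⁻¹, IsConj.refl t,
        isConj_iff.2 ⟨_, rfl⟩, not_odd (a := a) ?_ ?_⟩ <;>
      simp only [mul_inv_rev, mul_apply, swap_inv, swap_apply_def] <;> grind

end Cfsg.Agent.S3265
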