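import Mathlib
import Cfsg.Statements.S3266
import Cfsg.Agent.Inv.OddGraph
import Cfsg.Agent.Cl.PSL2Struct
import Cfsg.Agent.Cl.PSL2Pairs
import Cfsg.Agent.Cl.AutBase

set_option autoImplicit false
set_option linter.style.haveILetI false
set_option linter.unusedVariables false
open Cfsg

namespace Cfsg.Agent.S3266

open Matrix Cfsg.Agent.Cl Cfsg.Agent.Cl.L2
open scoped MatrixGroups

section
variable {F : Type*} [Field F]

theorem sum_char [Fintype F] [DecidableEq F] (hF : ringChar F ≠ 2) {t : F} (ht : t ^ 2 ≠ 4) :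
    ∑ u, quadraticChar F (u ^ 2 + t * u + 1) = -1 := by
  have h2 : (2 : F) ≠ 0 := Ring.two_ne_zero hF
  have hd : t ^ 2 - 4 ≠ 0 := sub_ne_zero.2 ht
  have h1 : (Finset.univ.filter fun p : F × F => p.2 ^ 2 = p.1 ^ 2 + t * p.1 + 1).card =
      (Finset.univ.erase (0 : F)).card := by
    refine Finset.card_nbij' (fun p => 2 * p.1 + t - 2 * p.2)
      (fun m => ((m + (t ^ 2 - 4) / m - 2 * t) / 4, ((t ^ 2 - 4) / m - m) / 4)) ?_ ?_ ?_ ?_
    · rintro ⟨u, y⟩ h
      simp only [Finset.coe_filter, Finset.mem_univ, true_and, Set.mem_ofPred_eq] at h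
      simp only [Finset.coe_erase, Finset.coe_univ, Set.mem_sdiff, Set.mem_univ,
        Set.mem_singleton_iff, true_and]
      intro h0
      apply hd
      linear_combination (2 * u + t + 2 * y) * h0 + 4 * h
    · intro m hm
      have hm0 : m ≠ 0 := by simpa using hm
      have h4 : (4 : F) ≠ 0 := by rw [show (4 : F) = 2 * 2 by norm_num]; exact mul_ne_zero h2 h2
      simp only [Finset.coe_filter, Finset.mem_univ, true_and, Set.mem_ofPred_eq]
      field_simp
      ring
    · rintro ⟨u, y⟩ h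
      simp only [Finset.coe_filter, Finset.mem_univ, true_and, Set.mem_ofPred_eq] at h
      have h4 : (4 : F) ≠ 0 := by rw [show (4 : F) = 2 * 2 by norm_num]; exact mul_ne_zero h2 h2
      have h0 : 2 * u + t - 2 * y ≠ 0 := fun h0 => hd (by
        linear_combination (2 * u + t + 2 * y) * h0 + 4 * h)
      have h5 : (t ^ 2 - 4) / (2 * u + t - 2 * y) = 2 * u + t + 2 * y := by
        rw [div_eq_iff h0]
        linear_combination 4 * h
      simp only [h5, Prod.mk.injEq]
      constructor
      · rw [div_eq_iff h4]; ring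
      · rw [div_eq_iff h4]; ring
    · intro m hm
      have hm0 : m ≠ 0 := by simpa using hm
      have h4 : (4 : F) ≠ 0 := by rw [show (4 : F) = 2 * 2 by norm_num]; exact mul_ne_zero h2 h2
      field_simp
      ring
  have h3 : ((Finset.univ.filter fun p : F × F => p.2 ^ 2 = p.1 ^ 2 + t * p.1 + 1).card : ℤ) =
      ∑ u, (quadraticChar F (u ^ 2 + t * u + 1) + 1) := by
    rw [Finset.card_filter, Fintype.sum_prod_type, Nat.cast_sum]
    refine Finset.sum_congr rfl fun u _ => ?_
    rw [← quadraticChar_card_sqrts hF, ← Finset.card_filter]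
    congr 2
    ext y
    simp
  rw [h1, Finset.card_erase_of_mem (Finset.mem_univ _), Finset.sum_add_distrib, Finset.sum_const,
    Finset.card_univ, Nat.cast_sub Fintype.card_pos] at h3
  simp only [nsmul_eq_mul, mul_one, Nat.cast_one] at h3
  linarith

theorem exists_ab [Fintype F] (hq : Fintype.card F % 4 = 3) (h4 : 4 ≤ Fintype.card F) {t : F}
    (ht : t ^ 2 ≠ 4) : ∃ a b r : F, a ≠ 0 ∧ b ≠ 0 ∧
      r ^ 2 = -(t ^ 2 + (a + a⁻¹) ^ 2 + (b + b⁻¹) ^ 2 + t * (a + a⁻¹) * (b + b⁻¹) - 4) := by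
  classical
  have hF : ringChar F ≠ 2 := fun h => by
    have := FiniteField.even_card_iff_char_two.1 h
    omega
  have hm1 : quadraticChar F (-1) = -1 := quadraticChar_neg_one_iff_not_isSquare.2 fun h =>
    FiniteField.isSquare_neg_one_iff.1 h hq
  obtain ⟨u, v, hu, hv, huv, hs⟩ : ∃ u v : F, u ≠ 0 ∧ v ≠ 0 ∧ IsSquare (u * v) ∧
      IsSquare (-((u ^ 2 + t * u + 1) * (v ^ 2 + t * v + 1))) := by
    by_contra hcon
    push Not at hcon
    have key : ∀ u v : F, u ≠ 0 → v ≠ 0 → quadraticChar F u = quadraticChar F v →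
        quadraticChar F (u ^ 2 + t * u + 1) * quadraticChar F (v ^ 2 + t * v + 1) = 1 := by
      intro u v hu hv h
      have h1 : IsSquare (u * v) := by
        rw [← quadraticChar_one_iff_isSquare (mul_ne_zero hu hv), map_mul, h, ← sq,
          quadraticChar_sq_one hv]
      have h2 := quadraticChar_neg_one_iff_not_isSquare.2 (hcon u v hu hv h1)
      rw [neg_eq_neg_one_mul, map_mul, map_mul, hm1] at h2
      linarith
    set e₁ := quadraticChar F (1 ^ 2 + t * 1 + 1) with he₁
    set e₂ := quadraticChar F ((-1) ^ 2 + t * (-1) + 1) with he₂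
    have h1 : e₁ * e₁ = 1 := key 1 1 one_ne_zero one_ne_zero rfl
    have h2 : e₂ * e₂ = 1 := key (-1) (-1) (by simp) (by simp) rfl
    have h3 : ∀ u : F, 2 * quadraticChar F (u ^ 2 + t * u + 1) =
        (e₁ + e₂) + (e₁ - e₂) * quadraticChar F u + if u = 0 then 2 - (e₁ + e₂) else 0 := by
      intro u
      split_ifs with hu
      · simp [hu]
      rcases quadraticChar_dichotomy hu with h | h
      · have := key u 1 hu one_ne_zero (by rw [h, map_one])
        rw [← he₁] at this
        rw [h]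
        linear_combination 2 * e₁ * this - 2 * quadraticChar F (u ^ 2 + t * u + 1) * h1
      · have := key u (-1) hu (by simp) (by rw [h, hm1])
        rw [← he₂] at this
        rw [h]
        linear_combination 2 * e₂ * this - 2 * quadraticChar F (u ^ 2 + t * u + 1) * h2
    have h5 := Finset.sum_congr (rfl : (Finset.univ : Finset F) = _) fun u _ => h3 u
    rw [← Finset.mul_sum, sum_char hF ht, Finset.sum_add_distrib, Finset.sum_add_distrib,
      ← Finset.mul_sum, quadraticChar_sum_zero hF, Finset.sum_const, Finset.card_univ,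
      Finset.sum_ite_eq' Finset.univ (0 : F)] at h5
    simp only [Finset.mem_univ, if_true, nsmul_eq_mul] at h5
    have h6 : (4 : ℤ) ≤ Fintype.card F := by exact_mod_cast h4
    rcases Int.eq_one_or_neg_one_of_mul_eq_one h1 with h | h <;>
    rcases Int.eq_one_or_neg_one_of_mul_eq_one h2 with h' | h' <;>
    rw [h, h'] at h5 <;> omega
  obtain ⟨a, ha⟩ := huv
  obtain ⟨r, hr⟩ := hs
  have ha0 : a ≠ 0 := fun h => mul_ne_zero hu hv (by rw [ha, h, mul_zero])
  refine ⟨a, u / a, r / a, ha0, div_ne_zero hu ha0, ?_⟩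
  have hv' : v = a * a / u := by rw [← ha]; field_simp
  subst hv'
  field_simp
  field_simp at hr
  linear_combination -hr

theorem exists_Z {X Y : SL(2, F)} (hX : (X : M2 F).trace = 0) (hY : (Y : M2 F).trace = 0)
    {t s₁ s₂ r : F} (ht : ((X : M2 F) * Y).trace = t) (ht4 : t ^ 2 ≠ 4)
    (hr : r ^ 2 = -(t ^ 2 + s₁ ^ 2 + s₂ ^ 2 + t * s₁ * s₂ - 4)) :
    ∃ Z : SL(2, F), (Z : M2 F).trace = 0 ∧ ((X : M2 F) * Z).trace = s₁ ∧
      ((Z : M2 F) * Y).trace = s₂ := by
  have hd : t ^ 2 - 4 ≠ 0 := sub_ne_zero.2 ht4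
  have dX := X.det_coe
  have dY := Y.det_coe
  rw [det_fin_two] at dX dY
  rw [trace_fin_two] at hX hY
  simp only [trace_fin_two, mul_apply, Fin.sum_univ_two] at ht
  generalize (X : M2 F) = A at *
  generalize (Y : M2 F) = B at *
  have eX : A 1 1 = -A 0 0 := by linear_combination hX
  have eY : B 1 1 = -B 0 0 := by linear_combination hY
  rw [eX] at dX
  rw [eY] at dY
  rw [eX, eY] at ht
  set α := (2 * s₁ + t * s₂) / (t ^ 2 - 4) with hα
  set β := (t * s₁ + 2 * s₂) / (t ^ 2 - 4) with hβ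
  set γ := r / (t ^ 2 - 4) with hγ
  have e1 : -2 * α + t * β = s₁ := by rw [hα, hβ]; field_simp; ring
  have e2 : t * α - 2 * β = s₂ := by rw [hα, hβ]; field_simp; ring
  have e3 : α ^ 2 + β ^ 2 - α * β * t - γ ^ 2 * (t ^ 2 - 4) = 1 := by
    rw [hα, hβ, hγ]; field_simp; linear_combination (4 - t ^ 2) * hr
  clear_value α β γ
  refine ⟨⟨α • A + β • B + γ • (A * B - B * A), ?_⟩, ?_, ?_, ?_⟩
  · simp only [det_fin_two, Matrix.add_apply, Matrix.smul_apply, Matrix.sub_apply, mul_apply, Fin.sum_univ_two,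
      smul_eq_mul, eX, eY]
    subst ht
    linear_combination (α ^ 2 + 4 * γ ^ 2 * (B 0 0 * -B 0 0 - B 0 1 * B 1 0)) * dX +
      (β ^ 2 + 4 * γ ^ 2) * dY + e3
  · simp only [trace_fin_two, Matrix.add_apply, Matrix.smul_apply, Matrix.sub_apply, mul_apply, Fin.sum_univ_two,
      smul_eq_mul, eX, eY]
    ring
  · simp only [trace_fin_two, Matrix.add_apply, Matrix.smul_apply, Matrix.sub_apply, mul_apply, Fin.sum_univ_two,
      smul_eq_mul, eX, eY]
    linear_combination (-2 * α) * dX + e1 + β * ht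
  · simp only [trace_fin_two, Matrix.add_apply, Matrix.smul_apply, Matrix.sub_apply, mul_apply, Fin.sum_univ_two,
      smul_eq_mul, eX, eY]
    linear_combination (-2 * β) * dY + e2 + α * ht

theorem odd_of_four [Finite F] (h2 : (2 : F) ≠ 0) {A : SL(2, F)} (h : (A : M2 F).trace ^ 2 = 4) :
    Odd (orderOf (A : PSL(2, F))) := by
  by_cases h1 : (A : PSL(2, F)) = 1
  · simp [h1]
  obtain ⟨p, hp⟩ := CharP.exists F
  haveI : Fact p.Prime := ⟨CharP.char_is_prime F p⟩
  obtain ⟨x, hx⟩ := exists_mem_uniS (g := (A : PSL(2, F))) (by rw [tauS_mk, h])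
  rw [orderOf_of_mem_uniS p hx h1]
  refine (Fact.out : p.Prime).odd_of_ne_two fun h => h2 ?_
  subst h
  exact_mod_cast CharP.cast_eq_zero F 2

theorem odd_of_split [Fintype F] (hq : Fintype.card F % 4 = 3) {A : SL(2, F)} {a : F} (ha : a ≠ 0)
    (h : (A : M2 F).trace = a + a⁻¹) : Odd (orderOf (A : PSL(2, F))) := by
  have hF : ringChar F ≠ 2 := fun h => by
    have := FiniteField.even_card_iff_char_two.1 h
    omega
  by_cases h4 : (A : M2 F).trace ^ 2 = 4
  · exact odd_of_four (Ring.two_ne_zero hF) h4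
  let D : SL(2, F) := ⟨diagonal ![a, a⁻¹], by simp [ha]⟩
  have hc := sl_isConj_of_trace (B := D) h4 (by rw [h]; simp [D])
  have hc' : IsConj (A : PSL(2, F)) D := prj.map_isConj hc
  obtain ⟨c, hc''⟩ := isConj_iff.1 hc'
  have ho : orderOf (A : PSL(2, F)) = orderOf (D : PSL(2, F)) := by
    rw [← hc'']
    exact ((MulAut.conj c).orderOf_eq _).symm
  have hD : (D : PSL(2, F)) ^ (Fintype.card F / 2) = 1 := by
    rw [← QuotientGroup.mk_pow, mk_eq_one_iff]
    have hp : ∀ n : ℕ, ((D ^ n : SL(2, F)) : M2 F) = diagonal (![a, a⁻¹] ^ n) := fun n => by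
      rw [← diagonal_pow]
      rfl
    rcases FiniteField.pow_dichotomy hF ha with h | h
    · left
      ext i j
      rw [hp]
      fin_cases i <;> fin_cases j <;> simp [h]
    · right
      ext i j
      rw [hp]
      fin_cases i <;> fin_cases j <;> simp [h]
  rw [ho]
  exact Odd.of_dvd_nat (Nat.odd_iff.2 (by omega)) (orderOf_dvd_of_pow_eq_one hD)

theorem odd_of_two [Fintype F] (hF : ringChar F = 2) {A : SL(2, F)} (h : (A : M2 F).trace ≠ 0) :
    Odd (orderOf (A : PSL(2, F))) := by
  haveI : CharP F 2 := hF ▸ ringChar.charP F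
  have h1 := FiniteField.even_card_iff_char_two.1 hF
  have h2 : 0 < Fintype.card F := Fintype.card_pos
  rw [← Nat.card_eq_fintype_card] at h1 h2
  rcases orderOf_cases 2 (A : PSL(2, F)) with h3 | h3 | h3
  · rcases (Nat.dvd_prime Nat.prime_two).1 h3 with h4 | h4
    · rw [h4]; exact odd_one
    · exact (h (trace_eq_zero_of_orderOf h4)).elim
  · exact Odd.of_dvd_nat (Nat.odd_iff.2 (by omega)) ((dvd_mul_right _ _).trans h3)
  · exact Odd.of_dvd_nat (Nat.odd_iff.2 (by omega)) ((dvd_mul_right _ _).trans h3)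

theorem sq_eq_one {Z : SL(2, F)} (h : (Z : M2 F).trace = 0) :
    (Z : PSL(2, F)) * Z = 1 := by
  rw [← QuotientGroup.mk_mul, sl_mul_self_eq_neg_one h, mk_eq_one_iff]
  exact Or.inr rfl

theorem order_two {Z : SL(2, F)} (h : (Z : M2 F).trace = 0) (h1 : (2 : F) ≠ 0 ∨ Z 0 1 ≠ 0) :
    orderOf (Z : PSL(2, F)) = 2 := by
  refine orderOf_eq_prime (by rw [sq, sq_eq_one h]) fun h2 => ?_
  rcases mk_eq_one_iff.1 h2 with rfl | rfl
  · rcases h1 with h1 | h1
    · exact h1 (by simpa using h)
    · exact h1 (by simp)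
  · rcases h1 with h1 | h1
    · exact h1 (by simpa using h)
    · exact h1 (by simp)

end

/-- Let F be a finite field with at least 4 elements and let X be a conjugacy class of involutions of PSL(2, F). The graph on X joining two distinct involutions whose product has odd order is connected and has diameter exactly 2. -/
theorem result {F : Type*} [Field F] [Fintype F] (hF : 4 ≤ Fintype.card F)
    (t : Matrix.ProjectiveSpecialLinearGroup (Fin 2) F) (ht : orderOf t = 2) :
    (SimpleGraph.fromRel fun x y : {x : Matrix.ProjectiveSpecialLinearGroup (Fin 2) F // IsConj t x} =>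
        Odd (orderOf (x.1 * y.1))).Connected ∧
      (SimpleGraph.fromRel fun x y : {x : Matrix.ProjectiveSpecialLinearGroup (Fin 2) F // IsConj t x} =>
        Odd (orderOf (x.1 * y.1))).diam = 2 := by
  have hord : ∀ x, IsConj t x → orderOf x = 2 := fun x hx => by
    obtain ⟨c, rfl⟩ := isConj_iff.1 hx
    exact ((MulAut.conj c).orderOf_eq _).trans ht
  refine Inv.oddGraph_diam_two ht (fun x y hx hy ho => ?_) ?_
  · obtain ⟨X, rfl⟩ := QuotientGroup.mk_surjective x
    obtain ⟨Y, rfl⟩ := QuotientGroup.mk_surjective y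
    have hX := trace_eq_zero_of_orderOf (hord _ hx)
    have hY := trace_eq_zero_of_orderOf (hord _ hy)
    suffices ∃ Z : SL(2, F), (Z : M2 F).trace = 0 ∧ Odd (orderOf ((X * Z : SL(2, F)) : PSL(2, F))) ∧
        Odd (orderOf ((Z * Y : SL(2, F)) : PSL(2, F))) by
      obtain ⟨Z, h1, h2, h3⟩ := this
      exact ⟨Z, sq_eq_one h1, h2, h3⟩
    by_cases h2 : ringChar F = 2
    · haveI : CharP F 2 := h2 ▸ ringChar.charP F
      have h20 : (2 : F) = 0 := by exact_mod_cast CharP.cast_eq_zero F 2
      have hne : ∀ A : SL(2, F), orderOf (A : PSL(2, F)) = 2 → ¬ (A 0 1 = 0 ∧ A 1 0 = 0) := by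
        rintro A hA ⟨h1, h3⟩
        have h4 := trace_eq_zero_of_orderOf hA
        have h5 := A.det_coe
        rw [trace_fin_two] at h4
        rw [det_fin_two, h1] at h5
        have h6 : A 1 1 = A 0 0 := by linear_combination h4 - A 0 0 * h20
        have h7 : A 0 0 = 1 := by
          have : (A 0 0 - 1) ^ 2 = 0 := by
            rw [h6] at h5
            linear_combination h5 + (1 - A 0 0) * h20
          exact sub_eq_zero.1 (pow_eq_zero_iff two_ne_zero |>.1 this)
        have : A = 1 := by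
          ext i j
          fin_cases i <;> fin_cases j <;> simp [h1, h3, h6, h7]
        simp [this] at hA
      have key : ∀ l m : F, X 0 1 * l ^ 2 + X 1 0 * m ^ 2 ≠ 0 → Y 0 1 * l ^ 2 + Y 1 0 * m ^ 2 ≠ 0 →
          ∃ Z : SL(2, F), (Z : M2 F).trace = 0 ∧ Odd (orderOf ((X * Z : SL(2, F)) : PSL(2, F))) ∧
            Odd (orderOf ((Z * Y : SL(2, F)) : PSL(2, F))) := by
        intro l m h3 h4
        rw [trace_fin_two] at hX hY
        refine ⟨⟨!![1 + l * m, m ^ 2; l ^ 2, 1 + l * m], ?_⟩, ?_, odd_of_two h2 fun h => h3 ?_,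
          odd_of_two h2 fun h => h4 ?_⟩
        · rw [det_fin_two_of]
          linear_combination l * m * h20
        · simp only [trace_fin_two_of]
          linear_combination (1 + l * m) * h20
        · change ((X : M2 F) * !![1 + l * m, m ^ 2; l ^ 2, 1 + l * m]).trace = 0 at h
          simp [trace_fin_two, mul_apply, Fin.sum_univ_two] at h
          linear_combination h - (1 + l * m) * hX
        · change (!![1 + l * m, m ^ 2; l ^ 2, 1 + l * m] * (Y : M2 F)).trace = 0 at h
          rw [trace_mul_comm] at h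
          simp [trace_fin_two, mul_apply, Fin.sum_univ_two] at h
          linear_combination h - (1 + l * m) * hY
      have hX' := hne X (hord _ hx)
      have hY' := hne Y (hord _ hy)
      by_cases a1 : X 0 1 ≠ 0 ∧ Y 0 1 ≠ 0
      · exact key 1 0 (by simpa using a1.1) (by simpa using a1.2)
      by_cases a2 : X 1 0 ≠ 0 ∧ Y 1 0 ≠ 0
      · exact key 0 1 (by simpa using a2.1) (by simpa using a2.2)
      refine key 1 1 ?_ ?_ <;> simp only [one_pow, mul_one] <;> grind
    have h20 : (2 : F) ≠ 0 := Ring.two_ne_zero h2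
    have ht4 : ((X : M2 F) * Y).trace ^ 2 ≠ 4 := fun h => ho (odd_of_four h20 (A := X * Y) h)
    by_cases hq : Fintype.card F % 4 = 3
    · obtain ⟨a, b, r, ha, hb, hr⟩ := exists_ab hq hF ht4
      obtain ⟨Z, h1, h3, h4⟩ := exists_Z hX hY rfl ht4 hr
      exact ⟨Z, h1, odd_of_split hq ha h3, odd_of_split hq hb h4⟩
    · obtain ⟨i, hi⟩ := FiniteField.isSquare_neg_one_iff.2 hq
      obtain ⟨Z, h1, h3, h4⟩ := exists_Z hX hY rfl ht4 (s₁ := 2) (s₂ := 2)
        (r := i * (((X : M2 F) * Y).trace + 2)) (by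
          linear_combination (-(((X : M2 F) * Y).trace + 2) ^ 2) * hi)
      exact ⟨Z, h1, odd_of_four h20 (A := X * Z) (by
        rw [Matrix.SpecialLinearGroup.coe_mul, h3]; norm_num), odd_of_four h20 (A := Z * Y) (by
        rw [Matrix.SpecialLinearGroup.coe_mul, h4]; norm_num)⟩
  · suffices ∃ X Y : SL(2, F), orderOf (X : PSL(2, F)) = 2 ∧ orderOf (Y : PSL(2, F)) = 2 ∧
        orderOf ((X * Y : SL(2, F)) : PSL(2, F)) = 2 by
      obtain ⟨X, Y, h1, h2, h3⟩ := this
      refine ⟨X, Y, isConjS_of_orderOf_two ht h1, isConjS_of_orderOf_two ht h2, ?_⟩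
      rw [← QuotientGroup.mk_mul, h3]
      decide
    by_cases h20 : (2 : F) = 0
    · classical
      obtain ⟨s, hs⟩ : ∃ s : F, s ∉ ({0, -1} : Finset F) := by
        by_contra h
        push Not at h
        have := Finset.card_le_card (fun s _ => h s : (Finset.univ : Finset F) ⊆ {0, -1})
        have := Finset.card_le_two (a := (0 : F)) (b := -1)
        rw [Finset.card_univ] at *
        omega
      simp only [Finset.mem_insert, Finset.mem_singleton, not_or] at hs
      refine ⟨⟨!![1, 1; 0, 1], by simp⟩, ⟨!![1, s; 0, 1], by simp⟩, order_two ?_ (Or.inr ?_),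
        order_two ?_ (Or.inr ?_), order_two ?_ (Or.inr ?_)⟩
      · simp [one_add_one_eq_two, h20]
      · simp
      · simp [one_add_one_eq_two, h20]
      · simp [hs.1]
      · change (!![1, 1; 0, 1] * !![1, s; 0, 1] : M2 F).trace = 0
        simp [one_add_one_eq_two, h20]
      · change (!![1, 1; 0, 1] * !![1, s; 0, 1] : M2 F) 0 1 ≠ 0
        simpa [add_eq_zero_iff_eq_neg] using hs.2
    · obtain ⟨a, b, hab⟩ := Aut.exists_sq_add_sq (-1 : F)
      refine ⟨⟨!![0, 1; -1, 0], by simp⟩, ⟨!![a, b; b, -a], by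
        rw [det_fin_two_of]; linear_combination hab⟩, order_two ?_ (Or.inl h20),
        order_two ?_ (Or.inl h20), order_two ?_ (Or.inl h20)⟩
      · simp
      · simp
      · change (!![0, 1; -1, 0] * !![a, b; b, -a] : M2 F).trace = 0
        simp

end Cfsg.Agent.S3266
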