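import Mathlib
import Cfsg.Statements.S3269
import Cfsg.Agent.Inv.ZStarSimple
import Cfsg.Agent.Inv.RankOneP

set_option autoImplicit false
open Cfsg

namespace Cfsg.Agent.S3269

private theorem quat_data {G : Type*} [Group G] (Q : Subgroup G) (n : ℕ) (hn : 1 ≤ n)
    (eQ : ↥Q ≃* QuaternionGroup (2 ^ n)) :
    ∃ z ∈ Q, orderOf z = 2 ∧ (∀ t ∈ Q, orderOf t = 2 → t = z) ∧
      ∃ u ∈ Q, ∃ v ∈ Q, z = u * v * u⁻¹ * v⁻¹ := by
  obtain ⟨m, rfl⟩ : ∃ m, n = m + 1 := ⟨n - 1, by omega⟩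
  have hz : orderOf (QuaternionGroup.xa (0 : ZMod (2 * 2 ^ (m + 1))) ^ 2) = 2 := by
    rw [orderOf_pow' _ (by norm_num), QuaternionGroup.orderOf_xa]; norm_num
  rw [QuaternionGroup.xa_sq] at hz
  refine ⟨eQ.symm (QuaternionGroup.a ((2 ^ (m + 1) : ℕ) : ZMod (2 * 2 ^ (m + 1)))), Subtype.prop _,
    ?_, ?_, eQ.symm (QuaternionGroup.a ((2 ^ m : ℕ) : ZMod (2 * 2 ^ (m + 1)))), Subtype.prop _,
    eQ.symm (QuaternionGroup.xa 0), Subtype.prop _, ?_⟩
  · rw [Subgroup.orderOf_coe, MulEquiv.orderOf_eq, hz]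
  · intro t ht h2
    have h3 : orderOf (eQ ⟨t, ht⟩) = 2 := by
      rw [MulEquiv.orderOf_eq, ← Subgroup.orderOf_coe]; exact h2
    rw [← Inv.SE.quaternion_eq_of_orderOf_two h3]; simp
  · rw [← Subgroup.coe_inv, ← Subgroup.coe_inv, ← Subgroup.coe_mul, ← Subgroup.coe_mul,
      ← Subgroup.coe_mul, ← map_inv, ← map_inv, ← map_mul, ← map_mul, ← map_mul]
    congr 2
    rw [eq_mul_inv_iff_mul_eq, eq_mul_inv_iff_mul_eq]
    simp only [QuaternionGroup.a_mul_xa, QuaternionGroup.xa_mul_a]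
    congr 1
    push_cast
    ring

/-- Let G be a finite group whose Sylow 2-subgroup S is an internal direct product Q × R with Q generalized quaternion (of order at least 8) and R a subgroup all of whose involutions are central in R. Then G is not simple. In particular no finite simple group has a Sylow 2-subgroup that is a direct product of one or more generalized quaternion groups. -/
theorem result {G : Type*} [Group G] [Finite G]
    (S : Sylow 2 G) (Q R : Subgroup G) (hQR : Cfsg.IsInternalDirectProduct Q R (S : Subgroup G))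
    (n : ℕ) (hn : 1 ≤ n) (eQ : ↥Q ≃* QuaternionGroup (2 ^ n))
    (hR : ∀ r ∈ R, orderOf r = 2 → ∀ s ∈ R, r * s = s * r) :
    ¬ IsSimpleGroup G := by
  classical
  intro hsimple
  have : Fact (Nat.Prime 2) := ⟨Nat.prime_two⟩
  obtain ⟨hQS, hRS, hcomm, hinf, hsup⟩ := hQR
  obtain ⟨z, hzQ, hz, huniq, u, huQ, v, hvQ, hzuv⟩ := quat_data Q n hn eQ
  have hdec : ∀ s ∈ (S : Subgroup G), ∃ q ∈ Q, ∃ r ∈ R, s = q * r := by
    intro s hs
    rw [← hsup, Subgroup.sup_eq_closure] at hs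
    induction hs using Subgroup.closure_induction with
    | mem x hx =>
      rcases hx with hx | hx
      · exact ⟨x, hx, 1, one_mem _, by simp⟩
      · exact ⟨1, one_mem _, x, hx, by simp⟩
    | one => exact ⟨1, one_mem _, 1, one_mem _, by simp⟩
    | mul x y _ _ ihx ihy =>
      obtain ⟨q, hq, r, hr, rfl⟩ := ihx
      obtain ⟨q', hq', r', hr', rfl⟩ := ihy
      refine ⟨q * q', mul_mem hq hq', r * r', mul_mem hr hr', ?_⟩
      calc q * r * (q' * r') = q * (r * q') * r' := by group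
        _ = q * (q' * r) * r' := by rw [hcomm q' hq' r hr]
        _ = _ := by group
    | inv x _ ihx =>
      obtain ⟨q, hq, r, hr, rfl⟩ := ihx
      refine ⟨q⁻¹, inv_mem hq, r⁻¹, inv_mem hr, ?_⟩
      rw [hcomm q hq r hr, mul_inv_rev]
  have hbot : ∀ x ∈ Q, x ∈ R → x = 1 := fun x h1 h2 => by
    rw [← Subgroup.mem_bot, ← hinf]; exact ⟨h1, h2⟩
  have hQn : ∀ s ∈ (S : Subgroup G), ∀ q ∈ Q, s * q * s⁻¹ ∈ Q := by
    intro s hs q hq
    obtain ⟨q', hq', r, hr, rfl⟩ := hdec s hs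
    have : q' * r * q * (q' * r)⁻¹ = q' * q * q'⁻¹ := by
      calc q' * r * q * (q' * r)⁻¹ = q' * (r * q) * r⁻¹ * q'⁻¹ := by group
        _ = q' * (q * r) * r⁻¹ * q'⁻¹ := by rw [hcomm q hq r hr]
        _ = _ := by group
    rw [this]
    exact mul_mem (mul_mem hq' hq) (inv_mem hq')
  have hRn : ∀ s ∈ (S : Subgroup G), ∀ r ∈ R, s * r * s⁻¹ ∈ R := by
    intro s hs r hr
    obtain ⟨q', hq', r', hr', rfl⟩ := hdec s hs
    have h1 : r' * r * r'⁻¹ ∈ R := mul_mem (mul_mem hr' hr) (inv_mem hr')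
    have : q' * r' * r * (q' * r')⁻¹ = r' * r * r'⁻¹ := by
      calc q' * r' * r * (q' * r')⁻¹ = q' * (r' * r * r'⁻¹) * q'⁻¹ := by group
        _ = (r' * r * r'⁻¹) * q' * q'⁻¹ := by rw [hcomm q' hq' _ h1]
        _ = _ := by group
    rw [this]
    exact h1
  -- all involutions of `S` are central in `S`
  have hcent : ∀ t ∈ (S : Subgroup G), t * t = 1 → ∀ s ∈ (S : Subgroup G), s * t = t * s := by
    intro t ht ht2 s hs
    obtain ⟨q, hq, r, hr, rfl⟩ := hdec t ht
    have h1 : q * q * (r * r) = 1 := by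
      rw [← ht2]
      calc q * q * (r * r) = q * (q * r) * r := by group
        _ = q * (r * q) * r := by rw [hcomm q hq r hr]
        _ = _ := by group
    have h2 : q * q = 1 := hbot _ (mul_mem hq hq) (by
      rw [eq_inv_of_mul_eq_one_left h1]; exact inv_mem (mul_mem hr hr))
    rw [h2, one_mul] at h1
    have h3 : s * q = q * s := by
      by_cases hq1 : q = 1
      · simp [hq1]
      · have h4 := Inv.orderOf_two_of h2 hq1
        have h5 := huniq _ (hQn s hs q hq) (by rw [Inv.orderOf_conj', h4])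
        rw [← huniq q hq h4] at h5
        rw [← mul_inv_eq_iff_eq_mul, h5]
    have h4 : s * r = r * s := by
      by_cases hr1 : r = 1
      · simp [hr1]
      · obtain ⟨q', hq', r', hr', rfl⟩ := hdec s hs
        rw [mul_assoc, ← hR r hr (Inv.orderOf_two_of h1 hr1) r' hr', ← mul_assoc,
          hcomm q' hq' r hr, mul_assoc]
    rw [← mul_assoc, h3, mul_assoc, h4, mul_assoc]
  set N := Subgroup.normalizer ((S : Subgroup G) : Set G) with hN
  have hNS : ∀ g ∈ N, ∀ s ∈ (S : Subgroup G), g * s * g⁻¹ ∈ (S : Subgroup G) := fun g hg s hs =>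
    (Subgroup.mem_normalizer_iff.1 hg s).1 hs
  -- conjugates of `z` under `N`
  have hclaim : ∀ g ∈ N, g * z * g⁻¹ = z ∨ g * z * g⁻¹ ∈ R := by
    intro g hg
    by_cases hzR : g * z * g⁻¹ ∈ R
    · exact Or.inr hzR
    left
    have h1 : ∀ q ∈ Q, g * q * g⁻¹ ∈ R → q = 1 := by
      intro q hq hqR
      by_contra hq1
      obtain ⟨k, hk⟩ := Inv.exists_orderOf_eq_pow_of_mem S.isPGroup' (hQS hq)
      have hk0 : k ≠ 0 := by
        rintro rfl
        exact hq1 (orderOf_eq_one_iff.1 hk)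
      have h2 := Inv.orderOf_pow_half (c := q) (by rw [hk]; positivity)
        (by rw [hk]; exact (Nat.even_pow' hk0).2 even_two)
      apply hzR
      rw [← huniq _ (pow_mem hq _) h2, ← conj_pow]
      exact pow_mem hqR _
    have h2 : ∀ q ∈ Q, ∀ r ∈ R, g * q * g⁻¹ * r = r * (g * q * g⁻¹) := by
      intro q hq r hr
      have h3 : g⁻¹ * r * g ∈ (S : Subgroup G) := by
        simpa using hNS g⁻¹ (inv_mem hg) r (hRS hr)
      have h4 := h1 (q * ((g⁻¹ * r * g) * q⁻¹ * (g⁻¹ * r * g)⁻¹))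
        (mul_mem hq (hQn _ h3 _ (inv_mem hq))) (by
          have h5 : g * (q * ((g⁻¹ * r * g) * q⁻¹ * (g⁻¹ * r * g)⁻¹)) * g⁻¹ =
            (g * q * g⁻¹) * r * (g * q * g⁻¹)⁻¹ * r⁻¹ := by group
          rw [h5]
          exact mul_mem (hRn _ (hNS g hg q (hQS hq)) r hr) (inv_mem hr))
      calc g * q * g⁻¹ * r = g * (q * ((g⁻¹ * r * g) * q⁻¹ * (g⁻¹ * r * g)⁻¹)) * g⁻¹ *
            (r * (g * q * g⁻¹)) := by group
        _ = _ := by rw [h4]; group
    apply huniq _ _ (by rw [Inv.orderOf_conj', hz])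
    obtain ⟨q, hq, r, hr, hv⟩ := hdec _ (hNS g hg v (hQS hvQ))
    have h3 : g * z * g⁻¹ = (g * u * g⁻¹) * q * (g * u * g⁻¹)⁻¹ * q⁻¹ := by
      have h4 := h2 u⁻¹ (inv_mem huQ) r hr
      calc g * z * g⁻¹ = (g * u * g⁻¹) * (g * v * g⁻¹) * (g * u⁻¹ * g⁻¹) * (g * v * g⁻¹)⁻¹ := by
            rw [hzuv]; group
        _ = (g * u * g⁻¹) * q * (r * (g * u⁻¹ * g⁻¹)) * r⁻¹ * q⁻¹ := by rw [hv]; group
        _ = _ := by rw [← h4]; group
    rw [h3]
    exact mul_mem (hQn _ (hNS g hg u (hQS huQ)) q hq) (inv_mem hq)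
  -- the product of the `N`-conjugates of `z`
  have := Fintype.ofFinite G
  let O : Finset G := Finset.univ.filter fun t => ∃ g ∈ N, t = g * z * g⁻¹
  have hO : ∀ t, t ∈ O ↔ ∃ g ∈ N, t = g * z * g⁻¹ := fun t => by simp [O]
  have hOS : ∀ t ∈ O, t ∈ (S : Subgroup G) ∧ t * t = 1 := by
    intro t ht
    obtain ⟨g, hg, rfl⟩ := (hO t).1 ht
    exact ⟨hNS g hg z (hQS hzQ), Inv.mul_self_of_two (by rw [Inv.orderOf_conj', hz])⟩
  have hOc : (O : Set G).Pairwise (Function.onFun Commute id) := fun a ha b hb _ =>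
    hcent b (hOS b hb).1 (hOS b hb).2 a (hOS a ha).1
  have hzO : z ∈ O := (hO z).2 ⟨1, one_mem _, by simp⟩
  set w := O.noncommProd id hOc with hw
  have hwS : w ∈ (S : Subgroup G) ∧ w * w = 1 := by
    refine Finset.noncommProd_induction O id hOc (fun t => t ∈ (S : Subgroup G) ∧ t * t = 1) ?_
      ⟨one_mem _, one_mul _⟩ hOS
    rintro a b ⟨ha, ha2⟩ ⟨hb, hb2⟩
    refine ⟨mul_mem ha hb, ?_⟩
    calc a * b * (a * b) = a * (b * a) * b := by group
      _ = a * (a * b) * b := by rw [hcent a ha ha2 b hb]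
      _ = (a * a) * (b * b) := by group
      _ = 1 := by rw [ha2, hb2, one_mul]
  have hw1 : w ≠ 1 := by
    intro h1
    rw [hw, ← Finset.mul_noncommProd_erase O hzO] at h1
    apply Inv.ne_one_of_two hz
    refine hbot z hzQ ?_
    rw [show z = _ from eq_inv_of_mul_eq_one_left h1]
    refine inv_mem (Subgroup.noncommProd_mem _ _ fun t ht => ?_)
    obtain ⟨ht1, ht2⟩ := Finset.mem_erase.1 ht
    obtain ⟨g, hg, rfl⟩ := (hO t).1 ht2
    exact (hclaim g hg).resolve_left ht1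
  have hwN : ∀ g ∈ N, g * w * g⁻¹ = w := by
    intro g hg
    have h1 : O.map (MulAut.conj g).toEquiv.toEmbedding = O := by
      apply Finset.eq_of_subset_of_card_le _ (by rw [Finset.card_map])
      intro t ht
      obtain ⟨t', ht', rfl⟩ := Finset.mem_map.1 ht
      obtain ⟨g', hg', rfl⟩ := (hO t').1 ht'
      exact (hO _).2 ⟨g * g', mul_mem hg hg', by simp [mul_assoc]⟩
    have h2 := Finset.map_noncommProd O id hOc (MulAut.conj g)
    rw [MulAut.conj_apply] at h2
    rw [hw, h2]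
    unfold Finset.noncommProd
    congr 1
    have h3 := congrArg Finset.val h1
    rw [Finset.map_val] at h3
    rw [Multiset.map_id]
    exact h3
  have hG := Inv.ZS.card_eq_two_of_weaklyClosed S (Inv.orderOf_two_of hwS.2 hw1) hwS.1 (by
    intro g hg
    obtain ⟨m, hm, e⟩ := Inv.ZS.exists_mem_normalizer_conj_eq S (g := g) (hcent w hwS.1 hwS.2)
      (hcent _ hg (by
        calc g * w * g⁻¹ * (g * w * g⁻¹) = g * (w * w) * g⁻¹ := by group
          _ = 1 := by rw [hwS.2]; group))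
    rw [← e, hwN m hm])
  have h1 := Subgroup.card_le_card_group Q
  rw [hG, Nat.card_congr eQ.toEquiv, Nat.card_eq_fintype_card, QuaternionGroup.card] at h1
  have : 0 < 2 ^ n := by positivity
  omega

end Cfsg.Agent.S3269
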