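import Mathlib
import Cfsg.Statements.S3276
import Cfsg.Agent.Inv.Basic

set_option autoImplicit false
open Cfsg

namespace Cfsg.Agent.S3276

/-- Let x and y be commuting, non-conjugate involutions of a finite group G, and suppose that for every involution u commuting with x, each conjugate of y that commutes with u also commutes with y. Then the normal closure of y is a proper, normal, elementary abelian 2-subgroup of G; and if y is the only involution of that normal closure commuting with x, it has order at most 4. -/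
theorem result {G : Type*} [Group G] [Finite G] (x y : G) (hx : orderOf x = 2) (hy : orderOf y = 2)
    (hxy : Commute x y) (hnc : ¬ IsConj x y)
    (hstar : ∀ u : G, orderOf u = 2 → Commute u x → ∀ g : G, Commute (g * y * g⁻¹) u → Commute (g * y * g⁻¹) y) :
    Subgroup.normalClosure ({y} : Set G) ≠ ⊤ ∧ Cfsg.IsElementaryAbelian 2 (Subgroup.normalClosure ({y} : Set G)) ∧
      ((∀ u ∈ Subgroup.normalClosure ({y} : Set G), orderOf u = 2 → Commute u x → u = y) →
        Nat.card ↥(Subgroup.normalClosure ({y} : Set G)) ≤ 4) := by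
  have hx2 := Inv.mul_self_of_two hx
  have hy2 := Inv.mul_self_of_two hy
  have h1 : ∀ g : G, Commute (g * y * g⁻¹) y := by
    intro g
    have hy' : orderOf (g * y * g⁻¹) = 2 := by rw [Inv.orderOf_conj', hy]
    have hnc' : ¬ IsConj x (g * y * g⁻¹) := fun h => hnc (h.trans (Inv.isConj_conj g y).symm)
    obtain ⟨u, -, hu, hux, huy⟩ :=
      Inv.exists_central_involution_of_not_isConj hx2 (Inv.mul_self_of_two hy') hnc'
    exact hstar u hu hux g huy.symm
  have h2 : ∀ a ∈ Group.conjugatesOfSet ({y} : Set G), ∀ b ∈ Group.conjugatesOfSet ({y} : Set G),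
      a * b = b * a := by
    intro a ha b hb
    rw [Group.mem_conjugatesOfSet_iff] at ha hb
    obtain ⟨a', ha', ha⟩ := ha
    obtain ⟨b', hb', hb⟩ := hb
    rw [Set.mem_singleton_iff] at ha' hb'
    subst ha' hb'
    obtain ⟨g, rfl⟩ := isConj_iff.1 ha
    obtain ⟨h, rfl⟩ := isConj_iff.1 hb
    have h3 := (h1 (h⁻¹ * g)).eq
    calc g * b' * g⁻¹ * (h * b' * h⁻¹) = h * (h⁻¹ * g * b' * (h⁻¹ * g)⁻¹ * b') * h⁻¹ := by group
      _ = h * (b' * (h⁻¹ * g * b' * (h⁻¹ * g)⁻¹)) * h⁻¹ := by rw [h3]
      _ = _ := by group
  have hcomm : IsMulCommutative (Subgroup.normalClosure ({y} : Set G)) :=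
    Subgroup.isMulCommutative_closure h2
  have hcomm' : ∀ a ∈ Subgroup.normalClosure ({y} : Set G),
      ∀ b ∈ Subgroup.normalClosure ({y} : Set G), a * b = b * a := fun a ha b hb =>
    congrArg Subtype.val (hcomm.is_comm.comm (⟨a, ha⟩ : Subgroup.normalClosure ({y} : Set G)) ⟨b, hb⟩)
  have hsq : ∀ a ∈ Subgroup.normalClosure ({y} : Set G), a * a = 1 := by
    intro a ha
    unfold Subgroup.normalClosure at ha hcomm'
    induction ha using Subgroup.closure_induction with
    | mem a ha =>
      rw [Group.mem_conjugatesOfSet_iff] at ha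
      obtain ⟨a', ha', ha⟩ := ha
      rw [Set.mem_singleton_iff] at ha'
      subst ha'
      exact Inv.mul_self_of_two ((Inv.orderOf_eq_of_isConj ha).symm.trans hy)
    | one => simp
    | mul a b ha hb iha ihb =>
      calc a * b * (a * b) = a * (b * a) * b := by group
        _ = a * (a * b) * b := by rw [hcomm' a ha b hb]
        _ = (a * a) * (b * b) := by group
        _ = 1 := by rw [iha, ihb, one_mul]
    | inv a ha iha => rw [← mul_inv_rev, iha, inv_one]
  refine ⟨?_, ⟨hcomm, fun a ha => by rw [pow_two, hsq a ha]⟩, ?_⟩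
  · intro htop
    have hall : ∀ a b : G, a * b = b * a := fun a b =>
      hcomm' a (htop ▸ Subgroup.mem_top a) b (htop ▸ Subgroup.mem_top b)
    have hN : (Subgroup.zpowers y).Normal := ⟨fun n hn g => by
      rw [hall g n, mul_assoc, mul_inv_cancel, mul_one]; exact hn⟩
    have hle : Subgroup.normalClosure ({y} : Set G) ≤ Subgroup.zpowers y :=
      Subgroup.normalClosure_le_normal (by simp)
    have hxm : x ∈ Subgroup.zpowers y := hle (htop ▸ Subgroup.mem_top x)
    have := Inv.involution_unique_of_mem_zpowers hx hy hxm (Subgroup.mem_zpowers y)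
    exact hnc (this ▸ IsConj.refl x)
  · intro huniq
    set V := Subgroup.normalClosure ({y} : Set G) with hV
    have hVn : V.Normal := Subgroup.normalClosure_normal
    -- the map `v ↦ v * v ^ x`
    let f : V →* V := MonoidHom.mk' (fun v => ⟨v * (x * v * x⁻¹), V.mul_mem v.2 (hVn.conj_mem _ v.2 x)⟩)
      (by
        intro a b
        apply Subtype.ext
        have h3 := hcomm' b b.2 (x * a * x⁻¹) (hVn.conj_mem _ a.2 x)
        simp only [Subgroup.coe_mul]
        calc (a : G) * b * (x * (a * b) * x⁻¹) = a * (b * (x * a * x⁻¹)) * (x * b * x⁻¹) := by group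
          _ = a * ((x * a * x⁻¹) * b) * (x * b * x⁻¹) := by rw [h3]
          _ = _ := by group)
    have hC : ∀ K : Subgroup V, (∀ v ∈ K, Commute (v : G) x) → Nat.card K ≤ 2 := by
      intro K hK
      have hsub : ∀ v : K, ((v : V) : G) ∈ Subgroup.zpowers y := by
        intro v
        by_cases hv : ((v : V) : G) = 1
        · rw [hv]; exact one_mem _
        · rw [huniq _ v.1.2 (Inv.orderOf_two_of (hsq _ v.1.2) hv) (hK _ v.2)]
          exact Subgroup.mem_zpowers y
      have := Nat.card_le_card_of_injective (fun v : K => (⟨_, hsub v⟩ : Subgroup.zpowers y))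
        (fun a b hab => by
          have h3 := congrArg Subtype.val hab
          exact Subtype.ext (Subtype.ext h3))
      rwa [Nat.card_zpowers, hy] at this
    have hker : Nat.card f.ker ≤ 2 := by
      refine hC _ fun v hv => ?_
      have h3 : (v : G) * (x * v * x⁻¹) = 1 := congrArg Subtype.val (MonoidHom.mem_ker.1 hv)
      have h4 : x * v * x⁻¹ = v := by
        rw [← eq_inv_iff_mul_eq_one.1 (Inv.inv_of_mul_self (hsq v v.2)).symm] at h3
        exact mul_left_cancel h3
      have : x * v = v * x := by rw [← mul_inv_eq_iff_eq_mul]; exact h4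
      exact this.symm
    have hran : Nat.card f.range ≤ 2 := by
      refine hC _ ?_
      rintro _ ⟨v, rfl⟩
      have h3 := hcomm' v v.2 (x * v * x⁻¹) (hVn.conj_mem _ v.2 x)
      change (v : G) * (x * v * x⁻¹) * x = x * (v * (x * v * x⁻¹))
      rw [Inv.inv_of_mul_self hx2] at h3 ⊢
      calc (v : G) * (x * v * x) * x = v * x * v * (x * x) := by group
        _ = (x * x) * v * x * v := by rw [hx2]; group
        _ = x * ((x * v * x) * v) := by group
        _ = _ := by rw [← h3]
    have h5 := Subgroup.card_eq_card_quotient_mul_card_subgroup f.ker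
    rw [Nat.card_congr (QuotientGroup.quotientKerEquivRange f).toEquiv] at h5
    rw [h5]
    exact Nat.mul_le_mul hran hker

end Cfsg.Agent.S3276
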