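import Mathlib
-- Template for statement S3277 (row 3277; see /opt/grader/pristine/manifest.json for weights).
-- Copy to Cfsg/Agent/S3277.lean and replace the sorry. The statement below is byte-identical to the frozen
-- statement Cfsg.CfsgFrozen.S3277 (Cfsg/Statements/S3277.lean; the theorem Cfsg.chz2_elementary_four_involution_centralizer_no_small_normal);
-- the grader kernel-checks Cfsg.Agent.S3277.result against that frozen type. Keep the theorem IN THIS FILE
-- (a `result` declared elsewhere and merely imported here is not credited); helpers may live anywhere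
-- under Cfsg/Agent/.
import Cfsg.Statements.S3277
import Cfsg.Agent.Inv.Dih
import Cfsg.Agent.Inv.Basic
import Cfsg.Agent.Inv.SylowElt
import Cfsg.Agent.GT.PGroupMaxClass
import Cfsg.Agent.GT.PGroupElemAb
import Cfsg.Agent.GT.TransferAbelian
import Cfsg.Agent.GT.Cores
import Cfsg.Agent.S1230
import Cfsg.Agent.Cl.LinearIso
-- import your own Cfsg.Agent.* helpers here

set_option autoImplicit false
open Cfsg

namespace Cfsg.Agent.S3277

open Cfsg.Agent.Inv Cfsg.Agent.Inv.Fz Subgroup

theorem card_le_four {X : Type*} [Group X] [Finite X] {m : ℕ} {a b : X} (hM : GT.PG.MaxTwo m a b)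
    {K : Subgroup X} (hK : Cfsg.IsElementaryAbelian 2 K) : Nat.card K ≤ 4 := by
  have : Fact (Nat.Prime 2) := ⟨Nat.prime_two⟩
  by_cases h : K ≤ zpowers a
  · have := hK.isCyclic_iff.1 (isCyclic_of_le h)
    omega
  obtain ⟨g, hgK, hga⟩ := SetLike.not_le_iff_exists.1 h
  rw [← hM.card_centralizer_of_notMem hga]
  exact card_le_of_le fun x hx => mem_centralizer_singleton_iff.2 (hK.comm hx hgK)

theorem elem_normalClosure {G : Type*} [Group G] {z : G} (hz : z * z = 1)
    (h : ∀ g : G, Commute z (g * z * g⁻¹)) :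
    Cfsg.IsElementaryAbelian 2 (normalClosure ({z} : Set G)) := by
  have hm : ∀ y ∈ Group.conjugatesOfSet ({z} : Set G), ∃ g : G, y = g * z * g⁻¹ := fun y hy => by
    obtain ⟨a, ha, hc⟩ := Group.mem_conjugatesOfSet_iff.1 hy
    obtain ⟨c, rfl⟩ := isConj_iff.1 hc
    exact ⟨c, by rw [Set.mem_singleton_iff.1 ha]⟩
  have hc : ∀ x ∈ Group.conjugatesOfSet ({z} : Set G), ∀ y ∈ Group.conjugatesOfSet ({z} : Set G),
      x * y = y * x := fun x hx y hy => by
    obtain ⟨g, rfl⟩ := hm x hx
    obtain ⟨k, rfl⟩ := hm y hy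
    have := (h (g⁻¹ * k)).eq
    calc _ = g * (z * (g⁻¹ * k * z * (g⁻¹ * k)⁻¹)) * g⁻¹ := by group
      _ = _ := by rw [this]; group
  have hcomm : IsMulCommutative (normalClosure ({z} : Set G)) := isMulCommutative_closure hc
  refine ⟨hcomm, fun a ha => ?_⟩
  induction ha using closure_induction with
  | mem y hy => obtain ⟨g, rfl⟩ := hm y hy; rw [pow_two, conj_mul_self_eq_one]; exact hz
  | one => simp
  | mul a b ha hb iha ihb =>
    have : Commute a b := congrArg Subtype.val (hcomm.is_comm.comm ⟨a, ha⟩ ⟨b, hb⟩)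
    rw [this.mul_pow, iha, ihb, one_mul]
  | inv a _ ih => rw [inv_pow, ih, inv_one]

/-- Let G be a finite group containing an involution whose centralizer is elementary abelian of order 4. If G has no normal 2-complement and no normal elementary abelian 2-subgroup of order 2 or 4, then G is isomorphic to the alternating group of degree 5 (that is, to PSL(2, 5)). -/
theorem result {G : Type*} [Group G] [Finite G] (x : G) (hx : orderOf x = 2)
    (hC4 : Nat.card ↥(Subgroup.centralizer ({x} : Set G)) = 4) (hCe : ∀ c ∈ Subgroup.centralizer ({x} : Set G), c ^ 2 = 1)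
    (hnc : ¬ Cfsg.HasNormalPComplement 2 G)
    (hne : ∀ E : Subgroup G, E.Normal → Cfsg.IsElementaryAbelian 2 E → Nat.card ↥E ≠ 2 ∧ Nat.card ↥E ≠ 4) :
    Nonempty (G ≃* ↥(alternatingGroup (Fin 5))) := by
  have : Fact (Nat.Prime 2) := ⟨Nat.prime_two⟩
  set V := centralizer ({x} : Set G) with hVdef
  have hxV : x ∈ V := mem_centralizer_singleton_iff.2 rfl
  have hx1 := ne_one_of_two hx
  have hV : IsKleinFour V := by
    refine ⟨hC4, ?_⟩
    have : Nontrivial V := ⟨⟨⟨x, hxV⟩, 1, fun h => hx1 (congrArg Subtype.val h)⟩⟩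
    exact (Monoid.exponent_eq_prime_iff Nat.prime_two).2 fun g hg =>
      orderOf_eq_prime (Subtype.ext (hCe g g.2)) hg
  have hVe : Cfsg.IsElementaryAbelian 2 V :=
    ⟨⟨⟨fun a b => Subtype.ext (klein_comm hV a.2 b.2)⟩⟩, hCe⟩
  obtain ⟨S, hVS⟩ := (klein_isPGroup hV).exists_le_sylow
  rcases hVS.eq_or_lt with hE | hlt
  · have hO : OddAut V := by
      by_contra hO
      refine hnc ((GT.Tr.hasNormalPComplement_iff_sylow S).2
        (GT.Tr.exists_normal_complement_of_normalizer_le_centralizer _ S.card_coprime_index ?_))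
      rw [← hE]
      intro g hg
      obtain ⟨a, ha, c, hc, rfl⟩ := exists_mul_of_not_oddAut (R := V)
        (by rw [hE]; exact isSylIn_sylow S le_normalizer) hO hg
      exact mul_mem (hVe.le_centralizer ha) hc
    obtain ⟨F, i1, i2, h1, ⟨e⟩⟩ := Cfsg.Agent.S1230.result S
      (by rw [← hE]; exact hVe.not_isCyclic (n := 2) hC4 le_rfl)
      (fun hn => (hne S hn (hE ▸ hVe)).2 (hE ▸ hC4)) (fun t ht => by
        obtain ⟨g, hg⟩ := exists_conj_mem_sylow_two ht S
        have hg' : g * t * g⁻¹ ∈ V := by rw [hE]; exact hg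
        obtain ⟨k, -, hk⟩ := klein_isConj hV hO hxV hg' hx1
          (ne_one_of_two ((orderOf_conj' g t).trans ht))
        have e : centralizer ({t} : Set G) = V.map (MulAut.conj (g⁻¹ * k)).toMonoidHom := by
          rw [cj_def, hVdef, cj_centralizer_singleton]
          congr 2
          calc t = g⁻¹ * (g * t * g⁻¹) * g := by group
            _ = _ := by rw [← hk]; group
        rw [e]
        exact hVe.map _)
    obtain ⟨e'⟩ := Cl.psl2_four_equiv_alt (F := F) (by rw [Nat.card_eq_fintype_card, h1, ← hE, hC4])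
    exact ⟨e.trans e'⟩
  exfalso
  obtain ⟨z, hzS, hz, hzc⟩ := exists_central_of_isPGroup S.isPGroup' (ne_bot_of_gt hlt)
  have hzV : z ∈ V := mem_centralizer_singleton_iff.2 (hzc x (hVS hxV)).symm.eq
  have hSz : (S : Subgroup G) ≤ centralizer {z} := fun y hy =>
    mem_centralizer_singleton_iff.2 (hzc y hy).eq
  have hcard : 4 < Nat.card S := hC4 ▸ card_lt_of_lt hlt
  have hnconj : ∀ g : G, ¬ IsConj x (g * z * g⁻¹) := fun g h => by
    obtain ⟨c, hc⟩ := isConj_iff.1 (h.trans (isConj_conj g z).symm)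
    have := card_le_of_le hSz
    rw [← hc, ← cj_centralizer_singleton, card_cj, ← hVdef] at this
    omega
  have hxz : x ≠ z := fun h => hnconj 1 (by rw [h]; exact isConj_conj 1 z)
  obtain ⟨n, hnS, hnV, hnN⟩ := exists_mem_normalizer_of_lt S.isPGroup' hVS hlt.not_ge
  have hn : n * x * n⁻¹ = x * z := by
    refine klein_eq_mul hV hxV hzV (conj_mem_of_normalizer hnN hxV) hx1 (ne_one_of_two hz) hxz
      (ne_one_of_two ((orderOf_conj' n x).trans hx)) (fun h => hnV ?_) (fun h => hnconj 1 ?_)
    · rw [hVdef, mem_centralizer_singleton_iff]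
      calc n * x = n * x * n⁻¹ * n := by group
        _ = _ := by rw [h]
    · rw [← h]; exact (isConj_conj n x).trans (isConj_conj 1 _)
  have hcz : centralizer ({x * z} : Set G) = V := by
    rw [← hn, ← cj_centralizer_singleton]
    exact cj_eq_iff.2 hnN
  have hall : ∀ g : G, Commute z (g * z * g⁻¹) := fun g => by
    have hy : orderOf (g * z * g⁻¹) = 2 := (orderOf_conj' g z).trans hz
    obtain ⟨w, hw, hw2, hwx, hwy⟩ := exists_central_involution_of_not_isConj (mul_self_of_two hx)
      (mul_self_of_two hy) (hnconj g)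
    have hwV : w ∈ V := mem_centralizer_singleton_iff.2 hwx.eq
    by_cases h1 : w = z
    · exact h1 ▸ hwy
    have h2 : w ≠ x := fun h => left_not_mem_zpowers_mul hx hy
      (fun e => hnconj g (e ▸ IsConj.refl x)) (h ▸ hw)
    have h3 := klein_eq_mul hV hxV hzV hwV hx1 (ne_one_of_two hz) hxz (ne_one_of_two hw2) h2 h1
    have h4 : g * z * g⁻¹ ∈ V := by
      rw [← hcz, mem_centralizer_singleton_iff, ← h3]; exact hwy.symm.eq
    exact klein_comm hV hzV h4
  have hN := elem_normalClosure (mul_self_of_two hz) hall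
  have hNS : normalClosure ({z} : Set G) ≤ S :=
    (GT.le_pCore hN.isPGroup).trans (GT.pCore_le_sylow S)
  obtain ⟨m, a, b, hM⟩ := GT.PG.exists_maxTwo_of_card_centralizer_le S.isPGroup' hcard
    (x := ⟨x, hVS hxV⟩) (by
      rw [← hC4]
      refine Nat.card_le_card_of_injective (fun y => ⟨y.1.1, mem_centralizer_singleton_iff.2
        (congrArg Subtype.val (mem_centralizer_singleton_iff.1 y.2))⟩) fun y y' h => ?_
      exact Subtype.ext (Subtype.ext (congrArg (fun u : V => (u : G)) h)))
  have h4 := card_le_four hM (hN.subgroupOf S)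
  rw [Nat.card_congr (subgroupOfEquivOfLe hNS).toEquiv] at h4
  obtain ⟨k, hk⟩ := hN.card_eq_pow
  obtain ⟨h5, h6⟩ := hne _ inferInstance hN
  have h7 : Nat.card (normalClosure ({z} : Set G)) ≠ 1 := fun h =>
    ne_one_of_two hz (mem_bot.1 ((card_eq_one.1 h) ▸ subset_normalClosure (Set.mem_singleton z)))
  rw [hk] at h4 h5 h6 h7
  rcases k with _ | _ | _ | k
  · simp at h7
  · simp at h5
  · simp at h6
  · have := Nat.one_le_two_pow (n := k)
    omega

end Cfsg.Agent.S3277
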