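import Mathlib
import Cfsg.Statements.S3279
import Cfsg.Agent.S3276
import Cfsg.Agent.Inv.ZStarSimple

set_option autoImplicit false
open Cfsg

namespace Cfsg.Agent.S3279

private def Few {G : Type*} [Group G] (x : G) : Prop :=
  ∀ a b c d : G, orderOf a = 2 → orderOf b = 2 → orderOf c = 2 → orderOf d = 2 →
    Commute a x → Commute b x → Commute c x → Commute d x → a ≠ b → a ≠ c → b ≠ c →
      d = a ∨ d = b ∨ d = c

private theorem few_of_card {G : Type*} [Group G] [Finite G] (x : G)
    (h3 : Nat.card {u : ↥(Subgroup.centralizer ({x} : Set G)) // orderOf u = 2} ≤ 3) : Few x := by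
  classical
  intro a b c d ha hb hc hd hax hbx hcx hdx hab hac hbc
  by_contra hne
  push Not at hne
  obtain ⟨h1, h2, h4⟩ := hne
  let f : ∀ u : G, orderOf u = 2 → Commute u x →
      {u : ↥(Subgroup.centralizer ({x} : Set G)) // orderOf u = 2} := fun u hu hux =>
    ⟨⟨u, Subgroup.mem_centralizer_singleton_iff.2 hux.eq⟩, by rw [← Subgroup.orderOf_coe]; exact hu⟩
  have hf : ∀ u v hu hv hux hvx, u ≠ v → f u hu hux ≠ f v hv hvx := fun u v hu hv hux hvx huv h =>
    huv (congrArg (fun t => (t.1 : G)) h)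
  have := Fintype.ofFinite {u : ↥(Subgroup.centralizer ({x} : Set G)) // orderOf u = 2}
  have h5 := Finset.card_le_univ ({f a ha hax, f b hb hbx, f c hc hcx, f d hd hdx} : Finset _)
  have h6 : ({f a ha hax, f b hb hbx, f c hc hcx, f d hd hdx} : Finset _).card = 4 :=
    Finset.card_eq_four.2 ⟨f a ha hax, f b hb hbx, f c hc hcx, f d hd hdx, hf _ _ ha hb hax hbx hab, hf _ _ ha hc hax hcx hac,
      hf _ _ ha hd hax hdx h1.symm, hf _ _ hb hc hbx hcx hbc, hf _ _ hb hd hbx hdx h2.symm,
      hf _ _ hc hd hcx hdx h4.symm, rfl⟩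
  rw [h6, ← Nat.card_eq_fintype_card] at h5
  omega

private theorem commute_conj_iff {G : Type*} [Group G] (g a x : G) :
    Commute a (g * x * g⁻¹) ↔ Commute (g⁻¹ * a * g) x := by
  constructor
  · intro h
    have := h.eq
    change g⁻¹ * a * g * x = x * (g⁻¹ * a * g)
    calc g⁻¹ * a * g * x = g⁻¹ * (a * (g * x * g⁻¹)) * g := by group
      _ = g⁻¹ * (g * x * g⁻¹ * a) * g := by rw [this]
      _ = _ := by group
  · intro h
    have := h.eq
    change a * (g * x * g⁻¹) = g * x * g⁻¹ * a
    calc a * (g * x * g⁻¹) = g * (g⁻¹ * a * g * x) * g⁻¹ := by group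
      _ = g * (x * (g⁻¹ * a * g)) * g⁻¹ := by rw [this]
      _ = _ := by group

private theorem Few.conj {G : Type*} [Group G] {x : G} (h : Few x) (g : G) :
    Few (g * x * g⁻¹) := by
  intro a b c d ha hb hc hd hax hbx hcx hdx hab hac hbc
  have hinj : ∀ u v : G, g⁻¹ * u * g = g⁻¹ * v * g → u = v := fun u v huv => by simpa using huv
  rw [commute_conj_iff] at hax hbx hcx hdx
  rcases h _ _ _ _ (by rwa [Inv.orderOf_conj_inv]) (by rwa [Inv.orderOf_conj_inv])
    (by rwa [Inv.orderOf_conj_inv]) (by rwa [Inv.orderOf_conj_inv]) hax hbx hcx hdx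
    (fun e => hab (hinj _ _ e)) (fun e => hac (hinj _ _ e)) (fun e => hbc (hinj _ _ e)) with e | e | e
  · exact Or.inl (hinj _ _ e)
  · exact Or.inr (Or.inl (hinj _ _ e))
  · exact Or.inr (Or.inr (hinj _ _ e))

/-- Let G be a finite simple group and x an involution of G whose centralizer contains at most three involutions. Then C_G(x) contains a Sylow 2-subgroup of G, and all involutions of G are conjugate. -/
theorem result {G : Type*} [Group G] [Finite G] [IsSimpleGroup G] (x : G) (hx : orderOf x = 2)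
    (h3 : Nat.card {u : ↥(Subgroup.centralizer ({x} : Set G)) // orderOf u = 2} ≤ 3) :
    (∃ S : Sylow 2 G, (S : Subgroup G) ≤ Subgroup.centralizer ({x} : Set G)) ∧
      ∀ u v : G, orderOf u = 2 → orderOf v = 2 → IsConj u v := by
  have : Fact (Nat.Prime 2) := ⟨Nat.prime_two⟩
  have hall : ∀ u : G, orderOf u = 2 → Commute u x → IsConj x u := by
    by_cases hG : Nat.card G = 2
    · intro u hu _
      have h1 : Subgroup.zpowers x = ⊤ := by
        apply Subgroup.eq_top_of_card_eq
        rw [Nat.card_zpowers, hx, hG]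
      rw [Inv.involution_unique_of_mem_zpowers hu hx (h1 ▸ Subgroup.mem_top u)
        (Subgroup.mem_zpowers x)]
    have hF := few_of_card x h3
    obtain ⟨g, hg, hgx⟩ := Inv.ZS.exists_conj_commute_ne hG hx
    have hF' := hF.conj g
    have hcj := Inv.isConj_conj g x
    have hx' : orderOf (g * x * g⁻¹) = 2 := by rw [Inv.orderOf_conj', hx]
    generalize g * x * g⁻¹ = x' at hg hgx hF' hcj hx'
    have hz : orderOf (x * x') = 2 := Inv.orderOf_mul_two_of_commute hx hx' hgx.symm hg
    have hzx : Commute (x * x') x := (Commute.refl x).mul_left hg.symm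
    have hzx' : Commute (x * x') x' := hg.mul_left (Commute.refl x')
    have h1 : x ≠ x * x' := fun e => Inv.ne_one_of_two hx' (left_eq_mul.1 e)
    have h2 : x' ≠ x * x' := fun e => Inv.ne_one_of_two hx (right_eq_mul.1 e)
    have hA : ∀ u : G, orderOf u = 2 → Commute u x → u = x ∨ u = x' ∨ u = x * x' := fun u hu hux =>
      hF x x' (x * x') u hx hx' hz hu (Commute.refl x) hg.symm hzx hux hgx.symm h1 h2
    have hB : ∀ u : G, orderOf u = 2 → Commute u x' → u = x ∨ u = x' ∨ u = x * x' := fun u hu hux =>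
      hF' x x' (x * x') u hx hx' hz hu hg (Commute.refl x') hzx' hux hgx.symm h1 h2
    have hzc : IsConj x (x * x') := by
      by_contra hnc
      have key := (S3276.result x (x * x') hx hz hzx.symm hnc ?_).1
      · rcases (Subgroup.normalClosure_normal (s := ({x * x'} : Set G))).eq_bot_or_eq_top with e | e
        · have : x * x' ∈ Subgroup.normalClosure ({x * x'} : Set G) :=
            Subgroup.subset_normalClosure rfl
          rw [e, Subgroup.mem_bot] at this
          exact Inv.ne_one_of_two hz this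
        · exact key e
      · intro u hu hux h hh
        have ho : orderOf (h * (x * x') * h⁻¹) = 2 := by rw [Inv.orderOf_conj', hz]
        have hc := Inv.isConj_conj h (x * x')
        have fin : (h * (x * x') * h⁻¹ = x ∨ h * (x * x') * h⁻¹ = x' ∨ h * (x * x') * h⁻¹ = x * x') →
            Commute (h * (x * x') * h⁻¹) (x * x') := by
          rintro (e | e | e) <;> rw [e]
          · exact hzx.symm
          · exact hzx'.symm
        rcases hA u hu hux with e | e | e
        · exact fin (hA _ ho (e ▸ hh))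
        · exact fin (hB _ ho (e ▸ hh))
        · exact e ▸ hh
    intro u hu hux
    rcases hA u hu hux with e | e | e <;> rw [e]
    · exact hcj
    · exact hzc
  obtain ⟨P, hP⟩ := Inv.exists_sylow_two_mem hx
  have hPne : (P : Subgroup G) ≠ ⊥ := fun e =>
    Inv.ne_one_of_two hx (by rw [← Subgroup.mem_bot, ← e]; exact hP)
  obtain ⟨z, -, hz, hzc⟩ := Inv.exists_central_of_isPGroup P.isPGroup' hPne
  obtain ⟨g, hg⟩ := isConj_iff.1 (hall z hz (hzc x hP).symm)
  have hS : ((g⁻¹ • P : Sylow 2 G) : Subgroup G) ≤ Subgroup.centralizer ({x} : Set G) := by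
    intro s hs
    have h1 := hzc _ (Inv.mem_sylow_smul_iff.1 hs)
    rw [← hg, commute_conj_iff] at h1
    refine Subgroup.mem_centralizer_singleton_iff.2 ?_
    simpa [mul_assoc] using h1.eq
  have hconj : ∀ u : G, orderOf u = 2 → IsConj x u := by
    intro u hu
    obtain ⟨h, hh⟩ := Inv.exists_conj_mem_sylow_two hu (g⁻¹ • P)
    exact (hall _ (by rw [Inv.orderOf_conj', hu])
      (Subgroup.mem_centralizer_singleton_iff.1 (hS hh))).trans (Inv.isConj_conj h u).symm
  exact ⟨⟨_, hS⟩, fun u v hu hv => (hconj u hu).symm.trans (hconj v hv)⟩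

end Cfsg.Agent.S3279
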