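import Cfsg.Statements.S3283
import Cfsg.Agent.X6.Main
-- import your own Cfsg.Agent.* helpers here

set_option autoImplicit false
open Cfsg

namespace Cfsg.Agent.S3283

/-- Let G be a finite group with an involution z whose centralizer M has Q = O₂(M) extraspecial of order 2⁹ with C_M(Q) ≤ Q, and M/Q isomorphic to S₃ × A₆ or to S₃ × S₆. Then G is not simple. -/
theorem result {G : Type*} [Group G] [Finite G] (z : G) (hz : orderOf z = 2)
    (hQ : Cfsg.IsExtraspecial 2 ↥(Cfsg.pCore 2 ↥(Subgroup.centralizer ({z} : Set G)))) (hQ9 : Nat.card ↥(Cfsg.pCore 2 ↥(Subgroup.centralizer ({z} : Set G))) = 2 ^ 9)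
    (hCQ : Subgroup.centralizer ((Cfsg.pCore 2 ↥(Subgroup.centralizer ({z} : Set G))) : Set ↥(Subgroup.centralizer ({z} : Set G))) ≤ Cfsg.pCore 2 ↥(Subgroup.centralizer ({z} : Set G)))
    (hMQ : Nonempty (↥(Subgroup.centralizer ({z} : Set G)) ⧸ Cfsg.pCore 2 ↥(Subgroup.centralizer ({z} : Set G)) ≃* (Equiv.Perm (Fin 3) × ↥(alternatingGroup (Fin 6)))) ∨
      Nonempty (↥(Subgroup.centralizer ({z} : Set G)) ⧸ Cfsg.pCore 2 ↥(Subgroup.centralizer ({z} : Set G)) ≃* (Equiv.Perm (Fin 3) × Equiv.Perm (Fin 6)))) :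
    ¬ IsSimpleGroup G := by
  have h := LX.big_of_pCore hz hQ hQ9 hCQ
  rcases hMQ with ⟨⟨e⟩⟩ | ⟨⟨e⟩⟩
  · refine X6.not_simple h (((MonoidHom.id _).prodMap (alternatingGroup (Fin 6)).subtype).comp
      (e.toMonoidHom.comp (QuotientGroup.mk' _))) (fun x => ?_) fun σ τ _ h2 => ?_
    · rw [MonoidHom.comp_apply, map_eq_one_iff _ (Function.Injective.prodMap Function.injective_id
        (Subgroup.subtype_injective _)), MonoidHom.comp_apply, MulEquiv.coe_toMonoidHom,
        e.map_eq_one_iff, LX.mk_eq_one_iff]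
    · obtain ⟨x, k⟩ := (e.surjective.comp (QuotientGroup.mk'_surjective _)) (σ, ⟨τ, h2⟩)
      exact ⟨x, congrArg (fun t : Equiv.Perm (Fin 3) × alternatingGroup (Fin 6) => (t.1, t.2.1)) k⟩
  · refine X6.not_simple h (e.toMonoidHom.comp (QuotientGroup.mk' _)) (fun x => ?_)
      fun σ τ _ _ => (e.surjective.comp (QuotientGroup.mk'_surjective _)) (σ, τ)
    rw [MonoidHom.comp_apply, MulEquiv.coe_toMonoidHom, e.map_eq_one_iff, LX.mk_eq_one_iff]

end Cfsg.Agent.S3283
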