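import Cfsg.Statements.S3284
import Cfsg.Agent.X6.Main
-- import your own Cfsg.Agent.* helpers here

set_option autoImplicit false
open Cfsg

namespace Cfsg.Agent.S3284

/-- There is no non-abelian finite simple group with an involution z whose centralizer M has generalized Fitting subgroup Q = F*(M) extraspecial of order 2⁹ and M/Q isomorphic to the subgroup of S₃ × S₆ consisting of the pairs of permutations with equal sign (a group (3 × A₆)·2 in which an involution outside 3 × A₆ induces S₃ on the first factor and S₆ on the second). -/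
theorem result {G : Type*} [Group G] [Finite G] [IsSimpleGroup G] (hG : ¬ IsMulCommutative G) (z : G) (hz : orderOf z = 2)
    [hn : (Cfsg.generalizedFittingSubgroup ↥(Subgroup.centralizer ({z} : Set G))).Normal]
    (hQ : Cfsg.IsExtraspecial 2 ↥(Cfsg.generalizedFittingSubgroup ↥(Subgroup.centralizer ({z} : Set G)))) (hQ9 : Nat.card ↥(Cfsg.generalizedFittingSubgroup ↥(Subgroup.centralizer ({z} : Set G))) = 2 ^ 9)
    (e : (↥(Subgroup.centralizer ({z} : Set G)) ⧸ Cfsg.generalizedFittingSubgroup ↥(Subgroup.centralizer ({z} : Set G))) ≃*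
      ↥(MonoidHom.ker (Equiv.Perm.sign.comp (MonoidHom.fst (Equiv.Perm (Fin 3)) (Equiv.Perm (Fin 6))) *
          Equiv.Perm.sign.comp (MonoidHom.snd (Equiv.Perm (Fin 3)) (Equiv.Perm (Fin 6)))))) :
    False := by
  have k := (GT.genFitting_eq_pCore_iff_isPGroup (G := Subgroup.centralizer ({z} : Set G))
    Nat.prime_two).2 (IsPGroup.of_card hQ9)
  have h := LX.big_of_pCore hz (k ▸ hQ) (k ▸ hQ9) ((GT.genFitting_eq_pCore_iff Nat.prime_two).1 k)
  refine X6.not_simple h ((Subgroup.subtype _).comp (e.toMonoidHom.comp (QuotientGroup.mk' _)))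
    (fun x => ?_) (fun σ τ h1 h2 => ?_) inferInstance
  · rw [MonoidHom.comp_apply, map_eq_one_iff _ (Subgroup.subtype_injective _), MonoidHom.comp_apply,
      MulEquiv.coe_toMonoidHom, e.map_eq_one_iff, QuotientGroup.mk'_apply, QuotientGroup.eq_one_iff,
      k]
    exact ⟨fun l => ⟨x, l, rfl⟩, fun ⟨y, hy, l⟩ => Subtype.val_injective l ▸ hy⟩
  · obtain ⟨x, l⟩ := (e.surjective.comp (QuotientGroup.mk'_surjective _))
      ⟨(σ, τ), by simp [MonoidHom.mem_ker, h1, h2]⟩
    exact ⟨x, congrArg Subtype.val l⟩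

end Cfsg.Agent.S3284
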