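import Cfsg.Statements.S3300
import Cfsg.Agent.Wk.Idx
import Cfsg.Agent.Wk.Eps
import Cfsg.Agent.S3299
import Cfsg.Agent.S0269

set_option autoImplicit false
open Cfsg

namespace Cfsg.Agent.S3300

open Cfsg.Agent.Spor Cfsg.Agent.Spor.TT Cfsg.Agent.LX Cfsg.Agent.Gr6 Cfsg.Agent.Wk Subgroup

theorem not_la {G : Type*} [Group G] [Finite G] {z a : G} {K : Subgroup G} (h : La z a)
    (h5 : 512 ≤ Nat.card (QQ z)) (hK : K.relIndex (centralizer {z}) = 2) (hQ : QQ z ≤ K) : False := by
  obtain ⟨e⟩ := h.sp6 h5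
  have h1 := Cl.commutator_eq_top_of_mulEquiv e.symm (S0269.result 3 (Or.inl le_rfl))
  have h2 : _root_.commutator (centralizer ({z} : Set G)) ≤ K.subgroupOf _ :=
    commutator_le.2 fun x _ y _ => by
      have := idx_nm hK (W3.mem_cent.1 y.2) (W3.mem_cent.1 x.2)
      rw [W3.nm, cj_def, ← mul_assoc, ← mul_assoc] at this
      exact this
  have h3 : K.subgroupOf (centralizer ({z} : Set G)) = ⊤ := eq_top_iff.2 fun x _ => by
    have : QuotientGroup.mk' _ x ∈ (_root_.commutator _).map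
        (QuotientGroup.mk' (pCore 2 (centralizer ({z} : Set G)))) := by
      rw [map_commutator_eq, QuotientGroup.range_mk', ← commutator_def, h1]; trivial
    obtain ⟨y, hy, l⟩ := this
    obtain ⟨w, hw, rfl⟩ := (QuotientGroup.mk'_eq_mk' _).1 l
    exact mul_mem (h2 hy) (hQ ⟨w, hw, rfl⟩)
  rw [relIndex, h3, index_top] at hK
  omega

/-- Let G be a finite group with no nontrivial 2-group quotient (O^2(G) = G), z an involution of G with H = C_G(z), and suppose E = O_2(H) is extraspecial with C_G(E) ≤ E and of order 2^(2n+1) with n ≥ 3. If H has a normal subgroup of index 2, then z is conjugate in G to an element of E other than z. -/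
theorem result {G : Type*} [Group G] [Finite G] (hres : Cfsg.pResidual 2 G = ⊤) (z : G) (hz : orderOf z = 2)
    (E : Subgroup G) (hE : E = (Cfsg.pCore 2 ↥(Subgroup.centralizer ({z} : Set G))).map (Subgroup.centralizer ({z} : Set G)).subtype)
    (hext : Cfsg.IsExtraspecial 2 ↥E) (hcent : Subgroup.centralizer (E : Set G) ≤ E) (n : ℕ) (hn : 3 ≤ n) (hcard : Nat.card ↥E = 2 ^ (2 * n + 1))
    (K : Subgroup G) (hKH : K ≤ Subgroup.centralizer ({z} : Set G))
    (hKn : ∀ h ∈ Subgroup.centralizer ({z} : Set G), K.map (MulAut.conj h).toMonoidHom = K)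
    (hKi : K.relIndex (Subgroup.centralizer ({z} : Set G)) = 2) :
    ∃ g : G, g * z * g⁻¹ ∈ E ∧ g * z * g⁻¹ ≠ z := by
  have hQ := S3299.result hres z hz E hE hext hcent n (by omega) hcard K hKH hKn hKi
  subst hE
  have h : WP.Bg z := let ⟨h1, h2⟩ := es2_lg_of_pCore hz rfl hext hcent; ⟨h1, h2⟩
  by_contra k
  have wc : WC z := fun a ha hq => by
    obtain ⟨g, rfl⟩ := exists_cj ha
    by_contra l
    exact k ⟨g, hq, l⟩
  obtain ⟨d, hd, zd, b, hb, zb, m⟩ := exists_fus h hres hKi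
  have ne : z ≠ d := fun l => m (hQ (l ▸ hb : b ∈ QQ z))
  by_cases hS : AllS z
  · exact m ((hS.of_isConj hd).mem_idx (hS d hd z ⟨hd.symm, ne, zd.symm⟩) hKi hQ hb zb)
  have h5 : 512 ≤ Nat.card (QQ z) := by
    rcases hn.eq_or_lt with rfl | l
    · exact absurd (allS_of_card h wc hcard) hS
    · exact hcard.ge.trans' (Nat.pow_le_pow_right two_pos (by omega) : 2 ^ 9 ≤ 2 ^ (2 * n + 1))
  obtain ⟨x, hx, y, hy, hn⟩ : ∃ x, IsConj z x ∧ ∃ y ∈ Nb x, ¬ Sm x y := by
    by_contra hh
    push Not at hh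
    exact hS hh
  have := (allC_of_card h wc h5 x hx y hy).dich.resolve_left hn
  obtain ⟨g, rfl⟩ := exists_cj hx
  have := this.cjp g⁻¹
  rw [cj_inv_cj] at this
  exact not_la this h5 hKi hQ

end Cfsg.Agent.S3300
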