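import Cfsg.Statements.S3301
import Cfsg.Agent.Wk.Sq
import Cfsg.Agent.Cl.QuadExtra

set_option autoImplicit false
open Cfsg

namespace Cfsg.Agent.S3301

open Cfsg.Agent.Spor Cfsg.Agent.LX Cfsg.Agent.Gr6 Cfsg.Agent.Wk Subgroup

theorem exists_hom {A : Type*} [CommGroup A] [Finite A] {q : A} {k : ℕ} (hq : q ^ 2 ^ k = 1)
    (n : q ^ 2 ≠ 1) : ∃ f : A → ZMod 2, (∀ a b, f (a * b) = f a + f b) ∧ (∀ a, a ^ 2 = 1 → f a = 0) ∧
      ∃ x, f x = 1 := by
  let D : Subgroup A := (powMonoidHom 2 : A →* A).range ⊔ (powMonoidHom 2 : A →* A).ker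
  obtain ⟨x, hx⟩ : ∃ x, x ∉ D := by
    by_contra l
    push Not at l
    let F : (powMonoidHom 2 : A →* A).range → (powMonoidHom 2 : A →* A).range := fun r => r ^ 2
    have inj : Function.Injective F := Finite.injective_iff_surjective.2 fun ⟨_, x, rfl⟩ => by
      obtain ⟨y, hy, w, hw, rfl⟩ := mem_sup.1 (l x)
      exact ⟨⟨y, hy⟩, Subtype.ext (Eq.symm ((map_mul (powMonoidHom 2 : A →* A) y w).trans (by
        rw [MonoidHom.mem_ker.1 hw, mul_one]; rfl)))⟩
    have key : ∀ j, ∀ r : (powMonoidHom 2 : A →* A).range, r ^ 2 ^ j = 1 → r = 1 := by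
      intro j
      induction j with
      | zero => exact fun r k => by simpa using k
      | succ j ih => exact fun r k => ih r (inj (by rw [pow_succ, pow_mul] at k; exact k.trans (one_pow 2).symm))
    exact n (congrArg Subtype.val (key k ⟨_, q, rfl⟩ (Subtype.ext (by
      change (q ^ 2) ^ 2 ^ k = 1
      rw [← pow_mul, mul_comm, pow_mul, hq, one_pow]))))
  obtain ⟨f, h1, h2, h3⟩ := Cl.quad_exists_hom_zmod2 D (fun g => mem_sup_left ⟨g, pow_two g⟩) hx
  exact ⟨f, h1, fun a ha => h2 a (mem_sup_right ha), x, h3⟩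

/-- Let G be a finite group with no nontrivial 2-group quotient (O^2(G) = G), z an involution of G with H = C_G(z), and suppose E = O_2(H) is extraspecial with C_G(E) ≤ E. Then the Sylow 2-subgroups of H/[H, H] are elementary abelian: every element of 2-power order of the abelianization of H has order at most 2. -/
theorem result {G : Type*} [Group G] [Finite G] (hres : Cfsg.pResidual 2 G = ⊤) (z : G) (hz : orderOf z = 2)
    (E : Subgroup G) (hE : E = (Cfsg.pCore 2 ↥(Subgroup.centralizer ({z} : Set G))).map (Subgroup.centralizer ({z} : Set G)).subtype)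
    (hext : Cfsg.IsExtraspecial 2 ↥E) (hcent : Subgroup.centralizer (E : Set G) ≤ E) :
    ∀ q : Abelianization ↥(Subgroup.centralizer ({z} : Set G)), (∃ k : ℕ, orderOf q = 2 ^ k) → q ^ 2 = 1 := by
  subst hE
  have h : WP.Bg z := let ⟨h1, h2⟩ := es2_lg_of_pCore hz rfl hext hcent; ⟨h1, h2⟩
  rintro q ⟨k, hk⟩
  by_contra n
  obtain ⟨f, h1, h2, x, h3⟩ := exists_hom (hk ▸ pow_orderOf_eq_one q) n
  let φ : centralizer ({z} : Set G) →* Multiplicative (ZMod 2) :=
    (MonoidHom.mk' (fun a => Multiplicative.ofAdd (f a)) fun a b => by rw [h1]; rfl).comp Abelianization.of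
  have hK : (φ.ker.map (centralizer ({z} : Set G)).subtype).relIndex (centralizer {z}) = 2 := by
    rw [relIndex, subgroupOf, comap_map_eq_self_of_injective (subtype_injective _), index_ker,
      MonoidHom.range_eq_top.2, card_top]
    · simp
    intro c
    obtain ⟨y, rfl⟩ : ∃ y, Abelianization.of y = x := QuotientGroup.mk_surjective x
    rcases W3.z2 (Multiplicative.toAdd c) with e | e
    · exact ⟨1, by rw [map_one]; exact (congrArg Multiplicative.ofAdd e).symm⟩
    · exact ⟨y, congrArg Multiplicative.ofAdd (h3.trans e.symm)⟩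
  obtain ⟨d, hd, zd, b, hb, zb, m⟩ := exists_fus h hres hK
  have := sq_mem_DC h hd zd hb zb
  rw [DC, ← map_subtype_commutator] at this
  obtain ⟨c, hc, e⟩ := this
  refine m ⟨⟨b, W3.mem_cent.2 zb⟩, congrArg Multiplicative.ofAdd (h2 _ ?_), rfl⟩
  rw [← map_pow, show (⟨b, W3.mem_cent.2 zb⟩ : centralizer ({z} : Set G)) ^ 2 = c from
    Subtype.ext ((pow_two b).trans e.symm)]
  exact (QuotientGroup.eq_one_iff _).2 hc

end Cfsg.Agent.S3301
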