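import Mathlib
import Cfsg.Statements.S3303
import Cfsg.Agent.S3305
import Cfsg.Agent.Inv.TwoAut
import Cfsg.Agent.GT.Fitting
import Cfsg.Agent.GT.PPrimeCore

set_option autoImplicit false
open Cfsg

namespace Cfsg.Agent.S3303

/-- Let G be a finite solvable group in which the intersection of any two distinct Sylow 2-subgroups is cyclic. Then G/O(G) has a normal Sylow 2-subgroup, where O(G) is the largest normal subgroup of odd order. -/
theorem result {G : Type*} [Group G] [Finite G] (hs : Group.IsSolvable G)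
    (hC : ∀ S T : Sylow 2 G, S ≠ T → IsCyclic ↥((S : Subgroup G) ⊓ (T : Subgroup G))) :
    ∃ P : Sylow 2 (G ⧸ Cfsg.oddCore G), (P : Subgroup (G ⧸ Cfsg.oddCore G)).Normal := by
  refine (Inv.SI.exists_normal_sylow_or_ne (p := 2)).elim id ?_
  rintro ⟨S, T, h⟩
  have := S3305.result hC (oddCore G) S T h
  have : IsCyclic (pCore 2 (G ⧸ oddCore G)) :=
    Subgroup.isCyclic_of_le (le_inf (GT.pCore_le_sylow S) (GT.pCore_le_sylow T))
  exact Inv.SI.exists_normal_sylow_of_isPGroup (Inv.SI.isPGroup_of_mulAut (GT.isPGroup_pCore 2)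
    (GT.centralizer_pCore_le Nat.prime_two GT.pPrimeCore_quotient_pPrimeCore)
    (Inv.Fz.isPGroup_mulAut_of_isCyclic (GT.isPGroup_pCore 2)))

end Cfsg.Agent.S3303
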