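import Mathlib
import Cfsg.Statements.S3304
import Cfsg.Agent.Inv.SylowInter
import Cfsg.Agent.Inv.QEight
import Cfsg.Agent.Inv.RankOneP
import Cfsg.Agent.GT.Fitting
import Cfsg.Agent.GT.PPrimeCore
import Cfsg.Agent.GT.PGroupRank

set_option autoImplicit false
open Cfsg

namespace Cfsg.Agent.S3304

open Subgroup

private theorem aux {H : Type*} [Group H] [Finite H]
    (hc : centralizer (pCore 2 H : Set H) ≤ pCore 2 H) (hr : PRankLE 2 1 (pCore 2 H)) :
    (∃ P : Sylow 2 H, (P : Subgroup H).Normal) ∨ Nonempty (H ≃* GL (Fin 2) (ZMod 3)) ∨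
    (Nat.card H = 48 ∧ Nat.card ↥(center H) = 2 ∧ Nonempty (H ⧸ center H ≃* Equiv.Perm (Fin 4)) ∧
      ∀ P : Sylow 2 H, Nonempty (↥(P : Subgroup H) ≃* QuaternionGroup 4)) := by
  have hN : IsPGroup 2 (pCore 2 H) := GT.isPGroup_pCore 2
  rcases Inv.QA.isPGroup_mulAut_or_quaternion hN hr with h | ⟨⟨e⟩⟩
  · exact Or.inl (Inv.SI.exists_normal_sylow_of_isPGroup (Inv.SI.isPGroup_of_mulAut hN hc h))
  set ι : QuaternionGroup 2 →* H := (pCore 2 H).subtype.comp e.symm.toMonoidHom with hιdef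
  have hι : Function.Injective ι := (subtype_injective _).comp e.symm.injective
  have hr : ι.range = pCore 2 H := by
    rw [hιdef, MonoidHom.range_comp, MonoidHom.range_eq_top.2 e.symm.surjective,
      ← MonoidHom.range_eq_map, range_subtype]
  have hn : ι.range.Normal := hr ▸ inferInstance
  rw [← hr] at hc hN
  obtain ⟨ψ, hψ⟩ := Inv.Q8.exists_psi ι hι
  have h8 : Nat.card ι.range = 8 := by
    rw [← Nat.card_congr (MonoidHom.ofInjective hι).toEquiv, Nat.card_eq_fintype_card,
      QuaternionGroup.card]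
  have h1 := Inv.Q8.card_eq_psi hι hc hψ
  have h2 := card_subgroup_dvd_card ψ.range
  rw [Inv.Q8.card_perm_four] at h2
  have h3 := ι.range.card_mul_index
  rw [h8] at h3
  have h4 : ι.range.index ∣ 6 := by
    obtain ⟨k, hk⟩ := h2
    refine ⟨k, ?_⟩
    have : 8 * (ι.range.index * k) = 8 * 6 := by
      rw [← mul_assoc, h3, h1, mul_assoc, ← hk]; norm_num
    omega
  by_cases h5 : 2 ∣ ι.range.index
  swap
  · exact Or.inl ⟨hN.toSylow h5, hn⟩
  have h6 : ι.range.index = 2 ∨ ι.range.index = 6 := by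
    have := Nat.le_of_dvd (by norm_num) h4
    interval_cases ι.range.index <;> omega
  rcases h6 with h6 | h6
  · exact Or.inl (Inv.SI.exists_normal_sylow_of_isPGroup
      (IsPGroup.of_card (n := 4) (by rw [← h3, h6]; norm_num)))
  have h48 : Nat.card H = 48 := by rw [← h3, h6]
  by_cases ht : ∃ t : H, t * t = 1 ∧ t ∉ ι.range
  · obtain ⟨t, ht, ht'⟩ := ht
    exact Or.inr (Or.inl (Inv.Q8.nonempty_equiv_GL hι hc h48 ht ht'))
  push Not at ht
  have hk := Inv.Q8.ker_psi_eq_center hι hc hψ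
  refine Or.inr (Or.inr ⟨h48, hk ▸ Inv.Q8.card_ker_psi hι hc hψ,
    ⟨(QuotientGroup.quotientMulEquivOfEq hk.symm).trans
      (QuotientGroup.quotientKerEquivOfSurjective ψ (Inv.Q8.psi_surjective hι hc hψ h48))⟩,
    fun P => ?_⟩)
  have hinv : ∀ t : H, orderOf t = 2 → t = ι (QuaternionGroup.a 2) := by
    intro t ho
    have h7 : t * t = 1 := by rw [← pow_two, ← ho, pow_orderOf_eq_one]
    obtain ⟨q, rfl⟩ := ht t h7
    have : ∀ q : QuaternionGroup 2, q * q = 1 → q = 1 ∨ q = QuaternionGroup.a 2 := by decide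
    rcases this q (hι (by rw [map_mul, h7, map_one])) with rfl | rfl
    · rw [map_one, orderOf_one] at ho
      exact absurd ho (by norm_num)
    · rfl
  have hP : Nat.card P = 16 := by
    rw [P.card_eq_multiplicity, h48]
    have : Nat.factorization 48 2 = 4 := by
      rw [← Nat.primeFactorsList_count_eq]
      simp
    rw [this]; norm_num
  rcases Inv.SE.cyclic_or_quaternion_of_uniqOrd' P.isPGroup' (fun x _ y _ hx hy => by
    rw [hinv x hx, hinv y hy]; exact mem_zpowers _) with h | ⟨n, ⟨f⟩⟩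
  · exfalso
    have hle : ι.range ≤ P := hr ▸ GT.pCore_le_sylow P
    have := h.isMulCommutative.is_comm.comm ⟨_, hle ⟨QuaternionGroup.a 1, rfl⟩⟩
      ⟨_, hle ⟨QuaternionGroup.xa 0, rfl⟩⟩
    have h9 := congrArg Subtype.val this
    simp only [coe_mul, ← map_mul] at h9
    exact absurd (hι h9) (by decide)
  · have h9 := Nat.card_congr f.toEquiv
    rw [hP, Nat.card_eq_fintype_card, QuaternionGroup.card] at h9
    have : 2 ^ (n + 1) = 4 := by omega
    exact ⟨this ▸ f⟩

/-- Let G be a finite solvable group in which the intersection of any two distinct Sylow 2-subgroups has 2-rank at most 1 (contains no Klein four-group). Write Q = G/O(G), O(G) the largest normal subgroup of odd order. Then Q has a normal Sylow 2-subgroup; or Q is isomorphic to GL(2,3); or Q has order 48, centre of order 2 with central quotient isomorphic to the symmetric group of degree 4, and generalized quaternion Sylow 2-subgroups of order 16 (the binary octahedral group). The last two are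 the two representation groups of the symmetric group of degree 4. -/
theorem result {G : Type*} [Group G] [Finite G] (hs : Group.IsSolvable G)
    (hI : ∀ S T : Sylow 2 G, S ≠ T → Cfsg.PRankLE 2 1 ↥((S : Subgroup G) ⊓ (T : Subgroup G))) :
    (∃ P : Sylow 2 (G ⧸ Cfsg.oddCore G), (P : Subgroup (G ⧸ Cfsg.oddCore G)).Normal) ∨
    Nonempty ((G ⧸ Cfsg.oddCore G) ≃* GL (Fin 2) (ZMod 3)) ∨
    (Nat.card (G ⧸ Cfsg.oddCore G) = 48 ∧ Nat.card ↥(Subgroup.center (G ⧸ Cfsg.oddCore G)) = 2 ∧
      Nonempty ((G ⧸ Cfsg.oddCore G) ⧸ Subgroup.center (G ⧸ Cfsg.oddCore G) ≃* Equiv.Perm (Fin 4)) ∧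
      ∀ P : Sylow 2 (G ⧸ Cfsg.oddCore G), Nonempty (↥(P : Subgroup (G ⧸ Cfsg.oddCore G)) ≃* QuaternionGroup 4)) := by
  rcases Inv.SI.exists_normal_sylow_or_ne (p := 2) (G := G ⧸ oddCore G) with h | ⟨S', T', h⟩
  · exact Or.inl h
  refine aux (GT.centralizer_pCore_le Nat.prime_two GT.pPrimeCore_quotient_pPrimeCore) ?_
  obtain ⟨S, T, hST, P, hP, hPf⟩ := Inv.SI.exists_lift (QuotientGroup.mk'_surjective _) h
  refine PRankLE.of_le ?_ (le_inf (GT.pCore_le_sylow S') (GT.pCore_le_sylow T'))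
  rw [← hPf]
  refine ((hI S T hST).of_le hP).of_mulEquiv (MulEquiv.ofBijective
    ((QuotientGroup.mk' (oddCore G)).subgroupMap P) ⟨?_, MonoidHom.subgroupMap_surjective _ P⟩)
  rw [injective_iff_map_eq_one]
  intro x hx
  have h1 : (x : G) ∈ oddCore G := (QuotientGroup.eq_one_iff _).1 (congrArg Subtype.val hx)
  obtain ⟨k, hk⟩ := (S.isPGroup'.to_le (hP.trans inf_le_left)) x
  have h2 := (oddCore G).orderOf_dvd_natCard h1
  rw [← orderOf_eq_one_iff, ← Subgroup.orderOf_coe]
  have h3 : orderOf (x : G) ∣ 2 ^ k := orderOf_dvd_of_pow_eq_one (congrArg Subtype.val hk)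
  exact Nat.eq_one_of_dvd_coprimes
    (Nat.Coprime.pow_right k (Nat.coprime_two_right.2 GT.odd_card_oddCore)) h2 h3

end Cfsg.Agent.S3304
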