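import Mathlib
import Cfsg.Statements.S3309
import Cfsg.Agent.Inv.ZStarSimple
import Cfsg.Agent.Inv.SylowTools
import Cfsg.Agent.GT.TransferCocycle
import Cfsg.Agent.GT.Conj

set_option autoImplicit false
open Cfsg

namespace Cfsg.Agent.S3309

open Subgroup DihedralGroup

private abbrev K := Multiplicative (ZMod 2) × DihedralGroup 4

private abbrev c : K := (Multiplicative.ofAdd 1, 1)
private abbrev z : K := (1, r 2)

private def par (i : ZMod 4) : ZMod 2 := if i = 0 ∨ i = 2 then 0 else 1

private def f (α β : ZMod 2) (k : K) : ZMod 2 :=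
  match k.2 with
  | r i => k.1.toAdd + (α + β) * par i
  | sr i => k.1.toAdd + α * (1 + par i) + β * par i

private theorem f_mul : ∀ (α β : ZMod 2) (a b : K), f α β (a * b) = f α β a + f α β b := by
  decide +kernel

private def M (α β : ZMod 2) : Subgroup K where
  carrier := {k | f α β k = 0}
  one_mem' := by revert α β; decide
  mul_mem' {a b} ha hb := by
    change f α β _ = 0 at *
    rw [f_mul, ha, hb, add_zero]
  inv_mem' {a} ha := by
    change f α β _ = 0 at *
    revert α β a; decide +kernel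

private theorem index_M (α β : ZMod 2) : (M α β).index = 2 := by
  rw [index_eq_two_iff]
  refine ⟨c, fun b => ?_⟩
  change (f α β _ = 0 ∧ ¬ f α β _ = 0) ∨ (f α β _ = 0 ∧ ¬ f α β _ = 0)
  revert α β b; decide +kernel

private theorem invol_M : ∀ (α β : ZMod 2) (k : K), f α β k = 0 → k * k = 1 → k = 1 ∨ k = z ∨
    (∃ g : K, g * k * g⁻¹ = (Multiplicative.ofAdd α, sr 0)) ∨
    ∃ g : K, g * k * g⁻¹ = (Multiplicative.ofAdd β, sr 1) := by
  decide +kernel

set_option synthInstance.maxSize 2000 in
set_option synthInstance.maxHeartbeats 200000 in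
private theorem span : ∀ x y : K, x * x = 1 → y * y = 1 → x * y = y * x → x ≠ 1 → y ≠ 1 → x ≠ y →
    x ≠ c → y ≠ c → x * y ≠ c →
    z = x ∨ z = y ∨ z = x * y ∨ z = c * x ∨ z = c * y ∨ z = c * (x * y) := by
  decide +kernel

private theorem sq_z : ∀ k : K, k * k = 1 ∨ k * k = z := by decide +kernel

private theorem c_central : ∀ k : K, k * c = c * k := by decide +kernel

private theorem z_central : ∀ k : K, k * z = z * k := by decide +kernel

/-- A finite group whose Sylow 2-subgroups are isomorphic to the direct product of a group of order 2 and the dihedral group of order 8 is not a non-abelian simple group. -/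
theorem result {G : Type*} [Group G] [Finite G] (S : Sylow 2 G) (hS : Nonempty (↥(S : Subgroup G) ≃* Multiplicative (ZMod 2) × DihedralGroup 4))
    [IsSimpleGroup G] (hG : ¬ IsMulCommutative G) : False := by
  obtain ⟨e⟩ := hS
  set φ : K →* G := (S : Subgroup G).subtype.comp e.symm.toMonoidHom with hφdef
  have hφ : Function.Injective φ := (subtype_injective _).comp e.symm.injective
  have hr : φ.range = S := by
    rw [hφdef, MonoidHom.range_comp, MonoidHom.range_eq_top.2 e.symm.surjective,
      ← MonoidHom.range_eq_map, range_subtype]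
  have hmem : ∀ {x : G}, x ∈ (S : Subgroup G) ↔ ∃ k, φ k = x := fun {x} => by rw [← hr]; rfl
  have cen : ∀ k : K, (∀ l, l * k = k * l) → ∀ s ∈ (S : Subgroup G), s * φ k = φ k * s := by
    intro k hk s hs
    obtain ⟨l, rfl⟩ := hmem.1 hs
    rw [← map_mul, hk, map_mul]
  have hcz : ∀ l : K, l * (c * z) = c * z * l := by decide +kernel
  have burn : ∀ a b : K, (∀ l, l * a = a * l) → (∀ l, l * b = b * l) → IsConj (φ a) (φ b) →
      ∃ n ∈ normalizer ((S : Subgroup G) : Set G), n * φ a * n⁻¹ = φ b := by
    intro a b ha hb h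
    obtain ⟨g, hg⟩ := isConj_iff.1 h
    have := Inv.ZS.exists_mem_normalizer_conj_eq S (g := g) (cen a ha) (hg ▸ cen b hb)
    rwa [hg] at this
  have fixz : ∀ n ∈ normalizer ((S : Subgroup G) : Set G), n * φ z * n⁻¹ = φ z := by
    intro n hn
    obtain ⟨k, hk⟩ := hmem.1 (GT.conj_mem_of_mem_normalizer hn (hmem.2 ⟨(1, r 1), rfl⟩))
    have h1 : n * φ z * n⁻¹ = φ (k * k) := by
      rw [map_mul, hk, show z = ((1, r 1) : K) * (1, r 1) by decide, map_mul]; group
    rcases sq_z k with h | h
    · rw [h, map_one, conj_eq_one_iff, map_eq_one_iff φ hφ] at h1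
      exact absurd h1 (by decide)
    · rw [h1, h]
  have h1 : ¬ IsConj (φ z) (φ c) := fun h => by
    obtain ⟨n, hn, h⟩ := burn z c z_central c_central h
    exact absurd (hφ ((fixz n hn).symm.trans h)) (by decide)
  have h2 : ¬ IsConj (φ z) (φ (c * z)) := fun h => by
    obtain ⟨n, hn, h⟩ := burn z _ z_central hcz h
    exact absurd (hφ ((fixz n hn).symm.trans h)) (by decide)
  have h3 : ¬ IsConj (φ c) (φ (c * z)) := fun h => by
    obtain ⟨n, hn, h⟩ := burn c _ c_central hcz h
    have a1 : n * φ (c * z) * n⁻¹ = φ c := by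
      calc n * φ (c * z) * n⁻¹ = (n * φ c * n⁻¹) * (n * φ z * n⁻¹) := by rw [map_mul]; group
        _ = φ c := by rw [h, fixz n hn, ← map_mul]; congr 1
    have a2 : Commute (n ^ 2) (φ c) := by
      rw [Commute, SemiconjBy, ← mul_inv_eq_iff_eq_mul]
      calc n ^ 2 * φ c * (n ^ 2)⁻¹ = n * (n * φ c * n⁻¹) * n⁻¹ := by rw [pow_two]; group
        _ = φ c := by rw [h, a1]
    have a3 : n ^ (S : Subgroup G).relIndex (normalizer ((S : Subgroup G) : Set G)) ∈
        (S : Subgroup G) :=
      pow_index_mem (H := (S : Subgroup G).subgroupOf (normalizer ((S : Subgroup G) : Set G)))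
        ⟨n, hn⟩
    have a4 : Odd ((S : Subgroup G).relIndex (normalizer ((S : Subgroup G) : Set G))) := by
      rw [← Nat.not_even_iff_odd, even_iff_two_dvd]
      exact fun hd => S.not_dvd_index (hd.trans (relIndex_dvd_index_of_le le_normalizer))
    obtain ⟨m, hm⟩ := a4
    have a5 := cen c c_central _ a3
    rw [hm, pow_succ', pow_mul, mul_assoc, (a2.pow_left m).eq, ← mul_assoc, ← mul_assoc,
      mul_right_cancel_iff, ← mul_inv_eq_iff_eq_mul, h] at a5
    exact absurd (hφ a5) (by decide)
  have conj : ∀ g a b : K, g * a * g⁻¹ = b → IsConj (φ a) (φ b) := fun g a b h =>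
    φ.map_isConj (isConj_iff.2 ⟨g, h⟩)
  have tr : ∀ α β : ZMod 2, IsConj (φ (Multiplicative.ofAdd α, sr 0)) (φ c) ∨
      IsConj (φ (Multiplicative.ofAdd β, sr 1)) (φ c) := by
    intro α β
    have hi : ((M α β).map φ).relIndex S = 2 := by
      rw [← hr, MonoidHom.range_eq_map, relIndex_map_map_of_injective _ _ hφ, relIndex_top_right,
        index_M]
    rcases GT.Tr.thompson_transfer_index_two S.not_dvd_index hi (u := φ c)
      (by rw [← map_pow]; exact (map_eq_one_iff φ hφ).2 (by decide)) with ⟨N, hN, hN2, -⟩ | ⟨g, k, hk, hg⟩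
    · exfalso
      rcases hN.eq_bot_or_eq_top with rfl | rfl
      · exact Inv.ZS.card_ne_two_of_not_comm hG (by rwa [index_bot] at hN2)
      · rw [index_top] at hN2; exact absurd hN2 (by norm_num)
    have hk1 : IsConj (φ k) (φ c) := (isConj_iff.2 ⟨g, hg.symm⟩).symm
    have hk2 : k * k = 1 := hφ (by
      rw [map_mul, hg, map_one, conj_mul, ← map_mul, show c * c = 1 by decide, map_one]; group)
    rcases invol_M α β k hk hk2 with rfl | rfl | ⟨l, hl⟩ | ⟨l, hl⟩
    · rw [map_one, isConj_one_right, map_eq_one_iff φ hφ] at hk1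
      exact absurd hk1 (by decide)
    · exact absurd hk1 h1
    · exact Or.inl ((conj l _ _ hl).symm.trans hk1)
    · exact Or.inr ((conj l _ _ hl).symm.trans hk1)
  have fin : ∀ b : K, b ≠ 1 → b ≠ c → b ≠ z → b ≠ z * c → IsConj (φ b) (φ c) →
      IsConj (φ (b * z)) (φ c) → IsConj (φ (b * c)) (φ c) → IsConj (φ (b * (z * c))) (φ c) →
      False := by
    intro b b1 b2 b3 b4 c1 c2 c3 c4
    obtain ⟨h, hh⟩ := isConj_iff.1 c1
    obtain ⟨n, hn, hn'⟩ := Inv.ST.exists_conj_mem_sylow S (N := centralizer ({φ c} : Set G))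
      (Q := ((S : Subgroup G) ⊓ centralizer ({φ b} : Set G)).map (MulAut.conj h).toMonoidHom)
      (fun s hs => mem_centralizer_singleton_iff.2 (cen c c_central s hs))
      ((S.isPGroup'.to_le inf_le_left).map _)
      (by rw [← hh, GT.centralizer_singleton_conj]; exact map_mono inf_le_right)
    have hb : n * h * φ b * (n * h)⁻¹ = φ c := by
      calc _ = n * (h * φ b * h⁻¹) * n⁻¹ := by group
        _ = φ c := by rw [hh, mem_centralizer_singleton_iff.1 hn]; group
    have ex : ∀ k : K, (∀ l, l * k = k * l) → ∃ k', n * h * φ k * (n * h)⁻¹ = φ k' := by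
      intro k hk
      obtain ⟨k', hk'⟩ := hmem.1 (hn' (h * φ k * h⁻¹) ⟨φ k, ⟨hmem.2 ⟨k, rfl⟩,
        mem_centralizer_singleton_iff.2 (by rw [← map_mul, ← hk, map_mul])⟩, rfl⟩)
      exact ⟨k', by rw [hk']; group⟩
    obtain ⟨x, hx⟩ := ex z z_central
    obtain ⟨y, hy⟩ := ex c c_central
    generalize n * h = g at hb hx hy
    have mul : ∀ {a a' d d' : K}, g * φ a * g⁻¹ = φ a' → g * φ d * g⁻¹ = φ d' →
        g * φ (a * d) * g⁻¹ = φ (a' * d') := fun h1 h2 => by
      rw [map_mul, map_mul, ← h1, ← h2]; group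
    have one : g * φ 1 * g⁻¹ = φ 1 := by simp
    have inj : ∀ {a a' d d' : K}, g * φ a * g⁻¹ = φ a' → g * φ d * g⁻¹ = φ d' →
        (a' = d' ↔ a = d) := fun h1 h2 => by
      rw [← hφ.eq_iff, ← h1, ← h2, mul_left_inj, mul_right_inj, hφ.eq_iff]
    have cj : ∀ {a a' : K}, g * φ a * g⁻¹ = φ a' → IsConj (φ a') (φ a) := fun h =>
      (isConj_iff.2 ⟨g, h⟩).symm
    rcases span x y ((inj (mul hx hx) one).2 (by decide)) ((inj (mul hy hy) one).2 (by decide))
      ((inj (mul hx hy) (mul hy hx)).2 (by decide)) (mt (inj hx one).1 (by decide))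
      (mt (inj hy one).1 (by decide)) (mt (inj hx hy).1 (by decide)) (mt (inj hx hb).1 b3.symm)
      (mt (inj hy hb).1 b2.symm) (mt (inj (mul hx hy) hb).1 b4.symm) with
      h | h | h | h | h | h
    · have := (cj (mul hb hx)).trans c2
      rw [← h] at this
      exact h3 this.symm
    · have := cj hy
      rw [← h] at this
      exact h1 this
    · have := cj (mul hx hy)
      rw [← h, ← z_central c] at this
      exact h2 this
    · have := (cj (mul hb hx)).trans c2
      rw [← h] at this
      exact h1 this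
    · have := (cj (mul hb hy)).trans c3
      rw [← h] at this
      exact h1 this
    · have := (cj (mul hb (mul hx hy))).trans c4
      rw [← h] at this
      exact h1 this
  have fin' : ∀ i : ZMod 4, IsConj (φ (Multiplicative.ofAdd 0, sr i)) (φ c) →
      IsConj (φ (Multiplicative.ofAdd 1, sr i)) (φ c) → False := by
    intro i a b
    refine fin (Multiplicative.ofAdd 0, sr i) (by clear a b; revert i; decide) (by clear a b; revert i; decide)
      (by clear a b; revert i; decide) (by clear a b; revert i; decide) a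
      ((conj (1, r 1) _ _ (by clear a b; revert i; decide)).trans a) ((conj 1 _ _ (by clear a b; revert i; decide)).trans b)
      ((conj (1, r 1) _ _ (by clear a b; revert i; decide)).trans b)
  rcases tr 0 0 with a | a
  · rcases tr 1 0 with b | b
    · exact fin' 0 a b
    · rcases tr 1 1 with d | d
      · exact fin' 0 a d
      · exact fin' 1 b d
  · rcases tr 0 1 with b | b
    · rcases tr 1 1 with d | d
      · exact fin' 0 b d
      · exact fin' 1 a d
    · exact fin' 1 a b

end Cfsg.Agent.S3309
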