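import Mathlib
import Cfsg.Statements.S3315
import Cfsg.Agent.Inv.U3Aut

set_option autoImplicit false
open Cfsg

namespace Cfsg.Agent.S3315

/-- Let S be a Sylow 2-subgroup of SU₃(2ⁿ), n ≥ 2 (realised over the field with 4ⁿ elements). If a finite 2-group R contains a subgroup S' of index 2 isomorphic to S, then the centre of S' is contained in the centre of R. -/
theorem result {R : Type*} [Group R] [Finite R]
    (hR : IsPGroup 2 R) (n : ℕ) (hn : 2 ≤ n) {F : Type*} [Field F] [Fintype F] (hF : Fintype.card F = 4 ^ n)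
    (P : Sylow 2 ↥(Cfsg.SU 3 F (2 ^ n))) (S' : Subgroup R) (hS : Nonempty (↥S' ≃* ↥(P : Subgroup ↥(Cfsg.SU 3 F (2 ^ n)))))
    (hidx : S'.index = 2) :
    (Subgroup.center ↥S').map S'.subtype ≤ Subgroup.center R := by
  obtain ⟨σ, hq⟩ := Cl.exists_uField (F := F) (q := 2 ^ n) (by rw [hF, ← pow_mul, mul_comm, pow_mul]; rfl)
  have : Fact (Cl.UInvol σ) := ⟨hq.invol⟩
  have : CharP F 2 := Cl.Aut.charP_of_card (p := 2) (f := n * 2) (by rw [hq.card, pow_mul])
  obtain ⟨e1⟩ := hS
  obtain ⟨e2⟩ := Inv.U3.sylow_SU hq P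
  let e := e1.trans e2
  have hn : S'.Normal := Subgroup.normal_of_index_eq_two hidx
  rintro _ ⟨z, hz, rfl⟩
  rw [Subgroup.mem_center_iff]
  intro r
  let α := MulAut.congr e (MulAut.conjNormal r : MulAut S')
  have hα : ∀ x, α (e x) = e (MulAut.conjNormal r x) := fun x => by simp [α]
  have hr : r * r ∈ S' := Subgroup.mul_self_mem_of_index_two hidx r
  have h1 := Inv.U3.UQ.fix_center_of_sq hq (α := α) (fun x => by
    obtain ⟨y, rfl⟩ := e.surjective x
    have : (MulAut.conjNormal r (MulAut.conjNormal r y) : S') = ⟨_, hr⟩ * y * ⟨_, hr⟩⁻¹ :=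
      Subtype.ext (by simp [mul_assoc])
    rw [hα, hα, this, map_mul, map_mul, map_inv]
    simp) (x := e z) ((Inv.U3.UQ.mem_center_iff _).1 (Subgroup.centerCongr e ⟨z, hz⟩).2)
  rw [hα, e.injective.eq_iff] at h1
  have h2 := congrArg Subtype.val h1
  simp only [MulAut.conjNormal_apply] at h2
  exact mul_inv_eq_iff_eq_mul.1 h2

end Cfsg.Agent.S3315
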