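import Cfsg.Statements.S3335
import Mathlib
import Cfsg.Agent.Sym.Present

set_option autoImplicit false
open Cfsg

namespace Cfsg.Agent.S3335

/-- A presentation of the alternating group of degree n ≥ 3 on generators x_1, …, x_{n−2} (indexed here by 0, …, n−3): the first generator cubes to 1, every other generator squares to 1, the product of two consecutive generators has order dividing 3, and the product of two generators at distance at least 2 has order dividing 2. The group so presented is isomorphic to the alternating group of degree n. -/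
theorem result (n : ℕ) (hn : 3 ≤ n) :
    Nonempty (PresentedGroup
      ({g : FreeGroup (Fin (n - 2)) | ∃ i : Fin (n - 2), i.val = 0 ∧ g = FreeGroup.of i ^ 3} ∪
       {g | ∃ i : Fin (n - 2), 1 ≤ i.val ∧ g = FreeGroup.of i ^ 2} ∪
       {g | ∃ i j : Fin (n - 2), j.val = i.val + 1 ∧ g = (FreeGroup.of i * FreeGroup.of j) ^ 3} ∪
       {g | ∃ i j : Fin (n - 2), i.val + 1 < j.val ∧ g = (FreeGroup.of i * FreeGroup.of j) ^ 2})
      ≃* alternatingGroup (Fin n)) := by
  obtain ⟨m, rfl⟩ : ∃ m, n = m + 3 := ⟨n - 3, by omega⟩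
  change Nonempty (PresentedGroup
      ({g : FreeGroup (Fin (m + 1)) | ∃ i : Fin (m + 1), i.val = 0 ∧ g = FreeGroup.of i ^ 3} ∪
       {g | ∃ i : Fin (m + 1), 1 ≤ i.val ∧ g = FreeGroup.of i ^ 2} ∪
       {g | ∃ i j : Fin (m + 1), j.val = i.val + 1 ∧ g = (FreeGroup.of i * FreeGroup.of j) ^ 3} ∪
       {g | ∃ i j : Fin (m + 1), i.val + 1 < j.val ∧ g = (FreeGroup.of i * FreeGroup.of j) ^ 2})
      ≃* alternatingGroup (Fin (m + 3)))
  set R := ({g : FreeGroup (Fin (m + 1)) | ∃ i : Fin (m + 1), i.val = 0 ∧ g = FreeGroup.of i ^ 3} ∪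
       {g | ∃ i : Fin (m + 1), 1 ≤ i.val ∧ g = FreeGroup.of i ^ 2} ∪
       {g | ∃ i j : Fin (m + 1), j.val = i.val + 1 ∧ g = (FreeGroup.of i * FreeGroup.of j) ^ 3} ∪
       {g | ∃ i j : Fin (m + 1), i.val + 1 < j.val ∧ g = (FreeGroup.of i * FreeGroup.of j) ^ 2})
    with hR
  obtain ⟨φ, hφ⟩ := Sym.exists_hom_of_moore m (PresentedGroup.of (rels := R))
    (PresentedGroup.one_of_mem (rels := R) (Or.inl (Or.inl (Or.inl ⟨0, rfl, rfl⟩))))
    (fun i hi => PresentedGroup.one_of_mem (rels := R)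
      (Or.inl (Or.inl (Or.inr ⟨i, Nat.pos_of_ne_zero (fun h => hi (Fin.ext h)), rfl⟩))))
    (fun i j h => PresentedGroup.one_of_mem (rels := R) (Or.inl (Or.inr ⟨i, j, h, rfl⟩)))
    (fun i j h => PresentedGroup.one_of_mem (rels := R) (Or.inr ⟨i, j, h, rfl⟩))
  have key : ∀ (i j : Fin (m + 1)), i.val < j.val →
      ((Sym.mooreGen m i * Sym.mooreGen m j : alternatingGroup (Fin (m + 3))) :
        Equiv.Perm (Fin (m + 3))) =
        Equiv.swap 0 1 * (Equiv.swap i.castSucc.succ i.succ.succ *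
          Equiv.swap j.castSucc.succ j.succ.succ) * (Equiv.swap 0 1)⁻¹ := by
    intro i j hij
    have hc : Commute (Equiv.swap (0 : Fin (m + 3)) 1) (Equiv.swap j.castSucc.succ j.succ.succ) := by
      refine Sym.commute_swap_swap ?_ ?_ ?_ ?_ <;>
        simp only [ne_eq, Fin.ext_iff, Fin.val_succ, Fin.val_castSucc, Fin.val_zero, Fin.val_one] <;>
        omega
    simp only [Sym.mooreGen, Subgroup.coe_mul, hc.eq, Equiv.swap_inv, mul_assoc]
  have hrel : ∀ r ∈ R, FreeGroup.lift (Sym.mooreGen m) r = 1 := by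
    rintro r (((⟨i, hi, rfl⟩ | ⟨i, hi, rfl⟩) | ⟨i, j, h, rfl⟩) | ⟨i, j, h, rfl⟩)
    · obtain rfl : i = 0 := Fin.ext hi
      rw [map_pow, FreeGroup.lift_apply_of]
      exact Subtype.ext (Sym.cyc3_pow_three (a := 0) (b := 1) (c := (0 : Fin (m + 1)).succ.succ)
        (by simp) (Fin.succ_ne_zero _).symm
        (by simp only [ne_eq, Fin.ext_iff, Fin.val_succ, Fin.val_castSucc, Fin.val_zero, Fin.val_one]; omega))
    · rw [map_pow, FreeGroup.lift_apply_of]
      refine Subtype.ext ?_
      simp only [Sym.mooreGen, SubmonoidClass.mk_pow, OneMemClass.coe_one]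
      rw [(Sym.commute_swap_swap ?_ ?_ ?_ ?_).mul_pow]
      · simp [pow_two]
      all_goals
        simp only [ne_eq, Fin.ext_iff, Fin.val_succ, Fin.val_castSucc, Fin.val_zero, Fin.val_one]
      all_goals omega
    · rw [map_pow, map_mul, FreeGroup.lift_apply_of, FreeGroup.lift_apply_of]
      refine Subtype.ext ?_
      rw [SubmonoidClass.coe_pow, key i j (by omega), conj_pow]
      have e : j.castSucc.succ = i.succ.succ := Fin.ext (by simp [h])
      rw [e, Sym.pow_three_of_braid (Equiv.swap_mul_self _ _) (Equiv.swap_mul_self _ _)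
        (Sym.swap_braid (by simp [Fin.ext_iff]) (by simp [Fin.ext_iff]; omega)
          (by simp [Fin.ext_iff]; omega))]
      simp
    · rw [map_pow, map_mul, FreeGroup.lift_apply_of, FreeGroup.lift_apply_of]
      refine Subtype.ext ?_
      rw [SubmonoidClass.coe_pow, key i j (by omega), conj_pow,
        (Sym.commute_swap_swap ?_ ?_ ?_ ?_).mul_pow]
      · simp [pow_two]
      all_goals
        simp only [ne_eq, Fin.ext_iff, Fin.val_succ, Fin.val_castSucc, Fin.val_zero, Fin.val_one]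
      all_goals omega
  let ψ := PresentedGroup.toGroup hrel
  have hψ : ∀ i, ψ (PresentedGroup.of i) = Sym.mooreGen m i := fun i =>
    PresentedGroup.toGroup.of hrel
  have h1 : ψ.comp φ = MonoidHom.id _ := by
    refine MonoidHom.eq_of_eqOn_dense (Sym.closure_mooreGen m) ?_
    rintro _ ⟨i, rfl⟩
    simp [hφ, hψ]
  have h2 : φ.comp ψ = MonoidHom.id _ := by
    refine PresentedGroup.ext fun i => ?_
    simp [hφ, hψ]
  exact ⟨MonoidHom.toMulEquiv ψ φ h2 h1⟩

end Cfsg.Agent.S3335
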