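import Mathlib
import Cfsg.Statements.S3349
import Cfsg.Agent.GT.PGroupBasic

set_option autoImplicit false
open Cfsg

namespace Cfsg.Agent.S3349

open Cfsg.Agent.GT Subgroup
open scoped commutatorElement

/-- Let Q be a finite extraspecial p-group and α an automorphism of Q fixing every element of some maximal abelian subgroup of Q. Then the order of α is a power of p. -/
theorem result {Q : Type*} [Group Q] [Finite Q]
    (p : ℕ) [Fact p.Prime] (hQ : Cfsg.IsExtraspecial p Q) (α : MulAut Q)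
    (A : Subgroup Q) (hA : IsMulCommutative A) (hmax : ∀ B : Subgroup Q, A ≤ B → IsMulCommutative B → B = A)
    (hfix : ∀ a ∈ A, α a = a) :
    ∃ k : ℕ, orderOf α = p ^ k := by
  have hCA : ∀ c : Q, (∀ a ∈ A, a * c = c * a) → c ∈ A := fun c hc => by
    have h1 : IsMulCommutative (closure ((A : Set Q) ∪ {c})) := by
      refine isMulCommutative_closure ?_
      rintro x (hx | rfl) y (hy | rfl)
      · exact congrArg Subtype.val (hA.is_comm.comm (⟨x, hx⟩ : A) ⟨y, hy⟩)
      · exact hc x hx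
      · exact (hc y hy).symm
      · rfl
    rw [← hmax _ (fun a ha => subset_closure (Or.inl ha)) h1]
    exact subset_closure (Or.inr rfl)
  have hconj : ∀ x : Q, ∀ a ∈ A, x⁻¹ * a * x ∈ A := fun x a ha => by
    have h1 : ⁅x⁻¹, a⁆ ∈ center Q := hQ.1.2.2 ▸ commutator_mem_commutator (mem_top _) (mem_top _)
    have h2 : ⁅x⁻¹, a⁆ ∈ A := hCA _ fun b _ => mem_center_iff.1 h1 b
    have : x⁻¹ * a * x = ⁅x⁻¹, a⁆ * a := by simp [commutatorElement_def]
    rw [this]
    exact A.mul_mem h2 ha
  have key : ∀ x : Q, α x * x⁻¹ ∈ A := fun x => hCA _ fun a ha => by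
    have h1 := hfix _ (hconj x a ha)
    rw [map_mul, map_mul, map_inv, hfix a ha] at h1
    calc a * (α x * x⁻¹) = α x * ((α x)⁻¹ * a * α x) * x⁻¹ := by group
      _ = _ := by rw [h1]; group
  have hpow : ∀ (x : Q) (n : ℕ), (α ^ n) x = (α x * x⁻¹) ^ n * x := fun x n => by
    induction n with
    | zero => simp
    | succ n ih =>
      rw [pow_succ', MulAut.mul_apply, ih, map_mul, hfix _ (A.pow_mem (key x) n), pow_succ]
      group
  obtain ⟨k, hk⟩ := hQ.1.1.exists_card_eq
  have h1 : α ^ p ^ k = 1 := by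
    ext x
    rw [hpow, ← hk, pow_card_eq_one', one_mul, MulAut.one_apply]
  obtain ⟨j, -, hj⟩ := (Nat.dvd_prime_pow Fact.out).1 (orderOf_dvd_of_pow_eq_one h1)
  exact ⟨j, hj⟩

end Cfsg.Agent.S3349
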