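import Mathlib
-- Template for statement S3359 (row 3359; see /opt/grader/pristine/manifest.json for weights).
-- Copy to Cfsg/Agent/S3359.lean and replace the sorry. The statement below is byte-identical to the frozen
-- statement Cfsg.CfsgFrozen.S3359 (Cfsg/Statements/S3359.lean; the theorem Cfsg.nonsolvable_frobenius_complement_structure);
-- the grader kernel-checks Cfsg.Agent.S3359.result against that frozen type. Keep the theorem IN THIS FILE
-- (a `result` declared elsewhere and merely imported here is not credited); helpers may live anywhere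
-- under Cfsg/Agent/.
import Cfsg.Statements.S3359
import Cfsg.Agent.GT.ZassenhausThm
-- import your own Cfsg.Agent.* helpers here

set_option autoImplicit false
open Cfsg

namespace Cfsg.Agent.S3359

/-- Structure of non-solvable Frobenius complements. Let G be a finite non-solvable group that occurs as a Frobenius complement. Then G has a normal subgroup G₀ of index 1 or 2 which is the direct product of a subgroup isomorphic to SL(2,5) and a subgroup M of order prime to 30 all of whose Sylow subgroups are cyclic. -/
theorem result {G : Type*} [Group G] [Finite G] (hns : ¬ Group.IsSolvable G)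
    (hFC : ∃ (L : Type) (_ : Group L) (_ : Finite L) (H : Subgroup L), Cfsg.IsFrobeniusComplement H ∧ Nonempty (G ≃* H)) :
    ∃ G₀ : Subgroup G, G₀.Normal ∧ (G₀.index = 1 ∨ G₀.index = 2) ∧
      ∃ S M : Subgroup G, S ⊔ M = G₀ ∧ S ⊓ M = ⊥ ∧ (∀ s ∈ S, ∀ x ∈ M, s * x = x * s) ∧
        Nonempty (S ≃* Matrix.SpecialLinearGroup (Fin 2) (ZMod 5)) ∧
        (∀ (p : ℕ) [Fact p.Prime] (P : Sylow p M), IsCyclic P) ∧ (Nat.card M).Coprime 30 := by
  obtain ⟨S, M, φ, h1, -, h2, h3, h4, h5, h6, h7⟩ :=
    (GT.Frob.hasFpfAction_of_exists hFC).1.nonsolvable hns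
  refine ⟨_, inferInstance, ?_, S, M, h5, h6, fun s hs x hx => (h2 ▸ h4 hx) s hs, h1,
    fun p _ P => ?_, h7⟩
  · rw [← Nat.dvd_prime Nat.prime_two, Subgroup.index_comap,
      ← alternatingGroup.index_eq_two (α := Fin 5)]
    exact Subgroup.relIndex_dvd_index_of_normal _ _
  · have := IsZGroup.of_injective (Subgroup.inclusion_injective h4)
    infer_instance
end Cfsg.Agent.S3359
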