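import Mathlib
import Cfsg.Agent.Perm.Basic
import Cfsg.Agent.Perm.PrimeDegree
import Cfsg.Agent.GT.NearField
import Cfsg.Agent.Cl.SylTwoGL2
import Cfsg.Agent.Inv.SmallTwo
import Cfsg.Agent.S3784
import Cfsg.Statements.S3370

set_option autoImplicit false
open Cfsg

namespace Cfsg.Agent.S3370

/-- Let q be a prime, V a non-trivial finite vector space over the field with q elements, and G a non-trivial finite p-group (p prime) acting faithfully and linearly on V and transitively on the non-zero vectors. Then either q = 2 and G has prime order p = |V| − 1; or p = 2, V has q elements with q = 2^m + 1 and G is cyclic of order 2^m; or p = 2, q = 3, V has 9 elements and G is cyclic of order 8, quaternion of order 8, or semidihedral of order 16. -/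
theorem result (q : ℕ) [Fact q.Prime] {V : Type*} [AddCommGroup V] [Module (ZMod q) V] [Finite V] [Nontrivial V]
    {G : Type*} [Group G] [Finite G] [Nontrivial G] (p : ℕ) [Fact p.Prime] (hG : IsPGroup p G)
    (ρ : G →* (V ≃ₗ[ZMod q] V)) (hρ : Function.Injective ρ)
    (htrans : ∀ v w : V, v ≠ 0 → w ≠ 0 → ∃ g : G, ρ g v = w) :
    (q = 2 ∧ p = Nat.card V - 1 ∧ Nat.card G = p) ∨
    (p = 2 ∧ Nat.card V = q ∧ (∃ m : ℕ, q = 2 ^ m + 1 ∧ Nat.card G = 2 ^ m) ∧ IsCyclic G) ∨
    (p = 2 ∧ q = 3 ∧ Nat.card V = 9 ∧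
      ((IsCyclic G ∧ Nat.card G = 8) ∨ Nonempty (G ≃* QuaternionGroup 2) ∨ (Cfsg.IsQuasiDihedral G ∧ Nat.card G = 16))) := by
  have hp : p.Prime := Fact.out
  have hq : q.Prime := Fact.out
  have hV := Module.natCard_eq_pow_finrank (K := ZMod q) (V := V)
  rw [Nat.card_zmod] at hV
  obtain ⟨k, hk⟩ := IsPGroup.iff_card.1 hG
  have h1 := GT.Frob.card_sub_one_dvd_of_trans htrans
  obtain ⟨a, -, ha⟩ := (Nat.dvd_prime_pow hp).1 (hk ▸ h1)
  have hV1 : 1 < Nat.card V := Finite.one_lt_card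
  let _ := DistribMulAction.compHom V ρ
  let S : SubMulAction G V := ⟨{0}ᶜ, fun g v hv => (ρ g).map_ne_zero_iff.2 hv⟩
  haveI : FaithfulSMul G S := ⟨fun {g h} e => hρ (LinearEquiv.ext fun v => by
    by_cases hv : v = 0
    · simp [hv]
    · exact congrArg Subtype.val (e ⟨v, hv⟩))⟩
  have h2 := Perm.card_dvd_factorial_of_faithful (G := G) (Ω := S)
  rw [show Nat.card S = p ^ a from (Set.ncard_compl _).trans (by rw [Set.ncard_singleton, ha])]
    at h2
  have hreg : Nat.card G = Nat.card V - 1 → GT.Frob.RegOn ρ := fun e v w hv hw => by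
    haveI : MulAction.IsPretransitive G S := ⟨fun v w => (htrans _ _ v.2 w.2).imp fun _ h =>
      Subtype.ext h⟩
    obtain ⟨g, hg⟩ := htrans v w hv hw
    have h3 := Perm.card_mul_card_stabilizer (G := G) (⟨v, hv⟩ : S)
    rw [show Nat.card S = Nat.card G from (Set.ncard_compl _).trans
      (by rw [Set.ncard_singleton, e]), mul_eq_left₀ Nat.card_pos.ne', Subgroup.card_eq_one] at h3
    refine ⟨g, hg, fun g' hg' => (inv_mul_eq_one.1 (Subgroup.mem_bot.1 (h3 ▸ Subtype.ext ?_))).symm⟩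
    change ρ (g⁻¹ * g') v = v
    rw [map_mul, LinearEquiv.mul_apply, hg', ← hg, ← LinearEquiv.mul_apply, ← map_mul]
    simp
  have ha0 : 1 ≤ a := Nat.pos_of_ne_zero fun e => Finite.one_lt_card.ne' (Nat.dvd_one.1
    (by simpa [e] using h2) : Nat.card G = 1)
  rcases S3784.result q p (Module.finrank (ZMod q) V) a hq hp Module.finrank_pos ha0 (by omega) with
    ⟨h3, rfl, -⟩ | ⟨rfl, h3, -, h4⟩ | ⟨h3, h4⟩
  · refine Or.inl ⟨h3, by rw [ha, pow_one], ?_⟩
    rw [pow_one] at ha
    have h4 := Perm.not_sq_dvd_card_of_prime_degree (G := G) (Ω := S) (p := p)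
      ((Set.ncard_compl _).trans (by rw [Set.ncard_singleton, ha]))
    rw [ha, hk] at h1
    rw [hk] at h4 ⊢
    rcases k with _ | _ | k
    · exact absurd (Nat.dvd_one.1 h1) hp.one_lt.ne'
    · simp
    · exact absurd (pow_dvd_pow p (by omega)) h4
  · have h5 : ∀ g : G, ∃ c : ZMod q, ∀ v, ρ g v = c • v := fun g =>
      (LinearMap.existsUnique_eq_smul_id_of_finrank_eq_one h3 (ρ g).toLinearMap).exists.imp
        fun _ h v => LinearMap.congr_fun h v
    have h6 : GT.Frob.RegOn ρ := fun v w hv hw => (htrans v w hv hw).imp fun g hg =>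
      ⟨hg, fun g' hg' => hρ (LinearEquiv.ext fun u => by
        obtain ⟨c, rfl⟩ := (finrank_eq_one_iff_of_nonzero' v hv).1 h3 u
        rw [map_smul, map_smul, hg, hg'])⟩
    haveI : IsMulCommutative G := ⟨⟨fun g h => hρ (LinearEquiv.ext fun v => by
      obtain ⟨c, hc⟩ := h5 g
      simp [hc])⟩⟩
    exact Or.inr (Or.inl ⟨rfl, by rw [hV, h3, pow_one], ⟨a, h4, h6.card.trans ha⟩,
      h6.hasFpfAction.isCyclic_of_comm⟩)
  obtain rfl : p = 2 := (Nat.prime_dvd_prime_iff_eq hp Nat.prime_two).1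
    (hp.dvd_of_dvd_pow (n := 3) ((dvd_pow_self p (by omega)).trans h4.dvd))
  obtain rfl : q = 3 := (Nat.prime_dvd_prime_iff_eq hq Nat.prime_three).1
    (hq.dvd_of_dvd_pow (n := 2) ((dvd_pow_self q Module.finrank_pos.ne').trans h3.dvd))
  have h5 : Module.finrank (ZMod 3) V = 2 := Nat.pow_right_injective (a := 3) (by norm_num) h3
  refine Or.inr (Or.inr ⟨rfl, rfl, hV.trans h3, ?_⟩)
  let ψ := (LinearMap.GeneralLinearGroup.generalLinearEquiv _ _).symm.trans
    (Matrix.GeneralLinearGroup.toLin' (Module.finBasisOfFinrankEq _ _ h5)).symm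
  let φ : G →* GL (Fin 2) (ZMod 3) := ψ.toMonoidHom.comp ρ
  have hφ : Function.Injective φ := ψ.injective.comp hρ
  obtain ⟨P, hP⟩ := (hG.of_surjective _ φ.rangeRestrict_surjective).exists_le_sylow
  have h6 : Nat.card P = 16 := by
    rw [P.card_eq_multiplicity, Matrix.card_GL_field]
    simp only [Fin.prod_univ_two, ZMod.card]
    decide +kernel
  have h7 : Nat.card φ.range = Nat.card G := Nat.card_congr (MonoidHom.ofInjective hφ).symm.toEquiv
  have h8 := Subgroup.card_dvd_of_le hP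
  rw [h7, h6] at h8
  rw [ha, h4] at h1 hreg
  by_cases h9 : Nat.card G = 8
  · rcases (hreg h9).hasFpfAction.isCyclic_or_quaternion hG with h | ⟨-, n, ⟨e⟩⟩
    · exact Or.inl ⟨h, h9⟩
    · have := Nat.card_congr e.toEquiv
      rw [h9, Nat.card_eq_fintype_card, QuaternionGroup.card] at this
      rw [show 2 ^ n = 2 by omega] at e
      exact Or.inr (Or.inl ⟨e⟩)
  · have h10 : Nat.card G = 16 := by
      have := Nat.le_of_dvd (by norm_num) h8
      have := Nat.card_pos (α := G)
      omega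
    refine Or.inr (Or.inr ⟨Inv.Fz.isQuasiDihedral_of_equiv ((MonoidHom.ofInjective hφ).trans
      (MulEquiv.subgroupCongr (Subgroup.eq_of_le_of_card_ge hP (by omega)))).symm
      (Cl.S2.gl_qd (by simp) P), h10⟩)

end Cfsg.Agent.S3370
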