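import Mathlib
import Cfsg.Agent.GT.PGroupChain
import Cfsg.Agent.GT.PGroupRank
import Cfsg.Agent.GT.PGroupMaxTwo
import Cfsg.Agent.GT.FrobeniusComplement
import Cfsg.Agent.GT.PGroupCyclicNormal
import Cfsg.Statements.S3380

set_option autoImplicit false
open Cfsg

namespace Cfsg.Agent.S3380

/-- Let a finite p-group G act faithfully and irreducibly on a non-trivial finite vector space V over the field with q elements (q prime), and suppose G is not cyclic, generalized quaternion, dihedral or semidihedral. Then G has a subgroup H of index p and V is the direct sum of p subspaces, each invariant under H, on none of which H acts faithfully, and which every element of G outside H permutes in a single p-cycle. -/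
theorem result
    (q : ℕ) [Fact q.Prime] {V : Type*} [AddCommGroup V] [Module (ZMod q) V] [Finite V] [Nontrivial V]
    {G : Type*} [Group G] [Finite G] (p : ℕ) [Fact p.Prime] (hG : IsPGroup p G)
    (ρ : G →* (V ≃ₗ[ZMod q] V)) (hρ : Function.Injective ρ)
    (hirr : ∀ W : Submodule (ZMod q) V, (∀ g : G, ∀ w ∈ W, ρ g w ∈ W) → W = ⊥ ∨ W = ⊤)
    (hnc : ¬ IsCyclic G) (hnq : ∀ n : ℕ, ¬ Nonempty (G ≃* QuaternionGroup n))
    (hnd : ∀ n : ℕ, ¬ Nonempty (G ≃* DihedralGroup n)) (hnsd : ¬ Cfsg.IsQuasiDihedral G) :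
    ∃ (H : Subgroup G) (W : Fin p → Submodule (ZMod q) V), H.index = p ∧
      iSup W = ⊤ ∧ iSupIndep W ∧
      (∀ h ∈ H, ∀ i, ∀ w ∈ W i, ρ h w ∈ W i) ∧
      (∀ i, ∃ h ∈ H, h ≠ 1 ∧ ∀ w ∈ W i, ρ h w = w) ∧
      ∀ g : G, g ∉ H → ∃ σ : Equiv.Perm (Fin p), orderOf σ = p ∧ ∀ i, (W i).map (ρ g : V →ₗ[ZMod q] V) = W (σ i) := by
  have hp : p.Prime := Fact.out
  obtain ⟨E, hEn, hE, hEc⟩ : ∃ E : Subgroup G, E.Normal ∧ IsElementaryAbelian p E ∧
      Nat.card E = p ^ 2 := by
    by_contra hc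
    rcases GT.PG.isCyclic_or_maxTwo_of_normal_abelian_isCyclic hG (fun A _ hA => by_contra fun h =>
      let ⟨B, _, h⟩ := GT.PG.exists_normal_elementary_sq_of_not_isCyclic hG A hA h; hc ⟨B, h⟩) with
      h | ⟨-, m, a, b, h, -⟩
    · exact hnc h
    · exact h.cases.elim (hnd _) fun h => h.elim (hnq _) fun h => hnsd h.2
  have hp2 : p < p ^ 2 := by nlinarith [hp.one_lt]
  obtain ⟨K, hKn, -, hKE, hK, hKc⟩ := GT.PG.exists_normal_card_eq_mul hG ⊥ E
    (bot_lt_iff_ne_bot.2 (by rintro rfl; simp at hEc; nlinarith [hp.one_lt]))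
  rw [Subgroup.card_bot, mul_one] at hK
  obtain ⟨E', -, -, hE', hE'c, hEK⟩ := GT.PG.exists_normal_card_eq_mul hG K E
    (lt_of_le_of_ne hKE (by rintro rfl; omega))
  obtain rfl := Subgroup.eq_of_le_of_card_ge hE' (by rw [hE'c, hK, hEc, sq])
  have hKz : ∀ z ∈ K, ∀ g, z * g = g * z := fun z hz g => commutatorElement_eq_one_iff_mul_comm.1
    (hKc (Subgroup.commutator_mem_commutator hz (Subgroup.mem_top g)))
  let W : G → Submodule (ZMod q) V := fun t => LinearMap.eqLocus (ρ t).toLinearMap LinearMap.id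
  have hW : ∀ t v, v ∈ W t ↔ ρ t v = v := fun _ _ => Iff.rfl
  have hmul : ∀ g h v, ρ (g * h) v = ρ g (ρ h v) := fun g h v => by rw [map_mul]; rfl
  have hcen : ∀ z, z ≠ 1 → (∀ g, z * g = g * z) → ∀ v, ρ z v = v → v = 0 := fun z hz hc v hv => by
    rcases hirr (W z) fun g w hw => by rw [hW, ← hmul, hc, hmul, (hW _ _).1 hw] with h | h
    · exact (Submodule.eq_bot_iff _).1 h v hv
    · exact absurd (hρ (LinearEquiv.ext fun v => by simpa using (hW z v).1 (h ▸ trivial))) hz
  let _ := DistribMulAction.compHom V ρ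
  obtain ⟨e, he, he1, v₀, hv₀, hev⟩ : ∃ e ∈ E', e ≠ 1 ∧ ∃ v, v ≠ 0 ∧ ρ e v = v := by
    by_contra hc
    push Not at hc
    haveI := hE.1
    have h1 := (GT.Frob.hasFpfAction_of_distribMulAction (A := E') V fun a ha v h =>
      by_contra fun hv => hc a a.2 (fun e => ha (Subtype.ext e)) v hv h).isCyclic_of_comm
    obtain ⟨g, hg⟩ := IsCyclic.exists_ofOrder_eq_natCard (α := E')
    have := Nat.le_of_dvd hp.pos (orderOf_dvd_of_pow_eq_one (Subtype.ext (hE.2 g g.2) : g ^ p = 1))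
    omega
  have hec : ¬ ∀ g, e * g = g * e := fun h => hv₀ (hcen e he1 h v₀ hev)
  obtain ⟨⟨z, hzK⟩, hz⟩ := exists_prime_orderOf_dvd_card' (G := K) p hK.symm.dvd
  rw [Subgroup.orderOf_mk] at hz
  have hz1 : ∀ k : ℤ, z ^ k = 1 ↔ (p : ℤ) ∣ k := fun k => by rw [← orderOf_dvd_iff_zpow_eq_one, hz]
  have hzm : ∀ k : ℕ, z ^ (k % p) = z ^ k := fun k => by rw [← hz, pow_mod_orderOf]
  let φ : G →* K := MonoidHom.mk' (fun g => ⟨e⁻¹ * g * e * g⁻¹, by
    simpa [commutatorElement_def] using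
      hEK (Subgroup.commutator_mem_commutator (inv_mem he) (Subgroup.mem_top g))⟩)
    fun g h => Subtype.ext (by
      have := hKz _ (hEK (Subgroup.commutator_mem_commutator (inv_mem he) (Subgroup.mem_top h))) g⁻¹
      simp only [commutatorElement_def, inv_inv] at this
      change e⁻¹ * (g * h) * e * (g * h)⁻¹ = e⁻¹ * g * e * g⁻¹ * (e⁻¹ * h * e * h⁻¹)
      rw [mul_assoc _ g⁻¹, ← this]
      group)
  have hφ : ∀ g, g * e * g⁻¹ = e * φ g := fun g => by simp [φ, mul_assoc]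
  have hc : ∀ g, ∃ c : Fin p, (φ g : G) = z ^ c.val := fun g => by
    obtain ⟨k, hk⟩ := mem_powers_of_prime_card hK (g := ⟨z, hzK⟩) (g' := φ g)
      (fun h => hp.one_lt.ne' (by rw [← hz, show z = 1 from Subtype.ext_iff.1 h, orderOf_one]))
    exact ⟨⟨k % p, Nat.mod_lt _ hp.pos⟩, by rw [← hk, hzm]; rfl⟩
  have hmap : ∀ g (c i : Fin p), (φ g : G) = z ^ c.val →
      (W (e * z ^ i.val)).map (ρ g : V →ₗ[ZMod q] V) = W (e * z ^ (i + c).val) := by
    intro g c i h
    have h1 : e * z ^ (i + c).val = g * (e * z ^ i.val) * g⁻¹ := by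
      rw [Fin.val_add, hzm, add_comm, pow_add, ← h, ← mul_assoc, ← hφ,
        mul_assoc, ← hKz _ (pow_mem hzK _)]
      group
    ext v
    rw [Submodule.mem_map_equiv, hW, hW, h1, hmul _ g⁻¹, hmul g, map_inv,
      ← (ρ g).eq_symm_apply]
    rfl
  have hpq : (p : ZMod q) ≠ 0 := fun h => by
    have h1 := GT.Frob.card_dvd_card_sub_one_of_free (A := K) (0 : V) (fun _ => smul_zero _)
      fun a v hv h => by_contra fun ha => hv (hcen a (fun e => ha (Subtype.ext e)) (hKz a a.2) v h)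
    rw [ZMod.natCast_eq_zero_iff, Nat.prime_dvd_prime_iff_eq Fact.out hp] at h
    rw [hK, Module.natCard_eq_pow_finrank (K := ZMod q), Nat.card_zmod, ← h] at h1
    exact hp.one_lt.ne' (h ▸ Nat.dvd_one.1 ((Nat.dvd_sub_iff_right (Nat.one_le_pow _ _ (h ▸ hp.pos))
      (dvd_pow_self q Module.finrank_pos.ne')).1 h1))
  refine ⟨φ.ker, fun i => W (e * z ^ i.val), ?_, ?_, fun i => ?_, fun h hh i w hw => ?_,
    fun i => ⟨e * z ^ i.val, ?_, fun h => ?_, fun w hw => hw⟩, fun g hg => ?_⟩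
  · rw [Subgroup.index_ker]
    refine ((Nat.dvd_prime hp).1 (hK ▸ φ.range.card_subgroup_dvd_card)).resolve_left fun h =>
      hec fun g => ?_
    have := hφ g
    rw [show φ g = 1 from (Subgroup.card_eq_one.1 h).le ⟨g, rfl⟩] at this
    exact (mul_inv_eq_iff_eq_mul.1 (this.trans (mul_one e))).symm
  · refine (hirr _ fun g w hw => ?_).resolve_left fun h => hv₀ ((Submodule.eq_bot_iff _).1 h v₀
      (Submodule.mem_iSup_of_mem 0 (by simpa [hW] using hev)))
    obtain ⟨c, hc⟩ := hc g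
    exact Submodule.mem_comap.1 ((iSup_le fun i => Submodule.map_le_iff_le_comap.1
      ((hmap g c i hc).le.trans (le_iSup (fun i : Fin p => W (e * z ^ i.val)) _))) hw)
  · let N : V →ₗ[ZMod q] V := ∑ k ∈ Finset.range p, (ρ ((e * z ^ i.val) ^ k) : V →ₗ[ZMod q] V)
    have hN : ⨆ j, ⨆ (_ : j ≠ i), W (e * z ^ j.val) ≤ LinearMap.ker N := by
      refine iSup₂_le fun j hj v hv => ?_
      have h1 : ∀ k : ℕ, ρ ((e * z ^ i.val) ^ k) v = ρ ((z ^ ((i.val : ℤ) - j.val)) ^ k) v := by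
        intro k
        have h2 : e * z ^ i.val = z ^ ((i.val : ℤ) - j.val) * (e * z ^ j.val) := by
          rw [← mul_assoc, hKz _ (zpow_mem hzK _)]
          group
        rw [h2, Commute.mul_pow (hKz _ (zpow_mem hzK _) _), hmul]
        exact congrArg _ (pow_mem (show e * z ^ j.val ∈ MulAction.stabilizer G v from hv) k)
      refine hcen (z ^ ((i.val : ℤ) - j.val)) (fun h => hj (Fin.ext ?_))
        (hKz _ (zpow_mem hzK _)) _ ?_
      · have := Int.eq_zero_of_abs_lt_dvd ((hz1 _).1 h) (by rw [abs_lt]; omega)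
        omega
      · simp only [N, LinearMap.sum_apply, LinearEquiv.coe_coe, h1, map_sum, ← hmul, ← pow_succ']
        have h2 := Finset.sum_range_succ (fun k => ρ ((z ^ ((i.val : ℤ) - j.val)) ^ k) v) p
        rw [Finset.sum_range_succ', ← zpow_natCast _ p, ← zpow_mul, (hz1 _).2 (dvd_mul_left _ _),
          pow_zero] at h2
        exact add_right_cancel h2
    refine Submodule.disjoint_def.2 fun v hv hv' => (smul_eq_zero.1 ?_).resolve_left hpq
    rw [← LinearMap.mem_ker.1 (hN hv'), Nat.cast_smul_eq_nsmul, LinearMap.sum_apply]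
    refine Eq.trans (by simp) (Finset.sum_congr rfl (g := fun _ => v) fun k _ =>
        pow_mem (show e * z ^ i.val ∈ MulAction.stabilizer G v from hv) k).symm
  · have := hmap h 0 i (by simp [MonoidHom.mem_ker.1 hh])
    rw [add_zero] at this
    exact this.le ⟨w, hw, rfl⟩
  · refine mul_mem (Subtype.ext (by simp [φ])) (Subtype.ext ?_)
    change e⁻¹ * z ^ i.val * e * (z ^ i.val)⁻¹ = 1
    rw [mul_assoc e⁻¹, hKz _ (pow_mem hzK _)]
    group
  · refine hec fun g => ?_
    rw [eq_inv_of_mul_eq_one_left h, hKz _ (inv_mem (pow_mem hzK _))]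
  · obtain ⟨c, hc⟩ := hc g
    refine ⟨Equiv.addRight c, orderOf_eq_prime (Equiv.ext fun i => by
      simpa using card_nsmul_eq_zero (x := c)) fun h => hg ?_,
      fun i => hmap g c i hc⟩
    have : c = 0 := by simpa using Equiv.congr_fun h 0
    exact Subtype.ext (by simp [hc, this])

end Cfsg.Agent.S3380
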