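import Mathlib
import Cfsg.Agent.Perm.Basic
import Cfsg.Statements.S3381

set_option autoImplicit false
open Cfsg

namespace Cfsg.Agent.S3381

/-- Let G be a finite group acting faithfully and linearly on a non-trivial finite vector space V over the field with q elements (q prime) so that every non-zero vector has a stabilizer of order 2, and suppose G has a central involution. Then V has q^(2r) elements for some r and G contains exactly q^r + 1 non-central involutions. -/
theorem result
    (q : ℕ) [Fact q.Prime] {V : Type*} [AddCommGroup V] [Module (ZMod q) V] [Finite V] [Nontrivial V]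
    {G : Type*} [Group G] [Finite G] (ρ : G →* (V ≃ₗ[ZMod q] V)) (hρ : Function.Injective ρ)
    (hstab : ∀ v : V, v ≠ 0 → Nat.card {g : G // ρ g v = v} = 2)
    (z : G) (hz : orderOf z = 2) (hzc : z ∈ Subgroup.center G) :
    ∃ r : ℕ, Nat.card V = q ^ (2 * r) ∧
      Nat.card {g : G // orderOf g = 2 ∧ g ∉ Subgroup.center G} = q ^ r + 1 := by
  classical
  have hinv : ∀ v, v ≠ 0 → ∃ t, orderOf t = 2 ∧ ρ t v = v ∧ ∀ g, ρ g v = v → g = 1 ∨ g = t := by
    intro v hv
    obtain ⟨t, ht, hu⟩ := (Nat.card_eq_two_iff' (⟨1, by simp⟩ : {g // ρ g v = v})).1 (hstab v hv)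
    have h1 : ∀ g, ρ g v = v → g = 1 ∨ g = t := fun g hg => or_iff_not_imp_left.2 fun h =>
      congrArg Subtype.val (hu ⟨g, hg⟩ fun e => h (congrArg Subtype.val e))
    have h2 : t.1 ≠ 1 := fun e => ht (Subtype.ext e)
    refine ⟨t, orderOf_eq_prime ?_ h2, t.2, h1⟩
    rw [sq]
    exact (h1 _ (by rw [map_mul, LinearEquiv.mul_apply, t.2, t.2])).resolve_right
      fun e => h2 (mul_eq_left.1 e)
  have hsq : ∀ t : G, orderOf t = 2 → ∀ v, ρ t (ρ t v) = v := fun t ht v => by
    rw [← LinearEquiv.mul_apply, ← map_mul, ← sq, ← ht, pow_orderOf_eq_one, map_one]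
    rfl
  have hne : ∀ t : G, orderOf t = 2 → t ≠ 1 := by
    rintro _ h rfl
    simp at h
  have hex : ∀ t : G, t ≠ 1 → ∃ v, ρ t v ≠ v := fun t ht => by
    by_contra hc
    push Not at hc
    exact ht (hρ (LinearEquiv.ext fun v => by simp [hc]))
  have hcen : ∀ z : G, orderOf z = 2 → z ∈ Subgroup.center G → ∀ v, ρ z v = -v := by
    intro z hz hzc
    have h1 : ∀ v, ρ z v ≠ v → ρ z v = -v := fun v hv => by
      obtain ⟨t, ht, h2, -⟩ := hinv v (by rintro rfl; simp at hv)
      by_contra h3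
      obtain ⟨s, -, -, h4⟩ := hinv (ρ z v + v) fun e => h3 (eq_neg_of_add_eq_zero_left e)
      have h5 := (h4 z (by rw [map_add, hsq z hz, add_comm])).resolve_left (hne z hz)
      have h6 := (h4 t (by rw [map_add, h2, ← LinearEquiv.mul_apply, ← map_mul,
        Subgroup.mem_center_iff.1 hzc, map_mul, LinearEquiv.mul_apply, h2])).resolve_left (hne t ht)
      exact hv (by rw [h5, ← h6, h2])
    intro w
    by_contra hw
    have h2 : ρ z w = w := by_contra fun e => hw (h1 w e)
    obtain ⟨v, hv⟩ := hex z (hne z hz)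
    have h3 := h1 (v + w) (by rw [map_add, h2]; simpa using hv)
    rw [map_add, h1 v hv, neg_add, add_right_inj] at h3
    exact hw h3
  have hz' := hcen z hz hzc
  have h2 : (2 : ZMod q) ≠ 0 := fun e => by
    obtain ⟨v, hv⟩ := hex z (hne z hz)
    exact hv (by rw [hz', neg_eq_iff_add_eq_zero, ← two_smul (ZMod q), e, zero_smul])
  have h2' : ∀ v : V, -v = v → v = 0 := fun v h => by
    rw [neg_eq_iff_add_eq_zero, ← two_smul (ZMod q)] at h
    exact (smul_eq_zero.1 h).resolve_left h2
  let W : G → Submodule (ZMod q) V := fun t => LinearMap.eqLocus (ρ t).toLinearMap LinearMap.id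
  have hW : ∀ t v, v ∈ W t ↔ ρ t v = v := fun _ _ => Iff.rfl
  have hz2 : ∀ t v, ρ (z * t) v = -ρ t v := fun t v => by
    rw [map_mul, LinearEquiv.mul_apply, hz']
  have hdis : ∀ s t, s ≠ 1 → t ≠ 1 → s ≠ t → Module.finrank (ZMod q) (W s) +
      Module.finrank (ZMod q) (W t) ≤ Module.finrank (ZMod q) V := fun s t hs ht hst =>
    Submodule.finrank_add_finrank_le_of_disjoint (Submodule.disjoint_def.2 fun v h1 h3 => by
      by_contra hv
      obtain ⟨u, -, -, hu⟩ := hinv v hv
      exact hst (((hu s h1).resolve_left hs).trans ((hu t h3).resolve_left ht).symm))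
  have hcompl : ∀ t, orderOf t = 2 → Module.finrank (ZMod q) (W t) +
      Module.finrank (ZMod q) (W (z * t)) = Module.finrank (ZMod q) V := fun t ht =>
    Submodule.finrank_add_eq_of_isCompl ⟨Submodule.disjoint_def.2 fun v h1 h3 =>
      h2' v (by rwa [hW, hz2, (hW _ _).1 h1] at h3), codisjoint_iff.2 (eq_top_iff.2 fun v _ =>
        (Submodule.smul_mem_iff _ h2).1 (Submodule.mem_sup.2 ⟨v + ρ t v, by
          rw [hW, map_add, hsq t ht, add_comm], v - ρ t v, by
          rw [hW, hz2, map_sub, hsq t ht, neg_sub], by rw [two_smul]; abel⟩))⟩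
  have hzt : ∀ t, orderOf t = 2 → t ≠ z → z * t ≠ 1 := fun t ht h e => h (by
    rw [eq_inv_of_mul_eq_one_right e, inv_eq_iff_mul_eq_one, ← sq, ← hz, pow_orderOf_eq_one])
  have hfix : ∀ t, orderOf t = 2 → t ≠ z → ∃ v, v ≠ 0 ∧ ρ t v = v := fun t ht h => by
    obtain ⟨v, hv⟩ := hex _ (hzt t ht h)
    exact ⟨ρ t v + v, fun e => hv (by rw [hz2, eq_neg_of_add_eq_zero_left e, neg_neg]),
      by rw [map_add, hsq t ht, add_comm]⟩
  have hdim : ∀ t, orderOf t = 2 → t ≠ z →
      2 * Module.finrank (ZMod q) (W t) = Module.finrank (ZMod q) V := fun t ht h => by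
    obtain ⟨v, hv, hv'⟩ := hfix t ht h
    obtain ⟨w, hw⟩ := hex t (hne t ht)
    have hw' : ρ t (w - ρ t w) = -(w - ρ t w) := by rw [map_sub, hsq t ht, neg_sub]
    have hw0 : w - ρ t w ≠ 0 := sub_ne_zero.2 hw.symm
    generalize w - ρ t w = u at hw' hw0
    have h0 : v + u ≠ 0 := fun e => hw0 (h2' u (by
      rw [← hw', eq_neg_of_add_eq_zero_right e, map_neg, hv']))
    obtain ⟨s, hs, hs', -⟩ := hinv (v + u) h0
    have e0 : s ≠ z := fun e => h0 (h2' _ (by rwa [e, hz'] at hs'))
    have e1 : s ≠ t := fun e => hw0 (h2' _ (by rwa [e, map_add, hv', hw', add_right_inj] at hs'))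
    have e2 : s ≠ z * t := fun e => hv (h2' _ (by
      rwa [e, hz2, map_add, hv', hw', neg_add, neg_neg, add_left_inj] at hs'))
    have e3 : z * s ≠ t := fun e => e2 (by
      rw [← e, ← mul_assoc, ← sq, ← hz, pow_orderOf_eq_one, one_mul])
    have := hdis _ _ (hne s hs) (hzt t ht h) e2
    have := hdis _ _ (hzt s hs e0) (hne t ht) e3
    have := hdis _ _ (hne s hs) (hne t ht) e1
    have := hdis _ _ (hzt s hs e0) (hzt t ht h) fun e => e1 (mul_left_cancel e)
    have := hcompl s hs
    have := hcompl t ht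
    omega
  have hT : ∀ t, orderOf t = 2 ∧ t ∉ Subgroup.center G ↔ orderOf t = 2 ∧ t ≠ z := fun t =>
    and_congr_right fun ht => not_congr ⟨fun h => hρ (LinearEquiv.ext fun v => by
      rw [hcen t ht h, hz']), fun h => h ▸ hzc⟩
  have hnz : ∀ t v, v ≠ 0 → ρ t v = v → t ≠ z := fun t v hv h e =>
    hv (h2' v (by rwa [e, hz'] at h))
  obtain ⟨v₀, hv₀⟩ := exists_ne (0 : V)
  obtain ⟨t₀, ht₀, h₀, -⟩ := hinv v₀ hv₀
  have h3 := hdim t₀ ht₀ (hnz _ _ hv₀ h₀)
  set r := Module.finrank (ZMod q) (W t₀)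
  have hV : Nat.card V = q ^ (2 * r) := by
    rw [Module.natCard_eq_pow_finrank (K := ZMod q), Nat.card_zmod, h3]
  refine ⟨r, hV, ?_⟩
  haveI := Fintype.ofFinite G
  haveI := Fintype.ofFinite V
  have h4 := Finset.card_mul_eq_card_mul (s := Finset.univ.filter fun t => orderOf t = 2 ∧ t ≠ z)
    (t := Finset.univ.erase (0 : V)) (m := q ^ r - 1) (n := 1) (fun t v => ρ t v = v)
    (fun t ht => by
      rw [Finset.mem_filter] at ht
      have h4 := Module.natCard_eq_pow_finrank (K := ZMod q) (V := W t)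
      rw [Nat.card_zmod, show Module.finrank (ZMod q) (W t) = r by
        have := hdim t ht.2.1 ht.2.2; omega, Nat.card_eq_fintype_card, Fintype.card_subtype] at h4
      rw [← h4, ← Finset.card_erase_of_mem (a := 0) (by simp), Finset.bipartiteAbove,
        Finset.filter_erase]
      rfl)
    fun v hv => by
      obtain ⟨t, ht, h5, h6⟩ := hinv v (Finset.ne_of_mem_erase hv)
      refine Finset.card_eq_one.2 ⟨t, Finset.eq_singleton_iff_unique_mem.2 ⟨by
        simp [ht, h5, hnz t v (Finset.ne_of_mem_erase hv) h5], fun s hs => ?_⟩⟩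
      simp only [Finset.mem_bipartiteBelow, Finset.mem_filter] at hs
      exact (h6 s hs.2).resolve_left (hne s hs.1.2.1)
  rw [Finset.card_erase_of_mem (Finset.mem_univ _), Finset.card_univ, ← Nat.card_eq_fintype_card,
    hV, mul_one, two_mul, pow_add, ← mul_one 1, Nat.mul_self_sub_mul_self_eq, mul_one] at h4
  have h5 : 0 < r := by have := Module.finrank_pos (R := ZMod q) (M := V); omega
  rw [Nat.card_eq_fintype_card, Fintype.card_subtype, Finset.filter_congr fun t _ => hT t]
  exact Nat.eq_of_mul_eq_mul_right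
    (Nat.sub_pos_of_lt (Nat.one_lt_pow h5.ne' (Fact.out : q.Prime).one_lt)) h4

end Cfsg.Agent.S3381
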