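import Mathlib
import Cfsg.Statements.S3389
import Cfsg.Agent.GT.PGroupBasic
import Cfsg.Agent.GT.NilpotentMaximal

set_option autoImplicit false
open Cfsg

namespace Cfsg.Agent.S3389

open Cfsg.Agent.GT Subgroup MulAction

/-- A `p`-element permuting a set of fewer than `p` points fixes them. -/
theorem fix_of_lt {G Ω : Type*} [Group G] [Finite Ω] [MulAction G Ω] {p : ℕ} (hp : p.Prime) {x : G}
    {j : ℕ} (hx : x ^ p ^ j = 1) {F : Set Ω} (hF : Nat.card F < p) (hxF : ∀ a ∈ F, x • a ∈ F)
    {a : Ω} (ha : a ∈ F) : x • a = a := by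
  have h1 : period x a ∣ p ^ j := pow_smul_eq_iff_period_dvd.1 (by rw [hx, one_smul])
  obtain ⟨i, -, hi⟩ := (Nat.dvd_prime_pow hp).1 h1
  have h2 : ∀ n : ℕ, x ^ n • a ∈ F := fun n => by
    induction n with
    | zero => simpa using ha
    | succ n ih => rw [pow_succ', mul_smul]; exact hxF _ ih
  have h3 : period x a ≤ Nat.card F := by
    have := Nat.card_le_card_of_injective (fun n : Fin (period x a) => (⟨x ^ n.1 • a, h2 n⟩ : F))
      fun m n e => Fin.ext (by
        have e' : (x • ·)^[m] a = (x • ·)^[n] a := by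
          simpa [smul_iterate_apply] using congrArg Subtype.val e
        exact Function.iterate_injOn_Iio_minimalPeriod m.2 n.2 e')
    simpa using this
  rcases i with _ | i
  · exact period_eq_one_iff.1 (by simpa using hi)
  · have : p ≤ p ^ (i + 1) := Nat.le_self_pow (by omega) p
    omega

/-- A maximal `p`-subgroup of a pointwise stabilizer is a Sylow subgroup when `p` exceeds the
fixity. -/
theorem exists_sylow {G Ω : Type*} [Group G] [Finite G] [Finite Ω] [MulAction G Ω] {k p : ℕ}
    [hp : Fact p.Prime] (hfix : ∀ g : G, g ≠ 1 → Nat.card (fixedBy Ω g) ≤ k) (hk : k < p) {g : G}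
    (hg : orderOf g = p) {T : Set Ω} (hT : ∀ a ∈ T, g • a = a) :
    ∃ S : Sylow p G, g ∈ (S : Subgroup G) ∧ ∀ s ∈ (S : Subgroup G), ∀ a ∈ T, s • a = a := by
  have hg1 : g ≠ 1 := fun e => hp.out.one_lt.ne (by rw [← hg, e, orderOf_one])
  obtain ⟨S, hS⟩ := (IsPGroup.of_card (G := zpowers g) (n := 1)
    (by rw [Nat.card_zpowers, hg, pow_one])).exists_le_sylow
  have := S.2.isNilpotent
  refine ⟨S, hS (mem_zpowers g), ?_⟩
  let P : Subgroup G := (S : Subgroup G) ⊓ fixingSubgroup G T
  have hgP : g ∈ P := ⟨hS (mem_zpowers g), (mem_fixingSubgroup_iff G).2 hT⟩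
  by_contra hne
  have hlt : P < S := lt_of_le_of_ne inf_le_left fun e => hne fun s hs =>
    (mem_fixingSubgroup_iff G).1 (e.ge hs).2
  obtain ⟨x, hxS, hxP, hxN⟩ := PG.exists_mem_normalizer_notMem hlt
  obtain ⟨j, hj⟩ := S.2 ⟨x, hxS⟩
  refine hxP ⟨hxS, (mem_fixingSubgroup_iff G).2 fun a ha => ?_⟩
  refine fix_of_lt hp.out (congrArg Subtype.val hj) (F := {b | ∀ y ∈ P, y • b = b}) ?_ ?_
    fun y hy => (mem_fixingSubgroup_iff G).1 hy.2 a ha
  · exact lt_of_le_of_lt ((Nat.card_mono (Set.toFinite _)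
      fun b (hb : ∀ y ∈ P, y • b = b) => hb g hgP).trans (hfix g hg1)) hk
  · intro b hb y hy
    have := hb _ ((mem_normalizer_iff''.1 hxN y).1 hy)
    rw [mul_smul, mul_smul, inv_smul_eq_iff] at this
    exact this

/-- Let G be a finite group acting faithfully and transitively on a finite set Ω with fixity k ≥ 1: every non-identity element fixes at most k points and some non-identity element fixes exactly k points. Then |Z(G)| divides k; if k = 2 then |G| is even; and for every prime p > k dividing |G| and every point α, either p does not divide |G_α| or G_α contains a Sylow p-subgroup of G. -/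
theorem result {G : Type*} [Group G] [Finite G] {Ω : Type*} [Fintype Ω] [MulAction G Ω] [FaithfulSMul G Ω]
    (htr : MulAction.IsPretransitive G Ω) (k : ℕ) (hk : 1 ≤ k)
    (hfix : ∀ g : G, g ≠ 1 → Nat.card (MulAction.fixedBy Ω g) ≤ k) (hex : ∃ g : G, g ≠ 1 ∧ Nat.card (MulAction.fixedBy Ω g) = k) :
    Nat.card (Subgroup.center G) ∣ k ∧ (k = 2 → 2 ∣ Nat.card G) ∧
      ∀ (p : ℕ), p.Prime → k < p → p ∣ Nat.card G → ∀ α : Ω,
        ¬ p ∣ Nat.card (MulAction.stabilizer G α) ∨ ¬ p ∣ (MulAction.stabilizer G α).index := by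
  obtain ⟨g, hg1, hg⟩ := hex
  refine ⟨?_, fun h2 => ?_, fun p hp hkp _ α => ?_⟩
  · let F : SubMulAction (center G) Ω :=
      { carrier := fixedBy Ω g
        smul_mem' := fun z a ha => by
          change g • (z : G) • a = (z : G) • a
          rw [← mul_smul, mem_center_iff.1 z.2 g, mul_smul, mem_fixedBy.1 ha] }
    have e := selfEquivOrbitsQuotientProd (G := center G) (X := F) fun b => by
      rw [eq_bot_iff]
      intro z hz
      have h1 : (z : G) • (b : Ω) = b := congrArg Subtype.val hz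
      refine mem_bot.2 (Subtype.ext (eq_of_smul_eq_smul (α := Ω) fun a => ?_))
      obtain ⟨h, rfl⟩ := htr.exists_smul_eq (b : Ω) a
      rw [← mul_smul, ← mem_center_iff.1 z.2 h, mul_smul, h1, OneMemClass.coe_one, one_smul]
    rw [← hg, show Nat.card (fixedBy Ω g) = Nat.card F from rfl, Nat.card_congr e, Nat.card_prod]
    exact Dvd.intro_left _ rfl
  · subst h2
    by_contra hodd
    obtain ⟨p, hp, hd⟩ := Nat.exists_prime_and_dvd (fun e => hg1 (orderOf_eq_one_iff.1 e))
    have := Fact.mk hp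
    have hp2 : 2 < p := lt_of_le_of_ne hp.two_le fun e =>
      hodd (e ▸ hd.trans (orderOf_dvd_natCard g))
    have ho := orderOf_pow_orderOf_div (orderOf_pos g).ne' hd
    obtain ⟨α, β, hab, hF⟩ := Set.ncard_eq_two.1 (show (fixedBy Ω g).ncard = 2 from hg)
    obtain ⟨S, hgS, hS⟩ := exists_sylow hfix hp2 ho (T := fixedBy Ω g) fun a ha =>
      (stabilizer G a).pow_mem ha _
    have hα : α ∈ fixedBy Ω g := by rw [hF]; simp
    have hβ : β ∈ fixedBy Ω g := by rw [hF]; simp
    obtain ⟨h, hh⟩ := htr.exists_smul_eq α β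
    have h1 : (S : Subgroup G) ≤ stabilizer G β := fun s hs => hS s hs β hβ
    have h3 : ((h • S : Sylow p G) : Subgroup G) ≤ stabilizer G β := by
      rintro _ ⟨s, hs, rfl⟩
      change (h * s * h⁻¹) • β = β
      rw [← hh, mul_smul, inv_smul_smul, mul_smul, hS s hs α hα]
    obtain ⟨y, hy⟩ := exists_smul_eq (stabilizer G β) ((h • S).subtype h3) (S.subtype h1)
    simp_rw [Sylow.smul_subtype, Subgroup.smul_def, smul_smul] at hy
    have h4 := Sylow.smul_eq_iff_mem_normalizer.1 (Sylow.subtype_injective hy)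
    have h5 : ((y : G) * h) • α = β := by rw [mul_smul, hh]; exact y.2
    generalize (y : G) * h = n at h4 h5
    have hg' : g ^ (orderOf g / p) ≠ 1 := fun e => hp.one_lt.ne (by rw [← ho, e, orderOf_one])
    have h6 : fixedBy Ω (g ^ (orderOf g / p)) = {α, β} := by
      refine (Set.eq_of_subset_of_ncard_le (fun a ha => hS _ hgS a (hF ▸ ha)) ?_).symm
      rw [Set.ncard_pair hab]
      exact hfix _ hg'
    have h7 : n • β = α := by
      have h8 := hS _ ((mem_normalizer_iff''.1 h4 _).1 hgS) β hβ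
      rw [mul_smul, mul_smul, inv_smul_eq_iff] at h8
      have h9 : n • β ∈ ({α, β} : Set Ω) := h6 ▸ h8
      exact h9.resolve_right fun e => hab (smul_left_cancel n (h5.trans e.symm))
    obtain ⟨m, hm⟩ := Nat.not_even_iff_odd.1 fun e => hodd (even_iff_two_dvd.1 e)
    have h10 : (n ^ 2) ^ m • α = α := (stabilizer G α).pow_mem
      (show n ^ 2 • α = α by rw [sq, mul_smul, h5, h7]) m
    have h11 : n ^ Nat.card G • α = β := by rw [hm, pow_succ', pow_mul, mul_smul, h10, h5]
    rw [pow_card_eq_one', one_smul] at h11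
    exact hab h11
  · have := Fact.mk hp
    rw [or_iff_not_imp_left, not_not]
    intro hd hi
    obtain ⟨x, hx, ho⟩ := exists_mem_orderOf_eq_prime hp hd
    obtain ⟨S, -, hS⟩ := exists_sylow hfix hkp ho (T := {α}) (by rintro _ rfl; exact hx)
    exact S.not_dvd_index (hi.trans (index_dvd_of_le fun s hs => hS s hs α rfl))

end Cfsg.Agent.S3389
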