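import Mathlib
import Cfsg.Statements.S3391
import Cfsg.Agent.Chev.SzPart
import Cfsg.Agent.Chev.SzLie
-- import your own Cfsg.Agent.* helpers here

set_option autoImplicit false
open Cfsg

namespace Cfsg.Agent.S3391

open Cfsg.Agent.Chev.Sz

open MulAction

theorem relIndex_le_two {G Ω : Type*} [Group G] [Finite Ω] [MulAction G Ω] {K : Subgroup G} {α : Ω}
    {g : G} (hK : ∀ x ∈ K, g • x • α = x • α) (h : Nat.card (fixedBy Ω g) ≤ 2) :
    (stabilizer G α).relIndex K = 1 ∨ (stabilizer G α).relIndex K = 2 := by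
  have h1 : (stabilizer G α).relIndex K = (orbit K α).ncard := index_stabilizer K α
  have h2 : (orbit K α).ncard ≤ (fixedBy Ω g).ncard := Set.ncard_le_ncard (by
    rintro _ ⟨x, rfl⟩
    exact hK x x.2) (Set.toFinite _)
  have h3 : (orbit K α).ncard ≠ 0 := Set.ncard_ne_zero_of_mem (mem_orbit_self α) (Set.toFinite _)
  rw [Nat.card_coe_set_eq] at h
  omega

theorem mul_self_mem {G : Type*} [Group G] {M K : Subgroup G}
    (h : M.relIndex K = 1 ∨ M.relIndex K = 2) {x : G} (hx : x ∈ K) : x * x ∈ M := by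
  rcases h with h | h
  · exact Subgroup.relIndex_eq_one.mp h (mul_mem hx hx)
  · exact Subgroup.mul_self_mem_of_index_two h ⟨x, hx⟩

theorem fix_of_normalizer {G Ω : Type*} [Group G] [MulAction G Ω] {T : Subgroup G} [IsCyclic T]
    {g x : G} (hg : g ∈ T) (hx : x ∈ Subgroup.normalizer (T : Set G)) {α : Ω}
    (h : g • α = α) : g • x • α = x • α := by
  obtain ⟨⟨t, ht⟩, hgen⟩ := IsCyclic.exists_generator (α := T)
  have h1 : x⁻¹ * t * x ∈ T := by simpa using (Subgroup.mem_normalizer_iff.mp (inv_mem hx) t).mp ht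
  obtain ⟨n, hn⟩ := Subgroup.mem_zpowers_iff.mp (hgen ⟨_, h1⟩)
  obtain ⟨k, hk⟩ := Subgroup.mem_zpowers_iff.mp (hgen ⟨_, hg⟩)
  have hn' : t ^ n = x⁻¹ * t * x⁻¹⁻¹ := by simpa using congrArg Subtype.val hn
  have hk' : t ^ k = g := congrArg Subtype.val hk
  have h3 : g ^ n = x⁻¹ * g * x := by
    rw [← hk', ← zpow_mul, mul_comm k, zpow_mul, hn', conj_zpow, inv_inv]
  have h4 : g ^ n ∈ stabilizer G α := zpow_mem h n
  rw [← mul_smul, ← inv_smul_eq_iff, ← mul_smul, ← mul_assoc, ← h3]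
  exact h4

theorem aux {F : Type*} [Field F] {m : ℕ} [SzF F m] {Ω : Type*} [Finite Ω]
    [MulAction (Cfsg.Sz F m) Ω] (htr : IsPretransitive (Cfsg.Sz F m) Ω)
    (hfix : ∀ g : Cfsg.Sz F m, g ≠ 1 → Nat.card (fixedBy Ω g) ≤ 2)
    (hex : ∃ g : Cfsg.Sz F m, g ≠ 1 ∧ Nat.card (fixedBy Ω g) = 2) :
    (Nat.card Ω = Nat.card F ^ 2 + 1 ∧ IsMultiplyPretransitive (Cfsg.Sz F m) Ω 2) ∨
    (Nat.card Ω = Nat.card F ^ 2 * (Nat.card F ^ 2 + 1) ∧
      ∀ α : Ω, Nat.card (stabilizer (Cfsg.Sz F m) α) = Nat.card F - 1) := by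
  obtain ⟨g₀, hg₀, hfix₀⟩ := hex
  have h8 := eight_le_card F
  by_cases hinv : ∃ (α : Ω) (t : Cfsg.Sz F m), t ≠ 1 ∧ t * t = 1 ∧ t • α = α
  · left
    obtain ⟨α, t, ht1, ht2, ht⟩ := hinv
    obtain ⟨P, hP⟩ := exists_mem_sylAt_of_mul_self ht2
    obtain ⟨y, rfl⟩ := exists_smul_inf_eq P
    obtain ⟨b, hb⟩ := mem_cenZ_iff.mpr (⟨sylU_le_borel (mem_sylAt_smul_inf.mp hP), by
        rw [← pow_two, inv_conj_pow', pow_two, ht2]; simp⟩ :
        (y⁻¹ * t * y) • (inf : Ov F m) = inf ∧ (y⁻¹ * t * y) * (y⁻¹ * t * y) = 1)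
    have hb1 : (ue 0 b : Cfsg.Sz F m) ≠ 1 := hb ▸ mt inv_conj_eq_one.mp ht1
    set β := y⁻¹ • α
    have hβ : (ue 0 b : Cfsg.Sz F m) • β = β := by rw [← hb, mul_smul, smul_inv_smul, mul_smul, ht]
    have hZ : ∀ c : F, (ue 0 c : Cfsg.Sz F m) • β = β := by
      intro c
      obtain ⟨a, rfl⟩ := mul_th_surjective c
      rw [← ue_mul_self a 0]
      refine mul_self_mem (relIndex_le_two (K := sylU F m) ?_ (hfix _ hb1)) (ue_mem_sylU a 0)
      rintro _ ⟨c, d, rfl⟩
      rw [← mul_smul, ue_zero_comm, mul_smul, hβ]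
    have hsq : ∀ x ∈ borel F m, (x * x) • β = β := fun x hx => by
      refine mul_self_mem (relIndex_le_two (K := borel F m) (fun x hx => ?_) (hfix _ hb1)) hx
      obtain ⟨c, hc⟩ := conj_mem_cenZ (inv_mem hx) ⟨b, rfl⟩
      rw [← mul_smul, ← inv_smul_eq_iff, ← mul_smul, ← mul_assoc]
      rw [inv_inv] at hc
      rw [hc, hZ]
    have hH : ∀ (u : Cfsg.Sz F m) (k : Fˣ), u ∈ sylU F m → (u * he k * u⁻¹) • β = β := by
      intro u k hu
      obtain ⟨l, rfl⟩ := units_exists_sq k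
      have := hsq (u * he l * u⁻¹) (mul_mem (mul_mem (sylU_le_borel hu) (he_smul_inf l))
        (inv_mem (sylU_le_borel hu)))
      rwa [conj_mul, ← he_mul, ← sq] at this
    have hB : borel F m ≤ stabilizer (Cfsg.Sz F m) β := by
      have h1 : ∀ k : Fˣ, he k ∈ stabilizer (Cfsg.Sz F m) β := fun k => by
        simpa using hH 1 k (one_mem _)
      obtain ⟨l, hl⟩ := exists_units_ne_one F
      intro x hx
      obtain ⟨a, c, k, rfl⟩ := mem_borel.mp hx
      refine mul_mem ((Subgroup.mul_mem_cancel_right _ (h1 l)).mp ?_) (h1 k)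
      obtain ⟨a', c', h⟩ := conj_he_of_borel (m := m) a c hl
      rw [h]
      exact hH _ _ (ue_mem_sylU _ _)
    have hM : stabilizer (Cfsg.Sz F m) β = borel F m := by
      refine (((isCoatom_stabilizer inf).le_iff.mp hB).resolve_left fun h => ?_)
      have h1 := index_stabilizer_of_transitive (Cfsg.Sz F m) β
      rw [h, Subgroup.index_top] at h1
      have h2 : Nat.card (fixedBy Ω g₀) ≤ Nat.card Ω := Finite.card_subtype_le _
      omega
    refine ⟨by rw [← index_stabilizer_of_transitive (Cfsg.Sz F m) β, hM, index_borel], ?_⟩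
    rw [is_two_pretransitive_iff]
    intro a b c d hab hcd
    obtain ⟨a, rfl⟩ := htr.exists_smul_eq β a
    obtain ⟨b, rfl⟩ := htr.exists_smul_eq β b
    obtain ⟨c, rfl⟩ := htr.exists_smul_eq β c
    obtain ⟨d, rfl⟩ := htr.exists_smul_eq β d
    have key : ∀ x z : Cfsg.Sz F m, x • β = z • β ↔ x • (inf : Ov F m) = z • inf := by
      intro x z
      rw [← inv_smul_eq_iff, ← inv_smul_eq_iff (g := z), ← mul_smul z⁻¹, ← mul_smul z⁻¹,
        ← mem_stabilizer_iff, ← mem_stabilizer_iff, hM]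
    obtain ⟨g, h1, h2⟩ := is_two_pretransitive_iff.mp (instTwoTransitiveOv (F := F) (m := m))
      (mt (key a b).mpr hab) (mt (key c d).mpr hcd)
    exact ⟨g, by rw [← mul_smul, key, mul_smul, h1], by rw [← mul_smul, key, mul_smul, h2]⟩
  right
  push Not at hinv
  have hodd : ∀ (α : Ω) (K : Subgroup (Cfsg.Sz F m)), K ≤ stabilizer (Cfsg.Sz F m) α →
      ¬ 2 ∣ Nat.card K := by
    intro α K hK h
    obtain ⟨t, ht⟩ := exists_prime_orderOf_dvd_card' 2 h
    rw [← Subgroup.orderOf_coe] at ht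
    refine hinv α t ?_ (by rw [← pow_two, ← ht, pow_orderOf_eq_one]) (hK t.2)
    intro h
    simp [h] at ht
  have hfpf : ∀ (α : Ω) (g : Cfsg.Sz F m), Fpf g → g • α ≠ α := by
    intro α g hg h
    have := hg.isCyclic_centralizer
    have h1 := relIndex_le_two (K := Subgroup.normalizer (Subgroup.centralizer {g} : Set _))
      (fun x hx => fix_of_normalizer (Subgroup.mem_centralizer_singleton_iff.mpr rfl) hx h)
      (hfix g hg.ne_one)
    have h2 := hg.card_normalizer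
    rw [← Subgroup.card_mul_index ((stabilizer (Cfsg.Sz F m) α).subgroupOf _),
      ← Subgroup.inf_subgroupOf_right,
      Nat.card_congr (Subgroup.subgroupOfEquivOfLe inf_le_right).toEquiv,
      Subgroup.inf_subgroupOf_right] at h2
    have h3 := hodd α _ (inf_le_left (b := Subgroup.normalizer (Subgroup.centralizer {g} : Set _)))
    unfold Subgroup.relIndex at h1
    rcases h1 with h1 | h1 <;> rw [h1] at h2 <;> omega
  have hdvd : ∀ α : Ω, Nat.card (stabilizer (Cfsg.Sz F m) α) ∣ Nat.card F - 1 := by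
    intro α
    have h1 := Subgroup.card_subgroup_dvd_card (stabilizer (Cfsg.Sz F m) α)
    rw [card_Sz] at h1
    refine Nat.Coprime.dvd_of_dvd_mul_left (Nat.Coprime.mul_right ?_ ?_) h1
    · rw [card_F F]
      exact ((Nat.coprime_two_right.mpr (Nat.not_even_iff_odd.mp
        (mt even_iff_two_dvd.mp (hodd α _ le_rfl)))).pow_right _).pow_right _
    · by_contra h
      obtain ⟨p, hp, h2, h3⟩ := Nat.Prime.not_coprime_iff_dvd.mp h
      have := Fact.mk hp
      obtain ⟨t, ht⟩ := exists_prime_orderOf_dvd_card' p h2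
      rw [← Subgroup.orderOf_coe] at ht
      refine hfpf α t (fpf_of_orderOf_dvd ?_ (ht ▸ h3)) t.2
      intro h
      rw [h, orderOf_one] at ht
      exact hp.one_lt.ne ht
  obtain ⟨α, hα⟩ : (fixedBy Ω g₀).Nonempty := by
    rw [Nat.card_coe_set_eq] at hfix₀
    exact Set.nonempty_of_ncard_ne_zero (by omega)
  obtain ⟨P, Q, hPQ, hT⟩ := exists_mem_torAt_of_orderOf_dvd
    (((stabilizer (Cfsg.Sz F m) α).orderOf_dvd_natCard hα).trans (hdvd α))
  have := isCyclic_torAt hPQ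
  have h1 : torAt P Q ≤ stabilizer (Cfsg.Sz F m) α := by
    intro x hx
    have h2 : (x ^ (Nat.card F / 2)) * (x ^ (Nat.card F / 2)) = x := by
      obtain ⟨n, hn⟩ := even_card_F F
      rw [← pow_add, show Nat.card F / 2 + Nat.card F / 2 = (Nat.card F - 1) + 1 by omega, pow_succ,
        pow_eq_one_of_mem_torAt hPQ hx, one_mul]
    rw [← h2]
    exact mul_self_mem (relIndex_le_two (K := torAt P Q)
      (fun x hx => fix_of_normalizer hT (Subgroup.le_normalizer hx) hα) (hfix _ hg₀)) (pow_mem hx _)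
  have h2 : Nat.card (stabilizer (Cfsg.Sz F m) α) = Nat.card F - 1 :=
    Nat.dvd_antisymm (hdvd α) (card_torAt hPQ ▸ Subgroup.card_dvd_of_le h1)
  have h3 : Nat.card Ω = Nat.card F ^ 2 * (Nat.card F ^ 2 + 1) := by
    have h3 := (stabilizer (Cfsg.Sz F m) α).card_mul_index
    rw [index_stabilizer_of_transitive, h2, card_Sz, mul_comm] at h3
    exact Nat.eq_of_mul_eq_mul_right (by omega) h3
  refine ⟨h3, fun β => ?_⟩
  have h4 := (stabilizer (Cfsg.Sz F m) β).card_mul_index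
  rw [index_stabilizer_of_transitive, h3, card_Sz, mul_comm] at h4
  exact Nat.eq_of_mul_eq_mul_left (by positivity) h4

/-- Let q = 2^{2m+1} ≥ 8 and let G be isomorphic to the Suzuki group Sz(q). If G acts faithfully and transitively on a finite set Ω with fixity 2 (every non-identity element fixes at most two points, and some fixes exactly two), then either |Ω| = q² + 1 and the action is 2-transitive, or |Ω| = q²(q² + 1) and the point stabilizers have order q − 1. -/
theorem result {G : Type*} [Group G] [Finite G] (F : Type) [Field F] [Fintype F] (m : ℕ) (hm : 1 ≤ m) (hF : Fintype.card F = 2 ^ (2 * m + 1))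
    (e : G ≃* ↥(Cfsg.Lie.Sz F (2 ^ (m + 1)))) {Ω : Type*} [Fintype Ω] [MulAction G Ω] [FaithfulSMul G Ω] (htr : MulAction.IsPretransitive G Ω)
    (hfix : ∀ g : G, g ≠ 1 → Nat.card (MulAction.fixedBy Ω g) ≤ 2) (hex : ∃ g : G, g ≠ 1 ∧ Nat.card (MulAction.fixedBy Ω g) = 2) :
    (Fintype.card Ω = Fintype.card F ^ 2 + 1 ∧ MulAction.IsMultiplyPretransitive G Ω 2) ∨
    (Fintype.card Ω = Fintype.card F ^ 2 * (Fintype.card F ^ 2 + 1) ∧ ∀ α : Ω, Nat.card (MulAction.stabilizer G α) = Fintype.card F - 1) := by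
  have := SzF.of_card hm hF
  let e' : Cfsg.Sz F m ≃* G := (szEquiv F m).trans e.symm
  let _ : MulAction (Cfsg.Sz F m) Ω := MulAction.compHom _ e'.toMonoidHom
  have hsm : ∀ (g : Cfsg.Sz F m) (x : Ω), g • x = e' g • x := fun _ _ => rfl
  have h := aux (F := F) (m := m) (Ω := Ω) ⟨fun x y => by
      obtain ⟨g, hg⟩ := htr.exists_smul_eq x y
      exact ⟨e'.symm g, by simpa [hsm] using hg⟩⟩
    (fun g hg => hfix (e' g) (by simpa using hg)) (by
      obtain ⟨g, hg, h⟩ := hex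
      obtain ⟨g, rfl⟩ := e'.surjective g
      exact ⟨g, by simpa using hg, h⟩)
  rw [Nat.card_eq_fintype_card, Nat.card_eq_fintype_card] at h
  rcases h with ⟨h1, h2⟩ | ⟨h1, h2⟩
  · refine Or.inl ⟨h1, ?_⟩
    rw [MulAction.is_two_pretransitive_iff] at h2 ⊢
    intro a b c d hab hcd
    obtain ⟨g, h3, h4⟩ := h2 hab hcd
    exact ⟨e' g, h3, h4⟩
  · refine Or.inr ⟨h1, fun α => ?_⟩
    rw [← h2 α]
    exact (Nat.card_congr (e'.toEquiv.subtypeEquiv fun g => Iff.rfl)).symm

end Cfsg.Agent.S3391
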