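import Cfsg.Statements.S3399
import Cfsg.Agent.PronFix.Main

set_option autoImplicit false
open Cfsg

namespace Cfsg.Agent.S3399

/-- Let G be a transitive permutation group of finite degree n and K a nontrivial subgroup of G that is pronormal in G (K and gKg⁻¹ are conjugate inside ⟨K, gKg⁻¹⟩ for every g ∈ G). If K fixes exactly f points, then f ≤ (n − 1)/2, that is, 2f + 1 ≤ n. -/
theorem result (n : ℕ) (G : Subgroup (Equiv.Perm (Fin n)))
    (htrans : ∀ a b : Fin n, ∃ g ∈ G, g a = b)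
    (K : Subgroup (Equiv.Perm (Fin n))) (hKG : K ≤ G) (hK : K ≠ ⊥)
    (hpro : ∀ g ∈ G, ∃ w ∈ K ⊔ K.map (MulAut.conj g).toMonoidHom,
      K.map (MulAut.conj w).toMonoidHom = K.map (MulAut.conj g).toMonoidHom) :
    2 * Nat.card {a : Fin n // ∀ k ∈ K, k a = a} + 1 ≤ n := by
  classical
  have key : ∀ (Ω : Type) [Fintype Ω] [MulAction G Ω], (∀ x y : Ω, ∃ g : G, g • x = y) →
      (∃ k ∈ K.subgroupOf G, ∃ x : Ω, k • x ≠ x) → PronFix.Concl (K.subgroupOf G) Ω := by
    intro Ω _ _ h1 h2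
    refine PronFix.ih_all (Fintype.card Ω + 1) G Ω (by omega) h1 _ ?_ h2
    intro g L hL hg
    obtain ⟨w, hw, e⟩ := hpro g⁻¹ (G.inv_mem g.2)
    have hle : K ⊔ K.map (MulAut.conj (g : Equiv.Perm (Fin n))⁻¹).toMonoidHom ≤
        L.map G.subtype := by
      refine sup_le (fun k hk => ⟨⟨k, hKG hk⟩, hL hk, rfl⟩) ?_
      rintro _ ⟨k, hk, rfl⟩
      exact ⟨g⁻¹ * ⟨k, hKG hk⟩ * g, hg _ hk, by simp⟩
    obtain ⟨w', hw', rfl⟩ := hle hw
    refine ⟨w'⁻¹, L.inv_mem hw', fun k => ?_⟩
    simp only [Subgroup.mem_subgroupOf, inv_inv]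
    constructor
    · intro hk
      have : (MulAut.conj (G.subtype w')).toMonoidHom k ∈
          K.map (MulAut.conj (G.subtype w')).toMonoidHom := Subgroup.mem_map_of_mem _ hk
      rw [e] at this
      obtain ⟨c, hc, e'⟩ := this
      have : ((g * w' * k * (g * w')⁻¹ : G) : Equiv.Perm (Fin n)) = c := by
        simp only [MulEquiv.coe_toMonoidHom, MulAut.conj_apply, inv_inv, Subgroup.coe_subtype]
          at e'
        push_cast
        calc _ = (g : Equiv.Perm (Fin n)) * (w' * k * (w' : Equiv.Perm (Fin n))⁻¹) * (g : Equiv.Perm (Fin n))⁻¹ := by group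
          _ = c := by rw [← e']; group
      rw [this]; exact hc
    · intro hk
      have : (MulAut.conj (g : Equiv.Perm (Fin n))⁻¹).toMonoidHom _ ∈
          K.map (MulAut.conj (g : Equiv.Perm (Fin n))⁻¹).toMonoidHom :=
        Subgroup.mem_map_of_mem _ hk
      rw [← e] at this
      obtain ⟨c, hc, e'⟩ := this
      have : (k : Equiv.Perm (Fin n)) = c := by
        simp only [MulEquiv.coe_toMonoidHom, MulAut.conj_apply, inv_inv, Subgroup.coe_subtype]
          at e'
        push_cast at e'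
        calc _ = (w' : Equiv.Perm (Fin n))⁻¹ * ((g : Equiv.Perm (Fin n))⁻¹ * (g * w' * k * (g * w' : Equiv.Perm (Fin n))⁻¹) * g) * w' := by group
          _ = c := by rw [← e']; group
      rw [this]; exact hc
  have := (key (Fin n) (fun x y => by
    obtain ⟨g, hg, e⟩ := htrans x y
    exact ⟨⟨g, hg⟩, e⟩) (by
    by_contra hno
    push Not at hno
    apply hK
    rw [eq_bot_iff]
    intro k hk
    rw [Subgroup.mem_bot]
    ext x
    exact congrArg Fin.val (hno ⟨k, hKG hk⟩ hk x))).1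
  rw [Fintype.card_fin] at this
  convert this
  rw [Nat.card_eq_fintype_card, Fintype.card_subtype]
  congr 1
  ext x
  rw [PronFix.mem_Fx, Finset.mem_filter]
  exact ⟨fun h k hk => h.2 k hk, fun h => ⟨Finset.mem_univ _, fun k hk => h ⟨k, hKG hk⟩ hk⟩⟩

end Cfsg.Agent.S3399
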