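import Cfsg.Statements.S3410
import Mathlib
import Cfsg.Agent.Perm.PGMain
import Cfsg.Agent.GT.FStar
import Cfsg.Agent.GT.Quasisimple
import Cfsg.Agent.Cl.LinearBasic
-- import your own Cfsg.Agent.* helpers here

set_option autoImplicit false
open Cfsg

namespace Cfsg.Agent.S3410


/-- Let a finite group G act faithfully and 2-transitively on a finite set X, and let N be an abelian normal subgroup of the stabilizer of a point x which is not semiregular on the remaining points (some non-identity element of N fixes a second point). Then the generalized Fitting subgroup of G is isomorphic to PSL_n(F) for some n ≥ 3 and some finite field F. -/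
theorem result {G X : Type*} [Group G] [Finite G] [Fintype X]
    [MulAction G X] [FaithfulSMul G X] (h2 : MulAction.IsMultiplyPretransitive G X 2) (x : X)
    (N : Subgroup G) (hNle : N ≤ MulAction.stabilizer G x)
    (hNnormal : ∀ g ∈ MulAction.stabilizer G x, ∀ n ∈ N, g * n * g⁻¹ ∈ N) (hNab : IsMulCommutative N)
    (hnsr : ∃ n ∈ N, n ≠ 1 ∧ ∃ y : X, y ≠ x ∧ n • y = y) :
    ∃ (F : Type) (_ : Field F) (_ : Fintype F) (n : ℕ), 3 ≤ n ∧
      Nonempty (↥(Cfsg.generalizedFittingSubgroup G) ≃* Matrix.ProjectiveSpecialLinearGroup (Fin n) F) := by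
  obtain ⟨F, _, _, n, hn, -, L, hL, ⟨e⟩, hC⟩ := Perm.PG.onan
    (fun _ _ _ _ h h' => Perm.exists_smul_eq_two h2 h h') x N hNle hNnormal
    (fun a ha b hb => congrArg Subtype.val (hNab.is_comm.comm ⟨a, ha⟩ ⟨b, hb⟩)) hnsr
  have := Cl.psl_fin_isSimpleGroup (F := F) (n := n) (by omega) (by omega)
  have hs : IsSimpleGroup L := e.isSimpleGroup
  have hna : ¬ IsMulCommutative L := fun hc => by
    obtain ⟨a, ha⟩ := exists_ne (1 : L)
    refine ha (Subtype.ext (Subgroup.mem_bot.1 (hC ▸ fun b hb => ?_)))
    exact congrArg Subtype.val (hc.is_comm.comm ⟨b, hb⟩ a)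
  have hK : IsComponent L := ⟨hL.isSubnormal, IsQuasisimple.of_isSimpleGroup hna⟩
  have hF : generalizedFittingSubgroup G = L := by
    refine le_antisymm (GT.genFitting_le_of_centralizer_le hL.isSubnormal ?_ (hC ▸ bot_le))
      hK.le_genFitting
    exact (Subgroup.le_centralizer_iff.1 hK.le_centralizer_fitting).trans (hC ▸ bot_le)
  exact ⟨F, inferInstance, inferInstance, n, hn, ⟨(MulEquiv.subgroupCongr hF).trans e⟩⟩

end Cfsg.Agent.S3410
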