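import Mathlib
import Cfsg.Statements.S3412
import Cfsg.Agent.Perm.CommGraph
import Cfsg.Agent.Perm.PlaneThree
import Cfsg.Agent.Cl.LinearSylow
import Cfsg.Agent.Cl.LinearTransv

set_option autoImplicit false
open Cfsg

namespace Cfsg.Agent.S3412

open Matrix Cfsg.Agent.Cl Cfsg.Agent.Perm.CG Cfsg.Agent.Perm.P3

abbrev S := SpecialLinearGroup (Fin 3) (ZMod 3)

/-- transvections -/
def IsT (g : S) : Prop := ∃ a φ : V, a ≠ 0 ∧ φ ≠ 0 ∧ φ ⬝ᵥ a = 0 ∧ g = tv a φ

theorem isT_conj {g : S} (h : IsT g) (x : S) : IsT (x * g * x⁻¹) := by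
  obtain ⟨a, φ, ha, hφ, h0, rfl⟩ := h
  exact ⟨_, _, sl_mulVec_ne_zero x ha, sl_vecMul_ne_zero x⁻¹ hφ, by rw [sl_dot_conj, h0],
    tv_conj x a φ⟩

theorem card_S : Nat.card S = 5616 := by
  rw [card_sl_three, Nat.card_zmod]; norm_num

theorem isCG_equiv {G K : Type*} [Group G] [Group K] (e : G ≃* K) : IsCG e.toEquiv :=
  ⟨map_one e, fun x y => by
    change e x * e y = e y * e x ↔ x * y = y * x
    rw [← map_mul, ← map_mul, e.apply_eq_iff_eq]⟩

theorem isCG_trans {G K L : Type*} [Group G] [Group K] [Group L] {e : G ≃ K} {f : K ≃ L}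
    (he : IsCG e) (hf : IsCG f) : IsCG (e.trans f) :=
  ⟨by rw [Equiv.trans_apply, he.one, hf.one], fun x y => (hf.comm _ _).trans (he.comm x y)⟩

theorem t_eq {i j : Fin 3} (h : i ≠ j) {c : ZMod 3} (hc : c ≠ 0) :
    IsT (SpecialLinearGroup.transvection h c) :=
  ⟨_, _, smul_ne_zero hc (by simp), by simp, by simp [h], transvection_eq_tv h c⟩

theorem isT_iff {g : S} :
    IsT g ↔ g ≠ 1 ∧ 27 ∣ Nat.card (Subgroup.centralizer ({g} : Set S)) := by
  let U := unipSylowSL (ZMod 3) 3 (Function.injective_id (α := Fin 3))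
  have hU : ∀ P : Sylow 3 S, Nat.card P = 27 := fun P => by
    rw [card_sylow_sl, Nat.card_zmod]; rfl
  have h02 : (0 : Fin 3) ≠ 2 := by decide
  constructor
  · rintro ⟨a, φ, ha, hφ, h0, rfl⟩
    refine ⟨fun e => ((tv_eq_one_iff h0).mp e).elim ha hφ, ?_⟩
    obtain ⟨x, hx⟩ := exists_conj_transvection_eq_tv (by simp) h0 ha hφ h02
    have h1 := hx 1
    rw [one_smul] at h1
    have h3 := (isCG_equiv (MulAut.conj x)).card_centralizer
      (SpecialLinearGroup.transvection h02 (1 : ZMod 3))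
    rw [← h1, ← hU U]
    refine (Subgroup.card_dvd_of_le ?_).trans h3.symm.dvd
    intro u hu
    have h2 := (mem_unipSylowSL 3 _).mp hu
    rw [Subgroup.mem_centralizer_singleton_iff]
    apply sl_ext
    have h00 := h2 0 0 le_rfl
    have h10 := h2 1 0 (by decide)
    have h20 := h2 2 0 (by decide)
    have h21 := h2 2 1 (by decide)
    have h22 := h2 2 2 le_rfl
    simp only [ne_eq, Fin.reduceEq, not_false_eq_true, one_apply_ne, one_apply_eq]
      at h00 h10 h20 h21 h22
    change u.1 * (1 + single 0 2 1) = (1 + single 0 2 1) * u.1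
    ext i j
    fin_cases i <;> fin_cases j <;>
      simp [Matrix.mul_apply, Fin.sum_univ_three, Matrix.one_apply, Matrix.single_apply, h00, h10,
        h20, h21, h22, add_comm]
  · rintro ⟨h1, h2⟩
    obtain ⟨Q, hQ⟩ := Sylow.exists_subgroup_card_pow_prime 3 (n := 3) h2
    obtain ⟨P, hP⟩ := (IsPGroup.of_card (G := Q.map (Subgroup.subtype _))
      (by rw [Subgroup.card_subtype, hQ])).exists_le_sylow
    have h3 := Subgroup.eq_of_le_of_card_ge hP (by rw [Subgroup.card_subtype, hQ, hU]; rfl)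
    obtain ⟨x, hx⟩ := MulAction.exists_smul_eq S U P
    have h4 : ∀ u ∈ U, (x⁻¹ * g * x) * u = u * (x⁻¹ * g * x) := fun u hu => by
      have h5 : x * u * x⁻¹ ∈ (P : Subgroup S) := by
        rw [← hx]; exact Subgroup.smul_mem_pointwise_smul _ _ _ hu
      rw [← h3] at h5
      have h6 := Subgroup.mem_centralizer_singleton_iff.mp (Subgroup.map_subtype_le _ h5)
      calc x⁻¹ * g * x * u = x⁻¹ * (g * (x * u * x⁻¹)) * x := by group
        _ = _ := by rw [← h6]; group
    have h5 : x⁻¹ * g * x ≠ 1 := fun e => h1 (by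
      rw [show g = x * (x⁻¹ * g * x) * x⁻¹ by group, e]; group)
    rw [show g = x * (x⁻¹ * g * x) * x⁻¹ by group]
    refine isT_conj ?_ x
    generalize x⁻¹ * g * x = k at *
    have hm : ∀ (i j : Fin 3) (h : i < j), SpecialLinearGroup.transvection h.ne (1 : ZMod 3) ∈ U :=
      fun i j h => (mem_unipSylowSL 3 _).mpr fun a b hab => by
        have : ¬ (i = a ∧ j = b) := by rintro ⟨rfl, rfl⟩; exact absurd h (not_lt.mpr hab)
        simp [SpecialLinearGroup.transvection, Matrix.transvection, Matrix.single_apply, this]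
    have e1 : k.1 * (1 + single 0 1 1) = (1 + single 0 1 1) * k.1 :=
      congrArg Subtype.val (h4 _ (hm 0 1 (by decide)))
    have e2 : k.1 * (1 + single 1 2 1) = (1 + single 1 2 1) * k.1 :=
      congrArg Subtype.val (h4 _ (hm 1 2 (by decide)))
    have e3 := k.det_coe
    have a1 := congrFun (congrFun e1 0) 0
    have a2 := congrFun (congrFun e1 0) 1
    have a3 := congrFun (congrFun e1 0) 2
    have a4 := congrFun (congrFun e1 2) 1
    have a5 := congrFun (congrFun e2 0) 2
    have a6 := congrFun (congrFun e2 1) 1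
    have a7 := congrFun (congrFun e2 1) 2
    simp [Matrix.mul_apply, Fin.sum_univ_three, Matrix.one_apply, Matrix.single_apply, add_comm]
      at a1 a2 a3 a4 a5 a6 a7
    rw [a5, add_zero, zero_add] at a2
    rw [a3, add_zero, zero_add] at a7
    rw [Matrix.det_fin_three, a1, a3, a4, a5, a6, ← a7, ← a2] at e3
    have a8 : k.1 0 0 = 1 := (by decide : ∀ z : ZMod 3, z * z * z = 1 → z = 1) _ (by simpa using e3)
    rw [a8] at a2
    rw [← a2] at a7
    have key : k = SpecialLinearGroup.transvection h02 (k.1 0 2) := by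
      apply sl_ext
      ext i j
      fin_cases i <;> fin_cases j <;>
        simp [SpecialLinearGroup.transvection, Matrix.transvection, a1, a3, a4, a5, a6, a8, ← a2, ← a7]
    rw [key]
    refine t_eq h02 fun e => h5 ?_
    rw [key, e]
    apply sl_ext
    simp [SpecialLinearGroup.transvection]

abbrev D := {g : S // IsT g}

theorem exists_lab : ∃ lab : Bool → D → Fin 13,
    ∀ (a φ : V) (x : D), a ≠ 0 → φ ≠ 0 → φ ⬝ᵥ a = 0 → x.1 = tv a φ →
      lab false x = idx a ∧ lab true x = idx φ := by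
  choose a φ ha hφ h0 h using fun x : D => x.2
  refine ⟨fun s x => idx (if s then φ x else a x), fun b ψ x hb hψ h1 h2 => ?_⟩
  have h3 := congrArg Subtype.val ((h x).symm.trans h2)
  rw [coe_tv (h0 x), coe_tv h1, add_right_inj] at h3
  have h4 : ∀ i j, a x i * φ x j = b i * ψ j := fun i j => congrFun (congrFun h3 i) j
  obtain ⟨j, hj⟩ := Function.ne_iff.mp (hφ x)
  obtain ⟨i, hi⟩ := Function.ne_iff.mp (ha x)
  have h5 : a x = (ψ j / φ x j) • b := funext fun i => by
    rw [Pi.smul_apply, smul_eq_mul, div_mul_eq_mul_div, eq_div_iff hj, h4, mul_comm]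
  have h6 : φ x = (b i / a x i) • ψ := funext fun j => by
    rw [Pi.smul_apply, smul_eq_mul, div_mul_eq_mul_div, eq_div_iff hi, mul_comm, h4]
  exact ⟨(congrArg idx h5).trans (idx_smul _ _ (h5 ▸ ha x)),
    (congrArg idx h6).trans (idx_smul _ _ (h6 ▸ hφ x))⟩

noncomputable def lab : Bool → D → Fin 13 := exists_lab.choose

theorem exists_rep (x : D) : ∃ a φ : V, a ≠ 0 ∧ φ ≠ 0 ∧ φ ⬝ᵥ a = 0 ∧ x.1 = tv a φ ∧
    lab false x = idx a ∧ lab true x = idx φ := by
  obtain ⟨a, φ, ha, hφ, h0, h⟩ := x.2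
  exact ⟨a, φ, ha, hφ, h0, h, exists_lab.choose_spec a φ x ha hφ h0 h⟩

theorem inc_lab (x : D) : inc (lab false x) (lab true x) = true := by
  obtain ⟨a, φ, ha, hφ, h0, -, h1, h2⟩ := exists_rep x
  rw [h1, h2, ← dot_iff a φ ha hφ, h0]

theorem exists_flag {p m : Fin 13} (h : inc p m = true) :
    ∃ x, lab false x = p ∧ lab true x = m := by
  obtain ⟨a, ha, rfl⟩ := idx_surj p
  obtain ⟨φ, hφ, rfl⟩ := idx_surj m
  have h0 := (dot_iff a φ ha hφ).mpr h
  exact ⟨⟨_, a, φ, ha, hφ, h0, rfl⟩, exists_lab.choose_spec a φ _ ha hφ h0 rfl⟩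

theorem exists_flag' (s : Bool) {p m : Fin 13} (h : inc p m = true) :
    ∃ x, lab s x = p ∧ lab (!s) x = m := by
  cases s
  · exact exists_flag h
  · exact (exists_flag (inc_comm p m ▸ h)).imp fun _ => And.symm

theorem comm_iff (x y : D) (s : Bool) :
    Commute x.1 y.1 ↔ lab s x = lab s y ∨ lab (!s) x = lab (!s) y := by
  have h3 := inc_iff _ _ (inc_lab x) _ _ (inc_lab y)
  obtain ⟨a, φ, ha, hφ, h0, h, h1, h2⟩ := exists_rep x
  obtain ⟨b, ψ, hb, hψ, k0, k, k1, k2⟩ := exists_rep y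
  rw [h, k, tv_commute_iff h0 k0 ha hφ hb hψ, dot_iff b φ hb hφ, dot_iff a ψ ha hψ, ← h1, ← h2,
    ← k1, ← k2, h3]
  cases s
  · rfl
  · exact or_comm

theorem eq_or_eq_inv {x y : D} (h : ∀ s, lab s x = lab s y) : y.1 = x.1 ∨ y.1 = x.1⁻¹ := by
  obtain ⟨a, φ, ha, hφ, -, h0, h1, h2⟩ := exists_rep x
  obtain ⟨b, ψ, hb, hψ, -, k0, k1, k2⟩ := exists_rep y
  have h3 : tv (-a) φ = tv a (-φ) := by simpa using tv_smul (-1) a φ
  have h4 : tv (-a) (-φ) = tv a φ := by simpa using tv_smul (-1) a (-φ)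
  rw [h0, k0, tv_inv]
  rcases idx_eq a b ha hb (h1 ▸ k1 ▸ h false) with rfl | rfl <;>
    rcases idx_eq φ ψ hφ hψ (h2 ▸ k2 ▸ h true) with rfl | rfl <;> simp [h3, h4]

/-- the transvection `x` has centre or axis `a` -/
def On (a : X) (x : D) : Prop := lab a.1 x = a.2

theorem exists_pair (a : X) : ∃ x y, On a x ∧ On a y ∧ lab (!a.1) x ≠ lab (!a.1) y := by
  obtain ⟨l, hl, -⟩ := exists_inc_ne a.2 0
  obtain ⟨m, hm, hml⟩ := exists_inc_ne a.2 l
  obtain ⟨x, h1, h2⟩ := exists_flag' a.1 hl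
  obtain ⟨y, h3, h4⟩ := exists_flag' a.1 hm
  exact ⟨x, y, h1, h3, by rw [h2, h4]; exact hml.symm⟩

theorem on_iff {a : X} {x y : D} (hx : On a x) (hy : On a y) (h : lab (!a.1) x ≠ lab (!a.1) y)
    (z : D) : On a z ↔ Commute z.1 x.1 ∧ Commute z.1 y.1 := by
  rw [comm_iff z x a.1, comm_iff z y a.1, show lab a.1 x = a.2 from hx,
    show lab a.1 y = a.2 from hy]
  exact ⟨fun e => ⟨Or.inl e, Or.inl e⟩, fun ⟨h1, h2⟩ => by_contra fun e =>
    h ((h1.resolve_left e).symm.trans (h2.resolve_left e))⟩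

theorem on_ext {a b : X} (h : ∀ x, On a x ↔ On b x) : a = b := by
  obtain ⟨x, y, hx, hy, hxy⟩ := exists_pair a
  have h1 := (h x).mp hx
  have h2 := (h y).mp hy
  obtain ⟨s, p⟩ := a
  obtain ⟨t, q⟩ := b
  by_cases e : s = t
  · subst e
    exact Prod.ext rfl (hx.symm.trans h1)
  · obtain rfl : t = !s := Bool.eq_not_of_ne (Ne.symm e)
    exact absurd (h1.trans h2.symm) hxy

theorem adj_iff (a b : X) : adj a b = true ↔ a ≠ b ∧ ∃ x, On a x ∧ On b x := by
  obtain ⟨s, p⟩ := a
  obtain ⟨t, q⟩ := b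
  by_cases e : s = t
  · subst e
    simp only [adj, bne_self_eq_false, Bool.false_and, Bool.false_eq_true, false_iff]
    exact fun ⟨h, x, h1, h2⟩ => h (Prod.ext rfl (h1.symm.trans h2))
  · obtain rfl : t = !s := Bool.eq_not_of_ne (Ne.symm e)
    rw [adj, show (s != !s) = true by cases s <;> rfl, Bool.true_and]
    refine ⟨fun h => ⟨fun h' => e (congrArg Prod.fst h'), exists_flag' s h⟩, fun ⟨_, x, h1, h2⟩ => ?_⟩
    have h3 := inc_lab x
    rw [← show lab s x = p from h1, ← show lab (!s) x = q from h2]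
    cases s
    · exact h3
    · exact inc_comm _ _ ▸ h3

theorem exists_image (β : D ≃ D) (hβ : ∀ x y, Commute (β x).1 (β y).1 ↔ Commute x.1 y.1) (a : X) :
    ∃ b, ∀ x, On b (β x) ↔ On a x := by
  obtain ⟨x, y, hx, hy, hxy⟩ := exists_pair a
  have key : ∀ s, lab s (β x) = lab s (β y) → lab (!s) (β x) ≠ lab (!s) (β y) →
      ∃ b, ∀ x, On b (β x) ↔ On a x := fun s h1 h2 => ⟨(s, lab s (β x)), fun z => by
    rw [on_iff hx hy hxy, on_iff (a := (s, lab s (β x))) rfl h1.symm h2, hβ, hβ]⟩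
  have h1 := (comm_iff _ _ false).mp ((hβ x y).mpr ((comm_iff x y a.1).mpr (Or.inl (hx.trans hy.symm))))
  by_cases h2 : lab false (β x) = lab false (β y)
  · refine key false h2 fun h3 => ?_
    obtain ⟨z, w, hz, hw, hzw⟩ := exists_pair (!a.1, lab (!a.1) x)
    have h4 : ∀ z, On (!a.1, lab (!a.1) x) z → lab a.1 z = a.2 := fun z hz => by
      have h5 := (hβ z x).mpr ((comm_iff z x a.1).mpr (Or.inr hz))
      rw [comm_iff _ _ false, h2, h3, ← comm_iff, hβ, comm_iff _ _ a.1] at h5
      exact (h5.resolve_right fun e => hxy (hz.symm.trans e)).trans hy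
    simp only [Bool.not_not] at hzw
    exact hzw ((h4 z hz).trans (h4 w hw).symm)
  · exact key true (h1.resolve_left h2) h2

theorem thirteen : ∃ x : S, x ≠ 1 ∧ Nat.card (Subgroup.centralizer ({x} : Set S)) = 13 := by
  have := psl_isSimpleGroup (ι := Fin 3) (F := ZMod 3) (Or.inl (by simp))
  have : IsSimpleGroup S := (pslEquivSL (by rw [Nat.card_zmod]; decide)).symm.isSimpleGroup
  have : Fact (Nat.Prime 13) := ⟨by norm_num⟩
  have hnp : ¬ (Nat.card S).Prime := by rw [card_S]; norm_num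
  have h2 : ¬ 13 ^ 2 ∣ Nat.card S := by rw [card_S]; norm_num
  obtain ⟨x, hx⟩ := exists_prime_orderOf_dvd_card' (G := S) 13 (by rw [card_S]; norm_num)
  refine ⟨x, fun e => by simp [e] at hx, ?_⟩
  obtain ⟨n, e, v, hn, hC, -, hprod, hmod, hn1, he, he1⟩ := Inv.PS.prime_data hnp h2 hx
  rw [card_S] at hprod
  have hprod' : n * (e * v) = 432 := by nlinarith
  have h3 : ∀ n ∈ Nat.divisors 432, n % 13 = 1 → 1 < n → n = 27 ∨ n = 144 := by decide +kernel
  have h4 : ∀ e ∈ Nat.divisors 12, 1 < e → e = 2 ∨ e = 3 ∨ e = 4 ∨ e = 6 ∨ e = 12 := by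
    decide +kernel
  have h5 := h4 e (Nat.mem_divisors.2 ⟨he, by norm_num⟩) he1
  rcases h3 n (Nat.mem_divisors.2 ⟨Dvd.intro _ hprod', by norm_num⟩) hmod hn1 with rfl | rfl
  · exfalso
    have h6 : 2 ∣ Nat.card (Subgroup.centralizer ({x} : Set S)) := by
      rw [hC]; rcases h5 with rfl | rfl | rfl | rfl | rfl <;> omega
    obtain ⟨w, hw⟩ := exists_prime_orderOf_dvd_card' 2 h6
    rw [← Subgroup.orderOf_coe] at hw
    have h7 := Inv.PS.fx_sylow_modEq h2 hx (Subgroup.mem_centralizer_singleton_iff.1 w.2).symm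
      (by rw [hw]; norm_num)
    have h8 := Inv.PS.fx_sylow_lt (p := 13) (hn ▸ hn1) (g := (w : S)) (fun e => by simp [e] at hw)
    obtain ⟨k, hk⟩ := Inv.PS.fx_invol (Sylow 13 S) (sl_commutator_eq_top (Or.inl (by simp)))
      (u := (w : S)) (hw ▸ pow_orderOf_eq_one _)
    rw [Nat.ModEq] at h7
    omega
  · rw [hC]; rcases h5 with rfl | rfl | rfl | rfl | rfl <;> omega

theorem exists_hom {K : Type*} [Group K] [Finite K] {F : K ≃ S} (hF : IsCG F) :
    ∃ τ : K →* Equiv.Perm X, Function.Injective τ ∧ (τ.range : Set _) = Col := by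
  have hK : Nat.card K = 5616 := (Nat.card_congr F).trans card_S
  have hα : ∀ k : K, IsCG (F.symm.trans ((MulAut.conj k).toEquiv.trans F)) := fun k =>
    isCG_trans hF.symm (isCG_trans (isCG_equiv _) hF)
  let β : K → D ≃ D := fun k => (F.symm.trans ((MulAut.conj k).toEquiv.trans F)).subtypeEquiv
    fun g => by rw [isT_iff, isT_iff, (hα k).card_centralizer, Ne, Ne, (hα k).eq_one_iff]
  have hβ : ∀ k x, (β k x).1 = F (k * F.symm x.1 * k⁻¹) := fun _ _ => rfl
  have hβm : ∀ k l x, β (k * l) x = β k (β l x) := fun k l x => Subtype.ext (by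
    rw [hβ, hβ, hβ, F.symm_apply_apply]; congr 1; group)
  choose f hf using fun k => exists_image (β k) fun x y => (hα k).comm x.1 y.1
  let τ : K →* Equiv.Perm X := MonoidHom.toHomPerm
    { toFun := f
      map_one' := funext fun a => on_ext fun x => by
        have h1 : β 1 x = x := Subtype.ext (by simp [hβ])
        rw [← h1, hf, h1]; rfl
      map_mul' := fun k l => funext fun a => on_ext fun x => by
        obtain ⟨x, rfl⟩ := (β (k * l)).surjective x
        rw [hf, hβm]
        exact ((hf k _ _).trans (hf l _ _)).symm }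
  have hτ : ∀ k a x, On (τ k a) (β k x) ↔ On a x := hf
  have hadj : ∀ k a b, adj (τ k a) (τ k b) = true ↔ adj a b = true := fun k a b => by
    rw [adj_iff, adj_iff, (τ k).injective.ne_iff, ← (β k).exists_congr_right]
    simp only [hτ]
  have hne : ∀ {a b : X}, adj a b = true → a.1 = !b.1 := fun {a b} h => by
    have := (Bool.and_eq_true_iff.mp h).1
    revert this; cases a.1 <;> cases b.1 <;> decide
  have htype : ∀ k, (∀ a, (τ k a).1 = a.1) ∨ ∀ a, (τ k a).1 = !a.1 := fun k => by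
    have h1 : ∀ a b : X, a.1 = b.1 → (τ k a).1 = (τ k b).1 := fun a b h => by
      obtain ⟨c, h2, h3⟩ := exists_adj a b h
      rw [hne ((hadj k _ _).mpr h2), hne ((hadj k _ _).mpr h3)]
    have h2 := hne ((hadj k (true, 1) (false, 0)).mpr (by decide +kernel))
    cases h3 : (τ k (false, 0)).1
    · refine Or.inl fun ⟨s, p⟩ => ?_
      cases s
      · exact (h1 (false, p) (false, 0) rfl).trans h3
      · exact (h1 (true, p) (true, 1) rfl).trans (by rw [h2, h3]; rfl)
    · refine Or.inr fun ⟨s, p⟩ => ?_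
      cases s
      · exact (h1 (false, p) (false, 0) rfl).trans h3
      · exact (h1 (true, p) (true, 1) rfl).trans (by rw [h2, h3])
  obtain ⟨x, hx1, hx⟩ := thirteen
  have hN : ∀ N : Subgroup K, N.Normal → N = ⊥ ∨ 3 ∣ Nat.card N ∧ N.index ≠ 2 := fun N _ => by
    have h1 := normal_cases (by norm_num) (by rw [hK]; norm_num) (mt hF.symm.eq_one_iff.mp hx1)
      ((hF.symm.card_centralizer x).trans hx) N
    have h3 := N.card_mul_index
    rw [hK] at h1 h3
    have key : ∀ n ∈ Nat.divisors 5616,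
        (n % 13 = 1 ∨ ∃ e ∈ Nat.divisors 12, 5616 / n ∣ e ∧ 5616 / (e * 13) % 13 = 1 ∧
          e * 13 ∣ 5616) → n = 1 ∨ 3 ∣ n ∧ 5616 / n ≠ 2 := by decide +kernel
    have h4 : N.index = 5616 / Nat.card N := by
      rw [← h3, Nat.mul_div_cancel_left _ Nat.card_pos]
    rw [h4] at h1 ⊢
    exact (key _ (Nat.mem_divisors.mpr ⟨⟨_, h3.symm⟩, by norm_num⟩)
      (h1.imp And.right fun ⟨_, _, e, h5, h6, h7, h8⟩ =>
        ⟨e, Nat.mem_divisors.mpr ⟨h5, by norm_num⟩, h6, h8, h7⟩)).imp_left Subgroup.card_eq_one.mp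
  have hinj : Function.Injective τ := by
    rw [← MonoidHom.ker_eq_bot_iff]
    refine (hN τ.ker inferInstance).resolve_right fun h => ?_
    obtain ⟨⟨k, hk⟩, hk3⟩ := exists_prime_orderOf_dvd_card' 3 h.1
    rw [← Subgroup.orderOf_coe] at hk3
    have h1 : ∀ x s, lab s x = lab s (β k x) := fun x s => by
      have := (hτ k (s, lab s x) x).mpr rfl
      rw [show τ k = 1 from hk] at this
      exact this.symm
    have h2 : ∀ x, β (k * k) x = x := fun x => by
      rw [hβm]
      rcases eq_or_eq_inv (h1 x) with h3 | h3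
      · rw [Subtype.ext h3, Subtype.ext h3]
      rcases eq_or_eq_inv (fun s => (h1 x s).trans (h1 (β k x) s)) with h4 | h4
      · exact Subtype.ext h4
      · have h5 := (β k).injective (Subtype.ext (h4.trans h3.symm))
        rw [h5, h5]
    have h3 : Subgroup.centralizer {F (k * k)} = ⊤ := sl_eq_top_of_transvection_mem _
      fun i j hij c => by
        by_cases hc : c = 0
        · rw [show SpecialLinearGroup.transvection hij c = 1 from
            sl_ext (by simp [hc, SpecialLinearGroup.transvection])]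
          exact one_mem _
        have h4 := congrArg Subtype.val (h2 ⟨_, t_eq hij hc⟩)
        rw [hβ, ← F.eq_symm_apply, mul_inv_eq_iff_eq_mul] at h4
        rw [← F.apply_symm_apply (SpecialLinearGroup.transvection hij c), hF.mem_centralizer,
          Subgroup.mem_centralizer_singleton_iff]
        exact h4.symm
    have h4 : F (k * k) ∈ Subgroup.center S := Subgroup.mem_center_iff.mpr fun g =>
      Subgroup.mem_centralizer_singleton_iff.mp (h3 ▸ Subgroup.mem_top g)
    rw [center_sl_eq_bot (by rw [Nat.card_zmod]; decide), Subgroup.mem_bot, hF.eq_one_iff,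
      ← sq, ← orderOf_dvd_iff_pow_eq_one, hk3] at h4
    norm_num at h4
  let H : Subgroup K :=
    { carrier := {k | ∀ a, (τ k a).1 = a.1}
      one_mem' := fun a => by rw [map_one]; rfl
      mul_mem' := fun {k l} hk hl a => by rw [map_mul]; exact (hk _).trans (hl a)
      inv_mem' := fun {k} hk a => by
        rw [← hk, ← Equiv.Perm.mul_apply, ← map_mul, mul_inv_cancel, map_one]; rfl }
  have hH : ∀ k, k ∈ H := by
    by_contra hc
    push Not at hc
    obtain ⟨k, hk⟩ := hc
    have h1 : H.index = 2 := Subgroup.index_eq_two_iff_exists_notMem_and.mpr ⟨k, hk, fun l =>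
      (htype l).symm.imp (fun h a => by
        rw [map_mul, Equiv.Perm.mul_apply, h, (htype k).resolve_left hk, Bool.not_not]) id⟩
    rcases hN H (Subgroup.normal_of_index_eq_two h1) with h | h
    · rw [h, Subgroup.index_bot, hK] at h1
      norm_num at h1
    · exact h.2 h1
  refine ⟨τ, hinj, Set.eq_of_subset_of_ncard_le ?_ (ncard_Col.trans_eq ?_)⟩
  · rintro _ ⟨k, rfl⟩
    exact ⟨hadj k, hH k⟩
  · rw [← hK, Nat.card_congr (MonoidHom.ofInjective hinj).toEquiv]; rfl

/-- Let H be a finite group whose commuting graph (vertices the non-identity elements, two joined when they commute) is isomorphic to that of PSL_3(3): there is a bijection between the non-identity elements of H and of PSL_3(3) under which two elements commute exactly when their images do. Then H ≅ PSL_3(3). -/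
theorem result {H : Type*} [Group H] [Finite H]
    (f : {h : H // h ≠ 1} ≃ {g : Matrix.ProjectiveSpecialLinearGroup (Fin 3) (ZMod 3) // g ≠ 1})
    (hf : ∀ x y : {h : H // h ≠ 1}, (x : H) * y = y * x ↔ ((f x) : Matrix.ProjectiveSpecialLinearGroup (Fin 3) (ZMod 3)) * (f y) = (f y) * (f x)) :
    Nonempty (H ≃* Matrix.ProjectiveSpecialLinearGroup (Fin 3) (ZMod 3)) := by
  obtain ⟨F, hF⟩ := exists_isCG f hf
  let e := pslEquivSL (ι := Fin 3) (F := ZMod 3) (by rw [Nat.card_zmod]; decide)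
  obtain ⟨σ, h1, h2⟩ := exists_hom (isCG_trans hF (isCG_equiv e))
  obtain ⟨τ, h3, h4⟩ := exists_hom (isCG_equiv e)
  exact ⟨(MonoidHom.ofInjective h1).trans ((MulEquiv.subgroupCongr
    (SetLike.coe_injective (h2.trans h4.symm))).trans (MonoidHom.ofInjective h3).symm)⟩

end Cfsg.Agent.S3412
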