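import Mathlib
import Cfsg.Statements.S3413
import Cfsg.Agent.Perm.CommGraph
import Cfsg.Agent.Inv.M11F
import Cfsg.Agent.Spor.M12Unique
import Cfsg.Agent.Spor.Dodecad

set_option autoImplicit false
open Cfsg

namespace Cfsg.Agent.S3413

/-- Let H be a finite group whose commuting graph (vertices the non-identity elements, two joined when they commute) is isomorphic to that of the Mathieu group M_11: there is a bijection between the non-identity elements of H and of M_11 under which two elements commute exactly when their images do. Then H ≅ M_11. -/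
theorem result {H : Type*} [Group H] [Finite H]
    (f : {h : H // h ≠ 1} ≃ {g : ↥Cfsg.Spor.M11 // g ≠ 1})
    (hf : ∀ x y : {h : H // h ≠ 1}, (x : H) * y = y * x ↔ ((f x) : ↥Cfsg.Spor.M11) * (f y) = (f y) * (f x)) :
    Nonempty (H ≃* ↥Cfsg.Spor.M11) := by
  obtain ⟨F, hF⟩ := Perm.CG.exists_isCG f hf
  have hM := Spor.Dod.card_SporM11
  have := Spor.Dod.simple_SporM11
  have hH : Nat.card H = 7920 := (Nat.card_congr F).trans hM
  have : Fact (Nat.Prime 11) := ⟨by norm_num⟩
  have : Fact (Nat.Prime 5) := ⟨by norm_num⟩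
  obtain ⟨x, hx⟩ := exists_prime_orderOf_dvd_card' (G := Cfsg.Spor.M11) 11 (by rw [hM]; norm_num)
  obtain ⟨y, hy⟩ := exists_prime_orderOf_dvd_card' (G := Cfsg.Spor.M11) 5 (by rw [hM]; norm_num)
  have hx1 : x ≠ 1 := fun e => by simp [e] at hx
  have hy1 : y ≠ 1 := fun e => by simp [e] at hy
  obtain ⟨a, _, _, _, hs⟩ := Inv.M11.exists_stage1 hM
  have h11 := hF.symm.card_centralizer x
  have h5 := hF.symm.card_centralizer y
  rw [(Inv.M11.eleven hM hx).1 x (Subgroup.mem_zpowers x) hx1, Nat.card_zpowers, hx] at h11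
  rw [(Inv.M11.five hM (hs.deg_a 0) hy).1 y (Subgroup.mem_zpowers y) hy1, Nat.card_zpowers,
    hy] at h5
  have : Nontrivial H := Finite.one_lt_card_iff_nontrivial.mp (by omega)
  have : IsSimpleGroup H := ⟨fun N hN => by
    have h1 := Perm.CG.normal_cases (by norm_num) (by rw [hH]; norm_num)
      (mt hF.symm.eq_one_iff.mp hx1) h11 N
    have h2 := Perm.CG.normal_cases (by norm_num) (by rw [hH]; norm_num)
      (mt hF.symm.eq_one_iff.mp hy1) h5 N
    have h3 := N.card_mul_index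
    rw [hH] at h1 h2 h3
    have key : ∀ n ∈ Nat.divisors 7920,
        (n % 11 = 1 ∨ ∃ e ∈ Nat.divisors 10, 7920 / n ∣ e ∧ 7920 / (e * 11) % 11 = 1) →
        (n % 5 = 1 ∨ ∃ e ∈ Nat.divisors 4, 7920 / n ∣ e) → n = 1 ∨ n = 7920 := by decide +kernel
    have h4 : N.index = 7920 / Nat.card N := by
      rw [← h3, Nat.mul_div_cancel_left _ Nat.card_pos]
    rw [h4] at h1 h2
    refine (key _ (Nat.mem_divisors.mpr ⟨⟨_, h3.symm⟩, by norm_num⟩)
      (h1.imp And.right fun ⟨_, _, e, h5, h6, _, h7⟩ =>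
        ⟨e, Nat.mem_divisors.mpr ⟨h5, by norm_num⟩, h6, h7⟩)
      (h2.imp And.right fun ⟨_, _, e, h5, h6, _⟩ =>
        ⟨e, Nat.mem_divisors.mpr ⟨h5, by norm_num⟩, h6⟩)).imp Subgroup.card_eq_one.mp fun h =>
      Subgroup.eq_top_of_card_eq _ (h.trans hH.symm)⟩
  obtain ⟨K, hK, hs, -⟩ := Inv.M11.exists_sharp hH
  exact Spor.sharp4_iso_SporM11 hs hK

end Cfsg.Agent.S3413
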