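import Mathlib
import Cfsg.Statements.S3488
import Cfsg.Agent.Perm.SpecCH
import Cfsg.Agent.Perm.SpecSym
import Cfsg.Agent.Cl.GFSmall
import Cfsg.Agent.Cl.Transport

set_option autoImplicit false
open Cfsg

namespace Cfsg.Agent.S3488

open Cfsg.Agent.Perm Cfsg.Agent.Cl

theorem key : ∀ u : GF4, ∃ m ∈ [3, 4, 5], ch3 u u 1 m = (1, 0, 0) := by decide +kernel

def m3 : Matrix.SpecialLinearGroup (Fin 3) GF4 :=
  ⟨!![0, 1, 0; 1, 1, 0; 0, 0, 1], by rw [Matrix.det_fin_three]; decide +kernel⟩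
def m4 : Matrix.SpecialLinearGroup (Fin 3) GF4 :=
  ⟨!![1, 1, 0; 0, 1, 1; 0, 0, 1], by rw [Matrix.det_fin_three]; decide +kernel⟩
def m5 : Matrix.SpecialLinearGroup (Fin 3) GF4 :=
  ⟨!![0, 1, 0; 1, TF.prim gf4, 0; 0, 0, 1], by rw [Matrix.det_fin_three]; decide +kernel⟩

theorem ex : ∀ m ∈ [3, 4, 5], ∃ M : Matrix.SpecialLinearGroup (Fin 3) GF4,
    (M.1 2 0 = 0 ∧ M.1 2 1 = 0 ∧ M.1 2 2 = 1) ∧ orderOf M = m := by
  intro m hm
  simp only [List.mem_cons, List.not_mem_nil, or_false] at hm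
  rcases hm with rfl | rfl | rfl
  · exact ⟨m3, ⟨rfl, rfl, rfl⟩, orderOf_eq_of_chM _ (by norm_num) (by decide +kernel)⟩
  · exact ⟨m4, ⟨rfl, rfl, rfl⟩, orderOf_eq_of_chM _ (by norm_num) (by decide +kernel)⟩
  · exact ⟨m5, ⟨rfl, rfl, rfl⟩, orderOf_eq_of_chM _ (by norm_num) (by decide +kernel)⟩

theorem up (M : Matrix.SpecialLinearGroup (Fin 3) GF4)
    (h : M.1 2 0 = 0 ∧ M.1 2 1 = 0 ∧ M.1 2 2 = 1) : ∃ m ∈ [3, 4, 5], M ^ m = 1 := by
  obtain ⟨m, hm, h1⟩ := key M.1.trace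
  refine ⟨m, hm, sl3_pow_eq_one M ?_⟩
  have h2 := M.2
  rw [Matrix.det_fin_three] at h2
  rw [← h1]
  congr 1
  simp only [Matrix.adjugate_fin_three, Matrix.trace_fin_three, h.1, h.2.1, h.2.2] at h2 ⊢
  simp
  linear_combination h2

/-- Let F be the field with four elements. The affine group F² ⋊ SL(2,F), realised as the subgroup of SL(3,F) of matrices with last row (0, 0, 1), has exactly the same set of element orders as the alternating group of degree 6 (namely {1, 2, 3, 4, 5}); so the alternating group of degree 6 is not determined by its element orders. -/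
theorem result {F : Type*} [Field F] [Fintype F] (hF : Fintype.card F = 4) :
    Set.range (orderOf : Subgroup.closure {M : Matrix.SpecialLinearGroup (Fin 3) F |
        (M : Matrix (Fin 3) (Fin 3) F) 2 0 = 0 ∧ (M : Matrix (Fin 3) (Fin 3) F) 2 1 = 0 ∧ (M : Matrix (Fin 3) (Fin 3) F) 2 2 = 1} → ℕ) =
      Set.range (orderOf : alternatingGroup (Fin 6) → ℕ) := by
  obtain ⟨σ⟩ := nonempty_ringEquiv_GF4 F hF
  rw [spec_alt6]
  refine spec_eq_divs [3, 4, 5] _ (fun g => ?_) (fun m hm => ?_) (by decide) (by decide)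
  · obtain ⟨g, hg⟩ := g
    have h : g.1 2 0 = 0 ∧ g.1 2 1 = 0 ∧ g.1 2 2 = 1 := by
      have e : ∀ M : Matrix.SpecialLinearGroup (Fin 3) F, (M.1 2 0 = 0 ∧ M.1 2 1 = 0 ∧ M.1 2 2 = 1) ↔
          Matrix.vecMul (Pi.single 2 1) M.1 = Pi.single 2 1 := fun M => by
        simp [funext_iff, Fin.forall_fin_succ]
      induction hg using Subgroup.closure_induction with
      | mem x hx => exact hx
      | one => simp
      | mul x y _ _ hx hy =>
        rw [e] at hx hy ⊢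
        rw [Matrix.SpecialLinearGroup.coe_mul, ← Matrix.vecMul_vecMul, hx, hy]
      | inv x _ hx =>
        rw [e] at hx ⊢
        conv_lhs => rw [← hx]
        rw [Matrix.vecMul_vecMul, ← Matrix.SpecialLinearGroup.coe_mul, mul_inv_cancel]
        simp
    obtain ⟨m, hm, h1⟩ := up (slMapEquiv (Fin 3) σ g) (by
      refine ⟨?_, ?_, ?_⟩
      · change σ (g.1 2 0) = 0
        rw [h.1, map_zero]
      · change σ (g.1 2 1) = 0
        rw [h.2.1, map_zero]
      · change σ (g.1 2 2) = 1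
        rw [h.2.2, map_one])
    rw [← map_pow, EmbeddingLike.map_eq_one_iff] at h1
    exact ⟨m, hm, Subtype.ext h1⟩
  · obtain ⟨M, h, rfl⟩ := ex m hm
    refine ⟨⟨slMapEquiv (Fin 3) σ.symm M, Subgroup.subset_closure ⟨?_, ?_, ?_⟩⟩, ?_⟩
    · change σ.symm (M.1 2 0) = 0
      rw [h.1, map_zero]
    · change σ.symm (M.1 2 1) = 0
      rw [h.2.1, map_zero]
    · change σ.symm (M.1 2 2) = 1
      rw [h.2.2, map_one]
    · rw [Subgroup.orderOf_mk, MulEquiv.orderOf_eq]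

end Cfsg.Agent.S3488
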