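import Mathlib
import Cfsg.Statements.S3493
import Cfsg.Agent.Perm.ExtPrim
import Cfsg.Agent.Perm.SocleLight
import Cfsg.Agent.Perm.ExtPrimSimple

set_option autoImplicit false
open Cfsg

namespace Cfsg.Agent.S3493

open MulAction Cfsg.Agent.Inv.Fz Cfsg.Agent.Perm.Fx Cfsg.Agent.Perm.EP Cfsg.Agent.Perm.SL Subgroup

variable {G : Type*} [Group G] [Finite G] {Ω : Type*} [MulAction G Ω] [FaithfulSMul G Ω]

theorem no_reg (hE : IsEP G Ω) (hprim : IsPreprimitive G Ω) {α : Ω} (hH : stabilizer G α ≠ ⊥)
    (T : Subgroup G) [IsSimpleGroup T] (hc : ¬ IsMulCommutative T)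
    (htr : ∀ ω, ∃ t ∈ T, t • α = ω) (hreg : ∀ t ∈ T, t • α = α → t = 1)
    (hinn : ∀ t ∈ T, ∃ c ∈ centralizer (T : Set G), (c * t) • α = α)
    (hR : ∀ h : G, h • α = α → h ∈ normalizer (T : Set G) ∨ cj h T ≤ centralizer (T : Set G)) :
    False := by
  have huniq : ∀ a ∈ T, ∀ b ∈ T, a • α = b • α → a = b := by
    intro a ha b hb h
    have := hreg _ (T.mul_mem (T.inv_mem hb) ha) (by rw [mul_smul, h, inv_smul_smul])
    exact (inv_mul_eq_one.1 this).symm
  have hconj : ∀ h : G, h • α = α → ∀ a : G, h • a • α = (h * a * h⁻¹) • α := by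
    intro h hh a
    rw [mul_smul, mul_smul, (inv_smul_eq_iff.2 hh.symm : h⁻¹ • α = α)]
  have hinn' : ∀ t ∈ T, ∃ h : G, h • α = α ∧ ∀ s ∈ T, h • s • α = (t * s * t⁻¹) • α := by
    intro t ht
    obtain ⟨c, hc, hct⟩ := hinn t ht
    refine ⟨c * t, hct, fun s hs => ?_⟩
    rw [hconj _ hct]
    congr 1
    have := hc _ (T.mul_mem (T.mul_mem ht hs) (T.inv_mem ht))
    calc _ = c * (t * s * t⁻¹) * c⁻¹ := by group
      _ = _ := by rw [← this]; group
  have hR' : ∀ h : G, h • α = α →
      (∀ a ∈ T, ∀ b ∈ T, ∀ a' ∈ T, ∀ b' ∈ T, a' • α = h • a • α → b' • α = h • b • α →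
        (a' * b') • α = h • (a * b) • α) ∨
      (∀ a ∈ T, ∀ b ∈ T, ∀ a' ∈ T, ∀ b' ∈ T, a' • α = h • a • α → b' • α = h • b • α →
        (b' * a') • α = h • (a * b) • α) := by
    intro h hh
    rcases hR h hh with h1 | h1
    · left
      intro a ha b hb a' ha' b' hb' e1 e2
      rw [hconj h hh] at e1 e2 ⊢
      rw [huniq _ ha' _ ((mem_normalizer_iff.1 h1 a).1 ha) e1,
        huniq _ hb' _ ((mem_normalizer_iff.1 h1 b).1 hb) e2]
      congr 1; group
    · right
      intro a ha b hb a' ha' b' hb' e1 e2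
      rw [hconj h hh] at e1 e2 ⊢
      have e3 : h * (a * b) * h⁻¹ = (h * a * h⁻¹) * (h * b * h⁻¹) := by group
      rw [e3, mul_smul b', e1, mul_smul (h * a * h⁻¹), ← e2, ← mul_smul, ← mul_smul,
        h1 (conj_mem_cj.2 ha) b' hb']
  have hne : ∀ x ∈ T, x ≠ 1 → α ≠ x • α := fun x hx h1 h => h1 (hreg x hx h.symm)
  have hnot : ∀ x ∈ T, x ≠ 1 → ¬ stabilizer G α ≤ stabilizer G (x • α) := fun x hx h1 =>
    hE.not_le hprim (hne x hx h1) hH le_rfl le_normalizer
  refine not_simple_of_centralizers hc ?_ ?_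
  · intro x y hy hy1
    obtain ⟨n, rfl⟩ := (mem_powers_iff_mem_zpowers.2 hy)
    have hy1' : (x : G) ^ n ≠ 1 := fun h => hy1 (Subtype.ext h)
    have h1 : stabilizer G α ⊓ stabilizer G ((x : G) • α) ≤
        stabilizer G α ⊓ stabilizer G (((x : G) ^ n) • α) := by
      intro h hh
      refine ⟨hh.1, ?_⟩
      have key : ∀ k : ℕ, ((x : G) ^ k) • α = h • ((x : G) ^ k) • α := by
        intro k
        induction k with
        | zero => rw [pow_zero, one_smul]; exact hh.1.symm
        | succ k ih =>
          rcases hR' h hh.1 with h2 | h2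
          · rw [pow_succ]
            exact h2 _ (T.pow_mem x.2 k) _ x.2 _ (T.pow_mem x.2 k) _ x.2 ih hh.2.symm
          · have := h2 _ (T.pow_mem x.2 k) _ x.2 _ (T.pow_mem x.2 k) _ x.2 ih hh.2.symm
            rwa [← pow_succ, ← pow_succ'] at this
      exact (key n).symm
    rcases hE α _ _ h1 inf_le_left with h2 | h2
    · intro t ht
      obtain ⟨h, hh, hh'⟩ := hinn' t t.2
      rw [mem_centralizer_singleton_iff] at ht ⊢
      have h3 : h ∈ stabilizer G α ⊓ stabilizer G (((x : G) ^ n) • α) := by
        refine ⟨hh, ?_⟩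
        change h • _ = _
        have : (t : G) * x ^ n = x ^ n * t := congrArg Subtype.val ht
        rw [hh' _ (T.pow_mem x.2 n), this, mul_inv_cancel_right]
      rw [h2] at h3
      have h4 : h • (x : G) • α = (x : G) • α := h3.2
      rw [hh' _ x.2] at h4
      have := huniq _ (T.mul_mem (T.mul_mem t.2 x.2) (T.inv_mem t.2)) _ x.2 h4
      exact Subtype.ext (mul_inv_eq_iff_eq_mul.1 this)
    · exact absurd (h2 ▸ inf_le_right) (hnot _ (T.pow_mem x.2 n) hy1')
  · intro x hx1
    have hx1' : (x : G) ≠ 1 := fun h => hx1 (Subtype.ext h)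
    let S : Set Ω := {ω | ∃ s ∈ T, s * x = x * s ∧ s • α = ω}
    have h1 : stabilizer G α ⊓ stabilizer G ((x : G) • α) ≤ stabilizer G α ⊓ setStab G S := by
      refine le_inf inf_le_left (le_setStab ?_)
      rintro h hh _ ⟨s, hs, hsx, rfl⟩
      obtain ⟨s', hs', e⟩ := htr (h • s • α)
      refine ⟨s', hs', huniq _ (T.mul_mem hs' x.2) _ (T.mul_mem x.2 hs') ?_, e⟩
      rcases hR' h hh.1 with h2 | h2
      · rw [h2 _ hs _ x.2 _ hs' _ x.2 e hh.2.symm, h2 _ x.2 _ hs _ x.2 _ hs' hh.2.symm e, hsx]
      · rw [h2 _ hs _ x.2 _ hs' _ x.2 e hh.2.symm, h2 _ x.2 _ hs _ x.2 _ hs' hh.2.symm e, hsx]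
    rcases hE α _ _ h1 inf_le_left with h2 | h2
    · intro t ht
      obtain ⟨h, hh, hh'⟩ := hinn' t t.2
      have h3 : h ∈ stabilizer G α ⊓ setStab G S := by
        refine ⟨hh, fun ω => ?_⟩
        obtain ⟨s, hs, rfl⟩ := htr ω
        have h4 := mem_normalizer_iff.1 ht ⟨s, hs⟩
        rw [mem_centralizer_singleton_iff, mem_centralizer_singleton_iff] at h4
        rw [hh' s hs]
        constructor
        · rintro ⟨s', hs', e1, e2⟩
          rw [huniq _ hs' _ (T.mul_mem (T.mul_mem t.2 hs) (T.inv_mem t.2)) e2] at e1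
          exact ⟨s, hs, congrArg Subtype.val (h4.2 (Subtype.ext e1)), rfl⟩
        · rintro ⟨s', hs', e1, e2⟩
          rw [huniq _ hs' _ hs e2] at e1
          exact ⟨_, T.mul_mem (T.mul_mem t.2 hs) (T.inv_mem t.2),
            congrArg Subtype.val (h4.1 (Subtype.ext e1)), rfl⟩
      rw [h2] at h3
      have h4 : h • (x : G) • α = (x : G) • α := h3.2
      rw [hh' _ x.2] at h4
      have := huniq _ (T.mul_mem (T.mul_mem t.2 x.2) (T.inv_mem t.2)) _ x.2 h4
      exact mem_centralizer_singleton_iff.2 (Subtype.ext (mul_inv_eq_iff_eq_mul.1 this))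
    · have h3 : (centralizer ({x} : Set T)).Normal := by
        refine ⟨fun s hs t => ?_⟩
        obtain ⟨h, hh, hh'⟩ := hinn' t t.2
        have h4 : h ∈ stabilizer G α ⊓ setStab G S := h2.symm ▸ hh
        rw [mem_centralizer_singleton_iff] at hs ⊢
        obtain ⟨s', hs', e1, e2⟩ := (h4.2 ((s : G) • α)).2 ⟨s, s.2, congrArg Subtype.val hs, rfl⟩
        rw [hh' s s.2] at e2
        rw [huniq _ hs' _ (T.mul_mem (T.mul_mem t.2 s.2) (T.inv_mem t.2)) e2] at e1
        exact Subtype.ext e1
      exact le_of_eq_of_le (normalizer_eq_top _) (by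
        rcases h3.eq_bot_or_eq_top with h4 | h4
        · have : x ∈ centralizer ({x} : Set T) := mem_centralizer_singleton_iff.2 rfl
          rw [h4] at this
          exact absurd this hx1
        · exact h4.ge)

/-- An extremely primitive permutation group is of affine type or almost simple. Let a finite group G act faithfully and primitively on a finite set Ω with at least two points, in such a way that every point stabilizer acts primitively on each of its own orbits in Ω (an orbit of size one counts as primitive). Then either G has a non-trivial abelian normal subgroup whose elements other than the identity fix no point (affine type), or G has a non-abelian simple normal subgroup with trivial centralizer (almost simple). -/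
theorem result {G : Type*} [Group G] [Finite G] {Ω : Type*} [Fintype Ω] [MulAction G Ω] [FaithfulSMul G Ω] (hΩ : 2 ≤ Fintype.card Ω) (hprim : MulAction.IsPreprimitive G Ω) (hep : ∀ (α : Ω) (ω : Ω), MulAction.IsPreprimitive (MulAction.stabilizer G α) (MulAction.orbit (MulAction.stabilizer G α) ω)) :
    (∃ N : Subgroup G, N.Normal ∧ N ≠ ⊥ ∧ IsMulCommutative N ∧ ∀ ω : Ω, MulAction.stabilizer N ω = ⊥) ∨ (∃ T : Subgroup G, T.Normal ∧ IsSimpleGroup T ∧ ¬ IsMulCommutative T ∧ Subgroup.centralizer (T : Set G) = ⊥) := by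
  classical
  have hE := isEP_of hep
  obtain ⟨α, β, hαβ⟩ := Fintype.exists_pair_of_one_lt_card (α := Ω) (by omega)
  have hnt : Nontrivial G := by
    obtain ⟨g, hg⟩ := exists_smul_eq G α β
    exact ⟨⟨g, 1, by rintro rfl; exact hαβ (by rw [← hg, one_smul])⟩⟩
  obtain ⟨N, hN⟩ := GT.exists_isMinNormal G
  have := hN.normal
  have hNt := Perm.isPretransitive_of_normal_ne_bot hprim N hN.ne_bot
  by_cases hc : IsMulCommutative N
  · exact Or.inl ⟨N, hN.normal, hN.ne_bot, hc, Perm.stabilizer_eq_bot_of_comm N hc⟩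
  right
  have hH : stabilizer G α ≠ ⊥ := by
    intro h
    have : Nontrivial Ω := ⟨⟨α, β, hαβ⟩⟩
    have := (Perm.prime_card_of_regular_primitive hprim α h).1
    exact hc ⟨⟨fun a b => Subtype.ext (IsCyclic.commGroup.mul_comm (a : G) b)⟩⟩
  have hH' : stabilizer G α ≠ ⊤ := by
    intro h
    obtain ⟨g, hg⟩ := exists_smul_eq G α β
    have : g ∈ stabilizer G α := h ▸ mem_top g
    exact hαβ (Eq.trans (Eq.symm this) hg)
  have hHN : stabilizer G α ⊔ N = ⊤ := by rw [sup_comm]; exact Perm.sup_stabilizer_eq_top N α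
  obtain ⟨T, hT⟩ := exists_cp hN.ne_bot
  have hTs := hT.simple hN
  have hTc := hT.not_comm hN hc
  have hTH : ∀ T', Cp N T' → ∃ t ∈ T', α ≠ t • α := by
    intro T' hT'
    by_contra h
    push Not at h
    exact hT'.not_le hN hc hHN hH' fun t ht => (h t ht).symm
  by_contra hno
  have hCn : T.Normal → ∀ x y : Ω, ∃ c ∈ centralizer (T : Set G), c • x = y := by
    intro hTn
    apply normal_transitive
    intro h
    exact hno ⟨T, hTn, hTs, hTc, h⟩
  by_cases hD : N ⊓ stabilizer G α = ⊥
  · have hreg : ∀ t ∈ N, t • α = α → t = 1 := by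
      intro t ht h
      have : t ∈ N ⊓ stabilizer G α := ⟨ht, h⟩
      rwa [hD] at this
    by_cases hTn : T.Normal
    · have hTN := hT.eq_of_normal hN
      subst hTN
      refine no_reg hE hprim hH T hTc (fun ω => Perm.exists_mem_smul_eq T α ω) hreg
        (fun t ht => ?_) (fun h _ => Or.inl (le_normalizer_of_normal (mem_top h)))
      obtain ⟨c, hc, hc'⟩ := hCn hTn (t • α) α
      exact ⟨c, hc, by rw [mul_smul, hc']⟩
    · obtain ⟨x, hx, hxα⟩ := hTH T hT
      have hx1 : x ≠ 1 := by rintro rfl; exact hxα (one_smul _ _).symm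
      have hfix : ∀ h : G, h • α = α → (h • x • α = x • α ↔ h * x * h⁻¹ = x) := by
        intro h hh
        constructor
        · exact Perm.conj_eq_of_regular_normal ((Perm.stabilizer_subgroup_eq_bot_iff N α).2 hreg)
            hh (hT.le hx) (hT.le hx)
        · intro e
          rw [← mul_smul, mul_inv_eq_iff_eq_mul.1 e, mul_smul, hh]
      have h1 : stabilizer G α ⊓ stabilizer G (x • α) ≤ stabilizer G α ⊓ normalizer (T : Set G) := by
        intro h hh
        refine ⟨hh.1, cj_eq_iff.1 ((hT.cj h).eq_of_mem hT ?_ hx hx1)⟩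
        rw [← (hfix h hh.1).1 hh.2]
        exact conj_mem_cj.2 hx
      rcases hE α _ _ h1 inf_le_left with h2 | h2
      · let s : Set G := {y | ∃ h : G, h • α = α ∧ h * x * h⁻¹ = y}
        have hs : ∀ a ∈ s, ∀ b ∈ s, a * b = b * a := by
          rintro _ ⟨a, ha, rfl⟩ _ ⟨b, hb, rfl⟩
          rcases (hT.cj a).eq_or (hT.cj b) with h3 | h3
          · have h4 : b⁻¹ * a ∈ stabilizer G α ⊓ normalizer (T : Set G) := by
              refine ⟨(stabilizer G α).mul_mem ((stabilizer G α).inv_mem hb) ha, cj_eq_iff.1 ?_⟩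
              rw [← cj_cj, h3, cj_inv_cj]
            rw [h2] at h4
            have h5 := (hfix _ h4.1).1 h4.2
            have : a * x * a⁻¹ = b * x * b⁻¹ := by
              calc _ = b * (b⁻¹ * a * x * (b⁻¹ * a)⁻¹) * b⁻¹ := by group
                _ = _ := by rw [h5]
            rw [this]
          · exact h3.2 (conj_mem_cj.2 hx) _ (conj_mem_cj.2 hx)
        have hLN : closure s ≤ N := by
          rw [closure_le]
          rintro _ ⟨a, -, rfl⟩
          exact hN.normal.conj_mem _ (hT.le hx) a
        have hHL : stabilizer G α ≤ normalizer ((closure s : Subgroup G) : Set G) := by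
          intro g hg
          rw [← cj_eq_iff]
          apply cj_eq_of_le
          rw [cj_closure]
          apply Subgroup.closure_mono
          rintro _ ⟨_, ⟨a, ha, rfl⟩, rfl⟩
          exact ⟨g * a, by rw [mul_smul, ha]; exact hg, by group⟩
        rcases Perm.eq_stabilizer_or_eq_top hprim α
          (le_sup_left : stabilizer G α ≤ stabilizer G α ⊔ closure s) with h | h
        · have : x ∈ stabilizer G α :=
            h ▸ mem_sup_right (subset_closure ⟨1, one_smul _ _, by group⟩)
          exact hxα (Eq.symm this)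
        · have h3 : N ≤ closure s := by
            intro n hn
            have : n ∈ stabilizer G α ⊔ closure s := h ▸ mem_top _
            obtain ⟨a, ha, b, hb, hab⟩ := (mem_sup_iff_of_le_normalizer hHL).1 this
            have h4 : a = n * b⁻¹ := by rw [hab]; group
            have h5 : a = 1 := hreg a (h4 ▸ N.mul_mem hn (N.inv_mem (hLN hb))) ha
            rwa [hab, h5, one_mul]
          apply hc
          rw [← le_centralizer_iff_isMulCommutative]
          have h4 : closure s ≤ centralizer (closure s : Set G) := by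
            rw [centralizer_closure, closure_le]
            intro a ha b hb
            exact hs b hb a ha
          exact (h3.trans h4).trans (centralizer_le h3)
      · apply hTn
        apply GT.normal_of_top_le_normalizer
        rw [← hHN]
        exact sup_le (h2 ▸ inf_le_right) hT.norm
  · have hDn : stabilizer G α ≤ normalizer ((N ⊓ stabilizer G α : Subgroup G) : Set G) :=
      inf_normalizer le_normalizer_of_normal le_normalizer
    have hcent : ∀ T', Cp N T' → ∀ k ∈ centralizer (T' : Set G), k • α = α → k = 1 := by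
      intro T' hT' k hk hkα
      obtain ⟨t, ht, htα⟩ := hTH T' hT'
      have := hE.eq_bot hprim htα hD inf_le_right hDn
        (K := stabilizer G α ⊓ centralizer (T' : Set G)) (by
          refine le_inf inf_le_left fun c hc => ?_
          change c • t • α = t • α
          rw [← mul_smul, ← hc.2 t ht, mul_smul, hc.1])
        (inf_normalizer (inf_le_right.trans le_normalizer)
          (inf_le_left.trans (hT'.norm.trans (normalizer_le_normalizer_centralizer T'))))
      have h1 : k ∈ stabilizer G α ⊓ centralizer (T' : Set G) := ⟨hkα, hk⟩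
      rwa [this] at h1
    by_cases hTn : T.Normal
    · have hTN := hT.eq_of_normal hN
      subst hTN
      apply hD
      rw [eq_bot_iff]
      intro d hd
      exact eq_one_of_commute_transitive (hCn hTn) (fun c hc => (hc d hd.1).symm) hd.2
    · obtain ⟨T', hT', hne⟩ := hT.exists_ne hTn
      have htr : ∀ T'', Cp N T'' → ∀ ω, ∃ t ∈ T'', t • α = ω := by
        intro T'' hT'' ω
        have h1 : stabilizer G α ≤ setStab G (orbit T'' α) := by
          apply le_setStab
          intro h hh x hx
          obtain ⟨t, ht, rfl⟩ := mem_orbit_sub.1 hx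
          obtain ⟨d, hd, hd'⟩ := hE.trans hprim hD inf_le_right hDn (t • α) h hh
          refine mem_orbit_sub.2 ⟨d * t * d⁻¹, hT''.conj_mem hd.1 ht, ?_⟩
          rw [← hd', mul_smul, mul_smul, (inv_smul_eq_iff.2 (Eq.symm hd.2) : d⁻¹ • α = α)]
        rcases Perm.eq_stabilizer_or_eq_top hprim α h1 with h2 | h2
        · exact absurd (h2 ▸ le_setStab (orbit_inv T'' α)) (hT''.not_le hN hc hHN hH')
        · exact mem_orbit_sub.1 (eq_univ_of_setStab h2 (mem_orbit_self α) ω)
      refine no_reg hE hprim hH T hTc (htr T hT)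
        (fun t ht => hcent T' hT' t (hT'.le_centralizer hT hne.symm ht)) (fun t ht => ?_)
        (fun h _ => ?_)
      · obtain ⟨c, hc, hc'⟩ := htr T' hT' (t⁻¹ • α)
        have h1 := hT.le_centralizer hT' hne hc
        exact ⟨c, h1, by rw [← h1 t ht, mul_smul, hc', smul_inv_smul]⟩
      · rcases hT.eq_or (hT.cj h) with h1 | h1
        · exact Or.inl (cj_eq_iff.1 h1.symm)
        · exact Or.inr h1.2

end Cfsg.Agent.S3493
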