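import Mathlib
import Cfsg.Statements.S3495
import Cfsg.Agent.Perm.ExtPrim

set_option autoImplicit false
open Cfsg

namespace Cfsg.Agent.S3495

/-- Let a finite group G act faithfully and primitively on a finite set Ω with non-trivial point stabilizers, each acting primitively on every one of its orbits (an extremely primitive group), and suppose G has an elementary abelian normal p-subgroup N acting regularly on Ω (affine type). Then every non-trivial subgroup M of a point stabilizer G_α that is normal in G_α has the same orbits on Ω as G_α, and normalizes no subgroup of N other than 1 and N. -/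
theorem result {G : Type*} [Group G] [Finite G] {Ω : Type*} [Fintype Ω] [MulAction G Ω] [FaithfulSMul G Ω] (hprim : MulAction.IsPreprimitive G Ω) (hH : ∀ α : Ω, MulAction.stabilizer G α ≠ ⊥) (hep : ∀ (α : Ω) (ω : Ω), MulAction.IsPreprimitive (MulAction.stabilizer G α) (MulAction.orbit (MulAction.stabilizer G α) ω))
    (N : Subgroup G) [N.Normal] (hNc : IsMulCommutative N) (p : ℕ) (hp : p.Prime) (hNp : ∀ n ∈ N, n ^ p = 1)
    (hNtr : MulAction.IsPretransitive N Ω) (hNreg : ∀ ω : Ω, MulAction.stabilizer N ω = ⊥) (α : Ω) (M : Subgroup G) (hM : M ≠ ⊥) (hMle : M ≤ MulAction.stabilizer G α)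
    (hMn : MulAction.stabilizer G α ≤ Subgroup.normalizer (M : Set G)) :
    (∀ ω : Ω, MulAction.orbit M ω = MulAction.orbit (MulAction.stabilizer G α) ω) ∧
    (∀ L : Subgroup G, L ≤ N → M ≤ Subgroup.normalizer (L : Set G) → L = ⊥ ∨ L = N) := by
  have hE := Perm.EP.isEP_of hep
  have htr := hE.trans hprim hM hMle hMn
  refine ⟨fun ω => ?_, fun L hL hML => ?_⟩
  · ext x
    rw [Perm.Fx.mem_orbit_sub, Perm.Fx.mem_orbit_sub]
    constructor
    · rintro ⟨m, hm, rfl⟩; exact ⟨m, hMle hm, rfl⟩
    · rintro ⟨g, hg, rfl⟩; exact htr ω g hg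
  · have hHL : MulAction.stabilizer G α ≤ Subgroup.normalizer (L : Set G) := by
      intro g hg
      apply Inv.Fz.mem_normalizer_of_conj_mem
      intro l hl
      obtain ⟨m, hm, hm'⟩ := htr (l • α) g hg
      have h1 : m * l * m⁻¹ ∈ L := (Subgroup.mem_normalizer_iff.1 (hML hm) l).1 hl
      have h2 : m • α = α := hMle hm
      have h3 : g • l • α = (m * l * m⁻¹) • α := by
        rw [← hm', mul_smul, mul_smul, (inv_smul_eq_iff.2 h2.symm : m⁻¹ • α = α)]
      rw [Perm.conj_eq_of_regular_normal (hNreg α) hg (hL hl) (hL h1) h3]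
      exact h1
    rcases Perm.eq_stabilizer_or_eq_top hprim α
      (le_sup_left : MulAction.stabilizer G α ≤ MulAction.stabilizer G α ⊔ L) with h | h
    · left
      rw [eq_bot_iff]
      intro l hl
      have : l ∈ MulAction.stabilizer G α := h ▸ Subgroup.mem_sup_right hl
      exact (Perm.stabilizer_subgroup_eq_bot_iff N α).1 (hNreg α) l (hL hl) this
    · right
      refine le_antisymm hL fun n hn => ?_
      have : n⁻¹ ∈ MulAction.stabilizer G α ⊔ L := h ▸ Subgroup.mem_top _
      obtain ⟨a, ha, b, hb, hab⟩ := (Inv.Fz.mem_sup_iff_of_le_normalizer hHL).1 this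
      have h1 : a = n⁻¹ * b⁻¹ := by rw [hab]; group
      have h2 : a = 1 := (Perm.stabilizer_subgroup_eq_bot_iff N α).1 (hNreg α) a
        (h1 ▸ N.mul_mem (N.inv_mem hn) (N.inv_mem (hL hb))) ha
      rw [h2, one_mul] at hab
      rw [← inv_inv n, hab]
      exact L.inv_mem hb

end Cfsg.Agent.S3495
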