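import Mathlib
import Cfsg.Statements.S3496
import Cfsg.Agent.Perm.ExtPrimLin

set_option autoImplicit false
open Cfsg

namespace Cfsg.Agent.S3496

open MulAction Cfsg.Agent.Inv.Fz Cfsg.Agent.Perm.Fx Cfsg.Agent.Perm.EP Subgroup

/-- The soluble extremely primitive groups. Let a finite solvable group G act faithfully and primitively on a finite set Ω with p ^ d points (p prime), with non-trivial point stabilizers each acting primitively on every one of its orbits. Then there is a prime q such that every orbit of a point stabilizer G_α other than {α} has exactly q points, q divides p ^ d − 1 but no p ^ i − 1 with 0 < i < d, and G_α has a normal subgroup T of order q with G_α generated by T and one further element and the order of G_α dividing q·d (so G_α is cyclic of order q, or an extension of T by a cyclic group of order dividing d). -/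
theorem result {G : Type*} [Group G] [Finite G] {Ω : Type*} [Fintype Ω] [MulAction G Ω] [FaithfulSMul G Ω] [Group.IsSolvable G] (p d : ℕ) (hp : p.Prime) (hcard : Fintype.card Ω = p ^ d)
    (hprim : MulAction.IsPreprimitive G Ω) (hH : ∀ α : Ω, MulAction.stabilizer G α ≠ ⊥) (hep : ∀ (α : Ω) (ω : Ω), MulAction.IsPreprimitive (MulAction.stabilizer G α) (MulAction.orbit (MulAction.stabilizer G α) ω)) (α : Ω) :
    ∃ q : ℕ, q.Prime ∧ (∀ ω : Ω, ω ≠ α → Nat.card (MulAction.orbit (MulAction.stabilizer G α) ω) = q) ∧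
      q ∣ p ^ d - 1 ∧ (∀ i : ℕ, 0 < i → i < d → ¬ q ∣ p ^ i - 1) ∧
      ∃ T : Subgroup G, T ≤ MulAction.stabilizer G α ∧ MulAction.stabilizer G α ≤ Subgroup.normalizer (T : Set G) ∧ Nat.card T = q ∧
        (∃ h : G, MulAction.stabilizer G α = T ⊔ Subgroup.zpowers h) ∧ Nat.card (MulAction.stabilizer G α) ∣ q * d := by
  have := Fact.mk hp
  have hE := isEP_of hep
  have hnt : Nontrivial (stabilizer G α) := (nontrivial_iff_ne_bot _).2 (hH α)
  have hG : Nontrivial G := (stabilizer G α).subtype_injective.nontrivial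
  obtain ⟨N, hN⟩ := GT.exists_isMinNormal G
  have := hN.normal
  obtain ⟨-, -, -, hNc⟩ := hN.exists_isPGroup
  rw [← Nat.card_eq_fintype_card] at hcard
  obtain ⟨hV, hreg, hcN⟩ := elementary_of_comm hprim hp hcard hN.ne_bot hNc α
  have hL := hE.linEP hprim (hH α) hV hreg
  have : Nontrivial (GT.EAV hV) := (nontrivial_iff_ne_bot _).2 hN.ne_bot
  obtain ⟨T, hT⟩ := GT.exists_isMinNormal (stabilizer G α)
  have := hT.normal
  obtain ⟨q, hq, hTq⟩ := hT.elementary
  have := Fact.mk hq
  obtain ⟨h1, h2, h3, h4, h5⟩ := hL.abelian T hT.ne_bot hTq.1 (d := d) hcN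
  have hcT : Nat.card T = q := by
    have h6 := hTq.isCyclic_iff.1 h1
    obtain ⟨n, hn⟩ := hTq.card_eq_pow
    have h7 : Nat.card T ≠ 1 := fun e => hT.ne_bot (card_eq_one.1 e)
    rcases n with _ | n
    · exact absurd hn h7
    · refine le_antisymm h6 ?_
      rw [hn]
      exact Nat.le_self_pow (by omega) q
  rw [hcT] at h2 h3
  have hT'n : stabilizer G α ≤ normalizer ((T.map (stabilizer G α).subtype : Subgroup G) : Set G) := by
    intro g hg
    apply mem_normalizer_of_conj_mem
    rintro _ ⟨t, ht, rfl⟩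
    exact ⟨_, hT.normal.conj_mem t ht ⟨g, hg⟩, rfl⟩
  have hT'c : Nat.card (T.map (stabilizer G α).subtype) = q := by
    rw [card_map_of_injective (stabilizer G α).subtype_injective, hcT]
  have hT'0 : T.map (stabilizer G α).subtype ≠ ⊥ := fun e =>
    hT.ne_bot ((map_eq_bot_iff_of_injective _ (stabilizer G α).subtype_injective).1 e)
  refine ⟨q, hq, fun ω hω => ?_, h2, h3, T.map (stabilizer G α).subtype, map_subtype_le _, hT'n,
    hT'c, ?_, ?_⟩
  · have e : orbit (stabilizer G α) ω = orbit (T.map (stabilizer G α).subtype) ω := by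
      ext x
      rw [mem_orbit_sub, mem_orbit_sub]
      constructor
      · rintro ⟨g, hg, rfl⟩; exact hE.trans hprim hT'0 (map_subtype_le _) hT'n ω g hg
      · rintro ⟨m, hm, rfl⟩; exact ⟨m, map_subtype_le _ hm, rfl⟩
    rw [e]
    have h6 := card_orbit_dvd (T.map (stabilizer G α).subtype) ω
    rw [hT'c] at h6
    refine ((Nat.dvd_prime hq).1 h6).resolve_left fun h7 => ?_
    exact hE.not_le hprim hω.symm hT'0 (map_subtype_le _) hT'n (smul_eq_of_card_orbit_eq_one h7)
  · obtain ⟨g, hg⟩ := IsCyclic.exists_generator (α := stabilizer G α ⧸ T)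
    obtain ⟨h, rfl⟩ := QuotientGroup.mk_surjective g
    refine ⟨h, le_antisymm (fun x hx => ?_) (sup_le (map_subtype_le _) (zpowers_le.2 h.2))⟩
    obtain ⟨k, hk⟩ := hg (⟨x, hx⟩ : stabilizer G α)
    have h6 : ((h ^ k : stabilizer G α) : stabilizer G α ⧸ T) = (⟨x, hx⟩ : stabilizer G α) := hk
    rw [QuotientGroup.eq] at h6
    have : x = (h : G) ^ k * (((h ^ k)⁻¹ * ⟨x, hx⟩ : stabilizer G α) : G) := by simp
    rw [this]
    exact mul_mem (mem_sup_right (zpow_mem_zpowers _ _)) (mem_sup_left ⟨_, h6, rfl⟩)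
  · rw [← T.card_mul_index, hcT]
    exact Nat.mul_dvd_mul_left q h5

end Cfsg.Agent.S3496
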