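import Mathlib
import Cfsg.Statements.S3497
import Cfsg.Agent.Perm.ExtPrim
import Cfsg.Agent.GT.Fitting
import Cfsg.Agent.GT.PGroupElemAb

set_option autoImplicit false
open Cfsg

namespace Cfsg.Agent.S3497

open MulAction Cfsg.Agent.Inv.Fz Cfsg.Agent.Perm.Fx Cfsg.Agent.Perm.EP Subgroup

/-- Restrictions on the point stabilizer of an extremely primitive group. Let a finite group G act faithfully and primitively on a finite set Ω with point stabilizers H = G_α whose order is neither 1 nor a prime, each acting primitively on every one of its orbits. Then H has trivial center, the Fitting subgroup F(H) is an elementary abelian p-group for some prime p, and if F(H) ≠ 1 has order p ^ e then p ^ e divides the number of points minus one and H / F(H) embeds in GL_e(p) (there is a homomorphism from H to GL_e(p) with kernel exactly F(H)). -/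
theorem result {G : Type*} [Group G] [Finite G] {Ω : Type*} [Fintype Ω] [MulAction G Ω] [FaithfulSMul G Ω] (hprim : MulAction.IsPreprimitive G Ω) (hep : ∀ (α : Ω) (ω : Ω), MulAction.IsPreprimitive (MulAction.stabilizer G α) (MulAction.orbit (MulAction.stabilizer G α) ω)) (α : Ω)
    (hH1 : MulAction.stabilizer G α ≠ ⊥) (hHp : ¬ (Nat.card (MulAction.stabilizer G α)).Prime) :
    Subgroup.center (MulAction.stabilizer G α) = ⊥ ∧
    IsMulCommutative (Cfsg.fittingSubgroup (MulAction.stabilizer G α)) ∧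
    ∃ p e : ℕ, p.Prime ∧ Nat.card (Cfsg.fittingSubgroup (MulAction.stabilizer G α)) = p ^ e ∧
      (∀ x ∈ Cfsg.fittingSubgroup (MulAction.stabilizer G α), x ^ p = 1) ∧
      (Cfsg.fittingSubgroup (MulAction.stabilizer G α) ≠ ⊥ →
        p ^ e ∣ Fintype.card Ω - 1 ∧
        ∃ φ : MulAction.stabilizer G α →* GL (Fin e) (ZMod p), φ.ker = Cfsg.fittingSubgroup (MulAction.stabilizer G α)) := by
  have hE := isEP_of hep
  set H := stabilizer G α with hHdef
  have hsub : ∀ (M : Subgroup H) [M.Normal], H ≤ normalizer ((M.map H.subtype : Subgroup G) : Set G) := by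
    intro M hM g hg
    apply mem_normalizer_of_conj_mem
    rintro _ ⟨t, ht, rfl⟩
    exact ⟨_, hM.conj_mem t ht ⟨g, hg⟩, rfl⟩
  have hsub0 : ∀ M : Subgroup H, M ≠ ⊥ → M.map H.subtype ≠ ⊥ := fun M h e =>
    h ((map_eq_bot_iff_of_injective _ H.subtype_injective).1 e)
  have htr : ∀ (M : Subgroup H) [M.Normal], M ≠ ⊥ → ∀ (ω : Ω) (g : H), ∃ m ∈ M,
      (m : G) • ω = (g : G) • ω := by
    intro M _ h ω g
    obtain ⟨_, ⟨m, hm, rfl⟩, hm'⟩ := hE.trans hprim (hsub0 M h) (map_subtype_le _) (hsub M) ω g g.2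
    exact ⟨m, hm, hm'⟩
  have hcen : ∀ (M : Subgroup H) [M.Normal], M ≠ ⊥ → ∀ ω : Ω, α ≠ ω → ∀ c ∈ centralizer (M : Set H),
      (c : G) • ω = ω → c = 1 := by
    intro M _ h ω hω c hc hcω
    have h1 : (c : G) ∈ kerO G α ω := by
      refine ⟨c.2, fun a ha => ?_⟩
      obtain ⟨m, hm, hm'⟩ := htr M h ω ⟨a, ha⟩
      have : (m : G) * c = c * m := congrArg Subtype.val (hc m hm)
      rw [← (hm' : (m : G) • ω = a • ω), ← mul_smul, ← this, mul_smul, hcω]
    rw [hE.kerO_eq_bot hprim hH1 hω] at h1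
    exact Subtype.ext h1
  obtain ⟨β, hβ⟩ : ∃ β : Ω, α ≠ β := by
    by_contra h
    push Not at h
    apply hH1
    rw [eq_bot_iff]
    intro g hg
    exact Perm.eq_one_of_smul_eq (X := Ω) fun x => by rw [← h x]; exact hg
  have hle : ∀ (M : Subgroup H) [M.Normal], M ≠ ⊥ → IsMulCommutative M →
      centralizer (M : Set H) ≤ M := by
    intro M _ h hc c hcM
    obtain ⟨t, ht, ht'⟩ := htr M h β c
    have := hcen M h β hβ (t⁻¹ * c)
      (mul_mem (inv_mem (le_centralizer_iff_isMulCommutative.2 hc ht)) hcM)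
      (by rw [coe_mul, mul_smul, ← ht', coe_inv, inv_smul_smul])
    rwa [← inv_mul_eq_one.1 this]
  have hZ : center H = ⊥ := by
    by_contra hZ
    apply hHp
    have : Nontrivial H := (nontrivial_iff_ne_bot _).2 hH1
    refine (Perm.prime_card_of_forall_subgroup fun K => ?_).2
    have h1 : H ⊓ stabilizer G β = ⊥ := by
      rw [eq_bot_iff]
      intro g hg
      have := hcen _ hZ β hβ ⟨g, hg.1⟩ (fun z hz => (mem_center_iff.1 hz _).symm) hg.2
      exact congrArg Subtype.val this
    rcases hE α β (K.map H.subtype) (h1 ▸ bot_le) (map_subtype_le _) with h | h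
    · rw [h1] at h
      exact Or.inl ((map_eq_bot_iff_of_injective _ H.subtype_injective).1 h)
    · right
      rw [eq_top_iff]
      intro g _
      have : (g : G) ∈ K.map H.subtype := h.symm ▸ g.2
      obtain ⟨y, hy, hyx⟩ := this
      rwa [← (Subtype.ext hyx : y = g)]
  by_cases hF : fittingSubgroup H = ⊥
  · refine ⟨hZ, ?_, 2, 0, Nat.prime_two, ?_, ?_, fun h => absurd hF h⟩
    · rw [hF]; infer_instance
    · rw [hF, card_bot, pow_zero]
    · intro x hx
      rw [hF, mem_bot] at hx
      rw [hx, one_pow]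
  obtain ⟨A, p, hA, hAF, hp, hAe⟩ := GT.exists_isMinNormal_elementary_le hF
  have := hA.normal
  have := Fact.mk hp
  have hC := hle A hA.ne_bot hAe.1
  have hFA : fittingSubgroup H = A := le_antisymm (hA.fitting_le_centralizer.trans hC) hAF
  rw [hFA]
  obtain ⟨e, he⟩ := hAe.card_eq_pow
  refine ⟨hZ, hAe.1, p, e, hp, he, hAe.2, fun _ => ⟨?_, ?_⟩⟩
  · have := card_dvd_of_semiregular (A.map H.subtype) ({α}ᶜ : Set Ω) (by
      rintro _ ⟨a, -, rfl⟩ x hx h
      exact hx (smul_left_cancel (a : G) (h.trans (Eq.symm a.2)))) (by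
      rintro _ ⟨a, ha, rfl⟩ x hx h
      exact congrArg Subtype.val (hcen A hA.ne_bot x (Ne.symm hx) a (hAe.le_centralizer ha) h))
    rwa [card_map_of_injective H.subtype_injective, he, Nat.card_coe_set_eq, Set.ncard_compl,
      Set.ncard_singleton, Nat.card_eq_fintype_card] at this
  · obtain ⟨ε⟩ := GT.PG.nonempty_mulAut_equiv_GL hAe.1 (fun x => Subtype.ext (hAe.2 x x.2)) he
    refine ⟨ε.toMonoidHom.comp MulAut.conjNormal, ?_⟩
    ext g
    rw [MonoidHom.mem_ker, MonoidHom.comp_apply, MulEquiv.coe_toMonoidHom,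
      EmbeddingLike.map_eq_one_iff]
    constructor
    · intro h
      refine hC fun a ha => ?_
      have := congrArg Subtype.val (DFunLike.congr_fun h ⟨a, ha⟩)
      exact (mul_inv_eq_iff_eq_mul.1 this).symm
    · intro h
      ext a
      have := hAe.le_centralizer h a a.2
      simp [← this]

end Cfsg.Agent.S3497
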