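import Mathlib
import Cfsg.Statements.S3498
import Cfsg.Agent.GT.NilpotentMaximal

set_option autoImplicit false
open Cfsg

namespace Cfsg.Agent.S3498

open Cfsg.Agent.GT Subgroup

/-- A maximal subgroup of a finite almost simple group does not have prime order. Here G is almost simple in the sense that it has a non-abelian simple normal subgroup T with trivial centralizer. -/
theorem result {G : Type*} [Group G] [Finite G] (T : Subgroup G) [T.Normal] (hT : IsSimpleGroup T) (hTc : ¬ IsMulCommutative T)
    (hC : Subgroup.centralizer (T : Set G) = ⊥) (H : Subgroup G) (hmax : IsCoatom H) : ¬ (Nat.card H).Prime := by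
  intro hp
  have := Fact.mk hp
  have hc : IsCyclic H := isCyclic_of_prime_card rfl
  have hn : Group.IsNilpotent H := (IsPGroup.of_card (n := 1) (by rw [pow_one])).isNilpotent
  have h1 : ⁅H, H⁆ = ⊥ := by
    rw [commutator_eq_bot_iff_le_centralizer]
    intro x hx y hy
    exact congrArg Subtype.val (hc.isMulCommutative.is_comm.comm (⟨y, hy⟩ : H) ⟨x, hx⟩)
  have := NM.isSolvable_of_class_two hmax (h1 ▸ bot_le)
  exact hTc ⟨⟨IsSimpleGroup.comm_iff_isSolvable.2 inferInstance⟩⟩

end Cfsg.Agent.S3498
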