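import Mathlib
import Cfsg.Statements.S3504

set_option autoImplicit false
open Cfsg

namespace Cfsg.Agent.S3504

/-- For n ≥ 5, the fixed-point-free permutations of prime order in the symmetric group of degree n form a single conjugacy class if and only if n is a prime power. -/
theorem result (n : ℕ) (hn : 5 ≤ n) :
    Nat.card {c : ConjClasses (Equiv.Perm (Fin n)) // ∃ g : Equiv.Perm (Fin n), ConjClasses.mk g = c ∧ (orderOf g).Prime ∧ ∀ i : Fin n, g i ≠ i} = 1 ↔ IsPrimePow n := by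
  classical
  -- fixed-point-free permutations of prime order `p` have cycle type `p, …, p`
  have key : ∀ g : Equiv.Perm (Fin n), (orderOf g).Prime → (∀ i, g i ≠ i) →
      orderOf g ∣ n ∧ g.cycleType = Multiset.replicate (n / orderOf g) (orderOf g) := by
    intro g hg hfix
    obtain ⟨k, hk⟩ := Equiv.Perm.cycleType_prime_order hg
    have hs : g.support = Finset.univ := by
      ext i; simp [hfix i]
    have h1 := g.sum_cycleType
    rw [hs, hk, Multiset.sum_replicate, Finset.card_univ, Fintype.card_fin, smul_eq_mul] at h1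
    refine ⟨⟨k + 1, by rw [mul_comm]; exact h1.symm⟩, ?_⟩
    have : n / orderOf g = k + 1 := Nat.div_eq_of_eq_mul_left hg.pos h1.symm
    rw [this]; exact hk
  have ex : ∀ p : ℕ, p.Prime → p ∣ n → ∃ g : Equiv.Perm (Fin n), orderOf g = p ∧ ∀ i, g i ≠ i := by
    intro p hp hpn
    obtain ⟨k, hk⟩ := hpn
    have hk0 : k ≠ 0 := by rintro rfl; omega
    obtain ⟨g, hg⟩ : ∃ g : Equiv.Perm (Fin n), g.cycleType = Multiset.replicate k p := by
      rw [Equiv.Perm.exists_with_cycleType_iff]
      refine ⟨by simp [hk, mul_comm], fun a ha => ?_⟩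
      rw [Multiset.eq_of_mem_replicate ha]; exact hp.two_le
    refine ⟨g, ?_, ?_⟩
    · rw [← Equiv.Perm.lcm_cycleType, hg]
      apply Nat.dvd_antisymm
      · rw [Multiset.lcm_dvd]
        intro b hb; rw [Multiset.eq_of_mem_replicate hb]
      · exact Multiset.dvd_lcm (Multiset.mem_replicate.2 ⟨hk0, rfl⟩)
    · have h1 := g.sum_cycleType
      rw [hg, Multiset.sum_replicate, smul_eq_mul] at h1
      have hs : g.support = Finset.univ := by
        apply Finset.eq_univ_of_card
        rw [← h1, Fintype.card_fin, hk, mul_comm]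
      intro i
      have : i ∈ g.support := hs ▸ Finset.mem_univ i
      simpa using this
  rw [Nat.card_eq_one_iff_unique, isPrimePow_iff_unique_prime_dvd]
  constructor
  · rintro ⟨hsub, ⟨c, g, hgc, hg, hfix⟩⟩
    refine ⟨orderOf g, ⟨hg, (key g hg hfix).1⟩, ?_⟩
    rintro q ⟨hq, hqn⟩
    obtain ⟨g', hg', hfix'⟩ := ex q hq hqn
    have := hsub.elim ⟨c, g, hgc, hg, hfix⟩ ⟨ConjClasses.mk g', g', rfl, hg' ▸ hq, hfix'⟩
    have h2 : ConjClasses.mk g = ConjClasses.mk g' := hgc.trans (congrArg Subtype.val this)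
    rw [ConjClasses.mk_eq_mk_iff_isConj, Equiv.Perm.isConj_iff_cycleType_eq] at h2
    rw [← hg', ← Equiv.Perm.lcm_cycleType, ← Equiv.Perm.lcm_cycleType, h2]
  · rintro ⟨p, ⟨hp, hpn⟩, huniq⟩
    refine ⟨⟨?_⟩, ?_⟩
    · rintro ⟨c, g, rfl, hg, hfix⟩ ⟨c', g', rfl, hg', hfix'⟩
      apply Subtype.ext
      simp only
      rw [ConjClasses.mk_eq_mk_iff_isConj, Equiv.Perm.isConj_iff_cycleType_eq,
        (key g hg hfix).2, (key g' hg' hfix').2, huniq _ ⟨hg, (key g hg hfix).1⟩,
        huniq _ ⟨hg', (key g' hg' hfix').1⟩]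
    · obtain ⟨g, hg, hfix⟩ := ex p hp hpn
      exact ⟨⟨ConjClasses.mk g, g, rfl, hg ▸ hp, hfix⟩⟩

end Cfsg.Agent.S3504
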