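import Mathlib
import Cfsg.Statements.S3508
import Cfsg.Agent.FG.H93CycMod
import Cfsg.Agent.Blk.OneTate

set_option autoImplicit false
open Cfsg

namespace Cfsg.Agent.S3508

open Cfsg.Agent.GT Cfsg.Agent.FG.H93 Subgroup MulAction

/-- Let a finite group G act faithfully on a set Ω with p ^ m points (p prime) and have an elementary abelian normal p-subgroup N acting regularly on Ω (so G is a group of affine transformations of an m-dimensional space over the field with p elements). If G contains an element of order p ^ r with r ≥ 1, then p ^ (r − 1) ≤ m. In particular an element of order p ^ m forces m ≤ 2, and m ≤ 1 when p is odd. -/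
theorem result {G : Type*} [Group G] [Finite G] {Ω : Type*} [Fintype Ω] [MulAction G Ω] [FaithfulSMul G Ω] (p m : ℕ) (hp : p.Prime) (hcard : Fintype.card Ω = p ^ m)
    (N : Subgroup G) [N.Normal] (hNc : IsMulCommutative N) (hNp : ∀ n ∈ N, n ^ p = 1)
    (hNtr : MulAction.IsPretransitive N Ω) (hNreg : ∀ ω : Ω, MulAction.stabilizer N ω = ⊥)
    (g : G) (r : ℕ) (hr : 1 ≤ r) (hg : orderOf g = p ^ r) :
    p ^ (r - 1) ≤ m ∧ (r = m → m ≤ 2 ∧ (2 < p → m ≤ 1)) := by
  have := Fact.mk hp
  have main : p ^ (r - 1) ≤ m := by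
    by_contra hlt
    push Not at hlt
    have : Nonempty Ω := Fintype.card_pos_iff.1 (hcard ▸ pow_pos hp.pos m)
    obtain ⟨ω⟩ := this
    have hfree : ∀ n ∈ N, n • ω = ω → n = 1 := fun n hn h => by
      have : (⟨n, hn⟩ : N) ∈ stabilizer N ω := h
      rw [hNreg, mem_bot] at this
      exact congrArg Subtype.val this
    have hN : Nat.card N = p ^ m := by
      rw [← hcard, ← Nat.card_eq_fintype_card]
      refine Nat.card_eq_of_bijective (fun n : N => n • ω) ⟨fun a b e => ?_, fun x => ?_⟩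
      · have := hfree ((b : G)⁻¹ * a) (N.mul_mem (N.inv_mem b.2) a.2) (by
          rw [mul_smul, inv_smul_eq_iff]; exact e)
        exact Subtype.ext (inv_mul_eq_one.1 this).symm
      · exact hNtr.exists_smul_eq ω x
    obtain ⟨e⟩ := PG.nonempty_mulEquiv_pi_zmod hNc (fun x => Subtype.ext (hNp x x.2)) hN
    obtain ⟨n, hn⟩ := hNtr.exists_smul_eq ω (g • ω)
    obtain ⟨s, hs⟩ : ∃ s : G, s = (n : G)⁻¹ * g := ⟨_, rfl⟩
    have hsω : s • ω = ω := by rw [hs, mul_smul, inv_smul_eq_iff]; exact hn.symm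
    have hgs : g = n * s := by rw [hs]; group
    let ρ := (linOf (p := p) e).comp (MulAut.conjNormal (H := N))
    have hρ : ∀ (x : G) (u : N), ρ x (e u).toAdd = (e (MulAut.conjNormal x u)).toAdd :=
      fun x u => linOf_apply e _ u
    have hρn : ρ n = 1 := LinearMap.ext fun v => by
      obtain ⟨u, rfl⟩ := exists_toAdd e v
      rw [hρ, MulAut.conjNormal_val, MulAut.conj_apply, hNc.is_comm.comm n u, mul_inv_cancel_right]
      rfl
    have hρs : ρ s = ρ g := by rw [hgs, map_mul, hρn, one_mul]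
    have hnil : ∀ j, m ≤ j → (ρ s - 1) ^ j = 0 := fun j hj => by
      have h1 : (ρ s - 1) ^ p ^ r = 0 := by
        have h2 := Blk.One.sub_one_pow_eq_sum (k := ZMod p) (ρ s) r
        rw [← Nat.sub_add_cancel (Nat.one_le_pow r p hp.pos), pow_succ, h2, geom_sum_mul, hρs,
          ← map_pow, ← hg, pow_orderOf_eq_one, map_one, sub_self]
      have h3 := Module.End.ker_pow_le_ker_pow_finrank (ρ s - 1) (p ^ r)
      rw [h1, LinearMap.ker_zero, top_le_iff, LinearMap.ker_eq_top, Module.finrank_fin_fun] at h3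
      exact pow_eq_zero_of_le hj h3
    have hsum : ∑ i ∈ Finset.range (p ^ (r - 1)), ρ s ^ i = 0 := by
      rw [← Blk.One.sub_one_pow_eq_sum (k := ZMod p) (ρ s) (r - 1)]
      exact hnil _ (by omega)
    have hpow : ∀ j : ℕ, ∃ u : N, g ^ j = u * s ^ j ∧
        (e u).toAdd = (∑ i ∈ Finset.range j, ρ s ^ i) (e n).toAdd := fun j => by
      induction j with
      | zero => exact ⟨1, by simp, by simp⟩
      | succ j ih =>
        obtain ⟨u, h1, h2⟩ := ih
        refine ⟨u * MulAut.conjNormal (s ^ j) n, ?_, ?_⟩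
        · rw [pow_succ, h1, coe_mul, MulAut.conjNormal_apply, pow_succ]
          conv_lhs => rw [hgs]
          group
        · rw [map_mul, toAdd_mul, h2, Finset.sum_range_succ, LinearMap.add_apply, ← map_pow, hρ]
    obtain ⟨u, h1, h2⟩ := hpow (p ^ (r - 1))
    rw [hsum, LinearMap.zero_apply, toAdd_eq_zero, map_eq_one_iff _ e.injective] at h2
    rw [h2, OneMemClass.coe_one, one_mul] at h1
    have h3 : ρ (s ^ p ^ (r - 1)) = 1 := by
      rw [map_pow, ← sub_eq_zero, ← geom_sum_mul, hsum, zero_mul]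
    have h4 : s ^ p ^ (r - 1) = 1 := by
      refine eq_of_smul_eq_smul (α := Ω) fun x => ?_
      obtain ⟨v, rfl⟩ := hNtr.exists_smul_eq ω x
      have h5 := hρ (s ^ p ^ (r - 1)) v
      rw [h3] at h5
      have h6 := congrArg Subtype.val (e.injective (Multiplicative.toAdd.injective h5))
      rw [MulAut.conjNormal_apply, eq_mul_inv_iff_mul_eq] at h6
      have h7 : s ^ p ^ (r - 1) • ω = ω := (stabilizer G ω).pow_mem hsω _
      change s ^ p ^ (r - 1) • (v : G) • ω = (1 : G) • (v : G) • ω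
      rw [← mul_smul, ← h6, mul_smul, h7, one_smul]
    have h8 := orderOf_dvd_of_pow_eq_one (h1.trans h4)
    rw [hg, Nat.pow_dvd_pow_iff_le_right hp.one_lt] at h8
    omega
  refine ⟨main, ?_⟩
  rintro rfl
  obtain ⟨j, rfl⟩ := Nat.exists_eq_add_of_le' hr
  rw [Nat.add_sub_cancel] at main
  refine ⟨?_, fun h2 => ?_⟩
  · by_contra h
    obtain ⟨i, rfl⟩ := Nat.exists_eq_add_of_le' (by omega : 2 ≤ j)
    have h1 : i < 2 ^ i := Nat.lt_two_pow_self
    have h3 := (Nat.pow_le_pow_left hp.two_le (i + 2)).trans main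
    rw [pow_add] at h3
    omega
  · by_contra h
    obtain ⟨i, rfl⟩ := Nat.exists_eq_add_of_le' (by omega : 1 ≤ j)
    have h1 : i < 3 ^ i := Nat.lt_pow_self (by norm_num)
    have h3 := (Nat.pow_le_pow_left (show 3 ≤ p from h2) (i + 1)).trans main
    rw [pow_add] at h3
    omega

end Cfsg.Agent.S3508
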