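import Mathlib
import Cfsg.Statements.S3511

set_option autoImplicit false
open Cfsg

namespace Cfsg.Agent.S3511

/-- Let a finite group G act faithfully on a set Ω. If every element of G of square-free order has a regular cycle (an orbit of the cyclic group it generates with trivial stabilizer), then every element of G has a regular cycle. -/
theorem result {G : Type*} [Group G] [Finite G] {Ω : Type*} [MulAction G Ω] [FaithfulSMul G Ω]
    (h : ∀ g : G, Squarefree (orderOf g) → ∃ ω : Ω, MulAction.stabilizer (Subgroup.zpowers g) ω = ⊥) (g : G) :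
    ∃ ω : Ω, MulAction.stabilizer (Subgroup.zpowers g) ω = ⊥ := by
  classical
  set n := orderOf g with hn
  have hpos : 0 < n := orderOf_pos g
  set r := ∏ p ∈ n.primeFactors, p with hr
  have hrn : r ∣ n := Nat.prod_primeFactors_dvd n
  have hsq : Squarefree r := by
    refine Finset.squarefree_prod_of_pairwise_isCoprime ?_ ?_
    · intro a ha b hb hab
      exact Nat.coprime_iff_isRelPrime.1 ((Nat.coprime_primes (Nat.prime_of_mem_primeFactors ha)
        (Nat.prime_of_mem_primeFactors hb)).2 hab)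
    · intro a ha
      exact (Nat.prime_of_mem_primeFactors ha).prime.squarefree
  have ho : orderOf (g ^ (n / r)) = r := orderOf_pow_orderOf_div hpos.ne' hrn
  obtain ⟨ω, hω⟩ := h (g ^ (n / r)) (by rw [ho]; exact hsq)
  refine ⟨ω, ?_⟩
  by_contra hne
  -- an element of prime order in the stabilizer
  obtain ⟨p, hp, hpd⟩ := Nat.exists_prime_and_dvd
    (n := Nat.card (MulAction.stabilizer (Subgroup.zpowers g) ω)) (by
      rw [Ne, Subgroup.card_eq_one]; exact hne)
  have := Fact.mk hp
  obtain ⟨a, ha⟩ := exists_prime_orderOf_dvd_card' p hpd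
  obtain ⟨⟨b, hb⟩, hbω⟩ := a
  have hbo : orderOf b = p := by
    rw [← ha, ← Subgroup.orderOf_coe, ← Subgroup.orderOf_coe]
  obtain ⟨k, rfl⟩ := (mem_powers_iff_mem_zpowers).2 hb
  have hpn : p ∣ n := hbo ▸ orderOf_pow_dvd k
  have hpr : p ∣ r := Finset.dvd_prod_of_mem _ (Nat.mem_primeFactors.2 ⟨hp, hpn, hpos.ne'⟩)
  have h1 : n ∣ k * p := by
    rw [hn, orderOf_dvd_iff_pow_eq_one, pow_mul, ← hbo]; exact pow_orderOf_eq_one _
  have h2 : n / r ∣ k := by
    obtain ⟨s, hs⟩ := hpr
    obtain ⟨t, ht⟩ := hrn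
    have hr0 : 0 < r := Nat.pos_of_ne_zero hsq.ne_zero
    have : n / r = t := by rw [ht]; exact Nat.mul_div_cancel_left _ hr0
    rw [this]
    rw [ht, hs] at h1
    have h3 : p * t ∣ p * k := by
      rw [mul_comm p k]
      exact (show p * t ∣ p * s * t from Dvd.intro s (by ring)).trans h1
    exact Nat.dvd_of_mul_dvd_mul_left hp.pos h3
  obtain ⟨c, rfl⟩ := h2
  have h4 : (⟨g ^ (n / r * c), by rw [pow_mul]; exact Subgroup.npow_mem_zpowers _ _⟩ :
      Subgroup.zpowers (g ^ (n / r))) ∈ MulAction.stabilizer (Subgroup.zpowers (g ^ (n / r))) ω :=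
    hbω
  rw [hω, Subgroup.mem_bot] at h4
  have h5 : g ^ (n / r * c) = 1 := congrArg Subtype.val h4
  simp only [h5, orderOf_one] at hbo
  exact hp.one_lt.ne hbo

end Cfsg.Agent.S3511
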