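import Mathlib
import Cfsg.Agent.GT.Conj
import Cfsg.Agent.GT.HallTools
import Cfsg.Statements.S3514

set_option autoImplicit false
open Cfsg

namespace Cfsg.Agent.S3514

theorem card_orbit_eq {G α : Type*} [Group G] [MulAction G α] (H : Subgroup G) (v : α) :
    Nat.card {u : α | ∃ h ∈ H, h • v = u} = (MulAction.stabilizer G v).relIndex H := by
  have h1 : {u : α | ∃ h ∈ H, h • v = u} = MulAction.orbit H v := by
    ext u
    constructor
    · rintro ⟨h, hh, rfl⟩; exact ⟨⟨h, hh⟩, rfl⟩
    · rintro ⟨h, rfl⟩; exact ⟨h, h.2, rfl⟩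
  rw [h1, Subgroup.relIndex, Nat.card_coe_set_eq]
  have : (MulAction.stabilizer G v).subgroupOf H = MulAction.stabilizer H v := by
    ext x; rfl
  rw [this, MulAction.index_stabilizer]


/-- Let p be a prime, V a finite vector space over the field with p elements, and H a group of linear transformations of V all of whose orbits on V have size coprime to p. (i) Every normal subgroup K of H has all its orbits on V of size coprime to p. (ii) If N is a group of linear transformations of V of order coprime to p that is normalized by H, then the group generated by N and H has all its orbits on V of size coprime to p. -/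
theorem result (p : ℕ) [Fact p.Prime] {V : Type*} [AddCommGroup V] [Module (ZMod p) V] [Finite V]
    (H : Subgroup (V ≃ₗ[ZMod p] V)) (hH : ∀ v : V, ¬ p ∣ Nat.card {u : V | ∃ h ∈ H, h v = u}) :
    (∀ K : Subgroup (V ≃ₗ[ZMod p] V), K ≤ H → H ≤ Subgroup.normalizer (K : Set (V ≃ₗ[ZMod p] V)) →
        ∀ v : V, ¬ p ∣ Nat.card {u : V | ∃ k ∈ K, k v = u}) ∧
    (∀ N : Subgroup (V ≃ₗ[ZMod p] V), ¬ p ∣ Nat.card N → H ≤ Subgroup.normalizer (N : Set (V ≃ₗ[ZMod p] V)) →
        ∀ v : V, ¬ p ∣ Nat.card {u : V | ∃ x ∈ N ⊔ H, x v = u}) := by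
  haveI : Finite (V ≃ₗ[ZMod p] V) :=
    Finite.of_injective (fun e : V ≃ₗ[ZMod p] V => (e : V → V)) DFunLike.coe_injective
  have hp : p.Prime := Fact.out
  have key : ∀ (L : Subgroup (V ≃ₗ[ZMod p] V)) (v : V), Nat.card {u : V | ∃ h ∈ L, h v = u} =
      (MulAction.stabilizer (V ≃ₗ[ZMod p] V) v).relIndex L := fun L v => card_orbit_eq L v
  simp only [key] at hH ⊢
  refine ⟨fun K hKH hHK v hd => hH v (hd.trans ?_), fun N hN hHN v hd => ?_⟩
  · set S := MulAction.stabilizer (V ≃ₗ[ZMod p] V) v
    have h1 := GT.relIndex_sup_of_le_normalizer_left (H := S ⊓ H) (N := K)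
      (inf_le_right.trans hHK)
    have h2 : (S ⊓ H).relIndex K = S.relIndex K := by
      rw [← Subgroup.inf_relIndex_right (S ⊓ H) K, inf_assoc, inf_of_le_right hKH,
        Subgroup.inf_relIndex_right]
    have h3 := Subgroup.relIndex_mul_relIndex (S ⊓ H) (S ⊓ H ⊔ K) H le_sup_left
      (sup_le inf_le_right hKH)
    rw [Subgroup.inf_relIndex_right, h1, h2] at h3
    exact ⟨_, h3.symm⟩
  · set S := MulAction.stabilizer (V ≃ₗ[ZMod p] V) v
    have h1 := GT.HT.relIndex_sup_dvd_card (N := N) (H := H) hHN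
    have h3 := Subgroup.relIndex_mul_relIndex (S ⊓ H) H (N ⊔ H) inf_le_right le_sup_right
    have h4 := Subgroup.relIndex_dvd_of_le_left (N ⊔ H) (inf_le_left : S ⊓ H ≤ S)
    rw [← h3, Subgroup.inf_relIndex_right] at h4
    rcases (Nat.Prime.dvd_mul hp).1 (hd.trans h4) with h | h
    · exact hH v h
    · exact hN (h.trans h1)

end Cfsg.Agent.S3514
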