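import Mathlib
import Cfsg.Agent.Perm.AffineClosure
import Cfsg.Statements.S3515

set_option autoImplicit false
open Cfsg

namespace Cfsg.Agent.S3515

theorem hall : ∀ x : Fin 2 → ZMod 2, x = 0 ∨ x = Pi.single 0 1 ∨ x = Pi.single 1 1 ∨
    x = fun _ => 1 := by decide

theorem hne : ((0 : Fin 2 → ZMod 2) ≠ fun _ => 1) ∧
    ((Pi.single 0 1 : Fin 2 → ZMod 2) ≠ fun _ => 1) ∧
    ((Pi.single 1 1 : Fin 2 → ZMod 2) ≠ fun _ => 1) := by decide

/-- Every primitive affine permutation group of degree p² is 3-closed. Let p be a prime and G a group of permutations of the plane V = F_p² consisting of affine maps x ↦ Ax + b, containing all translations, and acting primitively on V. Then any permutation σ of V that agrees on every triple of points with some element of G (σ preserves every G-orbit on ordered triples) already lies in G. -/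
theorem result (p : ℕ) [Fact p.Prime] (G : Subgroup (Equiv.Perm (Fin 2 → ZMod p)))
    (haff : (G : Set (Equiv.Perm (Fin 2 → ZMod p))) ⊆ {τ : Equiv.Perm (Fin 2 → ZMod p) | ∃ (A : (Fin 2 → ZMod p) ≃ₗ[ZMod p] (Fin 2 → ZMod p)) (b : Fin 2 → ZMod p), ∀ x, τ x = A x + b})
    (htrans : ∀ b : Fin 2 → ZMod p, ∃ g ∈ G, ∀ x, g x = x + b) (hprim : MulAction.IsPreprimitive G (Fin 2 → ZMod p))
    (σ : Equiv.Perm (Fin 2 → ZMod p)) (hσ : (∀ t : Fin 3 → (Fin 2 → ZMod p), ∃ g ∈ G, ∀ i, σ (t i) = g (t i))) : σ ∈ G := by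
  obtain ⟨g, hg, h⟩ := hσ ![0, Pi.single 0 1, Pi.single 1 1]
  have h0 := h 0
  have h1 := h 1
  have h2 := h 2
  simp only [Matrix.cons_val_zero, Matrix.cons_val_one, Matrix.cons_val] at h0 h1 h2
  suffices σ = g by rw [this]; exact hg
  by_cases hp : p = 2
  · subst hp
    have h3 : σ (fun _ => 1) = g (fun _ => 1) := by
      obtain ⟨x, hx⟩ := σ.surjective (g (fun _ => 1))
      rcases hall x with rfl | rfl | rfl | rfl
      · rw [h0] at hx; exact absurd (g.injective hx) hne.1
      · rw [h1] at hx; exact absurd (g.injective hx) hne.2.1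
      · rw [h2] at hx; exact absurd (g.injective hx) hne.2.2
      · exact hx
    refine Equiv.ext fun x => ?_
    rcases hall x with rfl | rfl | rfl | rfl <;> assumption
  · have hh : (2 : ZMod p) ≠ 0 := by
      intro h
      have : ((2 : ℕ) : ZMod p) = 0 := by exact_mod_cast h
      rw [ZMod.natCast_eq_zero_iff] at this
      exact hp ((Nat.prime_dvd_prime_iff_eq Fact.out Nat.prime_two).1 this)
    obtain ⟨A, b, hA⟩ := Perm.affine_of_triples hh σ fun t => by
      obtain ⟨g, hg, h⟩ := hσ t
      obtain ⟨A, b, hA⟩ := haff hg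
      exact ⟨A, b, fun i => by rw [h, hA]⟩
    obtain ⟨A', b', hA'⟩ := haff hg
    rw [hA, hA'] at h0 h1 h2
    simp only [map_zero, zero_add] at h0
    subst h0
    have h1' := add_right_cancel h1
    have h2' := add_right_cancel h2
    refine Equiv.ext fun x => ?_
    have hx : x = x 0 • Pi.single 0 1 + x 1 • Pi.single 1 1 := by
      ext i; fin_cases i <;> simp
    rw [hA, hA', hx]
    simp only [map_add, map_smul, h1', h2']

end Cfsg.Agent.S3515
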