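import Mathlib
import Cfsg.Agent.Perm.AffineClosure
import Cfsg.Statements.S3517

set_option autoImplicit false
open Cfsg

namespace Cfsg.Agent.S3517

theorem zmod_two_cases : ∀ a : ZMod 2, a = 0 ∨ a = 1 := by decide

theorem exists_pair {V : Type*} [AddCommGroup V] [Module (ZMod 2) V] (u v u' v' : V)
    (hu : u = 0 ↔ u' = 0) (hv : v = 0 ↔ v' = 0) (huv : u = v ↔ u' = v') :
    ∃ A : V ≃ₗ[ZMod 2] V, A u = u' ∧ A v = v' := by
  haveI : Fact (Nat.Prime 2) := ⟨Nat.prime_two⟩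
  have one : ∀ w w' : V, w ≠ 0 → w' ≠ 0 → ∃ A : V ≃ₗ[ZMod 2] V, A w = w' := by
    intro w w' h h'
    obtain ⟨A, hA⟩ := Perm.exists_linearEquiv_of_linearIndependent (K := ZMod 2) ![w] ![w']
      (by simpa [linearIndependent_unique_iff] using h)
      (by simpa [linearIndependent_unique_iff] using h')
    exact ⟨A, by simpa using hA 0⟩
  have li : ∀ w z : V, w ≠ 0 → z ≠ 0 → w ≠ z → LinearIndependent (ZMod 2) ![w, z] := by
    intro w z hw hz hwz
    rw [LinearIndependent.pair_iff' hw]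
    intro a
    have := zmod_two_cases a
    rcases this with rfl | rfl
    · simpa using hz.symm
    · simpa using hwz
  by_cases h1 : u = 0
  · by_cases h2 : v = 0
    · exact ⟨LinearEquiv.refl _ _, by simp [h1, hu.1 h1], by simp [h2, hv.1 h2]⟩
    · obtain ⟨A, hA⟩ := one v v' h2 (mt hv.2 h2)
      exact ⟨A, by simp [h1, hu.1 h1], hA⟩
  · by_cases h2 : v = 0
    · obtain ⟨A, hA⟩ := one u u' h1 (mt hu.2 h1)
      exact ⟨A, hA, by simp [h2, hv.1 h2]⟩
    · by_cases h3 : u = v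
      · obtain ⟨A, hA⟩ := one u u' h1 (mt hu.2 h1)
        exact ⟨A, hA, by rw [← h3, ← huv.1 h3, hA]⟩
      · obtain ⟨A, hA⟩ := Perm.exists_linearEquiv_of_linearIndependent (K := ZMod 2) ![u, v]
          ![u', v'] (li _ _ h1 h2 h3) (li _ _ (mt hu.2 h1) (mt hv.2 h2) (mt huv.2 h3))
        exact ⟨A, by simpa using hA 0, by simpa using hA 1⟩


/-- For d ≥ 3, the 3-closure of the affine group AGL_d(2) acting on F_2^d is the full symmetric group: every permutation of F_2^d agrees on every ordered triple of points with some affine map (AGL_d(2) is 3-transitive). -/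
theorem result (d : ℕ) (hd : 3 ≤ d) (σ : Equiv.Perm (Fin d → ZMod 2)) (t : Fin 3 → (Fin d → ZMod 2)) :
    ∃ (A : (Fin d → ZMod 2) ≃ₗ[ZMod 2] (Fin d → ZMod 2)) (b : Fin d → ZMod 2), ∀ i, σ (t i) = A (t i) + b := by
  obtain ⟨A, h1, h2⟩ := exists_pair (t 1 - t 0) (t 2 - t 0) (σ (t 1) - σ (t 0))
    (σ (t 2) - σ (t 0)) (by simp [sub_eq_zero]) (by simp [sub_eq_zero]) (by simp)
  refine ⟨A, σ (t 0) - A (t 0), fun i => ?_⟩
  rw [map_sub] at h1 h2
  fin_cases i
  · simp
  · simp only [Fin.mk_one]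
    rw [eq_add_of_sub_eq h1]; abel
  · simp only [Fin.reduceFinMk]
    rw [eq_add_of_sub_eq h2]; abel

end Cfsg.Agent.S3517
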