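import Mathlib
import Cfsg.Agent.Perm.PrimeDegree
import Cfsg.Agent.Perm.Basic
import Cfsg.Statements.S3518

set_option autoImplicit false
open Cfsg

namespace Cfsg.Agent.S3518

/-- Closures of subgroups of the one-dimensional affine group. Let p be a prime and G a group of permutations of F_p lying in the affine group AGL₁(p) = {x ↦ ax + b, a ≠ 0} and containing all translations. (1) If G is a proper subgroup of AGL₁(p), then G is 2-closed: a permutation of F_p agreeing on every ordered pair of points with some element of G lies in G. (2) Every permutation of F_p agrees on every ordered pair with some element of AGL₁(p) (the 2-closure of AGL₁(p) is the symmetric group). (3) AGL₁(p) is 3-closed: a permutation agreeing on every ordered triple with some affine map is affine. -/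
theorem result (p : ℕ) [Fact p.Prime] (G : Subgroup (Equiv.Perm (ZMod p))) (hG : G ≤ Cfsg.affineGroup (ZMod p))
    (htrans : ∀ b : ZMod p, ∃ g ∈ G, ∀ x, g x = x + b) :
    (G ≠ Cfsg.affineGroup (ZMod p) → ∀ σ : Equiv.Perm (ZMod p), (∀ t : Fin 2 → ZMod p, ∃ g ∈ G, ∀ i, σ (t i) = g (t i)) → σ ∈ G) ∧
    (∀ σ : Equiv.Perm (ZMod p), (∀ t : Fin 2 → ZMod p, ∃ g ∈ Cfsg.affineGroup (ZMod p), ∀ i, σ (t i) = g (t i))) ∧
    (∀ σ : Equiv.Perm (ZMod p), (∀ t : Fin 3 → ZMod p, ∃ g ∈ Cfsg.affineGroup (ZMod p), ∀ i, σ (t i) = g (t i)) → σ ∈ Cfsg.affineGroup (ZMod p)) := by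
  have hp : p.Prime := Fact.out
  refine ⟨fun hne σ hσ => ?_, fun σ t => ?_, fun σ hσ => ?_⟩
  · let H : Subgroup (Equiv.Perm (ZMod p)) :=
      { carrier := {σ | ∀ t : Fin 2 → ZMod p, ∃ g ∈ G, ∀ i, σ (t i) = g (t i)}
        one_mem' := fun t => ⟨1, G.one_mem, fun _ => rfl⟩
        mul_mem' := by
          intro a b ha hb t
          obtain ⟨g, hg, h⟩ := hb t
          obtain ⟨g', hg', h'⟩ := ha (fun i => b (t i))
          exact ⟨g' * g, G.mul_mem hg' hg, fun i => by
            rw [Equiv.Perm.mul_apply, Equiv.Perm.mul_apply, h', h]⟩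
        inv_mem' := by
          intro a ha t
          obtain ⟨g, hg, h⟩ := ha (fun i => a⁻¹ (t i))
          refine ⟨g⁻¹, G.inv_mem hg, fun i => ?_⟩
          have := h i
          simp only [Equiv.Perm.coe_inv, Equiv.apply_symm_apply] at this
          rw [Equiv.Perm.coe_inv, Equiv.Perm.coe_inv, Equiv.eq_symm_apply]
          exact this.symm }
    obtain ⟨τ, hτ, hτx⟩ := htrans 1
    have hτH : τ ∈ H := fun t => ⟨τ, hτ, fun _ => rfl⟩
    rcases Perm.affine_or_two_pretransitive (G := H) (τ := ⟨τ, hτH⟩) (e := Equiv.refl (ZMod p))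
      (fun x => hτx x) with h | h
    · obtain ⟨a, b, hab⟩ := h ⟨σ, hσ⟩
      obtain ⟨g, hg, h⟩ := hσ ![0, 1]
      obtain ⟨a', b', hab'⟩ := hG hg
      have hab2 : ∀ x, σ x = a * x + b := hab
      have h0 := h 0
      have h1 := h 1
      simp only [Matrix.cons_val_zero, Matrix.cons_val_one, hab2, hab', mul_zero, zero_add,
        mul_one] at h0 h1
      have : σ = g := Equiv.ext fun x => by
        rw [hab2, hab', ← h0, ← add_right_cancel (h0 ▸ h1 : a + b = a' + b)]
      rw [this]; exact hg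
    · exfalso
      apply hne
      refine le_antisymm hG ?_
      rintro ρ ⟨a, b, hρ⟩
      obtain ⟨k, hk0, hk1⟩ := Perm.exists_smul_eq_two (G := H) h (zero_ne_one (α := ZMod p))
        (show ρ 0 ≠ ρ 1 from fun h => zero_ne_one (ρ.injective h))
      obtain ⟨g, hg, h⟩ := k.2 ![0, 1]
      obtain ⟨a', b', hab'⟩ := hG hg
      have h0 : ρ 0 = g 0 := hk0.symm.trans (h 0)
      have h1 : ρ 1 = g 1 := hk1.symm.trans (h 1)
      simp only [hρ, hab', mul_zero, zero_add, mul_one] at h0 h1
      have : ρ = g := Equiv.ext fun x => by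
        rw [hρ, hab', ← h0, ← add_right_cancel (h0 ▸ h1 : (a : ZMod p) + b = a' + b)]
      rw [this]; exact hg
  · by_cases h : t 0 = t 1
    · refine ⟨Equiv.addRight (σ (t 0) - t 0), ⟨1, σ (t 0) - t 0, fun x => by simp⟩, fun i => ?_⟩
      fin_cases i <;> simp [← h]
    · have h1 : t 1 - t 0 ≠ 0 := sub_ne_zero.2 (Ne.symm h)
      have h2 : σ (t 1) - σ (t 0) ≠ 0 := sub_ne_zero.2 fun e => h (σ.injective e).symm
      let a : (ZMod p)ˣ := Units.mk0 _ (div_ne_zero h2 h1)
      refine ⟨(a.mulLeft).trans (Equiv.addRight (σ (t 0) - a * t 0)),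
        ⟨a, σ (t 0) - a * t 0, fun x => by simp⟩, fun i => ?_⟩
      fin_cases i
      · simp
      · simp [a]
        field_simp
        ring
  · obtain ⟨g, hg, h⟩ := hσ ![0, 1, 0]
    have : σ = g := Equiv.ext fun x => by
      obtain ⟨g', ⟨a', b', hab'⟩, h'⟩ := hσ ![0, 1, x]
      obtain ⟨a, b, hab⟩ := hg
      have h0 : g 0 = g' 0 := (h 0).symm.trans (h' 0)
      have h1 : g 1 = g' 1 := (h 1).symm.trans (h' 1)
      have h2 : σ x = g' x := h' 2
      simp only [hab, hab', mul_zero, zero_add, mul_one] at h0 h1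
      rw [h2, hab, hab', ← h0, ← add_right_cancel (h0 ▸ h1 : (a : ZMod p) + b = a' + b)]
    rw [this]; exact hg

end Cfsg.Agent.S3518
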