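import Mathlib
import Cfsg.Statements.S3521
import Cfsg.Agent.Perm.ExtPrimLin
import Cfsg.Agent.Perm.SocleLight
import Cfsg.Agent.Perm.ExtPrimSimple
import Cfsg.Agent.S0205

set_option autoImplicit false
open Cfsg

namespace Cfsg.Agent.S3521

open MulAction Cfsg.Agent.Inv.Fz Cfsg.Agent.Perm.Fx Cfsg.Agent.Perm.EP Cfsg.Agent.Perm.SL Subgroup

section lin

variable {H : Type*} [Group H] [Finite H] {V : Type*} [AddCommGroup V]

omit [Finite H] in
theorem comm_of_odd {p : ℕ} [Module (ZMod p) V] {ρ : Representation (ZMod p) H V} [Nontrivial V]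
    (hL : LinEP ρ) (h2 : ∀ v : V, -v = v → v = 0) {t : H} (ht : t ≠ 1) (ht2 : t * t = 1) :
    ∀ a b : H, a * b = b * a := by
  obtain ⟨x, hx⟩ : ∃ x, ρ t x ≠ x := by
    by_contra h
    push Not at h
    exact ht (hL.eq_one h)
  have hv : x - ρ t x ≠ 0 := fun h => hx (sub_eq_zero.1 h).symm
  have htv : ρ t (x - ρ t x) = -(x - ρ t x) := by rw [map_sub, ← rep_mul, ht2, rep_one, neg_sub]
  generalize x - ρ t x = v at hv htv
  let K : Subgroup H :=
    { carrier := {h | ρ h v = v ∨ ρ h v = -v}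
      mul_mem' := by
        rintro a b (ha | ha) (hb | hb) <;> simp only [Set.mem_ofPred_eq, rep_mul, hb, map_neg, ha] <;>
          simp
      one_mem' := Or.inl (rep_one ρ v)
      inv_mem' := by
        rintro a (ha | ha)
        · exact Or.inl ((vstab ρ v).inv_mem ha)
        · right
          have := rep_inv_rep ρ a v
          rw [ha, map_neg] at this
          exact neg_eq_iff_eq_neg.1 this }
  rcases hL.max v hv K (fun h hh => Or.inl hh) with h | h
  · have : t ∈ vstab ρ v := h ▸ (Or.inr htv : t ∈ K)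
    exact absurd (h2 v (htv.symm.trans this)) hv
  · have hK : ∀ g : H, ρ g v = v ∨ ρ g v = -v := fun g => (h ▸ mem_top g : g ∈ K)
    have hsq : ∀ g : H, g * g = 1 := by
      intro g
      have h1 : ρ (g * g) v = v := by
        rcases hK g with h | h <;> simp only [rep_mul, h, map_neg, neg_neg]
      refine hL.faith v hv _ fun k => ?_
      rcases hK k with h | h <;> simp only [h, map_neg, h1]
    have hinv : ∀ g : H, g⁻¹ = g := fun g => inv_eq_of_mul_eq_one_right (hsq g)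
    intro a b
    rw [← hinv (a * b), mul_inv_rev, hinv, hinv]

variable [Module (ZMod 2) V] {ρ : Representation (ZMod 2) H V} {M : Subgroup H}

omit [Finite H] in
theorem add_self (v : V) : v + v = 0 := by
  rw [← two_smul (ZMod 2) v, show (2 : ZMod 2) = 0 from rfl, zero_smul]

omit [Finite H] in
theorem not_le_vstab (hL : LinEP ρ) (hM : GT.IsMinNormal M) (hc : ¬ IsMulCommutative M)
    {U : Subgroup H} (hU : Cp M U) {v : V} (hv : v ≠ 0) : ¬ U ≤ vstab ρ v := by
  have := hM.normal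
  refine hU.not_le hM hc (hL.sup_eq hM.ne_bot hv) fun h => ?_
  exact hL.not_le hM.ne_bot hv (h ▸ le_top)

omit [Finite H] in
theorem fix_zero (hL : LinEP ρ) (hM : GT.IsMinNormal M) (hc : ¬ IsMulCommutative M)
    {U : Subgroup H} (hU : Cp M U) (W : Set V) (hW : ∀ u ∈ U, ∀ w ∈ W, ρ u w ∈ W) {a : H}
    (ha : a ∈ U) (ha1 : a ≠ 1) (h : ∀ w ∈ W, ρ a w = w) : ∀ w ∈ W, w = 0 := by
  let K : Subgroup H :=
    { carrier := {s | s ∈ U ∧ ∀ w ∈ W, ρ s w = w}
      mul_mem' := fun {a b} ha hb => ⟨U.mul_mem ha.1 hb.1, fun w hw => by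
        rw [rep_mul, hb.2 w hw, ha.2 w hw]⟩
      one_mem' := ⟨U.one_mem, fun w _ => rep_one ρ w⟩
      inv_mem' := fun {a} ha => ⟨U.inv_mem ha.1, fun w hw => (vstab ρ w).inv_mem (ha.2 w hw)⟩ }
  have key : ∀ u ∈ U, ∀ s ∈ K, u * s * u⁻¹ ∈ K := fun u hu s hs =>
    ⟨U.mul_mem (U.mul_mem hu hs.1) (U.inv_mem hu), fun w hw => by
      rw [rep_mul, rep_mul, hs.2 _ (hW _ (U.inv_mem hu) w hw), rep_rep_inv]⟩
  rcases hU.min' hM (K := K) (fun u hu => mem_normalizer_iff.2 fun s => ⟨key u hu s, fun hs => by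
    simpa [mul_assoc] using key _ (U.inv_mem hu) _ hs⟩) (fun s hs => hs.1) with h1 | h1
  · have : a ∈ K := ⟨ha, h⟩
    rw [h1] at this
    exact absurd this ha1
  · intro w hw
    by_contra hw0
    exact not_le_vstab hL hM hc hU hw0 fun u hu => (h1 ▸ hu : u ∈ K).2 w hw

omit [Finite H] in
theorem exists_vec (hL : LinEP ρ) (hM : GT.IsMinNormal M) (hc : ¬ IsMulCommutative M)
    {T T' : Subgroup H} (hT : Cp M T) (hT' : Cp M T') (hne : T ≠ T') {a b : H} (ha : a ∈ T)
    (ha1 : a ≠ 1) (ha2 : a * a = 1) (hb : b ∈ T') (hb1 : b ≠ 1) (hb2 : b * b = 1) {c : H}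
    (hc2 : c * c = 1) (hcT : c ∈ centralizer (T : Set H)) (hcT' : c ∈ centralizer (T' : Set H))
    [Nontrivial V] : ∃ v, ρ c v = v ∧ ρ (a * b) v = v ∧ ρ a v ≠ v := by
  have hcen := hT.le_centralizer hT' hne
  by_contra hn
  push Not at hn
  have hab := hcen hb a ha
  have h1 : ∀ y, ρ c y = y → ρ a (y + ρ b y) = y + ρ b y := by
    intro y hy
    have h2 := hn (y + ρ (a * b) y) (by
      rw [map_add, hy, ← rep_mul, ← mul_assoc, ← hcT a ha, mul_assoc, ← hcT' b hb, ← mul_assoc,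
        rep_mul _ _ c, hy]) (by
      rw [map_add, ← rep_mul, show a * b * (a * b) = 1 by
        rw [mul_assoc, ← mul_assoc b, ← hab, mul_assoc, hb2, mul_one, ha2], rep_one, add_comm])
    rw [map_add, ← rep_mul, ← mul_assoc, ha2, one_mul] at h2
    rw [map_add, ← rep_mul]
    have h3 : ρ a y = y + ρ (a * b) y + ρ b y := by rw [← h2, add_assoc, add_self, add_zero]
    rw [h3, add_right_comm y, add_assoc, add_self, add_zero]
  have h2 := fix_zero hL hM hc hT {w | ∃ y, ρ c y = y ∧ y + ρ b y = w} (by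
    rintro u hu _ ⟨y, hy, rfl⟩
    exact ⟨ρ u y, by rw [← rep_mul, ← hcT u hu, rep_mul, hy], by
      rw [map_add, ← rep_mul, ← rep_mul, hcen hb u hu]⟩) ha ha1 (by
    rintro _ ⟨y, hy, rfl⟩; exact h1 y hy)
  have h3 := fix_zero hL hM hc hT' {y | ρ c y = y} (fun u hu y hy => by
    change ρ c _ = _
    rw [← rep_mul, ← hcT' u hu, rep_mul, hy]) hb hb1 (fun y hy => by
    have := h2 _ ⟨y, hy, rfl⟩
    rw [← add_self y] at this
    exact add_left_cancel this)
  obtain ⟨x, hx⟩ := exists_ne (0 : V)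
  have h4 := h3 (x + ρ c x) (by change ρ c _ = _; rw [map_add, ← rep_mul, hc2, rep_one, add_comm])
  rw [← add_self x] at h4
  exact hx (h3 x (add_left_cancel h4))

theorem exists_inv {T : Subgroup H} (h : Even (Nat.card T)) : ∃ a ∈ T, a ≠ 1 ∧ a * a = 1 := by
  obtain ⟨a, ha⟩ := exists_prime_orderOf_dvd_card' 2 (even_iff_two_dvd.1 h)
  refine ⟨a, a.2, fun e => ?_, ?_⟩
  · rw [show a = 1 from Subtype.ext e, orderOf_one] at ha; omega
  · have := pow_orderOf_eq_one a
    rw [ha, pow_two] at this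
    exact congrArg Subtype.val this

/-- normalizers of the stabilizer in a factor, product type -/
theorem mem_vstab_of_norm (hL : LinEP ρ) (hM : GT.IsMinNormal M)
    {U : Subgroup H} (hU : Cp M U) {y : V} (hy : y ≠ 0)
    (hP : ∀ x ∈ U, ∀ c ∈ M ⊓ centralizer (U : Set H), x * c ∈ vstab ρ y → x ∈ vstab ρ y)
    {a : H} (ha : a ∈ M) (ha1 : a ≠ 1) (hay : a ∈ vstab ρ y) {g : H} (hg : g ∈ U)
    (hn : ∀ u ∈ U, u ∈ vstab ρ y → g * u * g⁻¹ ∈ vstab ρ y) : g ∈ vstab ρ y := by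
  have := hM.normal
  have h1 : g ∈ normalizer ((M ⊓ vstab ρ y : Subgroup H) : Set H) := by
    apply mem_normalizer_of_conj_mem
    intro m hm
    refine ⟨this.conj_mem m hm.1 g, ?_⟩
    obtain ⟨u, hu, c, hcc, rfl⟩ := hU.decomp hM hm.1
    have hu' := hP u hu c hcc hm.2
    have hc' : c ∈ vstab ρ y := by simpa using mul_mem (inv_mem hu') hm.2
    have : g * (u * c) * g⁻¹ = g * u * g⁻¹ * c := by
      rw [mul_assoc _ g⁻¹, hcc.2 _ (U.inv_mem hg)]; group
    change _ ∈ vstab ρ y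
    rw [this]
    exact mul_mem (hn u hu hu') hc'
  rcases hL.max y hy _ (inf_normalizer (A := M) le_normalizer_of_normal le_normalizer) with h | h
  · exact h ▸ h1
  · have : (M ⊓ vstab ρ y).Normal := normalizer_eq_top_iff.1 h
    rcases hM.eq_bot_or_eq (K := M ⊓ vstab ρ y) inf_le_left with h2 | h2
    · have : a ∈ M ⊓ vstab ρ y := ⟨ha, hay⟩
      rw [h2] at this
      exact absurd this ha1
    · exact absurd (h2 ▸ inf_le_right) (hL.not_le hM.ne_bot hy)

theorem ring_aux {A : Type*} [Ring A] {n m : A} (h0 : n * n = 0) (h1 : n * m * n = n) :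
    ∃ e m' : A, e * e = e ∧ e * n = n ∧ n * e = n ∧ e = n * m' + m' * n := by
  have hf : n * m * (n * m) = n * m := by rw [← mul_assoc, h1]
  have a1 : n * ((1 - n * m) * m * (n * m)) = n * m := by
    have : n * (1 - n * m) = n := by rw [mul_sub, ← mul_assoc, h0]; simp
    rw [← mul_assoc, ← mul_assoc n (1 - n * m), this, hf]
  have a2 : n * m * ((1 - n * m) * m * (n * m)) = 0 := by
    have : n * m * (1 - n * m) = 0 := by rw [mul_sub, hf]; simp
    rw [← mul_assoc, ← mul_assoc (n * m) (1 - n * m), this]; simp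
  generalize (1 - n * m) * m * (n * m) = m' at a1 a2
  refine ⟨_, m', ?_, ?_, ?_, rfl⟩
  · rw [a1, add_mul, mul_add, mul_add, hf, ← mul_assoc (n * m) m', a2, mul_assoc m' n (n * m),
      ← mul_assoc n n, h0, mul_assoc m' n, ← mul_assoc n m', a1, h1]
    simp
  · rw [add_mul, a1, h1, mul_assoc, h0]; simp
  · rw [mul_add, ← mul_assoc, h0, ← mul_assoc, a1, h1]; simp

omit [Finite H] in
theorem span_aux (hL : LinEP ρ) (hM : GT.IsMinNormal M) {U U' : Subgroup H} (hU : Cp M U)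
    (hcen : U' ≤ centralizer (U : Set H)) (hC : M ⊓ centralizer (U : Set H) ≤ U') {v : V}
    (hv : v ≠ 0) (hS : ∀ c ∈ U', ∃ x ∈ U, ρ c v = ρ x v)
    (I : Submodule (ZMod 2) (Module.End (ZMod 2) V))
    (hI : I ≤ (Algebra.adjoin (ZMod 2) (ρ '' U)).toSubmodule)
    (hI2 : ∀ α ∈ I, ∀ x ∈ U, ρ x * α ∈ I ∧ α * ρ x ∈ I) :
    (∀ α ∈ I, α v = 0) ∨ ∀ w, ∃ α ∈ I, α v = w := by
  have := hM.normal
  rcases hL.irr' hM.ne_bot (I.map (LinearMap.applyₗ v)) (by
    rintro m hm _ ⟨α, hα, rfl⟩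
    obtain ⟨t, ht, c, hc, rfl⟩ := hU.decomp hM hm
    obtain ⟨x, hx, hx'⟩ := hS c (hC hc)
    have h1 : Commute (ρ c) α := Algebra.commute_of_mem_adjoin_of_forall_mem_commute (hI hα) (by
      rintro _ ⟨u, hu, rfl⟩
      change ρ c * ρ u = ρ u * ρ c
      rw [← map_mul, ← map_mul, hcen (hC hc) u hu])
    refine ⟨ρ t * (α * ρ x), (hI2 _ (hI2 α hα x hx).2 t ht).1, ?_⟩
    change ρ t (α (ρ x v)) = ρ (t * c) (α v)
    rw [rep_mul, ← hx']
    exact congrArg (ρ t) (LinearMap.congr_fun h1.symm v)) with h | h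
  · left
    intro α hα
    exact (Submodule.mem_bot _).1 (h.le ⟨α, hα, rfl⟩)
  · right
    intro w
    exact h.ge (Submodule.mem_top (x := w))

theorem two_factors [Finite V] [Nontrivial V] (hL : LinEP ρ) (hM : GT.IsMinNormal M)
    (hc : ¬ IsMulCommutative M) {T T' : Subgroup H} (hT : Cp M T) (hT' : Cp M T') (hne : T ≠ T')
    (hev : ∀ U, Cp M U → Even (Nat.card U)) : False := by
  classical
  have := hM.normal
  have hcen := hT.le_centralizer hT' hne
  have hcen' := hT'.le_centralizer hT hne.symm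
  let S : V → Prop := fun v => ∀ U, Cp M U → ∀ x ∈ U, ∃ c ∈ M ⊓ centralizer (U : Set H),
    x * c ∈ vstab ρ v
  have hS : ∀ v, ∀ a ∈ T, ∀ b ∈ T', ρ (a * b) v = v → ρ a v ≠ v → v ≠ 0 ∧ S v := by
    intro v a ha b hb h1 h2
    have hv : v ≠ 0 := by rintro rfl; exact h2 (map_zero _)
    exact ⟨hv, (dichotomy hM hc (hL.max v hv)).resolve_left fun h =>
      h2 (h T hT a ha b ⟨hT'.le hb, hcen hb⟩ h1)⟩
  have hS1 : ∀ v, v ≠ 0 → S v → ∀ U, Cp M U → ∀ x ∈ U, ρ x v = v → x = 1 :=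
    fun v hv h U hU x hx => inf_eq_bot_of_subdirect hM hU (h U hU) (not_le_vstab hL hM hc hU hv) hx
  obtain ⟨b, hb, hb1, hb2⟩ := exists_inv (hev T' hT')
  -- a central involution of a Sylow subgroup
  obtain ⟨P⟩ : Nonempty (Sylow 2 T) := inferInstance
  have hP0 : (P : Subgroup T) ≠ ⊥ := P.ne_bot_of_dvd_card (even_iff_two_dvd.1 (hev T hT))
  have : Nontrivial (P : Subgroup T) := (nontrivial_iff_ne_bot _).2 hP0
  have := P.isPGroup'.center_nontrivial
  obtain ⟨k, hk0, hk⟩ := (P.isPGroup'.to_subgroup (center _)).nontrivial_iff_card.1 this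
  obtain ⟨z, hz, hz1, hz2⟩ := exists_inv (T := center (P : Subgroup T))
    (by rw [hk]; exact Nat.even_pow.2 ⟨even_two, hk0.ne'⟩)
  set a : H := ((z : T) : H) with ha0
  have ha : a ∈ T := (z : T).2
  have ha1 : a ≠ 1 := fun e => hz1 (Subtype.ext (Subtype.ext e))
  have ha2 : a * a = 1 := congrArg (fun x : (P : Subgroup T) => ((x : T) : H)) hz2
  have haP : ∀ s : T, s ∈ (P : Subgroup T) → (s : H) * a = a * s := fun s hs =>
    congrArg (fun x : (P : Subgroup T) => ((x : T) : H)) (mem_center_iff.1 hz ⟨s, hs⟩)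
  have htwo : ∀ U, Cp M U → U = T ∨ U = T' := by
    intro U hU
    by_contra hn
    push Not at hn
    obtain ⟨c, hc0, hc1, hc2⟩ := exists_inv (hev U hU)
    obtain ⟨v, h1, h2, h3⟩ := exists_vec hL hM hc hT hT' hne ha ha1 ha2 hb hb1 hb2 hc2
      (hT.le_centralizer hU hn.1.symm hc0) (hT'.le_centralizer hU hn.2.symm hc0)
    obtain ⟨hv, hSv⟩ := hS v a ha b hb h2 h3
    exact hc1 (hS1 v hv hSv U hU c hc0 h1)
  have hMle : M ≤ T ⊔ T' := hT.le_of_forall hM fun g => by
    rcases htwo _ (hT.cj g) with h | h <;> rw [h]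
    exacts [le_sup_left, le_sup_right]
  have hC : M ⊓ centralizer (T : Set H) ≤ T' := by
    intro m hm
    obtain ⟨t, ht, c, hc', rfl⟩ := (mem_sup_centralizer hcen le_rfl).1 (hMle hm.1)
    have := hT.eq_one hM hc ht (by simpa using Subgroup.mul_mem _ hm.2 (Subgroup.inv_mem _ (hcen hc')))
    rwa [this, one_mul]
  have hC' : M ⊓ centralizer (T' : Set H) ≤ T := by
    intro m hm
    obtain ⟨t, ht, c, hc', rfl⟩ := (mem_sup_centralizer hcen' le_rfl).1 (sup_comm T T' ▸ hMle hm.1)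
    have := hT'.eq_one hM hc ht (by simpa using Subgroup.mul_mem _ hm.2 (Subgroup.inv_mem _ (hcen' hc')))
    rwa [this, one_mul]
  have hSa : ∀ v, S v → ∀ U U', Cp M U' → M ⊓ centralizer (U' : Set H) ≤ U →
      ∀ c ∈ U', ∃ x ∈ U, ρ c v = ρ x v := by
    intro v h U U' hU' hle c hc'
    obtain ⟨x, hx, hx'⟩ := h U' hU' c⁻¹ (U'.inv_mem hc')
    refine ⟨x, hle hx, ?_⟩
    conv_lhs => rw [← (hx' : ρ (c⁻¹ * x) v = v), rep_mul, rep_rep_inv]
  obtain ⟨v0, -, h2, h3⟩ := exists_vec hL hM hc hT hT' hne ha ha1 ha2 hb hb1 hb2 (mul_one 1)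
    (one_mem _) (one_mem _)
  obtain ⟨hv0, hS0⟩ := hS v0 a ha b hb h2 h3
  clear h2 h3
  let A := Algebra.adjoin (ZMod 2) (ρ '' T)
  have hρ : ∀ t ∈ T, ρ t ∈ A := fun t ht => Algebra.subset_adjoin ⟨t, ht, rfl⟩
  have hfull : ∀ U U', Cp M U → Cp M U' → U' ≤ centralizer (U : Set H) →
      M ⊓ centralizer (U : Set H) ≤ U' → M ⊓ centralizer (U' : Set H) ≤ U → ∀ v, v ≠ 0 → S v →
      ∀ w, ∃ α ∈ Algebra.adjoin (ZMod 2) (ρ '' U), α v = w := by
    intro U U' hU hU' h1 h2 h3 v hv hSv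
    refine (span_aux hL hM hU h1 h2 hv (hSa v hSv U U' hU' h3) _ le_rfl fun α hα x hx =>
      ⟨Subalgebra.mul_mem _ (Algebra.subset_adjoin ⟨x, hx, rfl⟩) hα,
        Subalgebra.mul_mem _ hα (Algebra.subset_adjoin ⟨x, hx, rfl⟩)⟩).resolve_left fun h => hv ?_
    exact h 1 (Subalgebra.one_mem _)
  have hcm : ∀ α ∈ A, ∀ c ∈ T', Commute (ρ c) α := fun α hα c hc' =>
    Algebra.commute_of_mem_adjoin_of_forall_mem_commute hα (by
      rintro _ ⟨u, hu, rfl⟩
      change ρ c * ρ u = ρ u * ρ c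
      rw [← map_mul, ← map_mul, hcen hc' u hu])
  have hinj : ∀ α ∈ A, ∀ β ∈ A, α v0 = β v0 → α = β := by
    intro α hα β hβ h
    ext w
    obtain ⟨γ, hγ, rfl⟩ := hfull T' T hT' hT hcen' hC' hC v0 hv0 hS0 w
    have key : ∀ δ ∈ A, Commute δ γ := fun δ hδ =>
      Algebra.commute_of_mem_adjoin_of_forall_mem_commute hγ (by
        rintro _ ⟨u, hu, rfl⟩
        exact (hcm δ hδ u hu).symm)
    exact (LinearMap.congr_fun (key α hα) v0).trans ((congrArg γ h).trans
      (LinearMap.congr_fun (key β hβ) v0).symm)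
  have hφ : ∀ t ∈ T, ∃ c ∈ T', ρ (t * c) v0 = v0 := fun t ht => by
    obtain ⟨c, hc', h⟩ := hS0 T hT t ht
    exact ⟨c, hC hc', h⟩
  have hfixc : ∀ α ∈ A, ∀ t ∈ T, ∀ c ∈ T', ρ (t * c) v0 = v0 → ρ t * α = α * ρ t →
      ρ (t * c) (α v0) = α v0 := by
    intro α hα t ht c hc' h1 h2
    have e1 := LinearMap.congr_fun (hcm α hα c hc') v0
    have e2 := LinearMap.congr_fun h2 (ρ c v0)
    simp only [Module.End.mul_apply] at e1 e2
    rw [rep_mul, e1, e2, ← rep_mul, h1]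
  have hK : ∀ α ∈ A, ρ a * α = α * ρ a → ρ a * α ≠ α → ∃ β ∈ A, β * α = 1 := by
    intro α hα h1 h2
    obtain ⟨c, hc', hc2⟩ := hφ a ha
    obtain ⟨hx, hSx⟩ := hS (α v0) a ha c hc' (hfixc α hα a ha c hc' hc2 h1) fun e =>
      h2 (hinj _ (mul_mem (hρ a ha) hα) _ hα e)
    obtain ⟨β, hβ, hβ'⟩ := hfull T T' hT hT' hcen hC hC' _ hx hSx v0
    exact ⟨β, hβ, hinj _ (mul_mem hβ hα) _ (one_mem _) hβ'⟩
  have : Finite (Module.End (ZMod 2) V) := Finite.of_injective _ DFunLike.coe_injective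
  have : IsSimpleRing A := by
    refine IsSimpleRing.of_eq_bot_or_eq_top fun I => ?_
    let J : Submodule (ZMod 2) (Module.End (ZMod 2) V) :=
      { carrier := {α | ∃ h : α ∈ A, (⟨α, h⟩ : A) ∈ I}
        add_mem' := fun ⟨h1, h2⟩ ⟨h3, h4⟩ => ⟨add_mem h1 h3, I.add_mem h2 h4⟩
        zero_mem' := ⟨zero_mem _, I.zero_mem⟩
        smul_mem' := fun r α ⟨h1, h2⟩ => ⟨A.smul_mem h1 r, by
          have := I.mul_mem_left (algebraMap _ A r) _ h2
          rwa [← Algebra.smul_def] at this⟩ }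
    rcases span_aux hL hM hT hcen hC hv0 (hSa v0 hS0 T T' hT' hC') J (fun α hα => hα.1)
      (fun α ⟨h1, h2⟩ x hx => ⟨⟨mul_mem (hρ x hx) h1, I.mul_mem_left ⟨_, hρ x hx⟩ _ h2⟩,
        ⟨mul_mem h1 (hρ x hx), I.mul_mem_right _ ⟨_, hρ x hx⟩ h2⟩⟩) with h | h
    · left
      rw [eq_bot_iff]
      intro α hα
      rw [TwoSidedIdeal.mem_bot]
      exact Subtype.ext (hinj _ α.2 _ (zero_mem _) (h α ⟨α.2, hα⟩))
    · right
      obtain ⟨α, ⟨h1, h2⟩, h3⟩ := h v0
      rw [← TwoSidedIdeal.one_mem_iff]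
      have : α = 1 := hinj _ h1 _ (one_mem _) h3
      subst this
      exact h2
  have : IsSemisimpleRing A := IsSimpleRing.isSemisimpleRing_iff_isArtinianRing.2 inferInstance
  have h2E : ∀ x : Module.End (ZMod 2) V, x + x = 0 := fun x => add_self x
  have haa : ρ a * ρ a = 1 := by rw [← map_mul, ha2, map_one]
  set n : Module.End (ZMod 2) V := ρ a + 1 with hn
  have hnA : n ∈ A := add_mem (hρ a ha) (one_mem _)
  have han : ρ a * n = n := by rw [hn, mul_add, haa, mul_one, add_comm]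
  have hnn : n * n = 0 := by rw [hn, add_mul, ← hn, han, one_mul, h2E]
  have hn0 : n v0 ≠ 0 := by
    intro e
    apply ha1
    apply hS1 v0 hv0 hS0 T hT a ha
    change ρ a v0 + v0 = 0 at e
    rw [← add_self v0] at e
    exact add_right_cancel e
  obtain ⟨m', hm'⟩ : ∃ m', n * m' + m' * n = 1 := by
    obtain ⟨e, he, he'⟩ := IsSemisimpleRing.ideal_eq_span_idempotent (Ideal.span {(⟨n, hnA⟩ : A)})
    obtain ⟨m, hm⟩ := Ideal.mem_span_singleton'.1 (he' ▸ Ideal.mem_span_singleton_self e :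
      e ∈ Ideal.span {(⟨n, hnA⟩ : A)})
    obtain ⟨r, hr⟩ := Ideal.mem_span_singleton'.1 (he' ▸ Ideal.mem_span_singleton_self _ :
      (⟨n, hnA⟩ : A) ∈ Ideal.span {e})
    obtain ⟨e', m', h1, h2, h3, h4⟩ := ring_aux (n := (⟨n, hnA⟩ : A)) (m := m) (Subtype.ext hnn)
      (by rw [mul_assoc, hm, ← hr, mul_assoc, he.eq])
    have h2' : (e' : Module.End (ZMod 2) V) * n = n := congrArg Subtype.val h2
    have h3' : n * (e' : Module.End (ZMod 2) V) = n := congrArg Subtype.val h3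
    have h5 : ρ a = n + 1 := by rw [hn, add_assoc, h2E, add_zero]
    obtain ⟨β, -, hβ⟩ := hK e' e'.2 (by rw [h5, add_mul, mul_add, h2', h3', one_mul, mul_one]) (by
      rw [h5, add_mul, h3', one_mul]
      intro e
      apply hn0
      rw [add_eq_right.1 e]; rfl)
    have h6 : (e' : Module.End (ZMod 2) V) = 1 := by
      have : (e' : Module.End (ZMod 2) V) * e' = e' := congrArg Subtype.val h1
      rw [← one_mul (e' : Module.End (ZMod 2) V), ← hβ, mul_assoc, this]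
    exact ⟨m', h6 ▸ (congrArg Subtype.val h4).symm⟩
  have hleft : ∀ x, n * x = 0 → x = n * (m' * x) := fun x hx => by
    conv_lhs => rw [← one_mul x, ← hm', add_mul, mul_assoc m', hx, mul_zero, add_zero, mul_assoc]
  have hright : ∀ x, x * n = 0 → x = x * m' * n := fun x hx => by
    conv_lhs => rw [← mul_one x, ← hm', mul_add, ← mul_assoc, hx, zero_mul, zero_add, ← mul_assoc]
  have hay : a ∈ vstab ρ (n v0) := LinearMap.congr_fun han v0
  have hP := (dichotomy hM hc (hL.max _ hn0)).resolve_right fun h =>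
    ha1 (hS1 _ hn0 h T hT a ha hay)
  have hR1 : ∀ t ∈ T, t ∈ vstab ρ (n v0) ↔ ρ t * n = n := fun t ht =>
    ⟨fun h => hinj _ (mul_mem (hρ t ht) hnA) _ hnA h, fun h => LinearMap.congr_fun h v0⟩
  have hca : ∀ t ∈ T, t * a = a * t → ρ t * n = n ∧ n * ρ t = n := by
    intro t ht hta
    obtain ⟨c, hc', hc2⟩ := hφ t ht
    have h1 : ρ t * n = n * ρ t := by
      rw [hn, mul_add, add_mul, ← map_mul, hta, map_mul, mul_one, one_mul]
    have h2 := (hR1 t ht).1 (hP T hT t ht c ⟨hT'.le hc', hcen hc'⟩ (hfixc n hnA t ht c hc' hc2 h1))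
    exact ⟨h2, h1 ▸ h2⟩
  have hρinj : ∀ x y : H, ρ x = ρ y → x = y := by
    intro x y h
    have := hL.eq_one (k := y⁻¹ * x) fun v => by rw [rep_mul, h, rep_inv_rep]
    exact (inv_mul_eq_one.1 this).symm
  have hzero : ∀ t ∈ T, t * a = a * t → n * (ρ t + 1) = 0 ∧ (ρ t + 1) * n = 0 := fun t ht hta =>
    ⟨by rw [mul_add, (hca t ht hta).2, mul_one, h2E], by rw [add_mul, (hca t ht hta).1, one_mul, h2E]⟩
  have hprod : ∀ t ∈ T, t * a = a * t → ∀ s ∈ T, s * a = a * s → ρ (t * s) = ρ t + ρ s + 1 := by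
    intro t ht hta s hs hsa
    have h1 : (ρ t + 1) * (ρ s + 1) = 0 := by
      rw [hleft _ (hzero s hs hsa).1, ← mul_assoc, (hzero t ht hta).2, zero_mul]
    rw [← h2E (ρ t + ρ s + 1), add_mul, mul_add, mul_one, one_mul, add_assoc, ← add_assoc (ρ t),
      ← map_mul] at h1
    exact add_right_cancel h1
  have hcomm : ∀ t ∈ T, t * a = a * t → ∀ s ∈ T, s * a = a * s → t * s = s * t :=
    fun t ht hta s hs hsa => hρinj _ _ (by
      rw [hprod t ht hta s hs hsa, hprod s hs hsa t ht hta, add_comm (ρ t)])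
  have := hT.simple hM
  refine (sylow_eq_bot_or_top P ?_).elim hP0 fun h => hT.not_comm hM hc
    ⟨⟨fun x y => Subtype.ext (hcomm x x.2 (haP x (h ▸ mem_top x)) y y.2 (haP y (h ▸ mem_top y)))⟩⟩
  intro g0 hg0 s hs
  refine Subtype.ext (hcomm s s.2 (haP s hs) g0 g0.2 ?_)
  -- conjugates of `a` under the normalizer
  have hcj : ∀ g : T, g ∈ normalizer ((P : Subgroup T) : Set T) →
      n * (ρ g * n * ρ (g : H)⁻¹) = 0 ∧ ρ g * n * ρ (g : H)⁻¹ * n = 0 := by
    intro g hg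
    have h1 := (mem_normalizer_iff.1 hg z).1 z.2
    have h2 := hzero _ (g * z * g⁻¹).2 (haP _ h1)
    have h3 : ρ ((g * z * g⁻¹ : T) : H) + 1 = ρ g * n * ρ (g : H)⁻¹ := by
      rw [hn, mul_add, add_mul, mul_one, ← map_mul ρ (g : H) _⁻¹, mul_inv_cancel, map_one,
        ← map_mul, ← map_mul]; rfl
    rwa [h3] at h2
  have hgi : ∀ x : H, ρ x * ρ x⁻¹ = 1 := fun x => by rw [← map_mul, mul_inv_cancel, map_one]
  have hgi' : ∀ x : H, ρ x⁻¹ * ρ x = 1 := fun x => by rw [← map_mul, inv_mul_cancel, map_one]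
  have hg1 : (g0 : H) ∈ vstab ρ (n v0) := by
    refine mem_vstab_of_norm hL hM hT hn0 (hP T hT) (hT.le ha) ha1 hay g0.2 fun u hu hu' => ?_
    rw [hR1 _ (T.mul_mem (T.mul_mem g0.2 hu) (T.inv_mem g0.2))]
    rw [hR1 u hu] at hu'
    have h1 := hleft _ (hcj _ (inv_mem hg0)).1
    simp only [coe_inv, inv_inv] at h1
    have h2 : ρ u * (ρ (g0 : H)⁻¹ * n * ρ g0) = ρ (g0 : H)⁻¹ * n * ρ g0 := by
      rw [h1, ← mul_assoc, hu']
    calc _ = ρ g0 * (ρ u * (ρ (g0 : H)⁻¹ * n * ρ g0)) * ρ (g0 : H)⁻¹ := by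
          simp only [map_mul, mul_assoc, hgi, mul_one]
      _ = n := by rw [h2]; simp only [← mul_assoc, hgi, one_mul]; rw [mul_assoc, hgi, mul_one]
  have hrel : ∀ t ∈ T, ∀ c ∈ T', ρ (t * c) v0 = v0 → (c ∈ vstab ρ (n v0) ↔ n * ρ t⁻¹ = n) := by
    intro t ht c hc' h
    have h1 : ρ c (n v0) = (n * ρ t⁻¹) v0 := by
      have e1 := LinearMap.congr_fun (hcm n hnA c hc') v0
      simp only [Module.End.mul_apply] at e1 ⊢
      conv_rhs => rw [← h, rep_mul, rep_inv_rep]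
      exact e1
    rw [mem_vstab, h1]
    exact ⟨hinj _ (mul_mem hnA (hρ _ (T.inv_mem ht))) _ hnA, fun e => by rw [e]⟩
  obtain ⟨g', hg', hgg⟩ := hφ g0 g0.2
  have hg2 : g' ∈ vstab ρ (n v0) := by
    refine mem_vstab_of_norm hL hM hT' hn0 (hP T' hT') (hT.le ha) ha1 hay hg' fun u hu hu' => ?_
    obtain ⟨t, ht, htu⟩ := hS0 T' hT' u hu
    have ht' := hC' ht
    rw [ht.2 u hu] at htu
    rw [hrel t ht' u hu htu] at hu'
    have h0 : ((g0 : H) * t * (g0 : H)⁻¹) * (g' * u * g'⁻¹) ∈ vstab ρ v0 := by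
      have e : ((g0 : H) * t * (g0 : H)⁻¹) * (g' * u * g'⁻¹) = g0 * g' * (t * u) * (g0 * g')⁻¹ := by
        have e1 := hcen hg' t ht'
        have e2 := hcen (T'.mul_mem (T'.mul_mem hg' hu) (T'.inv_mem hg')) _ (T.inv_mem g0.2)
        rw [mul_assoc _ (g0 : H)⁻¹, e2, mul_assoc (g0 : H) g', ← mul_assoc g', ← e1]; group
      rw [e]
      exact mul_mem (mul_mem hgg htu) (inv_mem hgg)
    rw [hrel _ (T.mul_mem (T.mul_mem g0.2 ht') (T.inv_mem g0.2)) _
      (T'.mul_mem (T'.mul_mem hg' hu) (T'.inv_mem hg')) h0]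
    have h1 := hright _ (hcj _ (inv_mem hg0)).2
    simp only [coe_inv, inv_inv] at h1
    have h2 : (ρ (g0 : H)⁻¹ * n * ρ g0) * ρ t⁻¹ = ρ (g0 : H)⁻¹ * n * ρ g0 := by
      rw [h1, mul_assoc, hu']
    calc _ = ρ g0 * ((ρ (g0 : H)⁻¹ * n * ρ g0) * ρ t⁻¹) * ρ (g0 : H)⁻¹ := by
          simp only [mul_inv_rev, inv_inv, map_mul, ← mul_assoc, hgi, one_mul]
      _ = n := by rw [h2]; simp only [← mul_assoc, hgi, one_mul]; rw [mul_assoc, hgi, mul_one]
  rw [hR1 _ g0.2] at hg1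
  rw [hrel _ g0.2 _ hg' hgg] at hg2
  have h1 : ρ g0 * n = n * ρ g0 := by
    rw [hg1]
    conv_rhs => rw [← hg2, mul_assoc, hgi', mul_one]
  rw [hn, mul_add, add_mul, mul_one, one_mul, ← map_mul, ← map_mul] at h1
  exact hρinj _ _ (add_right_cancel h1)

end lin

/-- Let a finite group G that is not solvable act faithfully and primitively on a finite set with p ^ d points (p prime), with a non-trivial abelian normal subgroup acting regularly (affine type) and with non-trivial point stabilizers each acting primitively on every one of its orbits (an insoluble extremely primitive group of affine type). Then p = 2; and if moreover G is not 2-transitive, then a point stabilizer is almost simple (it has a non-abelian simple normal subgroup with trivial centralizer). -/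
theorem result {G : Type*} [Group G] [Finite G] {Ω : Type*} [Fintype Ω] [MulAction G Ω] [FaithfulSMul G Ω] (p d : ℕ) (hp : p.Prime) (hcard : Fintype.card Ω = p ^ d) (hsol : ¬ Group.IsSolvable G)
    (N : Subgroup G) [N.Normal] (hN : N ≠ ⊥) (hNc : IsMulCommutative N) (hNreg : ∀ ω : Ω, MulAction.stabilizer N ω = ⊥)
    (hprim : MulAction.IsPreprimitive G Ω) (hH : ∀ α : Ω, MulAction.stabilizer G α ≠ ⊥) (hep : ∀ (α : Ω) (ω : Ω), MulAction.IsPreprimitive (MulAction.stabilizer G α) (MulAction.orbit (MulAction.stabilizer G α) ω)) (α : Ω) :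
    p = 2 ∧ (¬ MulAction.IsMultiplyPretransitive G Ω 2 → ∃ T : Subgroup (MulAction.stabilizer G α), T.Normal ∧ IsSimpleGroup T ∧ ¬ IsMulCommutative T ∧ Subgroup.centralizer (T : Set (MulAction.stabilizer G α)) = ⊥) := by
  have := Fact.mk hp
  have hE := isEP_of hep
  rw [← Nat.card_eq_fintype_card] at hcard
  obtain ⟨hV, hreg, hcN⟩ := elementary_of_comm hprim hp hcard hN hNc α
  have hL := hE.linEP hprim (hH α) hV hreg
  have : Nontrivial (GT.EAV hV) := (nontrivial_iff_ne_bot _).2 hN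
  have hNt := Perm.isPretransitive_of_normal_ne_bot hprim N hN
  have hns : ¬ Group.IsSolvable (stabilizer G α) := by
    intro h
    apply hsol
    have : Group.IsSolvable N := GT.isSolvable_of_isMulCommutative
    have h1 := GT.isSolvable_sup (stabilizer G α) N
    rw [sup_comm, Perm.sup_stabilizer_eq_top N α] at h1
    exact GT.isSolvable_of_mulEquiv (topEquiv (G := G))
  have hev : ∀ U : Subgroup (stabilizer G α), ¬ Group.IsSolvable U → Even (Nat.card U) := by
    intro U hU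
    rw [← Nat.not_odd_iff_even]
    exact fun h => hU (S0205.result h)
  have hp2 : p = 2 := by
    by_contra hp2
    obtain ⟨t, -, ht1, ht2⟩ := exists_inv (hev ⊤ fun h =>
      hns (GT.isSolvable_of_mulEquiv (topEquiv (G := stabilizer G α))))
    have h1 := comm_of_odd hL (fun v hv => by
      have h2 : ((2 : ℕ) : ZMod p) • v = 0 := by
        rw [Nat.cast_smul_eq_nsmul, two_smul]
        nth_rewrite 1 [← hv]
        exact neg_add_cancel v
      refine (smul_eq_zero.1 h2).resolve_left fun h3 => hp2 ?_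
      exact (Nat.prime_dvd_prime_iff_eq hp Nat.prime_two).1 ((ZMod.natCast_eq_zero_iff _ _).1 h3))
      ht1 ht2
    have : IsMulCommutative (stabilizer G α) := ⟨⟨h1⟩⟩
    exact hns GT.isSolvable_of_isMulCommutative
  refine ⟨hp2, fun _ => ?_⟩
  subst hp2
  have hnt : Nontrivial (stabilizer G α) := (nontrivial_iff_ne_bot _).2 (hH α)
  obtain ⟨M, hM⟩ := GT.exists_isMinNormal (stabilizer G α)
  have := hM.normal
  have hc : ¬ IsMulCommutative M := by
    intro hc
    obtain ⟨-, -, -, h4, -⟩ := hL.abelian M hM.ne_bot hc (d := d) hcN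
    have : Group.IsSolvable M := GT.isSolvable_of_isMulCommutative
    have : Group.IsSolvable (stabilizer G α ⧸ M) := GT.isSolvable_of_isMulCommutative
    exact hns (Group.isSolvable_of_ker_le_range M.subtype (QuotientGroup.mk' M) (by simp))
  have hev' : ∀ U, Cp M U → Even (Nat.card U) := fun U hU => hev U fun h => by
    have := hU.simple hM
    exact hU.not_comm hM hc ⟨⟨IsSimpleGroup.comm_iff_isSolvable.2 h⟩⟩
  obtain ⟨T, hT⟩ := exists_cp hM.ne_bot
  by_cases hTn : T.Normal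
  · refine ⟨T, hTn, hT.simple hM, hT.not_comm hM hc, ?_⟩
    by_contra hC
    obtain ⟨a, ha, ha1, ha2⟩ := exists_inv (hev' T hT)
    obtain ⟨x, hx⟩ : ∃ x, GT.eaRep hV (H := stabilizer G α) le_normalizer_of_normal a x ≠ x := by
      by_contra h
      push Not at h
      exact ha1 (hL.eq_one h)
    refine ha1 (hL.eq_one_of_comm hC
      (v := x + GT.eaRep hV (H := stabilizer G α) le_normalizer_of_normal a x) (fun e => hx ?_)
      (fun c hc => (hc a ha).symm) ?_)
    · rw [← add_self x] at e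
      exact add_left_cancel e
    · rw [map_add, ← rep_mul, ha2, rep_one, add_comm]
  · obtain ⟨T', hT', hne⟩ := hT.exists_ne hTn
    exact (two_factors hL hM hc hT hT' hne hev').elim

end Cfsg.Agent.S3521
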