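import Mathlib
import Cfsg.Statements.S3532
import Cfsg.Agent.Cl.PSL2Spec

set_option autoImplicit false
open Cfsg

set_option linter.unusedVariables false

namespace Cfsg.Agent.S3532

open Cfsg.Agent.Cl.L2 Matrix MulAction
open scoped MatrixGroups

lemma range_prod {G H : Type*} [Group G] [Group H] : Set.range (orderOf : G × H → ℕ) =
    {n | ∃ a ∈ Set.range (orderOf : G → ℕ), ∃ b ∈ Set.range (orderOf : H → ℕ), a.lcm b = n} := by
  ext n
  constructor
  · rintro ⟨g, rfl⟩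
    exact ⟨_, ⟨g.1, rfl⟩, _, ⟨g.2, rfl⟩, (Prod.orderOf g).symm⟩
  · rintro ⟨_, ⟨a, rfl⟩, _, ⟨b, rfl⟩, rfl⟩
    exact ⟨(a, b), Prod.orderOf _⟩
/-- Let q ≥ 4 be a prime power and L = PSL(2,q). There is a finite solvable group with the same set of element orders as L × L (so L × L is not determined by its spectrum). -/
theorem result {F : Type*} [Field F] [Fintype F] (hF : 4 ≤ Fintype.card F) :
    ∃ (H : Type) (_ : Group H) (_ : Finite H), Group.IsSolvable H ∧
      Set.range (orderOf : H → ℕ) = Set.range (orderOf : Matrix.ProjectiveSpecialLinearGroup (Fin 2) F × Matrix.ProjectiveSpecialLinearGroup (Fin 2) F → ℕ) := by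
  obtain ⟨p, hp, _⟩ := exists_char (F := F)
  have := Fact.mk hp
  obtain ⟨n, hn, e⟩ := exists_card_eq_prime_pow (F := F) p
  have c1 : Nat.card (GaloisField p n) = Nat.card F := by rw [GaloisField.card p n (by omega), e]
  have c2 : Nat.card (GaloisField p (n * 2)) = Nat.card F ^ 2 := by
    rw [GaloisField.card p _ (by omega), e, pow_mul]
  set m1 := (Nat.card F - 1) / Nat.gcd 2 (Nat.card F - 1) with hm1
  set m2 := (Nat.card F + 1) / Nat.gcd 2 (Nat.card F - 1) with hm2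
  have := isSolvable_affRoots (F := GaloisField p n) m1
  have := isSolvable_affRoots (F := GaloisField p (n * 2)) m2
  refine ⟨affRoots (GaloisField p n) m1 × affRoots (GaloisField p (n * 2)) m2, inferInstance,
    inferInstance, inferInstance, ?_⟩
  rw [range_prod, range_prod, range_orderOf_PSL p, range_orderOf_affRoots p
    (c1 ▸ Nat.div_dvd_of_dvd (Nat.gcd_dvd_right _ _)), range_orderOf_affRoots p (by
      rw [c2, Nat.sq_sub_sq _ 1]; exact (Nat.div_dvd_of_dvd gcd_dvd_add).mul_right _), ← hm1, ← hm2]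
  ext k
  constructor
  · rintro ⟨a, ha, b, hb, rfl⟩
    exact ⟨a, ha.imp id Or.inl, b, hb.imp id Or.inr, rfl⟩
  · rintro ⟨a, ha | ha | ha, b, hb | hb | hb, rfl⟩
    · exact ⟨a, Or.inl ha, b, Or.inl hb, rfl⟩
    · exact ⟨b, Or.inr hb, a, Or.inl ha, Nat.lcm_comm _ _⟩
    · exact ⟨a, Or.inl ha, b, Or.inr hb, rfl⟩
    · exact ⟨a, Or.inr ha, b, Or.inl hb, rfl⟩
    · exact ⟨_, Or.inr (Nat.lcm_dvd ha hb), 1, Or.inl (one_dvd _), Nat.lcm_one_right _⟩
    · exact ⟨a, Or.inr ha, b, Or.inr hb, rfl⟩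
    · exact ⟨b, Or.inl hb, a, Or.inr ha, Nat.lcm_comm _ _⟩
    · exact ⟨b, Or.inr hb, a, Or.inr ha, Nat.lcm_comm _ _⟩
    · exact ⟨1, Or.inl (one_dvd _), _, Or.inr (Nat.lcm_dvd ha hb), Nat.lcm_one_left _⟩

end Cfsg.Agent.S3532
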