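import Mathlib
import Cfsg.Statements.S3547
import Cfsg.Agent.Perm.Derange
-- import your own Cfsg.Agent.* helpers here

set_option autoImplicit false
open Cfsg

namespace Cfsg.Agent.S3547

open Cfsg.Agent.Perm.Der MulAction Finset

/-- Let G act faithfully and transitively on a finite set Ω, let D be the subgroup generated by the derangements, and let r_G and r_D be the numbers of orbits of G and of D on ordered pairs of points (the permutation ranks). Then r_D − 1 = (r_G − 1)·[G : D]. -/
theorem result {G Ω : Type*} [Group G] [Finite G] [MulAction G Ω] [FaithfulSMul G Ω] [Finite Ω]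
    (htrans : MulAction.IsPretransitive G Ω) :
    Nat.card (MulAction.orbitRel.Quotient ↥(Subgroup.closure {g : G | ∀ ω : Ω, g • ω ≠ ω}) (Ω × Ω)) - 1 =
      (Nat.card (MulAction.orbitRel.Quotient G (Ω × Ω)) - 1) * (Subgroup.closure {g : G | ∀ ω : Ω, g • ω ≠ ω}).index := by
  classical
  cases isEmpty_or_nonempty Ω with
  | inl h =>
    have h1 : Nat.card (MulAction.orbitRel.Quotient G (Ω × Ω)) = 0 := by
      rw [Nat.card_eq_zero]; left
      exact ⟨fun q => by induction q using Quotient.inductionOn with | h x => exact h.elim x.1⟩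
    have h2 : Nat.card (MulAction.orbitRel.Quotient (derSub G Ω) (Ω × Ω)) = 0 := by
      rw [Nat.card_eq_zero]; left
      exact ⟨fun q => by induction q using Quotient.inductionOn with | h x => exact h.elim x.1⟩
    rw [h1, h2]; simp
  | inr h =>
    have := Fintype.ofFinite G
    change norb (derSub G Ω) (Ω × Ω) - 1 = (norb G (Ω × Ω) - 1) * (derSub G Ω).index
    set D := derSub G Ω with hD
    have h1 := sum_fix (Ω × Ω) (G := G)
    have h2 := sum_fix_subgroup (Ω × Ω) D
    rw [← Finset.sum_filter_add_sum_filter_not univ (· ∈ D), h2] at h1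
    have h3 : ∑ g ∈ univ.filter (fun g => ¬ g ∈ D), fix (Ω × Ω) g =
        (univ.filter (fun g => ¬ g ∈ D)).card := by
      rw [Finset.card_eq_sum_ones]
      refine Finset.sum_congr rfl fun g hg => ?_
      rw [fix_prod, derSub_aux.2 g (by simpa using hg)]
    have h4 : (univ.filter (fun g => ¬ g ∈ D)).card + Nat.card D = Nat.card G := by
      rw [Nat.card_eq_fintype_card, Nat.card_eq_fintype_card, Fintype.card_subtype, add_comm,
        Finset.card_filter_add_card_filter_not]
      rfl
    have h5 := D.card_mul_index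
    have h6 : 0 < norb G (Ω × Ω) := norb_pos G
    have h7 : 0 < norb D (Ω × Ω) := norb_pos D
    have h8 : 0 < Nat.card D := Nat.card_pos
    obtain ⟨a, ha⟩ := Nat.exists_eq_add_of_lt h6
    obtain ⟨b, hb⟩ := Nat.exists_eq_add_of_lt h7
    rw [h3, ha, hb] at h1
    rw [ha, hb]
    simp only [zero_add, Nat.add_sub_cancel] at h1 ⊢
    apply Nat.eq_of_mul_eq_mul_left h8
    nlinarith

end Cfsg.Agent.S3547
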