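import Mathlib
import Cfsg.Statements.S3548
import Cfsg.Agent.Perm.Derange
-- import your own Cfsg.Agent.* helpers here

set_option autoImplicit false
open Cfsg

namespace Cfsg.Agent.S3548

open Cfsg.Agent.Perm.Der MulAction Finset

/-- Let G act faithfully and transitively on a finite set with n ≥ 2 points and let D be the subgroup generated by the derangements. Then the index of D in G divides n − 1, and if it equals n − 1 then n is a prime power. -/
theorem result {G Ω : Type*} [Group G] [Finite G] [MulAction G Ω] [FaithfulSMul G Ω] [Finite Ω]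
    (htrans : MulAction.IsPretransitive G Ω) (hΩ : 2 ≤ Nat.card Ω) :
    (Subgroup.closure {g : G | ∀ ω : Ω, g • ω ≠ ω}).index ∣ Nat.card Ω - 1 ∧
    ((Subgroup.closure {g : G | ∀ ω : Ω, g • ω ≠ ω}).index = Nat.card Ω - 1 → IsPrimePow (Nat.card Ω)) := by
  have hnt : Nontrivial Ω := Finite.one_lt_card_iff_nontrivial.mp hΩ
  refine ⟨index_derSub_dvd, fun hidx => ?_⟩
  change (derSub G Ω).index = _ at hidx
  set D := derSub G Ω with hD
  have hDt : IsPretransitive D Ω := derSub_isPretransitive
  obtain ⟨a⟩ : Nonempty Ω := inferInstance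
  -- the stabiliser of `a` is transitive on the other points
  have horb : ∀ b : Ω, b ≠ a → orbit (stabilizer G a) b = {a}ᶜ := by
    intro b hb
    have hsub : orbit (stabilizer G a) b ⊆ {a}ᶜ := by
      rintro _ ⟨g, rfl⟩ h
      exact hb (smul_left_cancel (g : G) (h.trans g.2.symm))
    have h1 := index_derSub_dvd_ncard (G := G) a (orbit (stabilizer G a) b)
      (fun h => hsub h rfl) (fun g hg x hx => by
        obtain ⟨k, rfl⟩ := hx
        exact ⟨⟨g, hg⟩ * k, mul_smul _ _ _⟩)
    refine Set.eq_of_subset_of_ncard_le hsub ?_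
    rw [Set.ncard_compl, Set.ncard_singleton, ← hidx]
    refine Nat.le_of_dvd ?_ h1
    rw [Set.ncard_pos]
    exact ⟨b, mem_orbit_self b⟩
  have hreg : ∀ d ∈ D, d • a = a → d = 1 := by
    intro d hd hda
    apply FaithfulSMul.eq_of_smul_eq_smul (α := Ω)
    intro b
    rw [one_smul]
    by_cases hb : b = a
    · rw [hb, hda]
    · have h1 : (stabilizer (stabilizer G a) b).index = Nat.card Ω - 1 := by
        rw [index_stabilizer, horb b hb, Set.ncard_compl, Set.ncard_singleton]
      have h2 : (D.subgroupOf (stabilizer G a)).index = Nat.card Ω - 1 := by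
        rw [← hidx]; exact relIndex_stabilizer_of_trans D a
      have h3 : stabilizer (stabilizer G a) b ≤ D.subgroupOf (stabilizer G a) := by
        intro g hg
        exact mem_derSub_of_two (Ne.symm hb) g.2 hg
      have h4 : stabilizer (stabilizer G a) b = D.subgroupOf (stabilizer G a) := by
        apply Subgroup.eq_of_le_of_card_ge h3
        have e1 := (stabilizer (stabilizer G a) b).card_mul_index
        have e2 := (D.subgroupOf (stabilizer G a)).card_mul_index
        rw [h1] at e1
        rw [h2, ← e1] at e2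
        exact (Nat.eq_of_mul_eq_mul_right (by omega) e2).le
      have h5 : (⟨d, hda⟩ : stabilizer G a) ∈ stabilizer (stabilizer G a) b := by
        rw [h4]; exact hd
      exact h5
  have hcard : Nat.card D = Nat.card Ω := by
    have h1 : stabilizer D a = ⊥ := by
      rw [eq_bot_iff]
      intro d hd
      exact Subtype.ext (hreg d d.2 hd)
    rw [← index_stabilizer_of_transitive D a, h1, Subgroup.index_bot]
  have hconj : ∀ x ∈ D, ∀ y ∈ D, x ≠ 1 → y ≠ 1 → orderOf x = orderOf y := by
    intro x hx y hy hx1 hy1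
    have h1 : y • a ∈ orbit (stabilizer G a) (x • a) := by
      rw [horb _ (fun h => hx1 (hreg x hx h))]
      exact fun h => hy1 (hreg y hy h)
    obtain ⟨⟨g, hg⟩, hgx⟩ := h1
    have hg' : g • a = a := hg
    have h2 : y⁻¹ * (g * x * g⁻¹) = 1 := by
      apply hreg _ (D.mul_mem (D.inv_mem hy) (derSub_normal.conj_mem x hx g))
      rw [mul_smul, inv_smul_eq_iff, mul_smul, mul_smul]
      have : g⁻¹ • a = a := by rw [inv_smul_eq_iff, hg']
      rw [this]; exact hgx
    have h3 : y = g * x * g⁻¹ := by rw [inv_mul_eq_one] at h2; exact h2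
    rw [h3]
    exact (MulAut.conj g).orderOf_eq x |>.symm
  obtain ⟨p, hp, hpd⟩ := Nat.exists_prime_and_dvd (n := Nat.card D) (by omega)
  have : Fact p.Prime := ⟨hp⟩
  obtain ⟨x, hx⟩ := exists_prime_orderOf_dvd_card' p hpd
  have hx1 : (x : G) ≠ 1 := by
    intro h
    have : x = 1 := Subtype.ext h
    rw [this, orderOf_one] at hx
    exact hp.one_lt.ne hx
  have hpg : IsPGroup p D := by
    intro y
    by_cases hy : y = 1
    · exact ⟨0, by simp [hy]⟩
    · refine ⟨1, ?_⟩
      have := hconj y y.2 x x.2 (fun h => hy (Subtype.ext h)) hx1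
      rw [Subgroup.orderOf_coe, Subgroup.orderOf_coe, hx] at this
      rw [pow_one, ← this, pow_orderOf_eq_one]
  obtain ⟨k, hk⟩ := IsPGroup.iff_card.mp hpg
  rw [← hcard, hk]
  refine ⟨p, k, hp.prime, ?_, rfl⟩
  rcases Nat.eq_zero_or_pos k with h | h
  · rw [h, pow_zero] at hk; omega
  · exact h

end Cfsg.Agent.S3548
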