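import Mathlib
import Cfsg.Statements.S3549
import Cfsg.Agent.Perm.Derange
-- import your own Cfsg.Agent.* helpers here

set_option autoImplicit false
open Cfsg

namespace Cfsg.Agent.S3549

open Cfsg.Agent.Perm.Der MulAction Finset

/-- Let G act faithfully, transitively but imprimitively on a finite set with n points, and let D be the subgroup generated by the derangements. Then the index of D in G is at most √n − 1. -/
theorem result {G Ω : Type*} [Group G] [Finite G] [MulAction G Ω] [FaithfulSMul G Ω] [Finite Ω]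
    (htrans : MulAction.IsPretransitive G Ω) (himp : ¬ MulAction.IsPreprimitive G Ω) :
    ((Subgroup.closure {g : G | ∀ ω : Ω, g • ω ≠ ω}).index : ℝ) ≤ Real.sqrt (Nat.card Ω) - 1 := by
  change ((derSub G Ω).index : ℝ) ≤ _
  have hnt : Nontrivial Ω := by
    by_contra h
    rw [not_nontrivial_iff_subsingleton] at h
    exact himp IsPreprimitive.of_subsingleton
  obtain ⟨a⟩ : Nonempty Ω := inferInstance
  rw [← isCoatom_stabilizer_iff_preprimitive G a] at himp
  have hne : stabilizer G a ≠ ⊤ := by
    intro h
    have := index_stabilizer_of_transitive G a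
    rw [h, Subgroup.index_top] at this
    exact Finite.one_lt_card.ne this
  obtain ⟨H, hH1, hH2⟩ : ∃ H : Subgroup G, stabilizer G a < H ∧ H ≠ ⊤ := by
    by_contra hcon
    push Not at hcon
    exact himp ⟨hne, hcon⟩
  -- the block
  have hB : (orbit H a).ncard = (stabilizer G a).relIndex H := by
    rw [← index_stabilizer]; rfl
  have hn : (stabilizer G a).relIndex H * H.index = Nat.card Ω := by
    rw [Subgroup.relIndex_mul_index hH1.le, index_stabilizer_of_transitive]
  have h1 : (derSub G Ω).index ∣ (orbit H a \ {a}).ncard := by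
    refine index_derSub_dvd_ncard (G := G) a _ (by simp) ?_
    rintro g hg x ⟨⟨k, rfl⟩, hx⟩
    refine ⟨⟨⟨g, hH1.le hg⟩ * k, mul_smul _ _ _⟩, fun h => hx ?_⟩
    exact smul_left_cancel g (h.trans hg.symm)
  rw [Set.ncard_sdiff_singleton_of_mem (mem_orbit_self a), hB] at h1
  have h2 : (derSub G (G ⧸ H)).index ∣ Nat.card (G ⧸ H) - 1 := index_derSub_dvd
  have h3 : derSub G (G ⧸ H) ≤ derSub G Ω := by
    apply Subgroup.closure_mono
    intro g hg ω hω
    obtain ⟨x, rfl⟩ := exists_smul_eq G a ω
    apply hg (x : G ⧸ H)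
    rw [MulAction.Quotient.smul_coe, smul_eq_mul, QuotientGroup.eq]
    apply hH1.le
    rw [mem_stabilizer_iff, mul_smul, inv_smul_eq_iff, mul_smul, hω]
  have h4 : (derSub G Ω).index ∣ H.index - 1 := (Subgroup.index_dvd_of_le h3).trans h2
  have h5 : 1 < (stabilizer G a).relIndex H := by
    have h0 : (stabilizer G a).relIndex H ≠ 0 := Subgroup.FiniteIndex.index_ne_zero
    have h1 : (stabilizer G a).relIndex H ≠ 1 := by
      rw [Ne, Subgroup.relIndex_eq_one]; exact not_le_of_gt hH1
    omega
  have h6 : 1 < H.index := by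
    have h0 : H.index ≠ 0 := Subgroup.FiniteIndex.index_ne_zero
    have h1 : H.index ≠ 1 := by rwa [Ne, Subgroup.index_eq_one]
    omega
  have h7 := Nat.le_of_dvd (by omega) h1
  have h8 := Nat.le_of_dvd (by omega) h4
  have h9 : ((derSub G Ω).index + 1) ^ 2 ≤ Nat.card Ω := by
    rw [← hn, sq]
    exact Nat.mul_le_mul (by omega) (by omega)
  rw [le_sub_iff_add_le]
  apply Real.le_sqrt_of_sq_le
  exact_mod_cast h9

end Cfsg.Agent.S3549
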