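import Cfsg.Statements.S3550
import Cfsg.Agent.DerG.Der
import Cfsg.Agent.DerG.PP
import Cfsg.Agent.DerG.Reg
import Cfsg.Agent.DerG.NonAff
import Cfsg.Agent.DerG.LinX
import Cfsg.Agent.GT.ElemAbRep
import Cfsg.Agent.GT.HallTools
import Cfsg.Agent.S0675

set_option autoImplicit false
open Cfsg

namespace Cfsg.Agent.S3550

open MulAction Subgroup DerG

section

variable {G Ω : Type*} [Group G] [Finite G] [MulAction G Ω] [FaithfulSMul G Ω] [Finite Ω] {D : Subgroup G}

/-- The regular Sylow subgroup contains the centralizers of its nontrivial elements. -/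
theorem cen (h : Ex Ω D) (hn : Nat.card Ω < (D.index + 1) ^ 2) {p : ℕ} [hp : Fact p.Prime] (P : Sylow p G)
    (hPD : (P : Subgroup G) ≤ D) (hE : Cfsg.IsElementaryAbelian p (P : Subgroup G)) (hP : Reg Ω (P : Subgroup G))
    (hF : normalizer ((P : Subgroup G) : Set G) ⊔ D = ⊤) (a : Ω) :
    ∀ x ∈ (P : Subgroup G), x ≠ 1 → ∀ g, g * x = x * g → g ∈ (P : Subgroup G) := by
  have hD := h.normal
  set Y := normalizer ((P : Subgroup G) : Set G) with hY
  have hH : (Y ⊓ stabilizer G a) ⊔ D = ⊤ := h.stab_sup hF a fun k _ => by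
    obtain ⟨x, hx, e⟩ := hP.trans a (k • a)
    exact ⟨x, ⟨le_normalizer hx, hPD hx⟩, e⟩
  have hbot : ∀ g ∈ (P : Subgroup G), g • a = a → g = 1 := fun g hg e => hP.free g hg a e
  have hcen : ∀ g : G, g • a = a → (∀ x ∈ (P : Subgroup G), x * g = g * x) → g = 1 := by
    intro g hg hc
    refine FaithfulSMul.eq_of_smul_eq_smul (α := Ω) fun b => ?_
    obtain ⟨x, hx, rfl⟩ := hP.trans a b
    rw [← mul_smul, ← hc x hx, mul_smul, hg, one_smul]
  have hfree : ∀ u ∈ Y ⊓ stabilizer G a, ∀ x ∈ (P : Subgroup G), x ≠ 1 → u * x = x * u → u = 1 := by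
    intro u hu x hx hx1 hux
    by_contra hu1
    have hle : Y ⊓ stabilizer G a ≤ normalizer ((P : Subgroup G) : Set G) := inf_le_left
    have hi : Function.Injective (GT.eaRep hE hle) := GT.eaRep_injective (by
      rw [eq_bot_iff]
      intro g hg
      exact hcen g hg.1.2 fun x hx => (mem_centralizer_iff.1 hg.2) x hx)
    have hnd : ¬ p ∣ Nat.card ↥(Y ⊓ stabilizer G a) := fun hdd => P.not_dvd_index (by
      rw [(Fix.compl hP a).symm.index_eq_card]
      exact hdd.trans (card_dvd_of_le inf_le_right))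
    have := lin_bound_all (GT.eaRep hE hle) hi hnd (R := D.subgroupOf (Y ⊓ stabilizer G a))
      (fun g hg v hv => by
        have e := GT.eaRep_apply_eq_iff.1 hv
        have e2 : (g : G) • v.val • a = v.val • a := by
          rw [← mul_smul, e, mul_smul, show (g : G) • a = a from g.2.2]
        exact GT.EAV.val_eq_one_iff.1 (hbot _ v.val_mem (h.one g hg _ _ e2 g.2.2)))
      (x := ⟨u, hu⟩) (fun e => hu1 (congrArg Subtype.val e)) (v := GT.EAV.mk hE x hx)
      (fun e => hx1 (GT.EAV.val_eq_one_iff.2 e)) (GT.eaRep_apply_eq_iff.2 hux)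
    rw [GT.EAV.card_eq, Fix.card_eq hP a, ← relIndex, relIndex_eq_index hH] at this
    omega
  exact hP.cen_le P fun g hg x hx hx1 hgx => by
    obtain ⟨y, hy, e⟩ := hP.trans a (g • a)
    have := hfree (y⁻¹ * g) ⟨Y.mul_mem (Y.inv_mem (le_normalizer hy)) hg, by
      change (y⁻¹ * g) • a = a
      rw [mul_smul, ← e, inv_smul_smul]⟩ x hx hx1 (by
      rw [mul_assoc, hgx, ← mul_assoc, hP.comm _ (inv_mem hy) x hx, mul_assoc])
    rw [← inv_mul_eq_one.1 this]
    exact hy

omit [Finite G] in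
/-- Prime degree. -/
theorem solv (h : Ex Ω D) (hp : (Nat.card Ω).Prime) (h1 : D ≠ ⊤) : Group.IsSolvable D := by
  classical
  have := Fintype.ofFinite Ω
  have : IsPretransitive (toPermHom D Ω).range Ω := ⟨fun a b =>
    let ⟨d, hd, e⟩ := h.trans a b
    ⟨⟨_, ⟨d, hd⟩, rfl⟩, e⟩⟩
  rcases S0675.result (Nat.card_eq_fintype_card (α := Ω) ▸ hp) (toPermHom D Ω).range with k | k
  · exact Group.isSolvable_of_isSolvable_injective (f := (toPermHom D Ω).rangeRestrict) fun x y e =>
      toPerm_injective (α := D) (β := Ω) (congrArg Subtype.val e)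
  exfalso
  obtain ⟨g, hg⟩ : ∃ g, g ∉ D := by
    by_contra! hn
    exact h1 (eq_top_iff.2 fun g _ => hn g)
  have := Finite.one_lt_card_iff_nontrivial.1 hp.one_lt
  obtain ⟨a, b, hab⟩ := exists_pair_ne Ω
  obtain ⟨⟨_, d, rfl⟩, e1, e2⟩ := is_two_pretransitive_iff.1 k hab
    (show g • a ≠ g • b from fun e => hab (smul_left_cancel g e))
  refine hab (h.one ((d : G)⁻¹ * g) (fun e => hg ((mul_mem_cancel_left (inv_mem d.2)).1 e)) a b ?_ ?_)
  · rw [mul_smul, inv_smul_eq_iff]; exact e1.symm
  · rw [mul_smul, inv_smul_eq_iff]; exact e2.symm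

theorem main (h : Ex Ω D) (hn : Nat.card Ω < (D.index + 1) ^ 2) (hΩ : 2 ≤ Nat.card Ω)
    (hna : ∀ N : Subgroup G, N.Normal → IsMulCommutative ↥N → N = ⊥) : False := by
  have hD := h.normal
  obtain ⟨p, hp, hd⟩ := Nat.exists_prime_and_dvd (show Nat.card Ω ≠ 1 by omega)
  have := Fact.mk hp
  obtain ⟨c, hc⟩ := h.card_eq_pow hn (by omega) hd
  obtain ⟨c, rfl⟩ : ∃ c', c = c' + 1 := ⟨c - 1, by
    rcases c with _ | c
    · rw [pow_zero] at hc
      omega
    · omega⟩
  obtain ⟨P⟩ : Nonempty (Sylow p G) := inferInstance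
  obtain ⟨hPD, hE, hP, hF⟩ := h.reg hn hc P
  have hne : Nonempty Ω := (Nat.card_pos_iff.1 (by omega)).1
  obtain ⟨a⟩ := id hne
  have hcP := Fix.card_eq hP a
  have hP1 : (P : Subgroup G) ≠ ⊥ := fun e => by
    rw [e, card_bot] at hcP
    omega
  have hPn : ¬ (P : Subgroup G).Normal := fun k =>
    hP1 (hna _ k ⟨⟨fun x y => Subtype.ext (hP.comm _ x.2 _ y.2)⟩⟩)
  by_cases h3 : 3 ≤ D.index
  · have := h.nonaff hPD hP hF (cen h hn P hPD hE hP hF a) hPn h3
    omega
  have h0 : D.index ≠ 0 := index_ne_zero_of_finite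
  by_cases h2 : D.index = 2
  · have h4 := h.dvd_card
    rw [h2] at h4 hn
    have h5 : (Nat.card Ω).Prime := by
      generalize Nat.card Ω = n at *
      interval_cases n <;> first | omega | norm_num
    obtain ⟨q, -, A, -, k1, k2, k3, -⟩ := GT.HT.exists_normal_comm_pGroup_le D
      (solv h h5 fun e => by rw [e, index_top] at h2; omega) fun e => hP1 (eq_bot_iff.2 (e ▸ hPD))
    exact k2 (hna A k1 k3)
  · classical
    have := Fintype.ofFinite Ω
    have h4 : Nat.card G ≤ (Nat.card Ω).factorial := by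
      rw [Nat.card_eq_fintype_card (α := Ω), ← Fintype.card_perm, ← Nat.card_eq_fintype_card]
      exact Nat.card_le_card_of_injective _ (toPerm_injective (α := G) (β := Ω))
    have h5 := (P : Subgroup G).card_mul_index
    have h6 : (P : Subgroup G).index ≠ 0 := index_ne_zero_of_finite
    have h7 : (P : Subgroup G).index ≠ 1 := fun e => hPn (index_eq_one.1 e ▸ normal_top)
    have h8 : (P : Subgroup G).index ≠ 2 := fun e => hPn (normal_of_index_eq_two e)
    rw [show D.index = 1 by omega] at hn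
    rw [hcP] at h5
    generalize Nat.card Ω = n at *
    interval_cases n <;> simp only [Nat.factorial] at h4 <;> omega

end

/-- Let G act faithfully and primitively on a finite set with n ≥ 2 points and suppose G has no non-trivial abelian normal subgroup (G is not of affine type). Let D be the subgroup generated by the derangements. Then the index of D in G is at most √n − 1. -/
theorem result {G Ω : Type*} [Group G] [Finite G] [MulAction G Ω] [FaithfulSMul G Ω] [Finite Ω]
    (hprim : MulAction.IsPreprimitive G Ω) (hΩ : 2 ≤ Nat.card Ω) (hna : ∀ N : Subgroup G, N.Normal → IsMulCommutative ↥N → N = ⊥) :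
    ((Subgroup.closure {g : G | ∀ ω : Ω, g • ω ≠ ω}).index : ℝ) ≤ Real.sqrt (Nat.card Ω) - 1 := by
  have := hprim.toIsPretransitive
  rw [le_sub_iff_add_le]
  refine Real.le_sqrt_of_sq_le ?_
  exact_mod_cast not_lt.1 fun hm => main (ex_closure (G := G) (Ω := Ω)) hm hΩ hna

end Cfsg.Agent.S3550
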