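import Mathlib
import Cfsg.Agent.Perm.BGroupCyclic
import Cfsg.Statements.S3559

set_option autoImplicit false
open Cfsg

namespace Cfsg.Agent.S3559

/-- Let G act faithfully and transitively on a finite set whose number of points n ≥ 2 is not a prime power, and suppose G has a cyclic subgroup acting regularly (transitively with trivial point stabilizers). Then G is imprimitive or doubly transitive. -/
theorem result {G Ω : Type*} [Group G] [Finite G] [MulAction G Ω] [FaithfulSMul G Ω] [Finite Ω]
    (htrans : MulAction.IsPretransitive G Ω) (hn : 2 ≤ Nat.card Ω) (hnp : ¬ IsPrimePow (Nat.card Ω))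
    (C : Subgroup G) (hcyc : IsCyclic ↥C) (hC : MulAction.IsPretransitive ↥C Ω ∧ ∀ a : Ω, MulAction.stabilizer ↥C a = ⊥) :
    ¬ MulAction.IsPreprimitive G Ω ∨ MulAction.IsMultiplyPretransitive G Ω 2 := by
  rw [or_iff_not_imp_left, not_not]
  intro hG
  haveI : Nonempty Ω := (Nat.card_pos_iff.1 (by omega)).1
  obtain ⟨a⟩ := ‹Nonempty Ω›
  haveI := hC.1
  have hp := Nat.minFac_prime (show Nat.card Ω ≠ 1 by omega)
  exact Perm.two_pretransitive_of_regular_cyclic hG C a (hC.2 a) hp (Nat.minFac_dvd _)
    fun e => hnp (e ▸ hp.isPrimePow)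

end Cfsg.Agent.S3559
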