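import Mathlib
import Cfsg.Agent.Perm.Basic
import Cfsg.Statements.S3560

set_option autoImplicit false
open Cfsg

namespace Cfsg.Agent.S3560

/-- two words differ in at most one place -/
def Adj {ι A : Type*} (x y : ι → A) : Prop := ∃ i, ∀ j, j ≠ i → x j = y j

/-- the automorphism group of the Hamming graph, transported along `φ` -/
def hamming {ι A Y : Type*} (φ : Y ≃ (ι → A)) : Subgroup (Equiv.Perm Y) where
  carrier := {σ | ∀ x y, Adj (φ x) (φ y) ↔ Adj (φ (σ x)) (φ (σ y))}
  one_mem' := fun _ _ => Iff.rfl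
  mul_mem' := fun {a b} ha hb x y => (hb x y).trans (ha (b x) (b y))
  inv_mem' := fun {a} ha x y => by
    have := ha (a⁻¹ x) (a⁻¹ y)
    simpa using this.symm

/-- the wreath product elements -/
def wr {ι A Y : Type*} (φ : Y ≃ (ι → A)) (π : Equiv.Perm ι) (τ : ι → Equiv.Perm A) :
    Equiv.Perm Y :=
  φ.trans (((Equiv.arrowCongr π.symm (Equiv.refl A)).trans (Equiv.piCongrRight τ)).trans φ.symm)

theorem wr_apply {ι A Y : Type*} (φ : Y ≃ (ι → A)) (π : Equiv.Perm ι) (τ : ι → Equiv.Perm A)
    (y : Y) (i : ι) : φ (wr φ π τ y) i = τ i (φ y (π i)) := by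
  simp [wr]

theorem wr_mem {ι A Y : Type*} (φ : Y ≃ (ι → A)) (π : Equiv.Perm ι) (τ : ι → Equiv.Perm A) :
    wr φ π τ ∈ hamming φ := by
  intro x y
  constructor
  · rintro ⟨i, hi⟩
    refine ⟨π.symm i, fun j hj => ?_⟩
    rw [wr_apply, wr_apply, hi]
    intro h
    apply hj
    rw [← h]; simp
  · rintro ⟨i, hi⟩
    refine ⟨π i, fun j hj => ?_⟩
    have := hi (π.symm j) (fun h => hj (by rw [← h]; simp))
    rw [wr_apply, wr_apply] at this
    simpa using this

theorem exists_perm_two {A : Type*} {a b c d : A} (hab : a ≠ b) (hcd : c ≠ d) :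
    ∃ σ : Equiv.Perm A, σ a = c ∧ σ b = d :=
  Perm.exists_smul_eq_two (Equiv.Perm.isMultiplyPretransitive A 2) hab hcd

theorem hamming_primitive {ι A Y : Type*} [Fintype ι] [Fintype A] (hA : 3 ≤ Fintype.card A)
    (φ : Y ≃ (ι → A)) : MulAction.IsPreprimitive (hamming φ) Y := by
  classical
  haveI : MulAction.IsPretransitive (hamming φ) Y := ⟨fun x y =>
    ⟨⟨wr φ 1 fun i => Equiv.swap (φ x i) (φ y i), wr_mem _ _ _⟩, φ.injective (funext fun i => by
      change φ (wr φ 1 _ x) i = _
      rw [wr_apply]; simp)⟩⟩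
  refine ⟨fun {B} hB => ?_⟩
  rcases B.subsingleton_or_nontrivial with h | ⟨x, hx, y, hy, hxy⟩
  · exact Or.inl h
  right
  have hstab : ∀ (σ : Equiv.Perm Y), σ ∈ hamming φ → ∀ a ∈ B, σ a = a → ∀ b ∈ B, σ b ∈ B := by
    intro σ hσ a ha hσa b hb
    have := hB.smul_eq_of_mem (g := ⟨σ, hσ⟩) ha (by change σ a ∈ B; rwa [hσa])
    rw [← this]
    exact Set.smul_mem_smul_set hb
  -- one neighbour gives all neighbours
  have hnb : ∀ a ∈ B, ∀ i c, c ≠ φ a i → φ.symm (Function.update (φ a) i c) ∈ B →
      ∀ j d, φ.symm (Function.update (φ a) j d) ∈ B := by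
    intro a ha i c hc hb j d
    by_cases hd : d = φ a j
    · subst hd; simpa using ha
    obtain ⟨s, hs1, hs2⟩ := exists_perm_two hc hd
    let τ : ι → Equiv.Perm A := fun k =>
      if k = j then s else Equiv.swap (φ a (Equiv.swap i j k)) (φ a k)
    have h1 : wr φ (Equiv.swap i j) τ a = a := by
      apply φ.injective
      funext k
      rw [wr_apply]
      by_cases hk : k = j
      · subst hk; simp [τ, hs2]
      · simp [τ, hk]
    have h2 := hstab _ (wr_mem φ (Equiv.swap i j) τ) a ha h1 _ hb
    convert h2 using 1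
    apply φ.injective
    funext k
    rw [wr_apply]
    by_cases hk : k = j
    · subst hk; simp [τ, hs1]
    · have : Equiv.swap i j k ≠ i := by
        intro h
        apply hk
        rw [← Equiv.swap_apply_right i j] at h
        have h' : Equiv.swap i j k = Equiv.swap i j j := by
          rw [Equiv.swap_apply_right]
          rw [Equiv.swap_apply_right] at h
          exact h
        exact (Equiv.swap i j).injective h'
      simp [τ, hk, Function.update_of_ne this]
  obtain ⟨i, hi⟩ : ∃ i, φ x i ≠ φ y i := Function.ne_iff.1 (φ.injective.ne hxy)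
  obtain ⟨c, hc⟩ : ∃ c, c ∉ ({φ x i, φ y i} : Finset A) := by
    by_contra h
    push Not at h
    have h1 : ({φ x i, φ y i} : Finset A) = Finset.univ := Finset.eq_univ_iff_forall.2 h
    have h2 : ({φ x i, φ y i} : Finset A).card ≤ 2 := Finset.card_le_two
    rw [h1, Finset.card_univ] at h2
    omega
  simp only [Finset.mem_insert, Finset.mem_singleton, not_or] at hc
  have hy1 : φ.symm (Function.update (φ y) i c) ∈ B := by
    let τ : ι → Equiv.Perm A := fun k => if k = i then Equiv.swap (φ y i) c else 1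
    have h1 : wr φ 1 τ x = x := by
      apply φ.injective
      funext k
      rw [wr_apply]
      by_cases hk : k = i
      · subst hk; simp [τ, Equiv.swap_apply_of_ne_of_ne hi (Ne.symm hc.1)]
      · simp [τ, hk]
    have h2 := hstab _ (wr_mem φ 1 τ) x hx h1 _ hy
    convert h2 using 1
    apply φ.injective
    funext k
    rw [wr_apply]
    by_cases hk : k = i
    · subst hk; simp [τ]
    · simp [τ, hk]
  let P : (ι → A) → Prop := fun u => φ.symm u ∈ B ∧ ∀ j d, φ.symm (Function.update u j d) ∈ B
  have hPy : P (φ y) := ⟨by simpa using hy, hnb y hy i c hc.2 hy1⟩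
  have hstep : ∀ u j d, P u → P (Function.update u j d) := by
    intro u j d hu
    by_cases hd : d = u j
    · subst hd; simpa using hu
    refine ⟨hu.2 j d, ?_⟩
    have := hnb _ (hu.2 j d) j (u j) (by simpa using Ne.symm hd) (by simpa using hu.1)
    simpa using this
  have hall : ∀ (s : Finset ι) (u : ι → A), P (s.piecewise u (φ y)) := by
    intro s u
    induction s using Finset.induction_on with
    | empty => simpa using hPy
    | insert j s hj ih => rw [Finset.piecewise_insert]; exact hstep _ _ _ ih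
  rw [Set.eq_univ_iff_forall]
  intro z
  simpa using (hall Finset.univ (φ z)).1

theorem hamming_not_two {ι A Y : Type*} [Fintype ι] [Fintype A] (hι : 2 ≤ Fintype.card ι)
    (hA : 3 ≤ Fintype.card A) (φ : Y ≃ (ι → A)) :
    ¬ MulAction.IsMultiplyPretransitive (hamming φ) Y 2 := by
  classical
  intro h
  haveI : Nontrivial A := Fintype.one_lt_card_iff_nontrivial.1 (by omega)
  haveI : Nontrivial ι := Fintype.one_lt_card_iff_nontrivial.1 (by omega)
  obtain ⟨a, b, hab⟩ := exists_pair_ne A
  obtain ⟨i, j, hij⟩ := exists_pair_ne ι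
  obtain ⟨g, h1, h2⟩ := Perm.exists_smul_eq_two h
    (a := φ.symm fun _ => a) (b := φ.symm (Function.update (fun _ => a) i b))
    (c := φ.symm fun _ => a) (d := φ.symm fun _ => b)
    (φ.symm.injective.ne fun e => hab (by simpa using congrFun e i))
    (φ.symm.injective.ne fun e => hab (by simpa using congrFun e i))
  have h3 := (g.2 (φ.symm fun _ => a) (φ.symm (Function.update (fun _ => a) i b))).1
    ⟨i, fun k hk => by simp [hk]⟩
  have h1' : g.1 (φ.symm fun _ => a) = φ.symm fun _ => a := h1
  have h2' : g.1 (φ.symm (Function.update (fun _ => a) i b)) = φ.symm fun _ => b := h2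
  rw [h1', h2'] at h3
  obtain ⟨k, hk⟩ := h3
  obtain ⟨l, hl⟩ := exists_ne k
  exact hab (by simpa using hk l hl)


/-- Let K be a finite group isomorphic to a direct product of r ≥ 2 groups all of the same order m ≥ 3. Then K is not a B-group: there is a primitive but not doubly transitive permutation group (on some finite set) containing a regular subgroup isomorphic to K. -/
theorem result {K : Type*} [Group K] [Finite K] {ι : Type*} [Fintype ι] (F : ι → Type*) [∀ i, Group (F i)]
    (hr : 2 ≤ Fintype.card ι) (m : ℕ) (hm : 3 ≤ m) (hcard : ∀ i, Nat.card (F i) = m) (e : K ≃* (∀ i, F i)) :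
    ∃ (n : ℕ) (G R : Subgroup (Equiv.Perm (Fin n))), R ≤ G ∧ Nonempty (↥R ≃* K) ∧
      MulAction.IsPretransitive ↥R (Fin n) ∧ (∀ a : Fin n, MulAction.stabilizer ↥R a = ⊥) ∧
      MulAction.IsPreprimitive ↥G (Fin n) ∧ ¬ MulAction.IsMultiplyPretransitive ↥G (Fin n) 2 := by
  classical
  haveI : ∀ i, Finite (F i) := fun i => Nat.finite_of_card_ne_zero (by rw [hcard]; omega)
  let ψ : ∀ i, F i ≃ Fin m := fun i => Finite.equivFinOfCardEq (hcard i)
  let n := Nat.card K
  let ε : Fin n ≃ K := (Finite.equivFin K).symm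
  let φ : Fin n ≃ (ι → Fin m) := (ε.trans e.toEquiv).trans (Equiv.piCongrRight ψ)
  let ρ : K →* Equiv.Perm (Fin n) :=
    (ε.symm.permCongrHom.toMonoidHom).comp (MulAction.toPermHom K K)
  have hρ : ∀ k x, ε (ρ k x) = k * ε x := fun k x => by simp [ρ]
  have hinj : Function.Injective ρ := by
    intro k l hkl
    have := hρ k (ε.symm 1)
    rw [hkl, hρ] at this
    simpa using this.symm
  refine ⟨n, hamming φ, ρ.range, ?_, ⟨(MonoidHom.ofInjective hinj).symm⟩, ⟨fun x y => ?_⟩,
    fun a => ?_, hamming_primitive (by simpa using hm) φ,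
    hamming_not_two hr (by simpa using hm) φ⟩
  · rintro _ ⟨k, rfl⟩
    have : ρ k = wr φ 1 fun i => (ψ i).permCongr (Equiv.mulLeft (e k i)) := by
      ext1 x
      apply φ.injective
      funext i
      rw [wr_apply]
      simp [φ, hρ]
    rw [this]
    exact wr_mem _ _ _
  · refine ⟨⟨ρ (ε y * (ε x)⁻¹), _, rfl⟩, ε.injective ?_⟩
    change ε (ρ _ x) = _
    rw [hρ]; simp
  · rw [eq_bot_iff]
    rintro ⟨_, k, rfl⟩ hk
    have h1 : ρ k a = a := hk
    have := hρ k a
    rw [h1] at this
    have hk1 : k = 1 := by simpa using this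
    subst hk1
    simp [Subgroup.mem_bot, Subtype.ext_iff]

end Cfsg.Agent.S3560
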