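import Cfsg.Statements.S3571
import Cfsg.Agent.Sym.ChoosePrime
import Cfsg.Agent.Sym.PrimeCycle
import Cfsg.Agent.Sym.Aut
import Cfsg.Agent.Sym.Order
import Cfsg.Agent.Perm.PrimeOrd
import Cfsg.Agent.S3420

set_option autoImplicit false
open Cfsg

namespace Cfsg.Agent.S3571

open Subgroup Equiv Equiv.Perm MulAction Cfsg.Agent.Sym Cfsg.Agent.Perm
open scoped Pointwise

theorem exists_cycles {m p c : ℕ} (hp : p.Prime) (hc : 0 < c) (h : p * c ≤ m)
    (he : Even (p * c + c)) : ∃ σ ∈ alternatingGroup (Fin m),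
      σ.cycleType = Multiset.replicate c p ∧ orderOf σ = p := by
  obtain ⟨σ, hσ⟩ := (Equiv.Perm.exists_with_cycleType_iff (Fin m)
    (m := Multiset.replicate c p)).2 ⟨by simpa [mul_comm] using h, fun a ha => by
      rw [Multiset.eq_of_mem_replicate ha]; exact hp.two_le⟩
  refine ⟨σ, mem_alternatingGroup_iff_even.2 (by simpa [hσ, mul_comm] using he), hσ, ?_⟩
  have := Fact.mk hp
  refine orderOf_eq_prime (pow_prime_eq_one_iff.2 fun a ha =>
    Multiset.eq_of_mem_replicate (hσ ▸ ha)) ?_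
  rintro rfl
  rw [cycleType_one] at hσ
  have := congrArg Multiset.card hσ
  simp at this
  omega

theorem core {m r : ℕ} (hm : 5 ≤ m) (K : Subgroup (Perm (Fin m)))
    (hK : ¬ alternatingGroup (Fin m) ≤ K) (hr : r.Prime) (h2r : 2 * r ≤ m)
    (H : ∀ p : ℕ, p.Prime → r ≤ p → ∀ σ ∈ alternatingGroup (Fin m), orderOf σ = p →
      ∃ τ ∈ K, IsConj σ τ) :
    ∃ Γ : Finset (Fin m), Γ.Nonempty ∧ 2 * Γ.card < m ∧
      ∀ σ ∈ normalizer (K : Set (Perm (Fin m))), σ • Γ = Γ := by
  classical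
  have cyc : ∀ p : ℕ, p.Prime → r ≤ p → p ≠ 2 → p ≤ m →
      ∃ τ ∈ K, τ.IsCycle ∧ τ.support.card = p ∧ orderOf τ = p := by
    intro p hp h1 h2 h3
    obtain ⟨σ, h4, h5, h6⟩ := exists_cycles (m := m) (c := 1) hp one_pos (by omega)
      (by rw [mul_one]; exact (hp.odd_of_ne_two h2).add_one)
    obtain ⟨τ, h7, h8⟩ := H p hp h1 σ h4 h6
    have h9 : τ.cycleType = {p} := by rw [← isConj_iff_cycleType_eq.1 h8, h5]; rfl
    refine ⟨τ, h7, card_cycleType_eq_one.1 (by rw [h9]; rfl), ?_, ?_⟩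
    · rw [← sum_cycleType, h9]; simp
    · rw [← lcm_cycleType, h9]; simp
  have orb : ∀ p : ℕ, p.Prime → m < 2 * p → p ≤ m → ∃ x : Fin m, p ≤ (orbit K x).ncard := by
    intro p hp h1 h2
    obtain ⟨τ, h3, h4, -, h6⟩ := cyc p hp (by omega) (by omega) h2
    obtain ⟨x, hx, -⟩ := h4
    exact ⟨x, h6 ▸ le_ncard_orbit_of_orderOf_prime h3 (h6 ▸ hp) hx⟩
  have big : ∀ x y : Fin m, m < 2 * (orbit K x).ncard → m < 2 * (orbit K y).ncard →
      orbit K x = orbit K y := by
    intro x y h1 h2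
    by_contra h
    have h3 : Disjoint (orbit K x) (orbit K y) :=
      (orbit.eq_or_disjoint x y).resolve_left h
    have h4 := Set.ncard_le_card (orbit K x ∪ orbit K y)
    rw [Set.ncard_union_eq h3, Nat.card_eq_fintype_card, Fintype.card_fin] at h4
    omega
  obtain ⟨p, hp, hp1, hp2⟩ := Nat.exists_prime_lt_and_le_two_mul (m / 2) (by omega)
  obtain ⟨x, hx⟩ := orb p hp (by omega) (by omega)
  have hc : (orbit K x)ᶜ.toFinset.card + (orbit K x).ncard = m := by
    rw [← Set.ncard_eq_toFinset_card', add_comm, Set.ncard_add_ncard_compl,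
      Nat.card_eq_fintype_card, Fintype.card_fin]
  refine ⟨(orbit K x)ᶜ.toFinset, ?_, by omega, fun σ hσ => ?_⟩
  · by_contra hne
    have h1 : orbit K x = Set.univ := by simpa using hne
    have : IsPretransitive K (Fin m) := (isPretransitive_iff_orbit_eq_univ x).2 h1
    obtain ⟨τ, h3, h4, h5, -⟩ := cyc p hp (by omega) (by omega) (by omega)
    have hpr : IsPreprimitive K (Fin m) :=
      isPreprimitive_of_isCycle h3 h4 (h5 ▸ hp) (by rw [Fintype.card_fin]; omega)
    by_cases h3r : r ≤ 3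
    · obtain ⟨ρ, h6, h7, h8, -⟩ := cyc 3 Nat.prime_three h3r (by omega) (by omega)
      exact hK (alternatingGroup_le_of_isPreprimitive_of_isThreeCycle_mem hpr
        (card_support_eq_three_iff.1 h8) h6)
    · obtain ⟨ρ, h6, h7, h8, -⟩ := cyc r hr le_rfl (by omega) (by omega)
      exact hK (alt_le_of_prime_cycle hpr hr (by rw [Fintype.card_fin]; omega) h7 h8 h6)
  · have h1 : σ • orbit K x = orbit K (σ • x) := normalizer_smul_orbit hσ x
    have h2 : orbit K (σ • x) = orbit K x :=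
      big _ _ (by rw [← h1, Set.ncard_smul_set]; omega) (by omega)
    apply Finset.coe_injective
    rw [Finset.coe_smul_finset, Set.coe_toFinset, Set.smul_set_compl, h1, h2]

theorem mod_le {m r : ℕ} (hr : r.Prime) {σ τ : Perm (Fin m)} (hc : IsConj σ τ)
    (hσ : σ.cycleType = Multiset.replicate (m / r) r) (ho : orderOf σ = r) {Γ : Finset (Fin m)}
    (hΓ : τ • Γ = Γ) : Γ.card % r ≤ m % r := by
  have h1 : τ ^ r = 1 := by
    rw [← orderOf_dvd_iff_pow_eq_one, ← lcm_cycleType, ← isConj_iff_cycleType_eq.1 hc,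
      lcm_cycleType, ho]
  obtain ⟨c, h2⟩ := PrimeOrd.exists_filter_add hr h1 (· ∈ Γ) fun x => by
    conv_lhs => rw [← hΓ]
    exact Finset.smul_mem_smul_finset_iff τ
  have h3 := PrimeOrd.nfix_add_support τ
  rw [← sum_cycleType, ← isConj_iff_cycleType_eq.1 hc, hσ, Multiset.sum_replicate,
    Fintype.card_fin, smul_eq_mul] at h3
  have h4 : (Finset.univ.filter fun x => x ∈ Γ ∧ τ x = x).card ≤ PrimeOrd.nfix τ :=
    Finset.card_le_card fun x hx => by simp_all
  have h5 := Nat.div_add_mod' m r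
  rw [Finset.filter_mem_eq_inter, Finset.univ_inter] at h2
  rw [← h2, Nat.add_mul_mod_self_left]
  exact (Nat.mod_le _ _).trans (by omega)

/-- Let G be an almost simple group whose socle is an alternating group of degree m ≥ 5 (G has a normal subgroup T isomorphic to that alternating group with trivial centralizer), acting faithfully and primitively on a finite set Ω with at least two points, and let r be the largest prime divisor of the number of points. Then G contains an element of order r fixing no point. -/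
theorem result {G Ω : Type*} [Group G] [Finite G] [MulAction G Ω] [FaithfulSMul G Ω] [Finite Ω]
    (T : Subgroup G) (hT : T.Normal) (hTc : Subgroup.centralizer (T : Set G) = ⊥) (m : ℕ) (hm : 5 ≤ m)
    (eT : ↥T ≃* ↥(alternatingGroup (Fin m))) (hprim : MulAction.IsPreprimitive G Ω) (hΩ : 2 ≤ Nat.card Ω)
    (r : ℕ) (hr : r.Prime) (hrd : r ∣ Nat.card Ω) (hmax : ∀ s : ℕ, s.Prime → s ∣ Nat.card Ω → s ≤ r) :
    ∃ g : G, orderOf g = r ∧ ∀ ω : Ω, g • ω ≠ ω := by
  classical
  by_contra hno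
  push Not at hno
  have : Nontrivial Ω := Finite.one_lt_card_iff_nontrivial.1 hΩ
  have := Fact.mk hr
  obtain ⟨a⟩ : Nonempty Ω := inferInstance
  have hnt : Nontrivial (alternatingGroup (Fin m)) :=
    alternatingGroup.nontrivial_of_three_le_card (by simp; omega)
  have hT1 : T ≠ ⊥ := (T.nontrivial_iff_ne_bot).1 (eT.symm.injective.nontrivial)
  have htr : IsPretransitive T Ω := by
    refine (IsQuasiPreprimitive.isPretransitive_of_normal (N := T) fun h => hT1 ?_)
    rw [eq_bot_iff]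
    intro g hg
    refine mem_bot.2 (FaithfulSMul.eq_of_smul_eq_smul (α := Ω) fun x => ?_)
    rw [one_smul]
    exact (h ▸ Set.mem_univ x : x ∈ fixedPoints T Ω) ⟨g, hg⟩
  let φ : T →* Perm (Fin m) := (alternatingGroup (Fin m)).subtype.comp eT.toMonoidHom
  have hφ : Function.Injective φ := Subtype.val_injective.comp eT.injective
  have hφA : ∀ t, φ t ∈ alternatingGroup (Fin m) := fun t => (eT t).2
  have hφs : ∀ σ ∈ alternatingGroup (Fin m), ∃ t, φ t = σ := fun σ hσ =>
    ⟨eT.symm ⟨σ, hσ⟩, congrArg Subtype.val (eT.apply_symm_apply _)⟩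
  set K := (stabilizer T a).map φ with hKdef
  have hidx : (stabilizer T a).index = Nat.card Ω := index_stabilizer_of_transitive T a
  have hK : ¬ alternatingGroup (Fin m) ≤ K := fun h => by
    have h1 : stabilizer T a = ⊤ := eq_top_iff.2 fun t _ => by
      obtain ⟨s, hs, h2⟩ := h (hφA t)
      exact hφ h2 ▸ hs
    rw [h1, index_top] at hidx
    omega
  have H : ∀ p : ℕ, p.Prime → (p = r ∨ ¬ p ∣ Nat.card Ω) → ∀ σ ∈ alternatingGroup (Fin m),
      orderOf σ = p → ∃ τ ∈ K, IsConj σ τ := by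
    intro p hp h1 σ h2 h3
    obtain ⟨t, rfl⟩ := hφs σ h2
    rw [orderOf_injective φ hφ] at h3
    obtain ⟨b, hb⟩ : ∃ b : Ω, t • b = b := by
      rcases h1 with rfl | h1
      · exact hno t (by rw [Subgroup.orderOf_coe, h3])
      · have := Fact.mk hp
        have h4 : IsPGroup p (zpowers t) := IsPGroup.of_card (n := 1) (by
          rw [Nat.card_zpowers, h3, pow_one])
        obtain ⟨b, hb⟩ := h4.nonempty_fixed_point_of_prime_not_dvd_card Ω h1
        exact ⟨b, hb ⟨t, mem_zpowers t⟩⟩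
    obtain ⟨s, rfl⟩ := exists_smul_eq T a b
    refine ⟨φ (s⁻¹ * t * s), ⟨_, ?_, rfl⟩, isConj_iff.2 ⟨φ s⁻¹, by simp⟩⟩
    rw [SetLike.mem_coe, mem_stabilizer_iff, mul_smul, mul_smul, hb, inv_smul_smul]
  have H' : ∀ p : ℕ, p.Prime → r ≤ p → ∀ σ ∈ alternatingGroup (Fin m),
      orderOf σ = p → ∃ τ ∈ K, IsConj σ τ := fun p hp h => H p hp (by
    by_contra hc
    push Not at hc
    exact hc.1 (le_antisymm (hmax p hp hc.2) h))
  have hcT : Nat.card T = Nat.card (alternatingGroup (Fin m)) := Nat.card_congr eT.toEquiv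
  have h2r : 2 * r ≤ m := by
    by_contra hc
    have h1 : r ∣ Nat.card (alternatingGroup (Fin m)) :=
      hcT ▸ (hidx ▸ hrd).trans (index_dvd_card _)
    obtain ⟨σ, hσ⟩ := exists_prime_orderOf_dvd_card' r h1
    obtain ⟨τ, ⟨t, ht, rfl⟩, h2⟩ := H' r hr le_rfl σ σ.2 (by rw [Subgroup.orderOf_coe, hσ])
    have h3 : orderOf t = r := by
      rw [← orderOf_injective φ hφ, ← lcm_cycleType, ← isConj_iff_cycleType_eq.1 h2,
        lcm_cycleType, Subgroup.orderOf_coe, hσ]
    refine S3420.not_pow_dvd_alt (k := 2) hr (show 2 ≤ m by omega) (by nlinarith) (by omega) ?_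
    rw [← hcT, ← (stabilizer T a).card_mul_index, sq]
    exact mul_dvd_mul (h3 ▸ orderOf_dvd_natCard _ ht) (hidx ▸ hrd)
  obtain ⟨Γ, hΓ1, hΓ2, hΓ4⟩ := core hm K hK hr h2r H'
  have hΓ0 := hΓ1.card_pos
  by_cases h6 : m = 6
  · subst h6
    obtain ⟨σ, h1, h2, h3⟩ := exists_cycles (m := 6) (c := 6 / 3) Nat.prime_three (by norm_num)
      (by norm_num) (by decide)
    obtain ⟨τ, h4, h5⟩ := H' 3 Nat.prime_three (by omega) σ h1 h3
    have h7 := mod_le Nat.prime_three h5 h2 h3 (hΓ4 τ (le_normalizer h4))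
    omega
  have hconj : ∀ g : G, ∃ σ : Perm (Fin m), ∀ t : T, φ (MulAut.conjNormal g t) = σ * φ t * σ⁻¹ := by
    intro g
    obtain ⟨σ, hσ⟩ := exists_conj_of_aut_alternating (α := Fin m) (by simp; omega) (by simpa)
      (eT.symm.trans ((MulAut.conjNormal g).trans eT))
    exact ⟨σ, fun t => by simpa [φ] using hσ (eT t)⟩
  let L : Subgroup G :=
    { carrier := {g | ∃ σ : Perm (Fin m), (∀ t : T, φ (MulAut.conjNormal g t) = σ * φ t * σ⁻¹) ∧
        σ • Γ = Γ}
      one_mem' := ⟨1, by simp, one_smul _ _⟩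
      mul_mem' := by
        rintro g h ⟨σ, h1, h2⟩ ⟨τ, h3, h4⟩
        refine ⟨σ * τ, fun t => ?_, by rw [mul_smul, h4, h2]⟩
        rw [map_mul, MulAut.mul_apply, h1, h3]
        group
      inv_mem' := by
        rintro g ⟨σ, h1, h2⟩
        refine ⟨σ⁻¹, fun t => ?_, by rw [inv_smul_eq_iff, h2]⟩
        have h3 := h1 (MulAut.conjNormal g⁻¹ t)
        rw [← MulAut.mul_apply, ← map_mul, mul_inv_cancel, map_one, MulAut.one_apply] at h3
        rw [h3]
        group }
  have hTL : ∀ t : T, (t : G) ∈ L ↔ φ t • Γ = Γ := by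
    intro t
    have h1 : ∀ s : T, φ (MulAut.conjNormal (t : G) s) = φ t * φ s * (φ t)⁻¹ := fun s => by
      rw [← map_inv, ← map_mul, ← map_mul]
      rfl
    refine ⟨?_, fun h => ⟨φ t, h1, h⟩⟩
    rintro ⟨σ, h2, h3⟩
    have h4 : σ⁻¹ * φ t = 1 := eq_one_of_commute_alternatingGroup (by simp; omega) fun x hx => by
      obtain ⟨s, rfl⟩ := hφs x hx
      have h5 := (h2 s).symm.trans (h1 s)
      calc φ s * (σ⁻¹ * φ t) = σ⁻¹ * (σ * φ s * σ⁻¹) * φ t := by group
        _ = _ := by rw [h5]; group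
    rw [← inv_mul_eq_one.1 h4, h3]
  have hle : stabilizer G a ≤ L := by
    intro g hg
    obtain ⟨σ, hσ⟩ := hconj g
    refine ⟨σ, hσ, hΓ4 σ (mem_normalizer_fintype ?_)⟩
    rintro _ ⟨t, ht, rfl⟩
    refine ⟨MulAut.conjNormal g t, ?_, hσ t⟩
    change (g * t * g⁻¹) • a = a
    rw [mul_smul, mul_smul, (inv_mem hg : g⁻¹ • a = a), show (t : G) • a = a from ht, hg]
  have hpt := Set.powersetCard.isPretransitive_alternatingGroup (α := Fin m) (n := Γ.card)
    (by simp; omega)
  have hi2 := index_stabilizer_of_transitive (alternatingGroup (Fin m))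
    (⟨Γ, rfl⟩ : Set.powersetCard (Fin m) Γ.card)
  rw [Set.powersetCard.card, Nat.card_eq_fintype_card, Fintype.card_fin] at hi2
  have hst : (stabilizer (alternatingGroup (Fin m))
      (⟨Γ, rfl⟩ : Set.powersetCard (Fin m) Γ.card)).comap eT.toMonoidHom = L.subgroupOf T := by
    ext t
    rw [mem_subgroupOf, hTL, mem_comap, mem_stabilizer_iff, Subtype.ext_iff]
    rfl
  have hi3 : (L.subgroupOf T).index = m.choose Γ.card := by
    rw [← hst, index_comap_of_surjective _ eT.surjective, hi2]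
  have hL : L = stabilizer G a := by
    by_contra h
    rw [(IsPreprimitive.isCoatom_stabilizer_of_isPreprimitive G a).2 L
      (lt_of_le_of_ne hle (Ne.symm h)), top_subgroupOf, index_top] at hi3
    have h1 := CP.choose_le_of_le (m := m) (show 1 ≤ Γ.card from hΓ0) hΓ2.le
    rw [Nat.choose_one_right] at h1
    omega
  have hn : Nat.card Ω = m.choose Γ.card := by
    rw [← hidx, ← hi3, hL]
    rfl
  rw [hn] at hrd hmax
  obtain ⟨h1, h2⟩ := CP.mod_lt_mod hr hm hΓ2.le hrd hmax
  obtain ⟨σ, h3, h4, h5⟩ := exists_cycles (m := m) (c := m / r) hr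
    (Nat.div_pos (by omega) hr.pos) (Nat.mul_div_le m r) (by
      rcases hr.eq_two_or_odd' with h | h
      · have := h2 h
        subst h
        exact Nat.even_iff.2 (by omega)
      · rw [← add_one_mul]
        exact h.add_one.mul_right _)
  obtain ⟨τ, h7, h8⟩ := H' r hr le_rfl σ h3 h5
  have := mod_le hr h8 h4 h5 (hΓ4 τ (le_normalizer h7))
  omega

end Cfsg.Agent.S3571
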