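import Mathlib
import Cfsg.Statements.S3573
import Cfsg.Agent.Perm.PrimeOrd
-- import your own Cfsg.Agent.* helpers here

set_option autoImplicit false
open Cfsg

namespace Cfsg.Agent.S3573

open Equiv Finset Cfsg.Agent.Perm.PrimeOrd

theorem key (n k r : ℕ) (hkn : k ≤ n) (hr : r.Prime) (hrn : r ≤ n) :
    (∀ σ : Perm (Fin n), orderOf σ = r → ∃ s : Finset (Fin n), s.card = k ∧ s.image σ = s) ↔
      k % r ≤ n % r := by
  constructor
  · intro h
    obtain ⟨σ, h1, h2⟩ := exists_perm (α := Fin n) hr (c := n / r)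
      (by rw [Fintype.card_fin]; exact Nat.mul_div_le n r)
    have h3 := Nat.mod_add_div n r
    have h4 := Nat.mod_lt n hr.pos
    rw [Fintype.card_fin] at h2
    obtain ⟨s, hs, hs'⟩ := h σ (orderOf_eq hr h1 (by rw [Fintype.card_fin]; omega))
    obtain ⟨c, hc⟩ := exists_filter_add hr h1 (· ∈ s) (fun x => by
      conv_lhs => rw [← hs']
      exact σ.injective.mem_finset_image)
    have h5 : (univ.filter fun x => x ∈ s ∧ σ x = x).card ≤ nfix σ :=
      card_le_card fun x hx => by simp_all
    rw [filter_univ_mem, hs] at hc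
    rw [← hc, Nat.add_mul_mod_self_left, Nat.mod_eq_of_lt (by omega)]
    omega
  · intro h σ hσ
    have h1 : σ ^ r = 1 := hσ ▸ pow_orderOf_eq_one σ
    obtain ⟨c, hc⟩ := exists_nfix_add hr h1
    rw [Fintype.card_fin] at hc
    obtain ⟨i, j, rfl, hi, hj⟩ : ∃ i j, c = i + j ∧ r * i ≤ k ∧ r * j ≤ n - k := by
      by_cases h2 : r * c ≤ k
      · exact ⟨c, 0, rfl, h2, by simp⟩
      · have h3 : k / r ≤ c := Nat.div_le_of_le_mul (by omega)
        obtain ⟨j, rfl⟩ := Nat.exists_eq_add_of_le h3
        refine ⟨_, j, rfl, Nat.mul_div_le k r, ?_⟩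
        have h4 := Nat.mod_add_div k r
        have h5 : n % r ≤ nfix σ := by
          rw [← congrArg (· % r) hc, Nat.add_mul_mod_self_left]; exact Nat.mod_le _ _
        rw [mul_add] at hc
        omega
    obtain ⟨τ₁, h2, h3⟩ := exists_perm (α := Fin k) hr (c := i) (by simpa using hi)
    obtain ⟨τ₂, h4, h5⟩ := exists_perm (α := Fin (n - k)) hr (c := j) (by simpa using hj)
    rw [Fintype.card_fin] at h3 h5
    obtain ⟨e, he⟩ := exists_equiv hr h1 (τ := Perm.sumCongr τ₁ τ₂) (by
      change Perm.sumCongrHom _ _ (τ₁, τ₂) ^ r = 1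
      rw [← map_pow, Prod.pow_mk, h2, h4]
      exact map_one _) (by simp; omega) (by
      have : nfix (Perm.sumCongr τ₁ τ₂) = nfix τ₁ + nfix τ₂ := by
        rw [nfix, nfix, nfix, card_filter, card_filter, card_filter, Fintype.sum_sum_type]
        simp only [Perm.sumCongr_apply, Sum.map_inl, Sum.map_inr, Sum.inl.injEq, Sum.inr.injEq]
      rw [mul_add] at hc
      omega)
    have hinj : Function.Injective fun x : Fin k => e (Sum.inl x) :=
      e.injective.comp Sum.inl_injective
    refine ⟨univ.image fun x => e (Sum.inl x), by rw [card_image_of_injective _ hinj]; simp, ?_⟩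
    rw [image_image]
    ext y
    simp only [mem_image, mem_univ, true_and, Function.comp, he, Perm.sumCongr_apply, Sum.map_inl]
    exact ⟨fun ⟨x, hx⟩ => ⟨_, hx⟩, fun ⟨x, hx⟩ => ⟨τ₁.symm x, by simpa using hx⟩⟩


/-- Let 1 ≤ k with 2k < n and consider the symmetric group of degree n acting on the k-subsets of an n-set. Let r be a prime dividing the number C(n,k) of k-subsets. If r is odd, then every permutation of order r fixes some k-subset if and only if r ≤ k and the remainder of k modulo r is at most the remainder of n modulo r. If r = 2, then every involution fixes some k-subset if and only if k is even or n is odd. -/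
theorem result (n k : ℕ) (hk : 1 ≤ k) (hkn : 2 * k < n) (r : ℕ) (hr : r.Prime) (hrd : r ∣ Nat.choose n k) :
    (r ≠ 2 → ((∀ σ : Equiv.Perm (Fin n), orderOf σ = r → ∃ s : Finset (Fin n), s.card = k ∧ s.image σ = s) ↔
      (r ≤ k ∧ k % r ≤ n % r))) ∧
    (r = 2 → ((∀ σ : Equiv.Perm (Fin n), orderOf σ = 2 → ∃ s : Finset (Fin n), s.card = k ∧ s.image σ = s) ↔
      (Even k ∨ Odd n))) := by
  have := Fact.mk hr
  have hrn : r ≤ n := by
    by_contra h
    exact hr.one_lt.ne' ((hr.coprime_choose_of_lt (not_le.mp h) (by omega)).eq_one_of_dvd hrd)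
  have h := key n k r (by omega) hr hrn
  refine ⟨fun _ => h.trans ⟨fun h1 => ⟨?_, h1⟩, fun h1 => h1.2⟩, ?_⟩
  · by_contra h2
    have h3 := Choose.choose_modEq_choose_mod_mul_choose_div_nat (n := n) (k := k) (p := r)
    rw [Nat.div_eq_of_lt (not_le.mp h2), Nat.choose_zero_right, mul_one] at h3
    exact hr.one_lt.ne' ((hr.coprime_choose_of_lt (Nat.mod_lt n hr.pos) h1).eq_one_of_dvd
      ((h3.dvd_iff dvd_rfl).mp hrd))
  · rintro rfl
    rw [h, Nat.even_iff, Nat.odd_iff]
    omega

end Cfsg.Agent.S3573
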