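import Mathlib
import Cfsg.Statements.S3575
import Cfsg.Agent.Perm.PrimeOrd
-- import your own Cfsg.Agent.* helpers here

set_option autoImplicit false
open Cfsg

namespace Cfsg.Agent.S3575

open Equiv Finset Cfsg.Agent.Perm.PrimeOrd

theorem exists_sum_eq {ι : Type*} [DecidableEq ι] (s : Finset ι) (q : ℕ) : ∀ M ≤ s.card * q,
    ∃ m : ι → ℕ, (∀ j, m j ≤ q) ∧ ∑ j ∈ s, m j = M := by
  induction s using Finset.induction_on with
  | empty => intro M hM; exact ⟨0, by simp, by simp at hM; simp [hM]⟩
  | insert x s hx ih =>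
    intro M hM
    rw [card_insert_of_notMem hx, add_mul, one_mul] at hM
    obtain ⟨m, h1, h2⟩ := ih (M - q) (by omega)
    refine ⟨Function.update m x (min M q), fun j => ?_, ?_⟩
    · by_cases h : j = x
      · subst h; simp
      · simp [h, h1]
    · rw [sum_insert hx, Function.update_self, sum_congr rfl fun j hj =>
        Function.update_of_ne (ne_of_mem_of_not_mem hj hx) _ _, h2]
      omega

theorem crit {a b r : ℕ} (ha : 0 < a) (hr : r.Prime) {σ : Perm (Fin (a * b))} (hσ : σ ^ r = 1)
    {c : ℕ} (hc : nfix σ + r * c = a * b) :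
    (∃ f : Fin (a * b) → Fin b, (∀ j : Fin b, Nat.card {x : Fin (a * b) // f x = j} = a) ∧
      ∃ π : Perm (Fin b), ∀ x : Fin (a * b), f (σ x) = π (f x)) ↔
    ∃ u v, r * u + v = b ∧ u * a ≤ c ∧ c ≤ u * a + v * (a / r) := by
  have hm := Nat.mod_add_div a r
  constructor
  · rintro ⟨f, hf, π, hπ⟩
    have hf' : ∀ j, (univ.filter fun x => f x = j).card = a := fun j => by
      rw [← Fintype.card_subtype, ← Nat.card_eq_fintype_card, hf j]
    have hpow : ∀ (k : ℕ) x, f ((σ ^ k) x) = (π ^ k) (f x) := by
      intro k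
      induction k with
      | zero => simp
      | succ k ih => intro x; rw [pow_succ', pow_succ', Perm.mul_apply, hπ, ih, Perm.mul_apply]
    have hπr : π ^ r = 1 := by
      ext1 j
      obtain ⟨x, hx⟩ := card_pos.mp ((hf' j).symm ▸ ha)
      rw [← (mem_filter.mp hx).2, ← hpow, hσ]; rfl
    obtain ⟨u, hu⟩ := exists_nfix_add hr hπr
    rw [Fintype.card_fin] at hu
    have h1 : nfix σ = ∑ j with π j = j, (univ.filter fun x => f x = j ∧ σ x = x).card := by
      rw [nfix, card_eq_sum_card_fiberwise (f := f) (t := univ.filter fun j => π j = j)]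
      · refine sum_congr rfl fun j _ => ?_
        rw [filter_filter]
        simp only [and_comm]
      · intro x hx
        have : σ x = x := by simpa using hx
        simp [← hπ, this]
    have h2 : ∀ j ∈ univ.filter fun j => π j = j,
        a % r ≤ (univ.filter fun x => f x = j ∧ σ x = x).card ∧
          (univ.filter fun x => f x = j ∧ σ x = x).card ≤ a := by
      intro j hj
      have hj : π j = j := by simpa using hj
      obtain ⟨d, hd⟩ := exists_filter_add hr hσ (fun x => f x = j) (fun x => by
        rw [hπ]; exact ⟨fun h => π.injective (h.trans hj.symm), fun h => by rw [h, hj]⟩)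
      rw [hf'] at hd
      refine ⟨?_, by omega⟩
      rw [← congrArg (· % r) hd, Nat.add_mul_mod_self_left]
      exact Nat.mod_le _ _
    have h3 := card_nsmul_le_sum _ _ _ fun j hj => (h2 j hj).1
    have h4 := sum_le_card_nsmul _ _ _ fun j hj => (h2 j hj).2
    rw [← h1, smul_eq_mul] at h3 h4
    change nfix π * _ ≤ _ at h3
    change _ ≤ nfix π * _ at h4
    have h5 : a * b = a * nfix π + r * (u * a) := by rw [← congrArg (a * ·) hu]; ring
    refine ⟨u, nfix π, by omega, Nat.le_of_mul_le_mul_left (by nlinarith) hr.pos,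
      Nat.le_of_mul_le_mul_left ?_ hr.pos⟩
    have h6 : a * nfix π = nfix π * (a % r) + r * (nfix π * (a / r)) := by
      rw [← congrArg (· * nfix π) hm]; ring
    rw [mul_add]
    omega
  · rintro ⟨u, v, h1, h2, h3⟩
    obtain ⟨π, hπ1, hπ2⟩ := exists_perm (α := Fin b) hr (c := u) (by rw [Fintype.card_fin]; omega)
    rw [Fintype.card_fin] at hπ2
    obtain ⟨m, hm1, hm2⟩ := exists_sum_eq (univ.filter fun j => π j = j) (a / r) (c - u * a) (by
      change _ ≤ nfix π * _
      rw [show nfix π = v by omega]; omega)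
    have h4 : ∀ j : Fin b, ∃ ρ : Perm (Fin a), ρ ^ r = 1 ∧ (π j = j → nfix ρ + r * m j = a) ∧
        (π j ≠ j → ρ = 1) := by
      intro j
      by_cases h : π j = j
      · obtain ⟨ρ, h5, h6⟩ := exists_perm (α := Fin a) hr (c := m j) (by
          rw [Fintype.card_fin]
          exact (Nat.mul_le_mul_left _ (hm1 j)).trans (Nat.mul_div_le a r))
        exact ⟨ρ, h5, fun _ => by simpa using h6, fun h' => (h' h).elim⟩
      · exact ⟨1, one_pow _, fun h' => (h h').elim, fun _ => rfl⟩
    choose ρ hρ1 hρ2 hρ3 using h4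
    let τ : Perm (Fin b × Fin a) := Equiv.prodShear π ρ
    have hτ : ∀ j y, τ (j, y) = (π j, ρ j y) := fun _ _ => rfl
    have hpow : ∀ (k : ℕ) j y, (τ ^ k) (j, y) = ((π ^ k) j, (ρ j ^ k) y) := by
      intro k
      induction k with
      | zero => simp
      | succ k ih =>
        intro j y
        rw [pow_succ, Perm.mul_apply, hτ, ih, pow_succ, pow_succ, Perm.mul_apply, Perm.mul_apply]
        by_cases h : π j = j
        · rw [h]
        · rw [hρ3 j h, hρ3 (π j) fun e => h (π.injective e)]
    have h5 : nfix τ = ∑ j with π j = j, nfix (ρ j) := by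
      simp only [nfix, card_filter, Fintype.sum_prod_type, hτ, Prod.mk.injEq, sum_filter]
      refine sum_congr rfl fun j _ => ?_
      by_cases h : π j = j <;> simp only [h, true_and, false_and, if_true, if_false, sum_const_zero]
    have h6 : ∑ j with π j = j, (nfix (ρ j) + r * m j) = nfix π * a := by
      rw [sum_congr rfl fun j hj => hρ2 j (by simpa using hj), sum_const, smul_eq_mul]; rfl
    rw [sum_add_distrib, ← mul_sum, hm2, ← h5] at h6
    obtain ⟨e, he⟩ := exists_equiv hr hσ (τ := τ)
      (by ext1 ⟨j, y⟩; rw [hpow, hπ1, hρ1]; rfl) (by simp [mul_comm]) (by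
        have h7 : a * b = nfix π * a + r * (u * a) := by rw [← congrArg (a * ·) hπ2]; ring
        have h8 : r * c = r * (c - u * a) + r * (u * a) := by
          rw [← mul_add, Nat.sub_add_cancel h2]
        omega)
    refine ⟨fun x => (e.symm x).1, fun j => ?_, π, fun x => ?_⟩
    · refine (Nat.card_congr ⟨fun x => (e.symm x.1).2, fun y => ⟨e (j, y), by simp⟩, ?_, ?_⟩).trans
        (Nat.card_fin a)
      · rintro ⟨x, rfl⟩; simp
      · intro y; simp
    · obtain ⟨⟨j, y⟩, rfl⟩ := e.surjective x
      simp [he, hτ]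

theorem arith {a b r : ℕ} (ha : 2 ≤ a) (hb : 2 ≤ b) (hr : 0 < r) (hrn : r ≤ a * b) :
    (∀ c, 0 < c → r * c ≤ a * b → ∃ u v, r * u + v = b ∧ u * a ≤ c ∧ c ≤ u * a + v * (a / r)) ↔
      (r ≤ a ∧ (a % r = 0 ∨ (b % r = 0 ∧ a % r = 1) ∨ (a % r ≠ 0 ∧ b % r ≠ 0 ∧
        (b % r) * (a % r) < r ∧ (b < r ∨ (b % r + r) * (a % r) ≤ (b % r) * a + r)))) := by
  have h1 := Nat.mod_add_div a r
  have h2 := Nat.mod_add_div b r
  have h3 := Nat.mod_lt a hr
  have h4 := Nat.mod_lt b hr
  have hra : r ≤ a ↔ 0 < a / r := (Nat.div_pos_iff.trans (and_iff_right hr)).symm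
  have hbr : b < r ↔ b / r = 0 := (Nat.div_eq_zero_iff.trans (or_iff_right hr.ne')).symm
  rw [hra, hbr]
  generalize a % r = l at *
  generalize a / r = q at *
  generalize b % r = k at *
  generalize b / r = t at *
  -- upper ends of the intervals
  have hU : ∀ u v, r * u + v = b → u * a + v * q = b * q + u * l := by
    intro u v h; rw [← h, ← h1]; ring
  have hut : ∀ u v, r * u + v = b → u ≤ t := by
    intro u v h
    by_contra hc
    have : r * (t + 1) ≤ r * u := Nat.mul_le_mul_left _ (by omega)
    rw [mul_add] at this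
    omega
  have hab : a * b = r * (b * q + t * l) + k * l := by rw [← h1, ← h2]; ring
  have hgap : ∀ s, t = s + 1 → ((k + r) * l ≤ k * a + r ↔ t * a ≤ b * q + s * l + 1) := by
    rintro s rfl
    have e : r * ((s + 1) * a) + (k * a + r) = r * (b * q + s * l + 1) + (k + r) * l := by
      rw [← h1, ← h2]; ring
    constructor
    · intro h; exact Nat.le_of_mul_le_mul_left (by omega) hr
    · intro h; have := Nat.mul_le_mul_left r h; omega
  constructor
  · intro h
    have hq : 0 < q := by
      obtain ⟨u, v, h5, h6, h7⟩ := h 1 one_pos (by omega)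
      rcases Nat.eq_zero_or_pos u with rfl | hu
      · by_contra hc
        rw [show q = 0 by omega] at h7
        omega
      · nlinarith
    have hkl : k * l < r := by
      by_contra hc
      obtain ⟨u, v, h5, -, h7⟩ := h (b * q + t * l + 1) (by omega) (by rw [mul_add, hab]; omega)
      have := Nat.mul_le_mul_right l (hut u v h5)
      rw [hU u v h5] at h7
      omega
    refine ⟨hq, ?_⟩
    by_cases hl : l = 0
    · exact Or.inl hl
    have hg : t = 0 ∨ (k + r) * l ≤ k * a + r := by
      rcases t with _ | s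
      · exact Or.inl rfl
      right
      rw [hgap s rfl]
      obtain ⟨u, v, h5, h6, h7⟩ := h (b * q + s * l + 1) (by omega) (by
        have : r * (b * q + s * l + 1) ≤ r * (b * q + (s + 1) * l) :=
          Nat.mul_le_mul_left _ (by rw [add_mul]; omega)
        omega)
      rw [hU u v h5] at h7
      rcases (hut u v h5).eq_or_lt with rfl | h8
      · exact h6
      · have := Nat.mul_le_mul_right l (Nat.le_of_lt_succ h8)
        omega
    by_cases hk : k = 0
    · subst hk
      refine Or.inr (Or.inl ⟨rfl, ?_⟩)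
      rcases hg with rfl | hg
      · omega
      · have : l ≤ 1 := Nat.le_of_mul_le_mul_left (by simpa using hg) hr
        omega
    · exact Or.inr (Or.inr ⟨hl, hk, hkl, hg⟩)
  · rintro ⟨-, h⟩ c - hc
    have hkl : k * l < r := by
      rcases h with rfl | ⟨rfl, -⟩ | h
      · simpa using hr
      · simpa using hr
      · exact h.2.2.1
    have hc' : c ≤ b * q + t * l := by
      by_contra h5
      have : r * (b * q + t * l + 1) ≤ r * c := Nat.mul_le_mul_left _ (by omega)
      rw [mul_add] at this
      omega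
    by_cases hl : l = 0
    · exact ⟨0, b, by simp, by simp, by simpa [hl] using hc'⟩
    have hg : ∀ s, t = s + 1 → t * a ≤ b * q + s * l + 1 := by
      intro s hs
      rw [← hgap s hs]
      rcases h with h | ⟨rfl, rfl⟩ | ⟨-, -, -, h | h⟩
      · exact (hl h).elim
      · simp
      · omega
      · exact h
    classical
    have hex : ∃ u, c ≤ b * q + u * l := ⟨t, hc'⟩
    have h5 := Nat.find_spec hex
    have h6 : Nat.find hex ≤ t := Nat.find_min' hex hc'
    have h7 : r * Nat.find hex ≤ r * t := Nat.mul_le_mul_left _ h6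
    refine ⟨Nat.find hex, b - r * Nat.find hex, by omega, ?_, by rw [hU _ _ (by omega)]; exact h5⟩
    rcases h8 : Nat.find hex with _ | w
    · simp
    · have h9 := Nat.find_min hex (m := w) (by omega)
      obtain ⟨d, rfl⟩ : ∃ d, t = w + d + 1 := ⟨t - (w + 1), by omega⟩
      have h10 := hg _ rfl
      have h11 : d * l ≤ d * a := Nat.mul_le_mul_left _ (by omega)
      have e1 : (w + d + 1) * a = (w + 1) * a + d * a := by ring
      have e2 : (w + d) * l = w * l + d * l := by ring
      omega


/-- Let a, b ≥ 2 and consider the symmetric group of degree a·b acting on the partitions of an (a·b)-set into b parts of size a (encoded as maps onto a b-element set all of whose fibres have a elements; a permutation fixes such a partition when it permutes the fibres). Let r be a prime dividing the number (ab)!/((a!)^b·b!) of such partitions, and let ℓ and k be the remainders of a and b modulo r. Then every permutation of order r fixes some such partition if and only if r ≤ a and one of the following holds: ℓ = 0; or k = 0 and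 ℓ = 1; or ℓ and k are non-zero, k·ℓ < r, and either b < r or (k + r)·ℓ ≤ k·a + r. -/
theorem result (a b : ℕ) (ha : 2 ≤ a) (hb : 2 ≤ b) (r : ℕ) (hr : r.Prime)
    (hrd : r ∣ (a * b).factorial / (a.factorial ^ b * b.factorial)) :
    (∀ σ : Equiv.Perm (Fin (a * b)), orderOf σ = r →
        ∃ f : Fin (a * b) → Fin b, (∀ j : Fin b, Nat.card {x : Fin (a * b) // f x = j} = a) ∧
          ∃ π : Equiv.Perm (Fin b), ∀ x : Fin (a * b), f (σ x) = π (f x)) ↔
      (r ≤ a ∧ (a % r = 0 ∨ (b % r = 0 ∧ a % r = 1) ∨
        (a % r ≠ 0 ∧ b % r ≠ 0 ∧ (b % r) * (a % r) < r ∧ (b < r ∨ (b % r + r) * (a % r) ≤ (b % r) * a + r)))) := by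
  have hrn : r ≤ a * b := by
    have h1 := Nat.uniformBell_mul_eq b (n := a) (by omega)
    rw [mul_comm b a, mul_assoc] at h1
    rw [← h1, Nat.mul_div_cancel _ (by positivity)] at hrd
    exact hr.dvd_factorial.mp (h1 ▸ hrd.mul_right _)
  rw [← arith ha hb hr.pos hrn]
  constructor
  · intro h c hc hc'
    obtain ⟨σ, h1, h2⟩ := exists_perm (α := Fin (a * b)) hr (c := c) (by simpa using hc')
    have h3 := Nat.mul_pos hr.pos hc
    have h4 := orderOf_eq hr h1 (by omega)
    rw [Fintype.card_fin] at h2
    exact (crit (by omega) hr h1 h2).mp (h σ h4)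
  · intro h σ hσ
    have h1 : σ ^ r = 1 := hσ ▸ pow_orderOf_eq_one σ
    obtain ⟨c, hc⟩ := exists_nfix_add hr h1
    have h2 := nfix_lt hr hσ
    rw [Fintype.card_fin] at hc h2
    refine (crit (by omega) hr h1 hc).mpr (h c (Nat.pos_of_ne_zero ?_) (by omega))
    rintro rfl
    omega

end Cfsg.Agent.S3575
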