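import Cfsg.Statements.S3580
import Cfsg.Agent.SyF.Red

set_option autoImplicit false
open Cfsg

namespace Cfsg.Agent.S3580

/-- Let G act faithfully and transitively on a finite set Ω, let p be an odd prime dividing the order of G and P a Sylow p-subgroup of G. Then the number of orbits of P on Ω is at most (p/(2p − 1))·(number of points). -/
theorem result {G Ω : Type*} [Group G] [Finite G] [MulAction G Ω] [FaithfulSMul G Ω] [Finite Ω]
    (htrans : MulAction.IsPretransitive G Ω) (p : ℕ) [Fact p.Prime] (hp2 : p ≠ 2) (hpG : p ∣ Nat.card G)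
    (P : Sylow p G) :
    (2 * p - 1) * Nat.card (MulAction.orbitRel.Quotient ↥(P : Subgroup G) Ω) ≤ p * Nat.card Ω := by
  classical
  have hp := (Fact.out : p.Prime).one_le
  have hfix : (SyF.Fix (SyF.gen (Set.univ : Set (Sylow p G))) : Set Ω) = ∅ := by
    refine Set.eq_empty_of_forall_notMem fun a ha => P.ne_bot_of_dvd_card hpG (eq_bot_iff.2 fun x hx => ?_)
    refine Subgroup.mem_bot.2 (eq_of_smul_eq_smul (α := Ω) fun b => ?_)
    obtain ⟨g, rfl⟩ := MulAction.exists_smul_eq G a b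
    have h1 := SyF.smul_mem_Fix (x := g).2 (SyF.mem_Fix_gen.1 ha (g⁻¹ • P) trivial)
    rw [smul_inv_smul] at h1
    rw [h1 x hx, one_smul]
  have h1 := SyF.D_ge0 (SyF.le_gen (Set.mem_univ P)) (SyF.inv_univ (Ω := Ω)) fun a _ ha => SyF.orb_bound (Set.mem_univ P) ha
  rw [hfix, Set.inter_empty, Set.ncard_empty] at h1
  have h2 := SyF.D_mul (P := P) (SyF.inv_univ (Ω := Ω))
  rw [SyF.fx, Set.univ_inter, Set.ncard_univ] at h2
  set F : Set Ω := SyF.Fix (P : Subgroup G) with hF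
  have hi : SyF.Inv (P : Subgroup G) Fᶜ := (SyF.inv_of_sub_Fix subset_rfl).compl
  let f : Ω → MulAction.orbitRel.Quotient ↥(P : Subgroup G) Ω := Quotient.mk''
  have h3 : p * ((Set.toFinite Fᶜ).toFinset.image f).card ≤ (Set.toFinite Fᶜ).toFinset.card := by
    refine Finset.mul_card_image_le_card _ _ fun o ho => ?_
    obtain ⟨b, hb, rfl⟩ := Finset.mem_image.1 ho
    have hb' : b ∈ Fᶜ := (Set.Finite.mem_toFinset _).1 hb
    have hR : SyF.Reg (P : Subgroup G) {b} ⊆ Fᶜ := SyF.Reg_sub hi (Set.singleton_subset_iff.2 hb')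
    have h4 := SyF.dvd_mov (P := P) (A := SyF.Reg (P : Subgroup G) {b}) SyF.inv_Reg
    rw [SyF.fx, (Set.subset_compl_iff_disjoint_right.1 hR).inter_eq, Set.ncard_empty, Nat.cast_zero, sub_zero] at h4
    have h5 := Nat.le_of_dvd ((Set.ncard_pos (Set.toFinite _)).2 ⟨b, SyF.sub_Reg (K := {b}) rfl⟩) (Int.natCast_dvd_natCast.1 h4)
    refine h5.trans ?_
    rw [← Set.ncard_coe_finset]
    refine Set.ncard_le_ncard fun x hx => ?_
    simp only [Finset.coe_filter, Set.Finite.mem_toFinset]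
    refine ⟨hR hx, ?_⟩
    obtain ⟨g, hg, _, rfl, rfl⟩ := hx
    exact Quotient.sound' ⟨⟨g, hg⟩, rfl⟩
  have h4 : Nat.card (MulAction.orbitRel.Quotient ↥(P : Subgroup G) Ω) ≤
      F.ncard + ((Set.toFinite Fᶜ).toFinset.image f).card := by
    rw [← Set.ncard_univ, ← Set.ncard_coe_finset]
    refine le_trans (Set.ncard_le_ncard (t := f '' F ∪ ↑((Set.toFinite Fᶜ).toFinset.image f)) fun o _ => ?_)
      ((Set.ncard_union_le _ _).trans (Nat.add_le_add_right (Set.ncard_image_le) _))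
    obtain ⟨b, rfl⟩ : ∃ b, f b = o := Quotient.exists_rep o
    by_cases hb : b ∈ F
    · exact Or.inl ⟨b, hb, rfl⟩
    · exact Or.inr (Finset.mem_image_of_mem f ((Set.Finite.mem_toFinset _).2 hb))
  rw [← Set.ncard_eq_toFinset_card _ (Set.toFinite _)] at h3
  have h5 := Set.ncard_add_ncard_compl F
  refine Nat.le_of_mul_le_mul_left ?_ hp
  zify [(by omega : 1 ≤ 2 * p)] at h3 h4 h5 hp ⊢
  have h6 : 0 ≤ (p : ℤ) * SyF.D P (Set.univ : Set Ω) := mul_nonneg (by omega) (by simpa using h1)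
  rw [h2] at h6
  have h7 := mul_le_mul_of_nonneg_left h4 (show (0 : ℤ) ≤ p * (2 * p - 1) by nlinarith)
  have h8 := mul_le_mul_of_nonneg_left h3 (show (0 : ℤ) ≤ 2 * p - 1 by omega)
  have h9 := mul_nonneg (show (0 : ℤ) ≤ p - 1 by omega) h6
  rw [← h5] at h9 ⊢
  nlinarith

end Cfsg.Agent.S3580
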