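import Mathlib
import Cfsg.Statements.S3590
import Cfsg.Agent.Cl.OrthSpecAff
import Cfsg.Agent.Perm.SpecBig

set_option autoImplicit false
open Cfsg

namespace Cfsg.Agent.S3590

open Cfsg.Agent.Cl

/-- Let F be a finite field of characteristic 2. Then PSp(8,F) is not determined by its set of element orders, not even up to finitely many groups: for every bound there is a finite group of larger order with exactly the same set of element orders as PSp(8,F). -/
theorem result {F : Type*} [Field F] [Fintype F]
    [CharP F 2] (M : ℕ) :
    ∃ (H : Type) (_ : Group H) (_ : Fintype H), M < Fintype.card H ∧ Set.range (orderOf : H → ℕ) = Set.range (orderOf : Cfsg.PSp 4 F → ℕ) := by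
  obtain ⟨b, hb⟩ := quad_exists_aniso F
  rw [OS.spec_sp_eight_eq_aff ((quad_aniso_iff 1 b).2 hb)]
  refine Perm.spec_unbounded_of_exponent (SemidirectProduct.rightHom).ker (fun h => ?_)
    Nat.prime_two (fun v hv => ?_) M
  · have h1 : (SemidirectProduct.inl (Multiplicative.ofAdd 1) : OS.Aff (quad_minus 3 F 1 b)) ∈
        (SemidirectProduct.rightHom).ker := SemidirectProduct.rightHom_inl _
    rw [h, Subgroup.mem_bot, ← map_one SemidirectProduct.inl, SemidirectProduct.inl_inj] at h1
    exact one_ne_zero (ofAdd_eq_one.1 h1)
  · rw [← SemidirectProduct.range_inl_eq_ker_rightHom] at hv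
    obtain ⟨w, rfl⟩ := hv
    rw [← map_pow, show w ^ 2 = 1 from Multiplicative.toAdd.injective
      (funext fun i => by simp [CharTwo.two_eq_zero]), map_one]

end Cfsg.Agent.S3590
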