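import Mathlib
import Cfsg.Statements.S3594
import Cfsg.Agent.Inv.NseTools2
import Cfsg.Agent.Inv.MathieuNse
import Cfsg.Agent.Inv.M22B
import Cfsg.Agent.Spor.M24

set_option autoImplicit false
open Cfsg

namespace Cfsg.Agent.S3594

/-- Let M be the Mathieu group M₂₂ (order 443520). If a finite group G has the same order as M and the same set of values of the function 'number of elements of order n' (taken over the element orders n that occur), then G is isomorphic to M. -/
theorem result {G : Type*} [Group G] [Finite G]
    (hcard : Nat.card G = Nat.card ↥Cfsg.Spor.M22)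
    (hnse : {c : ℕ | 0 < c ∧ ∃ n : ℕ, c = Nat.card {g : G // orderOf g = n}} =
      {c : ℕ | 0 < c ∧ ∃ n : ℕ, c = Nat.card {g : ↥Cfsg.Spor.M22 // orderOf g = n}}) :
    Nonempty (G ≃* ↥Cfsg.Spor.M22) := by
  have h := hcard.trans Spor.Golay.card_M22
  rw [Inv.Nse.nse_M22] at hnse
  have h11 : Fact (Nat.Prime 11) := ⟨by norm_num⟩
  have := Inv.Nse.simple_of_normalizer (p := 11) (r := 5) (n := 8064) (by norm_num) h
    (by norm_num) (by norm_num)
    (Inv.SN.noPow_of_list (by norm_num) [2, 3, 5, 7] (by simp; norm_num) (by decide +kernel))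
    fun x => Inv.Nse.card_normalizer_of_nse h (by norm_num) hnse (by decide +kernel)
  have := Spor.Golay.simple_M22
  exact Inv.M22.iso h Spor.Golay.card_M22

end Cfsg.Agent.S3594
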