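import Mathlib
import Cfsg.Statements.S3599
import Cfsg.Agent.Perm.PrimeGraph
-- import your own Cfsg.Agent.* helpers here

set_option autoImplicit false
open Cfsg

namespace Cfsg.Agent.S3599

open Subgroup SemidirectProduct

/-- minimal Frobenius group with kernel `V` of exponent `p` and complement of order `q` -/
def Fr (p q : ℕ) {F : Type} [Group F] (V : Subgroup F) : Prop :=
  V.Normal ∧ V ≠ ⊥ ∧ V ≠ ⊤ ∧ (∀ x ∈ V, x ^ p = 1) ∧ (∀ x ∉ V, orderOf x = q) ∧
    ∀ K : Subgroup F, ∀ x ∈ K, x ∈ V → x ≠ 1 → ∀ y ∈ K, y ∉ V → K = ⊤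

theorem exists_fr {p q : ℕ} (hp : p.Prime) (hq : q.Prime) (hpq : p ≠ q) :
    ∃ (F : Type) (_ : Group F) (_ : Finite F) (V : Subgroup F), Fr p q V := by
  have := Fact.mk hp
  have := Fact.mk hq
  let K := GaloisField p (q - 1)
  have hK : Nat.card K = p ^ (q - 1) := GaloisField.card p _ (by have := hq.two_le; omega)
  obtain ⟨ζ, hζ⟩ := exists_prime_orderOf_dvd_card' (G := Kˣ) q (by
    rw [Nat.card_units, hK]
    have h1 := Nat.ModEq.pow_totient ((Nat.coprime_primes hp hq).mpr hpq)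
    rw [Nat.totient_prime hq] at h1
    exact (Nat.modEq_iff_dvd' (Nat.one_le_pow _ _ hp.pos)).mp h1.symm)
  let φ : zpowers ζ →* MulAut (Multiplicative K) :=
    { toFun := fun u => AddEquiv.toMultiplicative (DistribMulAction.toAddEquiv K (u : Kˣ))
      map_one' := by ext x; exact one_smul Kˣ x.toAdd
      map_mul' := fun a b => by ext x; exact mul_smul (a : Kˣ) (b : Kˣ) x.toAdd }
  have : Finite (Multiplicative K ⋊[φ] zpowers ζ) := Finite.of_equiv _ equivProd.symm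
  let V₀ := (rightHom (φ := φ)).ker
  have h1 : ∀ x ∈ V₀, x ^ p = 1 := fun x hx => by
    obtain ⟨v, rfl⟩ : x ∈ (inl (φ := φ)).range := by rw [range_inl_eq_ker_rightHom]; exact hx
    rw [← map_pow, show v ^ p = 1 from ?_, map_one]
    change p • v.toAdd = 0
    rw [nsmul_eq_mul, CharP.cast_eq_zero, zero_mul]
  have h2 : ∀ x ∉ V₀, orderOf x = q := fun x hx => by
    have hc : ((x.right : Kˣ) : K) - 1 ≠ 0 := fun h =>
      hx (Subtype.ext (Units.ext (sub_eq_zero.mp h)))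
    let u : Multiplicative K := Multiplicative.ofAdd (x.left.toAdd / (((x.right : Kˣ) : K) - 1))
    have e : x = (inl u)⁻¹ * inr x.right * (inl u)⁻¹⁻¹ := by
      ext1
      · simp only [inv_inv, mul_left, inv_left, right_inl, inv_one, map_one, left_inl, MulAut.one_apply,
          inv_right, left_inr, mul_one, mul_right, right_inr, one_mul]
        change x.left.toAdd = -u.toAdd + ((x.right : Kˣ) : K) * u.toAdd
        rw [neg_add_eq_sub, ← sub_one_mul]
        exact (mul_div_cancel₀ _ hc).symm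
      · simp
    rw [e, ← MulAut.conj_apply, MulEquiv.orderOf_eq, orderOf_injective _ inr_injective]
    have h3 : orderOf x.right ∣ q := (_root_.orderOf_dvd_natCard _).trans (by rw [Nat.card_zpowers, hζ])
    exact ((Nat.dvd_prime hq).mp h3).resolve_left fun h => hx (orderOf_eq_one_iff.mp h)
  obtain ⟨F, ⟨⟨x, hx, hxV, hx1⟩, y, hy, hyV⟩, hmin⟩ := WellFounded.has_min wellFounded_lt
    {F : Subgroup (Multiplicative K ⋊[φ] zpowers ζ) | (∃ x ∈ F, x ∈ V₀ ∧ x ≠ 1) ∧ ∃ y ∈ F, y ∉ V₀}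
    ⟨⊤, ⟨inl (Multiplicative.ofAdd 1), trivial, rfl, fun h => one_ne_zero (α := K)
      (congrArg (fun x => x.left.toAdd) h)⟩, inr ⟨ζ, mem_zpowers ζ⟩, trivial, fun h => by
        have h3 : ζ = 1 := congrArg Subtype.val h
        rw [h3, orderOf_one] at hζ
        exact hq.one_lt.ne hζ⟩
  refine ⟨F, inferInstance, inferInstance, V₀.subgroupOf F, inferInstance, fun h => hx1 ?_,
    fun h => hyV (subgroupOf_eq_top.mp h hy), fun z hz => Subtype.ext (h1 z hz),
    fun z hz => by rw [← orderOf_coe, h2 z hz], fun L a ha haV ha1 b hb hbV => ?_⟩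
  · exact disjoint_def.mp (subgroupOf_eq_bot.mp h) hxV hx
  · refine map_injective F.subtype_injective ?_
    rw [← MonoidHom.range_eq_map, range_subtype]
    exact (map_subtype_le L).eq_of_not_lt (hmin _ ⟨⟨a, ⟨a, ha, rfl⟩, haV, fun h => ha1 (Subtype.ext h)⟩,
      b, ⟨b, hb, rfl⟩, hbV⟩)

section
variable {p q : ℕ} {F : Type} [Group F] {V : Subgroup F}

theorem Fr.ord (h : Fr p q V) (hp : p.Prime) (x : F) : orderOf x = 1 ∨ orderOf x = p ∨ orderOf x = q := by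
  by_cases hx : x ∈ V
  · have := (Nat.dvd_prime hp).mp (orderOf_dvd_of_pow_eq_one (h.2.2.2.1 x hx))
    tauto
  · exact Or.inr (Or.inr (h.2.2.2.2.1 x hx))

theorem Fr.eq_one (h : Fr p q V) (hpq : p.Coprime q) {x : F} (hx : x ∈ V) (h1 : x ^ q = 1) : x = 1 :=
  orderOf_eq_one_iff.mp (Nat.eq_one_of_dvd_coprimes hpq (orderOf_dvd_of_pow_eq_one (h.2.2.2.1 x hx))
    (orderOf_dvd_of_pow_eq_one h1))

theorem Fr.pow_q (h : Fr p q V) {x : F} (hx : x ∉ V) : x ^ q = 1 :=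
  h.2.2.2.2.1 x hx ▸ pow_orderOf_eq_one x

theorem Fr.exists_mem (h : Fr p q V) : ∃ v ∈ V, v ≠ 1 :=
  (ne_bot_iff_exists_ne_one.mp h.2.1).elim fun v hv => ⟨v, v.2, fun e => hv (Subtype.ext e)⟩

theorem Fr.exists_not_mem (h : Fr p q V) : ∃ y, y ∉ V := by
  by_contra hc
  push Not at hc
  exact h.2.2.1 (eq_top_iff.mpr fun y _ => hc y)

theorem Fr.le (h : Fr p q V) (hpq : p.Coprime q) (N : Subgroup F) [hN : N.Normal] {x : F} (hx : x ∈ N)
    (hx1 : x ≠ 1) : V ≤ N := by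
  have hV := h.1
  obtain ⟨w, hwN, hwV, hw1⟩ : ∃ w ∈ N, w ∈ V ∧ w ≠ 1 := by
    by_cases hxV : x ∈ V
    · exact ⟨x, hx, hxV, hx1⟩
    obtain ⟨v, hv, hv1⟩ := h.exists_mem
    refine ⟨v * x * v⁻¹ * x⁻¹, N.mul_mem (hN.conj_mem x hx v) (N.inv_mem hx), ?_, fun e => hv1 ?_⟩
    · rw [mul_assoc, mul_assoc, ← mul_assoc x]
      exact V.mul_mem hv (hV.conj_mem _ (V.inv_mem hv) x)
    · have hc : Commute v x := commutatorElement_eq_one_iff_commute.mp e
      have h1 := h.pow_q (x := v * x) fun h' => hxV ((V.mul_mem_cancel_left hv).mp h')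
      rw [hc.mul_pow, h.pow_q hxV, mul_one] at h1
      exact h.eq_one hpq hv h1
  obtain ⟨y, hy⟩ := h.exists_not_mem
  have h1 := h.2.2.2.2.2 ((N ⊓ V) ⊔ zpowers y) w (mem_sup_left ⟨hwN, hwV⟩) hwV hw1 y
    (mem_sup_right (mem_zpowers y)) hy
  intro v hv
  obtain ⟨a, ha, _, ⟨k, rfl⟩, rfl⟩ := mem_sup_of_normal_left.mp (h1 ▸ mem_top v)
  have h2 : y ^ k = 1 := h.eq_one hpq ((V.mul_mem_cancel_left ha.2).mp hv) (by
    rw [← zpow_natCast, ← zpow_mul, mul_comm, zpow_mul, zpow_natCast, h.pow_q hy, one_zpow])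
  simpa only [h2, mul_one] using (mem_inf.mp ha).1

end

section
variable {ι : Type} [Fintype ι] [DecidableEq ι] {P Q : ι → ℕ} {F : ι → Type} [∀ j, Group (F j)]
  [∀ j, Finite (F j)] {V : ∀ j, Subgroup (F j)} (h : ∀ j, Fr (P j) (Q j) (V j))
  (hP : ∀ j, (P j).Prime) (hQ : ∀ j, (Q j).Prime) (hPQ : ∀ i j, P i ≠ Q j)
  (hPP : ∀ i j, P i = P j → i = j) (hQQ : ∀ i j, Q i = Q j → i = j)
include h hP hQ hPQ hPP hQQ

theorem cop {i j : ι} (hij : i ≠ j) {a b : ℕ} (ha : a = 1 ∨ a = P i ∨ a = Q i)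
    (hb : b = 1 ∨ b = P j ∨ b = Q j) : a.Coprime b := by
  rcases ha with rfl | rfl | rfl
  · simp
  all_goals rcases hb with rfl | rfl | rfl
  · simp
  · exact (Nat.coprime_primes (hP _) (hP _)).mpr fun e => hij (hPP _ _ e)
  · exact (Nat.coprime_primes (hP _) (hQ _)).mpr (hPQ _ _)
  · simp
  · exact (Nat.coprime_primes (hQ _) (hP _)).mpr (hPQ _ _).symm
  · exact (Nat.coprime_primes (hQ _) (hQ _)).mpr fun e => hij (hQQ _ _ e)

theorem spec : Set.range (orderOf : (∀ j, F j) → ℕ) =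
    {m : ℕ | ∃ c : ι → ℕ, (∀ j, c j = 1 ∨ c j = P j ∨ c j = Q j) ∧ m = ∏ j, c j} := by
  have h1 : ∀ x : ∀ j, F j, orderOf x = ∏ j, orderOf (x j) := fun x => by
    rw [Pi.orderOf, Finset.lcm_eq_prod fun i _ j _ hij =>
      cop h hP hQ hPQ hPP hQQ hij ((h i).ord (hP i) _) ((h j).ord (hP j) _)]
  ext m
  constructor
  · rintro ⟨x, rfl⟩
    exact ⟨_, fun j => (h j).ord (hP j) _, h1 x⟩
  · rintro ⟨c, hc, rfl⟩
    have h2 : ∀ j, ∃ x : F j, orderOf x = c j := fun j => by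
      rcases hc j with e | e | e
      · exact ⟨1, by rw [e, orderOf_one]⟩
      · obtain ⟨v, hv, hv1⟩ := (h j).exists_mem
        have := Fact.mk (hP j)
        exact ⟨v, by rw [e, orderOf_eq_prime ((h j).2.2.2.1 v hv) hv1]⟩
      · obtain ⟨y, hy⟩ := (h j).exists_not_mem
        exact ⟨y, by rw [e, (h j).2.2.2.2.1 y hy]⟩
    choose x hx using h2
    exact ⟨x, by rw [h1]; exact Finset.prod_congr rfl fun j _ => hx j⟩

theorem eq_single {x : ∀ j, F j} {j : ι} {r : ℕ} (hr : r = P j ∨ r = Q j) (hx : x ^ r = 1) :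
    x = Pi.mulSingle j (x j) := by
  ext i
  by_cases hij : i = j
  · subst hij; simp
  rw [Pi.mulSingle_eq_of_ne hij]
  exact orderOf_eq_one_iff.mp (Nat.Coprime.eq_one_of_dvd (cop h hP hQ hPQ hPP hQQ hij
    ((h i).ord (hP i) _) (Or.inr hr)) (orderOf_dvd_of_pow_eq_one (congrFun hx i)))

theorem crit (H : Subgroup (∀ j, F j)) (N : Subgroup H) [N.Normal]
    (hs : ∀ j, (∃ x : H ⧸ N, orderOf x = P j) ∧ ∃ x : H ⧸ N, orderOf x = Q j) : H = ⊤ ∧ N = ⊥ := by
  have hH : H = ⊤ := by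
    rw [eq_top_iff]
    intro g _
    refine pi_mem_of_mulSingle_mem g fun j => ?_
    obtain ⟨x, hx⟩ := Perm.PG.exists_orderOf_of_surjective (QuotientGroup.mk'_surjective N) (hs j).1
    obtain ⟨y, hy⟩ := Perm.PG.exists_orderOf_of_surjective (QuotientGroup.mk'_surjective N) (hs j).2
    rw [← orderOf_coe] at hx hy
    have ex := eq_single h hP hQ hPQ hPP hQQ (Or.inl rfl) (hx ▸ pow_orderOf_eq_one _)
    have ey := eq_single h hP hQ hPQ hPP hQQ (Or.inr rfl) (hy ▸ pow_orderOf_eq_one _)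
    rw [ex, orderOf_piMulSingle] at hx
    rw [ey, orderOf_piMulSingle] at hy
    have := (h j).2.2.2.2.2 (H.comap (MonoidHom.mulSingle F j)) (x.1 j) (by
      change Pi.mulSingle j _ ∈ H; rw [← ex]; exact x.2) (by
        by_contra hc
        exact hPQ j j (hx.symm.trans ((h j).2.2.2.2.1 _ hc))) (fun e => (hP j).one_lt.ne (by
          rw [← hx, e, orderOf_one])) (y.1 j) (by change Pi.mulSingle j _ ∈ H; rw [← ey]; exact y.2)
      fun hc => hPQ j j ((Nat.prime_dvd_prime_iff_eq (hQ j) (hP j)).mp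
        (hy ▸ orderOf_dvd_of_pow_eq_one ((h j).2.2.2.1 _ hc))).symm
    exact (this ▸ mem_top _ : g j ∈ H.comap (MonoidHom.mulSingle F j))
  refine ⟨hH, ?_⟩
  subst hH
  by_contra hN
  have hN' : (N.map (⊤ : Subgroup (∀ j, F j)).subtype).Normal :=
    Normal.map inferInstance _ fun x => ⟨⟨x, trivial⟩, rfl⟩
  obtain ⟨r, hr, hrd⟩ := Nat.exists_prime_and_dvd ((one_lt_card_iff_ne_bot N).mpr hN).ne'
  have := Fact.mk hr
  obtain ⟨x, hx⟩ := exists_prime_orderOf_dvd_card' r hrd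
  rw [← orderOf_coe, ← orderOf_coe] at hx
  obtain ⟨j, hj⟩ : ∃ j, x.1.1 j ≠ 1 := by
    by_contra hc
    push Not at hc
    rw [show x.1.1 = 1 from funext hc, orderOf_one] at hx
    exact hr.one_lt.ne hx
  have h1 : orderOf (x.1.1 j) = r := orderOf_eq_prime (congrFun (hx ▸ pow_orderOf_eq_one x.1.1) j) hj
  have ex := eq_single h hP hQ hPQ hPP hQQ (j := j) (r := r)
    (h1 ▸ ((h j).ord (hP j) _).resolve_left fun e => hj (orderOf_eq_one_iff.mp e))
    (hx ▸ pow_orderOf_eq_one _)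
  have h2 := (h j).le ((Nat.coprime_primes (hP j) (hQ j)).mpr (hPQ j j))
    ((N.map (⊤ : Subgroup (∀ j, F j)).subtype).comap (MonoidHom.mulSingle F j)) (x := x.1.1 j)
    ⟨x.1, x.2, ex⟩ hj
  obtain ⟨y, hy⟩ := (hs j).1
  obtain ⟨y, rfl⟩ := QuotientGroup.mk'_surjective N y
  let e := (∏ i ∈ Finset.univ.erase j, orderOf (y.1 i)) * Q j
  have h3 : y.1 ^ e = Pi.mulSingle j (y.1 j ^ e) := by
    ext i
    by_cases hij : i = j
    · subst hij; simp
    rw [Pi.mulSingle_eq_of_ne hij, Pi.pow_apply, ← orderOf_dvd_iff_pow_eq_one]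
    exact (Finset.dvd_prod_of_mem _ (by simp [hij])).mul_right _
  have h4 : y.1 j ^ e ∈ V j := by
    rw [pow_mul']
    refine pow_mem ?_ _
    by_cases hc : y.1 j ∈ V j
    · exact pow_mem hc _
    · rw [(h j).pow_q hc]; exact one_mem _
  obtain ⟨z, hz, hz'⟩ : Pi.mulSingle j (y.1 j ^ e) ∈ N.map (⊤ : Subgroup (∀ j, F j)).subtype := h2 h4
  have h5 : P j ∣ e := by
    rw [← hy, orderOf_dvd_iff_pow_eq_one, ← map_pow, QuotientGroup.mk'_apply, QuotientGroup.eq_one_iff,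
      show y ^ e = z from Subtype.ext (h3.trans hz'.symm)]
    exact hz
  refine (hP j).one_lt.ne' (Nat.Coprime.eq_one_of_dvd (Nat.Coprime.mul_right
    (Nat.Coprime.prod_right fun i hi => ?_) ((Nat.coprime_primes (hP j) (hQ j)).mpr (hPQ j j))) h5)
  exact cop h hP hQ hPQ hPP hQQ (Finset.ne_of_mem_erase hi).symm (Or.inr (Or.inl rfl)) ((h i).ord (hP i) _)

theorem closedP (j : ι) (x y : ∀ j, F j) (hx : x ^ P j = 1) (hy : y ^ P j = 1) : (x * y) ^ P j = 1 := by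
  have h1 : ∀ x : ∀ j, F j, x ^ P j = 1 → x j ∈ V j := fun x hx => by
    by_contra hc
    exact hPQ j j ((Nat.prime_dvd_prime_iff_eq (hQ j) (hP j)).mp
      ((h j).2.2.2.2.1 _ hc ▸ orderOf_dvd_of_pow_eq_one (congrFun hx j))).symm
  rw [eq_single h hP hQ hPQ hPP hQQ (Or.inl rfl) hx, eq_single h hP hQ hPQ hPP hQQ (Or.inl rfl) hy,
    ← Pi.mulSingle_mul, ← Pi.mulSingle_pow, (h j).2.2.2.1 _ (mul_mem (h1 x hx) (h1 y hy)), Pi.mulSingle_one]

omit hPP hQQ in
theorem not_closedQ (j : ι) : ∃ x y : ∀ j, F j, x ^ Q j = 1 ∧ y ^ Q j = 1 ∧ (x * y) ^ Q j ≠ 1 := by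
  obtain ⟨v, hv, hv1⟩ := (h j).exists_mem
  obtain ⟨y, hy⟩ := (h j).exists_not_mem
  refine ⟨Pi.mulSingle j (v * y), Pi.mulSingle j y⁻¹, ?_, ?_, fun e => hv1 ?_⟩
  · rw [← Pi.mulSingle_pow, (h j).pow_q fun h' => hy (((V j).mul_mem_cancel_left hv).mp h'),
      Pi.mulSingle_one]
  · rw [← Pi.mulSingle_pow, inv_pow, (h j).pow_q hy, inv_one, Pi.mulSingle_one]
  · refine (h j).eq_one ((Nat.coprime_primes (hP j) (hQ j)).mpr (hPQ j j)) hv ?_
    simpa using congrFun e j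

end

/-- A finite group is critical with respect to a set Ω of natural numbers when its set of element orders is Ω while no proper section H/N (H a subgroup, N normal in H, (H, N) ≠ (whole group, 1)) has Ω as its set of element orders. Let s ≥ 1 and let p(j,0), p(j,1) (j < s) be 2s pairwise distinct primes, and let Ω be the set of all products c(0)·…·c(s−1) with each c(j) ∈ {1, p(j,0), p(j,1)}. Then there are 2^s pairwise non-isomorphic finite groups critical with respect to Ω. -/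
theorem result (s : ℕ) (hs : 1 ≤ s) (p : Fin s → Fin 2 → ℕ)
    (hp : ∀ j i, (p j i).Prime) (hinj : ∀ j i j' i', p j i = p j' i' → j = j' ∧ i = i') :
    ∃ (G : Fin (2 ^ s) → Type) (_ : ∀ a, Group (G a)) (_ : ∀ a, Fintype (G a)),
      (∀ a b, a ≠ b → ¬ Nonempty (G a ≃* G b)) ∧
      ∀ a, Set.range (orderOf : (G a) → ℕ) = {m : ℕ | ∃ c : Fin s → ℕ, (∀ j, c j = 1 ∨ c j = p j 0 ∨ c j = p j 1) ∧ m = ∏ j, c j} ∧
      ∀ (H : Subgroup (G a)) (N : Subgroup ↥H) [N.Normal], (H ≠ ⊤ ∨ N ≠ ⊥) → Set.range (orderOf : (↥H ⧸ N) → ℕ) ≠ {m : ℕ | ∃ c : Fin s → ℕ, (∀ j, c j = 1 ∨ c j = p j 0 ∨ c j = p j 1) ∧ m = ∏ j, c j} := by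
  classical
  have hrev : ∀ i : Fin 2, i ≠ i.rev := by decide
  choose F iF fF V hV using fun (j : Fin s) (i : Fin 2) =>
    exists_fr (hp j i) (hp j i.rev) fun e => hrev i (hinj _ _ _ _ e).2
  let e : Fin (2 ^ s) → Fin s → Fin 2 := finFunctionFinEquiv.symm
  have hPQ : ∀ a i j, p i (e a i) ≠ p j (e a j).rev := fun a i j h => by
    obtain ⟨rfl, h⟩ := hinj _ _ _ _ h
    exact hrev _ h
  have hset : ∀ a, {m : ℕ | ∃ c : Fin s → ℕ, (∀ j, c j = 1 ∨ c j = p j (e a j) ∨ c j = p j (e a j).rev) ∧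
      m = ∏ j, c j} = {m : ℕ | ∃ c : Fin s → ℕ, (∀ j, c j = 1 ∨ c j = p j 0 ∨ c j = p j 1) ∧ m = ∏ j, c j} := by
    intro a
    have : ∀ j (n : ℕ), (n = 1 ∨ n = p j (e a j) ∨ n = p j (e a j).rev) ↔ (n = 1 ∨ n = p j 0 ∨ n = p j 1) := by
      intro j n
      generalize e a j = i
      fin_cases i
      · rfl
      · exact or_congr_right or_comm
    simp only [this]
  refine ⟨fun a => ∀ j, F j (e a j), inferInstance, fun a => Fintype.ofFinite _, ?_, fun a => ⟨?_, ?_⟩⟩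
  · rintro a b hab ⟨f⟩
    obtain ⟨j, hj⟩ := Function.ne_iff.mp (finFunctionFinEquiv.symm.injective.ne hab)
    have h1 : e a j = (e b j).rev := by
      change e a j ≠ e b j at hj
      revert hj
      generalize e a j = i
      generalize e b j = i'
      revert i i'
      decide
    obtain ⟨x, y, hx, hy, hxy⟩ := not_closedQ (fun j => hV j (e b j)) (fun j => hp _ _) (fun j => hp _ _)
      (hPQ b) j
    rw [← h1] at hx hy hxy
    have := closedP (fun j => hV j (e a j)) (fun j => hp _ _) (fun j => hp _ _) (hPQ a)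
      (fun i j h => (hinj _ _ _ _ h).1) (fun i j h => (hinj _ _ _ _ h).1) j (f.symm x) (f.symm y)
      (by rw [← map_pow, hx, map_one]) (by rw [← map_pow, hy, map_one])
    rw [← map_mul, ← map_pow, map_eq_one_iff _ f.symm.injective] at this
    exact hxy this
  · rw [← hset a]
    exact spec (fun j => hV j (e a j)) (fun j => hp _ _) (fun j => hp _ _) (hPQ a)
      (fun i j h => (hinj _ _ _ _ h).1) (fun i j h => (hinj _ _ _ _ h).1)
  · intro H N _ hHN hs
    rw [← hset a] at hs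
    have h1 : ∀ j n, (n = p j (e a j) ∨ n = p j (e a j).rev) → ∃ x : H ⧸ N, orderOf x = n := fun j n hn => by
      change n ∈ Set.range (orderOf : (H ⧸ N) → ℕ)
      rw [hs]
      refine ⟨Pi.mulSingle j n, fun i => ?_, by simp⟩
      by_cases hij : i = j
      · subst hij; simpa using Or.inr hn
      · simp [hij]
    have := crit (fun j => hV j (e a j)) (fun j => hp _ _) (fun j => hp _ _) (hPQ a)
      (fun i j h => (hinj _ _ _ _ h).1) (fun i j h => (hinj _ _ _ _ h).1) H N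
      fun j => ⟨h1 j _ (Or.inl rfl), h1 j _ (Or.inr rfl)⟩
    tauto

end Cfsg.Agent.S3599
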