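import Cfsg.Statements.S3619
import Mathlib
import Cfsg.Agent.Perm.Quasi
-- import your own Cfsg.Agent.* helpers here

set_option autoImplicit false
open Cfsg

namespace Cfsg.Agent.S3619

open MulAction Cfsg.Agent.Perm

/-- Let G act faithfully on a finite set in such a way that every non-trivial normal subgroup of G is transitive (G is quasiprimitive). Let Γ be a subset with more than one point and not the whole set, such that the pointwise stabilizer of the complement of Γ acts transitively on Γ (a Jordan set). If that pointwise stabilizer acts primitively on Γ, then G is k-fold transitive where k is one more than the number of points outside Γ (the Jordan set is a trivial one). -/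
theorem result {G Ω : Type*} [Group G] [Finite G] [MulAction G Ω] [FaithfulSMul G Ω] [Finite Ω]
    (hqp : ∀ N : Subgroup G, N.Normal → N ≠ ⊥ → MulAction.IsPretransitive ↥N Ω)
    (Γ : Set Ω) (hΓ1 : 1 < Γ.ncard) (hΓ2 : Γ.ncard < Nat.card Ω)
    (hJ : MulAction.IsPretransitive ↥(fixingSubgroup G Γᶜ) ↥(SubMulAction.ofFixingSubgroup G Γᶜ))
    (hJp : MulAction.IsPreprimitive ↥(fixingSubgroup G Γᶜ) ↥(SubMulAction.ofFixingSubgroup G Γᶜ)) :
    MulAction.IsMultiplyPretransitive G Ω (Nat.card Ω - Γ.ncard + 1) := by
  have hΓ : Γ.Nontrivial := Set.one_lt_ncard_iff_nontrivial.1 hΓ1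
  have hJ' : ∀ a ∈ Γ, ∀ b ∈ Γ, ∃ g : G, (∀ x ∉ Γ, g • x = x) ∧ g • a = b := fun a ha b hb =>
    (fix_isPretransitive_iff _).1 hJ a (by simpa using ha) b (by simpa using hb)
  have htr : IsPretransitive G Ω := by
    obtain ⟨a, ha, b, hb, hab⟩ := hΓ
    obtain ⟨g, -, hg⟩ := hJ' a ha b hb
    exact quasi_trans hqp (g := g) (by rintro rfl; exact hab (by simpa using hg))
  have hp : IsPreprimitive G Ω := by
    apply isPreprimitive_of_rel
    intro r hr hinv
    by_contra hcon
    rw [not_or] at hcon
    obtain ⟨⟨a, ha, b, hb, hab⟩, hcl⟩ := quasi_jordan_rel hqp hr hinv hcon.2 hΓ hJ'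
    rcases fix_prim_block hJp {x | r a x} (fun x hx h => h (hcl a ha x hx))
      (fun g _ x hx hgx y hy => hr.trans hgx (hinv g x y (hr.trans (hr.symm hx) hy))) with h | h
    · refine hcon.1 fun x y hxy => ?_
      obtain ⟨g, rfl⟩ := exists_smul_eq G a x
      have := h (hr.refl a) (show r a (g⁻¹ • y) by simpa using hinv g⁻¹ _ _ hxy)
      rw [this, smul_inv_smul]
    · have : b ∈ {x | r a x} := by rw [h]; simpa using hb
      exact hab this
  have hc := Set.ncard_add_ncard_compl Γ
  have := (hp.isMultiplyPreprimitive (s := Γᶜ) (n := Γᶜ.ncard - 1) (by omega) (by omega)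
    hJp).isMultiplyPretransitive
  convert this using 1
  omega

end Cfsg.Agent.S3619
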