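import Mathlib
import Cfsg.Statements.S3626
import Cfsg.Agent.Chev.ReeCount2
import Cfsg.Agent.Chev.ReeInst
import Cfsg.Agent.Perm.SpecAff
-- import your own Cfsg.Agent.* helpers here

set_option autoImplicit false
open Cfsg

namespace Cfsg.Agent.S3626

open Subgroup Cfsg.Agent.Chev Cfsg.Agent.Perm
open scoped MatrixGroups

theorem ch {K : Type*} [Field K] (g : SL(2, K)) :
    (g : Matrix (Fin 2) (Fin 2) K) * g = (g 0 0 + g 1 1) • (g : Matrix (Fin 2) (Fin 2) K) - 1 := by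
  have hd := ReeSL.det_eq g
  ext i j
  fin_cases i <;> fin_cases j <;> simp [Matrix.mul_apply, Fin.sum_univ_two] <;>
    first | ring1 | linear_combination -hd

theorem trace_eq {K : Type*} [Field K] (g k : SL(2, K)) {ε : K} (hε : ε * ε = 1)
    {M : Matrix (Fin 2) (Fin 2) K} (hM : M ≠ 0) (h : ε • ((g : Matrix (Fin 2) (Fin 2) K) * M) = M * k) :
    g 0 0 + g 1 1 = ε * (k 0 0 + k 1 1) := by
  have h1 : M * (k * k) = (g * g) * M := by
    rw [← Matrix.mul_assoc, ← h, smul_mul_assoc, Matrix.mul_assoc, ← h, mul_smul_comm, smul_smul, hε,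
      one_smul, Matrix.mul_assoc]
  rw [ch, ch, mul_sub, sub_mul, mul_one, one_mul, sub_left_inj, mul_smul_comm, ← h, smul_smul,
    smul_mul_assoc, ← sub_eq_zero, ← sub_smul, smul_eq_zero] at h1
  rcases h1 with h1 | h1
  · linear_combination -h1
  · refine absurd ?_ hM
    have := congrArg (fun A => ((g⁻¹ : SL(2, K)) : Matrix (Fin 2) (Fin 2) K) * A) h1
    simpa only [← Matrix.mul_assoc, ← Matrix.SpecialLinearGroup.coe_mul, inv_mul_cancel,
      Matrix.SpecialLinearGroup.coe_one, one_mul, mul_zero] using this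

theorem exists_X {K : Type*} [Field K] [Fintype K] {Γ : Type*} [Group Γ] (R : ReeGroup K Γ) (N : ℕ) :
    ∃ (X : Type) (_ : Group X) (_ : Fintype X), N < Fintype.card X ∧
      (∀ x : X, ∃ z : Γ, orderOf x ∣ orderOf z) ∧ (∃ x : X, orderOf x = 9) ∧
      ∀ z ∈ centralizer {R.a}, ∃ x : X, orderOf x = orderOf z := by
  have := R.finite
  have := R.charP
  have : Fact (Nat.Prime 3) := ⟨Nat.prime_three⟩
  let e : ℤˣ →* Kˣ := Units.map (Int.castRingHom K).toMonoidHom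
  have he : e (-1) = -1 := Units.ext (by simp [e])
  let π : ℤˣ × SL(2, K) →* Γ := MonoidHom.noncommCoprod (R.h.comp e) R.ψ fun ε g => by
    rcases Int.units_eq_one_or ε with rfl | rfl
    · simp
    · rw [MonoidHom.comp_apply, he]; exact R.a_ψ g
  have hπ1 : ∀ g, π (1, g) = R.ψ g := fun g => by simp [π]
  have hπ2 : ∀ g, π (-1, g) = R.a * R.ψ g := fun g => by simp [π, he, ReeGroup.a]
  let σ : SL(2, K) →* SL(2, K) := Matrix.SpecialLinearGroup.map (frobenius K 3)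
  let ρ₀ : ℤˣ × SL(2, K) →* Module.End K (Matrix (Fin 2) (Fin 2) K) :=
    { toFun := fun x => ((x.1 : ℤ) : K) • LinearMap.mulLeftRight K
        ((x.2 : Matrix (Fin 2) (Fin 2) K), (((σ x.2)⁻¹ : SL(2, K)) : Matrix (Fin 2) (Fin 2) K))
      map_one' := by ext1 M; simp
      map_mul' := fun a b => by
        ext1 M
        simp only [Prod.fst_mul, Units.val_mul, Int.cast_mul, Prod.snd_mul, map_mul, mul_inv_rev,
          Matrix.SpecialLinearGroup.coe_mul, LinearMap.smul_apply, LinearMap.mulLeftRight_apply,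
          Module.End.mul_apply, mul_smul_comm, smul_mul_assoc, smul_smul, mul_assoc]
        rw [mul_comm] }
  have hρ₀ : ∀ x M, ρ₀ x M = ((x.1 : ℤ) : K) • ((x.2 : Matrix (Fin 2) (Fin 2) K) * M *
    (((σ x.2)⁻¹ : SL(2, K)) : Matrix (Fin 2) (Fin 2) K)) := fun _ _ => rfl
  have hker : π.rangeRestrict.ker ≤ ρ₀.toHomUnits.ker := by
    rintro ⟨ε, g⟩ h
    have h : π (ε, g) = 1 := congrArg Subtype.val h
    rcases Int.units_eq_one_or ε with rfl | rfl
    · rw [hπ1, R.ψ_eq_one_iff] at h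
      refine Units.ext (LinearMap.ext fun M => ?_)
      change ρ₀ _ M = M
      rcases h with rfl | rfl
      · rw [hρ₀]; simp
      · rw [hρ₀, show σ (-1) = -1 by ext i j; fin_cases i <;> fin_cases j <;> simp [σ]]; simp
    · rw [hπ2] at h
      exact absurd ((map_one R.ψ).trans h.symm) (R.ψ_ne_a_mul 1 g)
  let ρ : π.range →* Module.End K (Matrix (Fin 2) (Fin 2) K) := (Units.coeHom _).comp
    (π.rangeRestrict.liftOfSurjective π.rangeRestrict_surjective ⟨_, hker⟩)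
  have hρ : ∀ x, ρ (π.rangeRestrict x) = ρ₀ x := fun x => by
    have := π.rangeRestrict.liftOfRightInverse_comp_apply _
      (Function.rightInverse_surjInv π.rangeRestrict_surjective) ⟨_, hker⟩ x
    exact congrArg Units.val this
  obtain ⟨X, _, _, h1, h2⟩ := aff_unbounded 3 ρ N
  have h3 : ∀ n, (∃ x : X, orderOf x = n) ↔ ∃ x : Aff ρ, orderOf x = n := fun n => Set.ext_iff.mp h2 n
  refine ⟨X, inferInstance, inferInstance, h1, fun x => ?_, (h3 _).mpr ?_, fun z hz => (h3 _).mpr ?_⟩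
  · obtain ⟨y, hy⟩ := (h3 _).mp ⟨x, rfl⟩
    rw [← hy]
    rcases aff_orderOf 3 ρ y with h | ⟨h, h'⟩
    · exact ⟨y.right, by rw [h, orderOf_coe]⟩
    obtain ⟨⟨ε, g⟩, hx⟩ := π.rangeRestrict_surjective y.right
    obtain ⟨M, hM, hM0⟩ : ∃ M, ρ y.right M = M ∧ M ≠ 0 := by
      by_contra hc
      push Not at hc
      exact h (nrm_eq_zero_of_fpf (by rw [← map_pow, pow_orderOf_eq_one, map_one]) hc)
    rw [← hx, hρ, hρ₀] at hM
    have ht := trace_eq g (σ g) (ε := ((ε : ℤ) : K)) (by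
      rw [← Int.cast_mul, ← Units.val_mul, Int.units_mul_self]; simp) hM0 (by
        conv_rhs => rw [← hM]
        rw [smul_mul_assoc, mul_assoc, ← Matrix.SpecialLinearGroup.coe_mul, inv_mul_cancel]; simp)
    rw [show σ g 0 0 + σ g 1 1 = (g 0 0 + g 1 1) ^ 3 by
      rw [← frobenius_def, map_add]; rfl] at ht
    have hg := ch g
    have c2 : g 0 0 + g 1 1 = 0 → ∃ z : Γ, orderOf y ∣ orderOf z := fun h0 => by
      refine ⟨R.x 0 1 0 * R.a, ?_⟩
      rw [R.orderOf_x_u_a one_ne_zero, h']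
      refine Nat.mul_dvd_mul_left 3 (show _ ∣ 2 from ?_)
      rw [orderOf_dvd_iff_pow_eq_one, ← hx, ← map_pow, sq, Prod.mk_mul_mk, Int.units_mul_self,
        show g * g = -1 from Subtype.ext (by simpa [h0] using hg)]
      exact Subtype.ext ((hπ1 _).trans R.ψ_neg_one)
    rcases Int.units_eq_one_or ε with rfl | rfl
    · by_cases h0 : g 0 0 + g 1 1 = 0
      · exact c2 h0
      have h4 : (g 0 0 + g 1 1) ^ 2 = 1 := mul_left_cancel₀ h0 (by
        simp only [Units.val_one, Int.cast_one] at ht; linear_combination -ht)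
      refine ⟨R.x 1 0 0, ?_⟩
      rw [R.orderOf_x_eq_nine_iff.mpr one_ne_zero, h']
      refine Nat.mul_dvd_mul_left 3 (show _ ∣ 3 from ?_)
      rw [orderOf_dvd_iff_pow_eq_one, ← hx, ← map_pow, Prod.pow_mk, one_pow]
      refine Subtype.ext ((hπ1 _).trans (R.ψ_eq_one_iff.mpr ?_))
      have h5 : ((g ^ 3 : SL(2, K)) : Matrix (Fin 2) (Fin 2) K) = -(g 0 0 + g 1 1) • 1 := by
        rw [pow_three, Matrix.SpecialLinearGroup.coe_mul, Matrix.SpecialLinearGroup.coe_mul, hg, mul_sub,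
          mul_smul_comm, hg, smul_sub, smul_smul, ← sq, h4, one_smul, mul_one, neg_smul]
        abel
      rcases sq_eq_one_iff.mp h4 with h6 | h6
      · exact Or.inr (Subtype.ext (by simpa [h6] using h5))
      · exact Or.inl (Subtype.ext (by simpa [h6] using h5))
    · refine c2 (by_contra fun h0 => R.not_isSquare_neg_one ⟨g 0 0 + g 1 1, mul_left_cancel₀ h0 ?_⟩)
      simp only [Units.val_neg, Units.val_one, Int.cast_neg, Int.cast_one] at ht
      linear_combination -ht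
  · have h4 : orderOf (π.rangeRestrict (1, ReeSL.up 1)) = 3 := by
      rw [← orderOf_coe, MonoidHom.coe_rangeRestrict, hπ1, R.ψ_up]
      exact orderOf_eq_prime (R.x_cube_eq_one_iff.mpr rfl) fun h => one_ne_zero (R.x_eq_one_iff.mp h).2.1
    obtain ⟨x, -, hx⟩ := aff_exists 3 ρ (g := π.rangeRestrict (1, ReeSL.up 1)) (fun h => by
      have h5 := congrArg (fun f : Module.End K (Matrix (Fin 2) (Fin 2) K) => f !![0, 0; 1, 0] 0 1) h
      have h6 : σ (ReeSL.up 1) = ReeSL.up 1 := by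
        ext i j; fin_cases i <;> fin_cases j <;> simp [σ, ReeSL.coe_up]
      have h7 : ∀ M, ρ₀ (1, ReeSL.up 1) M = !![1, 1; 0, 1] * M * !![1, -1; 0, 1] := fun M => by
        rw [hρ₀, h6, Matrix.SpecialLinearGroup.coe_inv, ReeSL.coe_up]; simp
      simp only [h4, hρ, nrm, Finset.sum_range_succ, Finset.range_zero, Finset.sum_empty, zero_add,
        pow_zero, pow_one, sq, LinearMap.add_apply, Module.End.mul_apply, Module.End.one_apply, h7] at h5
      simp at h5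
      exact one_ne_zero (α := K) (by linear_combination h5 + 2 * R.three))
    exact ⟨x, by rw [hx, h4]⟩
  · obtain ⟨y, hy⟩ : z ∈ π.range := by
      obtain ⟨l, rfl | rfl⟩ := R.exists_ψ_of_mem_centralizer_a hz
      · exact ⟨_, hπ1 l⟩
      · exact ⟨_, hπ2 l⟩
    exact ⟨_, (aff_orderOf_inr ρ ⟨z, y, hy⟩).trans (orderOf_coe _).symm⟩

theorem cases {K : Type*} [Field K] [Fintype K] {Γ : Type*} [Group Γ] (R : ReeGroup K Γ)
    (hq : 3 < Fintype.card K) : ∃ w₁ w₂ : Γ, ∀ z : Γ, orderOf z ∣ 9 ∨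
      (∃ g, g * z * g⁻¹ ∈ centralizer {R.a}) ∨ orderOf z ∣ orderOf w₁ ∨ orderOf z ∣ orderOf w₂ := by
  have := R.finite
  obtain ⟨y₁, y₂, h1, h2, h3, -⟩ := R.exists_tori hq
  have key : ∀ y : Γ, Big (orderOf y) →
      Nat.card (centralizer {y}) ∣ Fintype.card K ^ 2 - Fintype.card K + 1 →
      ∃ w : Γ, ∀ z : Γ, ∀ p, p.Prime → 3 < p → p ∣ orderOf z → p ∣ Nat.card (centralizer {y}) →
        orderOf z ∣ orderOf w := fun y hy hd => by
    have hc := R.isCyclic_oddPart hy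
    rw [R.oddPart_Z hy hd] at hc
    obtain ⟨w, hw⟩ := IsCyclic.exists_ofOrder_eq_natCard (α := centralizer {y})
    refine ⟨w, fun z p a b c d => ?_⟩
    obtain ⟨g, hg⟩ := R.exists_conj_mem hy a b c d
    rw [orderOf_coe, hw, ← ReeUtil.orderOf_conj g]
    exact Subgroup.orderOf_dvd_natCard _ hg
  obtain ⟨w₁, hw₁⟩ := key y₁ h1 (h3 ▸ dvd_mul_right _ _)
  obtain ⟨w₂, hw₂⟩ := key y₂ h2 (h3 ▸ dvd_mul_left _ _)
  refine ⟨w₁, w₂, fun z => ?_⟩
  by_cases he : 2 ∣ orderOf z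
  · obtain ⟨k, hk⟩ := ReeUtil.exists_pow_orderOf_eq he
    obtain ⟨g, hg⟩ := isConj_iff.1 (R.isConj_a (g := z ^ k) (by rw [← sq, ← hk, pow_orderOf_eq_one])
      (fun h => by rw [h, orderOf_one] at hk; omega)).symm
    refine Or.inr (Or.inl ⟨g, ?_⟩)
    rw [← hg, ← conj_pow]
    exact ReeGroup.centralizer_le_pow _ k (ReeGroup.self_mem_centralizer _)
  by_cases hb : Big (orderOf z)
  · obtain ⟨p, a, b, c⟩ := hb
    have hd : p ∣ Nat.card Γ := c.trans (_root_.orderOf_dvd_natCard z)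
    rw [R.card_eq', ← h3, a.dvd_mul, a.dvd_mul, a.dvd_mul, a.dvd_mul] at hd
    rcases hd with ((hd | hd) | hd) | hd | hd
    · exact absurd (a.dvd_of_dvd_pow hd) (R.not_dvd_card a (by omega))
    · obtain ⟨g, c, hg⟩ := R.exists_conj_mem_H a b c hd
      exact Or.inr (Or.inl ⟨g, hg ▸ R.h_mem_centralizer_a c⟩)
    · obtain ⟨g, hg⟩ := R.exists_conj_mem_Cp a b c hd
      exact Or.inr (Or.inl ⟨g, R.Cp_le hg⟩)
    · exact Or.inr (Or.inr (Or.inl (hw₁ z p a b c hd)))
    · exact Or.inr (Or.inr (Or.inr (hw₂ z p a b c hd)))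
  · have : Fact (Nat.Prime 3) := ⟨Nat.prime_three⟩
    have hP : IsPGroup 3 (zpowers z) := by
      refine IsPGroup.of_card (n := (orderOf z).primeFactorsList.length) ?_
      rw [Nat.card_zpowers]
      refine Nat.eq_prime_pow_of_unique_prime_dvd (orderOf_pos z).ne' fun {p} hp hd => ?_
      have h2 := hp.two_le
      have h4 : p ≠ 2 := fun e => he (e ▸ hd)
      have h5 : ¬ 3 < p := fun e => hb ⟨p, hp, e, hd⟩
      omega
    obtain ⟨g, hg⟩ := R.exists_conj_le_U hP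
    obtain ⟨t, u, v, e⟩ := hg z (mem_zpowers z)
    exact Or.inl (by rw [← ReeUtil.orderOf_conj g, e, orderOf_dvd_iff_pow_eq_one, R.x_pow_nine])

theorem main {K : Type*} [Field K] [Fintype K] {Γ : Type*} [Group Γ] (R : ReeGroup K Γ)
    (hq : 3 < Fintype.card K) (N : ℕ) : ∃ (H : Type) (_ : Group H) (_ : Fintype H), N < Fintype.card H ∧
      Set.range (orderOf : H → ℕ) = Set.range (orderOf : Γ × Γ × Γ → ℕ) := by
  have := R.finite
  obtain ⟨X, _, _, h1, h2, ⟨x₉, h3⟩, h4⟩ := exists_X R N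
  obtain ⟨w₁, w₂, h5⟩ := cases R hq
  have h6 : ∀ z : Γ, (∃ x : X, orderOf z ∣ orderOf x) ∨ orderOf z ∣ orderOf w₁ ∨ orderOf z ∣ orderOf w₂ :=
    fun z => by
    rcases h5 z with h | ⟨g, h⟩ | h
    · exact Or.inl ⟨x₉, h3 ▸ h⟩
    · obtain ⟨x, hx⟩ := h4 _ h
      exact Or.inl ⟨x, by rw [hx, ReeUtil.orderOf_conj]⟩
    · exact Or.inr h
  obtain ⟨H, _, _, ⟨e⟩⟩ := spec_exists_small (Γ × Γ × X)
  refine ⟨H, inferInstance, inferInstance, h1.trans_le (Fintype.card_le_of_injective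
    (fun x => e.symm (1, 1, x)) fun a b h => by simpa using h), (spec_range_of_mulEquiv e).trans ?_⟩
  have l1 : ∀ a b c : ℕ, a ∣ a.lcm (b.lcm c) := fun a b c => Nat.dvd_lcm_left _ _
  have l2 : ∀ a b c : ℕ, b ∣ a.lcm (b.lcm c) := fun a b c =>
    (Nat.dvd_lcm_left _ _).trans (Nat.dvd_lcm_right _ _)
  have l3 : ∀ a b c : ℕ, c ∣ a.lcm (b.lcm c) := fun a b c =>
    (Nat.dvd_lcm_right _ _).trans (Nat.dvd_lcm_right _ _)
  refine Cl.spec_eq_of_dvd ?_ ?_
  · rintro ⟨a, b, x⟩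
    obtain ⟨z, hz⟩ := h2 x
    refine ⟨(a, b, z), ?_⟩
    simp only [Prod.orderOf]
    exact Nat.lcm_dvd (l1 ..) (Nat.lcm_dvd (l2 ..) (hz.trans (l3 ..)))
  · rintro ⟨a, b, c⟩
    simp only [Prod.exists, Prod.orderOf, Nat.lcm_dvd_iff]
    rcases h6 a with ⟨x, ha⟩ | ha
    · exact ⟨b, c, x, ha.trans (l3 ..), l1 .., l2 ..⟩
    rcases h6 b with ⟨x, hb⟩ | hb
    · exact ⟨a, c, x, l1 .., hb.trans (l3 ..), l2 ..⟩
    rcases h6 c with ⟨x, hc⟩ | hc
    · exact ⟨a, b, x, l1 .., l2 .., hc.trans (l3 ..)⟩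
    exact ⟨w₁, w₂, 1, ha.elim (·.trans (l1 ..)) (·.trans (l2 ..)), hb.elim (·.trans (l1 ..)) (·.trans (l2 ..)),
      hc.elim (·.trans (l1 ..)) (·.trans (l2 ..))⟩

/-- Let R be the small Ree group over the field with q = 3^(2m+1) ≥ 27 elements. Then there are finite groups of arbitrarily large order with exactly the same set of element orders as R × R × R. -/
theorem result {K : Type*} [Field K] [Fintype K] {m : ℕ} (hm : 1 ≤ m) (hK : Fintype.card K = 3 ^ (2 * m + 1)) (N : ℕ) :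
    ∃ (H : Type) (_ : Group H) (_ : Fintype H), N < Fintype.card H ∧
      Set.range (orderOf : H → ℕ) = Set.range (orderOf : ↥(Cfsg.Lie.twistedG2 K (3 ^ m)) × ↥(Cfsg.Lie.twistedG2 K (3 ^ m)) × ↥(Cfsg.Lie.twistedG2 K (3 ^ m)) → ℕ) := by
  obtain ⟨R, -⟩ := ReeInst.exists_ree hK
  exact main R (by
    rw [hK]; exact (pow_one 3).symm.trans_lt (Nat.pow_lt_pow_right (by norm_num) (by omega))) N

end Cfsg.Agent.S3626
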