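import Mathlib
import Cfsg.Statements.S3639
import Cfsg.Agent.Perm.GKAff
import Cfsg.Agent.Chev.SzFpf
import Cfsg.Agent.Chev.SzLie
-- import your own Cfsg.Agent.* helpers here

set_option autoImplicit false
open Cfsg

namespace Cfsg.Agent.S3639

open Cfsg.Agent.Chev.Sz Cfsg.Agent.Perm Matrix

/-- elements of odd prime order fix no nonzero vector of the natural module -/
theorem fpf {F : Type*} [Field F] {m : ℕ} [SzF F m] {g : Cfsg.Sz F m} (hp : (orderOf g).Prime)
    (h2 : orderOf g ≠ 2) {v : Fin 4 → F} (hv : mat g *ᵥ v = v) : v = 0 := by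
  have hg1 : g ≠ 1 := fun h => by rw [h, orderOf_one] at hp; exact Nat.not_prime_one hp
  rcases trichotomy g with ⟨x, a, b, hx⟩ | ⟨x, k, hx⟩ | h
  · refine absurd ((Nat.prime_dvd_prime_iff_eq hp Nat.prime_two).mp (hp.dvd_of_dvd_pow (n := 2) ?_)) h2
    rw [orderOf_dvd_iff_pow_eq_one, show g = x * ue a b * x⁻¹ by rw [← hx]; group, conj_pow]
    norm_num [ue_pow_four]
  · have hk : (k : F) ≠ 1 := fun h => hg1 (by
      rw [show k = 1 from Units.ext h, map_one, eq_comm, mul_assoc, inv_mul_eq_one] at hx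
      simpa using hx.symm)
    have h1 : hMat k *ᵥ (mat x⁻¹ *ᵥ v) = mat x⁻¹ *ᵥ v := by
      change mat (heHom F m k) *ᵥ _ = _
      rw [hx, mulVec_mulVec, ← mat_mul, mul_inv_cancel_right, mat_mul, ← mulVec_mulVec, hv]
    have h3 : thInv F (k : F) ≠ 1 := fun h => hk (th_eq_one.mp (by rw [← thInv_sq, h, one_pow]))
    have h4 : thInv F (k : F) * k ≠ 1 := fun h => hk (sq_mul_th_eq_one (by
      rw [← thInv_sq, ← mul_pow, mul_comm, h, one_pow]))
    have h5 : mat x⁻¹ *ᵥ v = 0 := by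
      ext i
      have h6 := congrFun h1 i
      rw [hMat, mulVec_diagonal] at h6
      by_contra h7
      rw [mul_eq_right₀ h7] at h6
      fin_cases i
      exacts [h4 h6, h3 h6, h3 (inv_eq_one.mp h6), h4 (inv_eq_one.mp h6)]
    rw [← one_mulVec v, ← mat_one, ← mul_inv_cancel x, mat_mul, ← mulVec_mulVec, h5, mulVec_zero]
  · by_contra h0
    have h1 := irreducible_of_prime hp (Fpf.orderOf_dvd h) (LinearMap.ker (toLin' (mat g) - LinearMap.id))
      (fun w hw => by
        simp only [LinearMap.mem_ker, LinearMap.sub_apply, toLin'_apply, LinearMap.id_apply,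
          sub_eq_zero] at hw ⊢
        rw [hw, hw])
      (fun e => h0 ((Submodule.eq_bot_iff _).mp e v (by simp [hv])))
    rw [LinearMap.ker_eq_top, sub_eq_zero, ← toLin'_one] at h1
    exact hg1 (mat_injective (toLin'.injective h1))

/-- Let S be the Suzuki group over the field with q = 2^(2m+1) ≥ 8 elements. Then there are finite groups of arbitrarily large order with the same prime graph as S. -/
theorem result {F : Type*} [Field F] [Fintype F] {m : ℕ} (hm : 1 ≤ m) (hF : Fintype.card F = 2 ^ (2 * m + 1)) (N : ℕ) :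
    ∃ (H : Type) (_ : Group H) (_ : Fintype H), N < Fintype.card H ∧ ((∀ r : ℕ, r.Prime → (r ∣ Nat.card ↥(Cfsg.Lie.Sz F (2 ^ (m + 1))) ↔ r ∣ Nat.card H)) ∧
      (∀ r s : ℕ, r.Prime → s.Prime → r ≠ s → ((∃ x : ↥(Cfsg.Lie.Sz F (2 ^ (m + 1))), orderOf x = r * s) ↔ (∃ y : H, orderOf y = r * s)))) := by
  have := SzF.of_card hm hF
  rw [← Nat.card_congr (szEquiv F m).toEquiv]
  obtain ⟨H, _, _, h1, h2, h3⟩ := GK.exists_same_graph 2 (GK.matRep (matHom F m)) (by
    rw [card_Sz, card_F F]; exact ((dvd_pow_self 2 (by omega)).trans (dvd_pow_self _ two_ne_zero)).mul_right _ |>.mul_right _)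
    (fun g hp h2 ⟨v, hv, h⟩ => absurd (fpf hp h2 h) hv) N
  refine ⟨H, inferInstance, inferInstance, h1, h2, fun r s hr hs hrs => ?_⟩
  rw [← h3 r s hr hs hrs]
  exact Set.ext_iff.mp (spec_range_of_mulEquiv (szEquiv F m).symm) _

end Cfsg.Agent.S3639
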