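import Mathlib
import Cfsg.Statements.S3662
import Cfsg.Agent.Chev.G2Spec
import Cfsg.Agent.Perm.GKAff
import Cfsg.Agent.S1059
-- import your own Cfsg.Agent.* helpers here

set_option autoImplicit false
open Cfsg

namespace Cfsg.Agent.S3662

open Cfsg.Agent.Chev.G2 Cfsg.Agent.Perm Cfsg.Agent.Cl

/-- The prime graph of a finite group has the prime divisors of its order as vertices, two distinct primes p, q being joined when the group has an element of order pq; two groups have the same prime graph when they have the same prime divisors and the same joined pairs. Let F be the field with 4 elements and L the Chevalley group of type G₂ over F. There are finite groups of arbitrarily large order with the same prime graph as L. -/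
theorem result {F : Type*} [Field F] [Fintype F] (hF : Fintype.card F = 4) (N : ℕ) :
    ∃ (H : Type) (_ : Group H) (_ : Finite H), N < Nat.card H ∧
      ((∀ p : ℕ, p.Prime → (p ∣ Nat.card ↥(Cfsg.Lie.chevG2.group F) ↔ p ∣ Nat.card H)) ∧
      (∀ p q : ℕ, p.Prime → q.Prime → p ≠ q → ((∃ g : ↥(Cfsg.Lie.chevG2.group F), orderOf g = p * q) ↔ (∃ g : H, orderOf g = p * q)))) := by
  have : CharP F 2 := charP_of_card_eq_prime_pow (f := 2) hF
  obtain ⟨H, _, _, h1, h2, h3⟩ := GK.exists_same_graph 2 (GK.matRep (rho6 F))
    (by rw [S1059.result hF]; norm_num) (fun g hg h2 ⟨v, hv, e⟩ => by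
      obtain ⟨k, hk, e⟩ := pow_eq_one_of_fix hv e
      have h3 : orderOf g ∣ k :=
        (hg.dvd_mul.1 (orderOf_dvd_of_pow_eq_one e)).resolve_left fun h =>
          h2 ((Nat.prime_dvd_prime_iff_eq hg Nat.prime_two).1
            (hg.dvd_of_dvd_pow (show orderOf g ∣ 2 ^ 3 from h)))
      simp only [List.mem_cons, List.not_mem_nil, or_false] at hk
      rcases hk with rfl | rfl
      · obtain ⟨x, hx⟩ := exists_orderOf_mul_add_one F 2
        exact spec_exists_of_dvd x (hx ▸ Nat.mul_dvd_mul_left 2 h3)
      · obtain ⟨x, hx⟩ := exists_orderOf_mul_sub_one F 2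
        exact spec_exists_of_dvd x (hx ▸ Nat.mul_dvd_mul_left 2 h3)) N
  exact ⟨H, inferInstance, inferInstance, by rwa [Nat.card_eq_fintype_card], h2, h3⟩

end Cfsg.Agent.S3662
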