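import Mathlib
import Cfsg.Statements.S3678
import Cfsg.Agent.Cl.PSL2Spec
import Cfsg.Agent.Cl.PSL2Class

set_option autoImplicit false
open Cfsg

set_option linter.unusedVariables false

namespace Cfsg.Agent.S3678

open Cfsg.Agent.Cl.L2 Matrix MulAction
open scoped MatrixGroups

/-- The prime graph of a finite group has the prime divisors of its order as vertices, two distinct primes p, q being joined when the group has an element of order pq; two groups have the same prime graph when they have the same prime divisors and the same joined pairs. Let F be the field with 7 elements. There are finite groups of arbitrarily large order with the same prime graph as PSL(2,F) (the graph on {2, 3, 7} with no edges, which is also the prime graph of PSL(2,8)). -/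
theorem result {F : Type*} [Field F] [Fintype F] (hF : Fintype.card F = 7) (N : ℕ) :
    ∃ (H : Type) (_ : Group H) (_ : Finite H), N < Nat.card H ∧
      ((∀ p : ℕ, p.Prime → (p ∣ Nat.card (Matrix.ProjectiveSpecialLinearGroup (Fin 2) F) ↔ p ∣ Nat.card H)) ∧
      (∀ p q : ℕ, p.Prime → q.Prime → p ≠ q → ((∃ g : (Matrix.ProjectiveSpecialLinearGroup (Fin 2) F), orderOf g = p * q) ↔ (∃ g : H, orderOf g = p * q)))) := by
  rw [← Nat.card_eq_fintype_card] at hF
  have := Fact.mk Nat.prime_two
  have := Fact.mk (by norm_num : Nat.Prime 7)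
  have h8 : Nat.card (GaloisField 2 3) = 8 := GaloisField.card 2 3 (by norm_num)
  have h2 : (2 : GaloisField 2 3) = 0 := two_eq_zero_iff_even.2 (by rw [h8])
  have h2' : (2 : F) ≠ 0 := two_ne_zero_iff_odd.2 (by rw [hF])
  have := charP_of_card (p := 7) (n := 1) hF
  obtain ⟨H, _, _, h1, h3, h4⟩ := exists_same_primeGraph h2 N
  have c1 := card_PSL_char_two h2
  have c2 := card_PSL_two h2'
  rw [h8] at c1
  rw [hF] at c2
  replace c2 : Nat.card PSL(2, F) = 168 := by omega
  refine ⟨H, inferInstance, inferInstance, h1, fun p hp => ?_, fun p q hp hq hpq => ?_⟩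
  · rw [← h3 p hp, c1, c2, show 8 * (8 - 1) * (8 + 1) = 168 * 3 by norm_num, hp.dvd_mul]
    exact ⟨Or.inl, fun h => h.elim id fun h => h.trans (by norm_num)⟩
  · rw [← h4 p q hp hq hpq]
    refine iff_of_false ?_ ?_
    · rintro ⟨g, hg⟩
      have h := orderOf_cases 7 g
      rw [gcd_of_two_ne_zero h2', hF, hg] at h
      rcases h with h | h | h
      · exact not_mul_dvd_prime_pow (k := 1) hp hq hpq (by norm_num : Nat.Prime 7) h
      · exact not_mul_dvd_prime_pow (k := 1) hp hq hpq Nat.prime_three
          (Nat.dvd_of_mul_dvd_mul_right two_pos h)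
      · exact not_mul_dvd_prime_pow (k := 2) hp hq hpq Nat.prime_two
          (Nat.dvd_of_mul_dvd_mul_right two_pos h)
    · rintro ⟨g, hg⟩
      have h := orderOf_cases 2 g
      rw [gcd_of_two_eq_zero h2, h8, hg, mul_one] at h
      rcases h with h | h | h
      · exact not_mul_dvd_prime_pow (k := 1) hp hq hpq Nat.prime_two h
      · exact not_mul_dvd_prime_pow (k := 1) hp hq hpq (by norm_num : Nat.Prime 7) h
      · exact not_mul_dvd_prime_pow (k := 2) hp hq hpq Nat.prime_three h

end Cfsg.Agent.S3678
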