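import Cfsg.Statements.S3680
import Mathlib
import Cfsg.Agent.Perm.Regular
import Cfsg.Agent.GT.MinNormal
import Cfsg.Agent.S0721
-- import your own Cfsg.Agent.* helpers here

set_option autoImplicit false
open Cfsg

namespace Cfsg.Agent.S3680

open MulAction Cfsg.Agent.Perm

theorem nonempty_sup_equiv_prod {G : Type*} [Group G] {M L : Subgroup G}
    (h : L ≤ Subgroup.centralizer (M : Set G)) (hd : M ⊓ L = ⊥) :
    Nonempty (↥(M ⊔ L) ≃* M × L) := by
  have hc : ∀ (m : M) (n : L), Commute (M.subtype m) (L.subtype n) := fun m n => h n.2 m m.2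
  have hi : Function.Injective (M.subtype.noncommCoprod L.subtype hc) := by
    rw [MonoidHom.noncommCoprod_injective]
    refine ⟨M.subtype_injective, L.subtype_injective, ?_⟩
    rw [Subgroup.range_subtype, Subgroup.range_subtype, disjoint_iff, hd]
  refine ⟨((MonoidHom.ofInjective hi).trans (MulEquiv.subgroupCongr ?_)).symm⟩
  rw [MonoidHom.noncommCoprod_range, Subgroup.range_subtype, Subgroup.range_subtype]

/-- `T ^ m × T ^ m ≃ T ^ (m + m)` -/
def prodPow (T : Type) [Group T] (m : ℕ) : (Fin m → T) × (Fin m → T) ≃* (Fin (m + m) → T) :=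
  { (Equiv.sumArrowEquivProdArrow (Fin m) (Fin m) T).symm.trans
      (Equiv.arrowCongr finSumFinEquiv (Equiv.refl T)) with
    map_mul' := fun a b => by
      funext i
      change Sum.elim (a * b).1 (a * b).2 (finSumFinEquiv.symm i) =
        Sum.elim a.1 a.2 (finSumFinEquiv.symm i) * Sum.elim b.1 b.2 (finSumFinEquiv.symm i)
      rcases finSumFinEquiv.symm i with j | j <;> rfl }

/-- The socle of a finite primitive permutation group. Let a finite group G act faithfully and primitively on a set Ω, and let N be the subgroup generated by the minimal normal subgroups of G. Then either N is an elementary abelian p-group for some prime p and acts regularly on Ω (transitively with trivial point stabilizers), or N is isomorphic to a direct product of m ≥ 1 copies of a non-abelian simple group. -/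
theorem result {G Ω : Type*} [Group G] [Finite G] [MulAction G Ω] [FaithfulSMul G Ω] [Finite Ω]
    (hprim : MulAction.IsPreprimitive G Ω) (N : Subgroup G)
    (hN : N = sSup {V : Subgroup G | V.Normal ∧ V ≠ ⊥ ∧ ∀ M : Subgroup G, M.Normal → M ≤ V → M = ⊥ ∨ M = V}) :
    (∃ p : ℕ, p.Prime ∧ IsMulCommutative N ∧ (∀ x : N, x ^ p = 1) ∧
      MulAction.IsPretransitive N Ω ∧ ∀ ω : Ω, MulAction.stabilizer N ω = ⊥) ∨
    (∃ (T : Type) (_ : Group T) (m : ℕ), 1 ≤ m ∧ IsSimpleGroup T ∧ ¬ IsMulCommutative T ∧ Nonempty (N ≃* (Fin m → T))) := by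
  rcases subsingleton_or_nontrivial G with hG | hG
  · left
    refine ⟨2, Nat.prime_two, inferInstance, fun x => Subsingleton.elim _ _, ⟨fun a b => ?_⟩,
      fun ω => Subsingleton.elim _ _⟩
    obtain ⟨g, hg⟩ := exists_smul_eq G a b
    rw [Subsingleton.elim g 1, one_smul] at hg
    exact ⟨1, by rw [one_smul, hg]⟩
  have htr : ∀ M : Subgroup G, GT.IsMinNormal M → IsPretransitive M Ω := fun M hM => by
    have := hM.normal
    exact isPretransitive_of_normal_ne_bot hprim M hM.ne_bot
  obtain ⟨M, hM⟩ := GT.exists_isMinNormal G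
  have := hM.normal
  have := htr M hM
  have := nontrivial_of_ne_bot (X := Ω) hM.ne_bot
  by_cases hu : ∀ L, GT.IsMinNormal L → L = M
  · have hNM : N = M := by
      rw [hN]
      exact le_antisymm (sSup_le fun L hL => (hu L hL).le) (le_sSup hM)
    subst hNM
    by_cases hc : IsMulCommutative N
    · left
      have : Group.IsSolvable N := GT.isSolvable_of_isMulCommutative
      obtain ⟨p, hp, h⟩ := hM.elementary
      exact ⟨p, hp, hc, fun x => Subtype.ext (h.2 x x.2), inferInstance,
        stabilizer_eq_bot_of_comm N hc⟩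
    · right
      obtain ⟨T, _, m, hT, hm, ⟨e⟩⟩ := S0721.result N hM.ne_bot hM.2.2
      refine ⟨T, inferInstance, m, hm, hT, fun h => hc ⟨⟨fun a b => e.injective ?_⟩⟩, ⟨e⟩⟩
      rw [map_mul, map_mul]
      funext i
      exact h.is_comm.comm _ _
  right
  push Not at hu
  obtain ⟨L, hL, hLM⟩ := hu
  have := hL.normal
  have := htr L hL
  have h1 := hL.le_centralizer hM hLM
  have c1 := centralizer_eq_of_transitive (X := Ω) M L h1
  have hNM : N = M ⊔ L := by
    rw [hN]
    refine le_antisymm (sSup_le fun K hK => ?_) (sup_le (le_sSup hM) (le_sSup hL))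
    by_cases hKM : K = M
    · exact hKM ▸ le_sup_left
    · exact (c1 ▸ GT.IsMinNormal.le_centralizer hK hM hKM).trans le_sup_right
  obtain ⟨T, _, m, hT, hm, ⟨e⟩⟩ := S0721.result M hM.ne_bot hM.2.2
  obtain ⟨f⟩ := nonempty_mulEquiv_of_commute (X := Ω) M L h1
  obtain ⟨g⟩ := nonempty_sup_equiv_prod h1 (hM.inf_eq_bot hL hLM.symm)
  refine ⟨T, inferInstance, m + m, by omega, hT, fun h => hLM ?_, ⟨(MulEquiv.subgroupCongr hNM).trans
    (g.trans ((MulEquiv.prodCongr e (f.symm.trans e)).trans (prodPow T m)))⟩⟩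
  have hc : IsMulCommutative M := ⟨⟨fun a b => e.injective (by
    rw [map_mul, map_mul]
    funext i
    exact h.is_comm.comm _ _)⟩⟩
  rw [← c1, centralizer_eq_of_transitive (X := Ω) M M (Subgroup.le_centralizer M)]

end Cfsg.Agent.S3680
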