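import Cfsg.Statements.S3681
import Mathlib
import Cfsg.Agent.Perm.Basic
import Cfsg.Agent.Sym.Basic
-- import your own Cfsg.Agent.* helpers here

set_option autoImplicit false
open Cfsg

namespace Cfsg.Agent.S3681

open MulAction Cfsg.Agent.Perm

/-- Bochert's bound for primitive groups. Let a finite group G act faithfully and primitively on a finite set Ω with n elements, and suppose the image of G in the symmetric group of Ω does not contain the alternating group of Ω. Then |G| · ⌊(n + 1)/2⌋! ≤ n!, that is, the index of G in the symmetric group is at least ⌊(n + 1)/2⌋!. -/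
theorem result {G Ω : Type*} [Group G] [Finite G] [MulAction G Ω] [FaithfulSMul G Ω] [Fintype Ω] [DecidableEq Ω]
    (hprim : MulAction.IsPreprimitive G Ω) (hA : ¬ alternatingGroup Ω ≤ (MulAction.toPermHom G Ω).range) :
    Nat.card G * Nat.factorial ((Fintype.card Ω + 1) / 2) ≤ Nat.factorial (Fintype.card Ω) := by
  classical
  have hex : ∃ k, ∃ Δ : Finset Ω, Δ.card = k ∧ ∀ g : G, (∀ x ∈ Δ, g • x = x) → g = 1 :=
    ⟨_, Finset.univ, rfl, fun g hg => eq_one_of_smul_eq fun x => hg x (Finset.mem_univ x)⟩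
  obtain ⟨Δ, hΔ, hb⟩ := Nat.find_spec hex
  have hmin : ∀ Γ : Finset Ω, Γ.card < Δ.card → ∃ g : G, (∀ x ∈ Γ, g • x = x) ∧ g ≠ 1 := by
    intro Γ hΓ
    have := Nat.find_min hex (hΔ ▸ hΓ)
    push Not at this
    exact this Γ rfl
  have hle := Finset.card_le_univ Δ
  have hk : 2 * Δ.card ≤ Fintype.card Ω := by
    by_contra hk
    obtain ⟨g, hg, hg1⟩ := hmin Δᶜ (by rw [Finset.card_compl]; omega)
    obtain ⟨a, ha⟩ := exists_smul_ne (X := Ω) hg1
    have haΔ : a ∈ Δ := by
      by_contra h
      exact ha (hg a (by simpa using h))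
    obtain ⟨h, hh, hh1⟩ := hmin (Δ.erase a) (Finset.card_erase_lt_of_mem haΔ)
    have hha : h • a ≠ a := fun e => hh1 (hb h fun x hx => by
      by_cases hxa : x = a
      · rw [hxa, e]
      · exact hh x (Finset.mem_erase.2 ⟨hxa, hx⟩))
    have := (Sym.isThreeCycle_commutator_of_inter (g := toPermHom G Ω g) (h := toPermHom G Ω h)
      (a := a) ha hha (fun x h1 h2 => by
        by_contra hxa
        by_cases hx : x ∈ Δ
        · exact h2 (hh x (Finset.mem_erase.2 ⟨hxa, hx⟩))
        · exact h1 (hg x (by simpa using hx)))).2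
    exact hA (Equiv.Perm.alternatingGroup_le_of_isPreprimitive_of_isThreeCycle_mem
      (isPreprimitive_range_iff.2 hprim) this ⟨g * h * g⁻¹ * h⁻¹, by simp only [map_mul, map_inv]⟩)
  have h1 : Nat.card G ≤ Nat.card (Δ ↪ Ω) := Nat.card_le_card_of_injective
    (fun g => ⟨fun x => g • (x : Ω), fun x y e => Subtype.ext (smul_left_cancel g e)⟩)
    (fun g h e => by
      rw [← inv_mul_eq_one]
      apply hb
      intro x hx
      rw [mul_smul, inv_smul_eq_iff]
      exact (DFunLike.congr_fun e ⟨x, hx⟩).symm)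
  rw [Nat.card_eq_fintype_card (α := Δ ↪ Ω), Fintype.card_embedding_eq, Fintype.card_coe] at h1
  rw [← Nat.factorial_mul_descFactorial hle, mul_comm]
  exact Nat.mul_le_mul (Nat.factorial_le (by omega)) h1

end Cfsg.Agent.S3681
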