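import Cfsg.Statements.S3684
import Mathlib
import Cfsg.Agent.Perm.Regular
import Cfsg.Agent.Inv.Dihedral
-- import your own Cfsg.Agent.* helpers here

set_option autoImplicit false
open Cfsg

namespace Cfsg.Agent.S3684

open MulAction Cfsg.Agent.Perm

theorem eq_bot_of_normal_le {G Ω : Type*} [Group G] [MulAction G Ω] [FaithfulSMul G Ω]
    [IsPretransitive G Ω] (N : Subgroup G) [hN : N.Normal] {a : Ω} (h : N ≤ stabilizer G a) :
    N = ⊥ := by
  rw [eq_bot_iff]
  intro n hn
  apply eq_one_of_smul_eq (X := Ω)
  intro x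
  obtain ⟨g, rfl⟩ := exists_smul_eq G a x
  have : (g⁻¹ * n * g) • a = a := h (hN.conj_mem' n hn g)
  rwa [mul_smul, mul_smul, inv_smul_eq_iff] at this

theorem exists_invol {G : Type*} [Group G] {H : Subgroup G} (h : Nat.card H = 2) :
    ∃ s ∈ H, s ≠ 1 ∧ s * s = 1 ∧ ∀ g ∈ H, g = 1 ∨ g = s := by
  obtain ⟨s, hs, hu⟩ := (Nat.card_eq_two_iff' (1 : H)).1 h
  refine ⟨s, s.2, fun e => hs (Subtype.ext e), ?_, fun g hg => ?_⟩
  · have := pow_card_eq_one' (x := s)
    rw [h, pow_two] at this
    exact congrArg Subtype.val this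
  · by_cases h1 : g = 1
    · exact Or.inl h1
    · exact Or.inr (congrArg Subtype.val (hu ⟨g, hg⟩ fun e => h1 (congrArg Subtype.val e)))

/-- Let a finite group G act faithfully and primitively on a set Ω, and suppose the stabilizer of a point a has an orbit of length 2. Then the stabilizer of a has order 2 and G is isomorphic to the dihedral group of order 2p for some prime p. -/
theorem result {G Ω : Type*} [Group G] [Finite G] [MulAction G Ω] [FaithfulSMul G Ω] [Finite Ω]
    (hprim : MulAction.IsPreprimitive G Ω) (a b : Ω) (h2 : Nat.card (MulAction.orbit (MulAction.stabilizer G a) b) = 2) :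
    Nat.card (MulAction.stabilizer G a) = 2 ∧ ∃ p : ℕ, p.Prime ∧ Nonempty (G ≃* DihedralGroup p) := by
  rw [Nat.card_coe_set_eq, ncard_orbit_eq_relIndex] at h2
  have hab : ¬ stabilizer G a ≤ stabilizer G b := fun h => by
    rw [Subgroup.relIndex_eq_one.2 h] at h2; omega
  have hc := card_stabilizer_eq (G := G) a b
  have hba : ¬ stabilizer G b ≤ stabilizer G a := fun h => hab (stabilizer_eq_of_le h).ge
  have htop : stabilizer G a ⊔ stabilizer G b = ⊤ :=
    (eq_stabilizer_or_eq_top hprim a le_sup_left).resolve_left fun h => hba (sup_eq_left.1 h)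
  have e1 := Subgroup.card_mul_index ((stabilizer G b).subgroupOf (stabilizer G a))
  have e2 := Subgroup.card_mul_index ((stabilizer G a).subgroupOf (stabilizer G b))
  have e3 : Nat.card ((stabilizer G b).subgroupOf (stabilizer G a)) =
      Nat.card ((stabilizer G a).subgroupOf (stabilizer G b)) := by
    rw [← Subgroup.inf_subgroupOf_right, ← Subgroup.inf_subgroupOf_left (stabilizer G a),
      Nat.card_congr (Subgroup.subgroupOfEquivOfLe inf_le_right).toEquiv,
      Nat.card_congr (Subgroup.subgroupOfEquivOfLe inf_le_left).toEquiv]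
  have h2' : (stabilizer G a).relIndex (stabilizer G b) = 2 := by
    rw [← h2]
    apply Nat.eq_of_mul_eq_mul_left (Nat.card_pos (α := (stabilizer G a).subgroupOf (stabilizer G b)))
    rw [Subgroup.relIndex, Subgroup.relIndex, e2, ← e3, e1, hc]
  have hN : (stabilizer G a ⊓ stabilizer G b).Normal := by
    rw [← Subgroup.normalizer_eq_top_iff, eq_top_iff, ← htop, sup_le_iff]
    constructor
    · rw [← Subgroup.normal_subgroupOf_iff_le_normalizer inf_le_left, Subgroup.inf_subgroupOf_left]
      exact Subgroup.normal_of_index_eq_two h2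
    · rw [← Subgroup.normal_subgroupOf_iff_le_normalizer inf_le_right,
        Subgroup.inf_subgroupOf_right]
      exact Subgroup.normal_of_index_eq_two h2'
  have hbot := eq_bot_of_normal_le _ (inf_le_left : stabilizer G a ⊓ stabilizer G b ≤ _)
  have ha2 : Nat.card (stabilizer G a) = 2 := by
    rw [← Subgroup.inf_relIndex_left, hbot, Subgroup.relIndex_bot_left] at h2
    exact h2
  refine ⟨ha2, ?_⟩
  obtain ⟨s, hs, hs1, hs2, hsu⟩ := exists_invol ha2
  obtain ⟨t, ht, ht1, ht2, htu⟩ := exists_invol (hc ▸ ha2 : Nat.card (stabilizer G b) = 2)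
  have hst : s * t ≠ 1 := by
    intro h
    have : s = t := by rw [← mul_left_inj t, h, ht2]
    have h3 : s ∈ stabilizer G a ⊓ stabilizer G b := ⟨hs, this ▸ ht⟩
    rw [hbot] at h3
    exact hs1 h3
  have hns : s ∉ Subgroup.zpowers (s * t) := by
    intro h
    have htop' : Subgroup.zpowers (s * t) = ⊤ := by
      rw [eq_top_iff, ← htop, sup_le_iff]
      constructor
      · intro g hg
        rcases hsu g hg with rfl | rfl
        · exact Subgroup.one_mem _
        · exact h
      · intro g hg
        rcases htu g hg with rfl | rfl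
        · exact Subgroup.one_mem _
        · simpa using Subgroup.mul_mem _ (Subgroup.inv_mem _ h) (Subgroup.mem_zpowers (s * g))
    have : IsCyclic G := ⟨s * t, fun x => by
      have : x ∈ Subgroup.zpowers (s * t) := htop' ▸ Subgroup.mem_top x
      exact this⟩
    have := this.isMulCommutative
    have h3 := eq_bot_of_normal_le (stabilizer G a) le_rfl
    rw [h3] at hs
    exact hs1 hs
  have hn : orderOf (s * t) ≠ 1 := by simpa using hst
  obtain ⟨p, hp, m, hm⟩ := Nat.exists_prime_and_dvd hn
  have hm0 : m ≠ 0 := by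
    rintro rfl
    exact (orderOf_pos _).ne' hm
  have hinv : s * (s * t) * s⁻¹ = (s * t)⁻¹ := by
    rw [← mul_assoc, hs2, one_mul, mul_inv_rev, inv_eq_of_mul_eq_one_right ht2]
  obtain ⟨e⟩ := Inv.nonempty_closure_equiv_dihedral (c := (s * t) ^ m) (n := p) hs2
    (by rw [← conj_pow, hinv, inv_pow])
    (fun h => hns (Subgroup.zpowers_le.2 (Subgroup.npow_mem_zpowers _ m) h))
    (by rw [orderOf_pow' _ hm0, hm, Nat.gcd_mul_left_left, Nat.mul_div_cancel _ (by omega)])
  rcases eq_stabilizer_or_eq_top hprim a (H := Subgroup.closure {(s * t) ^ m, s}) (fun g hg => by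
    rcases hsu g hg with rfl | rfl
    · exact Subgroup.one_mem _
    · exact Subgroup.subset_closure (by simp)) with h | h
  · have := Nat.card_congr e.toEquiv
    rw [h, ha2, DihedralGroup.nat_card] at this
    have := hp.two_le
    omega
  · exact ⟨p, hp, ⟨(Subgroup.topEquiv.symm.trans (MulEquiv.subgroupCongr h.symm)).trans e⟩⟩

end Cfsg.Agent.S3684
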