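import Cfsg.Statements.S3687
import Mathlib
import Cfsg.Agent.Perm.Knapp
-- import your own Cfsg.Agent.* helpers here

set_option autoImplicit false
open Cfsg

namespace Cfsg.Agent.S3687

open Subgroup MulAction Equiv Cfsg.Agent.Perm Cfsg.Agent.GT

theorem aux {M : Type*} [Group M] {d e : ℕ} (φ : M →* Perm (Fin d)) (ψ : M →* Perm (Fin e))
    (h0 : φ.ker ⊓ ψ.ker = ⊥) (h1 : alternatingGroup _ ≤ ψ.ker.map φ)
    (h2 : alternatingGroup _ ≤ φ.ker.map ψ) (I : Subgroup (Perm (Fin d) × Perm (Fin e)))
    (h3 : ∀ x, (φ x, ψ x) ∈ I)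
    (h4 : ∀ y ∈ I, ∃ x, Perm.sign (φ x) = Perm.sign y.1 ∧ Perm.sign (ψ x) = Perm.sign y.2) :
    Nonempty (M ≃* I) := by
  have hi : Function.Injective (φ.prod ψ) := by
    rw [← MonoidHom.ker_eq_bot_iff, MonoidHom.ker_prod, h0]
  have : (φ.prod ψ).range = I := by
    apply le_antisymm
    · rintro _ ⟨x, rfl⟩
      exact h3 x
    · intro y hy
      obtain ⟨x, e1, e2⟩ := h4 y hy
      obtain ⟨a, ha, ea⟩ := h1 (show y.1 * (φ x)⁻¹ ∈ alternatingGroup _ by simp [e1])
      obtain ⟨b, hb, eb⟩ := h2 (show y.2 * (ψ x)⁻¹ ∈ alternatingGroup _ by simp [e2])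
      refine ⟨a * b * x, Prod.ext ?_ ?_⟩
      · simp [ea, MonoidHom.mem_ker.1 hb]
      · simp [eb, MonoidHom.mem_ker.1 ha]
  exact ⟨(MonoidHom.ofInjective hi).trans (MulEquiv.subgroupCongr this)⟩

/-- Let a finite group G act faithfully and primitively on a set Ω, let a and b be points such that the orbit Δ of b under the stabilizer H of a has d ≥ 6 elements, and suppose that the permutation group induced by H on Δ contains the alternating group of Δ (the image of H in the symmetric group of Δ has index at most 2) while H does not act faithfully on Δ. Then either H induces exactly the alternating group of Δ and H is isomorphic to the direct product of the alternating groups of degrees d and d - 1; or H induces the full symmetric group of Δ and H is isomorphic to one of: the direct product of the symmetric groups of degrees d and d - 1, the direct product of the symmetric group of degree d with the alternating group of degree d - 1, or the subgroup of the direct product of the symmetric groups of degrees d and d - 1 consisting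 of the pairs of permutations with equal signs. -/
theorem result {G Ω : Type*} [Group G] [Finite G] [MulAction G Ω] [FaithfulSMul G Ω] [Finite Ω]
    (hprim : MulAction.IsPreprimitive G Ω) (a b : Ω) (d : ℕ) (hd : Nat.card (MulAction.orbit (MulAction.stabilizer G a) b) = d) (h6 : 6 ≤ d)
    (halt : (MulAction.toPermHom (MulAction.stabilizer G a) (MulAction.orbit (MulAction.stabilizer G a) b)).range.index ≤ 2)
    (hunf : ¬ Function.Injective (MulAction.toPermHom (MulAction.stabilizer G a) (MulAction.orbit (MulAction.stabilizer G a) b))) :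
    ((MulAction.toPermHom (MulAction.stabilizer G a) (MulAction.orbit (MulAction.stabilizer G a) b)).range.index = 2 ∧
      Nonempty (MulAction.stabilizer G a ≃* alternatingGroup (Fin d) × alternatingGroup (Fin (d - 1)))) ∨
    ((MulAction.toPermHom (MulAction.stabilizer G a) (MulAction.orbit (MulAction.stabilizer G a) b)).range = ⊤ ∧
      (Nonempty (MulAction.stabilizer G a ≃* Equiv.Perm (Fin d) × Equiv.Perm (Fin (d - 1))) ∨
       Nonempty (MulAction.stabilizer G a ≃* Equiv.Perm (Fin d) × alternatingGroup (Fin (d - 1))) ∨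
       Nonempty (MulAction.stabilizer G a ≃* ((Equiv.Perm.sign.comp (MonoidHom.fst (Equiv.Perm (Fin d)) (Equiv.Perm (Fin (d - 1))))) *
         (Equiv.Perm.sign.comp (MonoidHom.snd (Equiv.Perm (Fin d)) (Equiv.Perm (Fin (d - 1)))))).ker))) := by
  have h := twPair_stabilizer (G := G) (a := a) (b := b) (by omega)
  have hd' := (relIndex_stabilizer (stabilizer G a) b).trans hd
  have e0 := (toPermHom (stabilizer G a) (orbit (stabilizer G a) b)).range.index_mul_card
  rw [← relIndex_eq_card_range (ker_toPermHom_orbit _ _), Nat.card_perm, hd] at e0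
  obtain ⟨φ, ψ, k1, k2, k3, k4, k5⟩ := h.knapp h6 hd' (e0.ge.trans (Nat.mul_le_mul_right _ halt))
    (fun e => hunf (by rw [← MonoidHom.ker_eq_bot_iff, ker_toPermHom_orbit, e, bot_subgroupOf]))
  have e1 := φ.range.index_mul_card
  rw [Nat.card_perm, Nat.card_eq_fintype_card (α := Fin d), Fintype.card_fin, ← e0,
    relIndex_eq_card_range k1] at e1
  have e2 := Nat.eq_of_mul_eq_mul_right Nat.card_pos e1
  have : Nontrivial (Fin d) := Fin.nontrivial_iff_two_le.2 (by omega)
  have : Nontrivial (Fin (d - 1)) := Fin.nontrivial_iff_two_le.2 (by omega)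
  rcases Sym.eq_alternatingGroup_or_eq_top_of_le (k3.trans (map_le_range _ _)) with h1 | h1
  · refine Or.inl ⟨by rw [← e2, h1, alternatingGroup.index_eq_two], ?_⟩
    have h2 : ψ.range = alternatingGroup _ := by
      refine (Sym.eq_alternatingGroup_or_eq_top_of_le (k4.trans (map_le_range _ _))).resolve_right
        fun h2 => ?_
      have h3 := two_mul_card_alt (α := Fin d) (by simp; omega)
      rw [← h1, k5, h2, card_top, Nat.card_perm, Nat.card_eq_fintype_card, Fintype.card_fin,
        Fintype.card_fin, mul_comm _ d, Nat.mul_factorial_pred (by omega)] at h3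
      have := Nat.factorial_pos d
      omega
    have h3 : ∀ x, φ x ∈ alternatingGroup _ := fun x => h1 ▸ ⟨x, rfl⟩
    have h4 : ∀ x, ψ x ∈ alternatingGroup _ := fun x => h2 ▸ ⟨x, rfl⟩
    obtain ⟨i⟩ := aux φ ψ k2 k3 k4 ((alternatingGroup _).prod (alternatingGroup _))
      (fun x => ⟨h3 x, h4 x⟩) fun y hy => ⟨1, by simpa using (Perm.mem_alternatingGroup.1 hy.1).symm,
        by simpa using (Perm.mem_alternatingGroup.1 hy.2).symm⟩
    exact ⟨i.trans (Subgroup.prodEquiv _ _)⟩
  · refine Or.inr ⟨by rw [← index_eq_one, ← e2, h1, index_top], ?_⟩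
    obtain ⟨u, hu⟩ : ∃ u, Perm.sign (φ u) = -1 := by
      obtain ⟨σ, hσ⟩ := Perm.sign_surjective (Fin d) (-1)
      obtain ⟨u, rfl⟩ : σ ∈ φ.range := h1 ▸ mem_top σ
      exact ⟨u, hσ⟩
    by_cases c1 : ∀ x, Perm.sign (ψ x) = 1
    · obtain ⟨i⟩ := aux φ ψ k2 k3 k4 ((⊤ : Subgroup _).prod (alternatingGroup _))
        (fun x => ⟨mem_top _, c1 x⟩) fun y hy => by
          have h2 := (Perm.mem_alternatingGroup.1 hy.2).symm
          rcases Int.units_eq_one_or (Perm.sign y.1) with h3 | h3
          · exact ⟨1, by simp [h3], by simpa using h2⟩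
          · exact ⟨u, hu.trans h3.symm, (c1 u).trans h2⟩
      exact Or.inr (Or.inl ⟨i.trans ((Subgroup.prodEquiv _ _).trans (topEquiv.prodCongr (MulEquiv.refl _)))⟩)
    by_cases c2 : ∀ x, Perm.sign (φ x) * Perm.sign (ψ x) = 1
    · refine Or.inr (Or.inr (aux φ ψ k2 k3 k4 _ c2 fun y hy => ?_))
      have h2 : Perm.sign y.1 * Perm.sign y.2 = 1 := hy
      have h4 := c2 u
      rcases Int.units_eq_one_or (Perm.sign y.1) with h3 | h3
      · exact ⟨1, by simp [h3], by simpa [h3] using h2.symm⟩
      · refine ⟨u, hu.trans h3.symm, ?_⟩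
        rw [hu] at h4
        rw [h3] at h2
        exact mul_left_cancel (h4.trans h2.symm)
    · push Not at c1 c2
      obtain ⟨v, hv⟩ := c1
      obtain ⟨w, hw⟩ := c2
      obtain ⟨i⟩ := aux φ ψ k2 k3 k4 ⊤ (fun x => mem_top _) fun y _ => by
        by_contra hc
        push Not at hc
        have t1 := hc 1
        have t2 := hc u
        have t3 := hc v
        have t4 := hc w
        have t5 := hc (u * v)
        have t6 := hc (u * w)
        have t7 := hc (v * w)
        simp only [map_mul, map_one] at t1 t5 t6 t7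
        revert t1 t2 t3 t4 t5 t6 t7 hu hv hw
        generalize Perm.sign (φ u) = a1, Perm.sign (φ v) = a2, Perm.sign (φ w) = a3,
          Perm.sign (ψ u) = b1, Perm.sign (ψ v) = b2, Perm.sign (ψ w) = b3,
          Perm.sign y.1 = s, Perm.sign y.2 = t
        rintro rfl
        rcases Int.units_eq_one_or s with rfl | rfl <;>
        rcases Int.units_eq_one_or t with rfl | rfl <;>
        rcases Int.units_eq_one_or b2 with rfl | rfl <;>
        rcases Int.units_eq_one_or a2 with rfl | rfl <;>
        rcases Int.units_eq_one_or a3 with rfl | rfl <;>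
        rcases Int.units_eq_one_or b1 with rfl | rfl <;>
        rcases Int.units_eq_one_or b3 with rfl | rfl <;> simp
      exact Or.inl ⟨i.trans topEquiv⟩

end Cfsg.Agent.S3687
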