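import Cfsg.Statements.S3688
import Mathlib
import Cfsg.Agent.Perm.TWPerm
-- import your own Cfsg.Agent.* helpers here

set_option autoImplicit false
open Cfsg

namespace Cfsg.Agent.S3688

open Subgroup MulAction Cfsg.Agent.Perm Cfsg.Agent.GT

/-- Let a finite group G act faithfully and primitively on a set Ω, let a and b be points such that the orbit of b under the stabilizer H of a has length d ≥ 2, and suppose that H is not strongly constrained: for no prime p does the generalized Fitting subgroup of H coincide with the largest normal p-subgroup of H. Then the order of H divides d! · ((d - 1)!)^d. -/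
theorem result {G Ω : Type*} [Group G] [Finite G] [MulAction G Ω] [FaithfulSMul G Ω] [Finite Ω]
    (hprim : MulAction.IsPreprimitive G Ω) (a b : Ω) (d : ℕ) (hd : Nat.card (MulAction.orbit (MulAction.stabilizer G a) b) = d) (h2 : 2 ≤ d)
    (hnc : ∀ p : ℕ, p.Prime → Cfsg.generalizedFittingSubgroup (MulAction.stabilizer G a) ≠ Cfsg.pCore p (MulAction.stabilizer G a)) :
    Nat.card (MulAction.stabilizer G a) ∣ Nat.factorial d * (Nat.factorial (d - 1)) ^ d := by
  subst hd
  have h := twPair_stabilizer (G := G) h2
  rw [← relIndex_stabilizer]
  apply h.card_dvd_of_eq_bot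
  by_contra h0
  push Not at h0
  obtain ⟨p, hp, -, -, h1, -⟩ := h.thompson_wielandt h0.1 h0.2
  exact hnc p hp (genFitting_eq_pCore_of_isPGroup hp h1)

end Cfsg.Agent.S3688
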