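import Cfsg.Statements.S3693
import Mathlib
import Cfsg.Agent.Perm.TWPerm
-- import your own Cfsg.Agent.* helpers here

set_option autoImplicit false
open Cfsg

namespace Cfsg.Agent.S3693

open Subgroup MulAction Cfsg.Agent.Perm Cfsg.Agent.GT

/-- Let a finite group G act faithfully and primitively on a set Ω, let a and b be points such that the orbit Δ of b under the stabilizer H of a has length d ≥ 2, and consider the permutation group induced on Δ by the elements of H fixing b. If that induced group has trivial Fitting subgroup (no non-trivial nilpotent normal subgroup), then the two-point stabilizer of a and b has trivial Fitting subgroup and the order of H divides d! · ((d - 1)!)^d. -/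
theorem result {G Ω : Type*} [Group G] [Finite G] [MulAction G Ω] [FaithfulSMul G Ω] [Finite Ω]
    (hprim : MulAction.IsPreprimitive G Ω) (a b : Ω) (d : ℕ) (hd : Nat.card (MulAction.orbit (MulAction.stabilizer G a) b) = d) (h2 : 2 ≤ d)
    (hF : Cfsg.fittingSubgroup ↥(((MulAction.stabilizer G b).subgroupOf (MulAction.stabilizer G a)).map (MulAction.toPermHom (MulAction.stabilizer G a) (MulAction.orbit (MulAction.stabilizer G a) b))) = ⊥) :
    Cfsg.fittingSubgroup ↥(MulAction.stabilizer G a ⊓ MulAction.stabilizer G b) = ⊥ ∧
      Nat.card (MulAction.stabilizer G a) ∣ Nat.factorial d * (Nat.factorial (d - 1)) ^ d := by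
  subst hd
  have h := twPair_stabilizer (G := G) h2
  have h0 : ∀ p : ℕ, p.Prime → pCoreOf p (stabilizer G a ⊓ stabilizer G b) = ⊥ := fun p hp =>
    pCoreOf_inf_stabilizer_eq_bot h2 hp (le_bot_iff.1
      (fittingOf_eq_bot_iff.2 hF ▸ pCoreOf_le_fittingOf hp _))
  refine ⟨?_, ?_⟩
  · rw [← fittingOf_eq_bot_iff, fittingOf_eq_iSup_pCoreOf, iSup_eq_bot]
    exact fun p => h0 p p.2
  · rw [← relIndex_stabilizer]
    exact h.card_dvd_of_eq_bot (h.core₂_eq_bot_of_pCoreOf h0)

end Cfsg.Agent.S3693
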