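import Mathlib
import Cfsg.Statements.S3696
import Cfsg.Agent.GT.MinNormal
import Cfsg.Agent.Perm.Basic
-- import your own Cfsg.Agent.* helpers here

set_option autoImplicit false
open Cfsg

namespace Cfsg.Agent.S3696

open MulAction Subgroup Cfsg.Agent.Perm

theorem amgm {a b : ℝ} (ha : 0 ≤ a) (hb : 0 ≤ b) (i j : ℕ) (hi : 0 < i) :
    (a / i) ^ i * (b / j) ^ j ≤ ((a + b) / (i + j : ℕ)) ^ (i + j) := by
  rcases Nat.eq_zero_or_pos j with rfl | hj
  · simp only [pow_zero, mul_one, add_zero]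
    gcongr
    linarith
  have hi' : (0 : ℝ) < i := by exact_mod_cast hi
  have hj' : (0 : ℝ) < j := by exact_mod_cast hj
  have h := Real.geom_mean_le_arith_mean2_weighted (w₁ := i / (i + j)) (w₂ := j / (i + j))
    (p₁ := a / i) (p₂ := b / j) (by positivity) (by positivity) (by positivity) (by positivity)
    (by field_simp)
  have h2 := pow_le_pow_left₀ (by positivity) h (i + j)
  rw [mul_pow, ← Real.rpow_mul_natCast (by positivity), ← Real.rpow_mul_natCast (by positivity)]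
    at h2
  push_cast at h2 ⊢
  rw [div_mul_cancel₀ _ (by positivity), div_mul_cancel₀ _ (by positivity), Real.rpow_natCast,
    Real.rpow_natCast] at h2
  refine h2.trans (le_of_eq ?_)
  congr 1
  field_simp

theorem pow_le_div_pow {p a d : ℕ} (hp : 2 ≤ p) (hd : 0 < d) (hda : d ≤ a) :
    ((p ^ a : ℕ) : ℝ) ≤ (((p ^ a : ℕ) : ℝ) / d) ^ d := by
  rw [div_pow, le_div_iff₀ (by positivity)]
  norm_cast
  obtain ⟨e, rfl⟩ : ∃ e, d = e + 1 := ⟨d - 1, by omega⟩
  rw [pow_succ' (p ^ a)]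
  apply Nat.mul_le_mul_left
  calc (e + 1) ^ (e + 1) ≤ (2 ^ e) ^ (e + 1) := Nat.pow_le_pow_left Nat.lt_two_pow_self _
    _ = (2 ^ (e + 1)) ^ e := by rw [← pow_mul, ← pow_mul, mul_comm]
    _ ≤ (p ^ a) ^ e := Nat.pow_le_pow_left
      ((Nat.pow_le_pow_left hp _).trans (Nat.pow_le_pow_right (by omega) hda)) _

theorem card_eq_mul {G Ω : Type*} [Group G] [MulAction G Ω] (B : Subgroup G) (x : Ω) :
    Nat.card B = Nat.card (B ⊓ stabilizer G x : Subgroup G) * (orbit B x).ncard := by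
  rw [ncard_orbit_eq_relIndex, relIndex, ← ((stabilizer G x).subgroupOf B).card_mul_index,
    ← inf_subgroupOf_left, Nat.card_congr (subgroupOfEquivOfLe inf_le_left).toEquiv]

theorem key {G Ω : Type*} [CommGroup G] [Finite G] [MulAction G Ω] [Finite Ω] {p : ℕ}
    (hp : p.Prime) (hG : IsPGroup p G) (B : Subgroup G) : ∀ (S : Set Ω) (k : ℕ),
      (∀ b ∈ B, ∀ x ∈ S, b • x ∈ S) → (∀ b ∈ B, (∀ x ∈ S, b • x = x) → b = 1) →
      Nat.card (B ⊓ (powMonoidHom p : G →* G).ker : Subgroup G) = p ^ k →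
      (Nat.card B : ℝ) ≤ ((S.ncard : ℝ) / k) ^ k := by
  have := Fact.mk hp
  induction B using GT.subgroup_lt_induction with
  | h B ih =>
  intro S k hS hf hk
  set E := (powMonoidHom p : G →* G).ker with hE
  by_cases hB : B = ⊥
  · rw [hB, bot_inf_eq, card_bot] at hk
    rw [(Nat.pow_eq_one.mp hk.symm).resolve_left hp.one_lt.ne', hB]
    simp
  obtain ⟨e, he, he1⟩ : ∃ e ∈ B ⊓ E, e ≠ 1 := by
    obtain ⟨n, hn, hc⟩ := (hG.to_subgroup B).nontrivial_iff_card.mp
      ((nontrivial_iff_ne_bot B).mpr hB)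
    obtain ⟨g, hg⟩ := exists_prime_orderOf_dvd_card' (G := B) p (hc ▸ dvd_pow_self p hn.ne')
    refine ⟨g, ⟨g.2, ?_⟩, fun h => ?_⟩
    · change (g : G) ^ p = 1
      rw [← hg, ← coe_pow, pow_orderOf_eq_one]; rfl
    · rw [show g = 1 from Subtype.ext h, orderOf_one] at hg
      exact hp.one_lt.ne hg
  obtain ⟨x, hxS, hx⟩ : ∃ x ∈ S, e • x ≠ x := by
    by_contra hc
    push Not at hc
    exact he1 (hf e he.1 hc)
  obtain ⟨k', hk'⟩ := IsPGroup.iff_card.mp (hG.to_subgroup (B ⊓ stabilizer G x ⊓ E))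
  have hO : orbit B x ⊆ S := by
    rintro _ ⟨b, rfl⟩
    exact hS b b.2 x hxS
  have h1 := ih (B ⊓ stabilizer G x) (lt_of_le_of_ne inf_le_left fun h => hx (h.ge he.1).2)
    (S \ orbit B x) k' (by
      rintro b hb y ⟨hy, hy'⟩
      refine ⟨hS b hb.1 y hy, fun h => hy' ?_⟩
      have := mem_orbit_of_mem_orbit (⟨b, hb.1⟩ : B)⁻¹ h
      rwa [← show (⟨b, hb.1⟩ : B) • y = b • y from rfl, inv_smul_smul] at this) (by
      intro b hb h
      refine hf b hb.1 fun y hy => ?_
      by_cases hy' : y ∈ orbit B x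
      · obtain ⟨c, rfl⟩ := hy'
        change b • (c : G) • x = (c : G) • x
        rw [smul_comm, show b • x = x from hb.2]
      · exact h y ⟨hy, hy'⟩) hk'
  obtain ⟨a, ha⟩ := (hG.to_subgroup B).card_orbit x
  obtain ⟨d, hd⟩ := (hG.to_subgroup (B ⊓ E)).card_orbit x
  rw [Nat.card_coe_set_eq] at ha hd
  have h2 := card_eq_mul (B ⊓ E) x
  rw [hk, inf_right_comm, hk', hd, ← pow_add] at h2
  obtain rfl := Nat.pow_right_injective hp.two_le h2
  have h3 : d ≤ a := by
    rw [← Nat.pow_le_pow_iff_right hp.one_lt, ← ha, ← hd]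
    refine Set.ncard_le_ncard ?_
    rintro _ ⟨b, rfl⟩
    exact ⟨⟨b, b.2.1⟩, rfl⟩
  have h4 : 0 < d := by
    rw [← Nat.pow_lt_pow_iff_right hp.one_lt, ← hd, pow_zero]
    exact (Set.one_lt_ncard (Set.toFinite _)).mpr ⟨_, ⟨⟨e, he⟩, rfl⟩, x, mem_orbit_self x, hx⟩
  have h5 := Set.ncard_sdiff_add_ncard_of_subset hO
  rw [card_eq_mul B x, ha, ← h5, ha, add_comm k', Nat.cast_add (S \ orbit B x).ncard,
    add_comm ((S \ orbit B x).ncard : ℝ), Nat.cast_mul, mul_comm]
  refine le_trans ?_ (amgm (by positivity) (by positivity) d k' h4)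
  exact mul_le_mul (pow_le_div_pow hp.two_le h4 h3) h1 (by positivity) (by positivity)


/-- Let p be a prime, Ω a finite set with n ≥ p elements, and A an abelian p-subgroup of the symmetric group on Ω whose elements of order dividing p number p^k (so k is the rank of A). Then |A| · k^k ≤ n^k, that is, |A| ≤ (n/k)^k. -/
theorem result {Ω : Type*} [Fintype Ω] [DecidableEq Ω]
    (p : ℕ) (hp : p.Prime) (hn : p ≤ Fintype.card Ω) (A : Subgroup (Equiv.Perm Ω)) (hA : IsPGroup p A) (hab : IsMulCommutative A)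
    (k : ℕ) (hk : Nat.card {x : A // x ^ p = 1} = p ^ k) :
    Nat.card A * k ^ k ≤ Fintype.card Ω ^ k := by
  let : CommGroup A := { (inferInstance : Group A) with mul_comm := hab.is_comm.comm }
  have h := key (Ω := Ω) hp hA ⊤ Set.univ k (fun _ _ _ _ => trivial)
    (fun b _ h => Subtype.ext (Equiv.ext fun x => h x trivial)) (by
      rw [top_inf_eq, ← hk]; rfl)
  rw [card_top, Set.ncard_univ, Nat.card_eq_fintype_card (α := Ω), div_pow] at h
  rcases Nat.eq_zero_or_pos k with rfl | hk0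
  · simpa using h
  · rw [le_div_iff₀ (by positivity)] at h
    exact_mod_cast h

end Cfsg.Agent.S3696
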