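import Mathlib
import Cfsg.Statements.S3708
import Cfsg.Agent.Phan.Weak
import Cfsg.Agent.Phan.UDiag

set_option autoImplicit false
open Cfsg

namespace Cfsg.Agent.S3708

open Cfsg.Agent.Phan Cfsg.Agent.Cl in
theorem std_of_tori {G : Type*} [Group G] {F : Type*} [Field F] {σ : F →+* F} {q : ℕ}
    (hq : UField σ q) {A B : Subgroup G} (eA : SU 2 F q ≃* A) (eB : SU 2 F q ≃* B)
    (e : ↥(A ⊔ B) ≃* SU 3 F q) {a b : G} (ha : a ∈ A) (hb : b ∈ B) (ha1 : a ≠ 1) (hb1 : b ≠ 1)
    (ha' : a ^ (q + 1) = 1) (hb' : b ^ (q + 1) = 1) (hc : a * b = b * a) :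
    IsStandardUnitaryPair (A ⊔ B) A B F q := by
  let φ := e.toMonoidHom.comp ((Subgroup.inclusion le_sup_left).comp eA.toMonoidHom)
  let ψ := e.toMonoidHom.comp ((Subgroup.inclusion le_sup_right).comp eB.toMonoidHom)
  let r := (A ⊔ B).subtype.comp e.symm.toMonoidHom
  have hr : Function.Injective r := Subtype.val_injective.comp e.symm.injective
  have rφ : φ.range.map r = A := by
    ext x
    refine ⟨?_, fun hx => ⟨_, ⟨eA.symm ⟨x, hx⟩, rfl⟩, by simp [r, φ]⟩⟩
    rintro ⟨_, ⟨s, rfl⟩, rfl⟩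
    simp [r, φ]
  have rψ : ψ.range.map r = B := by
    ext x
    refine ⟨?_, fun hx => ⟨_, ⟨eB.symm ⟨x, hx⟩, rfl⟩, by simp [r, ψ]⟩⟩
    rintro ⟨_, ⟨s, rfl⟩, rfl⟩
    simp [r, ψ]
  obtain ⟨θ, h1, h2⟩ := exists_std_su3 hq φ ψ
    (e.injective.comp ((Subgroup.inclusion_injective le_sup_left).comp eA.injective))
    (e.injective.comp ((Subgroup.inclusion_injective le_sup_right).comp eB.injective))
    (Subgroup.map_injective hr (by
      rw [Subgroup.map_sup, rφ, rψ, ← MonoidHom.range_eq_map, MonoidHom.range_comp,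
        MonoidHom.range_eq_top.2 e.symm.surjective, ← MonoidHom.range_eq_map,
        Subgroup.range_subtype]))
    (a := eA.symm ⟨a, ha⟩) (b := eB.symm ⟨b, hb⟩)
    (fun h => ha1 (congrArg Subtype.val (eA.symm.map_eq_one_iff.1 h)))
    (fun h => hb1 (congrArg Subtype.val (eB.symm.map_eq_one_iff.1 h)))
    (by rw [← map_pow, eA.symm.map_eq_one_iff]; exact Subtype.ext ha')
    (by rw [← map_pow, eB.symm.map_eq_one_iff]; exact Subtype.ext hb')
    (hr (by simpa [r, φ, ψ] using hc))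
  have e1 : suBlock 3 F q {0, 1} = (upU hq).range := suBlock_eq_range hq _ (by
    ext x; simp only [Set.mem_insert_iff, Set.mem_singleton_iff, Set.mem_range]; revert x; decide)
  have e2 : suBlock 3 F q {1, 2} = (loU hq).range := suBlock_eq_range hq _ (by
    ext x; simp only [Set.mem_insert_iff, Set.mem_singleton_iff, Set.mem_range]; revert x; decide)
  have key : ((A ⊔ B).subtype.comp (θ.symm.trans e.symm).toMonoidHom).comp θ.toMonoidHom = r :=
    MonoidHom.ext fun x => by simp [r]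
  refine Or.inl ⟨θ.symm.trans e.symm, ?_, ?_⟩
  · rw [e1, ← h1, MonoidHom.range_comp, Subgroup.map_map, key, rφ]
  · rw [e2, ← h2, MonoidHom.range_comp, Subgroup.map_map, key, rψ]

/-- Phan's recognition of unitary groups. Let F be a finite field with q² elements, q > 4, and n ≥ 2. Let G be a group generated by subgroups U_0, …, U_{n−1}, each isomorphic to the special unitary group SU(2, q²) (determinant-one isometries of the standard Hermitian form in two variables over F), and let D_i ≤ U_i be cyclic subgroups of order q + 1. Suppose that U_i and U_j commute elementwise whenever the indices differ by at least 2, that the subgroup generated by U_i and U_{i+1} is isomorphic to SU(3, q²) for each i, and that D_i and D_j commute elementwise for all i, j. Then G is a homomorphic image of SU(n+1, q²). (Generation of G by the U_i is part of the hypothesis; G is not assumed finite.) -/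
theorem result {G : Type*} [Group G] (n : ℕ) (hn : 2 ≤ n)
    (F : Type*) [Field F] [Fintype F] (q : ℕ) (hq : 4 < q) (hF : Fintype.card F = q ^ 2)
    (U : Fin n → Subgroup G) (e : ∀ i, ↥(Cfsg.SU 2 F q) ≃* ↥(U i)) (hgen : ⨆ i, U i = ⊤)
    (D : Fin n → Subgroup G) (hD : ∀ i, D i ≤ U i ∧ IsCyclic ↥(D i) ∧ Nat.card ↥(D i) = q + 1)
    (h1 : ∀ i j : Fin n, (i : ℕ) + 2 ≤ j → ∀ x ∈ U i, ∀ y ∈ U j, x * y = y * x)
    (h2 : ∀ i j : Fin n, (i : ℕ) + 1 = j → Nonempty (↥(U i ⊔ U j) ≃* ↥(Cfsg.SU 3 F q)))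
    (h3 : ∀ i j : Fin n, i ≠ j → ∀ x ∈ D i, ∀ y ∈ D j, x * y = y * x) :
    ∃ f : ↥(Cfsg.SU (n + 1) F q) →* G, Function.Surjective f := by
  obtain ⟨σ, hσ⟩ := Cl.exists_uField hF
  have ex : ∀ i, ∃ a ∈ D i, a ≠ 1 ∧ a ^ (q + 1) = 1 := fun i => by
    have hc := (hD i).2.2
    have : Finite (D i) := Nat.finite_of_card_ne_zero (by omega)
    have : Nontrivial (D i) := Finite.one_lt_card_iff_nontrivial.1 (by omega)
    obtain ⟨a, ha⟩ := exists_ne (1 : D i)
    exact ⟨a, a.2, fun h => ha (Subtype.ext h), by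
      rw [← hc, ← Subgroup.coe_pow, pow_card_eq_one', Subgroup.coe_one]⟩
  choose a ha ha1 ha2 using ex
  refine Phan.weak_phan hσ hn U (fun i j => U i ⊔ U j) h1 (fun i j hij => ?_)
    (eq_top_iff.2 (hgen ▸ le_sup_left)) (Or.inl hq.le)
  obtain ⟨e3⟩ := h2 i j hij
  exact std_of_tori hσ (e i) (e j) e3 ((hD i).1 (ha i)) ((hD j).1 (ha j)) (ha1 i) (ha1 j) (ha2 i)
    (ha2 j) (h3 i j (fun h => by rw [h] at hij; omega) _ (ha i) _ (ha j))

end Cfsg.Agent.S3708
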