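import Mathlib
import Cfsg.Statements.S3803
import Cfsg.Agent.GT.Cores
import Cfsg.Agent.GT.CoprimeNilp
import Cfsg.Agent.GT.PGroupFrattini
import Cfsg.Agent.FT.Normal

set_option autoImplicit false
open Cfsg

namespace Cfsg.Agent.S3803

open Cfsg.Agent.GT
open scoped commutatorElement

theorem cent_of_max {X : Type*} [Group X] [Finite X] {E A : Subgroup X} (hE : IsPGroup 2 E)
    (hA : Odd (Nat.card A)) (hAE : A ≤ Subgroup.normalizer (E : Set X))
    (h : ∀ M : Subgroup X, M ≤ E → M.relIndex E = 2 → A ≤ Subgroup.normalizer (M : Set X)) :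
    A ≤ Subgroup.centralizer (E : Set X) := by
  have : Fact (Nat.Prime 2) := ⟨Nat.prime_two⟩
  have hcop : (Nat.card A).Coprime (Nat.card E) :=
    CopAct.coprime_of_isPGroup_right (Nat.coprime_two_right.mpr hA) hE
  refine CopAct.le_centralizer_of_commutator_le_frattini' hcop ?_
  rw [Subgroup.commutator_le]
  intro e he a ha
  have hea : ⁅e, a⁆ ∈ E := CopAct.commutator_le_of_le_normalizer hAE
    (Subgroup.commutator_mem_commutator he ha)
  refine ⟨⟨_, hea⟩, ?_, rfl⟩
  rw [SetLike.mem_coe, PG.mem_frattini_iff]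
  intro M hM
  have hi : M.index = 2 := (PG.isCoatom_iff_index_eq hE).mp hM
  have hi' : (M.map E.subtype).relIndex E = 2 := by
    rw [Subgroup.relIndex, subgroupOf_map_subtype_self]; exact hi
  have hn := h _ (Subgroup.map_subtype_le M) hi'
  have he' : a * e⁻¹ * a⁻¹ ∈ E := CopAct.conj_mem hAE ha (E.inv_mem he)
  have hx : (⟨⁅e, a⁆, hea⟩ : E) = ⟨e, he⟩ * ⟨a * e⁻¹ * a⁻¹, he'⟩ := by
    ext; simp [commutatorElement_def, mul_assoc]
  rw [hx, Subgroup.mul_mem_iff_of_index_two hi]
  have hmem : ∀ (x : X) (hx : x ∈ E), (⟨x, hx⟩ : E) ∈ M ↔ x ∈ M.map E.subtype := by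
    intro x hx
    constructor
    · intro h; exact ⟨_, h, rfl⟩
    · rintro ⟨y, hy, rfl⟩; exact hy
  rw [hmem, hmem, ← (Subgroup.mem_normalizer_iff.mp (hn ha) e⁻¹), Subgroup.inv_mem_iff]

theorem cent_of_cyclic {X : Type*} [Group X] [Finite X] {E A : Subgroup X} (hE : IsPGroup 2 E)
    (hA : Odd (Nat.card A)) (hAE : A ≤ Subgroup.normalizer (E : Set X)) (hc : IsCyclic E) :
    A ≤ Subgroup.centralizer (E : Set X) :=
  cent_of_max hE hA hAE fun _ hM _ => hAE.trans (FT.norm_le_norm_of_isCyclic hc hM)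


/-- Let P be a 2-subgroup and A a subgroup of odd order of a finite group, with A normalizing P. Let D ≤ P with 1 < |D| < |P|. If every subgroup of P of order |D|, and also every subgroup of P of order 4 in case |D| = 2, is normalized by A, then A centralizes P. -/
theorem result {X : Type*} [Group X] [Finite X] (P A D : Subgroup X) (hP : IsPGroup 2 P) (hA : Odd (Nat.card A))
    (hAP : A ≤ Subgroup.normalizer (P : Set X)) (hDP : D ≤ P) (hD1 : 1 < Nat.card D) (hD2 : Nat.card D < Nat.card P)
    (hinv : ∀ E : Subgroup X, E ≤ P → (Nat.card E = Nat.card D ∨ (Nat.card D = 2 ∧ Nat.card E = 4)) → A ≤ Subgroup.normalizer (E : Set X)) :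
    A ≤ Subgroup.centralizer (P : Set X) := by
  have : Fact (Nat.Prime 2) := ⟨Nat.prime_two⟩
  refine CopAct.le_centralizer_of_pow_sq_eq_one hP hAP (Nat.coprime_two_right.mpr hA) ?_
  intro x hx hx4
  have hxP : Subgroup.zpowers x ≤ P := Subgroup.zpowers_le.mpr hx
  suffices h : A ≤ Subgroup.centralizer (Subgroup.zpowers x : Set X) by
    rw [Subgroup.le_centralizer_iff] at h
    exact h (Subgroup.mem_zpowers x)
  obtain ⟨k, hk⟩ := PG.card_eq_pow_of_isPGroup (hP.to_le hDP)
  obtain ⟨n, hn⟩ := PG.card_eq_pow_of_isPGroup hP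
  obtain ⟨j, hj2, hj⟩ := (Nat.dvd_prime_pow Nat.prime_two).mp (orderOf_dvd_of_pow_eq_one hx4)
  have hk0 : 0 < k := by
    rcases k with _ | k
    · simp [hk] at hD1
    · omega
  have hkn : k < n := by
    rw [hk, hn] at hD2
    exact (Nat.pow_lt_pow_iff_right (by norm_num)).mp hD2
  by_cases hk1 : k = 1
  · subst hk1
    refine cent_of_cyclic (hP.to_le hxP) hA ?_ inferInstance
    have hj' : j = 0 ∨ j = 1 ∨ j = 2 := by omega
    rcases hj' with rfl | rfl | rfl
    · have : x = 1 := by simpa using hj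
      subst this
      rw [Subgroup.zpowers_one_eq_bot]
      exact Subgroup.le_normalizer_of_normal
    · exact hinv _ hxP (Or.inl (by rw [Nat.card_zpowers, hj, hk]))
    · exact hinv _ hxP (Or.inr ⟨by rw [hk]; rfl, by rw [Nat.card_zpowers, hj]; rfl⟩)
  · have hjk : j ≤ k := by omega
    obtain ⟨M, hxM, hMP, hM⟩ := PG.exists_card_eq_pow_between hP hxP (k := k)
      (by rw [Nat.card_zpowers, hj]; exact Nat.pow_le_pow_right (by norm_num) hjk)
      (by rw [hn]; exact Nat.pow_le_pow_right (by norm_num) hkn.le)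
    obtain ⟨R, hMR, hRP, hR⟩ := PG.exists_card_eq_pow_between hP hMP (k := k + 1)
      (by rw [hM]; exact Nat.pow_le_pow_right (by norm_num) (Nat.le_succ k))
      (by rw [hn]; exact Nat.pow_le_pow_right (by norm_num) hkn)
    have hidx : ∀ N : Subgroup X, N ≤ R → (N.relIndex R = 2 ↔ Nat.card N = 2 ^ k) := by
      intro N hN
      have h1 := PG.relIndex_mul_card hN
      rw [hR, pow_succ] at h1
      constructor
      · intro h; rw [h] at h1; omega
      · intro h
        rw [h, mul_comm] at h1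
        exact Nat.eq_of_mul_eq_mul_left (by positivity) h1
    have hmax : ∀ N : Subgroup X, N ≤ R → N.relIndex R = 2 →
        A ≤ Subgroup.normalizer (N : Set X) := fun N hN h =>
      hinv N (hN.trans hRP) (Or.inl (by rw [hk]; exact (hidx N hN).mp h))
    have hMi : M.relIndex R = 2 := (hidx M hMR).mpr hM
    by_cases hAR : A ≤ Subgroup.normalizer (R : Set X)
    · exact (cent_of_max (hP.to_le hRP) hA hAR hmax).trans
        (CopAct.centralizer_anti (hxM.trans hMR))
    · have hne : M ≠ R := by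
        rintro rfl
        simp at hMi
      obtain ⟨y, hyR, hyM⟩ := SetLike.exists_of_lt (lt_of_le_of_ne hMR hne)
      have hyR' : Subgroup.zpowers y ≤ R := Subgroup.zpowers_le.mpr hyR
      have hy : Subgroup.zpowers y = R := by
        by_contra hne'
        have hlt : Subgroup.zpowers y < R := lt_of_le_of_ne hyR' hne'
        obtain ⟨N, hyN, hNR, hNi, -⟩ := PG.exists_invariant_relIndex_eq (hP.to_le hRP)
          (H := ⊥) (IsPGroup.of_bot) bot_le bot_le hlt
        have hsup : M ⊔ N = R := by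
          rcases PG.eq_or_eq_of_relIndex_prime Nat.prime_two (le_sup_left : M ≤ M ⊔ N)
            (sup_le hMR hNR) hMi with h | h
          · exact absurd ((le_sup_right.trans h.le) (hyN (Subgroup.mem_zpowers y))) hyM
          · exact h
        exact hAR (hsup ▸ CopAct.le_normalizer_sup (hmax M hMR hMi) (hmax N hNR hNi))
      have hRc : IsCyclic R := hy ▸ inferInstance
      exact (cent_of_cyclic (hP.to_le hMP) hA (hmax M hMR hMi)
        (Subgroup.isCyclic_of_le hMR)).trans (CopAct.centralizer_anti hxM)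

end Cfsg.Agent.S3803
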