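import Mathlib
import Cfsg.Statements.S3814
import Cfsg.Agent.FG.H98Four

set_option autoImplicit false
open Cfsg

namespace Cfsg.Agent.S3814

/-- A criterion for nonsolvability from element orders: let G be a finite group and σ a set of at least four primes such that for all distinct p, q ∈ σ the product pq is the order of some element of G, while for all pairwise distinct p, q, r ∈ σ no element of G has order pqr. Then G is not solvable. -/
theorem result {G : Type*} [Group G] [Finite G]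
    (σ : Finset ℕ) (hσ : 4 ≤ σ.card) (hprime : ∀ p ∈ σ, p.Prime)
    (h2 : ∀ p ∈ σ, ∀ q ∈ σ, p ≠ q → ∃ g : G, orderOf g = p * q)
    (h3 : ∀ p ∈ σ, ∀ q ∈ σ, ∀ r ∈ σ, p ≠ q → q ≠ r → p ≠ r → ∀ g : G, orderOf g ≠ p * q * r) :
    ¬ Group.IsSolvable G := by
  classical
  obtain ⟨τ, hτ, hc⟩ := Finset.exists_subset_card_eq hσ
  obtain ⟨p, τ', hp, rfl, hc'⟩ := Finset.card_eq_succ.1 (show τ.card = 3 + 1 from hc)
  obtain ⟨q, r, s, hqr, hqs, hrs, rfl⟩ := Finset.card_eq_three.1 hc'
  simp only [Finset.mem_insert, Finset.mem_singleton, not_or] at hp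
  have mp : p ∈ σ := hτ (by simp)
  have mq : q ∈ σ := hτ (by simp)
  have mr : r ∈ σ := hτ (by simp)
  have ms : s ∈ σ := hτ (by simp)
  have adj : ∀ a ∈ σ, ∀ b ∈ σ, a ≠ b → Cfsg.Agent.FG.H98.Adj (⊤ : Subgroup G) a b := by
    intro a ha b hb hab
    obtain ⟨g, hg⟩ := h2 a ha b hb hab
    exact Cfsg.Agent.FG.H98.adj_of_orderOf (hprime a ha) (hprime b hb) hg
  have mem : ∀ a ∈ ({p, q, r, s} : Set ℕ), a ∈ σ := by
    rintro a (rfl | rfl | rfl | rfl) <;> assumption
  exact Cfsg.Agent.FG.H98.not_isSolvable_of_four_primes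
    ⟨hprime p mp, hprime q mq, hprime r mr, hprime s ms, hp.1, hp.2.1, hp.2.2, hqr, hqs, hrs⟩
    ⟨adj p mp q mq hp.1, adj p mp r mr hp.2.1, adj p mp s ms hp.2.2, adj q mq r mr hqr,
      adj q mq s ms hqs, adj r mr s ms hrs⟩
    fun a ha b hb c hc hab hbc hac => h3 a (mem a ha) b (mem b hb) c (mem c hc) hab hbc hac

end Cfsg.Agent.S3814
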