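import Mathlib
import Cfsg.Statements.S3815

set_option autoImplicit false
open Cfsg

namespace Cfsg.Agent.S3815

/-- Let G be a finite group, p a prime and d ∈ G an element of order prime to p. If dg has order prime to p for every element g ∈ G of order prime to p, then d ∈ O_{p'}(G). -/
theorem result {G : Type*} [Group G] [Finite G] {p : ℕ} [Fact p.Prime]
    (d : G) (hd : (orderOf d).Coprime p)
    (h : ∀ g : G, (orderOf g).Coprime p → (orderOf (d * g)).Coprime p) :
    d ∈ Cfsg.pPrimeCore p G := by
  classical
  let D : Subgroup G :=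
    { carrier := {x | ∀ g : G, (orderOf g).Coprime p → (orderOf (x * g)).Coprime p}
      one_mem' := fun g hg => by simpa using hg
      mul_mem' := fun {a b} ha hb g hg => by
        rw [mul_assoc]; exact ha _ (hb g hg)
      inv_mem' := fun {a} ha => by
        have hpow : ∀ n : ℕ, ∀ g : G, (orderOf g).Coprime p → (orderOf (a ^ n * g)).Coprime p := by
          intro n
          induction n with
          | zero => intro g hg; simpa using hg
          | succ n ih => intro g hg; rw [pow_succ', mul_assoc]; exact ha _ (ih g hg)
        have : a⁻¹ = a ^ (orderOf a - 1) := by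
          have h1 : 1 ≤ orderOf a := orderOf_pos a
          rw [inv_eq_iff_mul_eq_one, ← pow_succ', Nat.sub_add_cancel h1, pow_orderOf_eq_one]
        intro g hg
        rw [this]; exact hpow _ g hg }
  have hDn : D.Normal := ⟨fun x hx k g hg => by
    have h1 : orderOf (k⁻¹ * g * k) = orderOf g := by
      have := (MulAut.conj k⁻¹).orderOf_eq g
      simpa using this
    have h2 := hx (k⁻¹ * g * k) (h1 ▸ hg)
    have h3 : orderOf (k * x * k⁻¹ * g) = orderOf (x * (k⁻¹ * g * k)) := by
      have := (MulAut.conj k).orderOf_eq (x * (k⁻¹ * g * k))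
      rw [← this]; congr 1; simp [mul_assoc]
    rw [h3]; exact h2⟩
  have hDc : (Nat.card D).Coprime p := by
    rw [Nat.coprime_comm, Nat.Prime.coprime_iff_not_dvd Fact.out]
    intro hd
    obtain ⟨x, hx⟩ := exists_prime_orderOf_dvd_card' p hd
    have h1 := x.2 1 (by simp)
    rw [mul_one, Subgroup.orderOf_coe, hx] at h1
    exact (Fact.out : p.Prime).one_lt.ne' (by simpa using h1)
  exact (le_sSup (s := {N : Subgroup G | N.Normal ∧ (Nat.card N).Coprime p}) ⟨hDn, hDc⟩ : D ≤ _) h

end Cfsg.Agent.S3815
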