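import Mathlib
import Cfsg.Agent.Flv.FixPt
import Cfsg.Agent.GT.CoprimeAct
import Cfsg.Statements.S3816
-- import your own Cfsg.Agent.* helpers here

set_option autoImplicit false
open Cfsg

namespace Cfsg.Agent.S3816

open Subgroup Cfsg.Agent.GT Cfsg.Agent.GT.CopAct SemidirectProduct

/-- Let p be an odd prime, H a finite solvable group of order prime to p, and x an automorphism of H of order p (so P = ⟨x⟩ has prime order p > 2 and acts coprimely on H). For h ∈ H let [h, P] be the subgroup generated by the commutators h⁻¹·xⁱ(h), and let [H, P] be the subgroup generated by all of these. Then the fixed points of x in [H, P] are generated by the fixed points of x in the subgroups [h, P], h ∈ H. -/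
theorem result {H : Type*} [Group H] [Finite H]
    [Group.IsSolvable H] {p : ℕ} [Fact p.Prime] (hp : p ≠ 2) (hcop : (Nat.card H).Coprime p)
    (x : MulAut H) (hx : orderOf x = p) :
    Subgroup.closure {c : H | ∃ h : H, ∃ i : ℕ, c = h⁻¹ * (x ^ i) h} ⊓ (x : H →* H).eqLocus (MonoidHom.id H) =
      ⨆ h : H, Subgroup.closure {c : H | ∃ i : ℕ, c = h⁻¹ * (x ^ i) h} ⊓ (x : H →* H).eqLocus (MonoidHom.id H) := by
  have hpp : p.Prime := Fact.out
  set φ := (zpowers x).subtype with hφ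
  have hc : Nat.card (zpowers x) = p := by rw [Nat.card_zpowers, hx]
  have h1 := Flv.commutator_inf_centralizer_eq_fx (P := sdR φ ⊤) (H := sdL φ ⊤) hpp hp
    (by rw [card_sdR_top, hc]) (sdR_le_normalizer_top φ ⊤)
    ((isSolvable_sdL_iff φ ⊤).2 inferInstance) (coprime_sd_top φ (hc ▸ hcop.symm))
  have hF : actFixed φ = (x : H →* H).eqLocus (MonoidHom.id H) := by
    ext k
    refine ⟨fun h => h ⟨x, mem_zpowers x⟩, fun (h : x k = k) a => ?_⟩
    obtain ⟨n, hn⟩ := mem_powers_iff_mem_zpowers.2 a.2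
    change (a : MulAut H) k = k
    rw [← hn]
    clear hn
    induction n with
    | zero => rfl
    | succ n ih => simp only [pow_succ, MulAut.mul_apply, h] at ih ⊢; exact ih
  have hP : ∀ h : H, {c | ∃ a : zpowers x, c = h⁻¹ * φ a h} = {c | ∃ i : ℕ, c = h⁻¹ * (x ^ i) h} := by
    intro h
    ext c
    constructor
    · rintro ⟨a, rfl⟩
      obtain ⟨n, hn⟩ := mem_powers_iff_mem_zpowers.2 a.2
      exact ⟨n, congrArg (fun b : MulAut H => h⁻¹ * b h) hn.symm⟩
    · rintro ⟨i, rfl⟩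
      exact ⟨⟨_, npow_mem_zpowers x i⟩, rfl⟩
  have hA : actComm φ ⊤ = closure {c : H | ∃ h : H, ∃ i : ℕ, c = h⁻¹ * (x ^ i) h} := by
    rw [actComm]
    congr 1
    ext c
    exact ⟨fun ⟨h, _, e⟩ => ⟨h, (hP h).le e⟩, fun ⟨h, e⟩ => ⟨h, mem_top h, (hP h).ge e⟩⟩
  have hM : ∀ h : H, Flv.cm (sdR φ ⊤) (inl h⁻¹) =
      sdL φ (closure {c : H | ∃ i : ℕ, c = h⁻¹ * (x ^ i) h}) := by
    intro h
    rw [← hP, Flv.cm, sdL, MonoidHom.map_closure]
    congr 1
    ext c
    constructor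
    · rintro ⟨_, ⟨a, -, rfl⟩, rfl⟩
      exact ⟨_, ⟨a, rfl⟩, (commutatorElement_inl_inr φ h a).symm⟩
    · rintro ⟨_, ⟨a, rfl⟩, rfl⟩
      exact ⟨_, ⟨a, mem_top a, rfl⟩, (commutatorElement_inl_inr φ h a).symm⟩
  rw [commutator_sdL_sdR_top, sdL_inf_centralizer_top, hA, hF] at h1
  apply sdL_injective φ
  rw [h1]
  conv_rhs => rw [sdL, Subgroup.map_iSup]
  refine le_antisymm (Flv.fx_le ?_) (iSup_le fun h => ?_)
  · rintro _ ⟨h, -, rfl⟩
    rw [← inv_inv h, hM, sdL_inf_centralizer_top, hF]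
    exact le_iSup (fun h => sdL φ (closure {c : H | ∃ i : ℕ, c = h⁻¹ * (x ^ i) h} ⊓ _)) h⁻¹
  · refine le_trans (le_of_eq ?_) (Flv.le_fx (h := inl h⁻¹) ⟨_, mem_top _, rfl⟩)
    rw [hM, sdL_inf_centralizer_top, hF]

end Cfsg.Agent.S3816
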