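import Mathlib
import Cfsg.Agent.Flv.HalfDimA
import Cfsg.Agent.GT.ModRep
import Cfsg.Agent.GT.ElemAbRep
import Cfsg.Agent.GT.CoprimeNilp
import Cfsg.Statements.S3818
-- import your own Cfsg.Agent.* helpers here

set_option autoImplicit false
open Cfsg

namespace Cfsg.Agent.S3818

open Subgroup Cfsg.Agent.GT Cfsg.Agent.Flv Module
open scoped commutatorElement

variable {K : Type*} [Field K]

theorem wt_indep {M ι : Type*} [AddCommGroup M] [Module K M] (τ : ι → End K M)
    (hc : ∀ a b, Commute (τ a) (τ b)) : iSupIndep fun c : ι → K => ⨅ e, (τ e).eigenspace (c e) :=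
  (End.independent_iInf_maxGenEigenspace_of_forall_mapsTo τ fun _ _ φ =>
    End.mapsTo_maxGenEigenspace_of_comm (hc _ _) φ).mono fun _ =>
      iInf_mono fun _ => End.eigenspace_le_maxGenEigenspace

variable {G V : Type*} [Group G] [AddCommGroup V] [Module K V] [FiniteDimensional K V]
  {ρ : Representation K G V} {p : ℕ} {x : G}

theorem imprim [IsAlgClosed K] [Finite G] [Group.IsSolvable G] (hirr : IrrRep ρ)
    (hf : Function.Injective ρ) (hp : p.Prime) (h5 : 5 ≤ p) (hx : orderOf x = p)
    (hG : normalClosure {x} = ⊤) {E : Subgroup G} [hE : E.Normal] (hc : E ≤ centralizer E)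
    (hZ : ¬ E ≤ center G) : 2 * finrank K (LinearMap.ker (ρ x - 1)) < finrank K V := by
  have := hirr.nontrivial
  obtain ⟨U, -, hU, hi⟩ := exists_irrRep_le (ρ.comp E.subtype) (V' := ⊤) (fun _ _ _ => trivial)
    top_ne_bot
  choose c hc' using fun e : E => hi.exists_eq_smul
    (f := Representation.subrepresentation (ρ.comp E.subtype) U hU e) fun m => by
      rw [← map_mul, ← map_mul, show e * m = m * e from Subtype.ext (hc m.2 e e.2)]
  set Y : (E → K) → Submodule K V := fun c => ⨅ e : E, End.eigenspace (ρ e) (c e) with hY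
  have mY : ∀ c v, v ∈ Y c ↔ ∀ e : E, ρ e v = c e • v := fun c v => by
    simp [hY, End.mem_eigenspace_iff]
  have h0 : Y c ≠ ⊥ := fun e => (Submodule.nontrivial_iff_ne_bot.1 hi.nontrivial) (eq_bot_iff.2
    (le_trans (fun v hv => (mY c v).2 fun e =>
      congrArg Subtype.val (LinearMap.congr_fun (hc' e) ⟨v, hv⟩)) e.le))
  have h1 : ∀ g c, ∀ v ∈ Y c, ρ g v ∈ Y fun e => c ⟨_, hE.conj_mem' _ e.2 g⟩ := by
    intro g c v hv
    refine (mY _ _).2 fun e => ?_
    rw [← map_smul, ← (mY c v).1 hv, ← End.mul_apply, ← End.mul_apply, ← map_mul, ← map_mul]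
    congr 2
    simp [mul_assoc]
  have h2 : ∀ g c, (Y c).map (ρ g) = Y fun e => c ⟨_, hE.conj_mem' _ e.2 g⟩ := by
    intro g c
    refine le_antisymm (Submodule.map_le_iff_le_comap.2 (h1 g c)) fun v hv =>
      ⟨ρ g⁻¹ v, ?_, by simp⟩
    simpa [mul_assoc] using h1 g⁻¹ _ v hv
  let _ : MulAction G (Submodule K V) :=
    { smul := fun g U => U.map (ρ g)
      one_smul := fun U => by change U.map (ρ 1) = U; rw [map_one]; exact U.map_id
      mul_smul := fun a b U => by
        change U.map (ρ (a * b)) = (U.map (ρ b)).map (ρ a)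
        rw [map_mul, ← Submodule.map_comp]; rfl }
  have hfin : Finite (MulAction.orbit G (Y c)) := Set.finite_range _
  choose μ hμ using fun w : MulAction.orbit G (Y c) => (show ∃ μ, w.1 = Y μ by
    obtain ⟨g, hg⟩ := w.2
    exact ⟨_, hg.symm.trans (h2 g c)⟩)
  have h3 : ⨆ w : MulAction.orbit G (Y c), w.1 = ⊤ := by
    refine (hirr.irr _ fun g v hv => ?_).resolve_left fun e => h0 (eq_bot_iff.2
      (le_trans (le_iSup (fun w : MulAction.orbit G (Y c) => w.1) ⟨_, MulAction.mem_orbit_self _⟩)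
        e.le))
    have : ⨆ w : MulAction.orbit G (Y c), w.1 ≤ (⨆ w : MulAction.orbit G (Y c), w.1).comap (ρ g) :=
      iSup_le fun w u hu => le_iSup (fun w : MulAction.orbit G (Y c) => w.1) (g • w) ⟨u, hu, rfl⟩
    exact this hv
  have h4 : Nontrivial (MulAction.orbit G (Y c)) := by
    by_contra hn
    rw [not_nontrivial_iff_subsingleton] at hn
    have h5 : ⊤ ≤ Y c := h3.ge.trans (iSup_le fun w =>
      (congrArg Subtype.val (hn.elim w ⟨_, MulAction.mem_orbit_self _⟩)).le)
    refine hZ fun e he => mem_center_iff.2 fun g => hf (LinearMap.ext fun v => ?_)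
    have := fun v => (mY c v).1 (h5 trivial) ⟨e, he⟩
    simp only [map_mul, End.mul_apply] at this ⊢
    rw [this, this, map_smul]
  obtain ⟨a1, a2⟩ := perm_bound ρ (fun w : MulAction.orbit G (Y c) => w.1)
    (((wt_indep (fun e : E => ρ e) fun a b => (Commute.map (hc b.2 a a.2) ρ)).comp (f := μ)
      fun a b e => Subtype.ext (by rw [hμ, hμ, e])).mono fun w => (hμ w).le) h3
    (fun g w v hv => Submodule.mem_map_of_mem hv) (m := finrank K (Y c)) (by
      rintro ⟨_, g, rfl⟩
      exact (Submodule.equivMapOfInjective _ (ρ.apply_bijective g).1 _).finrank_eq.symm) hp hx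
  have a3 := card_fixedBy_le (Ω := MulAction.orbit G (Y c)) hp (hx ▸ pow_orderOf_eq_one x) hG
  have a4 := hirr.finrank_pos
  rw [a1] at a4 ⊢
  generalize finrank K (LinearMap.ker (ρ x - 1)) = d at *
  generalize finrank K (Y c) = m at *
  generalize Nat.card (MulAction.orbit G (Y c)) = n at *
  generalize Nat.card (MulAction.fixedBy (MulAction.orbit G (Y c)) x) = f at *
  obtain ⟨q, rfl⟩ : ∃ q, p = q + 5 := ⟨p - 5, by omega⟩
  rw [show q + 5 - 1 = q + 4 by omega] at a2
  have a5 := Nat.mul_le_mul_left (m * (q + 4)) a3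
  have a6 := Nat.mul_le_mul_left (q + 5) a2
  by_contra hn
  have a7 := Nat.mul_le_mul_left ((q + 5) * (q + 5)) (not_lt.1 hn)
  nlinarith [Nat.zero_le (q * (m * n)), Nat.zero_le (q * q * (m * n))]

theorem sq_lt (hx : ρ x ≠ 1) : finrank K (LinearMap.ker (ρ x - 1)) ^ 2 <
    finrank K (LinearMap.ker (ρ.linHom ρ x - 1)) := by
  set T := ρ x - 1 with hT
  let Φ : ((V ⧸ LinearMap.range T) →ₗ[K] LinearMap.ker T) →ₗ[K] End K V :=
    (LinearMap.llcomp K V _ V (LinearMap.ker T).subtype) ∘ₗ
      LinearMap.lcomp K _ (LinearMap.range T).mkQ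
  have hΦ : Function.Injective Φ := by
    rw [injective_iff_map_eq_zero]
    intro φ h
    refine LinearMap.ext fun v => ?_
    obtain ⟨v, rfl⟩ := (LinearMap.range T).mkQ_surjective v
    exact Subtype.ext (LinearMap.congr_fun h v)
  have h1 : finrank K (V ⧸ LinearMap.range T) = finrank K (LinearMap.ker T) := by
    have := (LinearMap.range T).finrank_quotient_add_finrank
    have := T.finrank_range_add_finrank_ker
    omega
  have h2 : LinearMap.range Φ < LinearMap.ker (ρ.linHom ρ x - 1) := by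
    refine lt_of_le_of_ne ?_ fun e => hx ?_
    · rintro _ ⟨φ, rfl⟩
      refine LinearMap.ext fun v => sub_eq_zero.2 ?_
      have a1 : (LinearMap.range T).mkQ (ρ x⁻¹ v) = (LinearMap.range T).mkQ v :=
        ((Submodule.Quotient.eq _).2 (LinearMap.mem_range.2 ⟨ρ x⁻¹ v, by simp [hT]⟩)).symm
      change ρ x (φ ((LinearMap.range T).mkQ (ρ x⁻¹ v))) = φ ((LinearMap.range T).mkQ v)
      rw [a1]
      exact sub_eq_zero.1 (φ _).2
    · obtain ⟨φ, hφ⟩ := e.ge (show (1 : End K V) ∈ _ from LinearMap.ext fun v => by simp)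
      refine LinearMap.ext fun v => ?_
      have a1 : (φ ((LinearMap.range T).mkQ v) : V) = v := LinearMap.congr_fun hφ v
      rw [← a1]
      exact sub_eq_zero.1 (φ _).2
  have := Submodule.finrank_lt_finrank_of_lt h2
  rwa [LinearMap.finrank_range_of_inj hΦ, finrank_linearMap, h1, ← sq] at this

theorem prim [IsAlgClosed K] (ℓ : ℕ) [Fact ℓ.Prime] [CharP K ℓ] [Finite G] [Group.IsSolvable G]
    (hirr : IrrRep ρ) (hf : Function.Injective ρ) (hp : p.Prime) (h5 : 5 ≤ p) (hx : orderOf x = p)
    (hG : normalClosure {x} = ⊤) {E : Subgroup G} (hE : IsChiefFactor E (center G))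
    (hR : E ⊓ centralizer E ≤ center G) :
    2 * finrank K (LinearMap.ker (ρ x - 1)) < finrank K V := by
  classical
  have := hirr.nontrivial
  have hEn := hE.2.1
  have := Fintype.ofFinite E
  choose! s hs using fun (z : G) (hz : z ∈ center G) => hirr.exists_eq_smul (f := ρ z) fun m => by
    rw [← map_mul, ← map_mul, mem_center_iff.1 hz]
  have sinj := smul_left_injective K (one_ne_zero (α := End K V))
  have smul : ∀ a ∈ center G, ∀ b ∈ center G, s (a * b) = s a * s b := fun a ha b hb => sinj (by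
    simp only [← hs _ (mul_mem ha hb), map_mul, hs a ha, hs b hb, smul_mul_smul_comm, mul_one])
  have sone : ∀ a ∈ center G, s a = 1 ↔ a = 1 := fun a ha =>
    ⟨fun h => hf (by rw [hs a ha, h, one_smul, map_one]), fun h => sinj (by
      simp only [← hs a ha]
      rw [h, map_one, one_smul])⟩
  have hc : ∀ a ∈ E, ∀ b ∈ E, ⁅a, b⁆ ∈ center G := fun a ha b hb =>
    hE.elementary.1 (commutator_mem_commutator ha hb)
  have hl : ¬ ℓ ∣ Nat.card E := fun h => by
    have a1 : ∀ z ∈ center G, z ^ ℓ = 1 → z = 1 := fun z hz h => (sone z hz).1 (by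
      have : s z ^ ℓ = 1 := sinj (by
        have := congrArg ρ h
        rw [map_pow, hs z hz, smul_pow, one_pow, map_one] at this
        simpa using this)
      have h2 := sub_pow_char (s z) 1
      rw [this, one_pow, sub_self] at h2
      exact sub_eq_zero.1 (pow_eq_zero_iff (Fact.out : ℓ.Prime).ne_zero |>.1 h2))
    obtain ⟨e, he⟩ := exists_prime_orderOf_dvd_card' ℓ h
    have a2 : (e : G) ^ ℓ = 1 := by rw [← he, ← coe_pow, pow_orderOf_eq_one, coe_one]
    have a3 : (e : G) ∈ center G := hR ⟨e.2, fun g hg => by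
      refine (commutatorElement_eq_one_iff_mul_comm.1 (a1 _ (hc _ e.2 g hg) ?_)).symm
      rw [← CopAct.commutatorElement_pow_left_of_commute (mem_center_iff.1 (hc _ e.2 g hg) e), a2,
        commutatorElement_one_left]⟩
    rw [show e = 1 from Subtype.ext (a1 _ a3 a2), orderOf_one] at he
    exact (Fact.out : ℓ.Prime).ne_one he.symm
  set τ := ρ.linHom ρ with hτ
  have τa : ∀ g f, τ g f = ρ g * f * ρ g⁻¹ := fun g f => rfl
  have τz : ∀ z ∈ center G, τ z = 1 := fun z hz => LinearMap.ext fun f => by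
    rw [τa, hs z hz, smul_one_mul, ← mul_smul_one, ← hs z hz, mul_assoc, ← map_mul, mul_inv_cancel,
      map_one, mul_one, End.one_apply]
  set Y : G → Submodule K (End K V) := fun g => ⨅ e : E, End.eigenspace (τ e) (s ⁅(e : G), g⁆)
    with hY
  have mY : ∀ g f, f ∈ Y g ↔ ∀ e ∈ E, τ e f = s ⁅e, g⁆ • f := fun c v => by
    simp [hY, End.mem_eigenspace_iff]
  have mY' : ∀ g ∈ E, ∀ f, f ∈ Y g ↔ ∀ e ∈ E, ρ e * f * ρ e⁻¹ = ρ ⁅e, g⁆ * f := fun g hg f => by
    rw [mY]
    exact forall₂_congr fun e he => by rw [τa, hs _ (hc e he g hg), smul_one_mul]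
  set π := QuotientGroup.mk' (center G) with hπ
  have hWn : (E.map π).Normal := hE.isMinNormal_map.normal
  let _ : MulAction G (E.map π) := MulAction.compHom _ ((MulAut.conjNormal (H := E.map π)).comp π)
  choose o ho ho' using fun w : E.map π => w.2
  have hYo : ∀ (w : E.map π) (g : G), π g = w → Y (o w) = Y g := fun w g h => by
    have := mem_center_iff.1 (QuotientGroup.eq.1 (h.trans (ho' w).symm))
    refine iInf_congr fun e => ?_
    have : ⁅(e : G), o w⁆ = ⁅(e : G), g⁆ :=
      calc ⁅(e : G), o w⁆ = e * g * ((g⁻¹ * o w) * (e : G)⁻¹) * (o w)⁻¹ := by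
            simp only [commutatorElement_def]; group
        _ = _ := by rw [← this]; simp only [commutatorElement_def]; group
    rw [this]
  have hdim : ∀ g ∈ E, ∀ h ∈ E, finrank K (Y g) ≤ finrank K (Y h) := fun g hg h hh => by
    refine LinearMap.finrank_le_finrank_of_injective (f := (LinearMap.mulLeft K (ρ (h * g⁻¹))).restrict
      fun f hf => (mY' h hh _).2 fun e he => ?_) fun a b e => Subtype.ext ?_
    · calc ρ e * (ρ (h * g⁻¹) * f) * ρ e⁻¹ = ρ (e * (h * g⁻¹) * e⁻¹) * (ρ e * f * ρ e⁻¹) := by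
            simp only [← mul_assoc, ← map_mul]; congr 3; group
        _ = _ := by
            rw [(mY' g hg f).1 hf e he, LinearMap.mulLeft_apply]
            simp only [← mul_assoc, ← map_mul, commutatorElement_def]; congr 2; group
    · exact ((Group.isUnit (h * g⁻¹)).map ρ).mul_left_cancel (congrArg Subtype.val e)
  have hspan : ⨆ w, Y (o w) = ⊤ := by
    refine eq_top_iff.2 fun f _ => ?_
    have a1 : ∀ g : E, ∑ e : E, s ⁅(g : G), e⁆ • τ e f ∈ ⨆ w, Y (o w) := fun g => by
      refine le_iSup (fun w => Y (o w)) ⟨_, mem_map_of_mem π g.2⟩ ?_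
      rw [hYo ⟨_, mem_map_of_mem π g.2⟩ g rfl, mY]
      intro a ha
      rw [map_sum, Finset.smul_sum, ← Equiv.sum_comp (Equiv.mulLeft (⟨a, ha⟩ : E))
        (fun e : E => s ⁅a, (g : G)⁆ • s ⁅(g : G), e⁆ • τ e f)]
      refine Finset.sum_congr rfl fun e _ => ?_
      rw [map_smul, smul_smul, ← smul _ (hc _ ha _ g.2) _ (hc _ g.2 _ (Subtype.property _)),
        ← End.mul_apply, ← map_mul]
      congr 2
      rw [← mul_inv_eq_iff_eq_mul.2 (mem_center_iff.1 (hc _ g.2 _ e.2) a)]
      simp only [commutatorElement_def, Equiv.coe_mulLeft, coe_mul]; group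
    have a2 := Submodule.sum_mem _ fun g (_ : g ∈ Finset.univ) => a1 g
    have a3 : ∀ e : E, ∑ g : E, s ⁅(g : G), e⁆ • τ e f =
        (if e ∈ (center G).subgroupOf E then (Nat.card E : K) else 0) • f := fun e => by
      rw [← Finset.sum_smul]
      split_ifs with h
      · have : ∀ g : E, s ⁅(g : G), e⁆ = 1 := fun g => (sone _ (hc _ g.2 _ e.2)).2
          (commutatorElement_eq_one_iff_mul_comm.2 (mem_center_iff.1 h g))
        simp [this, τz e h]
      · let χ : E →* K :=
          { toFun := fun g => s ⁅(g : G), e⁆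
            map_one' := (sone _ (hc _ E.one_mem _ e.2)).2 (by simp)
            map_mul' := fun a b => by
              rw [mul_comm, ← smul _ (hc _ b.2 _ e.2) _ (hc _ a.2 _ e.2),
                ← mul_inv_eq_iff_eq_mul.2 (mem_center_iff.1 (hc _ b.2 _ e.2) a)]
              congr 1
              simp only [commutatorElement_def, coe_mul]; group }
        have := sum_hom_units_eq_zero χ fun h1 => h (hR ⟨e.2, fun g hg =>
          commutatorElement_eq_one_iff_mul_comm.1 ((sone _ (hc _ hg _ e.2)).1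
            (DFunLike.congr_fun h1 ⟨g, hg⟩))⟩)
        rw [show ∑ g : E, s ⁅(g : G), e⁆ = 0 from this, zero_smul, zero_smul]
    rw [Finset.sum_comm, Finset.sum_congr rfl fun e _ => a3 e, ← Finset.sum_smul, ← Finset.sum_filter,
      Finset.sum_const, nsmul_eq_mul, ← Fintype.card_subtype, ← Nat.card_eq_fintype_card] at a2
    refine (Submodule.smul_mem_iff _ (mul_ne_zero ?_ ?_)).1 a2
    · exact fun h => hl (((CharP.cast_eq_zero_iff K ℓ _).1 h).trans (card_subgroup_dvd_card _))
    · exact fun h => hl ((CharP.cast_eq_zero_iff K ℓ _).1 h)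
  obtain ⟨a1, a2⟩ := perm_bound τ (fun w => Y (o w))
    ((wt_indep (fun e : E => τ e) fun a b => by
      change τ a * τ b = τ b * τ a
      rw [← map_mul, show (a : G) * b = ⁅(a : G), (b : G)⁆ * (b * a) by
        simp only [commutatorElement_def]; group, map_mul, τz _ (hc _ a.2 _ b.2), one_mul, map_mul]).comp (f := fun w (e : E) => s ⁅(e : G), o w⁆) fun a b h => Subtype.ext (by
      rw [← ho', ← ho']
      refine QuotientGroup.eq.2 (hR ⟨E.mul_mem (E.inv_mem (ho a)) (ho b), fun e he => ?_⟩)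
      have : ⁅e⁻¹, o a⁆ = ⁅e⁻¹, o b⁆ := hf (by
        rw [hs _ (hc _ (inv_mem he) _ (ho a)), hs _ (hc _ (inv_mem he) _ (ho b))]
        exact congrArg (· • (1 : End K V)) (congrFun h ⟨_, inv_mem he⟩))
      calc e * ((o a)⁻¹ * o b) = (o a)⁻¹ * e * ⁅e⁻¹, o a⁆ * o b := by
            simp only [commutatorElement_def]; group
        _ = _ := by rw [this]; simp only [commutatorElement_def]; group)) hspan
    (fun g w f hf => by
      rw [hYo (g • w) (g * o w * g⁻¹) (by rw [map_mul, map_mul, ho', map_inv]; rfl),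
        mY' _ (hEn.conj_mem _ (ho w) g)]
      intro e he
      calc ρ e * τ g f * ρ e⁻¹ = ρ g * (ρ (g⁻¹ * e * g) * f * ρ (g⁻¹ * e * g)⁻¹) * ρ g⁻¹ := by
            simp only [τa, ← mul_assoc, ← map_mul]
            simp only [mul_assoc, ← map_mul]
            congr 2 <;> group
        _ = _ := by
            rw [(mY' _ (ho w) f).1 hf _ (hEn.conj_mem' _ he g)]
            simp only [τa, ← mul_assoc, ← map_mul, commutatorElement_def]
            congr 3; group)
    (m := finrank K (Y 1)) (fun w => le_antisymm (hdim _ (ho w) _ E.one_mem)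
      (hdim _ E.one_mem _ (ho w))) hp hx
  obtain ⟨i, a3, a4⟩ := index_bound hp h5 (hx ▸ pow_orderOf_eq_one x) hG hE hR
  have a5 : Nat.card (MulAction.fixedBy (E.map π) x) ≤
      Nat.card ↥(E.map π ⊓ centralizer (zpowers (x : G ⧸ center G) : Set (G ⧸ center G))) :=
    Nat.card_le_card_of_injective (fun w => ⟨w.1, w.1.2, by
      rw [centralizer_zpowers]
      exact mem_centralizer_singleton_iff.2
        (mul_inv_eq_iff_eq_mul.1 (congrArg Subtype.val w.2)).symm⟩)
      fun a b h => Subtype.ext (Subtype.ext (Subtype.mk.inj h))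
  have a6 := sq_lt (ρ := ρ) (x := x) fun h => hp.ne_one (by
    rw [← hx, hf (h.trans (map_one ρ).symm), orderOf_one])
  rw [finrank_linearMap, a3] at a1
  rw [a3] at a2
  refine lt_of_pow_lt_pow_left₀ 2 (Nat.zero_le _) (Nat.lt_of_mul_lt_mul_left (a := p) ?_)
  rw [sq (finrank K V), a1]
  have a7 := Nat.mul_le_mul_left (finrank K (Y 1) * (p - 1)) a5
  have a8 := Nat.mul_le_mul_left (finrank K (Y 1) * Nat.card ↥(E.map π ⊓
    centralizer (zpowers (x : G ⧸ center G) : Set (G ⧸ center G)))) a4
  nlinarith [Nat.mul_lt_mul_of_pos_left a6 hp.pos]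

theorem core [IsAlgClosed K] (ℓ : ℕ) [Fact ℓ.Prime] [CharP K ℓ] [Finite G] [Group.IsSolvable G]
    (hirr : IrrRep ρ) (hf : Function.Injective ρ) (hp : p.Prime) (h5 : 5 ≤ p) (hx : orderOf x = p)
    (hG : normalClosure {x} = ⊤) : 2 * finrank K (LinearMap.ker (ρ x - 1)) < finrank K V := by
  by_cases h : center G = ⊤
  · obtain ⟨c, hc⟩ := hirr.exists_eq_smul (f := ρ x) fun m => by
      rw [← map_mul, ← map_mul, mem_center_iff.1 (h.ge (mem_top x))]
    have h1 : LinearMap.ker (ρ x - 1) = ⊥ := eq_bot_iff.2 fun v hv => by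
      have h2 : (c - 1) • v = 0 := by simpa [hc, sub_smul] using hv
      refine (smul_eq_zero.1 h2).resolve_left fun e => hp.ne_one ?_
      rw [← hx, hf (a₁ := x) (a₂ := 1) (by rw [hc, sub_eq_zero.1 e, one_smul, map_one]), orderOf_one]
    rw [h1, finrank_bot]
    exact hirr.finrank_pos
  obtain ⟨E, hE, -⟩ := exists_isChiefFactor_above (lt_top_iff_ne_top.2 h)
  have := hE.2.1
  rcases hE.2.2.2 (E ⊓ centralizer E) inferInstance (le_inf hE.1.le (center_le_centralizer _))
    inf_le_left with e | e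
  · exact prim ℓ hirr hf hp h5 hx hG hE e.le
  · exact imprim hirr hf hp h5 hx hG (inf_eq_left.1 e) hE.1.not_ge

theorem ker_le (T : End K V) (U : Submodule K V) (h : U ≤ U.comap T) :
    finrank K (LinearMap.ker T) ≤ finrank K (LinearMap.ker (T.restrict h)) +
      finrank K (LinearMap.ker (U.mapQ U T h)) := by
  rw [← (U.mkQ.domRestrict (LinearMap.ker T)).finrank_range_add_finrank_ker, add_comm]
  refine Nat.add_le_add ?_ (Submodule.finrank_mono ?_)
  · rw [← Submodule.finrank_map_subtype_eq, ← Submodule.finrank_map_subtype_eq U]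
    refine Submodule.finrank_mono ?_
    rintro _ ⟨v, hv, rfl⟩
    exact ⟨⟨v, (Submodule.Quotient.mk_eq_zero U).1 hv⟩, Subtype.ext v.2, rfl⟩
  · rintro _ ⟨v, rfl⟩
    change U.mkQ (T v) = 0
    rw [v.2, map_zero]

universe v in
theorem gen [IsAlgClosed K] (ℓ : ℕ) [Fact ℓ.Prime] [CharP K ℓ] [Finite G] [Group.IsSolvable G]
    (hp : p.Prime) (h5 : 5 ≤ p) (hx : x ^ p = 1) (hG : normalClosure {x} = ⊤) (N : Finset G)
    (hN : (N.card : K) ≠ 0) (n : ℕ) : ∀ (V : Type v) [AddCommGroup V] [Module K V]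
      [FiniteDimensional K V] [Nontrivial V] (ρ : Representation K G V), ∑ g ∈ N, ρ g = 0 →
      finrank K V = n → 2 * finrank K (LinearMap.ker (ρ x - 1)) < n := by
  induction n using Nat.strong_induction_on with
  | _ n ih =>
  intro V _ _ _ _ ρ h0 hn
  by_cases h : IrrRep ρ
  · have h1 : ρ x ≠ 1 := fun e => by
      have : ⊤ ≤ ρ.ker := hG.ge.trans (normalClosure_le_normal (by rintro _ rfl; exact e))
      rw [Finset.sum_congr rfl fun g _ => this (mem_top g), Finset.sum_const, ← Nat.cast_smul_eq_nsmul K,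
        smul_eq_zero] at h0
      exact h0.elim hN one_ne_zero
    have hs := QuotientGroup.mk'_surjective ρ.ker
    have := Fact.mk hp
    refine hn ▸ core (ρ := QuotientGroup.lift ρ.ker ρ le_rfl) (x := (x : G ⧸ ρ.ker)) ℓ
      ⟨inferInstance, fun U hU => h.irr U fun g => hU g⟩ ?_ hp h5 (orderOf_eq_prime
        (by rw [← QuotientGroup.mk_pow, hx]; rfl) fun e => h1 ((QuotientGroup.eq_one_iff x).1 e)) ?_
    · intro a b e
      obtain ⟨a, rfl⟩ := hs a
      obtain ⟨b, rfl⟩ := hs b
      refine QuotientGroup.eq.2 ?_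
      rw [MonoidHom.mem_ker, map_mul, ← show ρ a = ρ b from e, ← map_mul, inv_mul_cancel, map_one]
    · rw [← QuotientGroup.mk'_apply, ← Set.image_singleton, ← map_normalClosure _ _ hs, hG,
        map_top_of_surjective _ hs]
  obtain ⟨U, hU, h1, h2⟩ : ∃ U : Submodule K V, (∀ g, U ≤ U.comap (ρ g)) ∧ U ≠ ⊥ ∧ U ≠ ⊤ := by
    by_contra hc
    push Not at hc
    exact h ⟨inferInstance, fun U hU => or_iff_not_imp_left.2 (hc U hU)⟩
  have := Submodule.nontrivial_iff_ne_bot.2 h1
  have := Submodule.Quotient.nontrivial_iff.2 h2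
  have a1 := U.finrank_quotient_add_finrank
  have a2 := finrank_pos (R := K) (M := U)
  have a3 := finrank_pos (R := K) (M := V ⧸ U)
  have a4 := ih _ (by omega) U (ρ.subrepresentation U hU) (LinearMap.ext fun v => Subtype.ext (by
    simpa using LinearMap.congr_fun h0 v)) rfl
  have a5 := ih _ (by omega) (V ⧸ U) (ρ.quotient U hU) (LinearMap.ext fun v => by
    obtain ⟨v, rfl⟩ := U.mkQ_surjective v
    have := congrArg U.mkQ (LinearMap.congr_fun h0 v)
    simpa using this) rfl
  have hT : U ≤ U.comap (ρ x - 1) := fun v hv => U.sub_mem (hU x hv) hv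
  have a6 := ker_le (ρ x - 1) U hT
  rw [show (ρ x - 1).restrict hT = ρ.subrepresentation U hU x - 1 from rfl,
    show U.mapQ U (ρ x - 1) hT = ρ.quotient U hU x - 1 from LinearMap.ext fun v => by
      obtain ⟨v, rfl⟩ := U.mkQ_surjective v; rfl] at a6
  omega

/-- Let G be a finite solvable group and P a subgroup of G of prime order p > 3 whose conjugates generate G. Let V be a faithful irreducible representation of G over a field of positive characteristic, finite-dimensional. Then the subspace of V fixed by P has dimension less than half the dimension of V. -/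
theorem result {G : Type*} [Group G] [Finite G] [Group.IsSolvable G]
    {p : ℕ} [Fact p.Prime] (hp : 3 < p) (P : Subgroup G) (hP : Nat.card P = p) (hgen : Subgroup.normalClosure (P : Set G) = ⊤)
    {k : Type*} [Field k] (ℓ : ℕ) [Fact ℓ.Prime] [CharP k ℓ]
    {V : Type*} [AddCommGroup V] [Module k V] [FiniteDimensional k V]
    (ρ : Representation k G V) [ρ.IsIrreducible] (hfaith : Function.Injective ρ) :
    2 * Module.finrank k ↥(⨅ g : ↥P, LinearMap.ker (ρ (g : G) - LinearMap.id)) < Module.finrank k V := by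
  classical
  have hpp : p.Prime := Fact.out
  have hirr : IrrRep ρ := ⟨(Submodule.nontrivial_iff k).1
      (Subrepresentation.toSubmodule_injective (ρ := ρ)).nontrivial, fun U hU =>
    (eq_bot_or_eq_top (⟨U, hU⟩ : Subrepresentation ρ)).imp (congrArg Subrepresentation.toSubmodule)
      (congrArg Subrepresentation.toSubmodule)⟩
  obtain ⟨x, hxP, hx1⟩ := P.bot_or_exists_ne_one.resolve_left fun e => hpp.ne_one (by
    rw [← hP, e, card_bot])
  have hx : x ^ p = 1 := orderOf_dvd_iff_pow_eq_one.1 (hP ▸ orderOf_dvd_natCard P hxP)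
  have hG : normalClosure {x} = ⊤ := by
    refine eq_top_iff.2 (hgen.ge.trans (normalClosure_le_normal fun y hy => ?_))
    obtain ⟨n, hn⟩ := mem_zpowers_of_prime_card hP (g := ⟨x, hxP⟩) (g' := ⟨y, hy⟩)
      fun e => hx1 (congrArg Subtype.val e)
    rw [← show x ^ n = y from congrArg Subtype.val hn]
    exact (normalClosure {x}).zpow_mem (subset_normalClosure (Set.mem_singleton x)) n
  have := nontrivial_of_ne x 1 hx1
  obtain ⟨N, hN⟩ := exists_isMinNormal G
  have := hN.normal
  obtain ⟨r, hr, hE⟩ := hN.elementary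
  have hfix : ∀ v : V, (∀ n ∈ N, ρ n v = v) → v = 0 := by
    have h1 := hirr.irr (⨅ n : N, LinearMap.ker (ρ n - 1)) fun g v hv => by
      simp only [Submodule.mem_iInf, LinearMap.mem_ker, LinearMap.sub_apply, End.one_apply,
        sub_eq_zero] at hv ⊢
      intro n
      conv_rhs => rw [← hv ⟨_, this.conj_mem' _ n.2 g⟩]
      simp [← End.mul_apply, ← map_mul, mul_assoc]
    rcases h1 with e | e
    · exact fun v hv => e.le ((Submodule.mem_iInf _).2 fun n => sub_eq_zero.2 (hv n n.2))
    · refine (hN.ne_bot (eq_bot_iff.2 fun n hn => hfaith (LinearMap.ext fun v => ?_))).elim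
      rw [map_one]
      exact sub_eq_zero.1 ((Submodule.mem_iInf _).1 (e.ge (Submodule.mem_top (x := v))) ⟨n, hn⟩)
  have hrl : r ≠ ℓ := by
    rintro rfl
    have := hirr.nontrivial
    obtain ⟨U, -, hU, hi⟩ := exists_irrRep_le (ρ.comp N.subtype) (V' := ⊤) (fun _ _ _ => trivial)
      top_ne_bot
    have := hi.nontrivial
    obtain ⟨v, hv⟩ := exists_ne (0 : U)
    refine hv (Subtype.ext (hfix v fun n hn => ?_))
    set σ := Representation.subrepresentation (ρ.comp N.subtype) U hU
    have h1 : (σ ⟨n, hn⟩ - 1) ^ r = 0 := by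
      have : CharP (End k U) r := charP_of_injective_algebraMap (algebraMap k _).injective r
      rw [sub_pow_char_of_commute _ (Commute.one_right _), ← map_pow, one_pow,
        show (⟨n, hn⟩ : N) ^ r = 1 from Subtype.ext (hE.2 n hn), map_one, sub_self]
    rcases hi.injective_or_eq_zero (σ := σ) (f := σ ⟨n, hn⟩ - 1) fun m w => by
      simp only [LinearMap.sub_apply, End.one_apply, map_sub, ← End.mul_apply, ← map_mul]
      rw [hE.1.is_comm.comm, one_mul] with h | h
    · exact (hv (End.iterate_injective h r (by rw [h1]; simp))).elim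
    · exact congrArg Subtype.val (sub_eq_zero.1 (LinearMap.congr_fun h v))
  have := Fintype.ofFinite N
  have hsum : ∑ g ∈ Finset.univ.map (Function.Embedding.subtype (· ∈ N)), ρ g = 0 := by
    refine LinearMap.ext fun v => hfix _ fun n hn => ?_
    simp only [Finset.sum_map, LinearMap.sum_apply, map_sum]
    refine Fintype.sum_equiv (Equiv.mulLeft (⟨n, hn⟩ : N)) _ _ fun g => ?_
    simp
  have := hirr.nontrivial
  have h1 := gen (K := AlgebraicClosure k) ℓ hpp (five_le_of_prime_ne (by omega) (by omega)) hx hG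
    (Finset.univ.map (Function.Embedding.subtype (· ∈ N))) (fun h => by
      have := Fact.mk hr
      obtain ⟨j, hj⟩ := (isPGroup_of_forall_pow_eq_one hE.2).exists_card_eq
      rw [CharP.cast_eq_zero_iff _ ℓ, Finset.card_map, Finset.card_univ, ← Nat.card_eq_fintype_card,
        hj] at h
      exact hrl ((Nat.prime_dvd_prime_iff_eq Fact.out hr).1 ((Fact.out : ℓ.Prime).dvd_of_dvd_pow h)).symm)
    _ _ (repBaseChange (AlgebraicClosure k) ρ) (by
      have := congrArg (End.baseChangeHom k (AlgebraicClosure k) V) hsum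
      rwa [map_sum, map_zero] at this) rfl
  rw [finrank_baseChange] at h1
  refine lt_of_le_of_lt (Nat.mul_le_mul_left 2 ?_) h1
  set F := ⨅ g : P, LinearMap.ker (ρ (g : G) - LinearMap.id)
  rw [← finrank_baseChange (R := AlgebraicClosure k), ← LinearMap.finrank_range_of_inj
    (f := F.subtype.baseChange (AlgebraicClosure k)) (Module.Flat.lTensor_preserves_injective_linearMap
      _ F.subtype_injective)]
  refine Submodule.finrank_mono ?_
  rintro _ ⟨v, rfl⟩
  induction v using TensorProduct.induction_on with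
  | zero => simp
  | add a b ha hb => rw [map_add]; exact Submodule.add_mem _ ha hb
  | tmul a v =>
    have : ρ x v = v := sub_eq_zero.1 ((Submodule.mem_iInf _).1 v.2 ⟨x, hxP⟩)
    change (ρ x).baseChange _ (a ⊗ₜ[k] (v : V)) - a ⊗ₜ[k] (v : V) = 0
    rw [LinearMap.baseChange_tmul, this, sub_self]

end Cfsg.Agent.S3818
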