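import Mathlib
import Cfsg.Agent.GT.PConstrained
import Cfsg.Agent.GT.Conj
import Cfsg.Agent.GT.CoprimeFixed
import Cfsg.Agent.GT.PGroupBasic
import Cfsg.Statements.S3819
-- import your own Cfsg.Agent.* helpers here

set_option autoImplicit false
open Cfsg

namespace Cfsg.Agent.S3819

open Subgroup Cfsg.Agent.GT

theorem core_inf {G : Type*} [Group G] [Finite G] {p : ℕ} [Fact p.Prime] {H P : Subgroup G}
    (hH : IsPConstrained p H) (hP : IsPGroup p P) (hPH : P ≤ H) :
    pPrimeCoreOf p (H ⊓ centralizer (P : Set G)) ≤ pPrimeCoreOf p H := by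
  have h := hH.pPrimeCoreOf_centralizer (P := P.subgroupOf H) (hP.comap_subtype)
  rw [centralizer_subgroupOf_of_le hPH, ← inf_subgroupOf_left,
    pPrimeCoreOf_subgroupOf_of_le inf_le_left] at h
  exact le_map_subtype_of_subgroupOf_le ((pPrimeCoreOf_le _).trans inf_le_left)
    (h.le.trans inf_le_left)

/-- Let G be a finite group with Sylow p-subgroup P and H = O_{p'}(G), and suppose G = PH and the commutator subgroup [H, P] is solvable. Let q be a prime and z an element of q-power order of C_H(P). Then (O_{q'}(C_H(z)) ∩ O_{q'}(C_H(P))) · [O_{q'}(C_H(z)), P] ≤ O_{q'}(H). -/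
theorem result {G : Type*} [Group G] [Finite G] {p : ℕ} [Fact p.Prime]
    (P : Sylow p G) (hPH : Cfsg.pPrimeCore p G ⊔ (P : Subgroup G) = ⊤)
    (hsol : Group.IsSolvable ↥⁅Cfsg.pPrimeCore p G, (P : Subgroup G)⁆)
    {q : ℕ} [Fact q.Prime] (z : G) (hzH : z ∈ Cfsg.pPrimeCore p G) (hzP : z ∈ Subgroup.centralizer ((P : Subgroup G) : Set G))
    (hz : ∃ k : ℕ, orderOf z = q ^ k) :
    ((Cfsg.pPrimeCore q ↥(Cfsg.pPrimeCore p G ⊓ Subgroup.centralizer ({z} : Set G))).map
        (Cfsg.pPrimeCore p G ⊓ Subgroup.centralizer ({z} : Set G)).subtype ⊓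
      (Cfsg.pPrimeCore q ↥(Cfsg.pPrimeCore p G ⊓ Subgroup.centralizer ((P : Subgroup G) : Set G))).map
        (Cfsg.pPrimeCore p G ⊓ Subgroup.centralizer ((P : Subgroup G) : Set G)).subtype) ⊔
    ⁅(Cfsg.pPrimeCore q ↥(Cfsg.pPrimeCore p G ⊓ Subgroup.centralizer ({z} : Set G))).map
        (Cfsg.pPrimeCore p G ⊓ Subgroup.centralizer ({z} : Set G)).subtype, (P : Subgroup G)⁆ ≤
    (Cfsg.pPrimeCore q ↥(Cfsg.pPrimeCore p G)).map (Cfsg.pPrimeCore p G).subtype := by
  set H := pPrimeCore p G with hH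
  set K := ⁅H, (P : Subgroup G)⁆ with hK
  set C := H ⊓ centralizer ((P : Subgroup G) : Set G) with hC
  change pPrimeCoreOf q (H ⊓ centralizer {z}) ⊓ pPrimeCoreOf q C ⊔
    ⁅pPrimeCoreOf q (H ⊓ centralizer {z}), (P : Subgroup G)⁆ ≤ pPrimeCoreOf q H
  set X := pPrimeCoreOf q (H ⊓ centralizer {z}) with hX
  set Y := pPrimeCoreOf q C with hY
  have hHn : ∀ L : Subgroup G, L ≤ normalizer (H : Set G) := fun L => by
    rw [normalizer_eq_top]; exact le_top
  have hKH : K ≤ H := CopAct.commutator_le_of_le_normalizer (hHn _)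
  have hHK : H ≤ normalizer (K : Set G) := normalizer_commutator_ge_left _ _
  have hKC : K ⊔ C = H := CopAct.commutator_sup_centralizer (hHn _)
    (CopAct.coprime_of_isPGroup_left P.2 (not_dvd_card_pPrimeCore Fact.out))
    (Or.inl (CopAct.isSolvable_of_isPGroup P.2))
  have hYH : Y ≤ H := (pPrimeCoreOf_le _).trans inf_le_left
  set N := Y ⊔ K with hN
  have hNH : N ≤ H := sup_le hYH hKH
  have hCN : C ≤ normalizer (N : Set G) :=
    PG.le_normalizer_sup (le_normalizer_pPrimeCoreOf C) (inf_le_left.trans hHK)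
  have hHN : H ≤ normalizer (N : Set G) := by
    rw [← hKC]; exact sup_le (le_sup_right.trans le_normalizer) hCN
  have hzq : IsPGroup q (zpowers z) := by
    obtain ⟨k, hk⟩ := hz
    exact IsPGroup.of_card (n := k) (by rw [Nat.card_zpowers, hk])
  have hNs : IsPSolvable q N := (isPSolvable_of_coprime (coprime_card_pPrimeCoreOf q C)
    ).sup_of_le_normalizer (isPSolvable_of_isSolvable hsol) (hYH.trans hHK)
  have hzH' : zpowers z ≤ H := zpowers_le.2 hzH
  set L := zpowers z ⊔ N with hL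
  have hLH : L ≤ H := sup_le hzH' hNH
  have hLs : IsPSolvable q L :=
    (isPSolvable_of_isPGroup hzq).sup_of_le_normalizer hNs (hzH'.trans hHN)
  have h1 := core_inf hLs.isPConstrained hzq le_sup_left
  rw [centralizer_zpowers] at h1
  have hXc : X ≤ centralizer {z} := (pPrimeCoreOf_le _).trans inf_le_right
  have key : X ⊓ N ≤ pPrimeCoreOf q H := by
    refine le_trans ?_ (pPrimeCoreOf_le_pPrimeCoreOf hNH hHN)
    refine le_trans (le_inf ?_ inf_le_right) (pPrimeCoreOf_inf_le (le_sup_right : N ≤ L))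
    refine le_trans ?_ ((pPrimeCoreOf_inf_le (inf_le_inf_right (centralizer {z}) hLH)).trans h1)
    exact le_inf inf_le_left (le_inf (inf_le_right.trans le_sup_right) (inf_le_left.trans hXc))
  refine sup_le (le_trans (inf_le_inf_left _ le_sup_left) key) (le_trans (le_inf ?_ ?_) key)
  · refine CopAct.commutator_le_of_le_normalizer (le_trans ?_
      (normalizer_le_normalizer_pPrimeCoreOf _))
    refine PG.le_normalizer_inf (hHn _) (le_trans ?_ le_normalizer)
    exact le_centralizer_singleton_iff.2 hzP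
  · exact (commutator_mono ((pPrimeCoreOf_le _).trans inf_le_left) le_rfl).trans le_sup_right

end Cfsg.Agent.S3819
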