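import Mathlib
import Cfsg.Statements.S3820
import Cfsg.Agent.GT.Conj

set_option autoImplicit false
open Cfsg

namespace Cfsg.Agent.S3820

section aux

open Subgroup Cfsg.Agent.GT 
open scoped commutatorElement



end aux

open Subgroup Cfsg.Agent.GT  in
open scoped commutatorElement in
/-- Call a subgroup H of G pronormal if H and gHg⁻¹ are conjugate inside ⟨H, gHg⁻¹⟩ for every g ∈ G. Let S ≤ H ≤ G be subgroups of a finite group with S pronormal in G (for instance S a Sylow subgroup). Then H is pronormal in G if and only if H and gHg⁻¹ are conjugate inside ⟨H, gHg⁻¹⟩ for every g ∈ N_G(S). In particular H is pronormal whenever N_G(S) ≤ H. -/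
theorem result {G : Type*} [Group G] [Finite G] (S H : Subgroup G) (hSH : S ≤ H)
    (hS : Cfsg.IsPronormal S) :
    Cfsg.IsPronormal H ↔
      ∀ g ∈ Subgroup.normalizer (S : Set G), ∃ w ∈ H ⊔ H.map (MulAut.conj g).toMonoidHom,
        H.map (MulAut.conj g).toMonoidHom = H.map (MulAut.conj w).toMonoidHom := by
  refine ⟨fun h g _ => h g, fun h g => ?_⟩
  obtain ⟨x, hx, hxe⟩ := hS g
  have hx' : x ∈ H ⊔ H.map (MulAut.conj g).toMonoidHom :=
    sup_le_sup hSH (Subgroup.map_mono hSH) hx
  obtain ⟨w, hw, hwe⟩ := h (x⁻¹ * g) (map_conj_eq_map_conj_iff.1 hxe)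
  have h1 : H ⊔ H.map (MulAut.conj (x⁻¹ * g)).toMonoidHom ≤
      H ⊔ H.map (MulAut.conj g).toMonoidHom := by
    refine sup_le le_sup_left ?_
    rw [map_conj_mul]
    exact map_conj_le_of_mem le_sup_right (Subgroup.inv_mem _ hx')
  refine ⟨x * w, Subgroup.mul_mem _ hx' (h1 hw), ?_⟩
  rw [map_conj_mul, ← hwe, ← map_conj_mul, mul_inv_cancel_left]

end Cfsg.Agent.S3820
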