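import Mathlib
import Cfsg.Statements.S3821
import Cfsg.Agent.GT.Conj

set_option autoImplicit false
open Cfsg

namespace Cfsg.Agent.S3821

section aux

open Subgroup Cfsg.Agent.GT 
open scoped commutatorElement



end aux

open Subgroup Cfsg.Agent.GT  in
open scoped commutatorElement in
/-- Let A be a normal subgroup of the finite group G and H a subgroup of A. Then H is pronormal in G (H and gHg⁻¹ conjugate inside ⟨H, gHg⁻¹⟩ for every g ∈ G) if and only if H is pronormal in A and G = A · N_G(H). -/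
theorem result {G : Type*} [Group G] [Finite G] (A H : Subgroup G) [A.Normal] (hHA : H ≤ A) :
    Cfsg.IsPronormal H ↔ (Cfsg.IsPronormal (H.subgroupOf A) ∧ A ⊔ Subgroup.normalizer (H : Set G) = ⊤) := by
  have key : ∀ a : A, ∀ x : A, x ∈ H.subgroupOf A ⊔ (H.subgroupOf A).map (MulAut.conj a).toMonoidHom ↔
      (x : G) ∈ H ⊔ H.map (MulAut.conj (a : G)).toMonoidHom := by
    intro a x
    rw [map_conj_subgroupOf, ← subgroupOf_sup hHA (map_conj_le_of_normal hHA _), mem_subgroupOf]
  have key2 : ∀ a x : A, (H.subgroupOf A).map (MulAut.conj a).toMonoidHom =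
      (H.subgroupOf A).map (MulAut.conj x).toMonoidHom ↔
      H.map (MulAut.conj (a : G)).toMonoidHom = H.map (MulAut.conj (x : G)).toMonoidHom := by
    intro a x
    rw [map_conj_eq_map_conj_iff, map_conj_eq_map_conj_iff, ← subgroupOf_normalizer_eq hHA,
      mem_subgroupOf]
    rfl
  constructor
  · intro h
    have hle : ∀ g : G, H ⊔ H.map (MulAut.conj g).toMonoidHom ≤ A := fun g =>
      sup_le hHA (map_conj_le_of_normal hHA g)
    refine ⟨fun a => ?_, eq_top_iff.2 fun g _ => ?_⟩
    · obtain ⟨x, hx, hxe⟩ := h a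
      exact ⟨⟨x, hle _ hx⟩, (key _ _).2 hx, (key2 _ _).2 hxe⟩
    · obtain ⟨x, hx, hxe⟩ := h g
      have := mul_mem_sup (hle _ hx) (map_conj_eq_map_conj_iff.1 hxe)
      simpa using this
  · rintro ⟨h, htop⟩ g
    have hg : g ∈ ((A ⊔ Subgroup.normalizer (H : Set G) : Subgroup G) : Set G) := by
      rw [htop]; trivial
    rw [normal_mul] at hg
    obtain ⟨a, ha, n, hn, rfl⟩ := hg
    obtain ⟨x, hx, hxe⟩ := h ⟨a, ha⟩
    have e : H.map (MulAut.conj (a * n)).toMonoidHom = H.map (MulAut.conj a).toMonoidHom := by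
      rw [map_conj_mul, map_conj_eq_of_mem_norm hn]
    refine ⟨x, ?_, ?_⟩
    · change (x : G) ∈ H ⊔ H.map (MulAut.conj (a * n)).toMonoidHom
      rw [e]; exact (key ⟨a, ha⟩ x).1 hx
    · change H.map (MulAut.conj (a * n)).toMonoidHom = _
      rw [e]; exact (key2 ⟨a, ha⟩ x).1 hxe

end Cfsg.Agent.S3821
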