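import Cfsg.Statements.S3822
import Cfsg.Agent.S3818
import Cfsg.Agent.GT.SchurZassenhaus
import Cfsg.Agent.GT.HallTools
import Cfsg.Agent.GT.Fitting

set_option autoImplicit false
open Cfsg

namespace Cfsg.Agent.S3822

open Subgroup Cfsg.Agent.GT Cfsg.Agent.GT.CopAct Module
open scoped Pointwise TensorProduct commutatorElement

theorem half {G : Type*} [Group G] [Finite G] [Group.IsSolvable G] {p : ℕ} (hp : p.Prime)
    (h5 : 5 ≤ p) {k : Type*} [Field k] (ℓ : ℕ) [Fact ℓ.Prime] [CharP k ℓ]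
    {V : Type*} [AddCommGroup V] [Module k V] [FiniteDimensional k V] [Nontrivial V]
    (ρ : Representation k G V) {x : G} (hx : x ^ p = 1) (hG : normalClosure {x} = ⊤)
    (N : Finset G) (hN : ¬ ℓ ∣ N.card) (hsum : ∑ g ∈ N, ρ g = 0) :
    2 * finrank k (LinearMap.ker (ρ x - 1)) < finrank k V := by
  have h1 := S3818.gen (K := AlgebraicClosure k) ℓ hp h5 hx hG N
    (fun h => hN ((CharP.cast_eq_zero_iff _ ℓ _).1 h))
    _ _ (repBaseChange (AlgebraicClosure k) ρ) (by
      have := congrArg (End.baseChangeHom k (AlgebraicClosure k) V) hsum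
      rwa [map_sum, map_zero] at this) rfl
  rw [finrank_baseChange] at h1
  refine lt_of_le_of_lt (Nat.mul_le_mul_left 2 ?_) h1
  set F := LinearMap.ker (ρ x - 1)
  rw [← finrank_baseChange (R := AlgebraicClosure k), ← LinearMap.finrank_range_of_inj
    (f := F.subtype.baseChange (AlgebraicClosure k)) (Module.Flat.lTensor_preserves_injective_linearMap
      _ F.subtype_injective)]
  refine Submodule.finrank_mono ?_
  rintro _ ⟨v, rfl⟩
  induction v using TensorProduct.induction_on with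
  | zero => simp
  | add a b ha hb => rw [map_add]; exact Submodule.add_mem _ ha hb
  | tmul a v =>
    have : ρ x v = v := sub_eq_zero.1 v.2
    change (ρ x).baseChange _ (a ⊗ₜ[k] (v : V)) - a ⊗ₜ[k] (v : V) = 0
    rw [LinearMap.baseChange_tmul, this, sub_self]

section
variable {G : Type*} [Group G]

theorem ncl {A : Subgroup G} {x y a : G} (hA : A = closure {x, y}) (hx : x ∈ A) (ha : a ∈ A)
    (hy : y = a * x * a⁻¹) : normalClosure {(⟨x, hx⟩ : A)} = ⊤ := by
  have h1 : A ≤ (normalClosure {(⟨x, hx⟩ : A)}).map A.subtype := by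
    have h0 : (⟨x, hx⟩ : A) ∈ normalClosure {(⟨x, hx⟩ : A)} :=
      subset_normalClosure (Set.mem_singleton _)
    conv_lhs => rw [hA]
    rw [closure_le]
    rintro z (rfl | rfl)
    · exact ⟨_, h0, rfl⟩
    · exact ⟨_, normalClosure_normal.conj_mem _ h0 ⟨a, ha⟩, hy.symm⟩
  rw [eq_top_iff]
  intro g _
  obtain ⟨z, hz, e⟩ := h1 g.2
  rwa [show z = g from Subtype.ext e] at hz

theorem core [Finite G] {p q : ℕ} (hp : p.Prime) (h5 : 5 ≤ p) [hq : Fact q.Prime]
    {A W R : Subgroup G} [Group.IsSolvable A] {x a : G} (hx : x ^ p = 1) (ha : a ∈ A)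
    (hA : A = closure {x, a * x * a⁻¹}) (hWq : IsPGroup q W) (hirr : IsMinInv A W)
    (hRA : R ≤ A) (hAR : A ≤ normalizer (R : Set G)) (hcop : (Nat.card R).Coprime q)
    (hnc : ¬ W ≤ centralizer (R : Set G)) :
    ∃ v ∈ W, W ≤ closure {x, v * (a * x * a⁻¹) * v⁻¹} := by
  classical
  set y := a * x * a⁻¹ with hy
  have hW := hirr.elementary_of_isPGroup hq.out hWq
  have hAW := hirr.1
  have hxA : x ∈ A := by rw [hA]; exact subset_closure (by simp)
  have hyA : y ∈ A := by rw [hA]; exact subset_closure (by simp)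
  have hC : W ⊓ centralizer (R : Set G) = ⊥ :=
    (hirr.2.2 _ (le_normalizer_inf hAW (CopAct.le_normalizer_centralizer hAR))
      inf_le_left).resolve_right fun h => hnc (h ▸ inf_le_right)
  have hcop' : (Nat.card W).Coprime (Nat.card R) := by
    obtain ⟨n, hn⟩ := hWq.exists_card_eq
    rw [hn]; exact (hcop.pow_right n).symm
  have hWR : W ⊓ R = ⊥ := CopAct.inf_eq_bot_of_coprime hcop'
  have hRW : R ≤ normalizer (W : Set G) := hRA.trans hAW
  have hNC : W ⊓ normalizer (R : Set G) = ⊥ := by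
    rw [inf_normalizer_eq_inf_centralizer hRW (by rw [inf_comm, hWR]), hC]
  let ρ := eaRep hW hAW
  haveI : Nontrivial (EAV hW) := by
    obtain ⟨w, hw, hw1⟩ := W.bot_or_exists_ne_one.resolve_left hirr.2.1
    exact ⟨EAV.mk hW w hw, 0, fun h => hw1 (congrArg EAV.val h)⟩
  haveI := Fintype.ofFinite A
  haveI := Fintype.ofFinite R
  let ι : R ↪ A := ⟨fun r => ⟨r, hRA r.2⟩, fun r s h => Subtype.ext (congrArg Subtype.val h :)⟩
  have hsum : ∑ g ∈ Finset.univ.map ι, ρ g = 0 := by
    refine LinearMap.ext fun v => EAV.val_eq_one_iff.1 ?_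
    rw [← mem_bot, ← hC]
    refine ⟨EAV.val_mem _, fun r hr => ?_⟩
    apply (eaRep_apply_eq_iff (hV := hW) (hHV := hAW) (h := ι ⟨r, hr⟩)).1
    simp only [Finset.sum_map, LinearMap.sum_apply, map_sum]
    refine Fintype.sum_equiv (Equiv.mulLeft (⟨r, hr⟩ : R)) _ _ fun g => ?_
    rw [← End.mul_apply, ← map_mul]
    rfl
  have hN : ¬ q ∣ (Finset.univ.map ι).card := by
    rw [Finset.card_map, Finset.card_univ, ← Nat.card_eq_fintype_card]
    exact (Nat.Prime.coprime_iff_not_dvd hq.out).1 hcop.symm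
  have h1 := half hp h5 q ρ (x := ⟨x, hxA⟩) (Subtype.ext hx) (ncl hA hxA ha hy) _ hN hsum
  have h2 := half hp h5 q ρ (x := ⟨y, hyA⟩) (Subtype.ext (by
    show y ^ p = 1
    rw [hy, conj_pow, hx, mul_one, mul_inv_cancel])) (ncl (y := x) (a := a⁻¹)
      (by rw [hA, Set.pair_comm]) hyA (inv_mem ha) (by rw [hy]; group)) _ hN hsum
  have h3 : LinearMap.ker (ρ ⟨x, hxA⟩ - 1) ⊔ LinearMap.ker (ρ ⟨y, hyA⟩ - 1) ≠ ⊤ := by
    intro h
    have := Submodule.finrank_sup_add_finrank_inf_eq (LinearMap.ker (ρ ⟨x, hxA⟩ - 1))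
      (LinearMap.ker (ρ ⟨y, hyA⟩ - 1))
    rw [h, finrank_top] at this
    omega
  obtain ⟨v, hv⟩ : ∃ v, v ∉ LinearMap.ker (ρ ⟨x, hxA⟩ - 1) ⊔ LinearMap.ker (ρ ⟨y, hyA⟩ - 1) := by
    by_contra h
    push Not at h
    exact h3 (eq_top_iff.2 fun v _ => h v)
  refine ⟨v.val, v.val_mem, ?_⟩
  by_contra hcon
  apply hv
  have hvW := v.val_mem
  set u := v.val with hu
  set B := closure {x, u * y * u⁻¹} with hB
  have hxB : x ∈ B := subset_closure (by simp)
  have hyB : u * y * u⁻¹ ∈ B := subset_closure (by simp)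
  have hBAW : B ≤ W ⊔ A := by
    rw [hB, closure_le]
    rintro z (rfl | rfl)
    · exact mem_sup_right hxA
    · exact mul_mem (mul_mem (mem_sup_left hvW) (mem_sup_right hyA)) (inv_mem (mem_sup_left hvW))
  have hBW : B ≤ normalizer (W : Set G) := hBAW.trans (sup_le le_normalizer hAW)
  have hABW : A ≤ W ⊔ B := by
    rw [hA, closure_le]
    rintro z (rfl | rfl)
    · exact mem_sup_right hxB
    · have : y = u⁻¹ * (u * y * u⁻¹) * u := by group
      rw [SetLike.mem_coe, this]
      exact mul_mem (mul_mem (inv_mem (mem_sup_left hvW)) (mem_sup_right hyB)) (mem_sup_left hvW)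
  have hWB : W ⊓ B = ⊥ := by
    refine (hirr.2.2 _ (hABW.trans (sup_le ?_ (le_normalizer_inf hBW le_normalizer)))
      inf_le_left).resolve_right fun h => hcon (h ▸ inf_le_right)
    refine le_trans ?_ (centralizer_le_normalizer _)
    intro w hw z hz
    exact congrArg Subtype.val (hW.1.is_comm.comm (⟨z, hz.1⟩ : W) ⟨w, hw⟩)
  set R' := B ⊓ (W ⊔ R) with hR'
  have hsup : W ⊔ R = W ⊔ R' := by
    refine le_antisymm (sup_le le_sup_left fun r hr => ?_) (sup_le le_sup_left inf_le_right)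
    obtain ⟨w, hw, b, hb, e⟩ := (HT.mem_sup_of_le_normalizer hBW).1 (hABW (hRA hr))
    rw [← e]
    refine mul_mem (mem_sup_left hw) (mem_sup_right ⟨hb, ?_⟩)
    have : b = w⁻¹ * r := by rw [← e]; group
    show b ∈ W ⊔ R
    rw [this]
    exact mul_mem (inv_mem (mem_sup_left hw)) (mem_sup_right hr)
  have hcard : Nat.card R' = Nat.card R := by
    have e1 := card_sup_of_inf_eq_bot (K := W) (A := R) hRW hWR
    have e2 := card_sup_of_inf_eq_bot (K := W) (A := R') (inf_le_left.trans hBW)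
      (eq_bot_iff.2 (hWB ▸ inf_le_inf_left _ inf_le_left))
    rw [← hsup, e1] at e2
    exact (Nat.eq_of_mul_eq_mul_left Nat.card_pos e2).symm
  haveI := hW.1
  obtain ⟨w, hw, hwR⟩ := conj_of_coprime_sup_eq W R R' hRW hcop' (hcard ▸ hcop') hsup
    (Or.inl isSolvable_of_isMulCommutative)
  have hBR' : B ≤ normalizer (R' : Set G) := by
    refine le_normalizer_inf le_normalizer (hBAW.trans (sup_le ?_ ?_))
    · exact le_sup_left.trans le_normalizer
    · exact (le_inf hAW hAR).trans (normalizer_inf_normalizer_le_normalizer_sup _ _)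
  have key : ∀ g ∈ A, ∀ s ∈ W, s * g * s⁻¹ ∈ B → g * (w⁻¹ * s) = (w⁻¹ * s) * g := by
    intro g hg s hs hb
    have e1 : w⁻¹ * (s * g * s⁻¹) * w ∈ normalizer (R : Set G) := by
      have e2 := mem_normalizer_iff_map_conj_eq.1 (hBR' hb)
      rw [mem_normalizer_iff_map_conj_eq]
      change MulAut.conj (s * g * s⁻¹) • R' = R' at e2
      change MulAut.conj (w⁻¹ * (s * g * s⁻¹) * w) • R = R
      rw [map_mul, map_mul, mul_smul, mul_smul, hwR, e2, ← hwR, map_inv, inv_smul_smul]
    have e3 : (w⁻¹ * s) * (g * (w⁻¹ * s)⁻¹ * g⁻¹) ∈ W ⊓ normalizer (R : Set G) := by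
      have hws : w⁻¹ * s ∈ W := mul_mem (inv_mem hw) hs
      refine ⟨mul_mem hws ((mem_normalizer_iff.1 (hAW hg) _).1 (inv_mem hws)), ?_⟩
      have : (w⁻¹ * s) * (g * (w⁻¹ * s)⁻¹ * g⁻¹) = w⁻¹ * (s * g * s⁻¹) * w * g⁻¹ := by group
      show _ ∈ normalizer (R : Set G)
      rw [this]
      exact mul_mem e1 (inv_mem (hAR hg))
    rw [hNC, mem_bot] at e3
    calc g * (w⁻¹ * s) = (w⁻¹ * s) * (g * (w⁻¹ * s)⁻¹ * g⁻¹) * (g * (w⁻¹ * s)) := by
          rw [e3, one_mul]
      _ = _ := by group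
  have k1 := key x hxA 1 (one_mem _) (by simpa using hxB)
  have k2 := key y hyA u hvW hyB
  refine Submodule.mem_sup.2 ⟨EAV.mk hW w hw, ?_, EAV.mk hW (w⁻¹ * u) (mul_mem (inv_mem hw) hvW),
    ?_, EAV.ext ?_⟩
  · refine sub_eq_zero.2 (eaRep_apply_eq_iff.2 ?_)
    show x * w = w * x
    rw [mul_one] at k1
    calc x * w = w * (w⁻¹ * x) * w := by group
      _ = _ := by rw [← k1]; group
  · exact sub_eq_zero.2 (eaRep_apply_eq_iff.2 k2)
  · show w * (w⁻¹ * u) = u
    group

theorem lift [Finite G] {p q : ℕ} (hp : p.Prime) (h5 : 5 ≤ p) [hq : Fact q.Prime]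
    {A W R : Subgroup G} [Group.IsSolvable A] {x a : G} (hx : x ^ p = 1) (ha : a ∈ A)
    (hA : A = closure {x, a * x * a⁻¹}) (hWq : IsPGroup q W) (hAW : A ≤ normalizer (W : Set G))
    (hRA : R ≤ A) (hAR : A ≤ normalizer (R : Set G)) (hcop : (Nat.card R).Coprime q)
    (hnt : ⁅W, R⁆ ≠ ⊥) (hmin : ∀ U : Subgroup G, U < W → A ≤ normalizer (U : Set G) →
      R ≤ normalizer (U : Set G) → ⁅U, R⁆ = ⊥) :
    ∃ v ∈ W, W ≤ closure {x, v * (a * x * a⁻¹) * v⁻¹} := by
  obtain ⟨h1, h2, h3, -⟩ := minimal_action_structure hWq hAW (hRA.trans hAW) hAR hcop hnt hmin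
  set N := ⁅W, W⁆ with hN
  set M := normalizer (N : Set G) with hM
  have hAM : A ≤ M := hAW.trans (normalizer_le_normalizer_commutator_self W)
  have hWM : W ≤ M := le_normalizer.trans (normalizer_le_normalizer_commutator_self W)
  have hNW : N ≤ W := h2 ▸ inf_le_left
  have hxA : x ∈ A := by rw [hA]; exact subset_closure (by simp)
  haveI : (N.subgroupOf M).Normal := normal_in_normalizer
  let φ := QuotientGroup.mk' (N.subgroupOf M)
  have hφ : ∀ g : M, φ g = 1 ↔ (g : G) ∈ N := fun g => QuotientGroup.eq_one_iff g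
  have hnorm : ∀ X Y : Subgroup G, X ≤ normalizer (Y : Set G) →
      (X.subgroupOf M).map φ ≤ normalizer (((Y.subgroupOf M).map φ : Subgroup _) : Set _) :=
    fun X Y h => (map_mono ((comap_mono h).trans (le_normalizer_comap _))).trans
      (le_normalizer_map _)
  have hcl : ∀ s t : M, (closure {(s : G), (t : G)}).subgroupOf M = closure {s, t} := by
    intro s t
    have : closure {(s : G), (t : G)} = (closure {s, t}).map M.subtype := by
      rw [MonoidHom.map_closure, Set.image_pair]; rfl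
    rw [this, subgroupOf, comap_map_eq_self_of_injective M.subtype_injective]
  have hnW : ¬ W ≤ N := fun h => hnt (by
    rw [commutator_eq_bot_iff_le_centralizer]
    exact h.trans (h2 ▸ inf_le_right))
  haveI := isSolvable_subgroupOf A M
  haveI := isSolvable_map (A.subgroupOf M) φ
  obtain ⟨v, ⟨v, hv, rfl⟩, hle⟩ := core (A := (A.subgroupOf M).map φ) (W := (W.subgroupOf M).map φ)
    (R := (R.subgroupOf M).map φ) (x := φ ⟨x, hAM hxA⟩) (a := φ ⟨a, hAM ha⟩) (q := q) hp h5
    (by rw [← map_pow, show (⟨x, hAM hxA⟩ : M) ^ p = 1 from Subtype.ext hx, map_one])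
    ⟨_, ha, rfl⟩
    (by
      rw [← map_inv, ← map_mul, ← map_mul, ← Set.image_pair, ← MonoidHom.map_closure, ← hcl]
      exact congrArg (fun X : Subgroup G => (X.subgroupOf M).map φ) hA)
    ((hWq.comap_of_injective M.subtype M.subtype_injective).map φ)
    ⟨hnorm _ _ hAW, fun h => hnW fun w hw => by
      have : φ ⟨w, hWM hw⟩ ∈ (W.subgroupOf M).map φ := ⟨_, hw, rfl⟩
      rw [h, mem_bot] at this
      exact (hφ _).1 this, fun K hK hKW => by
      set U := (K.comap φ).map M.subtype with hU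
      have hUW : U ≤ W := by
        rintro _ ⟨g, hg, rfl⟩
        obtain ⟨w, hw, e⟩ := hKW hg
        have : ((w⁻¹ * g : M) : G) ∈ N := (hφ _).1 (by rw [map_mul, map_inv, e, inv_mul_cancel])
        have e2 : M.subtype g = w * (w⁻¹ * g : M) := by simp
        rw [e2]
        exact mul_mem hw (hNW this)
      have hAU : A ≤ normalizer (U : Set G) := by
        intro g hg
        refine le_normalizer_map _ ⟨⟨g, hAM hg⟩, le_normalizer_comap _ (hK ⟨_, hg, rfl⟩), rfl⟩
      rcases hUW.lt_or_eq with h | h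
      · left
        have h4 := hmin U h hAU (hRA.trans hAU)
        rw [commutator_eq_bot_iff_le_centralizer] at h4
        have h5 : U ≤ N := h2 ▸ le_inf hUW h4
        rw [eq_bot_iff]
        intro k hk
        obtain ⟨g, rfl⟩ := QuotientGroup.mk'_surjective _ k
        exact (hφ g).2 (h5 ⟨g, hk, rfl⟩)
      · right
        refine le_antisymm hKW ?_
        rintro _ ⟨w, hw, rfl⟩
        have : (w : G) ∈ U := h ▸ hw
        obtain ⟨g, hg, e⟩ := this
        rwa [show g = w from Subtype.ext e] at hg⟩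
    (map_mono (comap_mono hRA)) (hnorm _ _ hAR)
    (Nat.Coprime.coprime_dvd_left ((card_map_dvd _ _).trans
      (card_comap_dvd_of_injective _ _ M.subtype_injective)) hcop)
    (fun h => hnW (by
      rw [← h1, commutator_le]
      intro w hw r hr
      have e1 := h (⟨⟨w, hWM hw⟩, hw, rfl⟩ : φ ⟨w, hWM hw⟩ ∈ (W.subgroupOf M).map φ)
        (φ ⟨r, hAM (hRA hr)⟩) ⟨_, hr, rfl⟩
      refine (hφ ⁅(⟨w, hWM hw⟩ : M), ⟨r, hAM (hRA hr)⟩⁆).1 ?_
      rw [map_commutatorElement, commutatorElement_eq_one_iff_mul_comm, e1]))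
  refine ⟨v, hv, ?_⟩
  set B := closure {x, (v : G) * (a * x * a⁻¹) * (v : G)⁻¹} with hB
  rw [← map_inv, ← map_inv, ← map_mul, ← map_mul, ← map_mul, ← map_mul, ← Set.image_pair,
    ← MonoidHom.map_closure, ← hcl] at hle
  have h6 : B.subgroupOf W ⊔ frattini W = ⊤ := by
    rw [eq_top_iff]
    intro w _
    obtain ⟨b, hb, e⟩ := hle (⟨⟨w, hWM w.2⟩, w.2, rfl⟩ : φ ⟨w, hWM w.2⟩ ∈ (W.subgroupOf M).map φ)
    have e1 : (b : G)⁻¹ * w ∈ N :=
      (hφ (b⁻¹ * ⟨w, hWM w.2⟩)).1 (by rw [map_mul, map_inv, e, inv_mul_cancel])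
    rw [← h3] at e1
    obtain ⟨n, hn, e2⟩ := e1
    have e3 : w = (w * n⁻¹) * n := by group
    rw [e3]
    refine mul_mem (mem_sup_left ?_) (mem_sup_right hn)
    have e4 : ((w * n⁻¹ : W) : G) = b := by
      have : (n : G) = (b : G)⁻¹ * w := e2
      rw [coe_mul, coe_inv, this]; group
    rw [mem_subgroupOf, e4]
    exact hb
  exact subgroupOf_eq_top.1 (frattini_nongenerating h6)

end

/-- Let G be a finite group and P a subgroup of prime order p > 3. Consider the solvable subgroups A of G of the form A = ⟨P, aPa⁻¹⟩ for some a ∈ A, and let A be maximal under inclusion among them. Then for every nilpotent subgroup V of G normalized by A, the subgroup F(A)V generated by the Fitting subgroup of A and V is nilpotent. -/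
theorem result {G : Type*} [Group G] [Finite G]
    {p : ℕ} [Fact p.Prime] (hp : 3 < p) (P : Subgroup G) (hP : Nat.card P = p) (A : Subgroup G)
    (hA : Group.IsSolvable ↥A ∧ ∃ a ∈ A, A = P ⊔ P.map (MulAut.conj a).toMonoidHom)
    (hmax : ∀ B : Subgroup G, A ≤ B → Group.IsSolvable ↥B → (∃ b ∈ B, B = P ⊔ P.map (MulAut.conj b).toMonoidHom) → B = A)
    (V : Subgroup G) (hV : Group.IsNilpotent ↥V) (hAV : A ≤ Subgroup.normalizer (V : Set G)) :
    Group.IsNilpotent ↥((Cfsg.fittingSubgroup ↥A).map A.subtype ⊔ V) := by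
  have hpp : p.Prime := Fact.out
  obtain ⟨hsol, a, ha, hAe⟩ := hA
  obtain ⟨x, hxP, hx1⟩ := P.bot_or_exists_ne_one.resolve_left fun e => hpp.ne_one (by
    rw [← hP, e, card_bot])
  have hx : x ^ p = 1 := orderOf_dvd_iff_pow_eq_one.1 (hP ▸ orderOf_dvd_natCard P hxP)
  have hPx : P = zpowers x := by
    refine le_antisymm (fun y hy => ?_) (zpowers_le.2 hxP)
    obtain ⟨n, hn⟩ := mem_zpowers_of_prime_card hP (g := ⟨x, hxP⟩) (g' := ⟨y, hy⟩)
      fun e => hx1 (congrArg Subtype.val e)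
    exact ⟨n, congrArg Subtype.val hn⟩
  have hcl : ∀ b : G, P ⊔ P.map (MulAut.conj b).toMonoidHom = closure {x, b * x * b⁻¹} := by
    intro b
    rw [hPx, MonoidHom.map_zpowers, zpowers_eq_closure, zpowers_eq_closure, ← Subgroup.closure_union]
    rfl
  rw [hcl] at hAe
  have star : ∀ (q : ℕ), q.Prime → ∀ W R : Subgroup G, IsPGroup q W →
      A ≤ normalizer (W : Set G) → R ≤ A → A ≤ normalizer (R : Set G) →
      (Nat.card R).Coprime q → W ≤ centralizer (R : Set G) := by
    intro q hq W R hW hAW hRA hAR hcop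
    haveI := Fact.mk hq
    rw [← commutator_eq_bot_iff_le_centralizer]
    by_contra hnt
    obtain ⟨W, hle, hAW, -, hnt, hmin⟩ := exists_minimal_not_centralized hAW (hRA.trans hAW) hnt
    replace hW := hW.to_le hle
    obtain ⟨v, hv, hWB⟩ := lift hpp (five_le_of_prime_ne (by omega) (by omega)) hx ha hAe hW hAW
      hRA hAR hcop hnt hmin
    set B := closure {x, v * (a * x * a⁻¹) * v⁻¹} with hB
    have hAB : A ≤ B := by
      rw [hAe, closure_le]
      rintro z (rfl | rfl)
      · exact subset_closure (by simp)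
      · have : a * x * a⁻¹ = v⁻¹ * (v * (a * x * a⁻¹) * v⁻¹) * v := by group
        rw [SetLike.mem_coe, this]
        exact mul_mem (mul_mem (inv_mem (hWB hv)) (subset_closure (by simp))) (hWB hv)
    have hxA : x ∈ A := by rw [hAe]; exact subset_closure (by simp)
    have hBle : B ≤ A ⊔ W := by
      rw [hB, closure_le]
      rintro z (rfl | rfl)
      · exact mem_sup_left hxA
      · exact mul_mem (mul_mem (mem_sup_right hv) (mem_sup_left
          (mul_mem (mul_mem ha hxA) (inv_mem ha)))) (inv_mem (mem_sup_right hv))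
    haveI := hW.isNilpotent
    haveI := isSolvable_sup_of_le_normalizer hAW
    have hBA := hmax B hAB (isSolvable_of_le hBle) ⟨v * a, mul_mem (hWB hv) (hAB ha), by
      rw [hcl, hB]; congr 2; group⟩
    rw [hBA] at hWB
    apply hnt
    rw [eq_bot_iff]
    have hcop' : (Nat.card W).Coprime (Nat.card R) := by
      obtain ⟨n, hn⟩ := hW.exists_card_eq
      rw [hn]; exact (hcop.pow_right n).symm
    rw [← CopAct.inf_eq_bot_of_coprime hcop']
    refine le_inf (commutator_le_of_le_normalizer (hRA.trans hAW)) ?_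
    rw [commutator_comm]
    exact commutator_le_of_le_normalizer (hWB.trans hAR)
  change Group.IsNilpotent ↥(fittingOf A ⊔ V)
  set F := fittingOf A with hF
  have hFA : F ≤ A := fittingOf_le A
  have hAF : ∀ q, A ≤ normalizer (pCoreOf q F : Set G) := fun q =>
    (le_normalizer_fittingOf A).trans (normalizer_le_normalizer_pCoreOf F)
  have hAV' : ∀ q, A ≤ normalizer (pCoreOf q V : Set G) := fun q =>
    hAV.trans (normalizer_le_normalizer_pCoreOf V)
  have hT : ∀ q : Nat.Primes, pCoreOf q F ⊔ pCoreOf q V ≤ fittingOf (F ⊔ V) := by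
    intro q
    haveI := Fact.mk q.2
    have h1 : IsPGroup q ↥(pCoreOf q V ⊔ pCoreOf q F) :=
      isPGroup_sup_of_le_normalizer (isPGroup_pCoreOf _ _) (isPGroup_pCoreOf _ _)
        ((pCoreOf_le F).trans (hFA.trans (hAV' q)))
    rw [sup_comm] at h1
    haveI := h1.isNilpotent
    refine le_fittingOf (sup_le_sup (pCoreOf_le _) (pCoreOf_le _)) (sup_le ?_ ?_)
    · exact hFA.trans ((le_inf (hAF q) (hAV' q)).trans
        (normalizer_inf_normalizer_le_normalizer_sup _ _))
    · rw [← iSup_pCoreOf_eq V]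
      refine iSup_le fun r => ?_
      rw [iSup_pCoreOf_eq V]
      by_cases hr : r = q
      · subst hr
        exact le_sup_right.trans le_normalizer
      · refine (le_inf ?_ ((pCoreOf_le V).trans (le_normalizer_pCoreOf V))).trans
          (normalizer_inf_normalizer_le_normalizer_sup _ _)
        refine (star r r.2 _ _ (isPGroup_pCoreOf _ _) (hAV' r) ((pCoreOf_le F).trans hFA) (hAF q)
          ?_).trans (centralizer_le_normalizer _)
        obtain ⟨n, hn⟩ := (isPGroup_pCoreOf (q : ℕ) F).exists_card_eq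
        rw [hn]
        exact ((Nat.coprime_primes q.2 r.2).2 fun e => hr (Subtype.ext e.symm)).pow_left n
  rw [← fittingOf_eq_self_iff]
  refine le_antisymm (fittingOf_le _) (sup_le ?_ ?_)
  · conv_lhs => rw [← iSup_pCoreOf_eq F]
    exact iSup_le fun q => le_sup_left.trans (hT q)
  · conv_lhs => rw [← iSup_pCoreOf_eq V]
    exact iSup_le fun q => le_sup_right.trans (hT q)

end Cfsg.Agent.S3822
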