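import Mathlib
import Cfsg.Statements.S3825
import Cfsg.Agent.GT.Conj
import Cfsg.Agent.GT.PiGroups

set_option autoImplicit false
open Cfsg

namespace Cfsg.Agent.S3825

section aux

open Subgroup Cfsg.Agent.GT 
open scoped commutatorElement



end aux

open Subgroup Cfsg.Agent.GT  in
open scoped commutatorElement in
/-- Let U be a subgroup of a finite group H and w an involution of H normalizing U and commuting with exactly two elements of U, the identity and y. If V is a non-cyclic elementary abelian 2-subgroup of U containing y which is normal in U and invariant under w, then V is a Sylow 2-subgroup of U, V has order 4, and U/V is abelian. -/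
theorem result {H : Type*} [Group H] [Finite H] (U : Subgroup H) (w : H) (hw : orderOf w = 2)
    (hwU : w ∈ Subgroup.normalizer (U : Set H)) (y : H) (hy : y ≠ 1) (hyU : y ∈ U)
    (hfix : ∀ u ∈ U, w * u * w⁻¹ = u ↔ (u = 1 ∨ u = y))
    (V : Subgroup H) (hVU : V ≤ U) (hVn : (V.subgroupOf U).Normal) (hVw : ∀ v ∈ V, w * v * w⁻¹ ∈ V)
    (hVe : Cfsg.IsElementaryAbelian 2 V) (hVc : ¬ IsCyclic ↥V) (hyV : y ∈ V) :
    ¬ 2 ∣ V.relIndex U ∧ Nat.card ↥V = 4 ∧ ⁅U, U⁆ ≤ V := by
  have hww : w * w = 1 := by rw [← pow_two, ← hw, pow_orderOf_eq_one]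
  have hwi : w⁻¹ = w := inv_eq_of_mul_eq_one_right hww
  have hcomm : ∀ a ∈ V, ∀ b ∈ V, a * b = b * a := fun a ha b hb =>
    congrArg Subtype.val (hVe.1.is_comm.comm ⟨a, ha⟩ ⟨b, hb⟩)
  have hinv : ∀ a ∈ V, a⁻¹ = a := fun a ha =>
    inv_eq_of_mul_eq_one_right (by rw [← pow_two]; exact hVe.2 a ha)
  have hcm : ∀ u : H, w * u * w⁻¹ * u⁻¹ ∈ V →
      w * u * w⁻¹ * u⁻¹ = 1 ∨ w * u * w⁻¹ * u⁻¹ = y := by
    intro u hu
    rw [← hfix _ (hVU hu)]
    nth_rewrite 2 [← hinv _ hu]
    rw [hwi]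
    calc w * (w * u * w * u⁻¹) * w = (w * w) * u * w * u⁻¹ * w := by group
      _ = (w * u * w * u⁻¹)⁻¹ := by rw [hww]; simp [hwi, mul_assoc]
  obtain ⟨v0, hv0, hv1, hv2⟩ : ∃ v0 ∈ V, v0 ≠ 1 ∧ v0 ≠ y := by
    by_contra hne
    push Not at hne
    apply hVc
    refine ⟨⟨⟨y, hyV⟩, fun v => ?_⟩⟩
    by_cases h1 : (v : H) = 1
    · exact ⟨0, Subtype.ext (by simp [h1])⟩
    · exact ⟨1, Subtype.ext (by simp [hne v v.2 h1])⟩
  have hv3 : w * v0 * w⁻¹ * v0⁻¹ = y := by
    rcases hcm v0 (V.mul_mem (hVw _ hv0) (V.inv_mem hv0)) with h | h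
    · rcases (hfix v0 (hVU hv0)).1 (mul_inv_eq_one.1 h) with h | h
      · exact absurd h hv1
      · exact absurd h hv2
    · exact h
  have hkey : ∀ u ∈ U, w * u * w⁻¹ * u⁻¹ ∈ V → u = 1 ∨ u = y ∨ u = v0 ∨ u = v0 * y := by
    intro u hu h
    rcases hcm u h with h | h
    · rcases (hfix u hu).1 (mul_inv_eq_one.1 h) with h | h <;> simp [h]
    · have h1 : w * (v0⁻¹ * u) * w⁻¹ = v0⁻¹ * u := by
        have e1 : w * u * w⁻¹ = y * u := by rw [← h]; group
        have e2 : w * v0 * w⁻¹ = y * v0 := by rw [← hv3]; group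
        calc w * (v0⁻¹ * u) * w⁻¹ = (w * v0 * w⁻¹)⁻¹ * (w * u * w⁻¹) := by group
          _ = _ := by rw [e1, e2]; group
      rcases (hfix _ (U.mul_mem (U.inv_mem (hVU hv0)) hu)).1 h1 with h2 | h2
      · right; right; left; exact (inv_mul_eq_one.1 h2).symm
      · right; right; right; rw [← h2]; group
  have hcard : Nat.card V = 4 := by
    have : (V : Set H) = {1, y, v0, v0 * y} := by
      ext v
      constructor
      · intro hv
        exact hkey v (hVU hv) (V.mul_mem (hVw _ hv) (V.inv_mem hv))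
      · rintro (rfl | rfl | rfl | rfl)
        exacts [V.one_mem, hyV, hv0, V.mul_mem hv0 hyV]
    have h3 : v0 * y ≠ 1 := fun h => hv2 (by rw [eq_inv_of_mul_eq_one_left h, hinv y hyV])
    change Nat.card (V : Set H) = 4
    rw [this, Nat.card_coe_set_eq, Set.ncard_insert_of_notMem, Set.ncard_insert_of_notMem,
      Set.ncard_pair]
    · simpa using hy
    · simp [hv2.symm, hv1]
    · simp [hy.symm, hv1.symm, h3.symm]
  let φ0 : U →* U := (U.normalizerMonoidHom ⟨w, hwU⟩).toMonoidHom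
  have hφ0 : ∀ u : U, (φ0 u : H) = w * u * w⁻¹ := fun u => rfl
  let φ : U ⧸ V.subgroupOf U →* U ⧸ V.subgroupOf U :=
    QuotientGroup.map _ _ φ0 (fun v hv => hVw _ hv)
  have hφ : ∀ u : U, φ (u : U ⧸ V.subgroupOf U) = (φ0 u : U) := fun u => rfl
  have hfpf : MonoidHom.FixedPointFree φ := by
    intro q hq
    obtain ⟨u, rfl⟩ := QuotientGroup.mk_surjective q
    rw [hφ, QuotientGroup.eq, mem_subgroupOf] at hq
    rw [QuotientGroup.eq_one_iff, mem_subgroupOf, ← V.inv_mem_iff]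
    have h1 := hkey (u : H)⁻¹ (U.inv_mem u.2) (by simpa [hφ0, mul_assoc] using hq)
    rcases h1 with h | h | h | h <;> rw [h]
    exacts [V.one_mem, hyV, hv0, V.mul_mem hv0 hyV]
  have hinvol : Function.Involutive φ := by
    intro q
    obtain ⟨u, rfl⟩ := QuotientGroup.mk_surjective q
    rw [hφ, hφ]
    congr 1
    apply Subtype.ext
    rw [hφ0, hφ0, hwi]
    calc w * (w * u * w) * w = (w * w) * u * (w * w) := by group
      _ = u := by simp [hww]
  have : Finite U := inferInstance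
  refine ⟨?_, hcard, ?_⟩
  · have := hfpf.odd_card_of_involutive hinvol
    exact fun h => (Nat.not_even_iff_odd.2 this) (even_iff_two_dvd.2 h)
  · rw [commutator_le]
    intro a ha b hb
    have h1 := hfpf.commute_all_of_involutive hinvol
      ((⟨a, ha⟩ : U) : U ⧸ V.subgroupOf U) ((⟨b, hb⟩ : U) : U ⧸ V.subgroupOf U)
    have h2 : ⁅(⟨a, ha⟩ : U), (⟨b, hb⟩ : U)⁆ ∈ V.subgroupOf U := by
      rw [← QuotientGroup.eq_one_iff]
      exact (map_commutatorElement (QuotientGroup.mk' (V.subgroupOf U)) _ _).trans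
        (commutatorElement_eq_one_iff_commute.2 h1)
    exact h2

end Cfsg.Agent.S3825
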