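import Cfsg.Statements.S3835
import Cfsg.Agent.Sym.Sylow
import Cfsg.Agent.S2231
import Cfsg.Agent.Loc.SFourBasic

set_option autoImplicit false
open Cfsg

namespace Cfsg.Agent.S3835

open Subgroup Equiv Equiv.Perm Cfsg.Agent.Sym Cfsg.Agent.GT

theorem not_involves {p : ℕ} [Fact p.Prime] (hp : p ≠ 2) {n : ℕ} (hn : n < p ^ 2) :
    ¬ Cfsg.Involves (Cfsg.qd p) (alternatingGroup (Fin n)) := by
  intro h
  have hc := isMulCommutative_of_involves (q := p) h
    (fun T => (isMulCommutative_sylow_alternating_iff (Or.inl hp) T).2 (by simpa using hn))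
    ((S2231.utri (ZMod p)).subgroupOf (Cfsg.qd p)) fun g =>
      ⟨1, Subtype.ext (Subtype.ext ((pow_one p).symm ▸ S2231.utri_pow hp _ g.2))⟩
  let x : Matrix.SpecialLinearGroup (Fin 3) (ZMod p) :=
    ⟨!![1, 1, 0; 0, 1, 0; 0, 0, 1], by simp [Matrix.det_fin_three]⟩
  let y : Matrix.SpecialLinearGroup (Fin 3) (ZMod p) :=
    ⟨!![1, 0, 0; 0, 1, 1; 0, 0, 1], by simp [Matrix.det_fin_three]⟩
  have hx : x ∈ S2231.utri (ZMod p) := ⟨1, 0, 0, rfl⟩
  have hy : y ∈ S2231.utri (ZMod p) := ⟨0, 0, 1, rfl⟩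
  have := hc.is_comm.comm ⟨⟨x, S2231.utri_le_qd p hx⟩, hx⟩ ⟨⟨y, S2231.utri_le_qd p hy⟩, hy⟩
  have h2 : x * y = y * x := congrArg Subtype.val (congrArg Subtype.val this)
  have h3 := congrArg (fun z : Matrix.SpecialLinearGroup (Fin 3) (ZMod p) =>
    (z : Matrix (Fin 3) (Fin 3) (ZMod p)) 0 2) h2
  simp only [Matrix.SpecialLinearGroup.coe_mul] at h3
  simp [x, y, Matrix.mul_apply, Fin.sum_univ_three] at h3

theorem map_mem {p : ℕ} [hp : Fact p.Prime] (h2 : p ≠ 2) {α : Type*} [Fintype α] [DecidableEq α]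
    (f : qd p →* Perm α) (g : qd p) : f g ∈ alternatingGroup α := by
  have hodd := hp.out.odd_of_ne_two h2
  let φ : Matrix.SpecialLinearGroup (Fin 2) (ZMod p) →* qd p := MonoidHom.mk'
    (fun A => ⟨qdAff 0 A, qdAff_mem_qd _ _⟩) fun A B => Subtype.ext (by simp [qdAff_mul])
  have h1 : (alternatingGroup α).comap (f.comp φ) = ⊤ := eq_top_of_slUp_slLo_mem _
    (fun t => mem_alternatingGroup_of_pow_eq_one hodd (by
      rw [← map_pow, slUp_pow]; simp [slUp_zero]))
    fun t => mem_alternatingGroup_of_pow_eq_one hodd (by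
      rw [← map_pow, slLo_pow]; simp [slLo_zero])
  obtain ⟨_, hM⟩ := g
  obtain ⟨v, A, rfl⟩ := mem_qd_iff.1 hM
  rw [show (⟨qdAff v A, hM⟩ : qd p) = ⟨qdAff v 1, qdAff_mem_qd _ _⟩ * φ A from
    Subtype.ext (by simp [φ, qdAff_mul]), map_mul]
  refine mul_mem (mem_alternatingGroup_of_pow_eq_one hodd ?_) (h1.ge (mem_top A))
  rw [← map_pow, ← map_one f]
  exact congrArg f (Subtype.ext (S2231.utri_pow h2 _ ⟨0, v 0, v 1, by simp [coe_qdAff]⟩))

theorem exists_injective (p : ℕ) :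
    ∃ f : qd p →* Perm (Fin 2 → ZMod p), Function.Injective f := by
  let _ := Loc.S4.qdAffAction p
  refine ⟨MulAction.toPermHom (qd p) (Fin 2 → ZMod p), (injective_iff_map_eq_one _).2 ?_⟩
  rintro ⟨M, hM⟩ h
  obtain ⟨v, A, rfl⟩ := mem_qd_iff.1 hM
  have key : ∀ x : Fin 2 → ZMod p, ![A 0 0 * x 0 + A 0 1 * x 1 + v 0,
      A 1 0 * x 0 + A 1 1 * x 1 + v 1] = x := fun x => congrArg (fun σ => σ x) h
  have h00 := congrFun (key 0) 0
  have h01 := congrFun (key 0) 1
  have h10 := congrFun (key ![1, 0]) 0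
  have h11 := congrFun (key ![1, 0]) 1
  have h20 := congrFun (key ![0, 1]) 0
  have h21 := congrFun (key ![0, 1]) 1
  simp at h00 h01
  simp [h00, h01] at h10 h11 h20 h21
  refine Subtype.ext ?_
  ext i j
  fin_cases i <;> fin_cases j <;> simp [coe_qdAff, *]

/-- Let p be an odd prime and n a natural number. The alternating group of degree n has a subgroup isomorphic to Qd(p) (the natural semidirect product of an elementary abelian group of order p² by SL₂(p)) if and only if n ≥ p²; and if n < p² then Qd(p) is not even involved in it. -/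
theorem result {p : ℕ} [Fact p.Prime] (hp : p ≠ 2) (n : ℕ) : ((∃ H : Subgroup (alternatingGroup (Fin n)), Nonempty (↥H ≃* ↥(Cfsg.qd p))) ↔ p ^ 2 ≤ n) ∧ (n < p ^ 2 → ¬ Cfsg.Involves ↥(Cfsg.qd p) ↥(alternatingGroup (Fin n))) := by
  refine ⟨⟨fun ⟨H, ⟨e⟩⟩ => not_lt.1 fun h => not_involves hp h (Loc.CF.involves_of_injective
    (H.subtype.comp e.symm.toMonoidHom) (Subtype.val_injective.comp e.symm.injective)),
    fun h => ?_⟩, not_involves hp⟩
  obtain ⟨f, hf⟩ := exists_injective p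
  obtain ⟨ι⟩ : Nonempty ((Fin 2 → ZMod p) ↪ Fin n) :=
    Function.Embedding.nonempty_of_card_le (by simpa using h)
  exact ⟨_, ⟨(MonoidHom.ofInjective (f := ((viaEmbeddingHom ι).comp f).codRestrict _ (map_mem hp _))
    fun a b e => hf (viaEmbeddingHom_injective ι (Subtype.ext_iff.1 e :))).symm⟩⟩

end Cfsg.Agent.S3835
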