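import Mathlib
import Cfsg.Statements.S3836
import Cfsg.Agent.GT.Conj
import Cfsg.Agent.GT.Cores

set_option autoImplicit false
open Cfsg

namespace Cfsg.Agent.S3836

section aux

open Subgroup Cfsg.Agent.GT 
open scoped commutatorElement



end aux

open Subgroup Cfsg.Agent.GT  in
open scoped commutatorElement in
/-- Let G be a finite group that is p-stable in the normalizer form: for every p-subgroup Q and every x ∈ N_G(Q) with [Q, x, x] = 1, the image of x in N_G(Q)/C_G(Q) lies in O_p(N_G(Q)/C_G(Q)). Then every subgroup of G is p-stable in the same sense. -/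
theorem result {G : Type*} [Group G] [Finite G] {p : ℕ} [Fact p.Prime] (hst : Cfsg.IsNormalizerPStable p G) (H : Subgroup G) : Cfsg.IsNormalizerPStable p ↥H := by
  intro P hP g hg hcomm
  have hN : ∀ x : H, x ∈ normalizer (P : Set H) →
      (x : G) ∈ normalizer ((P.map H.subtype : Subgroup G) : Set G) := fun x hx => by
    rw [normalizer_eq_subgroupOf] at hx; exact hx
  have h1 := hst (P.map H.subtype) (hP.map _) g (hN g hg) (by
    have := congrArg (Subgroup.map H.subtype) hcomm
    rwa [Subgroup.map_commutator, Subgroup.map_commutator, MonoidHom.map_zpowers,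
      Subgroup.map_bot] at this)
  let f0 : normalizer (P : Set H) →* normalizer ((P.map H.subtype : Subgroup G) : Set G) :=
    (H.subtype.comp (normalizer (P : Set H)).subtype).codRestrict _ (fun x => hN x x.2)
  have hC : ∀ x : normalizer (P : Set H),
      x ∈ (centralizer (P : Set H)).subgroupOf (normalizer (P : Set H)) ↔
      f0 x ∈ (centralizer ((P.map H.subtype : Subgroup G) : Set G)).subgroupOf
        (normalizer ((P.map H.subtype : Subgroup G) : Set G)) := fun x => by
    rw [mem_subgroupOf, centralizer_eq_subgroupOf]; rfl
  let f := QuotientGroup.map ((centralizer (P : Set H)).subgroupOf (normalizer (P : Set H)))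
    ((centralizer ((P.map H.subtype : Subgroup G) : Set G)).subgroupOf
        (normalizer ((P.map H.subtype : Subgroup G) : Set G))) f0 (fun x hx => (hC x).1 hx)
  have hker : f.ker = ⊥ := by
    rw [eq_bot_iff]
    intro q hq
    obtain ⟨x, rfl⟩ := QuotientGroup.mk_surjective q
    rw [mem_bot, QuotientGroup.eq_one_iff, hC, ← QuotientGroup.eq_one_iff]
    exact hq
  exact comap_pCore_le f (by rw [hker]; exact IsPGroup.of_bot) h1

end Cfsg.Agent.S3836
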