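import Mathlib
import Cfsg.Statements.S3838
import Cfsg.Agent.FG.H92PNil

set_option autoImplicit false
open Cfsg

namespace Cfsg.Agent.S3838

section aux

open Subgroup Cfsg.Agent.GT Cfsg.Agent.FG Cfsg.Agent.FG.H92
open scoped commutatorElement



end aux

open Subgroup Cfsg.Agent.GT Cfsg.Agent.FG Cfsg.Agent.FG.H92 in
open scoped commutatorElement in
/-- Let G be a finite group with Sylow p-subgroup P such that N_G(P) has a normal p-complement. Then N_G(Q) has a normal p-complement for every subgroup Q with [P, P] ≤ Q ≤ Φ(P). -/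
theorem result {G : Type*} [Group G] [Finite G] {p : ℕ} [Fact p.Prime] (P : Sylow p G) (hN : Cfsg.HasNormalPComplement p ↥(Subgroup.normalizer ((P : Subgroup G) : Set G))) (Q : Subgroup G) (h1 : (commutator ↥(P : Subgroup G)).map (P : Subgroup G).subtype ≤ Q) (h2 : Q ≤ (frattini ↥(P : Subgroup G)).map (P : Subgroup G).subtype) : Cfsg.HasNormalPComplement p ↥(Subgroup.normalizer (Q : Set G)) := by
  have hQP : Q ≤ P := h2.trans (map_subtype_le _)
  have h1' : ⁅(P : Subgroup G), (P : Subgroup G)⁆ ≤ Q := by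
    rwa [_root_.commutator, map_commutator, ← MonoidHom.range_eq_map, range_subtype] at h1
  have hPH : (P : Subgroup G) ≤ normalizer (Q : Set G) :=
    PG.le_normalizer_of_commutator_le ((commutator_mono hQP le_rfl).trans h1') le_rfl
  have hcomm : ∀ g ∈ normalizer ((P : Subgroup G) : Set G), ∀ y ∈ (P : Subgroup G), ⁅y, g⁆ ∈ Q := by
    intro g hg y hy
    obtain ⟨a, ha, b, hb, hao, hbo, rfl⟩ := Tr.exists_pPart_mul_pPrimePart (p := p) g
    have h3 := mem_sylow_of_mem_normalizer P hao (zpowers_le_of_mem hg ha)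
    have h4 := mem_centralizer_of_pnilp hN P.isPGroup' le_normalizer (zpowers_le_of_mem hg hb)
      (zpowers_le_of_mem hg hb) hbo y⁻¹ ((P : Subgroup G).inv_mem hy)
    have : ⁅y, a * b⁆ = ⁅y, a⁆ := by
      simp only [commutatorElement_def]
      rw [mul_assoc y (a * b), mul_assoc a b, ← h4]; group
    rw [this]
    exact h1' (commutator_mem_commutator hy h3)
  set H := normalizer (Q : Set G) with hH
  have h3 : HasNormalPComplement p (H ⧸ Q.subgroupOf H) := by
    apply Tr.hasNormalPComplement_of_normalizer_le_centralizer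
      ((P.subtype hPH).mapSurjective (QuotientGroup.mk'_surjective _))
    intro g hg
    obtain ⟨g, rfl⟩ := QuotientGroup.mk'_surjective _ g
    have h4 : g ∈ normalizer (((P.subtype hPH : Subgroup H) ⊔ Q.subgroupOf H : Subgroup H) : Set H) := by
      rw [← comap_normalizer_map_mk']; exact hg
    rw [Sylow.coe_subtype, ← subgroupOf_sup hPH le_normalizer, sup_eq_left.2 hQP,
      ← subgroupOf_normalizer_eq hPH] at h4
    rintro _ ⟨y, hy, rfl⟩
    rw [← commutatorElement_eq_one_iff_mul_comm, ← map_commutatorElement]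
    exact (QuotientGroup.eq_one_iff _).2 (hcomm g h4 y hy)
  apply Tr.hasNormalPComplement_of_pResidual_inf_le_frattini (P.subtype hPH)
  intro x hx
  have h4 : x ∈ Q.subgroupOf H := by
    rw [← QuotientGroup.eq_one_iff, ← mem_bot, ← (Tr.hasNormalPComplement_iff_inf_pResidual
      ((P.subtype hPH).mapSurjective (QuotientGroup.mk'_surjective _))).1 h3]
    exact ⟨mem_map_of_mem _ hx.2, Tr.map_pResidual_le (QuotientGroup.mk' _) (mem_map_of_mem _ hx.1)⟩
  obtain ⟨y, hy, hyx⟩ := h2 h4
  rw [← map_frattini_of_equiv (subgroupOfEquivOfLe hPH)] at hy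
  obtain ⟨z, hz, rfl⟩ := hy
  exact ⟨z, hz, Subtype.ext hyx⟩

end Cfsg.Agent.S3838
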