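import Mathlib
import Cfsg.Statements.S3839
import Cfsg.Agent.FG.H92PNil

set_option autoImplicit false
open Cfsg

namespace Cfsg.Agent.S3839

section aux

open Subgroup Cfsg.Agent.GT Cfsg.Agent.FG Cfsg.Agent.FG.H92
open scoped commutatorElement



end aux

open Subgroup Cfsg.Agent.GT Cfsg.Agent.FG Cfsg.Agent.FG.H92 in
open scoped commutatorElement in
/-- A Frobenius normal p-complement criterion relative to a strongly closed subgroup. Let G be a finite group, S a Sylow p-subgroup and D a subgroup of S strongly closed in S with respect to G. Then G has a normal p-complement if and only if N_G(U) has a normal p-complement for every subgroup U of D with C_D(U) ≤ U. -/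
theorem result {G : Type*} [Group G] [Finite G] {p : ℕ} [Fact p.Prime] (S : Sylow p G) (D : Subgroup G) (hD : Cfsg.IsStronglyClosed D (S : Subgroup G)) : Cfsg.HasNormalPComplement p G ↔ ∀ U : Subgroup G, U ≤ D → D ⊓ Subgroup.centralizer (U : Set G) ≤ U → Cfsg.HasNormalPComplement p ↥(Subgroup.normalizer (U : Set G)) := by
  refine ⟨fun h U _ _ => h.subgroup _, fun h => ?_⟩
  suffices key : ∀ n : ℕ, ∀ U : Subgroup G, U ≤ D → U.index = n →
      HasNormalPComplement p (normalizer (U : Set G)) by
    have := key _ ⊥ bot_le rfl
    rwa [normalizer_eq_top ⊥, Tr.hasNormalPComplement_top] at this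
  intro n
  induction n using Nat.strong_induction_on with
  | h n ih =>
  have key : ∀ U : Subgroup G, U ≤ D → U.index = n →
      ¬ p ∣ ((S : Subgroup G) ⊓ normalizer (U : Set G)).relIndex (normalizer (U : Set G)) →
      HasNormalPComplement p (normalizer (U : Set G)) := by
    intro U hU hn hi
    by_cases hC : D ⊓ centralizer (U : Set G) ≤ U
    · exact h U hU hC
    refine pnilp_of_stronglyClosed_normal
      (Tr.sylowOfRel (S.isPGroup'.to_le inf_le_left) hi) (R := D.subgroupOf _)
      (U.subgroupOf (normalizer (U : Set G))) ⟨?_, ?_⟩ (comap_mono hU) ?_ ?_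
    · intro x hx
      exact ⟨hD.1 hx, x.2⟩
    · intro x hx g hg
      exact hD.2 x hx g hg.1
    · intro h1
      apply hC
      intro x hx
      refine h1 (x := ⟨x, centralizer_le_normalizer _ hx.2⟩) ⟨hx.1, ?_⟩
      rw [centralizer_subgroupOf_of_le le_normalizer]
      exact hx.2
    · intro V hV hUV
      have h1 : U < V.map (normalizer (U : Set G)).subtype := by
        exact (map_subtype_subgroupOf_of_le (le_normalizer (H := U))).ge.trans_lt
          ((map_lt_map_iff_of_injective (subtype_injective _)).2 hUV)
      have h2 := ih _ (hn ▸ index_strictAnti h1) _ (map_le_iff_le_comap.2 hV) rfl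
      rw [normalizer_eq_subgroupOf]
      refine h2.of_injective (((normalizer (U : Set G)).subtype.comp (Subgroup.subtype _)).codRestrict _
        (fun x => x.2)) ?_
      intro x y hxy
      have h3 := congrArg Subtype.val hxy
      exact Subtype.ext (Subtype.ext h3)
  intro U hU hn
  obtain ⟨g, hg, hi⟩ := Tr.exists_conj_fullyNormalized S (A := U) (T := U)
    (S.isPGroup'.to_le (hU.trans hD.1)) le_normalizer
  have h1 := key (U.map (MulAut.conj g).toMonoidHom)
    (map_conj_le_iff_forall.2 fun x hx => hD.2 x (hU hx) g (hg x hx))
    (by rw [index_map_conj, hn]) hi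
  rw [normalizer_map_conj] at h1
  exact h1.of_mulEquiv (conjEquiv _ g).symm

end Cfsg.Agent.S3839
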