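import Mathlib
import Cfsg.Statements.S3857
import Cfsg.Agent.FG.H92Basic
import Cfsg.Agent.GT.Hall
import Cfsg.Agent.GT.FrobeniusComplement
import Cfsg.Agent.GT.Supersolvable2
import Cfsg.Agent.GT.PGroupFrattini

set_option autoImplicit false
open Cfsg

namespace Cfsg.Agent.S3857

section aux

open Subgroup Cfsg.Agent.GT Cfsg.Agent.FG Cfsg.Agent.FG.H92
open scoped commutatorElement

/-- No element has order divisible by a prime in `π` and a prime outside `π`. -/
def Sep (π : Set ℕ) (G : Type*) [Group G] : Prop :=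
  ∀ a ∈ π, ∀ b ∉ π, a.Prime → b.Prime → ∀ g : G, ¬ a * b ∣ orderOf g

theorem Sep.compl {π : Set ℕ} {G : Type*} [Group G] (h : Sep π G) : Sep πᶜ G :=
  fun a ha b hb hap hbp g => by rw [mul_comm]; exact h b (not_not.mp hb) a ha hbp hap g

theorem Sep.quotient {π : Set ℕ} {G : Type*} [Group G] (h : Sep π G) (N : Subgroup G)
    [N.Normal] : Sep π (G ⧸ N) := by
  intro a ha b hb hap hbp g hg
  obtain ⟨g, rfl⟩ := QuotientGroup.mk_surjective g
  exact h a ha b hb hap hbp g (hg.trans (orderOf_map_dvd (QuotientGroup.mk' N) g))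

theorem Sep.fpf {π : Set ℕ} {G : Type*} [Group G] [Finite G] (h : Sep π G) {K : Subgroup G}
    (hK : IsPiNum π (Nat.card K)) {y : G} (hy : IsPiNum πᶜ (orderOf y)) (hy1 : y ≠ 1) :
    K ⊓ centralizer {y} = ⊥ := by
  rw [eq_bot_iff]
  rintro x ⟨hxK, hxy⟩
  by_contra hx1
  have hx := hK.orderOf_mem hxK
  obtain ⟨a, ha, hax⟩ := Nat.exists_prime_and_dvd (orderOf_eq_one_iff.not.mpr hx1)
  obtain ⟨b, hb, hby⟩ := Nat.exists_prime_and_dvd (orderOf_eq_one_iff.not.mpr hy1)
  have hc : Commute x y := mem_centralizer_singleton_iff.mp hxy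
  refine h a (hx a ha hax) b (hy b hb hby) ha hb (x * y) ?_
  rw [hc.orderOf_mul_eq_mul_orderOf_of_coprime (hx.coprime hy)]
  exact mul_dvd_mul hax hby

theorem subgroupOf_inf' {G : Type*} [Group G] (A B K : Subgroup G) :
    (A ⊓ B).subgroupOf K = A.subgroupOf K ⊓ B.subgroupOf K := rfl

theorem aux {G : Type*} [Group G] [Finite G] [Group.IsSolvable G] {π : Set ℕ} (h : Sep π G)
    (hO : Cfsg.piCore π G ≠ ⊥) {b : ℕ} (hbπ : b ∉ π) (hb : b.Prime) (hbG : b ∣ Nat.card G) :
    (∃ C : Subgroup G, Cfsg.IsFrobeniusComplement C) ∨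
    (∃ (H K : Subgroup G) (_ : H.Normal), K.Normal ∧ H < K ∧
      (∃ C : Subgroup ↥K, Cfsg.IsFrobeniusComplement C ∧
        Cfsg.frobeniusKernel C = (H.subgroupOf K : Set ↥K)) ∧
      (∃ C : Subgroup (G ⧸ H), Cfsg.IsFrobeniusComplement C ∧
        Cfsg.frobeniusKernel C = (K.map (QuotientGroup.mk' H) : Set (G ⧸ H)))) := by
  set H := Cfsg.piCore π G with hH
  have hHπ : IsPiNum π (Nat.card H) := isPiNum_piCore π
  obtain ⟨C, hC⟩ := exists_isPiHall πᶜ G
  have hCbot : C ≠ ⊥ := by
    rintro rfl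
    exact hC.2 b hb hbπ (by rwa [index_bot])
  have hfpf : ∀ c ∈ C, c ≠ 1 → H ⊓ centralizer {c} = ⊥ :=
    fun c hc hc1 => h.fpf hHπ (hC.card.orderOf_mem hc) hc1
  have hHC : H ⊓ C = ⊥ := hHπ.inf_eq_bot hC.card
  by_cases htop : H ⊔ C = ⊤
  · exact Or.inl ⟨C, Frob.isFrobeniusComplement_of_fpf
      (isComplement'_iff_of_normal.mpr ⟨hHC, htop⟩) hO hCbot hfpf⟩
  right
  let f := QuotientGroup.mk' H
  have hC' : Cfsg.IsPiHall πᶜ (C.map f) := hC.map_of_surjective (QuotientGroup.mk'_surjective H)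
  have hC'bot : C.map f ≠ ⊥ := by
    rw [Ne, map_mk'_eq_bot_iff]
    exact fun hle => hCbot (by rw [← hHC, inf_eq_right.mpr hle])
  have hfa : Frob.HasFpfAction (C.map f) := by
    refine (Frob.hasFpfAction_of_fpf hO le_normalizer_of_normal hfpf).of_mulEquiv
      (MulEquiv.ofBijective (f.subgroupMap C) ⟨?_, f.subgroupMap_surjective C⟩)
    rw [← MonoidHom.ker_eq_bot_iff, eq_bot_iff]
    intro x hx
    have h1 : (x : G) ∈ H := (QuotientGroup.eq_one_iff _).mp (congrArg Subtype.val hx)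
    exact Subtype.ext (mem_bot.mp (hHC ▸ mem_inf.mpr ⟨h1, x.2⟩))
  haveI : Nontrivial (G ⧸ H) := by
    by_contra hs
    rw [not_nontrivial_iff_subsingleton] at hs
    exact hC'bot (Subsingleton.elim _ _)
  have h' := h.quotient H
  have hnorm : (C.map f).Normal := by
    obtain ⟨V, r, hV, -, hr, hE⟩ := exists_isMinNormal_elementary_le (H := (⊤ : Subgroup (G ⧸ H)))
      top_ne_bot
    haveI := hV.normal
    have hVr : IsPGroup r V := isPGroup_of_forall_pow_eq_one hE.2
    have hrπ : r ∉ π := fun hr' => hV.ne_bot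
      (piCore_eq_bot_iff.mp piCore_quotient_piCore V inferInstance (isPiNum_of_isPGroup hr hVr hr'))
    have hVπ : IsPiNum πᶜ (Nat.card V) := isPiNum_of_isPGroup hr hVr hrπ
    have hVC : V ≤ C.map f := hC'.normal_le hVπ
    haveI := hE.1
    haveI : IsCyclic V := by
      haveI := (hfa.of_injective (inclusion hVC) (inclusion_injective hVC)).isCyclic_of_comm
      infer_instance
    have h1 : IsPiNum πᶜ (Nat.card (centralizer (V : Set (G ⧸ H)))) := by
      intro a ha had
      by_contra haπ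
      obtain ⟨x, hx, hxa⟩ := exists_mem_orderOf_eq_prime ha had
      have h2 := h'.compl.fpf hVπ (y := x) (by
        rw [hxa]; exact isPiNum_of_prime_mem ha haπ) (by
        rintro rfl
        exact ha.one_lt.ne (by simpa using hxa))
      exact hV.ne_bot (by rw [← h2, inf_eq_left.mpr (le_centralizer_singleton_iff.mpr hx)])
    exact PG.normal_of_commutator_le
      ((SS.commutator_le_centralizer_of_isCyclic V).trans (hC'.normal_le h1))
  have hK : (C ⊔ H).Normal := by
    have := hnorm.comap f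
    rwa [comap_map_mk'] at this
  refine ⟨H, C ⊔ H, inferInstance, hK, ?_, ?_, ?_⟩
  · exact right_lt_sup.mpr fun hle => hCbot (by rw [← hHC, inf_eq_right.mpr hle])
  · have hc : (H.subgroupOf (C ⊔ H)).IsComplement' (C.subgroupOf (C ⊔ H)) := by
      refine isComplement'_iff_of_normal.mpr ⟨?_, ?_⟩
      · rw [← subgroupOf_inf', hHC, bot_subgroupOf]
      · rw [← subgroupOf_sup le_sup_right le_sup_left, sup_comm H, subgroupOf_self]
    have hF := Frob.isFrobeniusComplement_of_fpf hc
      (by rw [Ne, subgroupOf_eq_bot, disjoint_iff, inf_eq_left.mpr le_sup_right]; exact hO)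
      (by rw [Ne, subgroupOf_eq_bot, disjoint_iff, inf_eq_left.mpr le_sup_left]; exact hCbot)
      (fun c hc hc1 => by
        rw [centralizer_singleton_subgroup, ← subgroupOf_inf',
          hfpf c hc fun h => hc1 (Subtype.ext h), bot_subgroupOf])
    exact ⟨_, hF, hF.kernel_eq_of_isComplement' hc⟩
  · obtain ⟨D, hD⟩ := exists_isPiHall π (G ⧸ H)
    have hc : (C.map f).IsComplement' D := (hD.isComplement' hC').symm
    have hF := Frob.isFrobeniusComplement_of_fpf hc hC'bot (by
      rintro rfl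
      have h1 := hc.sup_eq_top
      rw [sup_bot_eq, map_mk'_eq_top_iff, sup_comm] at h1
      exact htop h1) (fun d hd hd1 => h'.compl.fpf hC'.card
        (by rw [compl_compl]; exact hD.card.orderOf_mem hd) hd1)
    exact ⟨D, hF, by rw [hF.kernel_eq_of_isComplement' hc, map_mk'_sup]⟩

end aux

open Subgroup Cfsg.Agent.GT Cfsg.Agent.FG Cfsg.Agent.FG.H92 in
open scoped commutatorElement in
/-- A finite solvable group whose prime graph (prime divisors of the order, two distinct primes joined when there is an element of order their product) is disconnected is a Frobenius group or a 2-Frobenius group (it has normal subgroups H < K with K a Frobenius group with kernel H and G/H a Frobenius group with kernel K/H). -/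
theorem result {G : Type*} [Group G] [Finite G] (hsol : Group.IsSolvable G)
    (hdisc : (∃ A : Set ℕ, (∃ a ∈ A, a.Prime ∧ a ∣ Nat.card G) ∧ (∃ b ∉ A, b.Prime ∧ b ∣ Nat.card G) ∧
      ∀ a ∈ A, ∀ b ∉ A, a.Prime → b.Prime → a ∣ Nat.card G → b ∣ Nat.card G → ¬ ∃ g : G, orderOf g = a * b)) :
    (∃ C : Subgroup G, Cfsg.IsFrobeniusComplement C) ∨
    (∃ (H K : Subgroup G) (_ : H.Normal), K.Normal ∧ H < K ∧
      (∃ C : Subgroup ↥K, Cfsg.IsFrobeniusComplement C ∧ Cfsg.frobeniusKernel C = (H.subgroupOf K : Set ↥K)) ∧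
      (∃ C : Subgroup (G ⧸ H), Cfsg.IsFrobeniusComplement C ∧ Cfsg.frobeniusKernel C = (K.map (QuotientGroup.mk' H) : Set (G ⧸ H)))) := by
  obtain ⟨A, ⟨a, haA, ha, haG⟩, ⟨b, hbA, hb, hbG⟩, hA⟩ := hdisc
  have hsep : Sep A G := by
    intro a ha b hb hap hbp g hg
    have h1 := hg.trans (_root_.orderOf_dvd_natCard g)
    exact hA a ha b hb hap hbp ((dvd_mul_right _ _).trans h1) ((dvd_mul_left _ _).trans h1)
      ⟨_, orderOf_pow_orderOf_div (orderOf_pos g).ne' hg⟩
  haveI : Nontrivial G := by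
    rw [← Finite.one_lt_card_iff_nontrivial]
    exact ha.one_lt.trans_le (Nat.le_of_dvd Nat.card_pos haG)
  rcases piCore_ne_bot_or G A with h | h
  · exact aux hsep h hbA hb hbG
  · exact aux hsep.compl h (not_not.mpr haA) ha haG

end Cfsg.Agent.S3857
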