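import Mathlib
import Cfsg.Statements.S3859
import Cfsg.Agent.GT.Conj
import Cfsg.Agent.GT.Cores
import Cfsg.Agent.GT.MinNormal
import Cfsg.Agent.GT.TransferSylow
import Cfsg.Agent.FG.H93Solv

set_option autoImplicit false
open Cfsg

namespace Cfsg.Agent.S3859

section aux

open Subgroup Cfsg.Agent.GT 
open scoped commutatorElement

theorem normalizer_ne_top {G : Type*} [Group G] [Finite G] (T : Subgroup G) [T.Normal]
    (hT : IsSimpleGroup T) (hna : ¬ IsMulCommutative T) {r : ℕ} [hr : Fact r.Prime]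
    (R : Sylow r G) (hR0 : (R : Subgroup G) ⊓ T ≠ ⊥) :
    normalizer (((R : Subgroup G) ⊓ T : Subgroup G) : Set G) ≠ ⊤ := by
  intro h
  have hn : ((R : Subgroup G) ⊓ T).Normal := normalizer_eq_top_iff.1 h
  rcases (hn.subgroupOf T).eq_bot_or_eq_top with h1 | h1
  · apply hR0
    rw [subgroupOf_eq_bot, disjoint_iff, inf_assoc, inf_idem] at h1
    exact h1
  · rw [subgroupOf_eq_top] at h1
    have h2 : IsPGroup r T := R.isPGroup'.to_le (h1.trans inf_le_left)
    have := FG.H93.isSolvable_of_isPGroup hr.out h2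
    exact hna ⟨⟨IsSimpleGroup.comm_iff_isSolvable.2 this⟩⟩

theorem normalizer_le {G : Type*} [Group G] (T R : Subgroup G) [T.Normal] :
    normalizer (R : Set G) ≤ normalizer ((R ⊓ T : Subgroup G) : Set G) := by
  refine le_trans ?_ (inf_normalizer_le_normalizer_inf)
  exact le_inf le_rfl (le_normalizer_of_normal)

end aux

open Subgroup Cfsg.Agent.GT  in
open scoped commutatorElement in
/-- Let G be a finite group with a normal non-abelian simple subgroup T whose centralizer is trivial (G almost simple with socle T), r a prime and R a Sylow r-subgroup of G meeting T nontrivially. If R lies in exactly one maximal subgroup of G, then G/T is an r-group. -/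
theorem result {G : Type*} [Group G] [Finite G] (T : Subgroup G) [T.Normal] (hT : IsSimpleGroup T) (hna : ¬ IsMulCommutative T)
    (hC : Subgroup.centralizer (T : Set G) = ⊥) {r : ℕ} [Fact r.Prime] (R : Sylow r G) (hR0 : (R : Subgroup G) ⊓ T ≠ ⊥)
    (huniq : ∃! M : Subgroup G, IsCoatom M ∧ (R : Subgroup G) ≤ M) : IsPGroup r (G ⧸ T) := by
  obtain ⟨M, ⟨hM, hRM⟩, hu⟩ := huniq
  have h1 : (R : Subgroup G) ⊔ T = ⊤ := by
    by_contra hne
    obtain ⟨M1, hM1, h1⟩ := exists_isCoatom_ge hne
    obtain ⟨M2, hM2, h2⟩ := exists_isCoatom_ge (normalizer_ne_top T hT hna R hR0)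
    have e1 := hu M1 ⟨hM1, le_sup_left.trans h1⟩
    have e2 := hu M2 ⟨hM2, (le_normalizer.trans (normalizer_le T R)).trans h2⟩
    apply hM.1
    rw [eq_top_iff]
    intro g _
    obtain ⟨m, hm, k, hk, rfl⟩ := Tr.frattini_sylowIn (R.isPGroup'.to_le inf_le_left)
      inf_le_right (Tr.not_dvd_relIndex_sylow_inf_normal R T) (n := g) (le_normalizer_of_normal (mem_top g))
    exact M.mul_mem (e1 ▸ h1 (mem_sup_right hm)) (e2 ▸ h2 hk)
  have h2 : IsPGroup r ((R : Subgroup G).map (QuotientGroup.mk' T)) := R.isPGroup'.map _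
  rw [map_mk'_eq_top_iff.2 h1] at h2
  exact h2.of_equiv Subgroup.topEquiv

end Cfsg.Agent.S3859
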