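import Mathlib
import Cfsg.Statements.S3858
import Cfsg.Agent.S3859
import Cfsg.Agent.FG.ClassIdx

set_option autoImplicit false
open Cfsg

namespace Cfsg.Agent.S3858

section aux

open Subgroup Cfsg.Agent.GT Cfsg.Agent.FG
open scoped commutatorElement



end aux

open Subgroup Cfsg.Agent.GT Cfsg.Agent.FG in
open scoped commutatorElement in
/-- Let G be a finite group with a normal non-abelian simple subgroup T whose centralizer is trivial (G almost simple with socle T), r a prime and R a Sylow r-subgroup of G meeting T nontrivially. Then R lies in exactly one maximal subgroup of G if and only if G has exactly one conjugacy class of maximal subgroups whose index is prime to r. -/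
theorem result {G : Type*} [Group G] [Finite G] (T : Subgroup G) [T.Normal] (hT : IsSimpleGroup T) (hna : ¬ IsMulCommutative T)
    (hC : Subgroup.centralizer (T : Set G) = ⊥) {r : ℕ} [Fact r.Prime] (R : Sylow r G) (hR0 : (R : Subgroup G) ⊓ T ≠ ⊥) :
    (∃! M : Subgroup G, IsCoatom M ∧ (R : Subgroup G) ≤ M) ↔
      ((∃ M : Subgroup G, IsCoatom M ∧ ¬ r ∣ M.index) ∧
        ∀ M₁ M₂ : Subgroup G, IsCoatom M₁ → ¬ r ∣ M₁.index → IsCoatom M₂ → ¬ r ∣ M₂.index → ∃ g : G, M₂ = M₁.map (MulAut.conj g).toMonoidHom) := by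
  constructor
  · rintro ⟨M, ⟨hM, hRM⟩, hu⟩
    refine ⟨⟨M, hM, fun h => R.not_dvd_index (h.trans (index_dvd_of_le hRM))⟩, ?_⟩
    have key : ∀ M1 : Subgroup G, IsCoatom M1 → ¬ r ∣ M1.index →
        ∃ g : G, M1.map (MulAut.conj g).toMonoidHom = M := by
      intro M1 h1 h2
      obtain ⟨g, hg⟩ := (CI.not_dvd_index_iff_conj R M1).1 h2
      exact ⟨g⁻¹, hu _ ⟨isCoatom_map_conj h1 _, fun x hx => mem_map_conj_inv.2 (hg x hx)⟩⟩
    intro M1 M2 h1 h2 h3 h4
    obtain ⟨g, hg⟩ := key M1 h1 h2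
    obtain ⟨k, hk⟩ := key M2 h3 h4
    exact ⟨k⁻¹ * g, by rw [map_conj_mul, hg, ← hk, map_conj_inv_map_conj]⟩
  · rintro ⟨-, h⟩
    obtain ⟨M, hM, h2⟩ := exists_isCoatom_ge (S3859.normalizer_ne_top T hT hna R hR0)
    have hNM : normalizer ((R : Subgroup G) : Set G) ≤ M := (S3859.normalizer_le T R).trans h2
    have hRM : (R : Subgroup G) ≤ M := le_normalizer.trans hNM
    have hi : ¬ r ∣ M.index := fun h => R.not_dvd_index (h.trans (index_dvd_of_le hRM))
    refine ⟨M, ⟨hM, hRM⟩, ?_⟩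
    rintro M1 ⟨hM1, hRM1⟩
    obtain ⟨g, rfl⟩ := h M M1 hM hi hM1 (fun h => R.not_dvd_index (h.trans (index_dvd_of_le hRM1)))
    have h3 : (R : Subgroup G).map (MulAut.conj g⁻¹).toMonoidHom ≤ M := le_map_conj_iff.1 hRM1
    obtain ⟨m, hm, hm2⟩ := Tr.exists_conj_le_sylowIn (S := (R : Subgroup G)) (H := M) R.isPGroup'
      (fun h => R.not_dvd_index (h.trans (relIndex_dvd_index_of_le hRM)))
      (Tr.isPGroup_map_conj R.isPGroup' g⁻¹) h3
    have h4 : m * g⁻¹ ∈ normalizer ((R : Subgroup G) : Set G) := by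
      rw [mem_normalizer_iff_of_finite]
      intro x hx
      have := hm2 (g⁻¹ * x * g⁻¹⁻¹) (conj_mem_map_conj.2 hx)
      simpa [mul_assoc] using this
    have h5 : g ∈ M := by
      have := M.mul_mem (M.inv_mem (hNM h4)) hm
      simpa using this
    exact map_conj_eq_of_mem h5

end Cfsg.Agent.S3858
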