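import Mathlib
import Cfsg.Statements.S3862
import Cfsg.Agent.FG.H92Basic
import Cfsg.Agent.FG.RealElts

set_option autoImplicit false
open Cfsg

namespace Cfsg.Agent.S3862

section aux

open Subgroup Cfsg.Agent.GT Cfsg.Agent.FG Cfsg.Agent.FG.H92
open scoped commutatorElement



end aux

open Subgroup Cfsg.Agent.GT Cfsg.Agent.FG Cfsg.Agent.FG.H92 in
open scoped commutatorElement in
/-- If every 2-element of the finite group G that is conjugate to its inverse lies in the centre of G, then G has a normal 2-complement. -/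
theorem result {G : Type*} [Group G] [Finite G] (h : ∀ x : G, (∃ j : ℕ, orderOf x = 2 ^ j) → IsConj x x⁻¹ → x ∈ Subgroup.center G) : Cfsg.HasNormalPComplement 2 G := by
  apply CI.hasNormalPComplement_two_of_real_central
  intro x hx hc
  obtain ⟨j, -, hj⟩ := (Nat.dvd_prime_pow Nat.prime_two (m := 2)).1 (orderOf_dvd_of_pow_eq_one hx)
  exact h x ⟨j, hj⟩ hc

end Cfsg.Agent.S3862
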