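import Mathlib
import Cfsg.Agent.Inv.Dih
import Cfsg.Agent.Inv.Classes
import Cfsg.Agent.GT.TransferPNilp
import Cfsg.Statements.S3864
-- import your own Cfsg.Agent.* helpers here

set_option autoImplicit false
open Cfsg

namespace Cfsg.Agent.S3864

open Cfsg.Agent.Inv Cfsg.Agent.Inv.Fz Subgroup

theorem parity {t : ℕ} (j i : R2 t) : ∃ y, i = j + 2 * y ∨ i = j + 1 + 2 * y := by
  obtain ⟨y, hy | hy⟩ := r2_even_or_odd (i - j)
  · exact ⟨y, Or.inl (by linear_combination hy)⟩
  · exact ⟨y, Or.inr (by linear_combination hy)⟩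

theorem three_conj {G : Type*} [Group G] [Finite G] {S : Sylow 2 G} {t : ℕ} {r s : R2 t → G}
    (H : Mx (S : Subgroup G) t (-1) 0 r s) (j : R2 t) {x : G} (hx : orderOf x = 2) :
    IsConj (r (hh t)) x ∨ IsConj (s j) x ∨ IsConj (s (j + 1)) x := by
  obtain ⟨y, hy, ho, hc⟩ := exists_isConj_mem_of_orderOf S (k := 1) hx
  rcases H.involution_cases hy (mul_self_of_two ho) (ne_one_of_two ho) with rfl | ⟨i, rfl⟩
  · exact Or.inl hc
  · obtain ⟨y, rfl | rfl⟩ := parity j i
    · obtain ⟨g, -, hg⟩ := H.conj_s_even j y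
      exact Or.inr (Or.inl ((isConj_iff.2 ⟨g, hg⟩).trans hc))
    · obtain ⟨g, -, hg⟩ := H.conj_s_even (j + 1) y
      exact Or.inr (Or.inr ((isConj_iff.2 ⟨g, hg⟩).trans hc))

/-- Let G be a finite group whose Sylow 2-subgroups are dihedral of order 2 ^ n with n ≥ 3, and count the conjugacy classes of involutions of G. Then exactly one of the following holds: there is one class of involutions and no normal subgroup of index 2; there are two classes of involutions, a normal subgroup of index 2 and none of index 4; there are three classes of involutions and G has a normal 2-complement. -/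
theorem result {G : Type*} [Group G] [Finite G] (P : Sylow 2 G) (n : ℕ) (hn : 3 ≤ n) (hdih : Nonempty (↥(P : Subgroup G) ≃* DihedralGroup (2 ^ (n - 1)))) : (Nat.card {C : ConjClasses G // ∃ g : G, ConjClasses.mk g = C ∧ orderOf g = 2} = 1 ∧ ∀ N : Subgroup G, N.Normal → N.index ≠ 2) ∨ (Nat.card {C : ConjClasses G // ∃ g : G, ConjClasses.mk g = C ∧ orderOf g = 2} = 2 ∧ (∃ N : Subgroup G, N.Normal ∧ N.index = 2) ∧ ∀ N : Subgroup G, N.Normal → N.index ≠ 4) ∨ (Nat.card {C : ConjClasses G // ∃ g : G, ConjClasses.mk g = C ∧ orderOf g = 2} = 3 ∧ Cfsg.HasNormalPComplement 2 G) := by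
  obtain ⟨e⟩ := hdih
  obtain ⟨t, r, s, H⟩ := exists_mx_of_dihedral P.isPGroup'
    (Nat.le_trans (by norm_num) (Nat.pow_le_pow_right two_pos (show 1 ≤ n - 1 by omega))) e
  have ht : 1 ≤ t := by
    have h1 := H.card
    rw [Nat.card_congr e.toEquiv, DihedralGroup.nat_card, ← pow_succ'] at h1
    have := Nat.pow_right_injective le_rfl h1
    omega
  rw [invClassCount_eq']
  by_cases h : ∀ j, OddAut (H.sub 1 j)
  · exact Or.inl ⟨invClassCount_eq_one H.orderOf_z fun x hx => H.d_isConj h hx,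
      fun N _ => no_index_two_iff.2 (H.d_pResidual_eq_top h) N⟩
  obtain ⟨j, hj⟩ := not_forall.1 h
  by_cases h1 : OddAut (H.sub 1 (j + 1))
  · have h2 : H.sub (2 ^ (t - 1)) (j + 1) ≤ pResidual 2 G :=
      H.max_le_pResidual (e := 0) ht (by rwa [pow_zero])
    have h3 : (P : Subgroup G) ⊓ pResidual 2 G ≤ H.sub (2 ^ (t - 1)) (j + 1) := by
      refine H.inf_pResidual_le' ((H.r_mem_max ht).2 ⟨1, by simp⟩) (fun i _ ho => ?_)
        (fun i hi ho => absurd ho (H.d_notQ i hi))
      obtain ⟨y, rfl | rfl⟩ := parity j i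
      · exact absurd ((H.oddAut_even y).1 ho) hj
      · have := H.sub_le_max (e := 0) ht (j + 1 + 2 * y)
        rwa [H.max_even ht, pow_zero] at this
    obtain ⟨a, b, -, -⟩ := pResidual_pack P (le_antisymm h3 (le_inf (H.sub_le _ _) h2))
    rw [H.relIndex_max ht] at b
    refine Or.inr (Or.inl ⟨invClassCount_eq_two H.orderOf_z (H.d_orderOf_s j) (fun hc => ?_)
      fun x hx => ?_, ⟨_, a, b⟩, fun N _ hN => ?_⟩)
    · obtain ⟨g, hg⟩ := isConj_iff.1 hc
      obtain ⟨y, hy⟩ := (H.s_mem_max ht).1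
        (h3 ⟨H.s_mem j, hg ▸ a.conj_mem _ (h2 (H.z_mem_sub _ _)) g⟩)
      exact even_ne_odd 0 y (by linear_combination hy)
    · rcases three_conj H j hx with h4 | h4 | h4
      · exact Or.inl h4
      · exact Or.inr h4
      · obtain ⟨g, -, hg⟩ := klein_isConj (H.isKleinFour_sub (H.d_sq (j + 1))) h1
          (H.z_mem_sub 1 _) (H.s_mem_sub_self 1 _) H.z_ne_one (H.s_ne_one _)
        exact Or.inl ((isConj_iff.2 ⟨g, hg⟩).trans h4)
    · have := index_dvd_of_le (GT.Tr.pResidual_le_of_index (p := 2) (k := 2) hN)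
      rw [hN, b] at this
      omega
  · have h2 : ∀ i, s i * s i = 1 → ¬ OddAut (H.sub 1 i) := by
      intro i _ ho
      obtain ⟨y, rfl | rfl⟩ := parity j i
      · exact hj ((H.oddAut_even y).1 ho)
      · exact h1 ((H.oddAut_even y).1 ho)
    have h3 : ∀ i, ¬ IsConj (r (hh t)) (s i) := fun i hc => by
      obtain ⟨g, hg⟩ := isConj_iff.1 hc
      exact H.s_ne_r _ _ (hg.symm.trans (H.z_isolated h2 (hg ▸ H.s_mem i)))
    refine Or.inr (Or.inr ⟨invClassCount_eq_three H.orderOf_z (H.d_orderOf_s j)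
      (H.d_orderOf_s (j + 1)) (h3 _) (h3 _) (fun hc => ?_) fun x hx => three_conj H j hx,
      H.hasNormalPComplement h2 H.d_notQ⟩)
    obtain ⟨g, hg⟩ := isConj_iff.1 hc
    obtain ⟨u, hu, e⟩ := H.fusion_in h2 H.d_notQ (H.s_mem j) (hg ▸ H.s_mem (j + 1))
    rw [hg] at e
    obtain ⟨i, rfl | rfl⟩ := H.cases hu
    · rw [H.conj_rs, H.s_eq] at e
      exact even_ne_odd i 0 (by linear_combination -e)
    · rw [H.conj_ss, H.s_eq] at e
      exact even_ne_odd i j (by linear_combination -e)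

end Cfsg.Agent.S3864
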