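import Mathlib
import Cfsg.Statements.S3866
import Cfsg.Agent.GT.Conj
import Cfsg.Agent.GT.Cores
import Cfsg.Agent.FG.CommMod
import Cfsg.Agent.FG.ClassIdx

set_option autoImplicit false
open Cfsg

namespace Cfsg.Agent.S3866

section aux

open Subgroup Cfsg.Agent.GT Cfsg.Agent.FG
open scoped commutatorElement



end aux

open Subgroup Cfsg.Agent.GT Cfsg.Agent.FG in
open scoped commutatorElement in
/-- Let A be a commutative normal subgroup of the finite group G with G generated by A and an element x. Then a ↦ x a x⁻¹ a⁻¹ is a surjective homomorphism from A onto the commutator subgroup of G whose kernel is the centralizer of x in A; in particular the commutator subgroup has order equal to the index in A of that centralizer. -/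
theorem result {G : Type*} [Group G] [Finite G] (A : Subgroup G) [A.Normal] (hA : IsMulCommutative A) (x : G) (hgen : A ⊔ Subgroup.zpowers x = ⊤) : (∀ a ∈ A, x * a * x⁻¹ * a⁻¹ ∈ commutator G) ∧ (∀ c ∈ commutator G, ∃ a ∈ A, x * a * x⁻¹ * a⁻¹ = c) ∧ (∀ a ∈ A, ∀ b ∈ A, x * (a * b) * x⁻¹ * (a * b)⁻¹ = (x * a * x⁻¹ * a⁻¹) * (x * b * x⁻¹ * b⁻¹)) ∧ Nat.card (commutator G) * Nat.card ↥(A ⊓ Subgroup.centralizer ({x} : Set G)) = Nat.card A := by
  have hc : ∀ a ∈ A, ∀ b ∈ A, a * b = b * a := fun a ha b hb =>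
    congrArg Subtype.val (hA.is_comm.comm ⟨a, ha⟩ ⟨b, hb⟩)
  have hn : ∀ a ∈ A, ∀ g : G, g * a * g⁻¹ ∈ A := fun a ha g => ‹A.Normal›.conj_mem a ha g
  have h1 : ∀ a ∈ A, x * a * x⁻¹ * a⁻¹ ∈ _root_.commutator G := fun a _ =>
    commutator_mem_commutator (mem_top x) (mem_top a)
  have h3 : ∀ a ∈ A, ∀ b ∈ A, x * (a * b) * x⁻¹ * (a * b)⁻¹ =
      (x * a * x⁻¹ * a⁻¹) * (x * b * x⁻¹ * b⁻¹) := by
    intro a ha b hb
    have e := hc _ (A.mul_mem (hn b hb x) (A.inv_mem hb)) _ (A.inv_mem ha)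
    calc x * (a * b) * x⁻¹ * (a * b)⁻¹ = x * a * x⁻¹ * (x * b * x⁻¹ * b⁻¹ * a⁻¹) := by group
      _ = _ := by rw [e]; group
  let f : A →* G := MonoidHom.mk' (fun a => x * a * x⁻¹ * (a : G)⁻¹) (fun a b => h3 a a.2 b b.2)
  have hfA : f.range ≤ A := by
    rintro _ ⟨a, rfl⟩
    exact A.mul_mem (hn a a.2 x) (A.inv_mem a.2)
  have hnorm : f.range.Normal := by
    apply normal_of_sup_eq_top hgen
    · exact le_normalizer_of_le_of_comm hfA
    · apply zpowers_le_of_mem
      rw [mem_normalizer_iff_of_finite]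
      rintro _ ⟨a, rfl⟩
      refine ⟨⟨_, hn a a.2 x⟩, ?_⟩
      change x * (x * a * x⁻¹) * x⁻¹ * (x * a * x⁻¹)⁻¹ = x * (x * a * x⁻¹ * (a : G)⁻¹) * x⁻¹
      group
  have hcl : closure ((A : Set G) ∪ {x}) = ⊤ := by
    rw [Subgroup.closure_union, closure_eq, ← zpowers_eq_closure, hgen]
  have h2 : _root_.commutator G = f.range := by
    refine le_antisymm ?_ (by rintro _ ⟨a, rfl⟩; exact h1 a a.2)
    rw [_root_.commutator, ← hcl]
    apply commutator_closure_closure_le_normal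
    rintro a (ha | rfl) b (hb | rfl)
    · rw [commutatorElement_eq_one_iff_mul_comm.2 (hc a ha b hb)]; exact one_mem _
    · rw [← inv_mem_iff, commutatorElement_inv]; exact ⟨⟨a, ha⟩, rfl⟩
    · exact ⟨⟨b, hb⟩, rfl⟩
    · rw [commutatorElement_self]; exact one_mem _
  refine ⟨h1, fun c hc => ?_, h3, ?_⟩
  · rw [h2] at hc
    obtain ⟨a, rfl⟩ := hc
    exact ⟨a, a.2, rfl⟩
  · have hk : f.ker = (centralizer ({x} : Set G)).subgroupOf A := by
      ext a
      rw [MonoidHom.mem_ker, mem_subgroupOf, CI.mem_cent]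
      change x * a * x⁻¹ * (a : G)⁻¹ = 1 ↔ _
      rw [mul_inv_eq_one, mul_inv_eq_iff_eq_mul, eq_comm]
    rw [h2, inf_comm, ← card_subgroupOf, ← hk, ← index_ker, index_mul_card]

end Cfsg.Agent.S3866
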