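import Mathlib
import Cfsg.Statements.S3867
import Cfsg.Agent.GT.Conj
import Cfsg.Agent.GT.Cores
import Cfsg.Agent.FG.SylowCount

set_option autoImplicit false
open Cfsg

namespace Cfsg.Agent.S3867

section aux

open Subgroup Cfsg.Agent.GT Cfsg.Agent.FG
open scoped commutatorElement

theorem isPGroup_inf {G : Type*} [Group G] {p : ℕ} {P M N : Subgroup G} [M.Normal] [N.Normal]
    (hP : IsPGroup p P) (hMN : M ⊓ N = ⊥) : IsPGroup p ((P ⊔ M) ⊓ (P ⊔ N) : Subgroup G) := by
  have key : ∀ (K : Subgroup G) [K.Normal], ∀ d ∈ P ⊔ K, ∃ k : ℕ, d ^ p ^ k ∈ K := by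
    intro K _ d hd
    have h1 : IsPGroup p (P.map (QuotientGroup.mk' K)) := hP.map _
    have h2 : (d : G ⧸ K) ∈ P.map (QuotientGroup.mk' K) := by
      rw [← comap_map_mk'] at hd; exact hd
    obtain ⟨k, hk⟩ := h1 ⟨_, h2⟩
    refine ⟨k, (QuotientGroup.eq_one_iff _).1 ?_⟩
    simpa using congrArg Subtype.val hk
  rintro ⟨d, h1, h2⟩
  obtain ⟨a, ha⟩ := key M d h1
  obtain ⟨b, hb⟩ := key N d h2
  refine ⟨a + b, Subtype.ext ?_⟩
  change d ^ p ^ (a + b) = 1
  rw [← mem_bot, ← hMN]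
  constructor
  · rw [pow_add, pow_mul]; exact M.pow_mem ha _
  · rw [add_comm, pow_add, pow_mul]; exact N.pow_mem hb _

end aux

open Subgroup Cfsg.Agent.GT Cfsg.Agent.FG in
open scoped commutatorElement in
/-- Let M and N be nontrivial normal subgroups of the finite group G with M ⊓ N trivial, and let p be a prime. Writing n(X) for the number of Sylow p-subgroups of a group X, one has n(G) · n(G/MN) = n(G/M) · n(G/N). -/
theorem result {G : Type*} [Group G] [Finite G] (p : ℕ) [Fact p.Prime] (M N : Subgroup G) [M.Normal] [N.Normal] (hM : M ≠ ⊥) (hN : N ≠ ⊥) (hMN : M ⊓ N = ⊥) : Nat.card (Sylow p G) * Nat.card (Sylow p (G ⧸ (M ⊔ N))) = Nat.card (Sylow p (G ⧸ M)) * Nat.card (Sylow p (G ⧸ N)) := by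
  obtain ⟨P⟩ : Nonempty (Sylow p G) := inferInstance
  rw [H96.card_sylow_quotient _ P, H96.card_sylow_quotient _ P, H96.card_sylow_quotient _ P,
    P.card_eq_index_normalizer]
  set K := normalizer ((P : Subgroup G) : Set G) with hK
  change K.index * _ = _
  have hD : ((P : Subgroup G) ⊔ M) ⊓ ((P : Subgroup G) ⊔ N) = P :=
    P.is_maximal' (isPGroup_inf P.isPGroup' hMN) (le_inf le_sup_left le_sup_left)
  have h0 : ∀ (L : Subgroup G) [L.Normal],
      K ⊔ L ≤ normalizer (((P : Subgroup G) ⊔ L : Subgroup G) : Set G) := by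
    intro L _
    refine sup_le ?_ (le_sup_right.trans le_normalizer)
    exact le_trans (le_inf le_rfl le_normalizer_of_normal) (normalizer_inf_normalizer_le_normalizer_sup _ _)
  have h1 : (K ⊔ M) ⊓ N = K ⊓ N := by
    refine le_antisymm (le_inf ?_ inf_le_right) (inf_le_inf_right _ le_sup_left)
    rw [hK]
    nth_rewrite 2 [← hD]
    refine le_trans ?_ inf_normalizer_le_normalizer_inf
    exact inf_le_inf (h0 M) (le_sup_right.trans (h0 N))
  have h2 := card_sup_mul_card_inf (K ⊔ M) N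
  have h3 := card_sup_mul_card_inf K N
  rw [h1, sup_assoc] at h2
  have e1 := K.index_mul_card
  have e2 := (K ⊔ (M ⊔ N)).index_mul_card
  have e3 := (K ⊔ M).index_mul_card
  have e4 := (K ⊔ N).index_mul_card
  have h4 : Nat.card (K ⊔ (M ⊔ N) : Subgroup G) * Nat.card K =
      Nat.card (K ⊔ M : Subgroup G) * Nat.card (K ⊔ N : Subgroup G) := by
    apply Nat.eq_of_mul_eq_mul_right (Nat.card_pos (α := (K ⊓ N : Subgroup G)))
    rw [mul_right_comm, h2, mul_assoc, mul_assoc, h3, mul_comm (Nat.card N)]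
  apply Nat.eq_of_mul_eq_mul_right
    (Nat.mul_pos (Nat.card_pos (α := (K ⊔ (M ⊔ N) : Subgroup G))) (Nat.card_pos (α := K)))
  calc _ = (K.index * Nat.card K) * ((K ⊔ (M ⊔ N)).index * Nat.card (K ⊔ (M ⊔ N) : Subgroup G)) := by
        ring
    _ = ((K ⊔ M).index * Nat.card (K ⊔ M : Subgroup G)) *
        ((K ⊔ N).index * Nat.card (K ⊔ N : Subgroup G)) := by rw [e1, e2, e3, e4]
    _ = _ := by rw [h4]; ring

end Cfsg.Agent.S3867
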