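import Cfsg.Statements.S3878
import Mathlib
import Cfsg.Agent.S2536
import Cfsg.Agent.Sym.Hall2

set_option autoImplicit false
open Cfsg

namespace Cfsg.Agent.S3878

/-- For a set of primes π the following are equivalent: every finite group has a Hall π-subgroup; in every finite group the maximal π-subgroups are pairwise conjugate; π contains at most one prime or contains every prime. -/
theorem result (π : Set ℕ) :
    ((∀ (G : Type) [Group G] [Finite G], Cfsg.IsEPiGroup π G) ↔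
      ((∀ p q : ℕ, p.Prime → q.Prime → p ∈ π → q ∈ π → p = q) ∨ ∀ p : ℕ, p.Prime → p ∈ π)) ∧
    ((∀ (G : Type) [Group G] [Finite G], Cfsg.IsDPiGroup π G) ↔
      ((∀ p q : ℕ, p.Prime → q.Prime → p ∈ π → q ∈ π → p = q) ∨ ∀ p : ℕ, p.Prime → p ∈ π)) := by
  have hDE : ∀ (G : Type) [Group G] [Finite G], Cfsg.IsDPiGroup π G → Cfsg.IsEPiGroup π G := fun G _ _ h => by
    obtain ⟨K, -, hK⟩ := Sym.exists_maximal_ge (π := π) (K := (⊥ : Subgroup G)) fun p hp hd =>
      absurd (Subgroup.card_bot (G := G) ▸ hd) hp.not_dvd_one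
    exact ⟨K, Sym.IsDPi.isPiHall h hK⟩
  have h1 : ((∀ p q : ℕ, p.Prime → q.Prime → p ∈ π → q ∈ π → p = q) ∨ ∀ p : ℕ, p.Prime → p ∈ π) →
      ∀ (G : Type) [Group G] [Finite G], Cfsg.IsDPiGroup π G := fun h G _ _ =>
    h.elim (fun h => Sym.isDPiGroup_of_single fun r s hr hs h1 h2 _ _ => h r s hr hs h1 h2)
      fun h => Sym.isDPiGroup_of_all fun p hp _ => h p hp
  have h2 : (∀ (G : Type) [Group G] [Finite G], Cfsg.IsEPiGroup π G) →
      ((∀ p q : ℕ, p.Prime → q.Prime → p ∈ π → q ∈ π → p = q) ∨ ∀ p : ℕ, p.Prime → p ∈ π) := fun h => by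
    by_contra! k
    obtain ⟨⟨p, q, hp, hq, h3, h4, h5⟩, r, hr, h6⟩ := k
    rcases (S2536.result (2 * (p + q + r + 5)) π ⟨p, q, hp, hq, h5, h3, h4, by omega, by omega⟩
      ⟨r, hr, by omega, h6⟩).1 (h _) with ⟨h7, -⟩ | ⟨h7, -⟩
    · exact Nat.not_prime_mul (by norm_num) (by omega) h7
    · omega
  exact ⟨⟨h2, fun h G _ _ => hDE G (h1 h G)⟩, fun h => h2 fun G _ _ => hDE G (h G), h1⟩

end Cfsg.Agent.S3878
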