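import Mathlib
import Cfsg.Statements.S3881
import Cfsg.Agent.FG.MetacyclicC

set_option autoImplicit false
open Cfsg

namespace Cfsg.Agent.S3881

section aux

open Subgroup Cfsg.Agent.GT Cfsg.Agent.FG.MC
open scoped commutatorElement



end aux

open Subgroup Cfsg.Agent.GT Cfsg.Agent.FG.MC in
open scoped commutatorElement in
/-- Let p be an odd prime and G a finite metacyclic p-group (G has a cyclic normal subgroup with cyclic quotient). Suppose G is non-abelian with |G'| = p^n. Then for 1 ≤ i ≤ n the number of elements of G whose conjugacy class has exactly p^i elements is |Z(G)| · (p^(2i) − p^(2i−2)). -/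
theorem result {G : Type*} [Group G] [Finite G] {p : ℕ} [Fact p.Prime] (hp : p ≠ 2) (hG : IsPGroup p G) (hmc : Cfsg.IsMetacyclic G) (n : ℕ) (hn : n ≠ 0) (hGn : Nat.card ↥(commutator G) = p ^ n) (i : ℕ) (hi : 1 ≤ i) (hin : i ≤ n) :
    Nat.card {g : G // (Subgroup.centralizer ({g} : Set G)).index = p ^ i} =
      Nat.card ↥(Subgroup.center G) * (p ^ (2 * i) - p ^ (2 * i - 2)) := by
  classical
  have hp1 := (Fact.out : p.Prime)
  have hcard : ∀ s ≤ n, Nat.card (mho p s G) = Nat.card (center G) * p ^ (2 * (n - s)) := by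
    intro s hs
    have h1 := index_mho hp hG hmc (s := s) (by rw [hGn]; exact pow_dvd_pow _ hs)
    have h2 := index_center hp hG hmc
    have h3 := (mho p s G).card_mul_index
    have h4 := (center G).card_mul_index
    apply Nat.eq_of_mul_eq_mul_right (pow_pos hp1.pos (2 * s))
    rw [← h1, h3, ← h4, h1, h2, hGn, mul_assoc, ← pow_add, ← pow_mul]
    congr 2
    omega
  have hset : {g : G | (centralizer ({g} : Set G)).index = p ^ i} =
      (mho p (n - i) G : Set G) \ (mho p (n - i + 1) G : Set G) := by
    ext g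
    obtain ⟨k, hk⟩ := hG.index (centralizer ({g} : Set G))
    simp only [Set.mem_setOf_eq, Set.mem_diff, SetLike.mem_coe]
    rw [mem_mho_iff hp hG hmc hGn (by omega), mem_mho_iff hp hG hmc hGn (by omega), hk,
      Nat.pow_le_pow_iff_right hp1.one_lt, Nat.pow_le_pow_iff_right hp1.one_lt,
      Nat.pow_right_inj hp1.one_lt]
    omega
  have hsub : (mho p (n - i + 1) G : Set G) ⊆ (mho p (n - i) G : Set G) := by
    intro g hg
    rw [SetLike.mem_coe, mem_mho_iff hp hG hmc hGn (by omega)] at hg ⊢
    exact hg.trans (Nat.pow_le_pow_right hp1.pos (by omega))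
  change Nat.card ({g : G | (centralizer ({g} : Set G)).index = p ^ i} : Set G) = _
  rw [hset, Nat.card_coe_set_eq, Set.ncard_diff hsub, ← Nat.card_coe_set_eq,
    ← Nat.card_coe_set_eq, SetLike.coe_sort_coe, SetLike.coe_sort_coe, hcard _ (by omega),
    hcard _ (by omega), Nat.mul_sub (Nat.card (center G)),
    show 2 * (n - (n - i)) = 2 * i by omega, show 2 * (n - (n - i + 1)) = 2 * i - 2 by omega]

end Cfsg.Agent.S3881
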