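import Mathlib
import Cfsg.Statements.S3883
import Cfsg.Agent.FG.MetacyclicC

set_option autoImplicit false
open Cfsg

namespace Cfsg.Agent.S3883

section aux

open Subgroup Cfsg.Agent.GT Cfsg.Agent.FG.MC
open scoped commutatorElement



end aux

open Subgroup Cfsg.Agent.GT Cfsg.Agent.FG.MC in
open scoped commutatorElement in
/-- Let p be an odd prime and G a finite metacyclic p-group (G has a cyclic normal subgroup with cyclic quotient). Suppose G is non-abelian. Then an element g of G lies outside the Frattini subgroup if and only if its centralizer C_G(g) is abelian. -/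
theorem result {G : Type*} [Group G] [Finite G] {p : ℕ} [Fact p.Prime] (hp : p ≠ 2) (hG : IsPGroup p G) (hmc : Cfsg.IsMetacyclic G) (hna : ¬ IsMulCommutative G) (g : G) :
    g ∉ frattini G ↔ IsMulCommutative ↥(Subgroup.centralizer ({g} : Set G)) := by
  have hp1 := (Fact.out : p.Prime)
  obtain ⟨n, hn⟩ := IsPGroup.iff_card.mp (hG.to_subgroup (_root_.commutator G))
  have hn0 : n ≠ 0 := by
    rintro rfl
    apply hna
    rw [pow_zero, card_eq_one] at hn
    exact (commutator_eq_bot_iff G).mp hn
  obtain ⟨k, hk⟩ := hG.index (centralizer ({g} : Set G))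
  rw [frattini_eq_mho hp hG hmc (by rw [hn]; exact dvd_pow_self _ hn0),
    mem_mho_iff hp hG hmc hn (Nat.one_le_iff_ne_zero.mpr hn0),
    isMulCommutative_iff_dvd_index hp hG hmc, hk, hn, Nat.pow_le_pow_iff_right hp1.one_lt,
    Nat.pow_dvd_pow_iff_le_right hp1.one_lt]
  omega

end Cfsg.Agent.S3883
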