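import Mathlib
import Cfsg.Statements.S3885
import Cfsg.Agent.FG.MetacyclicC

set_option autoImplicit false
open Cfsg

namespace Cfsg.Agent.S3885

section aux

open Subgroup Cfsg.Agent.GT Cfsg.Agent.FG.MC
open scoped commutatorElement



end aux

open Subgroup Cfsg.Agent.GT Cfsg.Agent.FG.MC in
open scoped commutatorElement in
/-- Let p be an odd prime and G a finite metacyclic p-group (G has a cyclic normal subgroup with cyclic quotient). Then every abelian subgroup K of G containing the center of G is the center of its own centralizer: K = Z(C_G(K)). -/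
theorem result {G : Type*} [Group G] [Finite G] {p : ℕ} [Fact p.Prime] (hp : p ≠ 2) (hG : IsPGroup p G) (hmc : Cfsg.IsMetacyclic G) (K : Subgroup G) (hK : IsMulCommutative ↥K) (hZ : Subgroup.center G ≤ K) :
    K = Subgroup.centralizer (K : Set G) ⊓ Subgroup.centralizer (Subgroup.centralizer (K : Set G) : Set G) := by
  have h1 : K ≤ centralizer (K : Set G) := le_centralizer_iff_isMulCommutative.mpr hK
  have h2 : K ≤ centralizer (centralizer (K : Set G) : Set G) := le_centralizer_iff.mp le_rfl
  have h3 := card_mul_card_centralizer hp hG hmc hZ
  have h4 := card_mul_card_centralizer hp hG hmc (center_le_centralizer (K : Set G))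
  have h5 : K = centralizer (centralizer (K : Set G) : Set G) := by
    refine eq_of_le_of_card_ge h2 (le_of_eq ?_)
    rw [← h4, mul_comm] at h3
    exact (Nat.eq_of_mul_eq_mul_left Nat.card_pos h3).symm
  rw [← h5]
  exact (inf_eq_right.mpr h1).symm

end Cfsg.Agent.S3885
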