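import Mathlib
import Cfsg.Statements.S3887
import Cfsg.Agent.FG.MetacyclicC
import Cfsg.Agent.Loc.ChermakDelgado

set_option autoImplicit false
open Cfsg

namespace Cfsg.Agent.S3887

section aux

open Subgroup Cfsg.Agent.GT Cfsg.Agent.FG.MC
open scoped commutatorElement

theorem centralizer_sup_center {G : Type*} [Group G] (R : Subgroup G) :
    centralizer ((R ⊔ center G : Subgroup G) : Set G) = centralizer (R : Set G) := by
  apply le_antisymm (centralizer_le (SetLike.coe_subset_coe.mpr le_sup_left))
  rw [le_centralizer_iff, sup_le_iff]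
  exact ⟨le_centralizer_iff.mp le_rfl, center_le_centralizer _⟩

theorem max_eq {G : Type*} [Group G] [Finite G] {p : ℕ} [Fact p.Prime] (hp : p ≠ 2)
    (hG : IsPGroup p G) (hmc : Cfsg.IsMetacyclic G) :
    Cfsg.maxCentralizerProduct G = (_root_.commutator G).index ^ 2 := by
  obtain ⟨R, hR⟩ := Loc.exists_isCentralizerLarge G
  apply le_antisymm
  · rw [← hR, ← card_mul_card_centralizer hp hG hmc (H := R ⊔ center G) le_sup_right,
      centralizer_sup_center]
    exact Nat.mul_le_mul_right _ (card_le_of_le le_sup_left)
  · rw [← card_mul_card_centralizer hp hG hmc (H := ⊤) le_top]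
    exact Loc.cdMeasure_le_max ⊤

end aux

open Subgroup Cfsg.Agent.GT Cfsg.Agent.FG.MC in
open scoped commutatorElement in
/-- Let p be an odd prime and G a finite metacyclic p-group (G has a cyclic normal subgroup with cyclic quotient). Then a subgroup R of G maximizes |R| · |C_G(R)| over all subgroups of G if and only if R contains the center of G. -/
theorem result {G : Type*} [Group G] [Finite G] {p : ℕ} [Fact p.Prime] (hp : p ≠ 2) (hG : IsPGroup p G) (hmc : Cfsg.IsMetacyclic G) (R : Subgroup G) : Cfsg.IsCentralizerLarge R ↔ Subgroup.center G ≤ R := by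
  unfold Cfsg.IsCentralizerLarge
  rw [max_eq hp hG hmc]
  refine ⟨fun h => ?_, fun h => card_mul_card_centralizer hp hG hmc h⟩
  rw [← card_mul_card_centralizer hp hG hmc (H := R ⊔ center G) le_sup_right,
    centralizer_sup_center] at h
  have h1 := Nat.eq_of_mul_eq_mul_right Nat.card_pos h
  have h2 : R = R ⊔ center G := eq_of_le_of_card_ge le_sup_left h1.ge
  rw [h2]
  exact le_sup_right

end Cfsg.Agent.S3887
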