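import Mathlib
import Cfsg.Statements.S3886
import Cfsg.Agent.FG.MetacyclicC
import Cfsg.Agent.S3887

set_option autoImplicit false
open Cfsg

namespace Cfsg.Agent.S3886

section aux

open Subgroup Cfsg.Agent.GT Cfsg.Agent.FG.MC
open scoped commutatorElement



end aux

open Subgroup Cfsg.Agent.GT Cfsg.Agent.FG.MC in
open scoped commutatorElement in
/-- Let p be an odd prime and G a finite metacyclic p-group (G has a cyclic normal subgroup with cyclic quotient). Then the largest value of |R| · |Z(R)| over subgroups R of G is |G : G'|², and the subgroups attaining it (the centrally large subgroups) are exactly the non-abelian subgroups together with the maximal abelian subgroups of G. -/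
theorem result {G : Type*} [Group G] [Finite G] {p : ℕ} [Fact p.Prime] (hp : p ≠ 2) (hG : IsPGroup p G) (hmc : Cfsg.IsMetacyclic G) : Cfsg.maxCentralProduct G = (commutator G).index ^ 2 ∧
    ∀ R : Subgroup G, Cfsg.IsCentrallyLarge R ↔ (¬ IsMulCommutative ↥R ∨ Maximal (fun K : Subgroup G => IsMulCommutative ↥K) R) := by
  have hp1 := (Fact.out : p.Prime)
  refine ⟨by rw [Loc.maxCentralProduct_eq, S3887.max_eq hp hG hmc], fun R => ?_⟩
  have h1 : Cfsg.IsCentrallyLarge R ↔ centralizer (R : Set G) ≤ R := by
    rw [Loc.cl_iff, S3887.result hp hG hmc]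
    exact ⟨fun h => h.2, fun h => ⟨(center_le_centralizer _).trans h, h⟩⟩
  rw [h1]
  constructor
  · intro h
    by_cases hR : IsMulCommutative R
    · refine Or.inr ⟨hR, fun K hK hRK => ?_⟩
      exact ((le_centralizer_iff_isMulCommutative.mpr hK).trans
        (centralizer_le (SetLike.coe_subset_coe.mpr hRK))).trans h
    · exact Or.inl hR
  · intro h
    apply centralizer_le_of_index_dvd hp hG hmc
    obtain ⟨k, hk⟩ := hG.index R
    obtain ⟨n, hn⟩ := IsPGroup.iff_card.mp (hG.to_subgroup (_root_.commutator G))
    rcases h with h | h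
    · rw [isMulCommutative_iff_dvd_index hp hG hmc, hk, hn,
        Nat.pow_dvd_pow_iff_le_right hp1.one_lt] at h
      rw [hk, hn]
      exact pow_dvd_pow _ (by omega)
    · rw [maximal_comm_iff_card_eq hp hG hmc] at h
      have h2 := R.card_mul_index
      rw [← (_root_.commutator G).card_mul_index, h, mul_comm] at h2
      rw [Nat.eq_of_mul_eq_mul_right (Nat.pos_of_ne_zero index_ne_zero_of_finite) h2]

end Cfsg.Agent.S3886
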