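import Mathlib
import Cfsg.Statements.S3897
import Cfsg.Agent.FG.PiClasses

set_option autoImplicit false
open Cfsg

namespace Cfsg.Agent.S3897

open Subgroup Cfsg.Agent.GT Cfsg.Agent.FG Cfsg.Agent.FG.PC

theorem forward {G : Type*} [Group G] [Finite G] {p : ℕ} [hp : Fact p.Prime] (P : Sylow p G)
    (h : (p + 1) * Nat.card ↥(P : Subgroup G) < 2 * p * kPi {p} G) :
    Cfsg.HasNormalPComplement p G ∧ IsMulCommutative ↥(P : Subgroup G) := by
  have hp2 := hp.out.two_le
  have hcomm : (P : Subgroup G) ≤ centralizer ((P : Subgroup G) : Set G) := by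
    by_contra hne
    have h1 := mul_kPi_le_of_normalizer (π := {p}) (P : Subgroup G) (P : Subgroup G)
      le_normalizer p (le_of_dvd_card_pgroup P.isPGroup') (exists_conj_mem_sylow P)
    have h2 := mul_card_le_of_lt P.isPGroup'
      (A := (P : Subgroup G) ⊓ centralizer ((P : Subgroup G) : Set G))
      (lt_of_le_of_ne inf_le_left (fun h => hne (inf_eq_left.1 h)))
    set c := Nat.card ((P : Subgroup G) ⊓ centralizer ((P : Subgroup G) : Set G) : Subgroup G)
    set n := Nat.card (P : Subgroup G)
    set k := kPi {p} G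
    obtain ⟨q, rfl⟩ := Nat.exists_eq_add_of_le hp2
    rcases Nat.eq_zero_or_pos q with rfl | hq
    · omega
    · nlinarith [Nat.mul_le_mul_left q h2, Nat.mul_le_mul_left n hq]
  refine ⟨Tr.hasNormalPComplement_of_normalizer_le_centralizer P ?_,
    ⟨⟨fun a b => Subtype.ext (hcomm b.2 a a.2)⟩⟩⟩
  intro g hg
  by_contra hne
  have h1 := mul_kPi_le_of_normalizer (π := {p}) (P : Subgroup G) (zpowers g)
    (zpowers_le_of_mem hg) 2 (fun d hd h1 => by
      have := Nat.pos_of_dvd_of_pos hd Nat.card_pos
      omega) (exists_conj_mem_sylow P)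
  have h2 := mul_card_le_of_lt P.isPGroup'
    (A := (P : Subgroup G) ⊓ centralizer ((zpowers g : Subgroup G) : Set G))
    (lt_of_le_of_ne inf_le_left (fun h => hne (by
      have h3 := inf_eq_left.1 h
      rw [centralizer_zpowers] at h3
      exact CI.le_cent_iff.1 h3)))
  set c := Nat.card ((P : Subgroup G) ⊓ centralizer ((zpowers g : Subgroup G) : Set G) : Subgroup G)
  set n := Nat.card (P : Subgroup G)
  set k := kPi {p} G
  nlinarith [Nat.mul_le_mul_left p h1]

/-- Let p be an odd prime and G a finite group with Sylow p-subgroup P, and write k_p(G) for the number of conjugacy classes of G consisting of p-elements (elements of p-power order, the identity included). Then k_p(G) > (p + 1)|P|/(2p) if and only if G has a normal p-complement and P is abelian. -/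
theorem result {G : Type*} [Group G] [Finite G] {p : ℕ} [Fact p.Prime] (hp : p ≠ 2) (P : Sylow p G) :
    (p + 1) * Nat.card ↥(P : Subgroup G) < 2 * p * Nat.card {c : ConjClasses G // ∀ x ∈ c.carrier, ∃ k : ℕ, orderOf x = p ^ k} ↔
      Cfsg.HasNormalPComplement p G ∧ IsMulCommutative ↥(P : Subgroup G) := by
  have hp' : p.Prime := Fact.out
  rw [← kPi_singleton_eq hp']
  refine ⟨forward P, fun ⟨h1, h2⟩ => ?_⟩
  have h3 := card_conjClasses_le_kPi P h1
  rw [card_conjClasses_of_comm h2] at h3
  have h4 : 0 < Nat.card (P : Subgroup G) := Nat.card_pos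
  have h5 := hp'.two_le
  nlinarith [Nat.mul_le_mul_left p h3]

end Cfsg.Agent.S3897
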