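import Mathlib
import Cfsg.Statements.S3898
import Cfsg.Agent.S3895

set_option autoImplicit false
open Cfsg

namespace Cfsg.Agent.S3898

open Subgroup Cfsg.Agent.GT Cfsg.Agent.FG Cfsg.Agent.FG.PC

variable {G : Type*} [Group G] [Finite G]

theorem sq_mul_le {r : ℕ} [hr : Fact r.Prime] {R : Subgroup G} (hR : IsPGroup r R)
    (h : ¬ R ≤ centralizer (R : Set G)) :
    r ^ 2 * Nat.card (R ⊓ centralizer (R : Set G) : Subgroup G) ≤ Nat.card R := by
  obtain ⟨k, hk⟩ := hR.index (center R)
  rw [← GT.map_center_subtype, card_map_subtype, ← (center R).index_mul_card, hk]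
  apply Nat.mul_le_mul_right
  apply Nat.pow_le_pow_right hr.out.pos
  by_contra hlt
  apply h
  have hc : IsCyclic (R ⧸ center R) := by
    have : k = 0 ∨ k = 1 := by omega
    rcases this with rfl | rfl
    · have : Subsingleton (R ⧸ center R) := by
        rw [← Finite.card_le_one_iff_subsingleton]; exact le_of_eq hk
      infer_instance
    · exact isCyclic_of_prime_card (p := r) (by rw [← pow_one r]; exact hk)
  have := (QuotientGroup.mk' (center R)).isMulCommutative_of_isCyclic_of_ker_le_center
    (by simp)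
  intro a ha b hb
  exact congrArg Subtype.val (this.is_comm.comm ⟨b, hb⟩ ⟨a, ha⟩)

theorem odd_prime {r : ℕ} [hr : Fact r.Prime] (hr2 : r ≠ 2) (R : Sylow r G)
    (h : Nat.card (R : Subgroup G) < 2 * kPi {r} G) :
    (R : Subgroup G) ≤ centralizer ((R : Subgroup G) : Set G) ∧
      ∀ g ∈ normalizer ((R : Subgroup G) : Set G), Odd (orderOf g) →
        g ∈ centralizer ((R : Subgroup G) : Set G) := by
  have hr3 : 3 ≤ r := by have := hr.out.two_le; omega
  have hcomm : (R : Subgroup G) ≤ centralizer ((R : Subgroup G) : Set G) := by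
    by_contra hne
    have h1 := mul_kPi_le_of_normalizer (π := {r}) (R : Subgroup G) (R : Subgroup G)
      le_normalizer r (le_of_dvd_card_pgroup R.isPGroup') (exists_conj_mem_sylow R)
    have h2 := sq_mul_le R.isPGroup' hne
    set c := Nat.card ((R : Subgroup G) ⊓ centralizer ((R : Subgroup G) : Set G) : Subgroup G)
    set n := Nat.card (R : Subgroup G)
    set k := kPi {r} G
    obtain ⟨q, rfl⟩ := Nat.exists_eq_add_of_le hr3
    nlinarith [Nat.mul_le_mul_left (3 + q) h.le, Nat.zero_le (q * q * c), Nat.zero_le (q * n),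
      Nat.zero_le (q * c), Nat.zero_le c]
  refine ⟨hcomm, fun g hg hodd => ?_⟩
  obtain ⟨a, ha, b, hb, hao, hbo, rfl⟩ := Tr.exists_pPart_mul_pPrimePart (p := r) g
  have haR : a ∈ (R : Subgroup G) := by
    have h1 := (CI.isPGroup_zpowers hao).inf_normalizer_sylow R
    have h2 : a ∈ zpowers a ⊓ normalizer ((R : Subgroup G) : Set G) :=
      ⟨mem_zpowers a, zpowers_le_of_mem hg ha⟩
    exact (h1.le h2).2
  refine Subgroup.mul_mem _ (hcomm haR) ?_
  by_contra hne
  have hbN : zpowers b ≤ normalizer ((R : Subgroup G) : Set G) :=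
    zpowers_le_of_mem (zpowers_le_of_mem hg hb)
  have hbodd : Odd (orderOf b) := hodd.of_dvd_nat (orderOf_dvd_of_mem_zpowers hb)
  have h2 := mul_card_le_of_lt R.isPGroup'
    (A := (R : Subgroup G) ⊓ centralizer ((zpowers b : Subgroup G) : Set G))
    (lt_of_le_of_ne inf_le_left (fun h => hne (by
      have h3 := inf_eq_left.1 h
      rw [centralizer_zpowers] at h3
      exact CI.le_cent_iff.1 h3)))
  by_cases h3 : r = 3
  · subst h3
    have h1 := mul_kPi_le_of_normalizer (π := {3}) (R : Subgroup G) (zpowers b) hbN 5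
      (fun d hd h1 => by
        rw [Nat.card_zpowers] at hd
        have e1 := Nat.odd_iff.1 (hbodd.of_dvd_nat hd)
        have e2 : d ≠ 3 := by
          rintro rfl
          have := Nat.Coprime.eq_one_of_dvd hbo.symm hd
          omega
        omega) (exists_conj_mem_sylow R)
    omega
  · have h1 := mul_kPi_le_of_normalizer (π := {r}) (R : Subgroup G) (zpowers b) hbN 3
      (fun d hd h1 => by
        rw [Nat.card_zpowers] at hd
        have e1 := Nat.odd_iff.1 (hbodd.of_dvd_nat hd)
        omega) (exists_conj_mem_sylow R)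
    have h4 : 4 ≤ r := by omega
    have h5 := Nat.mul_le_mul_right
      (Nat.card ((R : Subgroup G) ⊓ centralizer ((zpowers b : Subgroup G) : Set G) : Subgroup G)) h4
    omega

/-- Let π be a finite set of primes containing 2 and G a finite group. Write k_π(G) for the number of conjugacy classes of G consisting of π-elements (elements all of whose order's prime divisors lie in π) and |G|_π for the π-part of the order of G. If k_π(G) > |G|_π/2, then G has a normal π-complement (a normal subgroup of order prime to π whose index is a π-number) and an abelian Hall subgroup for the set of odd primes in π. -/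
theorem result {G : Type*} [Group G] [Finite G] (π : Finset ℕ) (hπ : ∀ r ∈ π, r.Prime) (h2 : 2 ∈ π)
    (hk : π.prod (fun r => r ^ (Nat.card G).factorization r) < 2 * Nat.card {c : ConjClasses G // ∀ x ∈ c.carrier, ∀ r : ℕ, r.Prime → r ∣ orderOf x → r ∈ π}) :
    (∃ N : Subgroup G, N.Normal ∧ (∀ r : ℕ, r.Prime → r ∣ Nat.card ↥N → r ∉ π) ∧ ∀ r : ℕ, r.Prime → r ∣ N.index → r ∈ π) ∧ ∃ H : Subgroup G, Cfsg.IsPiHall ((↑π : Set ℕ) \ {2}) H ∧ IsMulCommutative ↥H := by
  have hk' : 1 * ∏ r ∈ π, r ^ (Nat.card G).factorization r < 2 * kPi (π : Set ℕ) G := by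
    rw [one_mul]; exact hk
  obtain ⟨P⟩ : Nonempty (Sylow 2 G) := inferInstance
  have h3 := S3895.forward G P (by simpa using lt_kPi_singleton π hπ h2 P hk')
  have hKodd := h3.not_dvd_card_pResidual
  obtain ⟨j, hj⟩ := Tr.exists_index_pResidual (p := 2) (G := G)
  set K := pResidual 2 G with hK
  obtain ⟨N, hN, h1, h4, H, hH, hc⟩ := exists_normal_pi_complement (G := K) (π.erase 2)
    (fun r hr => hπ r (Finset.mem_of_mem_erase hr)) (by
      intro r hr
      obtain ⟨hr2, hr⟩ := Finset.mem_erase.1 hr
      have : Fact r.Prime := ⟨hπ r hr⟩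
      obtain ⟨R⟩ : Nonempty (Sylow r G) := inferInstance
      obtain ⟨h5, h6⟩ := odd_prime hr2 R (by simpa using lt_kPi_singleton π hπ hr R hk')
      have hRK : (R : Subgroup G) ≤ K := by
        apply Tr.le_pResidual_of_not_dvd
        intro hd
        obtain ⟨n, hn⟩ := R.isPGroup'.exists_card_eq
        rw [hn] at hd
        exact hr2 ((Nat.prime_dvd_prime_iff_eq Nat.prime_two (hπ r hr)).1
          (Nat.prime_two.dvd_of_dvd_pow hd)).symm
      refine ⟨Tr.hasNormalPComplement_of_normalizer_le_centralizer (R.subtype hRK) ?_,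
        R.subtype hRK, ⟨⟨fun a b => Subtype.ext (Subtype.ext (h5 b.2 a a.2))⟩⟩⟩
      intro g hg
      rw [Sylow.coe_subtype, centralizer_subgroupOf_of_le hRK, mem_subgroupOf]
      rw [Sylow.coe_subtype, ← subgroupOf_normalizer_eq hRK, mem_subgroupOf] at hg
      apply h6 _ hg
      rw [Subgroup.orderOf_coe]
      exact Nat.odd_iff.2 (Nat.two_dvd_ne_zero.1 fun hd => hKodd (hd.trans (orderOf_dvd_natCard g))))
  have hNodd : ¬ 2 ∣ Nat.card N := fun hd => hKodd (hd.trans N.card_subgroup_dvd_card)
  refine ⟨⟨N.map K.subtype, inferInstance, ?_, ?_⟩, H.map K.subtype, isPiHall_iff.2 ⟨?_, ?_⟩, ?_⟩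
  · intro r hr hd hrπ
    rw [card_map_subtype] at hd
    apply h1 r hr hd
    exact Finset.mem_erase.2 ⟨fun h => hNodd (h ▸ hd), hrπ⟩
  · intro r hr hd
    rw [index_map_subtype, hj] at hd
    rcases (Nat.Prime.dvd_mul hr).1 hd with hd | hd
    · exact Finset.mem_of_mem_erase (h4 r hr hd)
    · rw [(Nat.prime_dvd_prime_iff_eq hr Nat.prime_two).1 (hr.dvd_of_dvd_pow hd)]; exact h2
  · rw [card_map_subtype, ← hH.symm.index_eq_card, ← Finset.coe_erase]; exact h4
  · rw [index_map_subtype, hH.index_eq_card, hj]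
    refine IsPiNum.mul (by rw [← Finset.coe_erase]; exact h1) ?_
    exact isPiNum_prime_pow Nat.prime_two (by simp) j
  · infer_instance

end Cfsg.Agent.S3898
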