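import Mathlib
import Cfsg.Statements.S3899
import Cfsg.Agent.S3897

set_option autoImplicit false
open Cfsg

namespace Cfsg.Agent.S3899

open Subgroup Cfsg.Agent.GT Cfsg.Agent.FG Cfsg.Agent.FG.PC

/-- Let π be a finite non-empty set of odd primes with smallest member p and G a finite group. Write k_π(G) for the number of conjugacy classes of G consisting of π-elements (elements all of whose order's prime divisors lie in π) and |G|_π for the π-part of the order of G. If k_π(G) > (p + 1)|G|_π/(2p), then G has a normal π-complement (a normal subgroup of order prime to π whose index is a π-number) and an abelian Hall π-subgroup. -/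
theorem result {G : Type*} [Group G] [Finite G] (π : Finset ℕ) (hπ : ∀ r ∈ π, r.Prime) (h2 : 2 ∉ π) (p : ℕ) (hp : p ∈ π)
    (hmin : ∀ r ∈ π, p ≤ r) (hk : (p + 1) * π.prod (fun r => r ^ (Nat.card G).factorization r) < 2 * p * Nat.card {c : ConjClasses G // ∀ x ∈ c.carrier, ∀ r : ℕ, r.Prime → r ∣ orderOf x → r ∈ π}) :
    (∃ N : Subgroup G, N.Normal ∧ (∀ r : ℕ, r.Prime → r ∣ Nat.card ↥N → r ∉ π) ∧ ∀ r : ℕ, r.Prime → r ∣ N.index → r ∈ π) ∧ ∃ H : Subgroup G, Cfsg.IsPiHall (↑π : Set ℕ) H ∧ IsMulCommutative ↥H := by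
  have hk' : (p + 1) * ∏ r ∈ π, r ^ (Nat.card G).factorization r < 2 * p * kPi (π : Set ℕ) G := hk
  obtain ⟨N, hN, h1, h3, H, hH, hc⟩ := exists_normal_pi_complement (G := G) π hπ (by
    intro r hr
    have : Fact r.Prime := ⟨hπ r hr⟩
    obtain ⟨R⟩ : Nonempty (Sylow r G) := inferInstance
    have h4 := lt_kPi_singleton π hπ hr R hk'
    have h5 := hmin r hr
    have h6 := (hπ p hp).pos
    have h7 : (r + 1) * Nat.card (R : Subgroup G) < 2 * r * kPi {r} G := by
      apply lt_of_mul_lt_mul_left (a := p) _ (Nat.zero_le _)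
      have h8 := Nat.mul_lt_mul_of_pos_left h4 (lt_of_lt_of_le h6 h5)
      nlinarith [Nat.mul_le_mul_right (Nat.card (R : Subgroup G)) h5]
    exact ⟨(S3897.forward R h7).1, R, (S3897.forward R h7).2⟩)
  refine ⟨⟨N, inferInstance, h1, h3⟩, H, isPiHall_iff.2 ⟨?_, ?_⟩, hc⟩
  · rw [← hH.symm.index_eq_card]; exact h3
  · rw [hH.index_eq_card]; exact h1

end Cfsg.Agent.S3899
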