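import Mathlib
import Cfsg.Statements.S3900
import Cfsg.Agent.GT.TransferFrobenius
import Cfsg.Agent.GT.TransferAbelian
import Cfsg.Agent.GT.Fitting
import Cfsg.Agent.GT.Frattini
import Cfsg.Agent.GT.Conj
import Cfsg.Agent.GT.Hall
import Cfsg.Agent.GT.Zipper
import Cfsg.Agent.GT.PSolvable
import Cfsg.Agent.Blk.ZStar
import Cfsg.Agent.S0205
-- import your own Cfsg.Agent.* helpers here

set_option autoImplicit false
open Cfsg

namespace Cfsg.Agent.S3900

open Subgroup Cfsg.Agent.GT
open scoped commutatorElement Pointwise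

universe u

def Val {G : Type*} [Group G] : ℕ → G → Prop
  | 0, _ => True
  | k + 1, x => ∃ a b : G, Val k a ∧ x = ⁅a, b⁆

section
variable {G : Type*} [Group G] {G' : Type*} [Group G']

theorem val_iff_list (k : ℕ) (x : G) : Val k x ↔ ∃ (a : G) (l : List G), l.length = k ∧
    x = l.foldl (fun a b => a * b * a⁻¹ * b⁻¹) a := by
  induction k generalizing x with
  | zero => exact ⟨fun _ => ⟨x, [], rfl, rfl⟩, fun _ => trivial⟩
  | succ k ih =>
    constructor
    · rintro ⟨a, b, ha, rfl⟩
      obtain ⟨c, l, hl, rfl⟩ := (ih a).1 ha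
      exact ⟨c, l ++ [b], by simp [hl], by simp [commutatorElement_def]⟩
    · rintro ⟨a, l, hl, rfl⟩
      rcases List.eq_nil_or_concat l with rfl | ⟨l', b, rfl⟩
      · simp at hl
      · refine ⟨_, b, (ih _).2 ⟨a, l', by simpa using hl, rfl⟩, by simp [commutatorElement_def]⟩

theorem val_iff (k : ℕ) (x : G) : (∃ f : Fin (k + 1) → G,
    x = ((List.ofFn f).tail).foldl (fun a b => a * b * a⁻¹ * b⁻¹) (f 0)) ↔ Val k x := by
  rw [val_iff_list]
  constructor
  · rintro ⟨f, rfl⟩
    exact ⟨f 0, (List.ofFn f).tail, by simp, rfl⟩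
  · rintro ⟨a, l, rfl, rfl⟩
    exact ⟨Fin.cons a l.get, by simp [List.ofFn_succ]⟩

theorem Val.map {k : ℕ} {x : G} (h : Val k x) (f : G →* G') : Val k (f x) := by
  induction k generalizing x with
  | zero => trivial
  | succ k ih =>
    obtain ⟨a, b, ha, rfl⟩ := h
    exact ⟨f a, f b, ih ha, map_commutatorElement f a b⟩

theorem Val.conj {k : ℕ} {x : G} (h : Val k x) (g : G) : Val k (g * x * g⁻¹) :=
  h.map (MulAut.conj g).toMonoidHom

theorem Val.lift {k : ℕ} {f : G →* G'} (hf : Function.Surjective f) {y : G'} (h : Val k y) :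
    ∃ x, Val k x ∧ f x = y := by
  induction k generalizing y with
  | zero => obtain ⟨x, hx⟩ := hf y; exact ⟨x, trivial, hx⟩
  | succ k ih =>
    obtain ⟨a, b, ha, rfl⟩ := h
    obtain ⟨a, ha', rfl⟩ := ih ha
    obtain ⟨b, rfl⟩ := hf b
    exact ⟨⁅a, b⁆, ⟨a, b, ha', rfl⟩, map_commutatorElement f a b⟩

theorem Val.pred {k : ℕ} {x : G} (h : Val (k + 1) x) : Val k x := by
  induction k generalizing x with
  | zero => trivial
  | succ k ih =>
    obtain ⟨a, b, ha, rfl⟩ := h
    exact ⟨a, b, ih ha, rfl⟩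

theorem Val.mem {k : ℕ} {x : G} (h : Val k x) : x ∈ (⊤ : Subgroup G).lowerCentralSeries k := by
  induction k generalizing x with
  | zero => trivial
  | succ k ih =>
    obtain ⟨a, b, ha, rfl⟩ := h
    exact commutator_mem_commutator (ih ha) (mem_top b)

theorem lcs_eq_bot {k : ℕ} (h : ∀ x : G, Val k x → x = 1) :
    (⊤ : Subgroup G).lowerCentralSeries k = ⊥ := by
  have key : ∀ j, (⊤ : Subgroup G).lowerCentralSeries j ≤ Subgroup.closure {x : G | Val j x} := by
    intro j
    induction j with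
    | zero => exact fun x _ => Subgroup.subset_closure trivial
    | succ j ih =>
      have hn : (closure {x : G | Val (j + 1) x}).Normal :=
        ⟨fun x hx g => by
          have : (closure {x : G | Val (j + 1) x}).map (MulAut.conj g).toMonoidHom ≤
              closure {x : G | Val (j + 1) x} := by
            rw [MonoidHom.map_closure]
            apply Subgroup.closure_mono
            rintro _ ⟨y, hy, rfl⟩
            exact Val.conj hy g
          exact this ⟨x, hx, rfl⟩⟩
      rw [Subgroup.lowerCentralSeries_succ]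
      refine (commutator_mono ih le_rfl).trans ?_
      rw [← QuotientGroup.ker_mk' (closure {x : G | Val (j + 1) x}), ← map_le_centralizer_map_iff,
        map_le_iff_le_comap, Subgroup.closure_le]
      intro x hx
      rw [SetLike.mem_coe, mem_comap, mem_centralizer_iff]
      rintro _ ⟨g, -, rfl⟩
      symm
      rw [← commutatorElement_eq_one_iff_mul_comm, ← map_commutatorElement]
      exact (QuotientGroup.eq_one_iff _).2 (Subgroup.subset_closure ⟨x, g, hx, rfl⟩)
  rw [eq_bot_iff]
  refine (key k).trans ?_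
  rw [Subgroup.closure_le]
  exact fun x hx => h x hx

def it (k : ℕ) (x g : G) : G := (fun a => ⁅a, g⁆)^[k] x

theorem val_it (k : ℕ) (x g : G) : Val k (it k x g) := by
  induction k with
  | zero => trivial
  | succ k ih => exact ⟨it k x g, g, ih, Function.iterate_succ_apply' _ _ _⟩

theorem comm_mem {U : Subgroup G} {x g : G} (hg : g ∈ normalizer (U : Set G)) (hx : x ∈ U) :
    ⁅x, g⁆ ∈ U := by
  have := U.mul_mem hx (conj_mem_of_mem_normalizer hg (U.inv_mem hx))
  simpa [commutatorElement_def, mul_assoc] using this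

theorem it_mem {U : Subgroup G} {g : G} (hg : g ∈ normalizer (U : Set G)) (k : ℕ) {x : G}
    (hx : x ∈ U) : it k x g ∈ U := by
  induction k generalizing x with
  | zero => exact hx
  | succ k ih => exact ih (comm_mem hg hx)

theorem map_it (f : G →* G') (k : ℕ) (x g : G) : f (it k x g) = it k (f x) (f g) := by
  induction k generalizing x with
  | zero => rfl
  | succ k ih =>
    have := ih ⁅x, g⁆
    rw [map_commutatorElement] at this
    exact this

theorem engel {U : Subgroup G} {g : G} (hg : g ∈ normalizer (U : Set G))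
    (hc : (orderOf g).Coprime (Nat.card U)) (k : ℕ) {x : G} (hx : x ∈ U) (h : it k x g = 1) :
    x * g = g * x := by
  induction k generalizing x with
  | zero =>
    have : x = 1 := h
    rw [this]; simp
  | succ k ih =>
    have h1 : Commute ⁅x, g⁆ g := ih (comm_mem hg hx) h
    have h2 : x * g * x⁻¹ = ⁅x, g⁆ * g := by rw [commutatorElement_def]; group
    have h3 : ⁅x, g⁆ ^ orderOf g = 1 := by
      have := h1.mul_pow (orderOf g)
      rw [← h2, conj_pow, pow_orderOf_eq_one, mul_one, mul_one, mul_inv_cancel] at this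
      exact this.symm
    rw [← commutatorElement_eq_one_iff_mul_comm, ← orderOf_eq_one_iff]
    exact Nat.eq_one_of_dvd_coprimes hc (orderOf_dvd_of_pow_eq_one h3)
      (U.orderOf_dvd_natCard (comm_mem hg hx))

theorem mul_pow_mem {U : Subgroup G} {u g : G} (hg : g ∈ normalizer (U : Set G)) (hu : u ∈ U)
    (n : ℕ) : (u * g) ^ n * (g ^ n)⁻¹ ∈ U := by
  induction n with
  | zero => simp
  | succ n ih =>
    have : (u * g) ^ (n + 1) * (g ^ (n + 1))⁻¹ = u * (g * ((u * g) ^ n * (g ^ n)⁻¹) * g⁻¹) := by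
      rw [pow_succ', pow_succ']; group
    rw [this]
    exact U.mul_mem hu (conj_mem_of_mem_normalizer hg ih)

theorem mem_of_pows {K : Subgroup G} {z : G} {a b : ℕ} (h : a.Coprime b)
    (ha : z ^ a ∈ K) (hb : z ^ b ∈ K) : z ∈ K := by
  have := Nat.gcd_eq_gcd_ab a b
  rw [h.gcd_eq_one] at this
  have e : z = (z ^ a) ^ a.gcdA b * (z ^ b) ^ a.gcdB b := by
    rw [← zpow_natCast, ← zpow_natCast, ← zpow_mul, ← zpow_mul, ← zpow_add, ← this]; simp
  rw [e]
  exact K.mul_mem (K.zpow_mem ha _) (K.zpow_mem hb _)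

theorem hall_eq {π : Set ℕ} {H M : Subgroup G} (h : IsPiHallOf π H M)
    (hM : IsPiNum π (Nat.card M)) : H = M :=
  le_antisymm h.le (relIndex_eq_one.1 (IsPiNum.eq_one (hM.of_dvd (relIndex_dvd_card _ _))
    (isPiHallOf_iff.1 h).2.2))

theorem exists_pprime [Finite G] (p : ℕ) [hp : Fact p.Prime] (g : G) :
    ∃ j : ℕ, (orderOf (g ^ p ^ j)).Coprime p := by
  obtain ⟨k, b, hb, h⟩ := Nat.exists_eq_pow_mul_and_not_dvd (orderOf_pos g).ne' p hp.out.ne_one
  refine ⟨k, Nat.Coprime.coprime_dvd_left (orderOf_dvd_of_pow_eq_one (n := b) ?_)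
    ((Nat.Prime.coprime_iff_not_dvd hp.out).2 hb).symm⟩
  rw [← pow_mul, ← h, pow_orderOf_eq_one]

def X (k p : ℕ) (G : Type*) [Group G] : Set G := {x | Val k x ∧ ∃ n : ℕ, x ^ p ^ n = 1}

theorem lemA [Finite G] {k p : ℕ} [hp : Fact p.Prime] (N : Subgroup G) [N.Normal]
    (hN : ∀ x ∈ X k p G, x ∈ N) : HasNormalPComplement p (G ⧸ N) := by
  rw [Tr.frobenius_iff]
  intro U hU _ g hg hgo
  let f := QuotientGroup.mk' N
  have hf : Function.Surjective f := QuotientGroup.mk'_surjective N
  obtain ⟨g, rfl⟩ := hf g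
  have hg' : g ∈ normalizer ((U.comap f : Subgroup G) : Set G) := le_normalizer_comap f hg
  obtain ⟨S, hSU, hS, hSi⟩ := HT.exists_sylow_le p (U.comap f)
  have hSm : S.map f = U := by
    have h1 : IsPiHallOf {p} S (U.comap f) := isPiHallOf_iff.2 ⟨hSU,
      (isPGroup_iff_isPiNum hp.out).1 hS, (isPiNum_compl_singleton_iff_not_dvd hp.out).2 hSi⟩
    have h2 := h1.map f
    rw [map_comap_eq_self_of_surjective hf] at h2
    exact hall_eq h2 ((isPGroup_iff_isPiNum hp.out).1 hU)
  obtain ⟨u, hu, hle⟩ := HT.exists_conj_le_of_isPGroup (L := U.comap f) (P := MulAut.conj g • S)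
    (HT.conj_smul_le_of_mem_normalizer hSU hg') (hS.map _) hS hSi
  rw [HT.conj_smul_conj_smul] at hle
  have hn : u * g ∈ normalizer (S : Set G) := mem_normalizer_of_map_conj_le hle
  obtain ⟨j, hj⟩ := exists_pprime p (u * g)
  obtain ⟨m, hm⟩ := hU.exists_card_eq
  have hn' : f ((u * g) ^ p ^ j) ∈ normalizer (U : Set (G ⧸ N)) := by
    rw [← hSm]; exact map_le_normalizer_map le_rfl f ⟨_, pow_mem hn _, rfl⟩
  have hc : f ((u * g) ^ p ^ j) ∈ centralizer (U : Set (G ⧸ N)) := by
    rw [mem_centralizer_iff]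
    intro y hy
    refine engel hn' ?_ k hy ?_
    · rw [hm]
      exact (hj.coprime_dvd_left (orderOf_map_dvd f _)).pow_right m
    · rw [SetLike.mem_coe, ← hSm] at hy
      obtain ⟨x, hx, rfl⟩ := hy
      rw [← map_it]
      refine (QuotientGroup.eq_one_iff _).2 (hN _ ⟨val_it _ _ _, ?_⟩)
      obtain ⟨n, hn⟩ := hS ⟨_, it_mem (pow_mem hn _) k hx⟩
      exact ⟨n, congrArg Subtype.val hn⟩
  have h1 := mul_pow_mem hg hu (p ^ j)
  rw [← map_mul, ← map_pow] at h1
  set w := f ((u * g) ^ p ^ j) with hw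
  have h2 : Commute (w * (f g ^ p ^ j)⁻¹)⁻¹ w := hc _ (U.inv_mem h1)
  have h3 : (f g ^ p ^ j) ^ p ^ m ∈ centralizer (U : Set (G ⧸ N)) := by
    have e : f g ^ p ^ j = (w * (f g ^ p ^ j)⁻¹)⁻¹ * w := by group
    rw [e, h2.mul_pow, ← hm]
    have : (w * (f g ^ p ^ j)⁻¹)⁻¹ ^ Nat.card U = 1 :=
      orderOf_dvd_iff_pow_eq_one.1 (U.orderOf_dvd_natCard (U.inv_mem h1))
    rw [this, one_mul]
    exact pow_mem hc _
  rw [← pow_mul, ← pow_add] at h3
  exact mem_of_pows (hgo.pow_right (j + m)) (by rw [pow_orderOf_eq_one]; exact one_mem _) h3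

theorem lemB [Finite G] {k : ℕ} (N : Subgroup G) [N.Normal]
    (hN : ∀ p : ℕ, p.Prime → ∀ x ∈ X k p G, x ∈ N) :
    (⊤ : Subgroup G).lowerCentralSeries k ≤ N := by
  let f := QuotientGroup.mk' N
  have hf : Function.Surjective f := QuotientGroup.mk'_surjective N
  have hnil : Group.IsNilpotent (G ⧸ N) := Tr.isNilpotent_of_forall_hasNormalPComplement
    fun q hq _ => by
      have : Fact q.Prime := ⟨hq⟩
      exact lemA N (hN q hq)
  have h1 : (⊤ : Subgroup (G ⧸ N)).lowerCentralSeries k = ⊥ := by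
    apply lcs_eq_bot
    intro x hx
    let e := Sylow.directProductOfNormal (G := G ⧸ N)
      (fun {p} hp P => isNilpotent_iff_sylow_normal.1 hnil p hp P)
    obtain ⟨y, hy, rfl⟩ := Val.lift (f := e.toMonoidHom) e.surjective hx
    have : y = 1 := by
      ext ⟨p, hp⟩ P
      have hpp := Nat.prime_of_mem_primeFactors hp
      have : Fact p.Prime := ⟨hpp⟩
      obtain ⟨Q, rfl⟩ := Sylow.mapSurjective_surjective hf p P
      have h2 := (hy.map (Pi.evalMonoidHom _ ⟨p, hp⟩)).map (Pi.evalMonoidHom _ (Q.mapSurjective hf))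
      obtain ⟨z, hz, hz'⟩ := Val.lift (f := f.subgroupMap Q) (f.subgroupMap_surjective Q) h2
      obtain ⟨n, hn⟩ := Q.isPGroup' z
      have h3 := hN p hpp z ⟨hz.map (Q : Subgroup G).subtype, n, congrArg Subtype.val hn⟩
      have h4 : f z = 1 := (QuotientGroup.eq_one_iff _).2 h3
      exact (congrArg Subtype.val hz').symm.trans h4
    rw [this, map_one]
  rw [← map_mk'_eq_bot_iff, map_lowerCentralSeries, map_top_of_surjective _ hf, h1]

end

def Cond (k : ℕ) (G : Type*) [Group G] : Prop :=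
  ∀ x : G, Val k x → ∀ Y : Subgroup G, (orderOf x).Coprime (Nat.card Y) →
    x ∈ normalizer (Y : Set G) → x ∈ centralizer (Y : Set G)

theorem Cond.subgroup {G : Type*} [Group G] {k : ℕ} (h : Cond k G) (H : Subgroup G) : Cond k H := by
  intro x hx Y hc hn
  have := h x (hx.map H.subtype) (Y.map H.subtype) (by rwa [card_map_subtype, orderOf_coe])
    (map_le_normalizer_map le_rfl H.subtype ⟨x, hn, rfl⟩)
  rw [mem_centralizer_iff]
  exact fun y hy => Subtype.ext (this _ ⟨y, hy, rfl⟩)

theorem Cond.cent {G : Type*} [Group G] {k p : ℕ} (h : Cond k G) {x : G} (hx : x ∈ X k p G)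
    {Y : Subgroup G} (hY : (Nat.card Y).Coprime p) (hn : x ∈ normalizer (Y : Set G)) :
    x ∈ centralizer (Y : Set G) := by
  obtain ⟨h1, n, hn'⟩ := hx
  exact h x h1 Y ((hY.symm.pow_left n).coprime_dvd_left (orderOf_dvd_of_pow_eq_one hn')) hn

theorem solv_case {G : Type*} [Group G] [Finite G] [Group.IsSolvable G] {k p : ℕ} (hp : p.Prime)
    (h : Cond k G) {x : G} (hx : x ∈ X k p G) : x ∈ pCore p G := by
  have : Fact p.Prime := ⟨hp⟩
  let f := QuotientGroup.mk' (pCore p G)
  have hf : Function.Surjective f := QuotientGroup.mk'_surjective _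
  set F := pPrimeCore p (G ⧸ pCore p G) with hF
  have hFc : centralizer (F : Set (G ⧸ pCore p G)) ≤ F :=
    (isPSolvable_of_isSolvable inferInstance).centralizer_pPrimeCore_le pCore_quotient_pCore
  obtain ⟨H, hH⟩ := exists_isPiHallOf {p}ᶜ (M := F.comap f) inferInstance
  have hHm : H.map f = F := by
    have h2 := hH.map f
    rw [map_comap_eq_self_of_surjective hf] at h2
    exact hall_eq h2 ((isPiNum_compl_singleton_iff hp).2 (coprime_card_pPrimeCore p))
  have hsup := hH.sup_normalizer inferInstance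
  have hNm : (normalizer (H : Set G)).map f = ⊤ := by
    rw [← map_top_of_surjective f hf, ← hsup, Subgroup.map_sup, map_comap_eq_self_of_surjective hf,
      ← hHm, sup_eq_right.2 (map_mono le_normalizer)]
  have hs : Function.Surjective (f.comp (normalizer (H : Set G)).subtype) := by
    intro y
    obtain ⟨z, hz, rfl⟩ : y ∈ (normalizer (H : Set G)).map f := hNm ▸ mem_top y
    exact ⟨⟨z, hz⟩, rfl⟩
  obtain ⟨z, hz, hz'⟩ := (hx.1.map f).lift hs
  obtain ⟨n, hn⟩ := hx.2
  have hz'' : f z = f x := hz'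
  have h1 : (z : G) ^ p ^ n ∈ pCore p G := by
    rw [← QuotientGroup.ker_mk' (pCore p G)]
    change f _ = 1
    rw [map_pow, hz'', ← map_pow, hn, map_one]
  obtain ⟨m, hm⟩ := isPGroup_pCore (p := p) ⟨_, h1⟩
  have h2 : (z : G) ∈ X k p G := ⟨hz.map (normalizer (H : Set G)).subtype, n + m, by
    rw [pow_add, pow_mul]; exact congrArg Subtype.val hm⟩
  have h3 := h.cent h2 ((isPiNum_compl_singleton_iff hp).1 (isPiHallOf_iff.1 hH).2.1) z.2
  have h4 : f x ∈ F := by
    apply hFc
    rw [← hHm, ← hz'']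
    exact map_le_centralizer_map le_rfl f ⟨_, h3, rfl⟩
  rw [← QuotientGroup.ker_mk' (pCore p G)]
  change f _ = 1
  rw [← orderOf_eq_one_iff]
  refine Nat.eq_one_of_dvd_coprimes ((coprime_card_pPrimeCore p).pow_right n)
    (F.orderOf_dvd_natCard h4) (orderOf_dvd_of_pow_eq_one ?_)
  rw [← map_pow, hn, map_one]

theorem exists_simple_quotient (G : Type*) [Group G] [Finite G] [Nontrivial G] :
    ∃ (L : Subgroup G) (_ : L.Normal), L ≠ ⊤ ∧ IsSimpleGroup (G ⧸ L) := by
  obtain ⟨L, -, ⟨h2, h3⟩, h4⟩ := exists_maximal_ge (P := fun L : Subgroup G => L.Normal ∧ L ≠ ⊤)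
    (H := ⊥) ⟨inferInstance, bot_ne_top⟩
  refine ⟨L, h2, h3, ?_⟩
  have : Nontrivial (G ⧸ L) := QuotientGroup.nontrivial_iff.2 h3
  have h : ∀ N : Subgroup G, N.Normal → L ≤ N → N = L ∨ N = ⊤ := fun N hN hle =>
    or_iff_not_imp_right.2 fun h5 => h4 N ⟨hN, h5⟩ hle
  refine ⟨fun N hN => (h _ (hN.comap (QuotientGroup.mk' L)) (QuotientGroup.le_comap_mk' L N)).imp
    (fun e => ?_) fun e => ?_⟩
  · rw [← map_comap_eq_self_of_surjective (QuotientGroup.mk'_surjective L) N, e,
      QuotientGroup.map_mk'_self]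
  · rw [← map_comap_eq_self_of_surjective (QuotientGroup.mk'_surjective L) N, e,
      map_top_of_surjective _ (QuotientGroup.mk'_surjective L)]

theorem solv_of_normal {G : Type*} [Group G] (N : Subgroup G) [N.Normal] (h1 : Group.IsSolvable N)
    (h2 : Group.IsSolvable (G ⧸ N)) : Group.IsSolvable G :=
  solvable_of_ker_le_range N.subtype (QuotientGroup.mk' N) (by simp)

theorem two_elt {G : Type*} [Group G] {a b : G} {m n : ℕ} (ha : a ^ 2 ^ m = 1) (hb : b ^ 2 ^ n = 1)
    (ha2 : a * a ∈ center G) (hb2 : b * b ∈ center G) (hc : a * b * a⁻¹ * b⁻¹ ∈ center G) :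
    ∃ j : ℕ, (a * b) ^ 2 ^ j = 1 := by
  set z := a * b * a⁻¹ * b⁻¹ with hz
  have c1 := fun g => mem_center_iff.1 ha2 g
  have c2 := fun g => mem_center_iff.1 hb2 g
  have c3 := fun g => mem_center_iff.1 hc g
  have e1 : a * b = z * (b * a) := by rw [hz]; group
  have e2 : z * z = 1 := by
    have : a * a * b = z * z * (b * (a * a)) := by
      calc a * a * b = a * (a * b) := by group
        _ = (a * z) * (b * a) := by rw [e1]; group
        _ = z * (a * b) * a := by rw [c3]; group
        _ = _ := by rw [e1]; group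
    rw [c1 b] at this
    exact (mul_eq_right.1 this.symm)
  have e3 : (a * b) ^ 2 = z * ((a * a) * (b * b)) := by
    have : b * a = z * (a * b) := by rw [e1, ← mul_assoc, e2, one_mul]
    calc (a * b) ^ 2 = a * (b * a) * b := by rw [sq]; group
      _ = (a * z) * (a * b) * b := by rw [this]; group
      _ = _ := by rw [c3]; group
  refine ⟨1 + (1 + m + n), ?_⟩
  have k1 : Commute z (a * a * (b * b)) := (c3 _).symm
  have k2 : Commute (a * a) (b * b) := (c1 _).symm
  rw [pow_add, pow_mul, pow_one, e3, k1.mul_pow, k2.mul_pow, ← sq, ← sq, ← pow_mul, ← pow_mul]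
  have f1 : z ^ 2 ^ (1 + m + n) = 1 := by
    rw [add_assoc, pow_add, pow_mul, pow_one, sq, e2, one_pow]
  have f2 : a ^ (2 * 2 ^ (1 + m + n)) = 1 := by
    rw [show 2 * 2 ^ (1 + m + n) = 2 ^ m * (2 * 2 ^ (1 + n)) by ring, pow_mul, ha, one_pow]
  have f3 : b ^ (2 * 2 ^ (1 + m + n)) = 1 := by
    rw [show 2 * 2 ^ (1 + m + n) = 2 ^ n * (2 * 2 ^ (1 + m)) by ring, pow_mul, hb, one_pow]
  rw [f1, f2, f3]; simp

theorem solvable_of_cond (k : ℕ) (G : Type u) [Group G] [Finite G] :
    Cond k G → Group.IsSolvable G := by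
  refine card_induction (P := fun G _ _ => Cond k G → Group.IsSolvable G) ?_ G
  intro G _ _ ih h
  by_contra hns
  have hsub : ∀ H : Subgroup G, H ≠ ⊤ → Group.IsSolvable H := fun H hH =>
    ih H (card_lt_of_ne_top hH) (h.subgroup H)
  have : Nontrivial G := by
    by_contra h1
    rw [not_nontrivial_iff_subsingleton] at h1
    exact hns inferInstance
  obtain ⟨R, hRn, hR, hs⟩ := exists_simple_quotient G
  let f := QuotientGroup.mk' R
  have hf : Function.Surjective f := QuotientGroup.mk'_surjective _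
  have hfe : ∀ x, f x = 1 ↔ x ∈ R := QuotientGroup.eq_one_iff
  have hns' : ¬ Group.IsSolvable (G ⧸ R) := fun h1 => hns (solv_of_normal R (hsub R hR) h1)
  have hRF : R ≤ frattini G := by
    rw [le_frattini_iff]
    intro M hM
    by_contra h1
    apply hns'
    have h2 : M.map f = ⊤ := map_mk'_eq_top_iff.2 (sup_eq_top_of_isCoatom hM h1)
    have := HT.isSolvable_map f (hsub M hM.1)
    rw [h2] at this
    exact solvable_of_surjective (f := (⊤ : Subgroup (G ⧸ R)).subtype) fun x => ⟨⟨x, trivial⟩, rfl⟩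
  have hnp : ∀ q : ℕ, q.Prime → ¬ IsPGroup q (G ⧸ R) := by
    intro q hq h1
    have : Fact q.Prime := ⟨hq⟩
    have := h1.isNilpotent
    exact hns' inferInstance
  have hRZ : R ≤ center G := by
    refine hRF.trans (frattini_le_fitting.trans (fitting_le_iff.2 fun q hq => ?_))
    obtain ⟨p, hp, hpd, hpq⟩ : ∃ p : ℕ, p.Prime ∧ p ∣ Nat.card (G ⧸ R) ∧ p ≠ q := by
      by_contra h1
      push Not at h1
      exact hnp q hq ((isPGroup_iff_isPiNum hq).2 h1)
    have : Fact p.Prime := ⟨hp⟩
    have : Fact q.Prime := ⟨hq⟩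
    have h1 : ¬ centralizer (pCore q G : Set G) ≤ R := by
      intro h1
      have h2 := lemA (k := k) (p := p) R fun x hx => h1 (h.cent hx (by
        obtain ⟨n, hn⟩ := (isPGroup_pCore (p := q) (G := G)).exists_card_eq
        rw [hn]
        exact ((Nat.coprime_primes hq hp).2 hpq.symm).pow_left n) (by
          rw [normalizer_eq_top]; trivial))
      exact hnp p hp (IsPGroup.of_card (n := 1) (by rw [h2.card_eq_of_isSimpleGroup hpd, pow_one]))
    have h2 : centralizer (pCore q G : Set G) = ⊤ := by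
      apply eq_top_of_sup_of_le_frattini hRF
      rcases (normal_map_mk' (N := R) (centralizer (pCore q G : Set G))).eq_bot_or_eq_top with h3 | h3
      · exact absurd (map_mk'_eq_bot_iff.1 h3) h1
      · exact map_mk'_eq_top_iff.1 h3
    exact centralizer_eq_top_iff_subset.1 h2
  have hO : oddCore (G ⧸ R) = ⊥ := by
    rcases (inferInstance : (oddCore (G ⧸ R)).Normal).eq_bot_or_eq_top with h1 | h1
    · exact h1
    · have := odd_card_oddCore (G := G ⧸ R)
      rw [h1, card_top] at this
      exact absurd (S0205.result this) hns'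
  have hZ : center (G ⧸ R) = ⊥ := by
    rcases (inferInstance : (center (G ⧸ R)).Normal).eq_bot_or_eq_top with h1 | h1
    · exact h1
    · exact absurd (isSolvable_of_comm fun a b =>
        mem_center_iff.1 (h1 ▸ mem_top b : b ∈ center (G ⧸ R)) a) hns'
  have hchain : ∀ j : ℕ, ∃ t ∈ X j 2 G, orderOf (f t) = 2 := by
    intro j
    induction j with
    | zero =>
      have h2 : 2 ∣ Nat.card (G ⧸ R) := by
        by_contra h2
        exact hns' (S0205.result (Nat.odd_iff.2 (by omega)))
      obtain ⟨y, hy⟩ := exists_prime_orderOf_dvd_card' 2 h2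
      obtain ⟨x, rfl⟩ := hf y
      obtain ⟨n, b, hb, h3⟩ := Nat.exists_eq_pow_mul_and_not_dvd (orderOf_pos x).ne' 2 (by norm_num)
      refine ⟨x ^ b, ⟨trivial, n, by rw [← pow_mul, mul_comm, ← h3, pow_orderOf_eq_one]⟩, ?_⟩
      rw [map_pow, (Nat.Coprime.orderOf_pow ?_), hy]
      rw [hy]
      exact (Nat.Prime.coprime_iff_not_dvd Nat.prime_two).2 hb
    | succ j ih =>
      obtain ⟨t, ⟨ht, n, hn⟩, hto⟩ := ih
      have hni : ¬ IsIsolatedInvolution (f t) := by
        intro h1
        have := h1.mem_center hO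
        rw [hZ] at this
        exact h1.ne_one this
      obtain ⟨g, hg1, hg2⟩ : ∃ g, Commute (f t) (g * f t * g⁻¹) ∧ g * f t * g⁻¹ ≠ f t := by
        by_contra h1
        push Not at h1
        exact hni ⟨hto, h1⟩
      obtain ⟨g, rfl⟩ := hf g
      have ht2 : f t * f t = 1 := by rw [← sq, ← hto, pow_orderOf_eq_one]
      have hti : (f t)⁻¹ = f t := inv_eq_of_mul_eq_one_right ht2
      have e : ⁅t, g⁆ = t * (g * t⁻¹ * g⁻¹) := by rw [commutatorElement_def]; group
      have hs2 : (f g * f t * (f g)⁻¹) * (f g * f t * (f g)⁻¹) = 1 := by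
        calc _ = f g * (f t * f t) * (f g)⁻¹ := by group
          _ = 1 := by rw [ht2]; group
      have hfs : f (g * t⁻¹ * g⁻¹) = f g * f t * (f g)⁻¹ := by
        rw [map_mul, map_mul, map_inv, map_inv, hti]
      refine ⟨⁅t, g⁆, ⟨⟨t, g, ht, rfl⟩, ?_⟩, ?_⟩
      · rw [e]
        refine two_elt (m := n) (n := n) hn (by rw [conj_pow, inv_pow, hn]; group)
          (hRZ ((hfe _).1 ?_)) (hRZ ((hfe _).1 ?_)) (hRZ ((hfe _).1 ?_))
        · rw [map_mul, ht2]
        · rw [map_mul, hfs, hs2]
        · rw [map_mul, map_mul, map_mul, map_inv, map_inv, hfs, hg1.eq]; group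
      · rw [e, map_mul, hfs]
        refine orderOf_eq_prime ?_ ?_
        · rw [hg1.mul_pow, sq, sq, ht2, hs2, one_mul]
        · intro h1
          apply hg2
          rw [← eq_inv_iff_mul_eq_one, inv_eq_of_mul_eq_one_right hs2] at h1
          exact h1.symm
  obtain ⟨t, ht, hto⟩ := hchain k
  have ht2 : f t * f t = 1 := by rw [← sq, ← hto, pow_orderOf_eq_one]
  obtain ⟨y, hy1, hyo, hty⟩ := exists_odd_inverted_of_not_mem_pCore ht2 (by
    intro h1
    rcases (inferInstance : (pCore 2 (G ⧸ R)).Normal).eq_bot_or_eq_top with h2 | h2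
    · rw [h2, mem_bot] at h1
      rw [h1, orderOf_one] at hto
      omega
    · have := isPGroup_pCore (p := 2) (G := G ⧸ R)
      rw [h2] at this
      exact hnp 2 Nat.prime_two (this.of_surjective (⊤ : Subgroup (G ⧸ R)).subtype
        fun x => ⟨⟨x, trivial⟩, rfl⟩))
  obtain ⟨y, rfl⟩ := hf y
  obtain ⟨j, hj⟩ := exists_pprime 2 y
  set w := y ^ 2 ^ j with hw
  have htw : f t * f w * (f t)⁻¹ = (f w)⁻¹ := by
    rw [hw, map_pow, ← conj_pow, hty, inv_pow]
  have hc : Commute w (t * w * t⁻¹) := by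
    have h1 : t * w * t⁻¹ * w ∈ center G := hRZ ((hfe _).1 (by
      rw [map_mul, map_mul, map_mul, map_inv, htw, inv_mul_cancel]))
    have h2 := mem_center_iff.1 h1 w
    rw [← mul_assoc] at h2
    exact mul_right_cancel h2
  have hN : zpowers (t * w * t⁻¹) ≤ normalizer (zpowers w : Set G) := by
    apply le_normalizer_of_le_centralizer
    rw [zpowers_le, centralizer_zpowers, mem_centralizer_singleton_iff]
    exact hc.symm
  have h3 := h.cent ht (Y := zpowers w ⊔ zpowers (t * w * t⁻¹))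
    (Nat.Coprime.coprime_dvd_left (HT.card_sup_dvd hN) (by
      rw [Nat.card_zpowers, Nat.card_zpowers, orderOf_conj]
      exact Nat.Coprime.mul_left hj hj)) (by
      apply mem_normalizer_of_map_conj_le
      rw [map_conj_sup, map_conj_zpowers, map_conj_zpowers]
      refine sup_le le_sup_right (le_sup_of_le_left (le_of_eq ?_))
      have h1 : t * t ∈ center G := hRZ ((hfe _).1 (by rw [map_mul, ht2]))
      congr 1
      calc t * (t * w * t⁻¹) * t⁻¹ = (t * t) * w * (t * t)⁻¹ := by group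
        _ = w := by rw [← mem_center_iff.1 h1 w]; group)
  have h4 := congrArg f (h3 w (mem_sup_left (mem_zpowers w)))
  rw [map_mul, map_mul] at h4
  rw [← h4, mul_inv_cancel_right] at htw
  have h5 : f y ^ (2 ^ j * 2) = 1 := by
    rw [pow_mul, ← map_pow, ← hw, sq]
    nth_rewrite 1 [htw]
    exact inv_mul_cancel _
  rw [← pow_succ] at h5
  exact hy1 (orderOf_eq_one_iff.1 (Nat.eq_one_of_dvd_coprimes
    (hyo.coprime_two_right.pow_right (j + 1)) dvd_rfl (orderOf_dvd_of_pow_eq_one h5)))

/-- A criterion of Baumslag–Wiegold type for a term of the lower central series. Let G be a finite group and k ≥ 0; call an element a left-normed commutator value of length k + 1 when it has the form [[…[x₀, x₁], …], x_k] with k + 1 entries (for k = 0, any element), where [a, b] = aba⁻¹b⁻¹. Then the (k+1)-st term γ_{k+1}(G) of the lower central series (γ₁(G) = G) is nilpotent if and only if for every two such values x, y of coprime orders, either every prime dividing o(x)·o(y) divides o(xy),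 or o(x)·o(y) ≤ o(xy). -/
theorem result {G : Type*} [Group G] [Finite G] (k : ℕ) :
    Group.IsNilpotent ↥((⊤ : Subgroup G).lowerCentralSeries k) ↔
      ∀ x y : G, (∃ f : Fin (k + 1) → G, x = ((List.ofFn f).tail).foldl (fun a b => a * b * a⁻¹ * b⁻¹) (f 0)) → (∃ f : Fin (k + 1) → G, y = ((List.ofFn f).tail).foldl (fun a b => a * b * a⁻¹ * b⁻¹) (f 0)) → (orderOf x).Coprime (orderOf y) →
        (∀ r : ℕ, r.Prime → r ∣ orderOf x * orderOf y → r ∣ orderOf (x * y)) ∨ orderOf x * orderOf y ≤ orderOf (x * y) := by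
  simp only [val_iff]
  constructor
  · intro h x y hx hy hc
    right
    rw [(commute_of_coprime_of_isNilpotent hx.mem hy.mem hc).orderOf_mul_eq_mul_orderOf_of_coprime hc]
  · intro h
    have hC : Cond k G := by
      intro x hx Y hc hn
      rw [mem_centralizer_iff]
      intro y hy
      have h1 : ⁅x, y⁆ ∈ Y := by
        rw [commutatorElement_def]
        exact Y.mul_mem (conj_mem_of_mem_normalizer hn hy) (Y.inv_mem hy)
      have h2 : (orderOf ⁅x, y⁆).Coprime (orderOf x) :=
        hc.symm.coprime_dvd_left (Y.orderOf_dvd_natCard h1)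
      have h3 := h ⁅x, y⁆ (y * x * y⁻¹) (Val.pred ⟨x, y, hx, rfl⟩) (hx.conj y)
        (by rwa [orderOf_conj])
      have e : ⁅x, y⁆ * (y * x * y⁻¹) = x := by rw [commutatorElement_def]; group
      rw [e, orderOf_conj] at h3
      have h4 : orderOf ⁅x, y⁆ = 1 := by
        rcases h3 with h3 | h3
        · by_contra h5
          obtain ⟨r, hr, hrd⟩ := Nat.exists_prime_and_dvd h5
          exact hr.one_lt.ne' (Nat.eq_one_of_dvd_coprimes h2 hrd (h3 r hr (hrd.mul_right _)))
        · have a1 := orderOf_pos x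
          have a2 := orderOf_pos ⁅x, y⁆
          nlinarith
      rw [orderOf_eq_one_iff, commutatorElement_eq_one_iff_mul_comm] at h4
      exact h4.symm
    have := solvable_of_cond k G hC
    exact le_fitting_iff.1 (lemB (fittingSubgroup G) fun p hp x hx =>
      pCore_le_fitting hp (solv_case hp hC hx))

end Cfsg.Agent.S3900
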