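import Mathlib
-- Template for statement S3901 (row 3901; see /opt/grader/pristine/manifest.json for weights).
-- Copy to Cfsg/Agent/S3901.lean and replace the sorry. The statement below is byte-identical to the frozen
-- statement Cfsg.CfsgFrozen.S3901 (Cfsg/Statements/S3901.lean; the theorem Cfsg.fg3_prime_power_orders_outside_nonsolvable_normal_subgroup);
-- the grader kernel-checks Cfsg.Agent.S3901.result against that frozen type. Keep the theorem IN THIS FILE
-- (a `result` declared elsewhere and merely imported here is not credited); helpers may live anywhere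
-- under Cfsg/Agent/.
import Cfsg.Statements.S3901
import Cfsg.Agent.S0204
import Cfsg.Agent.Perm.PrimeGraph
import Cfsg.Agent.GT.FrobeniusAction
import Cfsg.Agent.GT.Fitting
import Cfsg.Agent.GT.Cores
import Cfsg.Agent.GT.MinNormal
import Cfsg.Agent.Ch.Burnside

set_option autoImplicit false
set_option linter.style.haveILetI false
set_option linter.unusedVariables false
open Cfsg

namespace Cfsg.Agent.S3901

open Subgroup

theorem inverts {G : Type*} [Group G] [Finite G] {W : Subgroup G} {a : G}
    (ha : a ∈ normalizer (W : Set G)) (ha2 : ∀ w ∈ W, Commute (a ^ 2) w)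
    (fa : ∀ w ∈ W, Commute a w → w = 1) : ∀ w ∈ W, a * w * a⁻¹ = w⁻¹ := by
  let φ : MulAut W := W.normalizerMonoidHom ⟨a, ha⟩
  have hφ : ∀ w : W, ((φ w : W) : G) = a * w * a⁻¹ := fun w => rfl
  have h1 : MonoidHom.FixedPointFree φ := by
    intro w hw
    have e := hφ w
    rw [hw] at e
    refine Subtype.ext (fa w w.2 ?_)
    show a * w = w * a
    calc a * w = a * w * a⁻¹ * a := by group
      _ = w * a := by rw [← e]
  have h2 : Function.Involutive φ := by
    intro w
    apply Subtype.ext
    rw [hφ, hφ]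
    have := (ha2 w w.2).eq
    calc a * (a * w * a⁻¹) * a⁻¹ = a ^ 2 * w * (a ^ 2)⁻¹ := by rw [pow_two]; group
      _ = w := by rw [this]; group
  intro w hw
  have := congrFun (h1.coe_eq_inv_of_involutive h2) ⟨w, hw⟩
  rw [← hφ ⟨w, hw⟩, this]
  rfl

theorem eq_bot_of_three {G : Type*} [Group G] [Finite G] {W : Subgroup G} {a b : G}
    (ha : a ∈ normalizer (W : Set G)) (hb : b ∈ normalizer (W : Set G))
    (ha2 : ∀ w ∈ W, Commute (a ^ 2) w) (hb2 : ∀ w ∈ W, Commute (b ^ 2) w)
    (fa : ∀ w ∈ W, Commute a w → w = 1) (fb : ∀ w ∈ W, Commute b w → w = 1)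
    (fab : ∀ w ∈ W, Commute (a * b) w → w = 1) : W = ⊥ := by
  rw [eq_bot_iff_forall]
  intro w hw
  refine fab w hw ?_
  have e1 := inverts hb hb2 fb w hw
  have e2 := inverts ha ha2 fa w⁻¹ (W.inv_mem hw)
  show a * b * w = w * (a * b)
  calc a * b * w = a * (b * w * b⁻¹) * a⁻¹ * (a * b) := by group
    _ = w * (a * b) := by rw [e1, e2, inv_inv]

theorem le_frattini {H X : Type*} [Group H] [Group X] [Finite H] (φ : H →* X)
    (h1 : ¬ Group.IsSolvable ((⊤ : Subgroup H).map φ))
    (h2 : ∀ L : Subgroup H, L ≠ ⊤ → Group.IsSolvable (L.map φ)) (K : Subgroup H) [K.Normal]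
    (hK : K ≠ ⊤) : K ≤ frattini H := by
  refine le_iInf₂ fun L hL => ?_
  by_contra hc
  have hL : IsCoatom L := hL
  have e : L ⊔ K = ⊤ := hL.2 _ (left_lt_sup.2 hc)
  apply h1
  rw [← e, Subgroup.map_sup]
  have := h2 L hL.1
  have := h2 K hK
  refine GT.isSolvable_sup_of_le_normalizer ?_
  exact (map_mono (le_normalizer_of_normal (H := K) (K := L))).trans (le_normalizer_map φ)

theorem key {G : Type*} [Group G] [Finite G] {N : Subgroup G}
    (h : ∀ x : G, x ∉ N → IsPrimePow (orderOf x)) {x y : G} (hxy : x * y ∉ N) (hc : Commute x y)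
    (hcop : (orderOf x).Coprime (orderOf y)) (hx : x ≠ 1) : y = 1 := by
  have h1 := h _ hxy
  rw [hc.orderOf_mul_eq_mul_orderOf_of_coprime hcop] at h1
  have hx0 := orderOf_pos x
  have hy0 := orderOf_pos y
  rcases (hcop.isPrimePow_dvd_mul h1).1 dvd_rfl with h2 | h2
  · have := Nat.le_of_dvd hx0 h2
    rw [← orderOf_eq_one_iff]
    nlinarith
  · have := Nat.le_of_dvd hy0 h2
    exact absurd (orderOf_eq_one_iff.1 (by nlinarith)) hx

theorem exists_pair {H : Type*} [Group H] [Finite H] (K : Subgroup H) [K.Normal]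
    [IsSimpleGroup (H ⧸ K)] (hc : ¬ IsCyclic (H ⧸ K)) :
    ∃ S : Sylow 2 H, ∃ a ∈ (S : Subgroup H), ∃ b ∈ (S : Subgroup H), a ∉ K ∧ b ∉ K ∧ a * b ∉ K ∧
      a ^ 2 ∈ K ∧ b ^ 2 ∈ K := by
  obtain ⟨E, hE⟩ := S0204.result hc
  have hp : IsPGroup 2 E := IsPGroup.of_card (n := 2) (by rw [hE.card_four]; norm_num)
  obtain ⟨P, hP⟩ := hp.exists_le_sylow
  obtain ⟨S, rfl⟩ := Sylow.mapSurjective_surjective (QuotientGroup.mk'_surjective K) 2 P
  have h2 : ∀ x : E, x ^ 2 = 1 := fun x => by
    rw [← hE.exponent_two]; exact Monoid.pow_exponent_eq_one x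
  classical
  have : Fintype E := Fintype.ofFinite _
  obtain ⟨u, v, hu, hv, huv⟩ : ∃ u v : E, u ≠ 1 ∧ v ≠ 1 ∧ u ≠ v := by
    have h3 : 2 < Fintype.card E := by rw [← Nat.card_eq_fintype_card, hE.card_four]; norm_num
    obtain ⟨x, y, z, hxy, hxz, hyz⟩ := Fintype.two_lt_card_iff.1 h3
    by_cases hx : x = 1
    · subst hx; exact ⟨y, z, hxy.symm, hxz.symm, hyz⟩
    by_cases hy : y = 1
    · subst hy; exact ⟨x, z, hx, hyz.symm, hxz⟩
    exact ⟨x, y, hx, hy, hxy⟩
  obtain ⟨a, ha, ea⟩ := hP u.2
  obtain ⟨b, hb, eb⟩ := hP v.2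
  have hk : ∀ x : H, x ∈ K ↔ QuotientGroup.mk' K x = 1 := fun x =>
    (QuotientGroup.eq_one_iff x).symm
  refine ⟨S, a, ha, b, hb, ?_, ?_, ?_, ?_, ?_⟩
  · rw [hk, ea]; exact fun e => hu (Subtype.ext e)
  · rw [hk, eb]; exact fun e => hv (Subtype.ext e)
  · rw [hk, map_mul, ea, eb]
    intro e
    apply huv
    have e' : u * v = 1 := Subtype.ext e
    have := h2 v
    rw [pow_two] at this
    exact mul_right_cancel (e'.trans this.symm)
  · rw [hk, map_pow, ea]; exact congrArg Subtype.val (h2 u)
  · rw [hk, map_pow, eb]; exact congrArg Subtype.val (h2 v)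

theorem coprime_of_pGroups {G : Type*} [Group G] [Finite G] {p q : ℕ} (hp : p.Prime) (hq : q.Prime)
    (hpq : p ≠ q) {A B : Subgroup G} (hA : IsPGroup p A) (hB : IsPGroup q B) {a b : G}
    (ha : a ∈ A) (hb : b ∈ B) : (orderOf a).Coprime (orderOf b) := by
  have := Fact.mk hp
  have := Fact.mk hq
  obtain ⟨m, hm⟩ := IsPGroup.iff_orderOf.1 hA ⟨a, ha⟩
  obtain ⟨n, hn⟩ := IsPGroup.iff_orderOf.1 hB ⟨b, hb⟩
  rw [← Subgroup.orderOf_coe] at hm hn
  rw [hm, hn]
  exact Nat.Coprime.pow _ _ ((Nat.coprime_primes hp hq).2 hpq)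


/-- Let N be a non-trivial normal subgroup of the finite group G such that every element of G outside N has prime power order. If N is not solvable, then G/N is solvable. -/
theorem result {G : Type*} [Group G] [Finite G] (N : Subgroup G) [N.Normal] (hN : N ≠ ⊥) (hns : ¬ Group.IsSolvable ↥N)
    (h : ∀ x : G, x ∉ N → IsPrimePow (orderOf x)) : Group.IsSolvable (G ⧸ N) := by
  by_contra hq
  obtain ⟨r, hr, hr2, hrN⟩ : ∃ r : ℕ, r.Prime ∧ r ≠ 2 ∧ r ∣ Nat.card N := by
    by_contra hc
    push Not at hc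
    exact hns (Ch.burnside_isSolvable_of_primes (p := 2) (q := 2) Nat.prime_two fun r hr hd =>
      Or.inl (by by_contra h2; exact hc r hr h2 hd))
  have := Fact.mk hr
  obtain ⟨R, hRN, hRp, hR1, hRsup⟩ := Perm.PG.exists_frattini N hr hrN
  have hM : ¬ Group.IsSolvable ((normalizer (R : Set G)).map (QuotientGroup.mk' N)) := by
    have e : (normalizer (R : Set G)).map (QuotientGroup.mk' N) = ⊤ := by
      have := congrArg (Subgroup.map (QuotientGroup.mk' N)) hRsup
      rwa [Subgroup.map_sup, QuotientGroup.map_mk'_self, sup_bot_eq,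
        map_top_of_surjective _ (QuotientGroup.mk'_surjective N)] at this
    rw [e]
    intro h1
    exact hq (Group.isSolvable_of_surjective (f := (⊤ : Subgroup (G ⧸ N)).subtype)
      fun x => ⟨⟨x, trivial⟩, rfl⟩)
  obtain ⟨H, ⟨hHM, hH⟩, hmin⟩ := (wellFounded_lt (α := Subgroup G)).has_min
    {H | H ≤ normalizer (R : Set G) ∧ ¬ Group.IsSolvable (H.map (QuotientGroup.mk' N))}
    ⟨_, le_rfl, hM⟩
  let φ : H →* G ⧸ N := (QuotientGroup.mk' N).comp H.subtype
  have h1 : ¬ Group.IsSolvable ((⊤ : Subgroup H).map φ) := by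
    rwa [← Subgroup.map_map, ← MonoidHom.range_eq_map, range_subtype]
  have h2 : ∀ L : Subgroup H, L ≠ ⊤ → Group.IsSolvable (L.map φ) := by
    intro L hL
    rw [← Subgroup.map_map]
    by_contra hc
    refine hmin _ ⟨(map_subtype_le L).trans hHM, hc⟩ (lt_of_le_of_ne (map_subtype_le L) ?_)
    intro e
    apply hL
    apply map_injective H.subtype_injective
    rw [e, ← MonoidHom.range_eq_map, range_subtype]
  have hHs : ¬ Group.IsSolvable H := fun hs => h1 (GT.isSolvable_map _ _)
  have hKn : Group.IsNilpotent (frattini H) := frattini_nilpotent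
  have hKt : frattini H ≠ ⊤ := fun e => hHs (by
    have : Group.IsSolvable (⊤ : Subgroup H) := e ▸ inferInstance
    exact Group.isSolvable_of_surjective (f := (⊤ : Subgroup H).subtype)
      fun x => ⟨⟨x, trivial⟩, rfl⟩)
  have hQs : ¬ Group.IsSolvable (H ⧸ frattini H) := fun hs =>
    hHs (Group.isSolvable_of_ker_le_range (frattini H).subtype (QuotientGroup.mk' (frattini H))
      (by rw [QuotientGroup.ker_mk', range_subtype]))
  have hsim : IsSimpleGroup (H ⧸ frattini H) := by
    have : Nontrivial (H ⧸ frattini H) := QuotientGroup.nontrivial_iff.2 hKt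
    refine ⟨fun M hMn => ?_⟩
    by_cases hc : M.comap (QuotientGroup.mk' (frattini H)) = ⊤
    · right
      rw [← map_comap_eq_self_of_surjective (QuotientGroup.mk'_surjective (frattini H)) M, hc,
        map_top_of_surjective _ (QuotientGroup.mk'_surjective _)]
    · left
      rw [← map_comap_eq_self_of_surjective (QuotientGroup.mk'_surjective (frattini H)) M,
        Subgroup.map_eq_bot_iff, QuotientGroup.ker_mk']
      exact le_frattini φ h1 h2 _ hc
  have hker : φ.ker ≤ frattini H := by
    refine le_frattini φ h1 h2 _ fun e => h1 ?_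
    rw [← e, Subgroup.map_ker_self]
    infer_instance
  have hout : ∀ x : H, x ∉ frattini H → (x : G) ∉ N := fun x hx hn =>
    hx (hker (by simpa [φ, MonoidHom.mem_ker] using hn))
  obtain ⟨S, a, ha, b, hb, haK, hbK, habK, ha2, hb2⟩ := exists_pair (frattini H) fun hc => by
    have := hc.isMulCommutative
    exact hQs (Group.isSolvable_of_comm fun x y => this.is_comm.comm x y)
  by_cases hK2 : ∃ q : ℕ, q.Prime ∧ q ≠ 2 ∧ q ∣ Nat.card (frattini H)
  · obtain ⟨q, hq, hq2, hqK⟩ := hK2
    have := Fact.mk hq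
    let T : Sylow q (frattini H) := default
    have hTn : (T : Subgroup (frattini H)).Normal := by
      have q := (Group.isNilpotent_of_finite_tfae (G := frattini H)).out 0 3
      exact q.1 hKn _ this T
    have hTc := Sylow.characteristic_of_normal T hTn
    let W : Subgroup H := (T : Subgroup (frattini H)).map (frattini H).subtype
    have hWn : W.Normal := inferInstance
    have hWp : IsPGroup q W := T.isPGroup'.map _
    have hWK : W ≤ frattini H := map_subtype_le _
    have hcop : ∀ x ∈ (S : Subgroup H), ∀ w ∈ W, (orderOf x).Coprime (orderOf w) :=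
      fun x hx w hw => coprime_of_pGroups Nat.prime_two hq hq2.symm S.isPGroup' hWp hx hw
    have hf : ∀ x ∈ (S : Subgroup H), x ∉ frattini H → ∀ w ∈ W, Commute x w → w = 1 := by
      intro x hx hxK w hw hc
      refine key (N := frattini H) (fun y hy => ?_) (fun e => hxK ?_) hc (hcop x hx w hw)
        (fun e => hxK (e ▸ one_mem _))
      · rw [← Subgroup.orderOf_coe]; exact h _ (hout y hy)
      · exact (mul_mem_cancel_right (hWK hw)).1 e
    have hW : W = ⊥ := eq_bot_of_three (a := a) (b := b) (le_normalizer_of_normal (K := ⊤) trivial)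
      (le_normalizer_of_normal (K := ⊤) trivial)
      (fun w hw => GT.commute_of_coprime_of_isNilpotent ha2 (hWK hw)
        (hcop _ (pow_mem ha 2) w hw))
      (fun w hw => GT.commute_of_coprime_of_isNilpotent hb2 (hWK hw)
        (hcop _ (pow_mem hb 2) w hw))
      (hf a ha haK) (hf b hb hbK) (hf _ (mul_mem ha hb) habK)
    rw [map_eq_bot_iff_of_injective _ (subtype_injective _)] at hW
    exact T.ne_bot_of_dvd_card hqK hW
  · push Not at hK2
    have hKp : IsPGroup 2 (frattini H) := by
      obtain ⟨n, hn⟩ : ∃ n, Nat.card (frattini H) = 2 ^ n :=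
        ⟨_, Nat.eq_prime_pow_of_unique_prime_dvd Nat.card_pos.ne' fun {d} hd hdvd => by
          by_contra h2; exact hK2 d hd h2 hdvd⟩
      exact IsPGroup.of_card hn
    obtain ⟨s, hs, hs2, hsr, hsH⟩ : ∃ s : ℕ, s.Prime ∧ s ≠ 2 ∧ s ≠ r ∧ s ∣ Nat.card H := by
      by_contra hc
      push Not at hc
      exact hHs (Ch.burnside_isSolvable_of_primes (p := 2) (q := r) hr fun s hs hd => by
        by_contra h2
        push Not at h2
        exact hc s hs h2.1 h2.2 hd)
    have := Fact.mk hs
    obtain ⟨x, hx⟩ := exists_prime_orderOf_dvd_card' s hsH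
    let W : Subgroup G := (center R).map R.subtype
    have hWR : W ≤ R := map_subtype_le _
    have hWp : IsPGroup r W := hRp.to_le hWR
    have hWc : IsMulCommutative W := inferInstance
    have hHW : H ≤ normalizer (W : Set G) :=
      hHM.trans (GT.normalizer_le_normalizer_map_subtype R (center R))
    have hXp : IsPGroup s (zpowers (x : G)) :=
      IsPGroup.of_card (n := 1) (by rw [Nat.card_zpowers, Subgroup.orderOf_coe, hx, pow_one])
    let K : Subgroup G := (frattini H).map H.subtype
    have hKp' : IsPGroup 2 K := hKp.map _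
    have hXH : zpowers (x : G) ≤ H := zpowers_le.2 x.2
    have hXK : ∀ y : H, (y : G) ∈ zpowers (x : G) → (y : G) ≠ 1 → y ∉ frattini H := by
      intro y hy hy1 hyK
      have := coprime_of_pGroups hs Nat.prime_two hs2 hXp hKp' hy (mem_map_of_mem _ hyK)
      simp only [coe_subtype, Nat.coprime_self, orderOf_eq_one_iff] at this
      exact hy1 this
    have hx1 : (x : G) ≠ 1 := fun e => hs.one_lt.ne' (by
      rw [← hx, ← Subgroup.orderOf_coe, e, orderOf_one])
    have hKW : K ≤ centralizer (W : Set G) := by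
      refine GT.Frob.le_centralizer_of_fpf_of_inf_centralizer_eq_bot (R := zpowers (x : G))
        ((map_subtype_le _).trans hHW) (hXH.trans hHW) (hXH.trans ?_)
        (by rwa [Ne, zpowers_eq_bot]) ?_ ?_ ?_
      · have := le_normalizer_map (H := frattini H) H.subtype
        rwa [normalizer_eq_top, ← MonoidHom.range_eq_map, range_subtype] at this
      · intro y hy hy1
        rw [eq_bot_iff_forall]
        rintro _ ⟨⟨k, hk, rfl⟩, hc⟩
        refine key (N := N) h (x := y) ?_ (mem_centralizer_singleton_iff.1 hc).symm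
          (coprime_of_pGroups hs Nat.prime_two hs2 hXp hKp' hy (mem_map_of_mem _ hk)) hy1
        refine hout (⟨y, hXH hy⟩ * k) fun e => hXK ⟨y, hXH hy⟩ hy hy1 ?_
        exact (mul_mem_cancel_right hk).1 e
      · exact IsPGroup.coprime_card_of_ne r 2 hr2 _ _ hWp hKp'
      · rw [eq_bot_iff_forall]
        rintro w ⟨hw, hc⟩
        refine key (N := N) h (x := (x : G)) (fun e => ?_) (hc _ (mem_zpowers _))
          (coprime_of_pGroups hs hr hsr hXp hWp (mem_zpowers _) hw) hx1
        exact hout x (hXK x (mem_zpowers _) hx1) ((mul_mem_cancel_right (hRN (hWR hw))).1 e)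
    have hf : ∀ x ∈ (S : Subgroup H), x ∉ frattini H → ∀ w ∈ W, Commute (x : G) w → w = 1 := by
      intro x hx hxK w hw hc
      refine key (N := N) h (fun e => hout x hxK ?_) hc
        (coprime_of_pGroups Nat.prime_two hr hr2.symm (S.isPGroup'.map H.subtype) hWp
          (mem_map_of_mem _ hx) hw) (fun e => hxK ?_)
      · exact (mul_mem_cancel_right (hRN (hWR hw))).1 e
      · have : x = 1 := Subtype.ext e
        exact this ▸ one_mem _
    have hW : W = ⊥ := eq_bot_of_three (a := a) (b := b) (hHW a.2) (hHW b.2)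
      (fun w hw => (hKW (mem_map_of_mem H.subtype ha2) w hw).symm)
      (fun w hw => (hKW (mem_map_of_mem H.subtype hb2) w hw).symm)
      (hf a ha haK) (hf b hb hbK) (hf _ (mul_mem ha hb) habK)
    rw [map_eq_bot_iff_of_injective _ (subtype_injective _)] at hW
    have : Nontrivial R := (nontrivial_iff_ne_bot R).2 hR1
    exact (nontrivial_iff_ne_bot _).1 hRp.center_nontrivial hW

end Cfsg.Agent.S3901
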