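import Mathlib
import Cfsg.Statements.S3903
import Cfsg.Agent.GT.Conj
import Cfsg.Agent.GT.Frattini
import Cfsg.Agent.GT.PiGroups
import Cfsg.Agent.FG.ClassIdx
import Cfsg.Agent.FG.H93Solv
import Cfsg.Agent.S0556

set_option autoImplicit false
open Cfsg

namespace Cfsg.Agent.S3903

open Subgroup Cfsg.Agent.GT Cfsg.Agent.FG

variable {G : Type*} [Group G] [Finite G]

theorem cent_isPGroup (N : Subgroup G) [N.Normal]
    (h : ∀ x : G, x ∉ N → IsPrimePow (orderOf x)) {x : G} (hx : x ∉ N) {p k : ℕ}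
    (hp : p.Prime) (hk : orderOf x = p ^ k) : IsPGroup p (centralizer ({x} : Set G)) := by
  by_contra hne
  obtain ⟨q, hq, hqp, y, hy⟩ := H93.exists_orderOf_prime_ne hp hne
  have hyo : orderOf (y : G) = q := by rw [Subgroup.orderOf_coe, hy]
  have hc : Commute x (y : G) := (CI.mem_cent_commute.1 y.2).symm
  have hcop : (orderOf x).Coprime (orderOf (y : G)) := by
    rw [hk, hyo]
    exact Nat.Coprime.pow_left _ ((Nat.coprime_primes hp hq).2 hqp.symm)
  have hk0 : k ≠ 0 := by
    rintro rfl
    apply hx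
    rw [pow_zero, orderOf_eq_one_iff] at hk
    rw [hk]; exact N.one_mem
  have hxy : x * y ∈ N := by
    by_contra hxy
    have h1 := h _ hxy
    rw [hc.orderOf_mul_eq_mul_orderOf_of_coprime hcop, hk, hyo,
      isPrimePow_iff_unique_prime_dvd] at h1
    obtain ⟨r, -, hr⟩ := h1
    have h2 := hr p ⟨hp, Dvd.dvd.mul_right (dvd_pow_self p hk0) q⟩
    have h3 := hr q ⟨hq, Dvd.intro_left _ rfl⟩
    exact hqp (h3.trans h2.symm)
  apply hx
  have h1 : (x * y) ^ q ∈ N := N.pow_mem hxy q
  rw [hc.mul_pow, ← hyo, pow_orderOf_eq_one, mul_one] at h1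
  have h2 : x ∈ zpowers (x ^ orderOf (y : G)) := by
    rw [mem_zpowers_pow_iff]; exact hcop.symm
  exact (zpowers_le_of_mem h1) h2

/-- The counting step. -/
theorem cent_le_of_count (N P : Subgroup G) [N.Normal] (hNP : P ⊔ N = ⊤)
    (h : ∀ x : G, x ∉ N → ∃ g : G, g⁻¹ * x * g ∈ P) {y : G} (hyP : y ∈ P) (hyN : y ∉ N) :
    centralizer ({y} : Set G) ≤ P := by
  classical
  have := Fintype.ofFinite G
  intro c hc
  by_contra hcP
  set S : Finset G := Finset.univ.filter (fun x => x ∉ N) with hS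
  set T : Finset G := Finset.univ.filter (fun x => x ∈ P ∧ x ∉ N) with hT
  set PP : Finset G := Finset.univ.filter (fun x => x ∈ P) with hPP
  have hPPc : PP.card = Nat.card P := by
    rw [hPP, Nat.card_eq_fintype_card, Fintype.card_subtype]
  have hF : ∀ x ∈ S, ∀ g : G, g⁻¹ * x * g ∈ P →
      PP.image (fun u => g * u) ⊆ Finset.univ.filter (fun g : G => g⁻¹ * x * g ∈ P) := by
    intro x _ g hg z hz
    obtain ⟨u, hu, rfl⟩ := Finset.mem_image.1 hz
    have hu' : u ∈ P := (Finset.mem_filter.1 hu).2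
    refine Finset.mem_filter.2 ⟨Finset.mem_univ _, ?_⟩
    have : (g * u)⁻¹ * x * (g * u) = u⁻¹ * (g⁻¹ * x * g) * u := by group
    rw [this]
    exact P.mul_mem (P.mul_mem (P.inv_mem hu') hg) hu'
  have himg : ∀ g : G, (PP.image (fun u => g * u)).card = Nat.card P := fun g => by
    rw [Finset.card_image_of_injective _ (mul_right_injective g), hPPc]
  have hlt : ∑ _x ∈ S, Nat.card P <
      ∑ x ∈ S, (Finset.univ.filter (fun g : G => g⁻¹ * x * g ∈ P)).card := by
    apply Finset.sum_lt_sum
    · intro x hx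
      obtain ⟨g, hg⟩ := h x (Finset.mem_filter.1 hx).2
      rw [← himg g]
      exact Finset.card_le_card (hF x hx g hg)
    · have hyS : y ∈ S := Finset.mem_filter.2 ⟨Finset.mem_univ _, hyN⟩
      refine ⟨y, hyS, ?_⟩
      rw [← himg 1]
      apply Finset.card_lt_card
      refine ⟨hF y hyS 1 (by simpa using hyP), fun hsub => ?_⟩
      have hcm : c ∈ Finset.univ.filter (fun g : G => g⁻¹ * y * g ∈ P) := by
        refine Finset.mem_filter.2 ⟨Finset.mem_univ _, ?_⟩
        have : c⁻¹ * y * c = y := by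
          have := CI.mem_cent.1 hc
          rw [mul_assoc, ← this]; group
        rw [this]; exact hyP
      obtain ⟨u, hu, hu2⟩ := Finset.mem_image.1 (hsub hcm)
      apply hcP
      rw [← hu2, one_mul]
      exact (Finset.mem_filter.1 hu).2
  have hsum : ∑ x ∈ S, (Finset.univ.filter (fun g : G => g⁻¹ * x * g ∈ P)).card =
      ∑ g : G, (S.filter (fun x => g⁻¹ * x * g ∈ P)).card := by
    simp only [Finset.card_filter]
    exact Finset.sum_comm
  have hfib : ∀ g : G, (S.filter (fun x => g⁻¹ * x * g ∈ P)).card = T.card := by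
    intro g
    apply Finset.card_bij (fun x _ => g⁻¹ * x * g)
    · intro x hx
      obtain ⟨h1, h2⟩ := Finset.mem_filter.1 hx
      refine Finset.mem_filter.2 ⟨Finset.mem_univ _, h2, fun h3 => (Finset.mem_filter.1 h1).2 ?_⟩
      have := ‹N.Normal›.conj_mem _ h3 g
      simpa [mul_assoc] using this
    · intro a _ b _ hab
      simpa using hab
    · intro z hz
      obtain ⟨-, h1, h2⟩ := Finset.mem_filter.1 hz
      refine ⟨g * z * g⁻¹, Finset.mem_filter.2 ⟨Finset.mem_filter.2 ⟨Finset.mem_univ _, fun h3 => h2 ?_⟩, ?_⟩, by group⟩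
      · have := ‹N.Normal›.conj_mem _ h3 g⁻¹
        simpa [mul_assoc] using this
      · simpa [mul_assoc] using h1
  have hS1 : S.card + Nat.card N = Nat.card G := by
    rw [Nat.card_eq_fintype_card, Fintype.card_subtype, Nat.card_eq_fintype_card,
      ← Finset.card_univ, add_comm]
    exact Finset.card_filter_add_card_filter_not _
  have hT1 : T.card + Nat.card (P ⊓ N : Subgroup G) = Nat.card P := by
    rw [← hPPc, Nat.card_eq_fintype_card, Fintype.card_subtype, add_comm,
      ← Finset.card_filter_add_card_filter_not (s := PP) (fun x => x ∈ N), hPP,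
      Finset.filter_filter, Finset.filter_filter]
    simp only [Subgroup.mem_inf, hT]
  have hc2 := card_sup_mul_card_inf P N
  rw [hNP, Subgroup.card_top] at hc2
  rw [hsum] at hlt
  simp only [hfib, Finset.sum_const, smul_eq_mul, Finset.card_univ,
    ← Nat.card_eq_fintype_card] at hlt
  have e1 : Nat.card G * T.card + Nat.card P * Nat.card N = Nat.card G * Nat.card P := by
    rw [← hc2, ← mul_add, hT1]
  have e2 : S.card * Nat.card P + Nat.card P * Nat.card N = Nat.card G * Nat.card P := by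
    rw [← hS1]; ring
  omega

/-- Let N be a proper normal subgroup of the finite group G such that every element x of G outside N has prime power order and has centralizer C_G(x) a maximal subgroup of G. Then N is solvable. -/
theorem result {G : Type*} [Group G] [Finite G] (N : Subgroup G) [N.Normal] (hN : N ≠ ⊤)
    (h : ∀ x : G, x ∉ N → IsPrimePow (orderOf x) ∧ IsCoatom (Subgroup.centralizer ({x} : Set G))) : Group.IsSolvable ↥N := by
  have hpp : ∀ x : G, x ∉ N → IsPrimePow (orderOf x) := fun x hx => (h x hx).1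
  by_cases hnorm : ∃ x : G, x ∉ N ∧ (centralizer ({x} : Set G)).Normal
  · obtain ⟨x, hx, hn⟩ := hnorm
    obtain ⟨p, k, hp, -, hk⟩ := (isPrimePow_nat_iff _).1 (hpp x hx)
    have h1 := cent_isPGroup N hpp hx hp hk.symm
    have : Group.IsSolvable G := H93.isSolvable_of_normal (centralizer ({x} : Set G))
      (H93.isSolvable_of_isPGroup hp h1)
      (H93.isSolvable_of_prime_card (index_prime_of_isCoatom_of_normal (h x hx).2))
    infer_instance
  push Not at hnorm
  -- every centralizer outside `N` is a Sylow subgroup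
  have hsyl : ∀ x : G, x ∉ N → ∀ (p k : ℕ) [Fact p.Prime], orderOf x = p ^ k →
      ∃ P : Sylow p G, (P : Subgroup G) = centralizer ({x} : Set G) := by
    intro x hx p k hp hk
    have h1 := cent_isPGroup N hpp hx hp.out hk
    obtain ⟨P, hP⟩ := h1.exists_le_sylow
    refine ⟨P, ?_⟩
    by_contra hne
    have htop : (P : Subgroup G) = ⊤ := (h x hx).2.2 _ (lt_of_le_of_ne hP (Ne.symm hne))
    have hG : IsPGroup p G := by
      have := P.isPGroup'
      rw [htop] at this
      exact this.of_equiv Subgroup.topEquiv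
    have := hG.isNilpotent
    exact hnorm x hx (Subgroup.NormalizerCondition.normal_of_coatom _
      normalizerCondition_of_isNilpotent (h x hx).2)
  obtain ⟨x, hx⟩ : ∃ x : G, x ∉ N := by
    by_contra hh
    push Not at hh
    exact hN (eq_top_iff.2 fun x _ => hh x)
  obtain ⟨p, k, hp, -, hk⟩ := (isPrimePow_nat_iff _).1 (hpp x hx)
  haveI : Fact p.Prime := ⟨hp⟩
  obtain ⟨P, hP⟩ := hsyl x hx p k hk.symm
  have hPc : IsCoatom (P : Subgroup G) := hP ▸ (h x hx).2
  by_cases hNP : N ≤ P
  · exact H93.isSolvable_of_isPGroup hp (P.isPGroup'.to_le hNP)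
  have hsup : (P : Subgroup G) ⊔ N = ⊤ := sup_eq_top_of_isCoatom hPc hNP
  have hq : IsPGroup p (G ⧸ N) := by
    have h1 : IsPGroup p ((P : Subgroup G).map (QuotientGroup.mk' N)) := P.isPGroup'.map _
    rw [map_mk'_eq_top_iff.2 hsup] at h1
    exact h1.of_equiv Subgroup.topEquiv
  have hord : ∀ y : G, y ∉ N → ∃ j : ℕ, orderOf y = p ^ j := by
    intro y hy
    obtain ⟨q, j, hq', -, hj⟩ := (isPrimePow_nat_iff _).1 (hpp y hy)
    obtain ⟨i, hi⟩ := (IsPGroup.iff_orderOf.1 hq) (y : G ⧸ N)
    have hi0 : i ≠ 0 := by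
      rintro rfl
      rw [pow_zero, orderOf_eq_one_iff, QuotientGroup.eq_one_iff] at hi
      exact hy hi
    have h1 : p ∣ q ^ j := by
      rw [hj]
      refine dvd_trans (dvd_pow_self p hi0) ?_
      rw [← hi]
      exact orderOf_map_dvd (QuotientGroup.mk' N) y
    have h2 : p = q := (Nat.prime_dvd_prime_iff_eq hp hq').1 (hp.dvd_of_dvd_pow h1)
    exact ⟨j, by rw [h2, hj]⟩
  have hconj : ∀ y : G, y ∉ N → ∃ g : G, g⁻¹ * y * g ∈ (P : Subgroup G) := by
    intro y hy
    obtain ⟨g, hg⟩ := CI.exists_conj_mem_sylow P (hord y hy)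
    exact ⟨g⁻¹, by simpa using hg⟩
  have hcen : ∀ y ∈ (P : Subgroup G), y ∉ N → (P : Subgroup G) ≤ centralizer ({y} : Set G) := by
    intro y hyP hy
    have h1 := cent_le_of_count N P hsup hconj hyP hy
    have h2 := (h y hy).2
    by_cases h3 : centralizer ({y} : Set G) = P
    · exact h3.ge
    · exact absurd (h2.2 _ (lt_of_le_of_ne h1 h3)) hPc.1
  have hxP : x ∈ (P : Subgroup G) := hP ▸ CI.self_mem_cent x
  haveI : IsMulCommutative (P : Subgroup G) := by
    refine ⟨⟨fun a b => Subtype.ext ?_⟩⟩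
    change (a : G) * b = b * a
    by_cases hb : (b : G) ∈ N
    · have hxb : x * b ∉ N := fun h1 => hx (by simpa using N.mul_mem h1 (N.inv_mem hb))
      have h1 := CI.mem_cent.1 (hcen _ (P.1.mul_mem hxP b.2) hxb a.2)
      have h2 := CI.mem_cent.1 (hcen _ hxP hx a.2)
      rw [← mul_assoc, h2, mul_assoc, mul_assoc] at h1
      exact mul_left_cancel h1
    · exact CI.mem_cent.1 (hcen _ b.2 hb a.2)
  have : Group.IsSolvable G := ⟨⟨3, S0556.result (P : Subgroup G) hPc⟩⟩
  infer_instance

end Cfsg.Agent.S3903
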