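import Mathlib
import Cfsg.Statements.S3906
import Cfsg.Agent.FG.ShFam

set_option autoImplicit false
open Cfsg

namespace Cfsg.Agent.S3906

open scoped commutatorElement

/-- Let p be a prime and let k ≥ 3, c ≥ 0 and d ≥ 0 be integers with 2^d + 2 ≤ k. There is a bound B depending only on p, k, c and d such that the following holds for every finite group G of order prime to p and every elementary abelian subgroup A of order p^k of the automorphism group of G: if, for every non-identity a ∈ A, the d-th derived subgroup of the fixed-point subgroup C_G(a) (the 0-th derived subgroup of a group being the group itself) is nilpotent of class at most c, then the d-th derived subgroup of G is nilpotent of class at most B. -/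
theorem result (p k c d : ℕ) (hp : p.Prime) (hk : 3 ≤ k) (hd : 2 ^ d + 2 ≤ k) :
    ∃ B : ℕ, ∀ (G : Type) [Group G] [Finite G], (Nat.card G).Coprime p →
      ∀ A : Subgroup (MulAut G), Cfsg.IsElementaryAbelian p A → Nat.card ↥A = p ^ k →
        (∀ a ∈ A, a ≠ 1 → (derivedSeries ↥((a : MulAut G).toMonoidHom.eqLocus (MonoidHom.id G)) d).lowerCentralSeries c = ⊥) →
        (derivedSeries G d).lowerCentralSeries B = ⊥ := by
  refine ⟨FG.Sh.bnd p ((fun s => s * s * 2 ^ p ^ k)^[d] (2 ^ p ^ k)) (c + 1) (c + d),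
    fun G _ _ hG A hA hk' h => ?_⟩
  have hAp : ∀ a : A, a ^ p = 1 := fun a => Subtype.ext (hA.2 a a.2)
  obtain ⟨𝓕, h1, h2⟩ := FG.Sh.exists_good_der (φ := A.subtype) hp hA.1 hAp
    (hk' ▸ hG.symm.pow_left k) d
  rw [hk'] at h1
  rw [FG.Sh.derivedSeries_eq_iter]
  refine h1.lcs_eq_bot hp hA.1 hAp hk' hk hG.symm h2 hd (fun H => ?_) (fun H => le_rfl)
    fun a ha => ?_
  · show ⁅(fun Y => ⁅Y, Y⁆)^[d] H, H⁆ ≤ (fun Y => ⁅Y, Y⁆)^[d] H
    have e : ⁅(derivedSeries H d).map H.subtype, (⊤ : Subgroup H).map H.subtype⁆ ≤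
        (derivedSeries H d).map H.subtype := by
      rw [← Subgroup.map_commutator]
      exact Subgroup.map_mono (Subgroup.commutator_le_left _ _)
    rwa [← MonoidHom.range_eq_map, H.range_subtype, FG.Sh.map_derivedSeries_subtype] at e
  have := h a a.2 fun e => ha (Subtype.ext e)
  rw [← FG.Sh.eqLocus_eq_Fx]
  show ((fun Y => ⁅Y, Y⁆)^[d] _ : Subgroup G).lowerCentralSeries c = ⊥
  rw [← FG.Sh.map_derivedSeries_subtype, ← Subgroup.map_lowerCentralSeries, this, Subgroup.map_bot]

end Cfsg.Agent.S3906
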