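import Mathlib
import Cfsg.Statements.S3907
import Cfsg.Agent.FG.ShFam

set_option autoImplicit false
open Cfsg

namespace Cfsg.Agent.S3907

/-- Let p be a prime and let k ≥ 3 and c ≥ 0 be integers. There is a bound B depending only on p, k and c such that the following holds for every finite group G of order prime to p and every elementary abelian subgroup A of order p^k of the automorphism group of G: if, for every non-identity a ∈ A, the (k−2)-th term of the lower central series of the fixed-point subgroup C_G(a) (the first term being the whole group) is nilpotent of class at most c, then the (k−2)-th term of the lower central series of G is nilpotent of class at most B. -/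
theorem result (p k c : ℕ) (hp : p.Prime) (hk : 3 ≤ k) :
    ∃ B : ℕ, ∀ (G : Type) [Group G] [Finite G], (Nat.card G).Coprime p →
      ∀ A : Subgroup (MulAut G), Cfsg.IsElementaryAbelian p A → Nat.card ↥A = p ^ k →
        (∀ a ∈ A, a ≠ 1 → ((⊤ : Subgroup ↥((a : MulAut G).toMonoidHom.eqLocus (MonoidHom.id G))).lowerCentralSeries (k - 3)).lowerCentralSeries c = ⊥) →
        ((⊤ : Subgroup G).lowerCentralSeries (k - 3)).lowerCentralSeries B = ⊥ := by
---
  refine ⟨FG.Sh.bnd p ((fun s => s * 2 ^ p ^ k * 2 ^ p ^ k)^[k - 3] (2 ^ p ^ k)) (c + 1)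
    (c + (k - 3)), fun G _ _ hG A hA hk' h => ?_⟩
  have hAp : ∀ a : A, a ^ p = 1 := fun a => Subtype.ext (hA.2 a a.2)
  obtain ⟨𝓕, h1, h2⟩ := FG.Sh.exists_good_lcs (φ := A.subtype) hp hA.1 hAp
    (hk' ▸ hG.symm.pow_left k) (k - 3)
  rw [hk'] at h1
  refine h1.lcs_eq_bot hp hA.1 hAp hk' hk hG.symm (((FG.Sh.Ref.refl _).step h1.ref).trans h2)
    (by omega) (fun H => H.lowerCentralSeries_antitone (Nat.le_succ _))
    (fun H => FG.Sh.iter_der_le_lcs _ H) fun a ha => ?_
  have := h a a.2 fun e => ha (Subtype.ext e)
  rw [← FG.Sh.eqLocus_eq_Fx, ← Subgroup.top_subtype_lowerCentralSeries _ (k - 3),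
    ← Subgroup.map_lowerCentralSeries, this, Subgroup.map_bot]

end Cfsg.Agent.S3907
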