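import Mathlib
import Cfsg.Statements.S3909
import Cfsg.Agent.FG.H92Basic
import Cfsg.Agent.GT.PGroupRank

set_option autoImplicit false
open Cfsg

namespace Cfsg.Agent.S3909

section aux

open Subgroup Cfsg.Agent.GT Cfsg.Agent.FG Cfsg.Agent.FG.H92
open scoped commutatorElement

theorem mem_of_orderOf_eq {G : Type*} [Group G] [Finite G] (hB : ∀ A B : Subgroup G, IsMulCommutative ↥A → IsMulCommutative ↥B → Nat.card ↥A = Nat.card ↥B → ∃ g : G, B = A.map (MulAut.conj g).toMonoidHom) (M : Subgroup G) [M.Normal]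
    {a m : G} (hm : m ∈ M) (h : orderOf m = orderOf a) : a ∈ M := by
  obtain ⟨g, hg⟩ := hB (zpowers m) (zpowers a) inferInstance inferInstance
    (by rw [Nat.card_zpowers, Nat.card_zpowers, h])
  exact map_conj_le_of_normal (zpowers_le_of_mem hm) g (hg ▸ mem_zpowers a)

end aux

open Subgroup Cfsg.Agent.GT Cfsg.Agent.FG Cfsg.Agent.FG.H92 in
open scoped commutatorElement in
/-- Let G be a finite group in which any two abelian subgroups of the same order are conjugate. Let M be a normal subgroup of G. If M contains an element of the same order as a ∈ G, then a ∈ M; and if M is elementary abelian of order p^t with p prime and t ≥ 2, then M is the unique Sylow p-subgroup of G. -/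
theorem result {G : Type*} [Group G] [Finite G] (hB : ∀ A B : Subgroup G, IsMulCommutative ↥A → IsMulCommutative ↥B → Nat.card ↥A = Nat.card ↥B → ∃ g : G, B = A.map (MulAut.conj g).toMonoidHom) (M : Subgroup G) [M.Normal] :
    (∀ a : G, (∃ m ∈ M, orderOf m = orderOf a) → a ∈ M) ∧
    ∀ (p t : ℕ) [Fact p.Prime], 2 ≤ t → Nat.card ↥M = p ^ t → Cfsg.IsElementaryAbelian p M → ∀ P : Sylow p G, (P : Subgroup G) = M := by
  refine ⟨fun a ⟨m, hm, h⟩ => mem_of_orderOf_eq hB M hm h, fun p t hp ht hM hE P => ?_⟩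
  have hMP : M ≤ P := le_sylow_of_le_normalizer P hE.isPGroup (by
    have := hE.isPGroup.le_sylow_of_normal P
    exact this.trans le_normalizer)
  refine (hMP.eq_or_lt.resolve_right fun hlt => ?_).symm
  obtain ⟨y, hyP, hyM⟩ := SetLike.exists_of_lt hlt
  obtain ⟨k, hk⟩ := PG.exists_pow_pow_eq_one_of_mem P.isPGroup' hyP
  obtain ⟨j, hj1, hj2⟩ := PG.exists_pow_notMem_pow_mem hyM ⟨k, hk ▸ M.one_mem⟩
  set x := y ^ p ^ j
  obtain ⟨E, hEM, hEe, hEc⟩ := hE.exists_le_card_eq (k := 2)
    (hM ▸ Nat.pow_le_pow_right hp.out.pos ht)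
  have hx1 : x ^ p ≠ 1 := by
    intro h
    obtain ⟨m, hm, hmo⟩ := exists_mem_orderOf_eq_prime (H := M) hp.out
      (hM ▸ dvd_pow_self p (by omega))
    exact hj1 (mem_of_orderOf_eq hB M hm
      (hmo.trans (orderOf_eq_prime h (fun h1 => hj1 (h1 ▸ M.one_mem))).symm))
  have hxo : orderOf x = p ^ 2 := by
    apply orderOf_eq_prime_pow (n := 1) (by simpa using hx1)
    rw [pow_succ, pow_one, pow_mul]; exact hE.2 _ hj2
  obtain ⟨g, hg⟩ := hB E (zpowers x) hEe.1 inferInstance (by rw [Nat.card_zpowers, hxo, hEc])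
  exact hx1 ((hEe.map _).2 x (hg ▸ mem_zpowers x))

end Cfsg.Agent.S3909
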