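import Mathlib
import Cfsg.Statements.S3910
import Cfsg.Agent.S3909
import Cfsg.Agent.GT.PGroupCyclicMax

set_option autoImplicit false
open Cfsg

namespace Cfsg.Agent.S3910

section aux

open Subgroup Cfsg.Agent.GT Cfsg.Agent.FG Cfsg.Agent.FG.H92
open scoped commutatorElement

theorem exists_mem_orderOf_eq {G : Type*} [Group G] [Finite G] {N : Subgroup G} (hN : IsCyclic N)
    {d : ℕ} (hd : d ∣ Nat.card N) : ∃ m ∈ N, orderOf m = d := by
  obtain ⟨a, rfl, ha⟩ := PG.exists_orderOf_eq_of_isCyclic hN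
  rw [← ha] at hd
  exact ⟨_, pow_mem (mem_zpowers a) _, orderOf_pow_orderOf_div (orderOf_pos a).ne' hd⟩

end aux

open Subgroup Cfsg.Agent.GT Cfsg.Agent.FG Cfsg.Agent.FG.H92 in
open scoped commutatorElement in
/-- A finite nilpotent group in which any two abelian subgroups of the same order are conjugate is cyclic. -/
theorem result {G : Type*} [Group G] [Finite G] (hB : ∀ A B : Subgroup G, IsMulCommutative ↥A → IsMulCommutative ↥B → Nat.card ↥A = Nat.card ↥B → ∃ g : G, B = A.map (MulAut.conj g).toMonoidHom) (hnil : Group.IsNilpotent G) : IsCyclic G := by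
  have : IsZGroup G := by
    refine ⟨fun p hp P => ?_⟩
    have : Fact p.Prime := ⟨hp⟩
    have hPn : (P : Subgroup G).Normal := isPClosed_of_isNilpotent P
    obtain ⟨N, -, ⟨hNn, hNc, hNP⟩, hmax⟩ := exists_maximal_ge
      (P := fun N : Subgroup G => N.Normal ∧ IsCyclic N ∧ N ≤ P) (H := ⊥)
      ⟨inferInstance, inferInstance, bot_le⟩
    by_cases hPN : (P : Subgroup G) ≤ N
    · rwa [le_antisymm hPN hNP]
    exfalso
    obtain ⟨y, hyP, hyN, hy⟩ := PG.exists_notMem_commutator_mem (P : Subgroup G) N hPN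
    obtain ⟨k, hk⟩ := PG.exists_pow_pow_eq_one_of_mem P.isPGroup' hyP
    obtain ⟨j, hj1, hj2⟩ := PG.exists_pow_notMem_pow_mem hyN ⟨k, hk ▸ N.one_mem⟩
    have hx : ∀ g, ⁅y ^ p ^ j, g⁆ ∈ N := fun g =>
      PG.commutator_pow_left_mem (le_normalizer_of_normal (mem_top y)) (hy g) _
    have hxP : y ^ p ^ j ∈ (P : Subgroup G) := pow_mem hyP _
    set x := y ^ p ^ j
    have hK := PG.normal_sup_zpowers hx
    have hKc := PG.card_sup_zpowers hp (le_normalizer_of_normal (mem_top x)) hj1 hj2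
    obtain ⟨n, hn⟩ := (P.isPGroup'.to_le hNP).exists_card_eq
    obtain ⟨i, hi⟩ := CI.orderOf_of_mem P.isPGroup' hxP
    by_cases hin : i ≤ n
    · obtain ⟨m, hm, hmo⟩ := exists_mem_orderOf_eq hNc (d := p ^ i) (hn ▸ pow_dvd_pow p hin)
      exact hj1 (S3909.mem_of_orderOf_eq hB N hm (hmo.trans hi.symm))
    · have h1 : zpowers x = N ⊔ zpowers x := by
        apply PG.eq_of_le_of_card_le le_sup_right
        rw [hKc, hn, Nat.card_zpowers, hi, ← pow_succ']
        exact Nat.pow_le_pow_right hp.pos (by omega)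
      have h2 := hmax (N ⊔ zpowers x) ⟨hK, h1 ▸ inferInstance,
        sup_le hNP (zpowers_le_of_mem hxP)⟩ le_sup_left
      exact hj1 (h2 ▸ mem_sup_right (mem_zpowers x))
  infer_instance

end Cfsg.Agent.S3910
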