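import Mathlib
import Cfsg.Statements.S3911
import Cfsg.Agent.FG.EqOB
import Cfsg.Agent.S0205
import Cfsg.Agent.S3909
import Cfsg.Agent.Inv.RankOneP

set_option autoImplicit false
open Cfsg

namespace Cfsg.Agent.S3911

section aux

open Subgroup Cfsg.Agent.GT Cfsg.Agent.FG Cfsg.Agent.FG.EqO Cfsg.Agent.Inv.Fz

universe u

theorem comm_comap {G : Type*} [Group G] [Finite G] {p : ℕ} [hp : Fact p.Prime] {N : Subgroup G} [hN : N.Normal]
    (hc : Nat.card N = p) (cy : ∀ P : Subgroup G, IsPGroup p P → IsCyclic P) {A : Subgroup (G ⧸ N)}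
    (hA : IsMulCommutative A) (d : p ∣ Nat.card A) : IsMulCommutative (A.comap (QuotientGroup.mk' N)) := by
  have pN : IsPGroup p N := IsPGroup.of_card (n := 1) (by simpa using hc)
  have pw : ∀ n ∈ N, n ^ p = 1 := fun n hn => congrArg Subtype.val (hc ▸ pow_card_eq_one' (x := (⟨n, hn⟩ : N)))
  have cm : ∀ x ∈ A.comap (QuotientGroup.mk' N), ∀ y ∈ A.comap (QuotientGroup.mk' N), y⁻¹ * (x * y * x⁻¹) ∈ N :=
    fun x hx y hy => QuotientGroup.eq.1 (eq_mul_inv_of_mul_eq (H92.comm_of_isMulCommutative hA hy hx))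
  have lift : ∀ B : Subgroup (G ⧸ N), IsPGroup p B → IsMulCommutative (B.comap (QuotientGroup.mk' N)) := fun B hB => by
    have := cy _ (hB.comap_of_ker_isPGroup _ ((QuotientGroup.ker_mk' N).symm ▸ pN)); infer_instance
  have cN : ∀ x ∈ A.comap (QuotientGroup.mk' N), ∀ n ∈ N, x * n * x⁻¹ = n := fun x hx n hn => by
    obtain ⟨c, hcA, o⟩ := exists_mem_orderOf_eq_prime hp.out d
    have pc : IsPGroup p (zpowers c) := IsPGroup.of_card (n := 1) (by simpa using o)
    have hP := pc.comap_of_ker_isPGroup _ ((QuotientGroup.ker_mk' N).symm ▸ pN)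
    obtain ⟨w, hw⟩ := (Subgroup.isCyclic_iff_exists_zpowers_eq_top _).1 (cy _ hP)
    have NP : N ≤ zpowers w := fun n hn => hw.ge (by
      rw [mem_comap, show QuotientGroup.mk' N n = 1 from (QuotientGroup.eq_one_iff n).2 hn]; exact one_mem _)
    have wA : w ∈ A.comap (QuotientGroup.mk' N) := comap_mono (zpowers_le.2 hcA) (hw.le (mem_zpowers w))
    obtain ⟨i, rfl⟩ := NP hn
    have pi : (p : ℤ) ∣ i := by
      have e : orderOf (QuotientGroup.mk' N w) = p := by
        rw [← Nat.card_zpowers, ← MonoidHom.map_zpowers, hw, map_comap_eq_self_of_surjective (QuotientGroup.mk'_surjective N),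
          Nat.card_zpowers, o]
      rw [← e, orderOf_dvd_iff_zpow_eq_one, ← map_zpow]
      exact (QuotientGroup.eq_one_iff _).2 hn
    obtain ⟨j, rfl⟩ := pi
    have m := cm x hx w wA
    obtain ⟨k, hk⟩ := NP m
    have e : x * w ^ p * x⁻¹ = w ^ p := by
      have e' := pw _ m
      rw [← hk] at e'
      rw [← conj_pow, show x * w * x⁻¹ = w * w ^ k from (inv_mul_eq_iff_eq_mul.1 hk.symm), (Commute.self_zpow w k).mul_pow]
      exact mul_eq_left.2 e'
    simp only [zpow_mul, zpow_natCast, ← conj_zpow, e]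
  obtain ⟨a, m, hm, e⟩ := Nat.exists_eq_pow_mul_and_not_dvd (Nat.card_pos (α := G ⧸ N)).ne' p hp.out.ne_one
  have pz : ∀ x : G, IsPGroup p (zpowers (QuotientGroup.mk' N (x ^ m))) := fun x => by
    rintro ⟨_, i, rfl⟩
    refine ⟨a, Subtype.ext ?_⟩
    change ((QuotientGroup.mk' N (x ^ m)) ^ i) ^ p ^ a = 1
    rw [← zpow_natCast, ← zpow_mul, mul_comm, zpow_mul, zpow_natCast, map_pow, ← pow_mul, mul_comm, ← e, pow_card_eq_one',
      one_zpow]
  have pows : ∀ x ∈ A.comap (QuotientGroup.mk' N), ∀ y ∈ A.comap (QuotientGroup.mk' N), Commute (x ^ m) y → Commute x y :=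
    fun x hx y hy h => by
      have c := cm x hx y hy
      have : ∀ n : ℕ, x ^ n * y * (x ^ n)⁻¹ = y * (y⁻¹ * (x * y * x⁻¹)) ^ n := fun n => by
        induction n with
        | zero => simp
        | succ n ih =>
          calc _ = x * (x ^ n * y * (x ^ n)⁻¹) * x⁻¹ := by rw [pow_succ']; group
            _ = _ := by rw [ih, ← conj_mul, cN x hx _ (pow_mem c n), pow_succ', ← mul_assoc y, mul_inv_cancel_left]
      have h1 := this m
      rw [h.eq, mul_inv_cancel_right, left_eq_mul] at h1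
      have := orderOf_eq_one_iff.1 (Nat.eq_one_of_dvd_coprimes ((Nat.Prime.coprime_iff_not_dvd hp.out).2 hm)
        (orderOf_dvd_of_pow_eq_one (pw _ c)) (orderOf_dvd_of_pow_eq_one h1))
      exact mul_inv_eq_iff_eq_mul.1 (inv_mul_eq_one.1 this).symm
  refine H92.isMulCommutative_of_comm fun x hx y hy => pows x hx y hy (pows y hy _ (pow_mem hx m) ?_).symm
  refine H92.comm_of_isMulCommutative (lift _ ((pz y).to_sup_of_normal_right' (pz x) (zpowers_le.2 (cj_eq_iff.1 ?_))))
    (mem_comap.2 (mem_sup_left (mem_zpowers _))) (mem_comap.2 (mem_sup_right (mem_zpowers _)))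
  rw [cj_zpowers, H92.comm_of_isMulCommutative hA (pow_mem hy m) (pow_mem hx m), mul_inv_cancel_right]

theorem pa_cyc {G : Type*} [Group G] [Finite G] {p : ℕ} [hp : Fact p.Prime] {N : Subgroup G} [N.Normal] (h : PA G)
    (hc : Nat.card N = p) (cy : ∀ P : Subgroup G, IsPGroup p P → IsCyclic P) : PA (G ⧸ N) := by
  refine h.of_lift (QuotientGroup.mk' N) (fun n => if p ∣ n then n * p else n) fun A hA => ?_
  by_cases d : p ∣ Nat.card A
  · exact ⟨_, comm_comap hc cy hA d, map_comap_eq_self_of_surjective (QuotientGroup.mk'_surjective N) A, by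
      rw [card_comap_mk', hc, if_pos d]⟩
  · have le : N ≤ A.comap (QuotientGroup.mk' N) := fun n hn => by
      rw [mem_comap, show QuotientGroup.mk' N n = 1 from (QuotientGroup.eq_one_iff n).2 hn]; exact one_mem _
    obtain ⟨L, s⟩ := FT.SchurZassenhaus_split (N := N) ⟨le, le_normalizer_of_normal⟩ (by
      have := FT.card_mul_relIndex_of_le le
      rw [card_comap_mk', mul_comm, Nat.mul_left_inj Nat.card_pos.ne'] at this
      exact this ▸ hc ▸ (Nat.Prime.coprime_iff_not_dvd hp.out).2 d)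
    have e : L.map (QuotientGroup.mk' N) = A := by
      rw [← map_comap_eq_self_of_surjective (QuotientGroup.mk'_surjective N) A, ← s.sup_eq, Subgroup.map_sup,
        (Subgroup.map_eq_bot_iff N).2 (QuotientGroup.ker_mk' N).ge, bot_sup_eq]
    have m := le_sup_right.trans s.sup_eq.le
    refine ⟨L, H92.isMulCommutative_of_comm fun x hx y hy => mul_inv_eq_one.1 (mem_bot.1 (s.inf_eq.le (mem_inf.2 ⟨?_,
      mul_mem (mul_mem hx hy) (inv_mem (mul_mem hy hx))⟩))), e, ?_⟩
    · exact (QuotientGroup.eq_one_iff _).1 (mul_inv_eq_one.2 (H92.comm_of_isMulCommutative hA (m hx) (m hy)))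
    · rw [if_neg d, ← e, ← card_map_mul_card_inf_ker L (QuotientGroup.mk' N), QuotientGroup.ker_mk', inf_comm, s.inf_eq,
        card_bot, mul_one]

theorem pa_odd {H : Type*} [Group H] (n : ℕ) : ∀ (G : Type u) [Group G] [Finite G] (f : G →* H), Function.Surjective f →
    Nat.card G = n → Odd (Nat.card f.ker) → PA G → PA H := by
  induction n using Nat.strong_induction_on with
  | _ n ih =>
  intro G _ _ f hf hn o h
  by_cases e : f.ker = ⊥
  · let φ := MulEquiv.ofBijective f ⟨(MonoidHom.ker_eq_bot_iff f).1 e, hf⟩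
    exact h.of_sec f φ.symm.toMonoidHom φ.apply_symm_apply
  have := S0205.result o
  obtain ⟨N, p, hN, le, hp, el⟩ := exists_isMinNormal_elementary_le e
  have := hN.normal
  have := Fact.mk hp
  obtain ⟨t, ht⟩ := el.card_eq_pow
  have t0 : t ≠ 0 := by rintro rfl; exact hN.ne_bot (card_eq_one.1 ht)
  have h' : PA (G ⧸ N) := by
    by_cases t1 : t = 1
    · subst t1
      refine pa_cyc h (ht.trans (pow_one p)) fun P hP => (Inv.SE.cyclic_or_quaternion_of_uniqOrd hP
        fun x _ y _ ox oy => ?_).resolve_right fun c => ?_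
      · obtain ⟨z, hz, oz⟩ := exists_mem_orderOf_eq_prime (H := N) hp (ht ▸ dvd_pow_self p t0)
        exact (eq_of_le_of_card_ge (zpowers_le.2 (h.mem hz (oz.trans ox.symm))) (by rw [Nat.card_zpowers, ox, ht, pow_one])).ge
          (h.mem hz (oz.trans oy.symm))
      · exact (Nat.not_even_iff_odd.2 o) (even_iff_two_dvd.2 ((c.1 ▸ ht ▸ dvd_pow_self p t0 :
          2 ∣ Nat.card N).trans (card_dvd_of_le le)))
    · have P : Sylow p G := default
      obtain ⟨σ, hσ⟩ := exists_sec N ((S3909.result h N).2 p t (by omega) ht el P ▸ P.card_coprime_index)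
      exact h.of_sec _ σ hσ
  refine ih _ (hn ▸ card_quotient_lt hN.ne_bot) _ (QuotientGroup.lift N f le)
    (fun x => (hf x).elim fun g e => ⟨g, e⟩) rfl ?_ h'
  rw [QuotientGroup.ker_lift]
  exact o.of_dvd_nat (card_map_dvd _ _)

end aux

/-- Let G be a finite group in which any two abelian subgroups of the same order are conjugate. If M is a normal subgroup of G of odd order, then any two abelian subgroups of G/M of the same order are conjugate in G/M. -/
theorem result {G : Type*} [Group G] [Finite G] (hB : ∀ A B : Subgroup G, IsMulCommutative ↥A → IsMulCommutative ↥B → Nat.card ↥A = Nat.card ↥B → ∃ g : G, B = A.map (MulAut.conj g).toMonoidHom) (M : Subgroup G) [M.Normal] (hM : Odd (Nat.card ↥M)) :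
    ∀ A B : Subgroup (G ⧸ M), IsMulCommutative ↥A → IsMulCommutative ↥B → Nat.card ↥A = Nat.card ↥B →
      ∃ g : G ⧸ M, B = A.map (MulAut.conj g).toMonoidHom := by
  exact pa_odd _ G _ (QuotientGroup.mk'_surjective M) rfl ((QuotientGroup.ker_mk' M).symm ▸ hM) hB

end Cfsg.Agent.S3911
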