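import Mathlib
import Cfsg.Statements.S3915
import Cfsg.Agent.GT.Conj
import Cfsg.Agent.GT.Components
import Cfsg.Agent.GT.PiGroups
import Cfsg.Agent.FG.ClassIdx
import Cfsg.Agent.FG.SylowNormal
import Cfsg.Agent.S0205

set_option autoImplicit false
open Cfsg

namespace Cfsg.Agent.S3915

open Subgroup Cfsg.Agent.GT Cfsg.Agent.FG

variable {G : Type*} [Group G] [Finite G]

theorem exists_two_elt {K : Subgroup G} (hK : IsQuasisimple K) :
    ∃ x ∈ K, (∃ k : ℕ, orderOf x = 2 ^ k) ∧ x ∉ centralizer (K : Set G) := by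
  have h2 : 2 ∣ Nat.card K := by
    by_contra h
    exact hK.not_isSolvable (S0205.result (Nat.odd_iff.2 (by omega)))
  have h3 := hK.dvd_index_center Nat.prime_two h2
  obtain ⟨y, hy⟩ := exists_prime_orderOf_dvd_card' (G := K ⧸ center K) 2 h3
  obtain ⟨x, hx, k, hk⟩ := H96.exists_pElement_lift (p := 2)
    (QuotientGroup.mk'_surjective (center K)) (y := y) ⟨1, by simpa using hy⟩
  refine ⟨x, x.2, ⟨k, by rw [Subgroup.orderOf_coe, hk]⟩, fun hc => ?_⟩
  have : x ∈ center K := by
    rw [Subgroup.mem_center_iff]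
    intro g
    exact Subtype.ext (hc g g.2)
  have h1 : y = 1 := by
    rw [← hx]; exact (QuotientGroup.eq_one_iff x).2 this
  rw [h1, orderOf_one] at hy
  omega

theorem aux (hP : ∀ (p : ℕ), p.Prime → ∀ A B : Subgroup G, IsCyclic ↥A → IsCyclic ↥B → IsPGroup p ↥A → Nat.card ↥A = Nat.card ↥B → ∃ g : G, B = A.map (MulAut.conj g).toMonoidHom)
    {K L : Subgroup G} (hK : IsComponent K) (hL : IsComponent L) (hne : K ≠ L) {x y : G}
    (hx : x ∈ K) (hy : y ∈ L) {a b : ℕ} (ha : orderOf x = 2 ^ a) (hb : orderOf y = 2 ^ b)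
    (hab : b ≤ a) (hxc : x ∉ centralizer (K : Set G)) (hyc : y ∉ centralizer (L : Set G)) :
    False := by
  have hc : Commute x y := hK.commute_of_ne hL hne hx hy
  have h1 : orderOf (x * y) ∣ orderOf x := by
    rw [orderOf_dvd_iff_pow_eq_one, hc.mul_pow, pow_orderOf_eq_one, one_mul,
      ← orderOf_dvd_iff_pow_eq_one, ha, hb]
    exact pow_dvd_pow 2 hab
  have hx0 : orderOf x ≠ 0 := (orderOf_pos x).ne'
  set z := x ^ (orderOf x / orderOf (x * y)) with hz
  have hzo : orderOf z = orderOf (x * y) := orderOf_pow_orderOf_div hx0 h1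
  have hzp : IsPGroup 2 (zpowers z) := by
    apply CI.isPGroup_zpowers
    rw [hzo]
    rw [ha] at h1
    obtain ⟨c, -, hc⟩ := (Nat.dvd_prime_pow Nat.prime_two).1 h1
    exact ⟨c, hc⟩
  obtain ⟨g, hg⟩ := hP 2 Nat.prime_two (zpowers z) (zpowers (x * y)) inferInstance inferInstance
    hzp (by rw [Nat.card_zpowers, Nat.card_zpowers, hzo])
  have hM := hK.map_conj g
  have hxy : x * y ∈ K.map (MulAut.conj g).toMonoidHom := by
    have h2 : zpowers z ≤ K := zpowers_le_of_mem (K.pow_mem hx _)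
    exact Subgroup.map_mono h2 (hg ▸ mem_zpowers (x * y))
  by_cases h3 : K.map (MulAut.conj g).toMonoidHom = K
  · rw [h3] at hxy
    have : y ∈ K := by simpa using K.mul_mem (K.inv_mem hx) hxy
    exact hyc (hK.le_centralizer_of_ne hL hne this)
  · have h4 := hM.le_centralizer_of_ne hK h3 hxy
    have h5 := hL.le_centralizer_of_ne hK hne.symm hy
    apply hxc
    simpa using Subgroup.mul_mem _ h4 (Subgroup.inv_mem _ h5)

/-- Let G be a finite group in which, for every prime p, any two cyclic p-subgroups of the same order are conjugate. If the layer E(G), the subgroup generated by the components of G, is non-trivial, then E(G)/Z(E(G)) is a non-abelian simple group. -/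
theorem result {G : Type*} [Group G] [Finite G] (hP : ∀ (p : ℕ), p.Prime → ∀ A B : Subgroup G, IsCyclic ↥A → IsCyclic ↥B → IsPGroup p ↥A → Nat.card ↥A = Nat.card ↥B → ∃ g : G, B = A.map (MulAut.conj g).toMonoidHom) (hE : Cfsg.layer G ≠ ⊥) :
    IsSimpleGroup (↥(Cfsg.layer G) ⧸ Subgroup.center ↥(Cfsg.layer G)) ∧ ¬ IsMulCommutative (↥(Cfsg.layer G) ⧸ Subgroup.center ↥(Cfsg.layer G)) := by
  obtain ⟨K, hK⟩ := layer_ne_bot_iff.1 hE
  have huniq : ∀ L : Subgroup G, IsComponent L → L ≤ K := by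
    intro L hL
    by_contra hne
    have hne' : K ≠ L := fun h => hne (h ▸ le_rfl)
    obtain ⟨x, hx, ⟨a, ha⟩, hxc⟩ := exists_two_elt hK.isQuasisimple
    obtain ⟨y, hy, ⟨b, hb⟩, hyc⟩ := exists_two_elt hL.isQuasisimple
    rcases le_total b a with hab | hab
    · exact aux hP hK hL hne' hx hy ha hb hab hxc hyc
    · exact aux hP hL hK hne'.symm hy hx hb ha hab hyc hxc
  have hEK : layer G = K := le_antisymm (layer_le huniq) hK.le_layer
  have hq : IsQuasisimple (layer G) := hEK ▸ hK.isQuasisimple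
  exact ⟨hq.isSimpleGroup_quotient, hq.not_isMulCommutative_quotient⟩

end Cfsg.Agent.S3915
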