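import Mathlib
import Cfsg.Statements.S3917
import Cfsg.Agent.FG.H92Basic
import Cfsg.Agent.GT.PGroupRank

set_option autoImplicit false
open Cfsg

namespace Cfsg.Agent.S3917

section aux

open Subgroup Cfsg.Agent.GT Cfsg.Agent.FG Cfsg.Agent.FG.H92
open scoped commutatorElement



end aux

open Subgroup Cfsg.Agent.GT Cfsg.Agent.FG Cfsg.Agent.FG.H92 in
open scoped commutatorElement in
/-- Say that a group has self-centralizing non-cyclic subgroups when every non-cyclic subgroup H satisfies C_G(H) ≤ H. A finite abelian group with self-centralizing non-cyclic subgroups is cyclic or elementary abelian of order p² for a prime p. -/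
theorem result {G : Type*} [CommGroup G] [Finite G] (hX : (∀ H : Subgroup G, ¬ IsCyclic ↥H → Subgroup.centralizer (H : Set G) ≤ H)) :
    IsCyclic G ∨ ∃ p : ℕ, p.Prime ∧ Nat.card G = p ^ 2 ∧ Monoid.exponent G = p := by
  by_cases hc : IsCyclic G
  · exact Or.inl hc
  right
  have hZ : ¬ IsZGroup G := fun h => hc inferInstance
  obtain ⟨p, hp, P, hP⟩ : ∃ p : ℕ, p.Prime ∧ ∃ P : Sylow p G, ¬ IsCyclic P := by
    by_contra h
    push Not at h
    exact hZ ⟨h⟩
  have : Fact p.Prime := ⟨hp⟩
  obtain ⟨E, -, hE, hEc⟩ := PG.exists_elementary_sq_of_not_isCyclic P.isPGroup' inferInstance hP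
  have h1 : E = ⊤ := by
    rw [eq_top_iff]
    intro x _
    exact hX E (hE.not_isCyclic hEc le_rfl) (fun y _ => mul_comm y x)
  subst h1
  rw [card_top] at hEc
  have : Nontrivial G := by
    rw [← Finite.one_lt_card_iff_nontrivial, hEc]
    exact Nat.one_lt_pow two_ne_zero hp.one_lt
  exact ⟨p, hp, hEc, (Monoid.exponent_eq_prime_iff hp).2 fun g hg => hE.orderOf_eq (mem_top g) hg⟩

end Cfsg.Agent.S3917
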