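import Mathlib
import Cfsg.Statements.S3919
import Cfsg.Agent.S3918

set_option autoImplicit false
open Cfsg

namespace Cfsg.Agent.S3919

section aux

open Subgroup Cfsg.Agent.GT Cfsg.Agent.FG Cfsg.Agent.FG.H92
open scoped commutatorElement

theorem selfcent_of_maxTwo {G : Type*} [Group G] {m : ℕ} {a b : G} (h : PG.MaxTwo m a b)
    (H : Subgroup G) (hH : ¬ IsCyclic H) : centralizer (H : Set G) ≤ H := by
  have := h.finite
  obtain ⟨g, hgH, hg⟩ : ∃ g ∈ H, g ∉ zpowers a := by
    by_contra hh
    push Not at hh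
    exact hH (Subgroup.isCyclic_of_le hh)
  refine (centralizer_le_centralizer_singleton hgH).trans ?_
  rw [h.centralizer_eq_of_notMem hg, h.center_eq]
  refine sup_le (zpowers_le_of_mem ?_) (zpowers_le_of_mem hgH)
  have h1 : H ⊓ zpowers a ≠ ⊥ := by
    intro h0
    apply hH
    have h2 : H = zpowers g := by
      refine le_antisymm (fun y hy => ?_) (zpowers_le_of_mem hgH)
      rcases PG.mem_or_mem_of_index_two h.index_eq hg y with h3 | h3
      · have : y ∈ H ⊓ zpowers a := ⟨hy, h3⟩
        rw [h0, mem_bot] at this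
        rw [this]; exact one_mem _
      · have : g⁻¹ * y ∈ H ⊓ zpowers a := ⟨H.mul_mem (H.inv_mem hgH) hy, h3⟩
        rw [h0, mem_bot, inv_mul_eq_one] at this
        rw [← this]; exact mem_zpowers g
    rw [h2]; infer_instance
  obtain ⟨x, hx, hx1, hx2⟩ := PG.exists_mem_ne_one_pow_eq_one (h.isPGroup.to_subgroup _) h1
  rcases PG.eq_one_or_eq_of_sq_eq_one h.orderOf_eq hx.2 hx2 with h3 | h3
  · exact absurd h3 hx1
  · exact h3 ▸ hx.1

end aux

open Subgroup Cfsg.Agent.GT Cfsg.Agent.FG Cfsg.Agent.FG.H92 in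
open scoped commutatorElement in
/-- Say that a group has self-centralizing non-cyclic subgroups when every non-cyclic subgroup H satisfies C_G(H) ≤ H. A finite non-abelian 2-group G of order 2^n has self-centralizing non-cyclic subgroups if and only if G has nilpotency class n − 1 (that is, G is dihedral, semidihedral or generalized quaternion). -/
theorem result {G : Type*} [Group G] [Finite G] (hna : ¬ IsMulCommutative G) (n : ℕ) (hG : Nat.card G = 2 ^ n) :
    (∀ H : Subgroup G, ¬ IsCyclic ↥H → Subgroup.centralizer (H : Set G) ≤ H) ↔ (⊤ : Subgroup G).lowerCentralSeries (n - 2) ≠ ⊥ := by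
  have hp : IsPGroup 2 G := IsPGroup.of_card hG
  have hn3 : 3 ≤ n := by
    have := S3918.cube_dvd_card hp hna
    rw [hG] at this
    exact (Nat.pow_dvd_pow_iff_le_right one_lt_two).1 this
  constructor
  · intro h
    by_cases hA : ∃ A : Subgroup G, A.Normal ∧ IsElementaryAbelian 2 A ∧ Nat.card A = 2 ^ 2
    · obtain ⟨A, hn, hA, hc⟩ := hA
      have h1 := S3918.card_eq_of_normal hp hna h hA hc
      rw [hG] at h1
      obtain rfl : n = 3 := Nat.pow_right_injective le_rfl h1
      intro h2
      apply hna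
      have h3 : ⁅(⊤ : Subgroup G), (⊤ : Subgroup G)⁆ = ⊥ := h2
      rw [commutator_eq_bot_iff_le_centralizer] at h3
      exact PG.isMulCommutative_top_iff.1 (isMulCommutative_iff_le.2 h3)
    · push Not at hA
      rcases PG.isCyclic_or_maxTwo_of_no_normal_elementary_sq hp hA with h1 | ⟨-, m, a, b, h1⟩
      · exact absurd IsCyclic.isMulCommutative hna
      · have h2 := h1.eq_of_card hG
        obtain ⟨k, rfl⟩ := Nat.exists_eq_add_of_le' h1.one_le
        subst h2
        change (⊤ : Subgroup G).lowerCentralSeries (k + 1) ≠ ⊥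
        rw [h1.lowerCentralSeries_eq, Ne, zpowers_eq_bot]
        exact h1.z_ne_one
  · intro h
    obtain ⟨k, rfl⟩ := Nat.exists_eq_add_of_le' hn3
    have := hp.isNilpotent
    have h1 := PG.nilpotencyClass_le_of_card (p := 2) (n := k + 1) hG
    have h2 : ¬ Group.nilpotencyClass G ≤ k + 1 := fun h3 =>
      h (Subgroup.lowerCentralSeries_eq_bot_iff_nilpotencyClass_le.2 h3)
    obtain ⟨a, b, h3⟩ := PG.exists_maxTwo_of_maxClass hG (by omega)
    exact selfcent_of_maxTwo h3

end Cfsg.Agent.S3919
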