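import Mathlib
import Cfsg.Statements.S3920
import Cfsg.Agent.S3919

set_option autoImplicit false
open Cfsg

namespace Cfsg.Agent.S3920

section aux

open Subgroup Cfsg.Agent.GT Cfsg.Agent.FG Cfsg.Agent.FG.H92 DihedralGroup
open scoped commutatorElement

def sub (n q : ℕ) : Subgroup (DihedralGroup n) where
  carrier := {g | match g with | r i => (q : ZMod n) * i = 0 | sr i => (q : ZMod n) * i = 0}
  one_mem' := by change (q : ZMod n) * 0 = 0; simp
  mul_mem' := by
    rintro (i | i) (j | j) hi hj <;> simp only [Set.mem_setOf_eq] at hi hj ⊢ <;>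
      simp [mul_add, mul_sub, hi, hj]
  inv_mem' := by
    rintro (i | i) hi <;> simp only [Set.mem_setOf_eq] at hi ⊢ <;> simp [hi]

end aux

open Subgroup Cfsg.Agent.GT Cfsg.Agent.FG Cfsg.Agent.FG.H92 DihedralGroup in
open scoped commutatorElement in
/-- Say that a group has self-centralizing non-cyclic subgroups when every non-cyclic subgroup H satisfies C_G(H) ≤ H. For n ≥ 3, the dihedral group of order 2n has self-centralizing non-cyclic subgroups if and only if n is odd or a power of 2. -/
theorem result (n : ℕ) (hn : 3 ≤ n) : (∀ H : Subgroup (DihedralGroup n), ¬ IsCyclic ↥H → Subgroup.centralizer (H : Set (DihedralGroup n)) ≤ H) ↔ (Odd n ∨ ∃ k : ℕ, n = 2 ^ k) := by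
  have : NeZero n := ⟨by omega⟩
  constructor
  · intro h
    by_contra hne
    push Not at hne
    obtain ⟨hev, hpow⟩ := hne
    obtain ⟨m, rfl⟩ := Nat.not_odd_iff_even.1 hev
    obtain ⟨q, hq, hqd, hq2⟩ : ∃ q : ℕ, q.Prime ∧ q ∣ m + m ∧ q ≠ 2 := by
      by_contra hh
      push Not at hh
      exact hpow _ (Nat.eq_prime_pow_of_unique_prime_dvd (by omega) fun hq hd => hh _ hq hd)
    obtain ⟨d, hd⟩ := hqd
    have hd0 : 0 < d := by
      rcases Nat.eq_zero_or_pos d with rfl | h
      · omega
      · exact h
    have hq3 : 3 ≤ q := by have := hq.two_le; omega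
    have h1 : ¬ IsCyclic (sub (m + m) q) := by
      intro hc
      have h2 := comm_of_isMulCommutative (A := sub (m + m) q) IsCyclic.isMulCommutative
        (a := r (d : ZMod (m + m))) (b := sr 0)
        (by change (q : ZMod (m + m)) * d = 0
            rw [← Nat.cast_mul, ← hd, ZMod.natCast_self])
        (by change (q : ZMod (m + m)) * 0 = 0; simp)
      simp only [r_mul_sr, sr_mul_r, zero_sub, zero_add, sr.injEq] at h2
      have h3 : ((2 * d : ℕ) : ZMod (m + m)) = 0 := by
        push_cast; linear_combination -h2
      rw [ZMod.natCast_eq_zero_iff] at h3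
      have := Nat.le_of_dvd (by omega) h3
      nlinarith
    have hmm : (m : ZMod (m + m)) + m = 0 := by rw [← Nat.cast_add, ZMod.natCast_self]
    have h2 : r (m : ZMod (m + m)) ∈ sub (m + m) q := by
      apply h _ h1
      rintro (i | i) -
      · simp [add_comm]
      · simp only [sr_mul_r, r_mul_sr, sr.injEq]
        linear_combination hmm
    have h3 : ((q * m : ℕ) : ZMod (m + m)) = 0 := by push_cast; exact h2
    rw [ZMod.natCast_eq_zero_iff, ← two_mul] at h3
    have h4 := Nat.dvd_of_mul_dvd_mul_right (by omega : 0 < m) h3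
    exact hq2 ((Nat.prime_dvd_prime_iff_eq Nat.prime_two hq).1 h4).symm
  · rintro (hodd | ⟨k, rfl⟩) H hH
    · obtain ⟨j, hj⟩ : ∃ j, sr j ∈ H := by
        by_contra hh
        push Not at hh
        apply hH
        apply Subgroup.isCyclic_of_le (H' := zpowers (r 1))
        rintro (i | i) hi
        · exact ⟨(i.val : ℕ), by simp⟩
        · exact absurd hi (hh i)
      have hu : IsUnit (2 : ZMod n) := by
        have := (ZMod.isUnit_iff_coprime 2 n).2 (Nat.coprime_two_left.2 hodd)
        simpa using this
      rintro (i | i) hi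
      · have h1 := hi _ hj
        simp only [sr_mul_r, r_mul_sr, sr.injEq] at h1
        have : i = 0 := hu.mul_right_eq_zero.1 (by linear_combination h1)
        rw [this]; exact H.one_mem
      · have h1 := hi _ hj
        simp only [sr_mul_sr, r.injEq] at h1
        have : i - j = 0 := hu.mul_right_eq_zero.1 (by linear_combination h1)
        rw [sub_eq_zero.1 this]; exact hj
    · have hk : 2 ≤ k := by
        by_contra hlt
        have : k = 0 ∨ k = 1 := by omega
        rcases this with rfl | rfl <;> omega
      obtain ⟨m, rfl⟩ := Nat.exists_eq_add_of_le' (by omega : 1 ≤ k)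
      obtain ⟨a, b, h, -⟩ := PG.exists_maxTwo_of_dihedral (m := m) (by omega) (MulEquiv.refl _)
      exact S3919.selfcent_of_maxTwo h H hH

end Cfsg.Agent.S3920
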