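import Mathlib
import Cfsg.Statements.S3922
import Cfsg.Agent.FG.ConjTypeG
-- import your own Cfsg.Agent.* helpers here

set_option autoImplicit false
open Cfsg

namespace Cfsg.Agent.S3922

open Subgroup Cfsg.Agent.FG.CI Cfsg.Agent.FG.CT

/-- A finite group whose conjugacy classes have exactly three distinct sizes (1 and two further values) is solvable. -/
theorem result {G : Type*} [Group G] [Finite G] (n₁ n₂ : ℕ) (h12 : n₂ < n₁) (h2 : 1 < n₂)
    (h : ∀ x : G, (Subgroup.centralizer ({x} : Set G)).index = 1 ∨ (Subgroup.centralizer ({x} : Set G)).index = n₂ ∨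
      (Subgroup.centralizer ({x} : Set G)).index = n₁)
    (h₁ : ∃ x : G, (Subgroup.centralizer ({x} : Set G)).index = n₁) (h₂ : ∃ x : G, (Subgroup.centralizer ({x} : Set G)).index = n₂) :
    Group.IsSolvable G := by
  exact isSolvable_of_three_sizes h12 h2
    (fun x hx => (h x).resolve_left fun e => hx (cidx_eq_one_iff.1 e)) h₁ h₂

end Cfsg.Agent.S3922
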