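import Mathlib
-- Template for statement S3933 (row 3933; see /opt/grader/pristine/manifest.json for weights).
-- Copy to Cfsg/Agent/S3933.lean and replace the sorry. The statement below is byte-identical to the frozen
-- statement Cfsg.CfsgFrozen.S3933 (Cfsg/Statements/S3933.lean; the theorem Cfsg.fg3_all_sylow_numbers_prime_powers_implies_solvable);
-- the grader kernel-checks Cfsg.Agent.S3933.result against that frozen type. Keep the theorem IN THIS FILE
-- (a `result` declared elsewhere and merely imported here is not credited); helpers may live anywhere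
-- under Cfsg/Agent/.
import Cfsg.Statements.S3933
import Cfsg.Agent.FG.SylowCount
import Cfsg.Agent.FG.SylowNormal
import Cfsg.Agent.FG.H93Solv
import Cfsg.Agent.Ch.Burnside
import Cfsg.Agent.S0007

set_option autoImplicit false
set_option linter.style.haveILetI false
set_option linter.unusedVariables false
open Cfsg

namespace Cfsg.Agent.S3933

open Cfsg.Agent.FG Cfsg.Agent.FG.H96 Cfsg.Agent.FG.H93 Subgroup

theorem eq_top {G : Type*} [Group G] [Finite G] [IsSimpleGroup G] {p : ℕ} [hp : Fact p.Prime]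
    (h : p ∣ Nat.card G) (P : Sylow p G) {H : Subgroup G} (hP : (P : Subgroup G) ≤ H)
    (hH : H.index.Coprime (Nat.card (Sylow p G))) : H = ⊤ := by
  rw [P.card_eq_index_normalizer] at hH
  refine top_le_iff.1 (((normalCore_normal H).eq_bot_or_eq_top.resolve_left fun e =>
    P.ne_bot_of_dvd_card h (eq_bot_iff.2 (e ▸ fun x hx g => ?_))).ge.trans H.normalCore_le)
  obtain ⟨a, ha, n, hn, rfl⟩ := (S0007.result _ _ hH).2 g
  rw [show a * n * x * (a * n)⁻¹ = a * (n * x * n⁻¹) * a⁻¹ by group]
  exact mul_mem (mul_mem ha (hP ((mem_normalizer_iff.1 hn x).1 hx))) (inv_mem ha)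

theorem simple {G : Type*} [Group G] [Finite G] [IsSimpleGroup G]
    (h : ∀ r : ℕ, r.Prime → ∃ s a : ℕ, s.Prime ∧ Nat.card (Sylow r G) = s ^ a) :
    Group.IsSolvable G := by
  by_contra hG
  choose! s a hs ha using h
  have h1 : ∀ r : ℕ, r.Prime → r ∣ Nat.card G → s r ∣ Nat.card (Sylow r G) := fun r hr hd => by
    haveI := Fact.mk hr
    obtain ⟨P⟩ : Nonempty (Sylow r G) := inferInstance
    refine (ha r hr).symm ▸ dvd_pow_self _ fun e => hG (isSolvable_of_isPGroup hr ?_)
    have h2 := ha r hr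
    rw [e, pow_zero, P.card_eq_index_normalizer, index_eq_one] at h2
    exact (((normalizer_eq_top_iff (H := (P : Subgroup G))).1 h2).eq_bot_or_eq_top.resolve_left
      (P.ne_bot_of_dvd_card hd) ▸ P.isPGroup').of_equiv topEquiv
  have h2 : ∀ p q : ℕ, p.Prime → q.Prime → p ∣ Nat.card G → q ∣ Nat.card G →
      s q = p ∨ s q = s p := fun p q hp hq hp' hq' => by
    haveI := Fact.mk hp
    haveI := Fact.mk hq
    by_contra e
    push Not at e
    obtain ⟨Q⟩ : Nonempty (Sylow q G) := inferInstance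
    have h3 := Q.card_eq_index_normalizer.symm.trans (ha q hq)
    obtain ⟨P, -, hP⟩ := exists_sylow_le_of_not_dvd_index (p := p) (R := ⊥) (fun h => e.1
      ((Nat.prime_dvd_prime_iff_eq hp (hs q hq)).1 (hp.dvd_of_dvd_pow (h3 ▸ h))).symm)
      IsPGroup.of_bot bot_le
    have h4 := eq_top hp' P hP (by
      rw [h3, ha p hp]
      exact Nat.Coprime.pow _ _ ((Nat.coprime_primes (hs q hq) (hs p hp)).2 e.2))
    have h5 := h1 q hq hq'
    rw [Q.card_eq_index_normalizer, h4, index_top, Nat.dvd_one] at h5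
    exact (hs q hq).ne_one h5
  have h3 : ∀ p : ℕ, p.Prime → p ∣ Nat.card G → s p ∣ Nat.card G ∧ s p ≠ p := fun p hp hd => by
    haveI := Fact.mk hp
    obtain ⟨P⟩ : Nonempty (Sylow p G) := inferInstance
    refine ⟨(h1 p hp hd).trans (P.card_eq_index_normalizer ▸ index_dvd_card _), fun e => ?_⟩
    exact not_dvd_card_sylow p G (e ▸ h1 p hp hd :)
  obtain ⟨p, hp, hd⟩ := Nat.exists_prime_and_dvd (Finite.one_lt_card (α := G)).ne'
  refine hG (Ch.burnside_isSolvable_of_primes (p := p) (hs p hp) fun r hr hr' => ?_)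
  rw [← (h2 r (s r) hr (hs r hr) hr' (h3 r hr hr').1).resolve_right
    (h3 _ (hs r hr) (h3 r hr hr').1).2]
  exact h2 p (s r) hp (hs r hr) hd (h3 r hr hr').1


/-- If for every prime r the number of Sylow r-subgroups of the finite group G is a prime power or 1, then G is solvable. -/
theorem result {G : Type*} [Group G] [Finite G] (h : ∀ (r : ℕ) [Fact r.Prime], Nat.card (Sylow r G) = 1 ∨ IsPrimePow (Nat.card (Sylow r G))) :
    Group.IsSolvable G := by
  have key : ∀ {m n : ℕ}, m ∣ n → (∃ s a : ℕ, s.Prime ∧ n = s ^ a) →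
      ∃ s a : ℕ, s.Prime ∧ m = s ^ a := by
    rintro m _ hm ⟨s, a, hs, rfl⟩
    obtain ⟨b, -, rfl⟩ := (Nat.dvd_prime_pow hs).1 hm
    exact ⟨s, b, hs, rfl⟩
  refine isSolvable_of_simple_sections (P := fun G _ _ => ∀ r : ℕ, r.Prime →
    ∃ s a : ℕ, s.Prime ∧ Nat.card (Sylow r G) = s ^ a) (fun G _ _ N _ h r hr => key ?_ (h r hr))
    (fun G _ _ N _ h r hr => key ?_ (h r hr)) (fun G _ _ _ => simple) G fun r hr => ?_
  all_goals haveI := Fact.mk hr
  · obtain ⟨P⟩ : Nonempty (Sylow r G) := inferInstance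
    rw [card_sylow_normal P, ← relIndex_sup_normal, P.card_eq_index_normalizer]
    refine (relIndex_dvd_index_of_le le_sup_left).trans (index_dvd_of_le fun g hg => ?_)
    refine mem_normalizer_iff.2 fun x => and_congr (mem_normalizer_iff.1 hg x)
      ⟨fun hx => ‹N.Normal›.conj_mem x hx g, fun hx => ?_⟩
    simpa [mul_assoc] using ‹N.Normal›.conj_mem' _ hx g
  · obtain ⟨P⟩ : Nonempty (Sylow r G) := inferInstance
    exact ⟨_, card_sylow_eq_quotient_mul N P⟩
  · rcases h r with h | h
    · exact ⟨2, 0, Nat.prime_two, h⟩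
    · obtain ⟨s, a, hs, -, e⟩ := (isPrimePow_nat_iff _).1 h
      exact ⟨s, a, hs, e.symm⟩

end Cfsg.Agent.S3933
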