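import Mathlib
import Cfsg.Statements.S3939
import Cfsg.Agent.GT.Zipper
import Cfsg.Agent.GT.Fitting
import Cfsg.Agent.GT.PGroupChain
import Cfsg.Agent.GT.Conj

set_option autoImplicit false
open Cfsg

namespace Cfsg.Agent.S3939

section aux

open Subgroup Cfsg.Agent.GT 
open scoped commutatorElement

universe u

theorem center_ne_bot {G : Type*} [Group G] [Finite G] {g : G} (hg : g ≠ 1)
    (h : ∀ x : G, Group.IsNilpotent ↥(Subgroup.closure ({x, g} : Set G))) : center G ≠ ⊥ := by
  obtain ⟨p, hp, hpg⟩ := Nat.exists_prime_and_dvd (orderOf_eq_one_iff.not.mpr hg)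
  haveI := Fact.mk hp
  let y := g ^ (orderOf g / p)
  have hy : orderOf y = p := orderOf_pow_orderOf_div (orderOf_pos g).ne' hpg
  have hyx : ∀ x : G, Group.IsNilpotent ↥(Subgroup.closure ({x, y} : Set G)) := by
    intro x
    have hle : closure ({x, y} : Set G) ≤ closure ({x, g} : Set G) := by
      rw [closure_le]
      rintro _ (rfl | rfl)
      · exact subset_closure (by simp)
      · exact pow_mem (subset_closure (by simp)) _
    haveI := h x
    exact Group.nilpotent_of_mulEquiv (subgroupOfEquivOfLe hle)
  have hyP : IsPGroup p (zpowers y) := IsPGroup.of_card (n := 1) (by rw [Nat.card_zpowers, hy, pow_one])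
  have h1 : y ∈ pCore p G := by
    refine le_pCore_of_le_fitting hyP (zpowers_le.mpr ?_) (mem_zpowers y)
    refine mem_fitting_of_forall_isNilpotent fun x => ?_
    rw [Set.pair_comm]
    exact hyx _
  let S : Set G := {x | (orderOf x).Coprime p}
  have hS : (centralizer S).Normal := ⟨by
    intro n hn a x hx
    have hx' : a⁻¹ * x * a⁻¹⁻¹ ∈ S := by
      change (orderOf _).Coprime p
      rw [orderOf_conj]; exact hx
    have := hn _ hx'
    calc x * (a * n * a⁻¹) = a * (a⁻¹ * x * a⁻¹⁻¹ * n) * a⁻¹ := by group
      _ = a * n * a⁻¹ * x := by rw [this]; group⟩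
  have h2 : y ∈ centralizer S := by
    intro x hx
    haveI := hyx x
    exact commute_of_coprime_of_isNilpotent (H := closure ({x, y} : Set G))
      (subset_closure (by simp)) (subset_closure (by simp)) (by rw [hy]; exact hx)
  obtain ⟨P⟩ : Nonempty (Sylow p G) := inferInstance
  have h3 := PG.inf_centralizer_ne_bot_of_isPGroup (M := pCore p G ⊓ centralizer S)
    (H := (P : Subgroup G)) ((isPGroup_pCore p).to_inf_left) P.isPGroup'
    le_normalizer_of_normal (by
      intro hb
      have : y ∈ pCore p G ⊓ centralizer S := ⟨h1, h2⟩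
      rw [hb, mem_bot] at this
      rw [this, orderOf_one] at hy
      exact hp.one_lt.ne hy)
  intro hZ
  apply h3
  rw [eq_bot_iff, ← hZ]
  rintro z ⟨⟨-, hz1⟩, hz2⟩
  have h4 : centralizer ({z} : Set G) = ⊤ := by
    refine eq_top_of_forall_sylow_le fun q hq _ => ?_
    by_cases hqp : q = p
    · subst hqp
      exact ⟨P, le_centralizer_singleton_iff.mpr hz2⟩
    · haveI := Fact.mk hq
      obtain ⟨Q⟩ : Nonempty (Sylow q G) := inferInstance
      refine ⟨Q, fun x hx => mem_centralizer_singleton_iff.mpr (hz1 x ?_)⟩
      obtain ⟨k, hk⟩ := (IsPGroup.iff_orderOf.mp Q.isPGroup') ⟨x, hx⟩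
      change (orderOf x).Coprime p
      rw [← Subgroup.orderOf_mk x hx, hk]
      exact ((Nat.coprime_primes hq hp).mpr hqp).pow_left k
  rw [mem_center_iff]
  intro x
  have : x ∈ centralizer ({z} : Set G) := h4 ▸ mem_top x
  exact mem_centralizer_singleton_iff.mp this

theorem aux (n : ℕ) : ∀ (G : Type u) [Group G] [Finite G] (g : G), Nat.card G = n →
    (∀ x : G, Group.IsNilpotent ↥(Subgroup.closure ({x, g} : Set G))) →
    ∃ k, g ∈ Subgroup.upperCentralSeries G k := by
  induction n using Nat.strong_induction_on with
  | h n ih =>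
  intro G _ _ g hn h
  by_cases hg : g = 1
  · exact ⟨0, hg ▸ one_mem _⟩
  have hZ := center_ne_bot hg h
  obtain ⟨k, hk⟩ := ih (Nat.card (G ⧸ center G)) (by
    rw [← hn, card_eq_card_quotient_mul_card_subgroup (center G)]
    exact lt_mul_of_one_lt_right Nat.card_pos ((one_lt_card_iff_ne_bot _).mpr hZ))
    (G ⧸ center G) (g : G ⧸ center G) rfl (by
      intro x
      obtain ⟨x, rfl⟩ := QuotientGroup.mk_surjective x
      haveI := h x
      have : closure ({(x : G ⧸ center G), (g : G ⧸ center G)} : Set (G ⧸ center G)) =
          (closure ({x, g} : Set G)).map (QuotientGroup.mk' (center G)) := by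
        rw [MonoidHom.map_closure, Set.image_pair]
        rfl
      rw [this]
      exact Group.nilpotent_of_surjective _ ((QuotientGroup.mk' (center G)).subgroupMap_surjective _))
  exact ⟨k + 1, by rw [← Subgroup.comap_upperCentralSeries_quotient_center]; exact hk⟩

end aux

open Subgroup Cfsg.Agent.GT  in
open scoped commutatorElement in
/-- In a finite group G the set of elements g such that the subgroup generated by g and x is nilpotent for every x ∈ G is exactly the hypercenter of G (the last term of the upper central series). -/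
theorem result {G : Type*} [Group G] [Finite G] (g : G) :
    (∀ x : G, Group.IsNilpotent ↥(Subgroup.closure ({x, g} : Set G))) ↔ g ∈ ⨆ n : ℕ, Subgroup.upperCentralSeries G n := by
  constructor
  · intro h
    obtain ⟨k, hk⟩ := aux _ G g rfl h
    exact mem_iSup_of_mem k hk
  · intro h x
    obtain ⟨n, hn⟩ := (mem_iSup_of_directed (Subgroup.upperCentralSeries_mono G).directed_le).mp h
    have h1 : ⁅closure ({x, g} : Set G), closure ({x, g} : Set G)⁆ ≤ Subgroup.upperCentralSeries G n := by
      rw [commutator_le_iff_map_mk', MonoidHom.map_closure, Set.image_pair,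
        commutator_self_eq_bot_iff]
      have : (QuotientGroup.mk' (Subgroup.upperCentralSeries G n)) g = 1 := (QuotientGroup.eq_one_iff g).mpr hn
      rw [this, Set.pair_comm, closure_insert_one, ← zpowers_eq_closure]
      infer_instance
    have h2 : ∀ k ≤ n, (closure ({x, g} : Set G)).lowerCentralSeries (k + 1) ≤
        Subgroup.upperCentralSeries G (n - k) := by
      intro k
      induction k with
      | zero => intro _; exact h1
      | succ k ih =>
        intro hk
        rw [Subgroup.lowerCentralSeries_succ]
        refine (commutator_mono (ih (by omega)) le_top).trans ?_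
        rw [show n - k = n - (k + 1) + 1 by omega]
        exact commutator_upperCentralSeries_top_le G _
    refine (isNilpotent_iff_lowerCentralSeries _).mpr ⟨n + 1, ?_⟩
    simpa using h2 n le_rfl

end Cfsg.Agent.S3939
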