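import Cfsg.Statements.S3941
import Cfsg.Agent.Sym.Cover

set_option autoImplicit false
open Cfsg

namespace Cfsg.Agent.S3941

theorem aux {β : Type*} [Fintype β] [DecidableEq β] (h4 : 4 ≤ Fintype.card β) {p : ℕ}
    [Fact p.Prime] (hp : p ≠ 2) (hd : p ∣ Nat.card (alternatingGroup β))
    (P : Sylow p (alternatingGroup β)) : ¬ (P : Subgroup (alternatingGroup β)).Normal := by
  intro hN
  have htop : (P : Subgroup (alternatingGroup β)) = ⊤ := by
    rcases h4.eq_or_lt with h | h
    · rw [alternatingGroup.card_of_card_eq_four (by simp [← h])] at hd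
      have h3 : p = 3 := by
        have h1 := Nat.le_of_dvd (by norm_num) hd
        have h2 : p.Prime := Fact.out
        interval_cases p <;> simp_all (config := {decide := true})
      subst h3
      rw [eq_top_iff, ← alternatingGroup.closure_isThreeCycles_eq_top, Subgroup.closure_le]
      intro g hg
      have h1 : IsPGroup 3 (Subgroup.zpowers g) := IsPGroup.of_card (n := 1) (by
        rw [Nat.card_zpowers, ← Subgroup.orderOf_coe, Equiv.Perm.IsThreeCycle.orderOf hg, pow_one])
      obtain ⟨Q, hQ⟩ := h1.exists_le_sylow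
      haveI := Sylow.unique_of_normal P hN
      exact (Subsingleton.elim Q P ▸ hQ) (Subgroup.mem_zpowers g)
    · exact ((alternatingGroup.isSimpleGroup (by rw [Nat.card_eq_fintype_card]; omega)).eq_bot_or_eq_top_of_normal _
        hN).resolve_left (P.ne_bot_of_dvd_card hd)
  obtain ⟨a, b, c, d, hab, hac, had, hbc, hbd, hcd⟩ := Sym.exists_four_ne h4
  obtain ⟨k, hk⟩ := P.isPGroup' ⟨⟨_, Equiv.Perm.mem_alternatingGroup.2
    (Sym.sign_swap_mul_swap hab hcd)⟩, htop ▸ Subgroup.mem_top _⟩
  have h1 : (Equiv.swap a b * Equiv.swap c d) ^ p ^ k = 1 :=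
    congrArg Subtype.val (congrArg Subtype.val hk)
  obtain ⟨m, hm⟩ : Odd (p ^ k) := ((Fact.out : p.Prime).odd_of_ne_two hp).pow
  rw [hm, pow_succ, pow_mul, pow_two, Sym.swap_mul_swap_mul_self hac had hbc hbd, one_pow,
    one_mul] at h1
  have := congrArg (fun g : Equiv.Perm β => g a) h1
  simp [Equiv.swap_apply_of_ne_of_ne hac had, hab.symm] at this

/-- Let n ≥ 5 and p an odd prime with p ≤ n, and suppose that every proper subgroup of the alternating group of degree n whose order is divisible by p has a normal Sylow p-subgroup. Then n = p. -/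
theorem result (n p : ℕ) (hn : 5 ≤ n) [Fact p.Prime] (hp : p ≠ 2) (hpn : p ≤ n)
    (h : ∀ H : Subgroup ↥(alternatingGroup (Fin n)), H ≠ ⊤ → p ∣ Nat.card ↥H → Cfsg.IsPClosed p ↥H) : n = p := by
  by_contra hne
  have hs : (Finset.univ.erase (⟨0, by omega⟩ : Fin n)).card = n - 1 := by
    rw [Finset.card_erase_of_mem (Finset.mem_univ _)]; simp
  set s := Finset.univ.erase (⟨0, by omega⟩ : Fin n) with hs'
  have hc : Fintype.card s = n - 1 := by simp [hs]
  let e := MonoidHom.ofInjective (alternatingGroup.ofSubtype_injective (s := s))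
  haveI : Nontrivial s := Fintype.one_lt_card_iff_nontrivial.1 (by omega)
  have hd : p ∣ Nat.card (alternatingGroup s) := by
    have h1 := two_mul_nat_card_alternatingGroup (α := s)
    rw [Nat.card_perm, Nat.card_eq_fintype_card (α := s), hc] at h1
    have h2 : p ∣ 2 * Nat.card (alternatingGroup s) :=
      h1 ▸ (Fact.out : p.Prime).dvd_factorial.2 (by omega)
    exact ((Nat.coprime_primes Fact.out Nat.prime_two).2 hp).dvd_of_dvd_mul_left h2
  have h1 := h (alternatingGroup.ofSubtype s).range (fun ht => by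
    have h2 : Sym.altCyc3 (a := (⟨0, by omega⟩ : Fin n)) (b := ⟨1, by omega⟩) (c := ⟨2, by omega⟩)
        (by simp) (by simp) ∈ (alternatingGroup.ofSubtype s).range := ht ▸ Subgroup.mem_top _
    rw [alternatingGroup.mem_range_ofSubtype_iff, Sym.altCyc3,
      Sym.support_cyc3 (by simp) (by simp) (by simp)] at h2
    simpa [hs'] using h2 (Finset.mem_insert_self _ _)) (Nat.card_congr e.toEquiv ▸ hd)
  obtain ⟨P⟩ : Nonempty (Sylow p (alternatingGroup s)) := inferInstance
  refine aux (by omega) hp hd P ?_
  have h2 : ((P : Subgroup _).map e.toMonoidHom).Normal :=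
    h1 (P.mapSurjective (f := e.toMonoidHom) e.surjective)
  have h3 := h2.comap e.toMonoidHom
  rwa [Subgroup.comap_map_eq_self_of_injective (f := e.toMonoidHom) e.injective] at h3

end Cfsg.Agent.S3941
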