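import Mathlib
import Cfsg.Statements.S3947
import Cfsg.Agent.FG.GenZipper

set_option autoImplicit false
open Cfsg

namespace Cfsg.Agent.S3947

section aux

open Subgroup Cfsg.Agent.GT Cfsg.Agent.FG.GZ
open scoped commutatorElement



end aux

open Subgroup Cfsg.Agent.GT Cfsg.Agent.FG.GZ in
open scoped commutatorElement in
/-- Let G be a finite group and A a proper subgroup of G whose normal closure is G. Let Y be the join of all proper subgroups H of G that contain A and are generated by their own conjugates of A (the normal closure of A in H is H). Then either Y = G, or A is contained in exactly one maximal subgroup of G. -/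
theorem result {G : Type*} [Group G] [Finite G] (A : Subgroup G) (hA : Subgroup.normalClosure (A : Set G) = ⊤) (hAG : A ≠ ⊤) :
    sSup {H : Subgroup G | A ≤ H ∧ H ≠ ⊤ ∧ Subgroup.normalClosure ((A.subgroupOf H : Subgroup ↥H) : Set ↥H) = ⊤} = ⊤ ∨
      ∃! M : Subgroup G, IsCoatom M ∧ A ≤ M := by
  by_cases h : sSup {H : Subgroup G | A ≤ H ∧ H ≠ ⊤ ∧
    Subgroup.normalClosure ((A.subgroupOf H : Subgroup ↥H) : Set ↥H) = ⊤} = ⊤
  · exact Or.inl h
  right
  obtain ⟨M, hM, hle⟩ := (eq_top_or_exists_le_coatom _).resolve_left h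
  have hA' : GenBy A ⊤ := by
    intro N hAN hn
    haveI : N.Normal := normalizer_eq_top_iff.mp (top_le_iff.mp hn)
    rw [← hA]
    exact normalClosure_le_normal hAN
  have hall : ∀ H, A ≤ H → H ≠ ⊤ → GenBy A H → H ≤ M := fun H h1 h2 h3 =>
    (le_sSup (show H ∈ {H : Subgroup G | A ≤ H ∧ H ≠ ⊤ ∧
      Subgroup.normalClosure ((A.subgroupOf H : Subgroup ↥H) : Set ↥H) = ⊤} from
        ⟨h1, h2, (genBy_iff h1).mp h3⟩)).trans hle
  have hAM : A ≤ M := hall A le_rfl hAG fun N h _ => h
  exact ⟨M, ⟨hM, hAM⟩, fun L hL => gen_zipper hA' hM hAM hall L hL.1 hL.2⟩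

end Cfsg.Agent.S3947
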