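import Mathlib
import Cfsg.Statements.S3949
import Cfsg.Agent.Inv.Basic

set_option autoImplicit false
open Cfsg

namespace Cfsg.Agent.S3949

/-- Let G be a finite group and α an automorphism of G of order 2 such that the elements g·α(g)⁻¹ generate G. Let j be a positive integer such that 2^j divides the order of no element inverted by α. Then the set of values of the j-th iterate of the map c ↦ c·α(c)⁻¹ is exactly the set of elements of odd order inverted by α. -/
theorem result {G : Type*} [Group G] [Finite G] (α : MulAut G) (hα : orderOf α = 2) (hG : Subgroup.closure (Set.range (fun c : G => c * (α c)⁻¹)) = ⊤)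
    (j : ℕ) (hj : ∀ g : G, α g = g⁻¹ → ¬ 2 ^ j ∣ orderOf g) :
    Set.range ((fun c : G => c * (α c)⁻¹)^[j]) = {g : G | Odd (orderOf g) ∧ α g = g⁻¹} := by
  have hαα : ∀ g, α (α g) = g := fun g => by
    have := Inv.mul_self_of_two hα
    rw [← MulAut.mul_apply, this, MulAut.one_apply]
  have hiter : ∀ (k : ℕ) (c : G), α c = c⁻¹ → (fun c : G => c * (α c)⁻¹)^[k] c = c ^ 2 ^ k := by
    intro k
    induction k with
    | zero => intro c _; simp
    | succ k ih =>
      intro c hc
      rw [Function.iterate_succ_apply, ih]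
      · rw [hc, inv_inv, ← pow_two, ← pow_mul, pow_succ' 2 k]
      · simp [hc]
  rcases j with _ | j
  · exact absurd (by simp) (hj 1 (by simp))
  ext g
  constructor
  · rintro ⟨c, rfl⟩
    have h1 : α (c * (α c)⁻¹) = (c * (α c)⁻¹)⁻¹ := by simp [hαα]
    rw [Function.iterate_succ_apply, hiter j _ h1]
    refine ⟨?_, by rw [map_pow, h1, inv_pow]⟩
    set d := c * (α c)⁻¹
    have h2 := hj d h1
    obtain ⟨i, m, hm, e⟩ := Nat.exists_eq_two_pow_mul_odd (orderOf_pos d).ne'
    have hi : i ≤ j := by
      by_contra hi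
      push Not at hi
      exact h2 (e ▸ Dvd.dvd.mul_right (pow_dvd_pow 2 hi) m)
    refine hm.of_dvd_nat (orderOf_dvd_of_pow_eq_one ?_)
    rw [← pow_mul, ← orderOf_dvd_iff_pow_eq_one, e]
    exact Nat.mul_dvd_mul_right (pow_dvd_pow 2 hi) m
  · rintro ⟨h1, h2⟩
    obtain ⟨k, hk⟩ := exists_pow_eq_self_of_coprime (x := g) (n := 2 ^ (j + 1))
      ((Nat.coprime_two_left.2 h1).pow_left _)
    refine ⟨g ^ k, ?_⟩
    rw [hiter _ _ (by simp [h2]), ← pow_mul, mul_comm, pow_mul, hk]

end Cfsg.Agent.S3949
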