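import Mathlib
import Cfsg.Statements.S3982
import Cfsg.Agent.Inv.Classes
import Cfsg.Agent.GT.CoprimeSylow
import Cfsg.Agent.GT.CoprimeFixed

set_option autoImplicit false
open Cfsg

namespace Cfsg.Agent.S3982

/-- Let p be an odd prime and G a finite group of even order divisible by p in which the centralizer of every non-identity p-element has odd order. If some nontrivial p-subgroup of G has a normalizer of even order, then the normalizer of every Sylow p-subgroup of G has even order. -/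
theorem result {G : Type*} [Group G] [Finite G] (p : ℕ) [Fact p.Prime] (hp2 : p ≠ 2) (hpG : p ∣ Nat.card G) (h2G : 2 ∣ Nat.card G) (hC : ∀ g : G, g ≠ 1 → (∃ k : ℕ, orderOf g = p ^ k) → Odd (Nat.card ↥(Subgroup.centralizer ({g} : Set G)))) (Q : Subgroup G) (hQ : IsPGroup p ↥Q) (hQ1 : Q ≠ ⊥) (hev : Even (Nat.card ↥(Subgroup.normalizer (Q : Set G)))) (P : Sylow p G) : Even (Nat.card ↥(Subgroup.normalizer ((P : Subgroup G) : Set G))) := by
  have hp : p.Prime := Fact.out
  obtain ⟨y, hyQ, hy⟩ := Inv.exists_involution_mem_of_even hev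
  have hy2 := Inv.mul_self_of_two hy
  have hfree : ∀ g : G, (∃ k : ℕ, orderOf g = p ^ k) → Commute g y → g = 1 := by
    intro g hg hc
    by_contra h1
    exact Inv.odd_card_iff_no_involution.1 (hC g h1 hg) y
      (Subgroup.mem_centralizer_singleton_iff.2 hc.symm.eq) hy
  obtain ⟨R, ⟨hR, hQR, hyR⟩, hmax⟩ := Set.exists_max_image
    {R : Subgroup G | IsPGroup p R ∧ Q ≤ R ∧ y ∈ Subgroup.normalizer (R : Set G)} (fun R => Nat.card R)
    (Set.toFinite _) ⟨Q, hQ, le_rfl, hyQ⟩
  have hinv := Inv.inverts_of_fixedPointFree hy2 hyR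
    fun r hr => hfree r (Inv.exists_orderOf_eq_pow_of_mem hR hr)
  set C := Subgroup.centralizer (R : Set G) with hCdef
  have hRC : R ≤ C := fun r hr => Subgroup.mem_centralizer_iff.2 fun s hs =>
    (Inv.commute_of_forall_inverts hinv hs hr).eq
  have hCodd : Odd (Nat.card C) := by
    obtain ⟨⟨r, hr⟩, hr1⟩ := (Subgroup.ne_bot_iff_exists_ne_one).1 hQ1
    have hr1' : r ≠ 1 := fun e => hr1 (Subtype.ext e)
    refine (hC r hr1' (Inv.exists_orderOf_eq_pow_of_mem hQ hr)).of_dvd_nat (Subgroup.card_dvd_of_le ?_)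
    exact Subgroup.centralizer_le (by simpa using hQR hr)
  have hA : Subgroup.zpowers y ≤ Subgroup.normalizer (R : Set G) := Subgroup.zpowers_le_of_mem hyR
  obtain ⟨S, hS1, hS2⟩ := GT.CopAct.exists_invariant_sylow_ge (GT.CopAct.le_normalizer_centralizer hA)
    (by rw [Nat.card_zpowers, hy]; exact Nat.coprime_two_left.2 hCodd)
    (Or.inl (GT.CopAct.isSolvable_zpowers y)) hRC hR hA
  have hSR : (S : Subgroup C).map C.subtype = R :=
    (Subgroup.eq_of_le_of_card_ge hS1 (hmax _ ⟨S.isPGroup'.map _, hQR.trans hS1,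
      hS2 (Subgroup.mem_zpowers y)⟩)).symm
  obtain ⟨T, hT⟩ := hR.exists_le_sylow
  have hTR : (T : Subgroup G) ≤ R := by
    by_contra hn
    obtain ⟨x, hxT, hxR, hxN⟩ := Inv.exists_mem_normalizer_of_lt T.isPGroup' hT hn
    have hxC : x ∈ C := by
      have hinv' : ∀ r ∈ R, (x * y * x⁻¹) * r * (x * y * x⁻¹)⁻¹ = r⁻¹ := by
        intro r hr
        have := hinv _ ((Subgroup.mem_normalizer_iff''.1 hxN r).1 hr)
        calc (x * y * x⁻¹) * r * (x * y * x⁻¹)⁻¹ = x * (y * (x⁻¹ * r * x) * y⁻¹) * x⁻¹ := by group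
          _ = r⁻¹ := by rw [this]; group
      have hc : y * (x * y * x⁻¹) ∈ C := Subgroup.mem_centralizer_iff.2 fun r hr =>
        (Inv.commute_mul_of_inverts (hinv r hr) (hinv' r hr)).symm.eq
      obtain ⟨d, hd, e⟩ := Inv.exists_conj_of_odd hy2
        (Inv.mul_self_of_two ((Inv.orderOf_conj' x y).trans hy))
        (hCodd.of_dvd_nat (Subgroup.orderOf_dvd_natCard _ hc))
      have hdC : d ∈ C := Subgroup.zpowers_le_of_mem hc hd
      have hdN : d ∈ Subgroup.normalizer (R : Set G) := Subgroup.centralizer_le_normalizer _ hdC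
      have he : Commute (d⁻¹ * x) y := by
        change d⁻¹ * x * y = y * (d⁻¹ * x)
        calc d⁻¹ * x * y = d⁻¹ * (x * y * x⁻¹) * x := by group
          _ = _ := by rw [← e]; group
      have hcop : (orderOf (d⁻¹ * x)).Coprime p := by
        rw [Nat.coprime_comm, hp.coprime_iff_not_dvd]
        rintro ⟨m, hm⟩
        have hm0 : m ≠ 0 := by
          rintro rfl
          exact (orderOf_pos _).ne' hm
        have ho : orderOf ((d⁻¹ * x) ^ m) = p ^ 1 := by
          rw [orderOf_pow_of_dvd hm0 (hm ▸ Dvd.intro_left _ rfl), hm,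
            Nat.mul_div_cancel _ (Nat.pos_of_ne_zero hm0), pow_one]
        have := hfree _ ⟨1, ho⟩ (he.pow_left m)
        rw [this, orderOf_one, pow_one] at ho
        exact hp.one_lt.ne ho
      let φ := R.normalizerMonoidHom
      have hφd : φ ⟨d, hdN⟩ = 1 := by
        rw [← MonoidHom.mem_ker, Subgroup.normalizerMonoidHom_ker]; exact hdC
      have h1 : φ ⟨x, hxN⟩ = φ ((⟨d, hdN⟩)⁻¹ * ⟨x, hxN⟩) := by rw [map_mul, map_inv, hφd]; simp
      obtain ⟨k, hk⟩ := Inv.exists_orderOf_eq_pow_of_mem T.isPGroup' hxT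
      have h2 : orderOf (φ ⟨x, hxN⟩) ∣ p ^ k := by
        rw [← hk, ← Subgroup.orderOf_mk x hxN]; exact orderOf_map_dvd _ _
      have h3 : orderOf (φ ⟨x, hxN⟩) ∣ orderOf (d⁻¹ * x) := by
        rw [h1, ← Subgroup.orderOf_mk _ (mul_mem (inv_mem hdN) hxN)]; exact orderOf_map_dvd _ _
      have h4 : φ ⟨x, hxN⟩ = 1 :=
        orderOf_eq_one_iff.1 (Nat.eq_one_of_dvd_coprimes (hcop.pow_right k) h3 h2)
      rw [← MonoidHom.mem_ker, Subgroup.normalizerMonoidHom_ker] at h4
      exact h4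
    have := GT.CopAct.le_of_sylow_map_le S (Q := (T : Subgroup G) ⊓ C) inf_le_right
      (T.isPGroup'.to_le inf_le_left) (by rw [hSR]; exact le_inf hT hRC)
    rw [hSR] at this
    exact hxR (this ⟨hxT, hxC⟩)
  have hRT : R = T := le_antisymm hT hTR
  obtain ⟨g, rfl⟩ := MulAction.exists_smul_eq G T P
  refine Inv.even_card_of_involution_mem (t := g * y * g⁻¹) ?_ ((Inv.orderOf_conj' g y).trans hy)
  rw [hRT] at hyR
  have h1 : y • T = T := Sylow.smul_eq_iff_mem_normalizer.2 hyR
  exact Sylow.smul_eq_iff_mem_normalizer.1 (by rw [mul_smul, mul_smul, inv_smul_smul, h1])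

end Cfsg.Agent.S3982
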