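import Mathlib
import Cfsg.Statements.S3983
import Cfsg.Agent.FG.H93Basic
set_option autoImplicit false

open scoped Pointwise

open Cfsg

namespace Cfsg.Agent.S3983

open Cfsg.Agent.FG.H93

/-- Let P be a Sylow p-subgroup of the finite group G that meets each conjugate g P g⁻¹ with g outside N_G(P) trivially, and let U be a subgroup of G of order divisible by p. Then a Sylow p-subgroup Q of U has the same property inside U: Q meets each conjugate u Q u⁻¹ with u ∈ U outside N_U(Q) trivially. -/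
theorem result {G : Type*} [Group G] [Finite G] (p : ℕ) [Fact p.Prime] (P : Sylow p G) (hTI : ∀ g : G, g ∉ Subgroup.normalizer ((P : Subgroup G) : Set G) → (P : Subgroup G) ⊓ (MulAut.conj g • (P : Subgroup G)) = ⊥) (U : Subgroup G) (hU : p ∣ Nat.card ↥U) (Q : Sylow p ↥U) : ∀ u : ↥U, u ∉ Subgroup.normalizer ((Q : Subgroup ↥U) : Set ↥U) → (Q : Subgroup ↥U) ⊓ (MulAut.conj u • (Q : Subgroup ↥U)) = ⊥ := by
  rw [sylow_ti_iff] at hTI ⊢
  intro Q₁ Q₂ x hx h1 h2
  obtain ⟨P₁, hP₁⟩ := Q₁.exists_comap_subtype_eq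
  obtain ⟨P₂, hP₂⟩ := Q₂.exists_comap_subtype_eq
  have : P₁ = P₂ := hTI P₁ P₂ x (fun h => hx (Subtype.ext h))
    (by rw [← hP₁] at h1; exact h1) (by rw [← hP₂] at h2; exact h2)
  subst this
  exact Sylow.ext (hP₁.symm.trans hP₂)

end Cfsg.Agent.S3983
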