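import Mathlib
import Cfsg.Statements.S3984
import Cfsg.Agent.FG.H93Basic
set_option autoImplicit false

open scoped Pointwise

open Cfsg

namespace Cfsg.Agent.S3984

open Cfsg.Agent.FG.H93 Cfsg.Agent.FG

theorem aux {G : Type*} [Group G] [Finite G] (p : ℕ) [Fact p.Prime] {H : Type*} [Group H]
    {f : G →* H} (hf : Function.Surjective f) (Q : Sylow p H) {x : G} (hx : ∃ k, orderOf x = p ^ k)
    (hQ : f x ∈ (Q : Subgroup H)) :
    ∃ P : Sylow p G, x ∈ (P : Subgroup G) ∧ P.mapSurjective hf = Q := by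
  haveI : Finite H := Finite.of_surjective f hf
  have hi : ¬ p ∣ ((Q : Subgroup H).comap f).index := by
    rw [Subgroup.index_comap_of_surjective _ hf]; exact Q.not_dvd_index
  obtain ⟨P, hP1, hP2⟩ := H96.exists_sylow_le_of_not_dvd_index hi
    (H96.isPGroup_zpowers_of_orderOf hx) (by rw [Subgroup.zpowers_le]; exact hQ)
  refine ⟨P, hP1 (Subgroup.mem_zpowers x), ?_⟩
  apply Sylow.ext
  refine ((P.mapSurjective hf).is_maximal' Q.isPGroup' ?_).symm
  rw [Sylow.coe_mapSurjective]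
  exact Subgroup.map_le_iff_le_comap.mpr hP2

/-- Let P be a Sylow p-subgroup of the finite group G that meets each conjugate g P g⁻¹ with g outside N_G(P) trivially, and let N be a normal subgroup of G of order prime to p. Then every Sylow p-subgroup Q of G ⧸ N meets each conjugate x Q x⁻¹ with x outside its normalizer trivially. -/
theorem result {G : Type*} [Group G] [Finite G] (p : ℕ) [Fact p.Prime] (P : Sylow p G) (hTI : ∀ g : G, g ∉ Subgroup.normalizer ((P : Subgroup G) : Set G) → (P : Subgroup G) ⊓ (MulAut.conj g • (P : Subgroup G)) = ⊥) (N : Subgroup G) [N.Normal] (hN : (Nat.card ↥N).Coprime p) (Q : Sylow p (G ⧸ N)) : ∀ x : G ⧸ N, x ∉ Subgroup.normalizer ((Q : Subgroup (G ⧸ N)) : Set (G ⧸ N)) → (Q : Subgroup (G ⧸ N)) ⊓ (MulAut.conj x • (Q : Subgroup (G ⧸ N))) = ⊥ := by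
  rw [sylow_ti_iff] at hTI ⊢
  intro Q₁ Q₂ y hy h1 h2
  have hf := QuotientGroup.mk'_surjective N
  obtain ⟨x, rfl, hx⟩ := H96.exists_pElement_lift hf (H96.exists_orderOf_of_mem Q₁.isPGroup' h1)
  obtain ⟨P₁, hP₁, rfl⟩ := aux p hf Q₁ hx h1
  obtain ⟨P₂, hP₂, rfl⟩ := aux p hf Q₂ hx h2
  rw [hTI P₁ P₂ x (fun h => hy (by rw [h, map_one])) hP₁ hP₂]

end Cfsg.Agent.S3984
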