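import Mathlib
import Cfsg.Statements.S3985
import Cfsg.Agent.FG.H93Basic
import Cfsg.Agent.FG.H93Cyc
import Cfsg.Agent.FG.ClassIdx
import Cfsg.Agent.FG.SylowNormal
import Cfsg.Agent.GT.TransferPNilp
import Cfsg.Agent.GT.CoprimeAbelian
import Cfsg.Agent.GT.CoprimeSylow

set_option autoImplicit false
open scoped Pointwise
open Cfsg

namespace Cfsg.Agent.S3985

open Cfsg.Agent.FG Cfsg.Agent.GT

/-- Let P be a cyclic Sylow p-subgroup of the finite group G. Then P meets each conjugate g P g⁻¹ with g outside N_G(P) trivially if and only if P is weakly self-centralizing: C_G(x) = C_G(P) for every non-identity x ∈ P. -/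
theorem result {G : Type*} [Group G] [Finite G] (p : ℕ) [Fact p.Prime] (P : Sylow p G) (hcyc : IsCyclic ↥(P : Subgroup G)) : (∀ g : G, g ∉ Subgroup.normalizer ((P : Subgroup G) : Set G) → (P : Subgroup G) ⊓ (MulAut.conj g • (P : Subgroup G)) = ⊥) ↔ ∀ x : G, x ∈ (P : Subgroup G) → x ≠ 1 → Subgroup.centralizer ({x} : Set G) = Subgroup.centralizer ((P : Subgroup G) : Set G) := by
  rw [H93.sylow_ti_iff]
  constructor
  · intro h x hx hx1
    apply le_antisymm _ (Subgroup.centralizer_le (Set.singleton_subset_iff.mpr hx))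
    intro c hc
    have hcx : c * x * c⁻¹ = x := CI.mem_cent'.mp hc
    have hcN : c ∈ Subgroup.normalizer ((P : Subgroup G) : Set G) := by
      rw [H93.mem_normalizer_iff_smul_sylow]
      refine h _ _ x hx1 ?_ hx
      rw [Sylow.coe_subgroup_smul, ← hcx]
      exact Subgroup.smul_mem_pointwise_smul _ (MulAut.conj c) _ hx
    obtain ⟨a, ha, b, hb, ⟨k, hk⟩, hbo, rfl⟩ := Tr.exists_pPart_mul_pPrimePart (p := p) c
    have hle : Subgroup.zpowers (a * b) ≤ Subgroup.normalizer ((P : Subgroup G) : Set G) :=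
      (Subgroup.zpowers_le).mpr hcN
    have hle' : Subgroup.zpowers (a * b) ≤ Subgroup.centralizer ({x} : Set G) :=
      (Subgroup.zpowers_le).mpr hc
    have hcomm : IsMulCommutative (P : Subgroup G) := inferInstance
    refine Subgroup.mul_mem _ ?_ ?_
    · have h1 : Subgroup.zpowers a ≤ (P : Subgroup G) := by
        have h2 := (CI.isPGroup_zpowers ⟨k, hk⟩).inf_normalizer_sylow P
        have h3 : Subgroup.zpowers a ≤ Subgroup.normalizer (P : Set G) :=
          (Subgroup.zpowers_le).mpr (hle ha)
        rw [inf_eq_left.mpr h3] at h2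
        rw [h2]; exact inf_le_right
      rw [Subgroup.mem_centralizer_iff]
      intro y hy
      exact H96.isMulCommutative_iff.mp hcomm y hy a (h1 (Subgroup.mem_zpowers a))
    · refine CopAct.le_centralizer_of_pow_prime_eq_one (A := Subgroup.zpowers b) hcomm P.isPGroup'
        ((Subgroup.zpowers_le).mpr (hle hb)) (by rwa [Nat.card_zpowers]) (fun v hv hvp => ?_)
        (Subgroup.mem_zpowers b)
      have h1 : v ∈ Subgroup.zpowers x := by
        refine H93.mem_zpowers_of_orderOf_dvd_of_mem hv hx
          ((orderOf_dvd_iff_pow_eq_one.mpr hvp).trans ?_)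
        obtain ⟨j, hj⟩ := CI.orderOf_of_mem P.isPGroup' hx
        rw [hj]
        refine dvd_pow_self p ?_
        rintro rfl
        exact hx1 (orderOf_eq_one_iff.mp hj)
      rw [Subgroup.mem_centralizer_iff]
      intro y hy
      exact CI.mem_cent.mp (CI.cent_le_of_mem_zpowers h1 ((Subgroup.zpowers_le.mpr (hle' hb)) hy))
  · intro h Q R x hx1 hQ hR
    have hcomm : IsMulCommutative (P : Subgroup G) := inferInstance
    have hT := H96.isMulCommutative_iff.mp hcomm
    have key : ∀ (Q : Sylow p G) (y : G), y ≠ 1 → y ∈ (P : Subgroup G) → y ∈ (Q : Subgroup G) →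
        Q = P := by
      intro Q y hy1 hyP hyQ
      have h1 : (Q : Subgroup G) ≤ Subgroup.centralizer ((P : Subgroup G) : Set G) := by
        rw [← h y hyP hy1]
        intro z hz
        exact CI.mem_cent.mpr (H96.comm_of_sylow_comm P hT Q.isPGroup' z hz y hyQ)
      have h2 := Q.isPGroup'.inf_normalizer_sylow P
      have h3 : (Q : Subgroup G) ≤ Subgroup.normalizer (P : Set G) :=
        h1.trans (Subgroup.centralizer_le_normalizer _)
      rw [inf_eq_left.mpr h3] at h2
      have h4 : (Q : Subgroup G) ≤ P := by rw [h2]; exact inf_le_right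
      exact Sylow.ext (Q.is_maximal' P.isPGroup' h4).symm
    obtain ⟨a, rfl⟩ := MulAction.exists_smul_eq G P Q
    rw [eq_comm, ← inv_smul_eq_iff]
    refine key _ (a⁻¹ * x * a) (fun h1 => hx1 ?_) ?_ ?_
    · calc x = a * (a⁻¹ * x * a) * a⁻¹ := by group
        _ = 1 := by rw [h1]; group
    · rw [Sylow.coe_subgroup_smul, CopAct.mem_conj_smul_iff] at hQ
      exact hQ
    · rw [Sylow.coe_subgroup_smul, CopAct.mem_conj_smul_iff]
      simpa [mul_assoc] using hR

end Cfsg.Agent.S3985
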