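import Mathlib
import Cfsg.Statements.S3986
import Cfsg.Agent.FG.H93Basic
set_option autoImplicit false

open Cfsg

namespace Cfsg.Agent.S3986

open Cfsg.Agent.FG.H93 Cfsg.Agent.FG Cfsg.Agent.GT

theorem mem_left {G : Type*} [Group G] [Finite G] {p : ℕ} [Fact p.Prime] (P : Sylow p G)
    [hP : (P : Subgroup G).Normal] {x : G} (hx : ∃ a : ℕ, orderOf x = p ^ a) :
    x ∈ (P : Subgroup G) := by
  obtain ⟨a, ha⟩ := hx
  apply mem_of_coprime_orderOf_index
  rw [ha]
  exact Nat.Coprime.pow_left a ((Nat.Prime.coprime_iff_not_dvd Fact.out).mpr P.not_dvd_index)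

theorem mem_right {G : Type*} [Group G] [Finite G] {p : ℕ} [Fact p.Prime] (P : Sylow p G)
    {K : Subgroup G} [K.Normal] (h : (P : Subgroup G) ⊔ K = ⊤) {y : G}
    (hy : ∃ q b : ℕ, q.Prime ∧ q ≠ p ∧ orderOf y = q ^ b) : y ∈ K := by
  obtain ⟨q, b, hq, hqp, hb⟩ := hy
  apply mem_of_coprime_orderOf_index
  have h1 : K.index ∣ Nat.card (P : Subgroup G) := by
    rw [← Subgroup.relIndex_top_right, ← h, Subgroup.relIndex_sup_right]
    exact Subgroup.relIndex_dvd_card _ _
  obtain ⟨n, hn⟩ := P.isPGroup'.exists_card_eq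
  refine Nat.Coprime.coprime_dvd_right h1 ?_
  rw [hb, hn]
  exact Nat.coprime_pow_primes _ _ hq Fact.out hqp

/-- Let p be a prime and G a finite group. Then some Sylow p-subgroup of G is a direct factor of G (it is normal and has a normal complement) if and only if every element of p-power order commutes with every element whose order is a power of a prime other than p. -/
theorem result {G : Type*} [Group G] [Finite G] (p : ℕ) [Fact p.Prime] : (∃ (P : Sylow p G) (K : Subgroup G), (P : Subgroup G).Normal ∧ K.Normal ∧ (P : Subgroup G) ⊓ K = ⊥ ∧ (P : Subgroup G) ⊔ K = ⊤) ↔ ∀ x y : G, (∃ a : ℕ, orderOf x = p ^ a) → (∃ q b : ℕ, q.Prime ∧ q ≠ p ∧ orderOf y = q ^ b) → x * y = y * x := by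
  constructor
  · rintro ⟨P, K, hP, hK, hinf, hsup⟩ x y hx hy
    exact commute_of_normal_inf_eq_bot hinf (mem_left P hx) (mem_right P hsup hy)
  · intro h
    obtain ⟨P⟩ : Nonempty (Sylow p G) := inferInstance
    obtain ⟨hP, K, hK, -, h1, h2⟩ := sylow_direct_factor P fun y hy =>
      Subgroup.mem_centralizer_iff.mpr fun x hx =>
        h x y (H96.exists_orderOf_of_mem P.isPGroup' hx) hy
    exact ⟨P, K, hP, hK, h1, h2⟩

end Cfsg.Agent.S3986
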