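import Mathlib
import Cfsg.Statements.S3987
import Cfsg.Agent.S3986
set_option autoImplicit false

open Cfsg

namespace Cfsg.Agent.S3987

open Cfsg.Agent.FG.H93 Cfsg.Agent.FG Cfsg.Agent.GT

theorem centralizer_mul_of_coprime {G : Type*} [Group G] [Finite G] {x y : G} (hxy : x * y = y * x)
    (hc : (orderOf x).Coprime (orderOf y)) :
    Subgroup.centralizer ({x * y} : Set G) =
      Subgroup.centralizer ({x} : Set G) ⊓ Subgroup.centralizer ({y} : Set G) := by
  have hc' : Commute x y := hxy
  apply le_antisymm
  · intro g hg
    rw [mem_centralizer_singleton] at hg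
    have hg' : Commute g (x * y) := hg
    have key : ∀ z ∈ Subgroup.zpowers (x * y), g * z = z * g := by
      rintro z ⟨k, rfl⟩
      exact (hg'.zpow_right k).eq
    have hx : x ∈ Subgroup.zpowers (x * y) := by
      rw [← mem_powers_iff_mem_zpowers]
      obtain ⟨k, hk⟩ := exists_pow_eq_self_of_coprime (x := x) (n := orderOf y) hc.symm
      refine ⟨orderOf y * k, ?_⟩
      show (x * y) ^ (orderOf y * k) = x
      rw [pow_mul, hc'.mul_pow, pow_orderOf_eq_one, mul_one, hk]
    have hy : y ∈ Subgroup.zpowers (x * y) := by
      have := (Subgroup.zpowers (x * y)).mul_mem ((Subgroup.zpowers (x * y)).inv_mem hx)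
        (Subgroup.mem_zpowers _)
      simpa using this
    exact ⟨mem_centralizer_singleton.mpr (key x hx), mem_centralizer_singleton.mpr (key y hy)⟩
  · rintro g ⟨h1, h2⟩
    have h1' := mem_centralizer_singleton.mp h1
    have h2' := mem_centralizer_singleton.mp h2
    rw [mem_centralizer_singleton, ← mul_assoc, h1', mul_assoc, h2', mul_assoc]

theorem index_inf_of_coprime {G : Type*} [Group G] [Finite G] {H K : Subgroup G}
    (h : H.index.Coprime K.index) : (H ⊓ K).index = H.index * K.index := by
  apply le_antisymm Subgroup.index_inf_le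
  apply Nat.le_of_dvd (Nat.pos_of_ne_zero Subgroup.index_ne_zero_of_finite)
  exact h.mul_dvd_of_dvd_of_dvd (Subgroup.index_dvd_of_le inf_le_left)
    (Subgroup.index_dvd_of_le inf_le_right)

/-- Let p be a prime and G a finite group. Then some Sylow p-subgroup of G is a direct factor of G (normal with a normal complement) if and only if for every element x of p-power order and every element y whose order is a power of a prime other than p, the conjugacy class of x y has as many elements as the product of the sizes of the classes of x and of y. -/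
theorem result {G : Type*} [Group G] [Finite G] (p : ℕ) [Fact p.Prime] : (∃ (P : Sylow p G) (K : Subgroup G), (P : Subgroup G).Normal ∧ K.Normal ∧ (P : Subgroup G) ⊓ K = ⊥ ∧ (P : Subgroup G) ⊔ K = ⊤) ↔ ∀ x y : G, (∃ a : ℕ, orderOf x = p ^ a) → (∃ q b : ℕ, q.Prime ∧ q ≠ p ∧ orderOf y = q ^ b) → (Subgroup.centralizer ({x * y} : Set G)).index = (Subgroup.centralizer ({x} : Set G)).index * (Subgroup.centralizer ({y} : Set G)).index := by
  constructor
  · rintro ⟨P, K, hP, hK, hinf, hsup⟩ x y hx hy
    have hxP := S3986.mem_left P hx
    have hyK := S3986.mem_right P hsup hy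
    have hxy := commute_of_normal_inf_eq_bot hinf hxP hyK
    have hc : (orderOf x).Coprime (orderOf y) := by
      obtain ⟨a, ha⟩ := hx
      obtain ⟨q, b, hq, hqp, hb⟩ := hy
      rw [ha, hb]
      exact Nat.coprime_pow_primes _ _ Fact.out hq hqp.symm
    rw [centralizer_mul_of_coprime hxy hc]
    apply index_inf_of_coprime
    have h1 : K ≤ Subgroup.centralizer ({x} : Set G) := fun k hk =>
      mem_centralizer_singleton.mpr (commute_of_normal_inf_eq_bot hinf hxP hk).symm
    have h2 : (P : Subgroup G) ≤ Subgroup.centralizer ({y} : Set G) := fun k hk =>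
      mem_centralizer_singleton.mpr (commute_of_normal_inf_eq_bot hinf hk hyK)
    have h3 : K.index ∣ Nat.card (P : Subgroup G) := by
      rw [← Subgroup.relIndex_top_right, ← hsup, Subgroup.relIndex_sup_right]
      exact Subgroup.relIndex_dvd_card _ _
    exact Nat.Coprime.coprime_dvd_right (Subgroup.index_dvd_of_le h2)
      (Nat.Coprime.coprime_dvd_left ((Subgroup.index_dvd_of_le h1).trans h3) P.card_coprime_index)
  · intro h
    rw [S3986.result]
    intro x y hx hy
    have h1 := h x y hx hy
    have hle : Subgroup.centralizer ({x} : Set G) ⊓ Subgroup.centralizer ({y} : Set G) ≤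
        Subgroup.centralizer ({x * y} : Set G) := by
      rintro g ⟨h1, h2⟩
      have h1' := mem_centralizer_singleton.mp h1
      have h2' := mem_centralizer_singleton.mp h2
      rw [mem_centralizer_singleton, ← mul_assoc, h1', mul_assoc, h2', mul_assoc]
    have h2 := Subgroup.index_inf_le (H := Subgroup.centralizer ({x} : Set G))
      (K := Subgroup.centralizer ({y} : Set G))
    have h3 := Subgroup.index_antitone hle
    have h4 : Subgroup.centralizer ({x} : Set G) ⊓ Subgroup.centralizer ({y} : Set G) =
        Subgroup.centralizer ({x * y} : Set G) := by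
      by_contra hne
      have := Subgroup.index_strictAnti (lt_of_le_of_ne hle hne)
      omega
    have h5 : x * y ∈ Subgroup.centralizer ({x} : Set G) ⊓ Subgroup.centralizer ({y} : Set G) := by
      rw [h4]; exact mem_centralizer_singleton.mpr rfl
    have h6 := mem_centralizer_singleton.mp h5.1
    rw [mul_assoc] at h6
    exact (mul_left_cancel h6).symm

end Cfsg.Agent.S3987
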