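import Mathlib
import Cfsg.Statements.S3989
import Cfsg.Agent.GT.TransferFrobenius
import Cfsg.Agent.GT.PSolvable
import Cfsg.Agent.GT.MinNormal
import Cfsg.Agent.FG.ClassIdx
import Cfsg.Agent.FG.SylowNormal

set_option autoImplicit false
open Cfsg

namespace Cfsg.Agent.S3989

open Cfsg.Agent.FG Cfsg.Agent.GT

universe u

theorem isPSolvable_of_hasNormalPComplement {G : Type*} [Group G] [Finite G] {p : ℕ} [Fact p.Prime]
    (h : HasNormalPComplement p G) : IsPSolvable p G := by
  obtain ⟨N, hN, hc, k, hk⟩ := h.exists_normal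
  exact IsPSolvable.extension N (isPSolvable_of_not_dvd hc)
    (isPSolvable_of_isPGroup (IsPGroup.of_card hk))

/-- The elements `n` with `n · y^G ⊆ y^G`. -/
def stab {G : Type*} [Group G] [Finite G] (y : G) : Subgroup G :=
  Subgroup.closure {n | ∀ z, IsConj y z → IsConj y (n * z)}

theorem mem_stab {G : Type*} [Group G] [Finite G] {y n : G} (hn : n ∈ stab y) :
    ∀ z, IsConj y z → IsConj y (n * z) := by
  have hn' : n ∈ Submonoid.closure {n | ∀ z, IsConj y z → IsConj y (n * z)} := by
    rw [← Subgroup.closure_toSubmonoid_of_finite] <;> exact hn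
  clear hn
  induction hn' using Submonoid.closure_induction with
  | mem x hx => exact hx
  | one => intro z hz; simpa using hz
  | mul a b _ _ ha hb => intro z hz; rw [mul_assoc]; exact ha _ (hb _ hz)

theorem stab_normal {G : Type*} [Group G] [Finite G] (y : G) : (stab y).Normal := by
  refine ⟨fun n hn c => Subgroup.subset_closure fun z hz => ?_⟩
  have h1 : IsConj y (c⁻¹ * z * c) := hz.trans (isConj_iff.mpr ⟨c⁻¹, by simp⟩)
  refine (mem_stab hn _ h1).trans (isConj_iff.mpr ⟨c, by group⟩)

theorem aux (p : ℕ) [Fact p.Prime] (G : Type u) [Group G] [Finite G] :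
    (∀ x y : G, (∃ a : ℕ, orderOf x = p ^ a) → (∃ q b : ℕ, q.Prime ∧ q ≠ p ∧ orderOf y = q ^ b) →
      ∀ a b : G, IsConj (x * y) (a * x * a⁻¹ * (b * y * b⁻¹))) → IsPSolvable p G := by
  refine subgroup_quotient_induction (P := fun G _ _ => (∀ x y : G, (∃ a : ℕ, orderOf x = p ^ a) →
    (∃ q b : ℕ, q.Prime ∧ q ≠ p ∧ orderOf y = q ^ b) →
      ∀ a b : G, IsConj (x * y) (a * x * a⁻¹ * (b * y * b⁻¹))) → IsPSolvable p G) ?_ G
  intro G _ _ _ ih h
  rcases subsingleton_or_nontrivial G with hG | hG
  · exact isPSolvable_of_isSolvable inferInstance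
  obtain ⟨N, hN⟩ := exists_isMinNormal G
  have := hN.normal
  refine IsPSolvable.extension N ?_ (ih N hN.ne_bot ?_)
  · apply isPSolvable_of_hasNormalPComplement
    obtain ⟨P⟩ : Nonempty (Sylow p N) := inferInstance
    refine Tr.frobenius_of_primePow P fun Q hQ _ q hq hqp g hg ⟨k, hk⟩ => ?_
    rw [Subgroup.mem_centralizer_iff]
    intro v hv
    by_contra hne
    have hx : v * (g * v⁻¹ * g⁻¹) ∈ Q :=
      Q.mul_mem hv ((Subgroup.mem_normalizer_iff.mp hg _).mp (Q.inv_mem hv))
    set x : N := v * (g * v⁻¹ * g⁻¹) with hxdef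
    have hx1 : x ≠ 1 := by
      intro h1
      apply hne
      calc v * g = x * (g * v) := by rw [hxdef]; group
        _ = g * v := by rw [h1, one_mul]
    have hxo : ∃ a, orderOf (x : G) = p ^ a := by
      obtain ⟨a, ha⟩ := CI.orderOf_of_mem P.isPGroup' (hQ hx)
      exact ⟨a, by rw [Subgroup.orderOf_coe, ha]⟩
    have hgo : ∃ q b : ℕ, q.Prime ∧ q ≠ p ∧ orderOf (g : G) = q ^ b :=
      ⟨q, k, hq, hqp, by rw [Subgroup.orderOf_coe, hk]⟩
    have hxs : (x : G) ∈ stab (g : G) := by
      refine Subgroup.subset_closure fun z hz => ?_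
      obtain ⟨b, rfl⟩ := isConj_iff.mp hz
      have h1 := h x g hxo hgo 1 b
      simp only [one_mul, inv_one, mul_one] at h1
      refine IsConj.trans (isConj_iff.mpr ⟨v, ?_⟩) h1
      rw [hxdef]; push_cast; group
    have := stab_normal (g : G)
    rcases hN.le_or_inf_eq_bot (stab (g : G)) with hle | hbot
    · have h1 := mem_stab (hle (N.inv_mem g.2)) _ (IsConj.refl _)
      rw [inv_mul_cancel, isConj_one_left] at h1
      have h2 : g = 1 := Subtype.ext h1
      exact hne (by rw [h2]; simp)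
    · have : (x : G) ∈ N ⊓ stab (g : G) := ⟨x.2, hxs⟩
      rw [hbot, Subgroup.mem_bot] at this
      exact hx1 (Subtype.ext this)
  · rintro x y hx ⟨q, b, hq, hqp, hy⟩ a c
    have : Fact q.Prime := ⟨hq⟩
    obtain ⟨x, rfl, hx'⟩ := H96.exists_pElement_lift (QuotientGroup.mk'_surjective N) hx
    obtain ⟨y, rfl, b', hy'⟩ := H96.exists_pElement_lift (QuotientGroup.mk'_surjective N) ⟨b, hy⟩
    obtain ⟨a, rfl⟩ := QuotientGroup.mk'_surjective N a
    obtain ⟨c, rfl⟩ := QuotientGroup.mk'_surjective N c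
    have := (QuotientGroup.mk' N).map_isConj (h x y hx' ⟨q, b', hq, hqp, hy'⟩ a c)
    simpa only [map_mul, map_inv] using this

/-- Let p be a prime and G a finite group such that for every element x of p-power order and every element y whose order is a power of a prime other than p, the conjugacy class of x y is the set of all products of a conjugate of x with a conjugate of y. Then G is p-solvable. -/
theorem result {G : Type*} [Group G] [Finite G] (p : ℕ) [Fact p.Prime] (h : ∀ x y : G, (∃ a : ℕ, orderOf x = p ^ a) → (∃ q b : ℕ, q.Prime ∧ q ≠ p ∧ orderOf y = q ^ b) → ∀ z : G, IsConj (x * y) z ↔ ∃ a b : G, z = a * x * a⁻¹ * (b * y * b⁻¹)) : Cfsg.IsPSolvable p G := by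
  exact aux p G fun x y hx hy a b => (h x y hx hy _).mpr ⟨a, b, rfl⟩

end Cfsg.Agent.S3989
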