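import Mathlib
import Cfsg.Statements.S3996
import Cfsg.Agent.FG.H93Same
import Cfsg.Agent.FG.H93Solv
import Cfsg.Agent.FG.WithFT
import Cfsg.Agent.Ch.Burnside
import Cfsg.Agent.GT.TransferAbelian

set_option autoImplicit false
open Cfsg

namespace Cfsg.Agent.S3996

open Cfsg.Agent.FG Cfsg.Agent.GT Subgroup H93

theorem aux {G : Type*} [Group G] [Finite G] {m n q : ℕ}
    (h : ∀ t, 3 ≤ t → sc G t = 0 ∨ sc G t = m ∨ sc G t = n) (hq : q.Prime) (hq2 : q ≠ 2)
    (hG : 4 * q ∣ Nat.card G) (h1 : sc G q = n) (h2 : sc G 4 = n) : (m : ZMod q) = 1 := by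
  have := Fact.mk hq
  have h3 := cast_sc_prime hq ((dvd_mul_left q 4).trans hG)
  have h4 := cast_sc_mul (a := 4) hq (fun h => hq2 ((Nat.prime_dvd_prime_iff_eq hq Nat.prime_two).mp
    (hq.dvd_of_dvd_pow (show q ∣ 2 ^ 2 from h)))) hG
  rw [h1] at h3
  rw [h2, h3, neg_neg] at h4
  have := hq.two_le
  rcases h (4 * q) (by omega) with h5 | h5 | h5 <;> rw [h5] at h4
  · simp at h4
  · exact h4
  · exact absurd (h3.symm.trans h4) (neg_one_ne_one hq hq2)

theorem main {G : Type*} [Group G] [Finite G] {m n p q : ℕ}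
    (h : ∀ t, 3 ≤ t → sc G t = 0 ∨ sc G t = m ∨ sc G t = n) (hp : p.Prime) (hp2 : p ≠ 2)
    (hq : q.Prime) (hq2 : q ≠ 2) (hpq : p ≠ q) (hG : 4 * q * p ∣ Nat.card G) (h1 : sc G p = m)
    (h2 : sc G 4 = m) (h4 : ¬ 4 ∣ m) : False := by
  have := Fact.mk hp
  have := Fact.mk hq
  have hp3 := hp.two_le.lt_of_ne' hp2
  have hq3 := hq.two_le.lt_of_ne' hq2
  have hqp : ¬ p ∣ q := fun h => hpq ((Nat.prime_dvd_prime_iff_eq hp hq).mp h)
  have hc : ∀ {r : ℕ}, r.Prime → r ≠ 2 → (4 : ℕ).Coprime r := fun {r} hr hr2 =>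
    Nat.Coprime.pow_left 2 ((Nat.coprime_primes Nat.prime_two hr).mpr hr2.symm)
  have he : ∀ {r : ℕ}, r.Prime → r ≠ 2 → 2 ∣ r.totient := fun {r} hr hr2 =>
    even_iff_two_dvd.mp (Nat.totient_even (hr.two_le.lt_of_ne' hr2))
  have h5 := cast_sc_prime hp ((dvd_mul_left p _).trans hG)
  rw [h1] at h5
  have h6 := aux (fun t ht => (h t ht).imp_right Or.symm) hp hp2
    (Dvd.dvd.trans ⟨q, by ring⟩ hG) h1 h2
  have h7 : ∀ a, 3 ≤ a → ¬ p ∣ a → a * p ∣ Nat.card G → sc G a = n → ¬ 4 ∣ (a * p).totient :=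
    fun a ha hpa haG hs h8 => by
      have h9 := cast_sc_mul hp hpa haG
      rw [hs, h6] at h9
      rcases h (a * p) (ha.trans (Nat.le_mul_of_pos_right a hp.pos)) with h10 | h10 | h10
      · simp [h10] at h9
      · exact h4 (h10 ▸ h8.trans (totient_dvd_sc _))
      · exact neg_one_ne_one hp hp2 (by rw [← h9, h10, h6])
  have h8 := cast_sc_prime hq (Dvd.dvd.trans ⟨4 * p, by ring⟩ hG)
  rcases h q hq3 with h9 | h9 | h9
  · simp [h9] at h8
  · have h10 := cast_sc_mul hq ((Nat.Prime.coprime_iff_not_dvd hq).mp (hc hq hq2).symm)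
      ((dvd_mul_right _ p).trans hG)
    rw [h2, ← h9, h8, neg_neg] at h10
    refine h7 (4 * q) (by omega) ((Nat.Prime.coprime_iff_not_dvd hp).mp (Nat.Coprime.mul_right
      (hc hp hp2).symm ((Nat.coprime_primes hp hq).mpr hpq))) hG ?_ ?_
    · rcases h (4 * q) (by omega) with h11 | h11 | h11
      · simp [h11] at h10
      · exact absurd (by rwa [h11, ← h9, h8] at h10) (neg_one_ne_one hq hq2)
      · exact h11
    · refine Dvd.dvd.trans ?_ (Nat.totient_dvd_of_dvd (⟨q, by ring⟩ : 4 * p ∣ 4 * q * p))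
      rw [Nat.totient_mul (hc hp hp2)]
      exact mul_dvd_mul (show 2 ∣ _ by decide) (he hp hp2)
  · refine h7 q hq3 hqp (Dvd.dvd.trans ⟨4, by ring⟩ hG) h9 ?_
    rw [Nat.totient_mul ((Nat.coprime_primes hq hp).mpr hpq.symm)]
    exact mul_dvd_mul (he hq hq2) (he hp hp2)

/-- A finite group in which the numbers of elements of each order that occurs (the numbers #{g : o(g) = m}, m ranging over the element orders) take exactly three different values is solvable. -/
theorem result {G : Type*} [Group G] [Finite G] (h : (((fun m : ℕ => Nat.card {g : G // orderOf g = m}) '' Set.range (orderOf : G → ℕ))).ncard = 3) : Group.IsSolvable G := by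
  obtain ⟨m, n, h0⟩ := exists_values h
  have h1 : ∀ t, 3 ≤ t → sc G t = 0 ∨ sc G t = m ∨ sc G t = n := fun t ht => values_three h0 ht
  by_contra hns
  have h4 : 4 ∣ Nat.card G := by
    by_contra h4
    obtain ⟨T⟩ : Nonempty (Sylow 2 G) := inferInstance
    obtain ⟨k, hk⟩ := IsPGroup.iff_card.mp T.isPGroup'
    have h5 : k < 2 := by
      by_contra h5
      exact h4 (((pow_dvd_pow 2 (not_lt.mp h5)).trans hk.symm.dvd).trans (card_subgroup_dvd_card _))
    obtain ⟨N, _, h6, j, hj⟩ := (Tr.hasNormalPComplement_two_of_isCyclic T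
      (isCyclic_of_card_dvd_prime (p := 2) (by rw [hk]; interval_cases k <;> norm_num))).exists_normal
    have := (IsPGroup.of_card (G := G ⧸ N) hj).isNilpotent
    exact hns (isSolvable_of_normal N (ft_solvable_of_not_two_dvd h6) inferInstance)
  obtain ⟨p, hp, hpG, hp2⟩ : ∃ p, p.Prime ∧ p ∣ Nat.card G ∧ p ≠ 2 := by
    by_contra h5
    push Not at h5
    exact hns (Ch.burnside_isSolvable_of_primes (p := 2) Nat.prime_two
      fun r hr h6 => Or.inl (h5 r hr h6))
  obtain ⟨q, hq, hqG, hqp, hq2⟩ : ∃ q, q.Prime ∧ q ∣ Nat.card G ∧ q ≠ p ∧ q ≠ 2 := by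
    by_contra h5
    push Not at h5
    exact hns (Ch.burnside_isSolvable_of_primes (p := p) Nat.prime_two
      fun r hr h6 => or_iff_not_imp_left.mpr (h5 r hr h6))
  have := Fact.mk hp
  have := Fact.mk hq
  have hp3 := hp.two_le.lt_of_ne' hp2
  have hq3 := hq.two_le.lt_of_ne' hq2
  have hc : ∀ {r : ℕ}, r.Prime → r ≠ 2 → (4 : ℕ).Coprime r := fun {r} hr hr2 =>
    Nat.Coprime.pow_left 2 ((Nat.coprime_primes Nat.prime_two hr).mpr hr2.symm)
  have hG : ∀ {p q : ℕ}, p.Prime → q.Prime → p ≠ 2 → q ≠ 2 → q ≠ p → p ∣ Nat.card G →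
      q ∣ Nat.card G → 4 * q * p ∣ Nat.card G := fun {p q} hp hq hp2 hq2 hqp hpG hqG =>
    (Nat.Coprime.mul_left (hc hp hp2) ((Nat.coprime_primes hq hp).mpr hqp)).mul_dvd_of_dvd_of_dvd
      ((hc hq hq2).mul_dvd_of_dvd_of_dvd h4 hqG) hpG
  have h5 := cast_sc_prime hp hpG
  have h6 := cast_sc_prime hq hqG
  have hp0 : sc G p ≠ 0 := fun h0 => by simp [h0] at h5
  have hq0 : sc G q ≠ 0 := fun h0 => by simp [h0] at h6
  have h7 := dvd_sum_sc h4
  have h8 := dvd_sum_sc (Dvd.dvd.trans (by norm_num : 2 ∣ 4) h4)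
  rw [show Nat.divisors 4 = {1, 2, 4} by decide] at h7
  rw [show Nat.divisors 2 = {1, 2} by decide] at h8
  simp only [Finset.mem_insert, Finset.mem_singleton, Nat.reduceEqDiff, or_self, not_false_eq_true,
    Finset.sum_insert, Finset.sum_singleton, sc_one] at h7 h8
  have hqp' : ¬ p ∣ q := fun h => hqp ((Nat.prime_dvd_prime_iff_eq hp hq).mp h).symm
  have h9 := cast_sc_mul hp hqp' (Dvd.dvd.trans ⟨4, by ring⟩ (hG hp hq hp2 hq2 hqp hpG hqG))
  by_cases h2 : sc G 2 = 1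
  · have h10 : ¬ 4 ∣ sc G 4 := by omega
    wlog h11 : sc G 4 = m generalizing m n
    · exact this n m (fun t => by have := h0 t; tauto) (fun t ht => (h1 t ht).imp_right Or.symm)
        (((h1 4 (by norm_num)).resolve_left (by omega)).resolve_left h11)
    rcases (h1 p hp3).resolve_left hp0 with h12 | h12
    · exact main h1 hp hp2 hq hq2 hqp.symm (hG hp hq hp2 hq2 hqp hpG hqG) h12 h11 (h11 ▸ h10)
    rcases (h1 q hq3).resolve_left hq0 with h13 | h13
    · exact main h1 hq hq2 hp hp2 hqp (hG hq hp hq2 hp2 hqp.symm hqG hpG) h13 h11 (h11 ▸ h10)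
    rw [h13, ← h12, h5, neg_neg] at h9
    rcases h1 (q * p) (Nat.le_trans hq3 (Nat.le_mul_of_pos_right q hp.pos)) with h14 | h14 | h14
    · simp [h14] at h9
    · refine h10 (h11 ▸ h14 ▸ Dvd.dvd.trans ?_ (totient_dvd_sc _))
      rw [Nat.totient_mul ((Nat.coprime_primes hq hp).mpr hqp)]
      exact mul_dvd_mul (even_iff_two_dvd.mp (Nat.totient_even hq3))
        (even_iff_two_dvd.mp (Nat.totient_even hp3))
    · exact neg_one_ne_one hp hp2 (by rwa [h14, ← h12, h5] at h9)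
  · have h10 : ∀ t, 3 ≤ t → sc G t = 0 ∨ sc G t = sc G p := fun t ht => by
      have := h0 2
      have := h1 t ht
      have := h1 p hp3
      have := two_dvd_sc (G := G) ht
      have := two_dvd_sc (G := G) hp3
      omega
    rw [(h10 q hq3).resolve_left hq0, h5, neg_neg] at h9
    rcases h10 (q * p) (Nat.le_trans hq3 (Nat.le_mul_of_pos_right q hp.pos)) with h14 | h14
    · simp [h14] at h9
    · exact neg_one_ne_one hp hp2 (by rwa [h14, h5] at h9)

end Cfsg.Agent.S3996
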