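import Mathlib
import Cfsg.Statements.S4009
import Cfsg.Agent.FG.CommMod
import Cfsg.Agent.GT.PGroupMaxClass

set_option autoImplicit false
open Cfsg

namespace Cfsg.Agent.S4009

open Cfsg.Agent.FG Cfsg.Agent.GT Subgroup
open scoped commutatorElement

section
variable {G : Type*} [Group G]

theorem comm_le_iff {A B S : Subgroup G} [S.Normal] : ⁅A, B⁆ ≤ S ↔
    A.map (QuotientGroup.mk' S) ≤ centralizer (B.map (QuotientGroup.mk' S) : Set (G ⧸ S)) := by
  rw [← commutator_eq_bot_iff_le_centralizer, ← map_commutator, Subgroup.map_eq_bot_iff,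
    QuotientGroup.ker_mk']

theorem comm_le_of_gen {N K S : Subgroup G} [S.Normal] {a b : G}
    (hN : N ≤ zpowers a ⊔ (zpowers b ⊔ K)) (ha : a ∈ N) (hb : b ∈ N) (_ : K ≤ N)
    (hab : ⁅a, b⁆ ∈ S) (hK : ⁅K, N⁆ ≤ S) : ⁅N, N⁆ ≤ S := by
  rw [comm_le_iff] at hK ⊢
  set π := QuotientGroup.mk' S
  have h1 := map_mono (f := π) hN
  rw [Subgroup.map_sup, Subgroup.map_sup, MonoidHom.map_zpowers, MonoidHom.map_zpowers] at h1
  have h2 : Commute (π a) (π b) := by
    rw [← commutatorElement_eq_one_iff_commute, ← map_commutatorElement]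
    exact (QuotientGroup.eq_one_iff _).mpr hab
  have h3 : ∀ x ∈ N, ∀ y z : G, Commute (π x) (π y) → Commute (π x) (π z) →
      zpowers (π x) ≤ centralizer ((zpowers (π y) ⊔ (zpowers (π z) ⊔ K.map π) : Subgroup _) : Set _) :=
    fun x hx y z hy hz => le_centralizer_iff.mp (sup_le ?_ (sup_le ?_ (hK.trans
      (centralizer_le (zpowers_le.mpr (mem_map_of_mem π hx))))))
  · refine h1.trans (sup_le ((h3 a ha a b (Commute.refl _) h2).trans (centralizer_le h1)) (sup_le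
      ((h3 b hb a b h2.symm (Commute.refl _)).trans (centralizer_le h1)) hK))
  · rintro _ ⟨i, rfl⟩ _ ⟨j, rfl⟩
    exact (hy.zpow_zpow j i).eq
  · rintro _ ⟨i, rfl⟩ _ ⟨j, rfl⟩
    exact (hz.zpow_zpow j i).eq

variable [Finite G] {p : ℕ} [hp : Fact p.Prime]

theorem mul_le_of_lt (hG : IsPGroup p G) {A B : Subgroup G} (h : A < B) :
    p * Nat.card A ≤ Nat.card B := by
  obtain ⟨i, hi⟩ := IsPGroup.iff_card.mp (hG.to_subgroup A)
  obtain ⟨j, hj⟩ := IsPGroup.iff_card.mp (hG.to_subgroup B)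
  have h1 : i < j := by
    by_contra h1
    exact h.ne (PG.eq_of_le_of_card_le h.le (by
      rw [hi, hj]; exact Nat.pow_le_pow_right hp.out.pos (by omega)))
  rw [hi, hj, ← pow_succ']
  exact Nat.pow_le_pow_right hp.out.pos h1

theorem gen_one (hG : IsPGroup p G) {K N : Subgroup G} (h : K ≤ N)
    (h1 : ¬ p ^ 2 * Nat.card K ≤ Nat.card N) : ∃ a ∈ N, N ≤ zpowers a ⊔ K := by
  rcases h.eq_or_lt with rfl | h2
  · exact ⟨1, one_mem _, le_sup_right⟩
  obtain ⟨a, ha, ha'⟩ := SetLike.exists_of_lt h2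
  refine ⟨a, ha, ((sup_le (zpowers_le.mpr ha) h).eq_or_lt.resolve_right fun h3 => h1 ?_).ge⟩
  rw [pow_two, mul_assoc]
  exact (Nat.mul_le_mul_left p (mul_le_of_lt hG (lt_of_le_of_ne le_sup_right
    fun h4 => ha' (h4.ge (mem_sup_left (mem_zpowers a)))))).trans (mul_le_of_lt hG h3)

theorem gen_two (hG : IsPGroup p G) {K N : Subgroup G} (h : K ≤ N)
    (h1 : ¬ p ^ 3 * Nat.card K ≤ Nat.card N) :
    ∃ a ∈ N, ∃ b ∈ N, N ≤ zpowers a ⊔ (zpowers b ⊔ K) := by
  rcases h.eq_or_lt with rfl | h2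
  · exact ⟨1, one_mem _, 1, one_mem _, le_sup_right.trans le_sup_right⟩
  obtain ⟨b, hb, hb'⟩ := SetLike.exists_of_lt h2
  obtain ⟨a, ha, ha'⟩ := gen_one hG (sup_le (zpowers_le.mpr hb) h) fun h3 => h1 (by
    rw [pow_succ, mul_assoc]
    exact (Nat.mul_le_mul_left _ (mul_le_of_lt hG (lt_of_le_of_ne le_sup_right
      fun h4 => hb' (h4.ge (mem_sup_left (mem_zpowers b)))))).trans h3)
  exact ⟨a, ha, b, hb, ha'⟩

theorem chain (hG : IsPGroup p G) (N : Subgroup G) [N.Normal] (i : ℕ)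
    (h : iterCommutator N ⊤ i ≠ ⊥) : p ^ i * Nat.card (iterCommutator N ⊤ i) ≤ Nat.card N := by
  rcases i with _ | i
  · simp [PG.iterCommutator_zero]
  · exact PG.pow_mul_card_iterCommutator_le (hG.to_subgroup N) (hG.to_subgroup ⊤)
      (by rw [normalizer_eq_top]) fun h0 => h (by rw [PG.iterCommutator_succ, h0, commutator_bot_left])

omit [Finite G] in
theorem comm_iter (N : Subgroup G) [N.Normal] {j : ℕ} (hj : N ≤ (⊤ : Subgroup G).lowerCentralSeries j)
    (t : ℕ) : ⁅iterCommutator N ⊤ t, N⁆ ≤ iterCommutator N ⊤ (t + j + 1) :=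
  (commutator_mono le_rfl hj).trans (commutator_chain_lowerCentralSeries (iterCommutator N ⊤)
    (PG.iterCommutator_normal N ⊤) ⊤ (fun _ => le_rfl) t j)

theorem hall (hG : IsPGroup p G) (N : Subgroup G) [N.Normal] {j : ℕ}
    (hj : N ≤ (⊤ : Subgroup G).lowerCentralSeries j) (h0 : ⁅N, N⁆ ≠ ⊥) :
    ∃ t, ⁅N, N⁆ ≤ iterCommutator N ⊤ (t + j) ∧
      p ^ (j + 2) * Nat.card (iterCommutator N ⊤ (t + j)) ≤ Nat.card N := by
  have h1 : iterCommutator N ⊤ 1 ≤ N := PG.iterCommutator_le (by rw [normalizer_eq_top]) 1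
  by_cases h : p ^ 2 * Nat.card (iterCommutator N ⊤ 1) ≤ Nat.card N
  · have h2 : ⁅N, N⁆ ≤ iterCommutator N ⊤ (1 + j) := by
      rw [show 1 + j = 0 + j + 1 by omega]
      exact comm_iter N hj 0
    refine ⟨1, h2, le_trans ?_ h⟩
    have := PG.iterCommutator_normal N ⊤ 1
    rw [add_comm j 2, pow_add, mul_assoc, PG.iterCommutator_add]
    exact Nat.mul_le_mul_left _ (chain hG _ j fun h3 => h0 (eq_bot_iff.mpr
      (h2.trans (by rw [PG.iterCommutator_add, h3]))))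
  obtain ⟨a, ha, ha'⟩ := gen_one hG h1 h
  have := PG.iterCommutator_normal N ⊤ (2 + j)
  have h2 : ⁅N, N⁆ ≤ iterCommutator N ⊤ (2 + j) :=
    comm_le_of_gen (b := a) (ha'.trans (sup_le_sup_left le_sup_right _)) ha ha h1 (by simp)
      (by rw [show 2 + j = 1 + j + 1 by omega]; exact comm_iter N hj 1)
  refine ⟨2, h2, ?_⟩
  rw [add_comm j 2]
  exact chain hG N _ fun h3 => h0 (eq_bot_iff.mpr (h2.trans h3.le))

theorem hall' (hG : IsPGroup p G) (N : Subgroup G) [N.Normal] {j : ℕ}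
    (hj : N ≤ (⊤ : Subgroup G).lowerCentralSeries j) (h0 : ⁅N, N⁆ ≠ ⊥) :
    p ^ (j + 2) * Nat.card ↥⁅N, N⁆ ≤ Nat.card N := by
  obtain ⟨t, h1, h2⟩ := hall hG N hj h0
  exact (Nat.mul_le_mul_left _ (card_le_of_le h1)).trans h2

theorem mann (hG : IsPGroup p G) (N : Subgroup G) [N.Normal] {j : ℕ}
    (hj : N ≤ (⊤ : Subgroup G).lowerCentralSeries j) (h0 : ⁅N, N⁆ ≠ ⊥)
    (h : ¬ p ^ (j + 3) * Nat.card ↥⁅N, N⁆ ≤ Nat.card N) :
    ⁅⁅N, N⁆, ⁅N, N⁆⁆ ≤ ⁅⁅⁅N, N⁆, (⊤ : Subgroup G)⁆, ⁅N, N⁆⁆ := by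
  obtain ⟨t, h1, h2⟩ := hall hG N hj h0
  have h3 : ⁅N, N⁆ = iterCommutator N ⊤ (t + j) := h1.eq_or_lt.resolve_right fun h3 => h (by
    rw [pow_succ, mul_assoc]
    exact (Nat.mul_le_mul_left _ (mul_le_of_lt hG h3)).trans h2)
  have := PG.iterCommutator_normal N ⊤ t
  have h4 : iterCommutator N ⊤ t ≤ N := PG.iterCommutator_le (by rw [normalizer_eq_top]) t
  obtain ⟨a, ha, b, hb, hab⟩ := gen_two hG h4 fun h5 => h (by
    rw [add_comm j 3, pow_add, mul_assoc, h3, PG.iterCommutator_add]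
    exact (Nat.mul_le_mul_left _ (chain hG _ j (by rwa [← PG.iterCommutator_add, ← h3]))).trans h5)
  have hc : ⁅a, b⁆ ∈ ⁅N, N⁆ := commutator_mem_commutator ha hb
  have h5 : zpowers ⁅a, b⁆ ⊔ ⁅⁅N, N⁆, (⊤ : Subgroup G)⁆ ≤ ⁅N, N⁆ := sup_le (zpowers_le.mpr hc) (commutator_le_left _ _)
  have : (zpowers ⁅a, b⁆ ⊔ ⁅⁅N, N⁆, (⊤ : Subgroup G)⁆).Normal := by
    rw [← normalizer_eq_top_iff, eq_top_iff, le_normalizer_iff_commutator_le_left]
    exact (commutator_mono h5 le_rfl).trans le_sup_right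
  have h6 : ⁅N, N⁆ ≤ zpowers ⁅a, b⁆ ⊔ ⁅⁅N, N⁆, (⊤ : Subgroup G)⁆ :=
    comm_le_of_gen hab ha hb h4 (mem_sup_left (mem_zpowers _))
      ((comm_iter N hj t).trans (by rw [PG.iterCommutator_succ, ← h3]; exact le_sup_right))
  exact comm_le_of_gen (b := ⁅a, b⁆) (h6.trans (sup_le_sup_left le_sup_right _)) hc hc
    (commutator_le_left _ _) (by simp) le_rfl

omit [Finite G] in
theorem derived_le (e : ℕ) : ∃ j, j + 1 = 2 ^ e ∧
    derivedSeries G e ≤ (⊤ : Subgroup G).lowerCentralSeries j := by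
  induction e with
  | zero => exact ⟨0, rfl, le_rfl⟩
  | succ e ih =>
    obtain ⟨j, h1, h2⟩ := ih
    exact ⟨j + j + 1, by rw [pow_succ]; omega,
      (commutator_mono h2 h2).trans (commutator_lowerCentralSeries_le ⊤ j j)⟩

end

/-- Let P be a finite p-group of order p^n whose derived length is exactly k + 1 (the k-th derived subgroup is nontrivial and the (k+1)-st is trivial). Then n ≥ 2^k + 2k − 2. -/
theorem result {P : Type*} [Group P] [Finite P] (p : ℕ) [Fact p.Prime] (n k : ℕ) (hcard : Nat.card P = p ^ n) (hk : derivedSeries P k ≠ ⊥) (hk' : derivedSeries P (k + 1) = ⊥) : 2 ^ k + 2 * k ≤ n + 2 := by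
  have hp : p.Prime := Fact.out
  have hG : IsPGroup p P := IsPGroup.of_card hcard
  have step : ∀ {a b c x y z : ℕ}, p ^ a * x ≤ z → p ^ b * y ≤ x → c ≤ a + b → p ^ c * y ≤ z :=
    fun {a b c x y z} h1 h2 h3 => by
      calc _ ≤ p ^ a * (p ^ b * y) := by
            rw [← mul_assoc, ← pow_add]
            exact Nat.mul_le_mul_right _ (Nat.pow_le_pow_right hp.pos h3)
        _ ≤ _ := (Nat.mul_le_mul_left _ h2).trans h1
  have key : ∀ e ≤ k, p ^ (2 ^ e + 2 * e) * Nat.card (derivedSeries P e) ≤ p ^ (n + 1) ∨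
      (p ^ (2 ^ e + 2 * e) * Nat.card (derivedSeries P e) ≤ p ^ (n + 2) ∧
        derivedSeries P (e + 1) ≤ (⊤ : Subgroup P).lowerCentralSeries (2 ^ (e + 1))) ∨
      (p ^ (2 ^ e + 2 * e) * Nat.card (derivedSeries P e) ≤ p ^ (n + 3) ∧
        derivedSeries P e ≤ (⊤ : Subgroup P).lowerCentralSeries (2 ^ e)) := fun e he => by
    induction e with
    | zero => exact Or.inl (by simp [hcard, pow_succ'])
    | succ e ih =>
      have h0 : ⁅derivedSeries P e, derivedSeries P e⁆ ≠ ⊥ := fun h0 => hk (eq_bot_iff.mpr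
        ((derivedSeries_antitone P he).trans h0.le))
      obtain ⟨j, hj, hj'⟩ := derived_le (G := P) e
      have h1 := hall' hG _ hj' h0
      have hs : ∀ {c x : ℕ}, p ^ (2 ^ e + 2 * e) * x ≤ p ^ c →
          p ^ (2 ^ e + 2 * e + 1) * x ≤ p ^ (c + 1) := fun {c x} h => by
        rw [pow_succ', pow_succ', mul_assoc]
        exact Nat.mul_le_mul_left _ h
      have h2e : 2 ^ (e + 1) = 2 * 2 ^ e := pow_succ' 2 e
      rcases ih (by omega) with h | ⟨h, h'⟩ | ⟨h, h'⟩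
      · by_cases h2 : p ^ (j + 3) * Nat.card ↥⁅derivedSeries P e, derivedSeries P e⁆ ≤
            Nat.card (derivedSeries P e)
        · exact Or.inl (step h h2 (by omega))
        refine Or.inr (Or.inl ⟨step (hs h) h1 (by omega), (mann hG _ hj' h0 h2).trans ?_⟩)
        obtain ⟨i, hi, hi'⟩ := derived_le (G := P) (e + 1)
        rw [show 2 ^ (e + 1 + 1) = i + 1 + i + 1 by rw [pow_succ]; omega]
        exact (commutator_mono (commutator_mono hi' le_rfl) hi').trans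
          (commutator_lowerCentralSeries_le ⊤ (i + 1) i)
      · exact Or.inr (Or.inr ⟨step (hs h) h1 (by omega), h'⟩)
      · refine Or.inr (Or.inr ⟨step h (hall' hG _ h' h0) (by omega),
          ((commutator_mono h' h').trans (commutator_lowerCentralSeries_le ⊤ _ _)).trans
            (Subgroup.lowerCentralSeries_antitone _ (by omega))⟩)
  have h1 : p ^ (2 ^ k + 2 * k) * Nat.card (derivedSeries P k) ≤ p ^ (n + 3) := by
    rcases key k le_rfl with h | ⟨h, -⟩ | ⟨h, -⟩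
    · exact h.trans (Nat.pow_le_pow_right hp.pos (by omega))
    · exact h.trans (Nat.pow_le_pow_right hp.pos (by omega))
    · exact h
  have h2 := mul_le_of_lt hG (bot_lt_iff_ne_bot.mpr hk)
  rw [card_bot, mul_one] at h2
  have h3 := (Nat.mul_le_mul_left _ h2).trans h1
  rw [← pow_succ, Nat.pow_le_pow_iff_right hp.one_lt] at h3
  omega

end Cfsg.Agent.S4009
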