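import Mathlib
import Cfsg.Statements.S4010
import Cfsg.Agent.GT.PGroupBasic
import Cfsg.Agent.Perm.PermModule

set_option autoImplicit false
open Cfsg

namespace Cfsg.Agent.S4010

open Cfsg.Agent.GT Subgroup Module
open scoped commutatorElement

universe u v

section charp
variable {K : Type*} [Field K] {G : Type*} [Group G] {V : Type*} [AddCommGroup V] [Module K V]
  (ρ : Representation K G V)

/-- ascending chain of fixed points -/
def U : ℕ → Submodule K V := fun n => Nat.rec ⊥ (fun _ W => ⨅ g, W.comap (ρ g - 1)) n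

theorem mem_U_succ {i : ℕ} {v : V} : v ∈ U ρ (i + 1) ↔ ∀ g, ρ g v - v ∈ U ρ i :=
  Submodule.mem_iInf _

theorem U_le (i : ℕ) : U ρ i ≤ U ρ (i + 1) := by
  induction i with
  | zero => exact bot_le
  | succ i ih => exact fun v hv => (mem_U_succ ρ).mpr fun g => ih ((mem_U_succ ρ).mp hv g)

theorem U_inv (i : ℕ) (g : G) {v : V} (hv : v ∈ U ρ i) : ρ g v ∈ U ρ i := by
  rcases i with _ | i
  · rw [show v = 0 from hv, map_zero]; exact zero_mem _
  · simpa using add_mem (U_le ρ i ((mem_U_succ ρ).mp hv g)) hv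

/-- stabilisers of the chain -/
def S (j : ℕ) : Subgroup G where
  carrier := {g | ∀ i, ∀ v ∈ U ρ (i + j), ρ g v - v ∈ U ρ i}
  one_mem' := fun i v _ => by simp
  mul_mem' := fun {a b} ha hb i v hv => by
    simpa using add_mem (U_inv ρ i a (hb i v hv)) (ha i v hv)
  inv_mem' := fun {a} ha i v hv => by
    simpa using neg_mem (U_inv ρ i a⁻¹ (ha i v hv))

theorem derived_le_S (k : ℕ) : derivedSeries G k ≤ S ρ (2 ^ k) := by
  induction k with
  | zero => exact fun g _ i v hv => (mem_U_succ ρ).mp hv g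
  | succ k ih =>
    refine (commutator_mono ih ih).trans (commutator_le.mpr fun a ha b hb i v hv => ?_)
    have h1 : ρ a⁻¹ (ρ b⁻¹ v) ∈ U ρ (i + 2 ^ k + 2 ^ k) := by
      rw [add_assoc, ← two_mul, ← pow_succ']
      exact U_inv ρ _ _ (U_inv ρ _ _ hv)
    have h2 := sub_mem (ha i _ (hb _ _ h1)) (hb i _ (ha _ _ h1))
    convert h2 using 1
    simp only [commutatorElement_def, map_mul, Module.End.mul_apply, map_sub,
      Representation.self_inv_apply]
    abel

theorem charp {p : ℕ} [Fact p.Prime] [CharP K p] [Finite G] (hG : IsPGroup p G)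
    [FiniteDimensional K V] {k : ℕ} (hk : finrank K V ≤ 2 ^ k) {g : G}
    (hg : g ∈ derivedSeries G k) : ρ g = 1 := by
  have h1 : ∀ i, U ρ i = ⊤ ∨ i ≤ finrank K (U ρ i) := fun i => by
    induction i with
    | zero => exact Or.inr (Nat.zero_le _)
    | succ i ih =>
      by_cases h : U ρ i = ⊤
      · exact Or.inl (top_le_iff.mp (h.ge.trans (U_le ρ i)))
      refine Or.inr (lt_of_le_of_lt (ih.resolve_left h) (Submodule.finrank_lt_finrank_of_lt ?_))
      have := Submodule.Quotient.nontrivial_iff.mpr h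
      obtain ⟨w, -, hw, hw'⟩ := Perm.exists_fixed_ne_zero_of_isPGroup hG
        (ρ.quotient (U ρ i) fun g v hv => U_inv ρ i g hv) ⊤ top_ne_bot fun _ _ _ => trivial
      obtain ⟨w, rfl⟩ := Submodule.Quotient.mk_surjective _ w
      exact lt_of_le_of_ne (U_le ρ i) fun h2 => hw ((Submodule.Quotient.mk_eq_zero _).mpr
        (h2.ge ((mem_U_succ ρ).mpr fun g => (Submodule.Quotient.eq _).mp (hw' g))))
  have h2 : U ρ (0 + 2 ^ k) = ⊤ := (h1 _).elim id fun h =>
    Submodule.eq_top_of_finrank_eq (le_antisymm (Submodule.finrank_le _) (by omega))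
  ext v
  exact sub_eq_zero.mp (derived_le_S ρ k hg 0 v (h2 ▸ trivial))

end charp

theorem derived_le_map {G : Type*} [Group G] {M : Subgroup G} (h : commutator G ≤ M) (k : ℕ) :
    derivedSeries G (k + 1) ≤ (derivedSeries M k).map M.subtype := by
  induction k with
  | zero => exact fun g hg => ⟨⟨g, h hg⟩, trivial, rfl⟩
  | succ k ih =>
    rw [derivedSeries_succ M, map_commutator]
    exact commutator_mono ih ih

theorem comm_mem {Q : Type*} [Group Q] {z : Q} (hz : ∀ g, ⁅z, g⁆ ∈ center Q) (a b : Q) :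
    ⁅a, b⁆ ∈ centralizer {z} := by
  have key : ∀ c ∈ center Q, ∀ a y, ⁅c * a, y⁆ = ⁅a, y⁆ := fun c hc a y => by
    calc _ = c * (a * y * a⁻¹) * c⁻¹ * y⁻¹ := by simp only [commutatorElement_def]; group
      _ = _ := by rw [← mem_center_iff.mp hc]; simp only [commutatorElement_def]; group
  have h1 : ∀ a, z * a * z⁻¹ = ⁅z, a⁆ * a := fun a => by simp only [commutatorElement_def]; group
  rw [mem_centralizer_singleton_iff]
  refine (mul_inv_eq_iff_eq_mul.mp ?_).symm
  rw [conjugate_commutatorElement, h1, h1, key _ (hz a), ← commutatorElement_inv, key _ (hz b),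
    commutatorElement_inv]

theorem cross {K : Type*} [Field K] [IsAlgClosed K] {p : ℕ} [Fact p.Prime] (hp : (p : K) ≠ 0)
    (k : ℕ) : ∀ (G : Type u) [Group G] [Finite G], IsPGroup p G → ∀ (n : ℕ) (V : Type v)
      [AddCommGroup V] [Module K V] [FiniteDimensional K V] (ρ : Representation K G V),
      finrank K V = n → n < 2 ^ k → ∀ g ∈ derivedSeries G k, ρ g = 1 := by
  induction k with
  | zero =>
    intro G _ _ _ n V _ _ _ ρ hn hk g _
    have := finrank_zero_iff.mp (show finrank K V = 0 by omega)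
    exact Subsingleton.elim _ _
  | succ k ihk =>
  intro G _ _ hG n
  induction n using Nat.strong_induction_on with
  | _ n ihn =>
  intro V _ _ _ ρ hn hk g hg
  by_cases hirr : ∃ W : Submodule K V, W ≠ ⊥ ∧ W ≠ ⊤ ∧ ∀ g, W ≤ W.comap (ρ g)
  · obtain ⟨W, h0, h1, hW⟩ := hirr
    have h2 := W.finrank_quotient_add_finrank
    have h3 := Submodule.finrank_lt h1
    have h4 : finrank K W ≠ 0 := fun h => h0 (Submodule.finrank_eq_zero.mp h)
    have h5 := ihn _ (by omega) W (ρ.subrepresentation W hW) rfl (by omega) g hg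
    have h6 := ihn _ (by omega) (V ⧸ W) (ρ.quotient W hW) rfl (by omega) g hg
    ext v
    have h7 : ρ g v - v ∈ W := (Submodule.Quotient.eq _).mp
      (LinearMap.congr_fun h6 (Submodule.Quotient.mk v))
    have h8 : ρ g (ρ g v - v) = ρ g v - v :=
      congrArg Subtype.val (LinearMap.congr_fun h5 ⟨_, h7⟩)
    have h9 : ∀ j : ℕ, ρ (g ^ j) v = v + (j : K) • (ρ g v - v) := fun j => by
      induction j with
      | zero => simp
      | succ j ih =>
        rw [pow_succ', map_mul, Module.End.mul_apply, ih, map_add, map_smul, h8, Nat.cast_succ,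
          add_smul, one_smul]
        abel
    obtain ⟨j, hj⟩ := hG g
    have h10 := h9 (p ^ j)
    rw [hj, map_one, Module.End.one_apply, left_eq_add, smul_eq_zero, Nat.cast_pow] at h10
    exact sub_eq_zero.mp (h10.resolve_left (pow_ne_zero _ hp))
  push Not at hirr
  have hirr' : ∀ W : Submodule K V, W ≠ ⊥ → (∀ g, ∀ v ∈ W, ρ g v ∈ W) → W = ⊤ := fun W h0 h1 => by
    by_contra h2
    obtain ⟨g, hg⟩ := hirr W h0 h2
    exact hg (h1 g)
  rcases subsingleton_or_nontrivial V with hV | hV
  · exact Subsingleton.elim _ _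
  have hQ := hG.to_quotient ρ.ker
  have hcm : ∀ a b : G, Commute (a : G ⧸ ρ.ker) b ↔ Commute (ρ a) (ρ b) := fun a b => by
    rw [commute_iff_eq, ← QuotientGroup.mk_mul, ← QuotientGroup.mk_mul, QuotientGroup.eq,
      commute_iff_eq, ← map_mul, ← map_mul, MonoidHom.mem_ker]
    refine ⟨fun h => ?_, fun h => by rw [map_mul, ← h, ← map_mul, inv_mul_cancel, map_one]⟩
    rw [← mul_one (ρ (a * b)), ← h, ← map_mul, mul_inv_cancel_left]
  by_cases hab : (⊤ : Subgroup (G ⧸ ρ.ker)) ≤ center _
  · have h1 : commutator G ≤ ρ.ker := Normal.quotient_commutative_iff_commutator_le.mp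
      ⟨⟨fun a b => (mem_center_iff.mp (hab (mem_top a)) b).symm⟩⟩
    exact h1 (derivedSeries_antitone G (Nat.le_add_left 1 k) hg)
  have := hQ.isNilpotent
  obtain ⟨m, hm⟩ := PG.exists_iterCommutator_eq_bot (⊤ : Subgroup (G ⧸ ρ.ker)) ⊤
  obtain ⟨z, -, hz, hz'⟩ := PG.exists_notMem_commutator_mem_of_iterCommutator hm
    (by rw [normalizer_eq_top]) hab
  obtain ⟨z, rfl⟩ := QuotientGroup.mk_surjective z
  set M := (centralizer {(z : G ⧸ ρ.ker)}).comap (QuotientGroup.mk' ρ.ker) with hM
  have hGM : commutator G ≤ M := commutator_le.mpr fun a _ b _ => by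
    rw [hM, mem_comap, map_commutatorElement]
    exact comm_mem (fun g => hz' g trivial) _ _
  obtain ⟨μ, hμ⟩ := Module.End.exists_eigenvalue (ρ z)
  set W := Module.End.eigenspace (ρ z) μ with hW
  have hW1 : W ≠ ⊤ := fun h => hz (mem_center_iff.mpr fun a => by
    obtain ⟨a, rfl⟩ := QuotientGroup.mk_surjective a
    refine (hcm a z).mpr (LinearMap.ext fun v => ?_)
    have h1 : ∀ w, ρ z w = μ • w := fun w => Module.End.mem_eigenspace_iff.mp (h.ge trivial)
    simp [h1])
  obtain ⟨a, ha⟩ := hirr W hμ hW1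
  obtain ⟨ν, hν⟩ := Module.End.exists_eigenvalue (ρ ⁅z, a⁆)
  have h1 : ∀ w, ρ ⁅z, a⁆ w = ν • w := fun w => Module.End.mem_eigenspace_iff.mp
    ((hirr' _ hν fun b v hv => Module.End.mapsTo_genEigenspace_of_comm
      ((hcm _ b).mp (mem_center_iff.mp (hz' a trivial) b).symm) ν 1 hv).ge trivial)
  have h2 : ∀ w ∈ W, ρ z (ρ a w) = (ν * μ) • ρ a w := fun w hw => by
    rw [mul_smul, ← h1, ← map_smul, ← Module.End.mem_eigenspace_iff.mp hw]
    simp [commutatorElement_def]
  have h3 : Disjoint W (W.map (ρ a)) := by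
    rw [Submodule.disjoint_def]
    rintro _ hv ⟨w, hw, rfl⟩
    by_contra h4
    have h5 := (Module.End.mem_eigenspace_iff.mp hv).symm.trans (h2 w hw)
    exact ha fun v hv => Module.End.mem_eigenspace_iff.mpr (by
      rw [h2 v hv, ← smul_left_injective K h4 h5])
  have h4 : 2 * finrank K W ≤ n := by
    have h5 := Submodule.finrank_sup_add_finrank_inf_eq W (W.map (ρ a))
    rw [h3.eq_bot, finrank_bot, ← (Submodule.equivMapOfInjective _ (ρ.apply_bijective a).1 W).finrank_eq]
      at h5
    have := Submodule.finrank_le (W ⊔ W.map (ρ a))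
    omega
  have h5 := ihk M (hG.to_subgroup M) _ W (Representation.subrepresentation (ρ.comp M.subtype) W
    fun b v hv => Module.End.mapsTo_genEigenspace_of_comm
      ((hcm b z).mp (mem_centralizer_singleton_iff.mp b.2)).symm μ 1 hv) rfl (by
    rw [pow_succ] at hk; omega)
  have h6 := hirr' (⨅ d ∈ derivedSeries G (k + 1), LinearMap.ker (ρ d - 1))
    (fun h => hμ (eq_bot_iff.mpr (le_trans (le_iInf₂ fun d hd v hv => by
      obtain ⟨d, hd', rfl⟩ := derived_le_map hGM k hd
      exact sub_eq_zero.mpr (congrArg Subtype.val (LinearMap.congr_fun (h5 d hd') ⟨v, hv⟩))) h.le)))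
    fun b v hv => by
      simp only [Submodule.mem_iInf, LinearMap.mem_ker] at hv ⊢
      intro d hd
      have h7 := congrArg (ρ b) (hv _ ((inferInstance : (derivedSeries G (k + 1)).Normal).conj_mem
        d hd b⁻¹))
      simpa using h7
  ext v
  have h7 : v ∈ ⨅ d ∈ derivedSeries G (k + 1), LinearMap.ker (ρ d - 1) := h6 ▸ trivial
  simp only [Submodule.mem_iInf, LinearMap.mem_ker] at h7
  exact sub_eq_zero.mp (h7 g hg)

/-- Let F be a field, n ≥ 1, and P a finite p-group (p a prime) admitting an injective homomorphism into the general linear group of degree n over F. Then the derived length of P is at most ⌊log₂ n⌋ + 1: that term of the derived series of P is trivial. -/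
theorem result {P : Type*} [Group P] [Finite P] (p : ℕ) [Fact p.Prime] (hP : IsPGroup p P) (F : Type*) [Field F] (n : ℕ) (hn : 1 ≤ n) (ρ : P →* Matrix.GeneralLinearGroup (Fin n) F) (hρ : Function.Injective ρ) : derivedSeries P (Nat.log 2 n + 1) = ⊥ := by
  let K := AlgebraicClosure F
  let σ : Representation K P (Fin n → K) :=
    (Matrix.toLinAlgEquiv' (R := K) (n := Fin n)).toMonoidHom.comp
      ((algebraMap F K).mapMatrix.toMonoidHom.comp ((Units.coeHom _).comp ρ))
  have hlt : n < 2 ^ (Nat.log 2 n + 1) := Nat.lt_pow_succ_log_self one_lt_two n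
  refine eq_bot_iff.mpr fun g hg => hρ ?_
  have h1 : σ g = 1 := by
    by_cases hp : (p : K) = 0
    · have := (CharP.charP_iff_prime_eq_zero (Fact.out : p.Prime)).mpr hp
      exact charp σ hP (by simpa using hlt.le) hg
    · exact cross hp _ P hP n _ σ (by simp) hlt g hg
  rw [← map_one σ] at h1
  exact Units.ext (Matrix.map_injective (algebraMap F K).injective
    ((Matrix.toLinAlgEquiv' (R := K) (n := Fin n)).injective h1))

end Cfsg.Agent.S4010
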