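import Mathlib
import Cfsg.Statements.S4013
import Cfsg.Agent.FG.ClassCount

set_option autoImplicit false
open Cfsg

namespace Cfsg.Agent.S4013

/-- Let G be a finite p-group (p prime) and N < M normal subgroups of G such that for some g ∈ M ∖ N the conjugacy class of g is exactly M ∖ N. Then p = 2 and N has index 2 in M. -/
theorem result {G : Type*} [Group G] [Finite G] (p : ℕ) [Fact p.Prime] (hG : IsPGroup p G) (N M : Subgroup G) [N.Normal] [M.Normal] (hNM : N < M) (g : G) (hgM : g ∈ M) (hgN : g ∉ N) (hcl : {h : G | IsConj g h} = (M : Set G) \ (N : Set G)) : p = 2 ∧ N.relIndex M = 2 := by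
  have hp : p.Prime := Fact.out
  have h1 := FG.ncard_isConj_eq_index g
  rw [hcl, Set.ncard_diff hNM.le] at h1
  obtain ⟨a, ha⟩ := hG.index (Subgroup.centralizer ({g} : Set G))
  have hM : (M : Set G).ncard = N.relIndex M * Nat.card N := by
    have := FG.card_eq_relIndex_mul_card_inf N M
    rw [inf_eq_left.2 hNM.le] at this
    exact this
  have hN : (N : Set G).ncard = Nat.card N := rfl
  obtain ⟨b, hb⟩ := (hG.to_subgroup M).index (N.subgroupOf M)
  have hb' : N.relIndex M = p ^ b := hb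
  have hb0 : b ≠ 0 := by
    rintro rfl
    rw [pow_zero, Subgroup.relIndex_eq_one] at hb'
    exact hNM.not_ge hb'
  rw [hM, hN, ha, hb', ← Nat.sub_one_mul] at h1
  have hdvd : p ^ b - 1 ∣ p ^ a := ⟨_, h1.symm⟩
  obtain ⟨c, -, hc⟩ := (Nat.dvd_prime_pow hp).1 hdvd
  have hpos : 1 ≤ p ^ b := Nat.one_le_pow _ _ hp.pos
  have hc0 : c = 0 := by
    by_contra hc0
    have h2 : p ∣ p ^ b - 1 := hc ▸ dvd_pow_self p hc0
    have h3 : p ∣ p ^ b := dvd_pow_self p hb0
    have h4 : p ∣ 1 := (Nat.dvd_sub_iff_right hpos h3).1 h2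
    exact hp.one_lt.ne' (Nat.dvd_one.1 h4)
  rw [hc0, pow_zero] at hc
  have h2 : p ^ b = 2 := by omega
  refine ⟨?_, hb'.trans h2⟩
  exact (Nat.prime_dvd_prime_iff_eq hp Nat.prime_two).1 (h2 ▸ dvd_pow_self p hb0)

end Cfsg.Agent.S4013
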