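import Cfsg.Statements.S4015
import Cfsg.Agent.Cl.GLSyl
-- import your own Cfsg.Agent.* helpers here

set_option autoImplicit false
open Cfsg

namespace Cfsg.Agent.S4015

open Cfsg.Agent.Cl Equiv

theorem exists_sub (p : ℕ) [hp : Fact p.Prime] (F : Type*) [Field F] [Fintype F] {e : ℕ} (he : 0 < e)
    (h : p ∣ Fintype.card F ^ e - 1) (k : ℕ) :
    ∃ R : Subgroup (GL (Fin (e * p ^ k)) F), IsPGroup p R ∧ derivedSeries R k ≠ ⊥ := by
  induction k with
  | zero =>
    obtain ⟨A, hA⟩ := GLS.exists_orderOf (F := F) (e := e * p ^ 0) (N := p) (by simpa) (by simpa)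
    have h1 : Nat.card (Subgroup.zpowers A) = p ^ 1 := by rw [Nat.card_zpowers, hA, pow_one]
    refine ⟨Subgroup.zpowers A, IsPGroup.of_card h1, ?_⟩
    have : Nontrivial (Subgroup.zpowers A) := by
      rw [← Finite.one_lt_card_iff_nontrivial, h1, pow_one]; exact hp.out.one_lt
    exact top_ne_bot
  | succ k ih =>
    obtain ⟨R, hR, hR'⟩ := ih
    have hp0 := hp.out.pos
    obtain ⟨f, hf, -⟩ := GLS.exists_glW (F := F) (e := e * p ^ k) (w := p) (k := 0)
      (n := e * p ^ (k + 1)) (by positivity) (by ring)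
    obtain ⟨T⟩ : Nonempty (Sylow p (Perm (Fin p))) := inferInstance
    have hT : (T : Subgroup (Perm (Fin p))) ≠ ⊥ := T.ne_bot_of_dvd_card (by
      rw [Nat.card_perm, Nat.card_fin]; exact Nat.dvd_factorial hp0 le_rfl)
    obtain ⟨t, ht⟩ := Subgroup.ne_bot_iff_exists_ne_one.1 hT
    obtain ⟨i, hi⟩ : ∃ i, t • i ≠ i := by
      by_contra h'
      push Not at h'
      exact ht (Subtype.ext (Equiv.ext h'))
    set g := f.comp ((MonoidHom.inl _ _).comp (wrMap R.subtype T.1.subtype fun _ _ => rfl))
    have hg : Function.Injective g := fun _ _ h =>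
      wrMap_injective (fun _ _ => rfl) R.subtype_injective (Subgroup.subtype_injective _)
        (congrArg Prod.fst (hf h))
    refine ⟨g.range, (wr_isPGroup hR T.isPGroup').of_equiv (MonoidHom.ofInjective hg), fun h => ?_⟩
    exact wr_derivedSeries_ne_bot hR' hi (wr_derivedSeries_eq_bot_of_injective
      (MonoidHom.ofInjective hg).toMonoidHom (MonoidHom.ofInjective hg).injective h)

/-- Let p be an odd prime, F a finite field with q elements where p does not divide q, and e the multiplicative order of q modulo p. Let n ≥ e and write w = ⌊n/e⌋ and k = ⌊log_p w⌋. Then a Sylow p-subgroup of GL(n, F) has derived length exactly k + 1: its (k+1)-st derived subgroup is trivial and its k-th is not. -/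
theorem result (p : ℕ) [Fact p.Prime] (hp : p ≠ 2) (F : Type*) [Field F] [Fintype F] (q : ℕ) (hq : Fintype.card F = q) (hpq : ¬ p ∣ q) (n : ℕ) (hn : orderOf (q : ZMod p) ≤ n) (P : Sylow p (Matrix.GeneralLinearGroup (Fin n) F)) : derivedSeries ↥(P : Subgroup (Matrix.GeneralLinearGroup (Fin n) F)) (Nat.log p (n / orderOf (q : ZMod p)) + 1) = ⊥ ∧ derivedSeries ↥(P : Subgroup (Matrix.GeneralLinearGroup (Fin n) F)) (Nat.log p (n / orderOf (q : ZMod p))) ≠ ⊥ := by
  subst hq
  have h1 : 2 ≤ Fintype.card F := Fintype.one_lt_card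
  have h2 : ((Fintype.card F : ℕ) : ZMod p) ≠ 0 := by rwa [Ne, ZMod.natCast_eq_zero_iff]
  have h0 := SpO.orderOf_cast_pos h2
  constructor
  · obtain ⟨T⟩ : Nonempty (Sylow p (Perm (Fin (n / orderOf (Fintype.card F : ZMod p))))) :=
      inferInstance
    obtain ⟨e⟩ := GLS.sylow_odd hp hpq T P
    refine wr_derivedSeries_eq_bot_of_surjective e.toMonoidHom e.surjective
      (wr_derivedSeries_eq_bot ?_ ?_)
    · rw [derivedSeries_one, commutator_eq_bot]
    · simpa using wr_derivedSeries_perm_eq_bot T.1 T.isPGroup'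
  · set e := orderOf (Fintype.card F : ZMod p)
    set k := Nat.log p (n / e)
    obtain ⟨R, hR, hR'⟩ := exists_sub p F h0 ((Der.dvd_pow_sub_one_iff (by omega) _).2 dvd_rfl) k
    have h3 : e * p ^ k ≤ n :=
      (Nat.mul_le_mul_left _ (Nat.pow_log_le_self p (Nat.div_pos hn h0).ne')).trans
        (Nat.mul_div_le n e)
    have hp0 := (Fact.out : p.Prime).pos
    obtain ⟨f, hf, -⟩ := GLS.exists_glW (F := F) (e := 1) (w := n - e * p ^ k) (k := e * p ^ k)
      (n := n) one_pos (by omega)
    let g := f.comp ((MonoidHom.inr _ _).comp R.subtype)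
    have hg : Function.Injective g := fun _ _ h => Subtype.ext (congrArg Prod.snd (hf h))
    obtain ⟨Q, hQ⟩ := (hR.of_equiv (MonoidHom.ofInjective hg)).exists_le_sylow
    intro h
    refine hR' (wr_derivedSeries_eq_bot_of_injective ((P.equiv Q).symm.toMonoidHom.comp
      (g.codRestrict Q.1 fun x => hQ ⟨x, rfl⟩)) ((P.equiv Q).symm.injective.comp fun x y h =>
        hg (congrArg Subtype.val h)) h)

end Cfsg.Agent.S4015
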