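import Mathlib
import Cfsg.Statements.S4022
import Cfsg.Agent.FG.H93EqConj
import Cfsg.Agent.FG.H93Cyc
import Cfsg.Agent.GT.SchurZassenhaus
import Cfsg.Agent.GT.MinNormal

set_option autoImplicit false
open Cfsg

namespace Cfsg.Agent.S4022

open Cfsg.Agent.FG Cfsg.Agent.GT Subgroup
open scoped Pointwise

section aux

/-- all `q`-subgroups are cyclic -/
def CycP (q : ℕ) (G : Type*) [Group G] : Prop := ∀ Q : Subgroup G, IsPGroup q Q → IsCyclic Q

/-- all subgroups of equal order are conjugate -/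
def AllConj (G : Type*) [Group G] : Prop :=
  ∀ H K : Subgroup G, Nat.card H = Nat.card K → ∃ g : G, MulAut.conj g • H = K

variable {G : Type*} [Group G] [Finite G] {q : ℕ}

omit [Finite G] in
theorem CycP.subgroup (h : CycP q G) (M : Subgroup G) : CycP q M := fun Q hQ =>
  have := h (Q.map M.subtype) (hQ.map _)
  isCyclic_of_surjective _ (Q.equivMapOfInjective M.subtype M.subtype_injective).symm.surjective

theorem CycP.quotient [Fact q.Prime] (h : CycP q G) (N : Subgroup G) [N.Normal] :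
    CycP q (G ⧸ N) := fun Q hQ => by
  obtain ⟨P, -, hP, -, rfl⟩ := H93.exists_sylow_lift (QuotientGroup.mk'_surjective N) hQ
  have := h P hP
  exact isCyclic_of_surjective _ (MonoidHom.subgroupMap_surjective _ P)

theorem CycP.eqConj [Fact q.Prime] (h : CycP q G) : H93.EqConj q G := by
  refine H93.eqConj_of_smul fun H K hH hK hc => ?_
  obtain ⟨P, hP⟩ := hK.exists_le_sylow
  obtain ⟨g, -, hg⟩ := HT.exists_conj_le_of_isPGroup (L := ⊤) le_top hH P.isPGroup'
    (by rw [relIndex_top_right]; exact P.not_dvd_index)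
  have := h P P.isPGroup'
  exact ⟨g, H93.eq_of_card_eq_of_isCyclic hg hP (by rw [HT.card_conj_smul, hc])⟩

theorem conj_of_coprime {N : Subgroup G} [N.Normal] (hN : Group.IsSolvable N)
    (ih : AllConj (G ⧸ N)) {D E : Subgroup G} (hD : (Nat.card N).Coprime (Nat.card D))
    (hc : Nat.card D = Nat.card E) : ∃ g : G, MulAut.conj g • D = E := by
  have h1 : ∀ D : Subgroup G, (Nat.card N).Coprime (Nat.card D) →
      Nat.card (D.map (QuotientGroup.mk' N)) = Nat.card D := fun D hD => by
    have := card_map_mul_card_inf_ker D (QuotientGroup.mk' N)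
    rwa [QuotientGroup.ker_mk', (disjoint_of_coprime_natCard hD.symm).eq_bot, card_bot,
      mul_one] at this
  obtain ⟨g, hg⟩ := ih (D.map (QuotientGroup.mk' N)) (E.map (QuotientGroup.mk' N))
    (by rw [h1 D hD, h1 E (hc ▸ hD), hc])
  obtain ⟨g, rfl⟩ := QuotientGroup.mk'_surjective N g
  have h2 := HT.conj_smul_sup_eq_of_map _ hg
  rw [QuotientGroup.ker_mk'] at h2
  obtain ⟨a, -, ha⟩ := conj_of_coprime_sup_eq_of_normal N _ _ (by rwa [HT.card_conj_smul])
    (hc ▸ hD) h2 (Or.inl hN)
  exact ⟨a * g, by rw [← HT.conj_smul_conj_smul, ha]⟩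

theorem conj_of_le {N : Subgroup G} [N.Normal] (ih : AllConj (G ⧸ N)) {H K : Subgroup G}
    (hH : N ≤ H) (hK : N ≤ K) (hc : Nat.card H = Nat.card K) : ∃ g : G, MulAut.conj g • H = K := by
  have h1 : ∀ D : Subgroup G, N ≤ D →
      Nat.card (D.map (QuotientGroup.mk' N)) * Nat.card N = Nat.card D := fun D hD => by
    have := card_map_mul_card_inf_ker D (QuotientGroup.mk' N)
    rwa [QuotientGroup.ker_mk', inf_eq_right.mpr hD] at this
  obtain ⟨g, hg⟩ := ih (H.map (QuotientGroup.mk' N)) (K.map (QuotientGroup.mk' N))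
    (Nat.eq_of_mul_eq_mul_right (Nat.card_pos (α := N)) (by rw [h1 H hH, h1 K hK, hc]))
  obtain ⟨g, rfl⟩ := QuotientGroup.mk'_surjective N g
  have h2 := HT.conj_smul_sup_eq_of_map _ hg
  rw [QuotientGroup.ker_mk', sup_eq_right.mpr hK, sup_eq_right.mpr] at h2
  · exact ⟨g, h2⟩
  · rw [← (HT.conj_smul_eq_iff (g := g) (H := N)).mpr (by rw [normalizer_eq_top]; trivial)]
    exact HT.conj_smul_mono _ hH

theorem split {p : ℕ} [hp : Fact p.Prime] {N : Subgroup G} [N.Normal] (hN : IsPGroup p N)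
    (hi : ¬ p ∣ N.index) (H : Subgroup G) :
    ¬ p ∣ (H ⊓ N).relIndex H ∧ ∃ D ≤ H, (H ⊓ N) ⊔ D = H ∧ Nat.card D = (H ⊓ N).relIndex H := by
  have h1 : ¬ p ∣ (H ⊓ N).relIndex H := by
    rw [inf_relIndex_left]
    exact fun h => hi (h.trans (relIndex_dvd_index_of_normal N H))
  obtain ⟨k, hk⟩ := IsPGroup.iff_card.mp (hN.to_inf_right (H := H))
  obtain ⟨D, h2, h3, -, h4⟩ := exists_complement_of_coprime_relIndex (N := H ⊓ N) inf_le_left
    (PG.le_normalizer_inf le_normalizer (by rw [normalizer_eq_top]; exact le_top))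
    (hk ▸ Nat.Coprime.pow_left k ((Nat.Prime.coprime_iff_not_dvd hp.out).mpr h1))
  exact ⟨h1, D, h2, h3, h4⟩

end aux

universe u in
theorem main (r : ℕ) (G : Type u) [Group G] [Finite G] : Group.IsSolvable G →
    (∀ p : ℕ, p.Prime → H93.EqConj p G) → (∀ p : ℕ, p.Prime → p ≠ r → CycP p G) → AllConj G := by
  revert G
  refine card_induction fun G _ _ ih hs hE hcyc => ?_
  rcases subsingleton_or_nontrivial G with h0 | h0
  · exact fun H K _ => ⟨1, Subsingleton.elim _ _⟩
  obtain ⟨N, p, hN, -, hp, hNe⟩ := exists_isMinNormal_elementary_le (H := (⊤ : Subgroup G)) top_ne_bot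
  have := hN.normal
  have := Fact.mk hp
  have hNp : IsPGroup p N := isPGroup_of_forall_pow_eq_one hNe.2
  have hpN : p ∣ Nat.card N := hNp.card_eq_or_dvd.resolve_left fun h => hN.ne_bot (card_eq_one.mp h)
  obtain ⟨k, hk⟩ := IsPGroup.iff_card.mp hNp
  have ihN : AllConj (G ⧸ N) := ih _ (HT.card_quotient_lt N hN.ne_bot) inferInstance
    (fun q hq => have := Fact.mk hq; (hE q hq).quotient N)
    (fun q hq hr => have := Fact.mk hq; (hcyc q hq hr).quotient N)
  intro H K hc
  by_cases hpH : ¬ p ∣ Nat.card H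
  · exact conj_of_coprime inferInstance ihN
      (hk ▸ Nat.Coprime.pow_left k ((Nat.Prime.coprime_iff_not_dvd hp).mpr hpH)) hc
  rw [not_not] at hpH
  obtain ⟨P, hNP⟩ := hNp.exists_le_sylow
  by_cases hr : PRankLE p 1 (P : Subgroup G)
  · have h1 : Nat.card N ≤ p := by
      have := hNe.1
      have := hr (N.subgroupOf P) inferInstance fun a ha => Subtype.ext (hNe.2 a ha)
      rwa [HT.card_subgroupOf_of_le hNP, pow_one] at this
    have h2 : ∀ H : Subgroup G, p ∣ Nat.card H → N ≤ H := fun H hH => by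
      obtain ⟨x, hx, hxp⟩ := exists_mem_orderOf_eq_prime hp hH
      rw [← PG.eq_of_le_of_card_le (zpowers_le.mpr ((hE p hp).mem_of_normal hpN
        (hxp ▸ pow_orderOf_eq_one x))) (by rwa [Nat.card_zpowers, hxp])]
      exact zpowers_le.mpr hx
    exact conj_of_le ihN (h2 H hpH) (h2 K (hc ▸ hpH)) hc
  have hall : ∀ Q : Subgroup G, IsPGroup p Q → Q ≤ N := fun Q hQ x hx =>
    (hE p hp).mem_of_normal hpN ((hE p hp).pow_eq_one hr (PG.exists_pow_pow_eq_one_of_mem hQ hx))
  have hi : ¬ p ∣ N.index := by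
    rw [le_antisymm hNP (hall P P.isPGroup')]; exact P.not_dvd_index
  have hpr : p = r := by
    by_contra h
    have := hcyc p hp h P P.isPGroup'
    exact hr (PG.pRankLE_one_of_isCyclic)
  obtain ⟨h1, D, hD1, hD2, hD3⟩ := split hNp hi H
  obtain ⟨h2, E, hE1, hE2, hE3⟩ := split hNp hi K
  have hUW := H93.card_eq_of_sylow_in (hNp.to_inf_right) (hNp.to_inf_right) inf_le_left inf_le_left
    h1 h2 hc
  have hDE : Nat.card D = Nat.card E := by
    refine Nat.eq_of_mul_eq_mul_left (Nat.card_pos (α := ↥(H ⊓ N))) ?_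
    rw [hD3, hE3, HT.card_mul_relIndex inf_le_left, hUW, HT.card_mul_relIndex inf_le_left, hc]
  obtain ⟨g, hg⟩ := (hE p hp).exists_smul (hNp.to_inf_right) (hNp.to_inf_right) hUW
  set M := normalizer ((K ⊓ N : Subgroup G) : Set G) with hM
  have hnm : ∀ H : Subgroup G, H ≤ normalizer ((H ⊓ N : Subgroup G) : Set G) := fun H =>
    PG.le_normalizer_inf le_normalizer (by rw [normalizer_eq_top]; exact le_top)
  have hEM : E ≤ M := hE1.trans (hnm K)
  have hDM : MulAut.conj g • D ≤ M := by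
    rw [hM, ← hg, HT.normalizer_conj_smul]
    exact HT.conj_smul_mono _ (hD1.trans (hnm H))
  have hNM : N ≤ M := ((PG.isMulCommutative_iff_le_centralizer.mp hNe.1).trans
    (centralizer_le (inf_le_right : K ⊓ N ≤ N))).trans (PG.centralizer_le_normalizer' _)
  have hcM : ∀ q : ℕ, q.Prime → CycP q (M ⧸ N.subgroupOf M) := fun q hq => by
    have := Fact.mk hq
    by_cases hqr : q = r
    · intro Q hQ
      obtain ⟨R, -, hR, -, rfl⟩ := H93.exists_sylow_lift (QuotientGroup.mk'_surjective _) hQ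
      have h3 : R.map (QuotientGroup.mk' (N.subgroupOf M)) = ⊥ := by
        rw [Subgroup.map_eq_bot_iff, QuotientGroup.ker_mk']
        exact map_le_iff_le_comap.mp (hall _ ((hpr.trans hqr.symm) ▸ hR.map M.subtype))
      rw [h3]; infer_instance
    · exact ((hcyc q hq hqr).subgroup M).quotient _
  have ihM : AllConj (M ⧸ N.subgroupOf M) := ih _
    ((HT.card_quotient_lt _ (by
      rw [Ne, subgroupOf_eq_bot, disjoint_iff, inf_eq_left.mpr hNM]; exact hN.ne_bot)).trans_le
      (card_le_card_group M)) inferInstance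
    (fun q hq => have := Fact.mk hq; (hcM q hq).eqConj) fun q hq _ => hcM q hq
  obtain ⟨m, hm⟩ := conj_of_coprime (N := N.subgroupOf M) inferInstance ihM
    (D := (MulAut.conj g • D).subgroupOf M) (E := E.subgroupOf M) (by
      rw [HT.card_subgroupOf_of_le hNM, HT.card_subgroupOf_of_le hDM, HT.card_conj_smul, hD3, hk]
      exact Nat.Coprime.pow_left k ((Nat.Prime.coprime_iff_not_dvd hp).mpr h1))
    (by rw [HT.card_subgroupOf_of_le hEM, HT.card_subgroupOf_of_le hDM, HT.card_conj_smul, hDE])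
  have h3 := HT.conj_smul_eq_of_subgroupOf hDM hEM hm
  refine ⟨m * g, ?_⟩
  rw [← HT.conj_smul_conj_smul, ← hD2, smul_sup, hg, smul_sup, h3, HT.conj_smul_eq_iff.mpr m.2, hE2]

/-- Let G be a finite solvable group in which, for every prime p, any two p-subgroups of the same order are conjugate, and suppose the Sylow p-subgroups of G are cyclic for all primes p with at most one exception. Then any two subgroups of G of the same order are conjugate. -/
theorem result {G : Type*} [Group G] [Finite G]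
    [Group.IsSolvable G] (hD : ∀ p : ℕ, p.Prime → ∀ H K : Subgroup G, IsPGroup p H → IsPGroup p K → Nat.card H = Nat.card K →
      ∃ g : G, K = H.map (MulAut.conj g).toMonoidHom)
    (r : ℕ) (hcyc : ∀ p : ℕ, p.Prime → p ≠ r → ∀ P : Sylow p G, IsCyclic P) :
    ∀ H K : Subgroup G, Nat.card H = Nat.card K → ∃ g : G, K = H.map (MulAut.conj g).toMonoidHom := by
  intro H K hc
  obtain ⟨g, hg⟩ := main r G inferInstance hD (fun p hp hr Q hQ => by
    obtain ⟨P, hP⟩ := hQ.exists_le_sylow
    have := hcyc p hp hr P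
    exact Subgroup.isCyclic_of_le hP) H K hc
  exact ⟨g, by rw [← hg, HT.conj_smul_eq_map]⟩

end Cfsg.Agent.S4022
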