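import Mathlib
import Cfsg.Statements.S4024
import Cfsg.Agent.FG.H93EqConj
import Cfsg.Agent.GT.PSolvable

set_option autoImplicit false
open Cfsg

namespace Cfsg.Agent.S4024

open Cfsg.Agent.FG Cfsg.Agent.GT Subgroup

/-- Let p be an odd prime and G a finite group in which any two p-subgroups of the same order are conjugate, with Sylow p-subgroup P. If H is a normal p-solvable subgroup of G whose order is divisible by p, then P is abelian, and either P ≤ H or P is cyclic. -/
theorem result {G : Type*} [Group G] [Finite G]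
    {p : ℕ} [Fact p.Prime] (hp : p ≠ 2) (hC : ∀ H K : Subgroup G, IsPGroup p H → IsPGroup p K → Nat.card H = Nat.card K →
      ∃ g : G, K = H.map (MulAut.conj g).toMonoidHom) (P : Sylow p G)
    (H : Subgroup G) [H.Normal] (hsolv : Cfsg.IsPSolvable p H) (hdiv : p ∣ Nat.card H) :
    IsMulCommutative P ∧ ((P : Subgroup G) ≤ H ∨ IsCyclic P) := by
  have hE : H93.EqConj p G := hC
  have hp' : p.Prime := Fact.out
  have key : (∀ x ∈ (P : Subgroup G), x ^ p = 1) → IsMulCommutative P ∧ (P : Subgroup G) ≤ H := by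
    intro hexp
    refine ⟨?_, fun x hx => hE.mem_of_normal hdiv (hexp x hx)⟩
    set K := piCore ({p}ᶜ : Set ℕ) G with hK
    have hKp : ¬ p ∣ Nat.card K := fun h => isPiNum_piCore ({p}ᶜ : Set ℕ) p hp' h rfl
    set f := QuotientGroup.mk' K with hf
    have hn : (H.map f).Normal := Normal.map inferInstance _ (QuotientGroup.mk'_surjective _)
    have h0 : H.map f ≠ ⊥ := by
      rw [Ne, Subgroup.map_eq_bot_iff, QuotientGroup.ker_mk']
      exact fun h => hKp (hdiv.trans (card_dvd_of_le h))
    have := (nontrivial_iff_ne_bot _).mpr h0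
    have hs := (isPSolvable_iff_isPiSeparable.mp hsolv).map f
    have h1 : piCoreOf {p} (H.map f) ≠ ⊥ := by
      rw [Ne, piCoreOf_eq_bot_iff]
      refine hs.piCore_ne_bot_or.resolve_right (not_not.mpr ?_)
      rw [← piCoreOf_eq_bot_iff, eq_bot_iff]
      exact (piCoreOf_le_piCore _).trans piCore_quotient_piCore.le
    rw [← pCoreOf_eq_piCoreOf hp'] at h1
    have := pCoreOf_normal (p := p) (H.map f)
    obtain ⟨M, hM, hMle⟩ := exists_isMinNormal_le h1
    have hMp := (isPGroup_pCoreOf p (H.map f)).to_le hMle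
    have hMe := hM.elementary_of_isPGroup hp' hMp
    have := hM.normal
    have hd : p ∣ Nat.card M := by
      rcases hMp.card_eq_or_dvd with h | h
      · exact absurd (card_eq_one.mp h) hM.ne_bot
      · exact h
    have hmem : ∀ x ∈ (P : Subgroup G), f x ∈ M := fun x hx =>
      (hE.quotient K).mem_of_normal hd (by rw [← map_pow, hexp x hx, map_one])
    refine ⟨⟨fun a b => Subtype.ext ?_⟩⟩
    have h2 : f ((a : G) * b * ((b : G) * a)⁻¹) = 1 := by
      rw [map_mul, map_inv, map_mul, map_mul,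
        PG.isMulCommutative_iff_forall.mp hMe.1 _ (hmem a a.2) _ (hmem b b.2), mul_inv_cancel]
    have h3 : ((a : G) * b * ((b : G) * a)⁻¹) ∈ K := (QuotientGroup.eq_one_iff _).mp h2
    have h4 : ((a : G) * b * ((b : G) * a)⁻¹) ∈ (P : Subgroup G) :=
      mul_mem (mul_mem a.2 b.2) (inv_mem (mul_mem b.2 a.2))
    obtain ⟨k, hk⟩ := IsPGroup.iff_card.mp P.isPGroup'
    have h5 : Disjoint (P : Subgroup G) K := disjoint_of_coprime_natCard
      (hk ▸ Nat.Coprime.pow_left k ((Nat.Prime.coprime_iff_not_dvd hp').mpr hKp))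
    exact mul_inv_eq_one.mp (disjoint_def.mp h5 h4 h3)
  rcases hE.cases P.isPGroup' with h | h | h | ⟨-, -, -, h4⟩
  · exact ⟨inferInstance, Or.inr h⟩
  · exact ⟨h.1, Or.inl (key h.2).2⟩
  · exact absurd h.1 hp
  · exact ⟨(key h4).1, Or.inl (key h4).2⟩

end Cfsg.Agent.S4024
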