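import Mathlib
import Cfsg.Statements.S4027
import Cfsg.Agent.FG.H93Elt
import Cfsg.Agent.FG.RealSylow

set_option autoImplicit false
open Cfsg

namespace Cfsg.Agent.S4027

open Cfsg.Agent.FG Cfsg.Agent.GT

/-- Let G be a finite group in which every element x of odd order satisfies N_G(⟨x⟩) = C_G(x). Then the Sylow 2-subgroups of G are normal. -/
theorem result {G : Type*} [Group G] [Finite G]
    (hirr : ∀ x : G, (∀ r : ℕ, r.Prime → r ∣ orderOf x → r ≠ 2) →
      Subgroup.normalizer ((Subgroup.zpowers x : Subgroup G) : Set G) ≤ Subgroup.centralizer {x}) (P : Sylow 2 G) :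
    (P : Subgroup G).Normal := by
  rw [CI.sylow_two_eq_pCore_of_no_inverted (fun t x _ hx ht => ?_) P]
  · infer_instance
  have h1 := hirr x (fun r _ hd h2 => by
    subst h2; exact (Nat.not_even_iff_odd.mpr hx) (even_iff_two_dvd.mpr hd))
    (H93.mem_normalizer_zpowers_iff.mpr (ht ▸ Subgroup.inv_mem _ (Subgroup.mem_zpowers x)))
  rw [CI.mem_cent'.mp h1] at ht
  have h3 : x ^ 2 = 1 := by rw [pow_two]; nth_rewrite 1 [ht]; exact inv_mul_cancel x
  exact orderOf_eq_one_iff.mp (Nat.Coprime.eq_one_of_dvd hx.coprime_two_right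
    (orderOf_dvd_of_pow_eq_one h3))

end Cfsg.Agent.S4027
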