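import Mathlib
import Cfsg.Statements.S4028
import Cfsg.Agent.FG.H93Elt

set_option autoImplicit false
open Cfsg

namespace Cfsg.Agent.S4028

open Cfsg.Agent.FG Cfsg.Agent.GT

/-- Let G be a finite group with Sylow 2-subgroup P. Then N_G(⟨x⟩) = C_G(x) holds for every 2-element x of G if and only if N_P(⟨y⟩) = C_P(y) holds for every y ∈ P (computed inside P). -/
theorem result {G : Type*} [Group G] [Finite G] (P : Sylow 2 G) :
    (∀ x : G, (∀ r : ℕ, r.Prime → r ∣ orderOf x → r = 2) →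
      Subgroup.normalizer ((Subgroup.zpowers x : Subgroup G) : Set G) ≤ Subgroup.centralizer {x}) ↔
    (∀ y : ↥(P : Subgroup G), Subgroup.normalizer ((Subgroup.zpowers y : Subgroup ↥(P : Subgroup G)) : Set ↥(P : Subgroup G)) ≤
        Subgroup.centralizer {y}) := by
  constructor
  · intro h y n hn
    obtain ⟨k, hk⟩ := CI.orderOf_of_mem P.isPGroup' y.2
    have h1 := h y (fun r hr hd => (Nat.prime_dvd_prime_iff_eq hr Nat.prime_two).mp
      (hr.dvd_of_dvd_pow (hk ▸ hd)))
    obtain ⟨j, hj⟩ := H93.mem_normalizer_zpowers_iff.mp hn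
    have h2 : (n : G) ∈ Subgroup.normalizer (Subgroup.zpowers (y : G) : Set G) :=
      H93.mem_normalizer_zpowers_iff.mpr ⟨j, congrArg Subtype.val hj⟩
    exact CI.mem_cent.mpr (Subtype.ext (CI.mem_cent.mp (h1 h2)))
  · intro h x hx g hg
    have hx2 : IsPGroup 2 (Subgroup.zpowers x) := CI.isPGroup_zpowers
      ((isPiNum_singleton_iff Nat.prime_two (orderOf_pos x).ne').mp (isPiNum_iff.mpr hx))
    refine H93.mem_of_forall_primePow fun t ht q hq ⟨k, hk⟩ => ?_
    have htn : t ∈ Subgroup.normalizer (Subgroup.zpowers x : Set G) :=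
      Subgroup.zpowers_le.mpr hg ht
    by_cases hq2 : q = 2
    · subst hq2
      obtain ⟨Q, hQ⟩ := (IsPGroup.to_sup_of_normal_left' hx2 (CI.isPGroup_zpowers ⟨k, hk⟩)
        (Subgroup.zpowers_le.mpr htn)).exists_le_sylow
      obtain ⟨a, rfl⟩ := MulAction.exists_smul_eq G P Q
      have hx' : a⁻¹ * x * a ∈ (P : Subgroup G) :=
        HT.mem_conj_smul.mp (hQ (Subgroup.mem_sup_left (Subgroup.mem_zpowers x)))
      have ht' : a⁻¹ * t * a ∈ (P : Subgroup G) :=
        HT.mem_conj_smul.mp (hQ (Subgroup.mem_sup_right (Subgroup.mem_zpowers t)))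
      obtain ⟨j, hj⟩ := H93.mem_normalizer_zpowers_iff.mp htn
      have h1 := h ⟨_, hx'⟩ (H93.mem_normalizer_zpowers_iff (g := ⟨_, ht'⟩).mpr ⟨j, Subtype.ext (by
        have h2 : (a⁻¹ * x * a⁻¹⁻¹) ^ j = a⁻¹ * x ^ j * a⁻¹⁻¹ := conj_zpow
        simp only at hj
        simp only [SubgroupClass.coe_zpow, Subgroup.coe_mul, Subgroup.coe_inv]
        rw [inv_inv] at h2
        rw [h2, hj]
        group)⟩)
      have h2 := congrArg Subtype.val (CI.mem_cent.mp h1)
      simp only [Subgroup.coe_mul] at h2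
      rw [CI.mem_cent]
      calc t * x = a * (a⁻¹ * t * a * (a⁻¹ * x * a)) * a⁻¹ := by group
        _ = x * t := by rw [h2]; group
    · rw [← H93.centralizer_zpowers]
      exact H93.mem_centralizer_of_odd_of_cyclic_two hx2 htn
        (hk ▸ (hq.odd_of_ne_two hq2).pow)

end Cfsg.Agent.S4028
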