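import Mathlib
import Cfsg.Statements.S4029
import Cfsg.Agent.S0160
import Cfsg.Agent.GT.PGroupFrattini
import Cfsg.Agent.FG.H93EqConj
import Cfsg.Agent.FG.H93Elt

set_option autoImplicit false
open Cfsg

namespace Cfsg.Agent.S4029

open Cfsg.Agent.FG Cfsg.Agent.GT Subgroup

theorem card_le_real {P : Type*} [Group P] [Finite P] (hP : IsPGroup 2 P) :
    Nat.card (P ⧸ frattini P) ≤
      Nat.card {C : ConjClasses P // ∀ g : P, ConjClasses.mk g = C → IsConj g g⁻¹} := by
  rw [← S0160.result]
  have h2 : ∀ x : P ⧸ frattini P, x ^ 2 = 1 := fun x => by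
    obtain ⟨x, rfl⟩ := QuotientGroup.mk_surjective x
    rw [← QuotientGroup.mk_pow, QuotientGroup.eq_one_iff]
    exact PG.pow_mem_frattini hP x
  have hc : IsMulCommutative (P ⧸ frattini P) :=
    PG.isMulCommutative_top_iff.mp (H93.comm_of_sq fun x _ => h2 x)
  let _ : CommGroup (P ⧸ frattini P) := { (inferInstance : Group (P ⧸ frattini P)) with
    mul_comm := hc.is_comm.comm }
  have : NeZero (Monoid.exponent (P ⧸ frattini P) : ℂ) :=
    ⟨Nat.cast_ne_zero.mpr Monoid.exponent_ne_zero_of_finite⟩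
  rw [← CommGroup.card_monoidHom_of_hasEnoughRootsOfUnity (P ⧸ frattini P) ℂ]
  refine Nat.card_le_card_of_injective (fun f => ⟨⟨fun g => (f.comp (QuotientGroup.mk' _) g : ℂˣ),
    Ch.isIrrCharacter_monoidHom_units _⟩, fun g => ?_⟩) fun f f' h => ?_
  · have h3 : ((f (g : P ⧸ frattini P) : ℂˣ) : ℂ) ^ 2 = 1 := by
      rw [← Units.val_pow_eq_pow_val, ← map_pow, h2, map_one, Units.val_one]
    show ((f (g : P ⧸ frattini P) : ℂˣ) : ℂ).im = 0
    rcases sq_eq_one_iff.mp h3 with h | h <;> rw [h] <;> simp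
  · refine MonoidHom.ext fun x => ?_
    obtain ⟨x, rfl⟩ := QuotientGroup.mk_surjective x
    exact Units.ext (congrFun (congrArg (fun χ => (χ.1.1 : P → ℂ)) h) x)

/-- Let P be a finite 2-group in which N_P(⟨y⟩) = C_P(y) for every y ∈ P. If s is the number of conjugacy classes of involutions of P, then #(P/Φ(P)) ≤ s + 1; in particular the subgroup generated by the involutions of P has order at least #(P/Φ(P)). -/
theorem result {P : Type*} [Group P] [Finite P] (hP : IsPGroup 2 P)
    (hirr : ∀ y : P, Subgroup.normalizer ((Subgroup.zpowers y : Subgroup P) : Set P) ≤ Subgroup.centralizer {y}) :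
    Nat.card (P ⧸ frattini P) ≤ Nat.card {c : ConjClasses P // ∃ y : P, ConjClasses.mk y = c ∧ orderOf y = 2} + 1 ∧
    Nat.card (P ⧸ frattini P) ≤ Nat.card (Subgroup.closure {y : P | orderOf y = 2}) := by
  have h1 := card_le_real hP
  have h2 : ∀ g : P, IsConj g g⁻¹ → g = 1 ∨ orderOf g = 2 := fun g hg => by
    obtain ⟨c, hc⟩ := isConj_iff.mp hg
    have h3 := hirr g (H93.mem_normalizer_zpowers_iff.mpr (hc ▸ inv_mem (mem_zpowers g)))
    rw [mem_centralizer_singleton_iff.mp h3, mul_inv_cancel_right, eq_inv_iff_mul_eq_one,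
      ← pow_two] at hc
    exact or_iff_not_imp_left.mpr (orderOf_eq_prime hc)
  constructor
  · refine h1.trans ?_
    refine le_trans (Set.ncard_le_ncard (s := {C : ConjClasses P | ∀ g : P, ConjClasses.mk g = C → IsConj g g⁻¹})
      (t := insert (ConjClasses.mk 1)
      {c : ConjClasses P | ∃ y : P, ConjClasses.mk y = c ∧ orderOf y = 2}) fun C hC => ?_)
      (Set.ncard_insert_le _ _)
    obtain ⟨g, rfl⟩ := ConjClasses.mk_surjective C
    rcases h2 g (hC g rfl) with rfl | h
    · exact Or.inl rfl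
    · exact Or.inr ⟨g, rfl, h⟩
  · refine h1.trans ?_
    refine le_trans (Set.ncard_le_ncard (s := {C : ConjClasses P | ∀ g : P, ConjClasses.mk g = C → IsConj g g⁻¹})
      (t := ConjClasses.mk '' (closure {y : P | orderOf y = 2} : Subgroup P)) fun C hC => ?_)
      (Set.ncard_image_le)
    obtain ⟨g, rfl⟩ := ConjClasses.mk_surjective C
    refine ⟨g, ?_, rfl⟩
    rcases h2 g (hC g rfl) with rfl | h
    · exact one_mem _
    · exact subset_closure h

end Cfsg.Agent.S4029
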