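import Mathlib
import Cfsg.Statements.S4032
import Cfsg.Agent.FG.H93Elt
import Cfsg.Agent.GT.CoprimeFixed

set_option autoImplicit false
open Cfsg

namespace Cfsg.Agent.S4032

open Cfsg.Agent.FG Cfsg.Agent.GT

/-- Let π be a set of primes and G a finite group in which N_G(⟨x⟩) = C_G(x) for every π-element x. If N is a normal subgroup of G whose order is divisible by no prime of π, then G/N has the same property: N_{G/N}(⟨y⟩) = C_{G/N}(y) for every π-element y of G/N. -/
theorem result {G : Type*} [Group G] [Finite G] (π : Set ℕ)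
    (hirr : ∀ x : G, (∀ r : ℕ, r.Prime → r ∣ orderOf x → r ∈ π) →
      Subgroup.normalizer ((Subgroup.zpowers x : Subgroup G) : Set G) ≤ Subgroup.centralizer {x})
    (N : Subgroup G) [N.Normal] (hN : ∀ r : ℕ, r.Prime → r ∣ Nat.card N → r ∉ π) :
    ∀ y : G ⧸ N, (∀ r : ℕ, r.Prime → r ∣ orderOf y → r ∈ π) →
      Subgroup.normalizer ((Subgroup.zpowers y : Subgroup (G ⧸ N)) : Set (G ⧸ N)) ≤ Subgroup.centralizer {y} := by
  intro y hy
  obtain ⟨x, rfl, hx⟩ := H93.exists_pi_lift (QuotientGroup.mk'_surjective N) π (isPiNum_iff.mpr hy)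
  have hc : (Nat.card (Subgroup.zpowers x)).Coprime (Nat.card N) := by
    rw [Nat.card_zpowers]
    exact Nat.coprime_of_dvd fun r hr h1 h2 => hN r hr h2 (isPiNum_iff.mp hx r hr h1)
  rw [← MonoidHom.map_zpowers, ← CopAct.map_mk'_normalizer N hc (Or.inl (CopAct.isSolvable_zpowers x))]
  exact (Subgroup.map_mono (hirr x (isPiNum_iff.mp hx))).trans (CI.map_cent_le _ x)

end Cfsg.Agent.S4032
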