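import Mathlib
import Cfsg.Statements.S4034
import Cfsg.Agent.FG.H93Basic
import Cfsg.Agent.FG.H93Solv
import Cfsg.Agent.FG.ClassIdx
import Cfsg.Agent.FG.ClassCount
import Cfsg.Agent.FG.SylowNormal
import Cfsg.Agent.GT.Hall
import Cfsg.Agent.GT.Fitting
import Cfsg.Agent.S0143

set_option autoImplicit false
open Cfsg

namespace Cfsg.Agent.S4034

open Cfsg.Agent.FG Cfsg.Agent.GT
open scoped commutatorElement

universe u

theorem pow_of_dvd {p a b : ℕ} (hp : p.Prime) (hab : a ∣ b) (hb : ∃ k, b = p ^ k) :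
    ∃ k, a = p ^ k := by
  obtain ⟨k, rfl⟩ := hb
  obtain ⟨j, -, hj⟩ := (Nat.dvd_prime_pow hp).mp hab
  exact ⟨j, hj⟩

theorem hyp_surj {G H : Type*} [Group G] [Finite G] [Group H] {p : ℕ} (hp : p.Prime) {f : G →* H}
    (hf : Function.Surjective f)
    (h : ∀ x : G, (orderOf x).Coprime p → ∃ k : ℕ, CI.cidx x = p ^ k) (y : H)
    (hy : (orderOf y).Coprime p) : ∃ k : ℕ, CI.cidx y = p ^ k := by
  obtain ⟨x, rfl, hx⟩ := H93.exists_coprime_lift hf p hy
  exact pow_of_dvd hp (CI.cidx_map_dvd f hf x) (h x hx)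

theorem solv1 {p : ℕ} (hp : p.Prime) (G : Type u) [Group G] [Finite G]
    (h : ∀ x : G, (orderOf x).Coprime p → ∃ k : ℕ, CI.cidx x = p ^ k) : Group.IsSolvable G := by
  refine H93.isSolvable_of_simple_sections
    (P := fun G _ _ => ∀ x : G, (orderOf x).Coprime p → ∃ k : ℕ, CI.cidx x = p ^ k) ?_ ?_ ?_ G h
  · intro G _ _ N _ h x hx
    exact pow_of_dvd hp (CI.cidx_coe_dvd N x) (h x (by rwa [Subgroup.orderOf_coe]))
  · intro G _ _ N _ h
    exact hyp_surj hp (QuotientGroup.mk'_surjective N) h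
  · intro G _ _ _ h
    by_cases hG : IsPGroup p G
    · exact H93.isSolvable_of_isPGroup hp hG
    obtain ⟨q, hq, hqp, x, hx⟩ := H93.exists_orderOf_prime_ne hp hG
    obtain ⟨k, hk⟩ := h x (by rw [hx]; exact (Nat.coprime_primes hq hp).mpr hqp)
    refine H93.isSolvable_of_prime_card (S0143.result p k hp x ?_ hk)
    rintro rfl
    rw [orderOf_one] at hx
    exact hq.one_lt.ne hx

theorem solv2 {p : ℕ} (hp : p.Prime) (G : Type u) [Group G] [Finite G]
    (h : ∃ H : Subgroup G, (∀ a ∈ H, ∀ b ∈ H, a * b = b * a) ∧ ∃ k : ℕ, H.index = p ^ k) :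
    Group.IsSolvable G := by
  refine H93.isSolvable_of_simple_sections
    (P := fun G _ _ => ∃ H : Subgroup G, (∀ a ∈ H, ∀ b ∈ H, a * b = b * a) ∧
      ∃ k : ℕ, H.index = p ^ k) ?_ ?_ ?_ G h
  · rintro G _ _ N _ ⟨H, hH, hk⟩
    exact ⟨H.subgroupOf N, fun a ha b hb => Subtype.ext (hH _ ha _ hb),
      pow_of_dvd hp (CI.relIndex_dvd_index_of_normal_right H N) hk⟩
  · rintro G _ _ N _ ⟨H, hH, hk⟩
    refine ⟨H.map (QuotientGroup.mk' N), ?_,
      pow_of_dvd hp (Subgroup.index_map_dvd _ (QuotientGroup.mk'_surjective N)) hk⟩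
    rintro _ ⟨a, ha, rfl⟩ _ ⟨b, hb, rfl⟩
    rw [← map_mul, hH a ha b hb, map_mul]
  · rintro G _ _ _ ⟨H, hH, hk⟩
    by_cases hb : H = ⊥
    · obtain ⟨k, hk⟩ := hk
      rw [hb, Subgroup.index_bot] at hk
      exact H93.isSolvable_of_isPGroup hp (IsPGroup.of_card hk)
    obtain ⟨⟨x, hx⟩, hx1⟩ := (Subgroup.ne_bot_iff_exists_ne_one).mp hb
    obtain ⟨j, hj⟩ := pow_of_dvd hp (Subgroup.index_dvd_of_le (K := Subgroup.centralizer {x})
      fun a ha => CI.mem_cent.mpr (hH a ha x hx)) hk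
    exact H93.isSolvable_of_prime_card (S0143.result p j hp x (fun h => hx1 (Subtype.ext h)) hj)

theorem comm_of_pCore {p : ℕ} (hp : p.Prime) {G : Type*} [Group G] [Finite G] [Group.IsSolvable G]
    (h : ∀ x : G, (orderOf x).Coprime p → ∃ k : ℕ, CI.cidx x = p ^ k) (hO : pCore p G = ⊥)
    {x y : G} (hx : (orderOf x).Coprime p) (hy : (orderOf y).Coprime p) : x * y = y * x := by
  have hF : Subgroup.centralizer (piCore {p}ᶜ G : Set G) ≤ piCore {p}ᶜ G :=
    centralizer_piCore_le (by rw [compl_compl, ← pCore_eq_piCore hp, hO])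
  have key : ∀ z : G, (orderOf z).Coprime p → z ∈ Subgroup.centralizer (piCore {p}ᶜ G : Set G) := by
    intro z hz
    rw [← CI.le_cent_iff, ← Subgroup.relIndex_eq_one]
    obtain ⟨k, hk⟩ := h z hz
    have h1 := CI.relIndex_cent_dvd (piCore {p}ᶜ G) z
    have h2 := Subgroup.relIndex_dvd_card (Subgroup.centralizer {z}) (piCore {p}ᶜ G)
    have h3 := (isPiNum_compl_singleton_iff hp).mp (isPiNum_piCore (G := G) {p}ᶜ)
    rw [hk] at h1
    exact Nat.eq_one_of_dvd_coprimes (h3.pow_right k) h2 h1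
  exact (Subgroup.mem_centralizer_iff.mp (key y hy) x (hF (key x hx)))

/-- Let G be a finite group and p a prime. Every conjugacy class of p-regular elements of G (elements of order prime to p) has p-power size if and only if G has an abelian p-complement, i.e. an abelian subgroup of order prime to p and p-power index. -/
theorem result {G : Type*} [Group G] [Finite G] {p : ℕ} (hp : p.Prime) :
    (∀ x : G, (orderOf x).Coprime p → ∃ k : ℕ, (ConjClasses.mk x).carrier.ncard = p ^ k) ↔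
    (∃ H : Subgroup G, IsMulCommutative H ∧ ¬ p ∣ Nat.card H ∧ ∃ k : ℕ, H.index = p ^ k) := by
  simp only [ncard_carrier_mk]
  constructor
  · intro h
    have := solv1 hp G h
    obtain ⟨H, hH⟩ := exists_isPiHall {p}ᶜ G
    obtain ⟨h1, h2⟩ := (isPiHall_compl_singleton_iff hp).mp hH
    refine ⟨H, H96.isMulCommutative_iff.mpr fun a ha b hb => ?_,
      (Nat.Prime.coprime_iff_not_dvd hp).mp h1.symm, h2⟩
    have hc : ∀ z ∈ H, (orderOf ((QuotientGroup.mk' (pCore p G)) z)).Coprime p := fun z hz =>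
      Nat.Coprime.coprime_dvd_left ((orderOf_map_dvd _ z).trans (Subgroup.orderOf_dvd_natCard H hz)) h1
    have h3 := comm_of_pCore hp (hyp_surj hp (QuotientGroup.mk'_surjective (pCore p G)) h)
      pCore_quotient_pCore (hc a ha) (hc b hb)
    have h4 : ⁅a, b⁆ ∈ pCore p G ⊓ H := by
      refine Subgroup.mem_inf.mpr ⟨?_, ?_⟩
      · rw [← QuotientGroup.eq_one_iff]
        change QuotientGroup.mk' (pCore p G) ⁅a, b⁆ = 1
        rw [map_commutatorElement, commutatorElement_eq_one_iff_mul_comm]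
        exact h3
      · rw [commutatorElement_def]
        exact H.mul_mem (H.mul_mem (H.mul_mem ha hb) (H.inv_mem ha)) (H.inv_mem hb)
    rw [pCore_inf_eq_bot h1, Subgroup.mem_bot] at h4
    exact commutatorElement_eq_one_iff_mul_comm.mp h4
  · rintro ⟨H, hH, hc, hk⟩ x hx
    rw [H96.isMulCommutative_iff] at hH
    have := solv2 hp G ⟨H, hH, hk⟩
    have hall : IsPiHall {p}ᶜ H :=
      (isPiHall_compl_singleton_iff hp).mpr ⟨((Nat.Prime.coprime_iff_not_dvd hp).mpr hc).symm, hk⟩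
    obtain ⟨g, hg⟩ := hall.exists_conj_le (K := Subgroup.zpowers x)
      (by rw [Nat.card_zpowers]; exact (isPiNum_compl_singleton_iff hp).mpr hx)
    have h1 : g * x * g⁻¹ ∈ H := hg (Subgroup.smul_mem_pointwise_smul _ _ _ (Subgroup.mem_zpowers x))
    change ∃ k, CI.cidx x = p ^ k
    rw [← CI.cidx_conj x g]
    exact pow_of_dvd hp (Subgroup.index_dvd_of_le (K := Subgroup.centralizer {g * x * g⁻¹})
      fun a ha => CI.mem_cent.mpr (hH a ha _ h1)) hk

end Cfsg.Agent.S4034
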