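import Mathlib
import Cfsg.Statements.S4033
import Cfsg.Agent.FG.ConjTypeF
import Cfsg.Agent.S4034
-- import your own Cfsg.Agent.* helpers here

set_option autoImplicit false
open Cfsg

namespace Cfsg.Agent.S4033

open Subgroup Cfsg.Agent.FG.CI Cfsg.Agent.FG.CT

/-- Let G be a finite group and p a prime, and suppose the conjugacy classes of p-regular elements of G (elements of order prime to p) have exactly two distinct sizes. Then either G has an abelian p-complement (an abelian subgroup of order prime to p and p-power index), or there are a prime q ≠ p, a Sylow p-subgroup P, a Sylow q-subgroup Q and a central subgroup A such that PQ is a normal subgroup of order #P·#Q and G is the internal direct product PQ × A. -/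
theorem result {G : Type*} [Group G] [Finite G] {p : ℕ} (hp : p.Prime)
    (h2 : Set.ncard (Set.range fun x : {x : G // (orderOf x).Coprime p} => (ConjClasses.mk (x : G)).carrier.ncard) = 2) :
    (∃ H : Subgroup G, IsMulCommutative H ∧ ¬ p ∣ Nat.card H ∧ ∃ k : ℕ, H.index = p ^ k) ∨
    (∃ (q : ℕ) (_ : Fact q.Prime) (P : Sylow p G) (Q : Sylow q G) (A : Subgroup G), q ≠ p ∧
        A ≤ Subgroup.center G ∧ Nat.card ↥((P : Subgroup G) ⊔ (Q : Subgroup G)) = Nat.card P * Nat.card Q ∧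
        ((P : Subgroup G) ⊔ (Q : Subgroup G)).Normal ∧
        ((P : Subgroup G) ⊔ (Q : Subgroup G)) ⊓ A = ⊥ ∧ ((P : Subgroup G) ⊔ (Q : Subgroup G)) ⊔ A = ⊤) := by
  have := Fact.mk hp
  simp only [FG.ncard_carrier_mk] at h2
  obtain ⟨n, hn⟩ : ∃ n, ∀ w : G, w ∉ center G → (orderOf w).Coprime p → cidx w = n := by
    obtain ⟨a, b, -, hab⟩ := Set.ncard_eq_two.1 h2
    have h1 : ∀ w : G, (orderOf w).Coprime p → cidx w = a ∨ cidx w = b := fun w hw => by
      have : cidx w ∈ ({a, b} : Set ℕ) := hab ▸ ⟨⟨w, hw⟩, rfl⟩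
      simpa using this
    have h3 := h1 1 (by simp)
    rw [cidx_one] at h3
    rcases h3 with e | e
    · exact ⟨b, fun w hw hw' => (h1 w hw').resolve_left fun e' => hw (cidx_eq_one_iff.1 (e'.trans e.symm))⟩
    · exact ⟨a, fun w hw hw' => (h1 w hw').resolve_right fun e' => hw (cidx_eq_one_iff.1 (e'.trans e.symm))⟩
  by_cases h : ∃ q r : ℕ, q.Prime ∧ r.Prime ∧ q ≠ r ∧ q ≠ p ∧ r ≠ p ∧ q ∣ (center G).index ∧
      r ∣ (center G).index
  · obtain ⟨q, r, hq, hr, h3, h4, h5, h6, h7⟩ := h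
    exact Or.inl ((S4034.result hp).1 fun x hx => by
      rw [FG.ncard_carrier_mk]
      exact cidx_eq_pow_of_cidx hp hq hr h3 h4 h5 h6 h7 hn hx)
  right
  obtain ⟨q, hq, hqp, hqG⟩ : ∃ q : ℕ, q.Prime ∧ q ≠ p ∧ ∀ t : ℕ, t.Prime → t ≠ p → t ≠ q →
      ¬ t ∣ (center G).index := by
    by_cases e : ∃ q : ℕ, q.Prime ∧ q ≠ p ∧ q ∣ (center G).index
    · obtain ⟨q, hq, hqp, hqG⟩ := e
      exact ⟨q, hq, hqp, fun t ht a b c => h ⟨t, q, ht, hq, b, a, hqp, c, hqG⟩⟩
    · obtain ⟨q, hq, hq'⟩ := Nat.exists_infinite_primes (p + 1)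
      exact ⟨q, hq', by omega, fun t ht a _ c => e ⟨t, ht, a, c⟩⟩
  have := Fact.mk hq
  let A : Subgroup G := center G ⊓ rc (p * q) 1
  have hA : ∀ {t : ℕ}, t.Prime → t ∣ Nat.card A → t ≠ p ∧ t ≠ q := fun {t} ht e => by
    obtain ⟨w, hw, hwt⟩ := exists_mem_orderOf ht e
    have h3 := hw.2.2
    rw [hwt, Nat.coprime_mul_iff_right, Nat.coprime_primes ht hp, Nat.coprime_primes ht hq] at h3
    exact h3
  have hA' : ∀ {t : ℕ}, t.Prime → t ≠ p → t ≠ q → ¬ t ∣ A.index := fun {t} ht a b => by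
    have := Fact.mk ht
    obtain ⟨T, hT⟩ := (not_dvd_index_iff _).1 (hqG t ht a b)
    refine (not_dvd_index_iff _).2 ⟨T, fun g hg => ⟨hT hg, cent_eq_top_iff.2 (hT hg) ▸ le_top, ?_⟩⟩
    refine Ch.coprime_of_pow_of_not_dvd ht (orderOf_of_mem T.isPGroup' hg) ?_
    rw [ht.dvd_mul, Nat.prime_dvd_prime_iff_eq ht hp, Nat.prime_dvd_prime_iff_eq ht hq]
    exact fun e => e.elim a b
  have : A.Normal := ⟨fun a ha g => by rwa [mem_center_iff.1 ha.1 g, mul_inv_cancel_right]⟩
  obtain ⟨L, hL⟩ := exists_right_complement'_of_coprime (N := A) (Nat.coprime_of_dvd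
    fun t ht a b => hA' ht (hA ht a).1 (hA ht a).2 b)
  have hLn : L.Normal := ⟨fun l hl g => by
    obtain ⟨⟨a, b⟩, rfl⟩ := hL.existsUnique g |>.exists
    have h3 := L.mul_mem (L.mul_mem b.2 hl) (L.inv_mem b.2)
    rwa [← mul_inv_cancel_right ((b : G) * l * (b : G)⁻¹) a, mem_center_iff.1 a.2.1,
      show (a : G) * (b * l * (b : G)⁻¹) * (a : G)⁻¹ = a * b * l * ((a : G) * b)⁻¹ by group] at h3⟩
  obtain ⟨P, hP⟩ := (not_dvd_index_iff L).1 fun e => (hA hp (hL.index_eq_card ▸ e)).1 rfl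
  obtain ⟨Q, hQ⟩ := (not_dvd_index_iff L).1 fun e => (hA hq (hL.index_eq_card ▸ e)).2 rfl
  have h3 : Nat.card L = Nat.card P * Nat.card Q := by
    rw [P.card_eq_multiplicity, Q.card_eq_multiplicity]
    refine Nat.eq_of_factorization_eq Nat.card_pos.ne' (mul_pos (pow_pos hp.pos _)
      (pow_pos hq.pos _)).ne' fun t => ?_
    have h4 : ∀ t : ℕ, t.Prime → ¬ t ∣ Nat.card A →
        (Nat.card L).factorization t = (Nat.card G).factorization t := fun t ht e => by
      rw [← hL.card_mul_card, Nat.factorization_mul Nat.card_pos.ne' Nat.card_pos.ne',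
        Finsupp.add_apply, Nat.factorization_eq_zero_of_not_dvd e, zero_add]
    rw [Nat.factorization_mul (pow_pos hp.pos _).ne' (pow_pos hq.pos _).ne', hp.factorization_pow,
      hq.factorization_pow, Finsupp.add_apply]
    by_cases e : t = p
    · rw [e, Finsupp.single_eq_same, Finsupp.single_eq_of_ne hqp.symm, add_zero,
        h4 p hp fun a => (hA hp a).1 rfl]
    by_cases e' : t = q
    · rw [e', Finsupp.single_eq_same, Finsupp.single_eq_of_ne hqp, zero_add,
        h4 q hq fun a => (hA hq a).2 rfl]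
    rw [Finsupp.single_eq_of_ne e, Finsupp.single_eq_of_ne e', add_zero]
    by_cases ht : t.Prime
    · exact Nat.factorization_eq_zero_of_not_dvd (hL.symm.index_eq_card ▸ hA' ht e e')
    · exact Nat.factorization_eq_zero_of_not_prime _ ht
  have h4 : (P : Subgroup G) ⊔ Q = L := eq_of_le_of_card_ge (sup_le hP hQ) (Nat.le_of_dvd
    Nat.card_pos (h3 ▸ Nat.Coprime.mul_dvd_of_dvd_of_dvd (IsPGroup.coprime_card_of_ne p q hqp.symm _ _
      P.isPGroup' Q.isPGroup') (card_dvd_of_le le_sup_left) (card_dvd_of_le le_sup_right)))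
  exact ⟨q, Fact.mk hq, P, Q, A, hqp, inf_le_left, h4 ▸ h3, h4 ▸ hLn, h4 ▸ hL.symm.disjoint.eq_bot,
    h4 ▸ hL.symm.sup_eq_top⟩

end Cfsg.Agent.S4033
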