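import Mathlib
import Cfsg.Statements.S4036
import Cfsg.Agent.FG.H93Elt
import Cfsg.Agent.GT.CoprimeActThms

set_option autoImplicit false
open Cfsg

namespace Cfsg.Agent.S4036

open Cfsg.Agent.FG Cfsg.Agent.GT

/-- Let P be a finite abelian p-group and K a group of automorphisms of P (a subgroup of Aut P) whose order is divisible by p. If all non-identity elements of K have the same fixed-point subgroup on P, then K has no non-trivial normal subgroup of order prime to p. -/
theorem result {P : Type*} [CommGroup P] [Finite P] {p : ℕ}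
    [Fact p.Prime] (hP : IsPGroup p P) (K : Subgroup (MulAut P)) (hK : p ∣ Nat.card K)
    (hfix : ∀ x y : MulAut P, x ∈ K → y ∈ K → x ≠ 1 → y ≠ 1 → ∀ v : P, x v = v ↔ y v = v) :
    ∀ N : Subgroup ↥K, N.Normal → ¬ p ∣ Nat.card N → N = ⊥ := by
  intro N hN hNp
  by_contra hne
  obtain ⟨⟨y, hyN⟩, hy1⟩ := Subgroup.ne_bot_iff_exists_ne_one.mp hne
  have hy : (y : MulAut P) ≠ 1 := fun h => hy1 (Subtype.ext (Subtype.ext h))
  obtain ⟨x, hx⟩ := exists_prime_orderOf_dvd_card' (G := K) p hK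
  have hx1 : (x : MulAut P) ≠ 1 := fun h => by
    rw [show x = 1 from Subtype.ext h, orderOf_one] at hx
    exact (Fact.out : p.Prime).one_lt.ne hx
  let φ : N →* MulAut P := K.subtype.comp N.subtype
  let W := CopAct.actComm φ ⊤
  have hWF : W ⊓ CopAct.actFixed φ = ⊥ := by
    obtain ⟨k, hk⟩ := hP.exists_card_eq
    refine CopAct.actComm_inf_actFixed_eq_bot inferInstance (CopAct.actInv_top φ) ?_
    rw [Subgroup.card_top, hk]
    exact ((Nat.Prime.coprime_iff_not_dvd Fact.out).mpr hNp).symm.pow_right k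
  have hW : W ≠ ⊥ := fun h => hy (MulEquiv.ext fun v =>
    CopAct.mem_actFixed.mp (CopAct.actComm_eq_bot_iff.mp h (Subgroup.mem_top v)) ⟨y, hyN⟩)
  have hinv : CopAct.ActInv (Subgroup.zpowers (x : MulAut P)).subtype W := by
    rw [CopAct.actInv_zpowers]
    change W ≤ W.comap (x : MulAut P).toMonoidHom
    refine CopAct.actComm_le_iff.mpr fun u _ a => ?_
    have h1 := CopAct.mem_actComm φ (Subgroup.mem_top ((x : MulAut P) u))
      ⟨x * a * x⁻¹, hN.conj_mem _ a.2 x⟩
    rw [Subgroup.mem_comap, map_mul, map_inv]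
    change ((x : MulAut P) u)⁻¹ * ((x : MulAut P) * a.1 * (x : MulAut P)⁻¹) ((x : MulAut P) u) ∈ _ at h1
    rw [MulAut.mul_apply, MulAut.mul_apply, MulAut.inv_apply_self] at h1
    exact h1
  let ψ := CopAct.subHom _ W hinv
  let _ : MulAction (Subgroup.zpowers (x : MulAut P)) W := MulAction.compHom W ψ
  have hxp : IsPGroup p (Subgroup.zpowers (x : MulAut P)) :=
    CI.isPGroup_zpowers ⟨1, by rw [Subgroup.orderOf_coe, hx, pow_one]⟩
  have hWp : p ∣ Nat.card W := by
    obtain ⟨k, hk⟩ := (hP.to_subgroup W).exists_card_eq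
    rw [hk]
    refine dvd_pow_self p fun h0 => hW ?_
    rwa [h0, pow_zero, ← Subgroup.eq_bot_iff_card] at hk
  obtain ⟨b, hb, hb1⟩ := hxp.exists_fixed_point_of_prime_dvd_card_of_fixed_point W hWp
    (a := 1) (fun a => map_one (ψ a))
  have h2 : (x : MulAut P) b = b := congrArg Subtype.val (hb ⟨x, Subgroup.mem_zpowers _⟩)
  have h3 : (b : P) ∈ W ⊓ CopAct.actFixed φ := by
    refine ⟨b.2, CopAct.mem_actFixed.mpr fun a => ?_⟩
    by_cases ha : φ a = 1
    · rw [ha]; rfl
    · exact (hfix x (φ a) x.2 a.1.2 hx1 ha b).mp h2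
  rw [hWF] at h3
  exact hb1 (Subtype.ext h3.symm)

end Cfsg.Agent.S4036
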