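import Mathlib
import Cfsg.Statements.S4043
import Cfsg.Agent.GT.SchurZassenhaus
import Cfsg.Agent.GT.TransferPNilp
import Cfsg.Agent.GT.PGroupChain
import Cfsg.Agent.GT.Cores
import Cfsg.Agent.FG.H93Basic

set_option autoImplicit false
open Cfsg

namespace Cfsg.Agent.S4043

open Cfsg.Agent.FG Cfsg.Agent.GT Subgroup
open scoped Pointwise

theorem aux {G : Type*} [Group G] [Finite G] {p : ℕ} [hp : Fact p.Prime] (N : Subgroup G) [N.Normal]
    (hN : IsPGroup p N) (A : Subgroup G) (hA : A.IsComplement' N)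
    (hAp : Cfsg.HasNormalPComplement p A)
    (hC : ∀ n : G, n ∈ N → (∀ a : G, a ∈ A → a * n * a⁻¹ = n) → n = 1) :
    ∃ K : Subgroup G, (∀ x, x ∈ K ↔ x ∈ A ∧ (orderOf x).Coprime p) ∧
      (Nat.card N).Coprime (Nat.card K) ∧ normalizer (K : Set G) = A := by
  set K := (pResidual p A).map A.subtype with hK
  have hmem : ∀ x, x ∈ K ↔ x ∈ A ∧ (orderOf x).Coprime p := fun x => by
    constructor
    · rintro ⟨y, hy, rfl⟩
      exact ⟨y.2, by simpa using hAp.mem_pResidual_iff.mp hy⟩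
    · rintro ⟨h1, h2⟩
      exact ⟨⟨x, h1⟩, hAp.mem_pResidual_iff.mpr (by simpa using h2), rfl⟩
  have hcop : (Nat.card N).Coprime (Nat.card K) := by
    obtain ⟨k, hk⟩ := IsPGroup.iff_card.mp hN
    rw [hk, card_map_of_injective A.subtype_injective]
    exact Nat.Coprime.pow_left k ((Nat.Prime.coprime_iff_not_dvd hp.out).mpr
      hAp.not_dvd_card_pResidual)
  have hAK : A ≤ normalizer (K : Set G) := le_normalizer_map_subtype A _
  refine ⟨K, hmem, hcop, le_antisymm (fun g hg => ?_) hAK⟩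
  obtain ⟨P⟩ : Nonempty (Sylow p A) := inferInstance
  have hsup : K ⊔ (P : Subgroup A).map A.subtype = A := by
    rw [hK, ← Subgroup.map_sup, (hAp.isComplement'_pResidual P).sup_eq_top, ← MonoidHom.range_eq_map,
      range_subtype]
  have hD : N ⊓ centralizer (K : Set G) = ⊥ := by
    by_contra h0
    obtain ⟨d, hd, hd1⟩ := (Subgroup.ne_bot_iff_exists_ne_one.mp
      (PG.inf_centralizer_ne_bot_of_isPGroup (H := (P : Subgroup A).map A.subtype) hN.to_inf_left
        (P.isPGroup'.map _) ((map_subtype_le _).trans (PG.le_normalizer_inf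
          (by rw [normalizer_eq_top]; exact le_top) (PG.le_normalizer_centralizer hAK))) h0)).imp
      fun d hd => (⟨d.2, hd⟩ : _ ∧ _)
    have h1 : A ≤ centralizer {(d : G)} := by
      exact hsup.ge.trans (sup_le (fun k hk => mem_centralizer_singleton_iff.mpr (hd.1.2 k hk))
        fun k hk => mem_centralizer_singleton_iff.mpr (hd.2 k hk))
    exact hd1 (Subtype.ext (hC d hd.1.1 fun a ha =>
      mul_inv_eq_iff_eq_mul.mpr (mem_centralizer_singleton_iff.mp (h1 ha))))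
  obtain ⟨⟨a, n⟩, rfl⟩ := hA.2 g
  have hn : (n : G) ∈ normalizer (K : Set G) := by
    simpa using mul_mem (inv_mem (hAK a.2)) hg
  have h1 : (n : G) ∈ centralizer (K : Set G) := fun k hk => by
    have h2 : (n : G) * k * (n : G)⁻¹ * k⁻¹ ∈ K :=
      mul_mem ((mem_normalizer_iff.mp hn k).mp hk) (inv_mem hk)
    have h3 : (n : G) * k * (n : G)⁻¹ * k⁻¹ ∈ N := by
      simpa [mul_assoc] using mul_mem n.2 ((inferInstance : N.Normal).conj_mem _ (inv_mem n.2) k)
    have h4 := disjoint_def.mp (disjoint_of_coprime_natCard hcop) h3 h2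
    rw [mul_inv_eq_one, mul_inv_eq_iff_eq_mul] at h4
    exact h4.symm
  have h2 : (n : G) = 1 := mem_bot.mp (hD.le ⟨n.2, h1⟩)
  simp [h2]

theorem le_sup {G : Type*} [Group G] {p : ℕ} {N : Subgroup G} [N.Normal] {A A₁ K K₁ : Subgroup G}
    (hA : A₁.IsComplement' N) (hK : ∀ x, x ∈ K ↔ x ∈ A ∧ (orderOf x).Coprime p)
    (hK₁ : ∀ x, x ∈ K₁ ↔ x ∈ A₁ ∧ (orderOf x).Coprime p) : N ⊔ K ≤ N ⊔ K₁ := by
  refine sup_le le_sup_left fun k hk => ?_
  obtain ⟨⟨a, n⟩, rfl⟩ := hA.2 k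
  refine mul_mem (mem_sup_right ((hK₁ a).mpr ⟨a.2, Nat.Coprime.coprime_dvd_left ?_ ((hK _).mp hk).2⟩))
    (mem_sup_left n.2)
  rw [orderOf_dvd_iff_pow_eq_one]
  refine disjoint_def.mp hA.disjoint (pow_mem a.2 _) ((QuotientGroup.eq_one_iff _).mp ?_)
  have h1 : ((a : G) : G ⧸ N) = (((a : G) * n : G) : G ⧸ N) := by
    rw [QuotientGroup.mk_mul, (QuotientGroup.eq_one_iff (n : G)).mpr n.2, mul_one]
  rw [QuotientGroup.mk_pow, h1, ← QuotientGroup.mk_pow, pow_orderOf_eq_one]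
  rfl

/-- Let G be a finite group that is the semidirect product of a normal p-subgroup N by a subgroup A, and also of N by a subgroup A₁, where p is a prime and A and A₁ both have normal p-complements. If C_N(A) = C_N(A₁) = 1, then A₁ is conjugate to A by an element of N. -/
theorem result {G : Type*} [Group G] [Finite G] {p : ℕ}
    [Fact p.Prime] (N : Subgroup G) [N.Normal] (hN : IsPGroup p N) (A A₁ : Subgroup G)
    (hA : A.IsComplement' N) (hA₁ : A₁.IsComplement' N)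
    (hAp : Cfsg.HasNormalPComplement p A) (hA₁p : Cfsg.HasNormalPComplement p A₁)
    (hC : ∀ n : G, n ∈ N → (∀ a : G, a ∈ A → a * n * a⁻¹ = n) → n = 1)
    (hC₁ : ∀ n : G, n ∈ N → (∀ a : G, a ∈ A₁ → a * n * a⁻¹ = n) → n = 1) :
    ∃ n : G, n ∈ N ∧ A₁ = A.map (MulAut.conj n).toMonoidHom := by
  obtain ⟨K, hK, hc, hn⟩ := aux N hN A hA hAp hC
  obtain ⟨K₁, hK₁, hc₁, hn₁⟩ := aux N hN A₁ hA₁ hA₁p hC₁
  have := hN.isNilpotent
  obtain ⟨a, ha, he⟩ := conj_of_coprime_sup_eq_of_normal N K K₁ hc hc₁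
    (le_antisymm (le_sup hA₁ hK hK₁) (le_sup hA hK₁ hK)) (Or.inl inferInstance)
  exact ⟨a, ha, by rw [← hn₁, ← he, HT.normalizer_conj_smul, hn, HT.conj_smul_eq_map]⟩

end Cfsg.Agent.S4043
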