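import Mathlib
import Cfsg.Statements.S4049
import Cfsg.Agent.FG.H93Elt
import Cfsg.Agent.FG.RealSylow

set_option autoImplicit false
open Cfsg

namespace Cfsg.Agent.S4049

open Cfsg.Agent.FG Cfsg.Agent.GT

/-- Let G be a finite group such that N_G(H)/C_G(H) has odd order for every nontrivial subgroup H of odd order. Then the Sylow 2-subgroups of G are normal. -/
theorem result {G : Type*} [Group G] [Finite G]
    (hhom : ∀ H : Subgroup G, H ≠ ⊥ → ¬ 2 ∣ Nat.card ↥H →
        ¬ 2 ∣ (Subgroup.centralizer (H : Set G)).relIndex (Subgroup.normalizer (H : Set G))) (P : Sylow 2 G) :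
    (P : Subgroup G).Normal := by
  rw [CI.sylow_two_eq_pCore_of_no_inverted (fun t x _ hx ht => ?_) P]
  · infer_instance
  by_contra hx1
  have h0 := hhom (Subgroup.zpowers x) (Subgroup.zpowers_ne_bot.mpr hx1) (by
    rw [Nat.card_zpowers, ← even_iff_two_dvd]; exact Nat.not_even_iff_odd.mpr hx)
  have htn : t ∈ Subgroup.normalizer (Subgroup.zpowers x : Set G) :=
    H93.mem_normalizer_zpowers_iff.mpr (ht ▸ Subgroup.inv_mem _ (Subgroup.mem_zpowers x))
  have h1 : (⟨t, htn⟩ : Subgroup.normalizer (Subgroup.zpowers x : Set G)) ∈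
      (Subgroup.centralizer (Subgroup.zpowers x : Set G)).subgroupOf _ := by
    refine CI.mem_of_pow_mem_of_coprime_index (n := 2)
      (Subgroup.le_normalizer_of_normal (Subgroup.mem_top _)) ?_
      ((Nat.Prime.coprime_iff_not_dvd Nat.prime_two).mpr h0)
    rw [Subgroup.mem_subgroupOf, H93.centralizer_zpowers, CI.mem_cent']
    change t ^ 2 * x * (t ^ 2)⁻¹ = x
    calc t ^ 2 * x * (t ^ 2)⁻¹ = t * (t * x * t⁻¹) * t⁻¹ := by rw [pow_two]; group
      _ = (t * x * t⁻¹)⁻¹ := by nth_rewrite 1 [ht]; group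
      _ = x := by rw [ht, inv_inv]
  rw [Subgroup.mem_subgroupOf, H93.centralizer_zpowers] at h1
  rw [CI.mem_cent'.mp h1] at ht
  have h3 : x ^ 2 = 1 := by rw [pow_two]; nth_rewrite 1 [ht]; exact inv_mul_cancel x
  exact hx1 (orderOf_eq_one_iff.mp (Nat.Coprime.eq_one_of_dvd hx.coprime_two_right
    (orderOf_dvd_of_pow_eq_one h3)))

end Cfsg.Agent.S4049
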