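import Mathlib
import Cfsg.Statements.S4057
import Cfsg.Agent.FG.H94Patt
import Cfsg.Agent.GT.PGroupAlperin
import Cfsg.Agent.GT.ElemAbRep
-- import your own Cfsg.Agent.* helpers here

set_option autoImplicit false
open Cfsg

namespace Cfsg.Agent.S4057

open Subgroup Cfsg.Agent.GT Cfsg.Agent.FG

/-- Let p be an odd prime and P a finite p-group in which every normal abelian subgroup can be generated by k elements. Then every subgroup of P can be generated by at most ⌊k(k+4)/4⌋ elements. -/
theorem result {P : Type*} [Group P] [Finite P] {p : ℕ} [Fact p.Prime]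
    (hp : p ≠ 2) (hP : IsPGroup p P) (k : ℕ)
    (hab : ∀ A : Subgroup P, A.Normal → IsMulCommutative A → ∃ S : Finset P, S.card ≤ k ∧ Subgroup.closure (S : Set P) = A) :
    ∀ H : Subgroup P, ∃ S : Finset P, S.card ≤ k * (k + 4) / 4 ∧ Subgroup.closure (S : Set P) = H := by
  classical
  intro H
  obtain ⟨A, hAn, hA, -, -, hmax⟩ := PG.exists_normal_elementary_omega_centralizer hp hP ⊤ ⊥
    IsElementaryAbelian.bot le_top
  obtain ⟨r, hr⟩ := hA.card_eq_pow
  have hp1 := (Fact.out : p.Prime).one_lt
  have hrk : r ≤ k := by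
    obtain ⟨S, hS, hSA⟩ := hab A hAn hA.1
    have hS' : ∀ s ∈ S, s ∈ A := fun s hs => hSA ▸ Subgroup.subset_closure hs
    have h1 := PG.index_frattini_le_of_closure_eq_top hA.isPGroup (S.subtype (· ∈ A)) (by
      apply map_injective A.subtype_injective
      rw [MonoidHom.map_closure, ← MonoidHom.range_eq_map, range_subtype]
      refine Eq.trans (congrArg _ ?_) hSA
      ext x
      simp only [Set.mem_image, Finset.mem_coe, Finset.mem_subtype]
      exact ⟨by rintro ⟨y, hy, rfl⟩; exact hy, fun hx => ⟨⟨x, hS' x hx⟩, hx, rfl⟩⟩)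
    rw [hA.frattini_eq_bot, index_bot, hr] at h1
    exact ((Nat.pow_le_pow_iff_right hp1).1 h1).trans
      ((Finset.card_subtype _ _).le.trans ((Finset.card_filter_le _ _).trans hS))
  have hHA : H ≤ normalizer (A : Set P) := normalizer_eq_top A ▸ le_top
  have hf : Module.finrank (ZMod p) (EAV hA) = r := by
    have := Module.natCard_eq_pow_finrank (K := ZMod p) (V := EAV hA)
    rw [EAV.card_eq, hr, Nat.card_zmod] at this
    exact (Nat.pow_right_injective hp1 this).symm
  obtain ⟨T, hT, hgen⟩ := H94Patt.patterson (hP.to_subgroup H) (eaRep hA hHA)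
  rw [hf] at hT
  set C : Subgroup P := H ⊓ centralizer (A : Set P) with hC
  have hCp := hP.to_subgroup C
  have h1 := H94Patt.index_frattini_le hp C hCp fun x hx => mem_center_iff.2 fun y =>
    Subtype.ext (y.2.2 _ (hmax x (mem_top _) x.2.2 (congrArg Subtype.val hx))).symm
  have h2 : Nat.card {x : C // x ^ p = 1} ≤ Nat.card A :=
    Nat.card_le_card_of_injective
      (fun x => ⟨x.1, hmax x.1 (mem_top _) x.1.2.2 (congrArg Subtype.val x.2)⟩) fun a b hab => by
        have := congrArg Subtype.val hab
        exact Subtype.ext (Subtype.ext this)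
  obtain ⟨m, hm⟩ := hCp.index (frattini C)
  obtain ⟨S, hS, hSC⟩ := PG.exists_card_eq_closure_eq_top hCp hm
  have hmr : m ≤ r := (Nat.pow_le_pow_iff_right hp1).1 (hm ▸ hr ▸ h1.trans h2)
  refine ⟨T.image H.subtype ∪ S.image C.subtype, ?_, le_antisymm ?_ ?_⟩
  · refine (Finset.card_union_le _ _).trans
      ((Nat.add_le_add (Finset.card_image_le.trans hT) Finset.card_image_le).trans ?_)
    have h3 : r ^ 2 ≤ k ^ 2 := Nat.pow_le_pow_left hrk 2
    have h4 : k * (k + 4) = k ^ 2 + 4 * k := by ring
    omega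
  · rw [Subgroup.closure_le]
    intro x hx
    simp only [Finset.coe_union, Finset.coe_image, Set.mem_union, Set.mem_image] at hx
    rcases hx with ⟨y, -, rfl⟩ | ⟨y, -, rfl⟩
    exacts [y.2, y.2.1]
  · set L := Subgroup.closure ((T.image H.subtype ∪ S.image C.subtype : Finset P) : Set P)
    have h3 : L.comap C.subtype = ⊤ := top_unique (hSC.ge.trans ((Subgroup.closure_le _).2
      fun x hx => Subgroup.subset_closure (Finset.mem_coe.2 (Finset.mem_union_right _
        (Finset.mem_image_of_mem _ hx)))))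
    have h4 := hgen (L.comap H.subtype) (fun x hx => Subgroup.subset_closure (Finset.mem_coe.2
      (Finset.mem_union_left _ (Finset.mem_image_of_mem _ hx)))) fun g hg =>
        h3.ge (mem_top (⟨g, g.2, eaRep_eq_one_iff.1 hg⟩ : C))
    exact fun x hx => h4.ge (mem_top (⟨x, hx⟩ : H))

end Cfsg.Agent.S4057
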