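import Mathlib
import Cfsg.Statements.S4065
import Cfsg.Agent.Cl.PSL2Pairs

set_option autoImplicit false
open Cfsg

set_option linter.unusedVariables false

namespace Cfsg.Agent.S4065

open Cfsg.Agent.Cl.L2 Matrix MulAction
open scoped MatrixGroups

/-- Let F be a finite field with 2ⁿ elements, n ≥ 2. In PSL₂(F) the centralizer of every element meets each of its conjugates by elements outside its normalizer trivially. -/
theorem result (n : ℕ) (hn : 2 ≤ n)
    (x : Matrix.ProjectiveSpecialLinearGroup (Fin 2) (GaloisField 2 n)) :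
    Cfsg.IsTISubset (Subgroup.centralizer ({x} : Set (Matrix.ProjectiveSpecialLinearGroup (Fin 2) (GaloisField 2 n))) :
      Set (Matrix.ProjectiveSpecialLinearGroup (Fin 2) (GaloisField 2 n))) := by
  have h2 : (2 : GaloisField 2 n) = 0 := CharP.cast_eq_zero (GaloisField 2 n) 2
  intro g hg y hy hy'
  by_contra h1
  apply hg
  by_cases hx : x = 1
  · subst hx
    rw [Subgroup.centralizer_eq_top_iff_subset.2 (by simp), Subgroup.normalizer_eq_top]
    trivial
  rw [centralizer_eq_torS_of_char_two h2] at hy hy' ⊢
  have hn := mem_ntorS_of_conj_mem hx hy h1 hy'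
  refine Subgroup.mem_normalizer_iff.2 fun k => ⟨conj_mem_torS_of_mem_ntorS hn, fun hk => ?_⟩
  simpa [mul_assoc] using conj_mem_torS_of_mem_ntorS (inv_mem hn) hk

end Cfsg.Agent.S4065
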