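import Mathlib
import Cfsg.Statements.S4066
import Cfsg.Agent.FG.H93Elt

set_option autoImplicit false
open Cfsg

namespace Cfsg.Agent.S4066

open Cfsg.Agent.FG Cfsg.Agent.GT

theorem exists_central {G : Type*} [Group G] [Finite G] {p : ℕ} [Fact p.Prime] {P : Subgroup G}
    (hP : IsPGroup p P) (h : P ≠ ⊥) : ∃ z ∈ P, z ≠ 1 ∧ P ≤ Subgroup.centralizer {z} := by
  have := (Subgroup.nontrivial_iff_ne_bot P).mpr h
  have := hP.center_nontrivial
  obtain ⟨⟨z, hz⟩, hz1⟩ := exists_ne (1 : Subgroup.center P)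
  refine ⟨z, z.2, fun h => hz1 (Subtype.ext (Subtype.ext h)), fun g hg => ?_⟩
  exact CI.mem_cent.mpr (congrArg Subtype.val (Subgroup.mem_center_iff.mp hz ⟨g, hg⟩))

/-- Let G be a finite group in which the centralizer of every element meets each of its conjugates by elements outside its normalizer trivially. Then any two distinct Sylow p-subgroups of G, for any prime p, intersect trivially. -/
theorem result {G : Type*} [Group G] [Finite G] (hTI : ∀ x : G, Cfsg.IsTISubset (Subgroup.centralizer ({x} : Set G) : Set G))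
    {p : ℕ} [Fact p.Prime] (P Q : Sylow p G) (hPQ : P ≠ Q) : (P : Subgroup G) ⊓ (Q : Subgroup G) = ⊥ := by
  by_contra hne
  obtain ⟨⟨x, hxP, hxQ⟩, hx1⟩ := Subgroup.ne_bot_iff_exists_ne_one.mp hne
  have hx : x ≠ 1 := fun h => hx1 (Subtype.ext h)
  obtain ⟨z, hzP, hz1, hz⟩ := exists_central P.isPGroup' (ne_bot_of_le_ne_bot hne inf_le_left)
  obtain ⟨w, hwQ, hw1, hw⟩ := exists_central Q.isPGroup' (ne_bot_of_le_ne_bot hne inf_le_right)
  have := H93.isNilpotent_cent_of_ti hTI hz1
  have key : ∀ y : G, y ≠ 1 → y ∈ Subgroup.centralizer {z} → Subgroup.centralizer {y} ≤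
      Subgroup.normalizer ((P : Subgroup G) : Set G) := fun y hy hyz =>
    (H93.cent_le_normalizer_cent_of_ti hTI hy hyz).trans
      (H93.normalizer_le_normalizer_sylow_of_isNilpotent P hz)
  have hwP : w ∈ (P : Subgroup G) := H93.le_sylow_of_le_normalizer P
    (Q.isPGroup'.to_le (Subgroup.zpowers_le.mpr hwQ))
    (Subgroup.zpowers_le.mpr (key x hx (hz hxP) (CI.mem_cent_symm.mp (hw hxQ))))
    (Subgroup.mem_zpowers w)
  have hQP : (Q : Subgroup G) ≤ P :=
    H93.le_sylow_of_le_normalizer P Q.isPGroup' (hw.trans (key w hw1 (hz hwP)))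
  exact hPQ (Sylow.ext (Q.is_maximal' P.isPGroup' hQP))

end Cfsg.Agent.S4066
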