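import Mathlib
import Cfsg.Statements.S4068
import Cfsg.Agent.FG.H93Spec
import Cfsg.Agent.FG.H93AutOrb
import Cfsg.Agent.FG.WithFT
import Cfsg.Agent.S1230
import Cfsg.Agent.Cl.LinearIso
import Cfsg.Agent.Ch.Burnside
import Cfsg.Agent.GT.TransferAbelian

set_option autoImplicit false
open Cfsg

namespace Cfsg.Agent.S4068

open Cfsg.Agent.FG Cfsg.Agent.GT

theorem of_prime_orders {G : Type*} [Group G] [Finite G] (hns : ¬ Group.IsSolvable G)
    (h : ∀ g : G, g ≠ 1 → (orderOf g).Prime) : Nonempty (G ≃* alternatingGroup (Fin 5)) := by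
  have hE : H93.Eppo G := fun g hg => (h g hg).isPrimePow
  let T : Sylow 2 G := default
  have hnc : ¬ IsCyclic (T : Subgroup G) := fun hc => by
    obtain ⟨P, N, hN, hNP⟩ := Tr.hasNormalPComplement_two_of_isCyclic T hc
    have h1 : Group.IsSolvable N := ft_solvable_of_not_two_dvd (by
      rw [← hNP.index_eq_card]; exact P.not_dvd_index)
    have h2 : IsPGroup 2 (G ⧸ N) := P.isPGroup'.of_equiv hNP.symm.QuotientMulEquiv.symm
    have := h2.isNilpotent
    exact hns (Group.isSolvable_of_ker_le_range N.subtype (QuotientGroup.mk' N) (by simp))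
  have hnn : ¬ (T : Subgroup G).Normal := fun hn => by
    have h1 : Group.IsSolvable (G ⧸ (T : Subgroup G)) :=
      ft_solvable_of_not_two_dvd T.not_dvd_index
    have := T.isPGroup'.isNilpotent
    exact hns (Group.isSolvable_of_ker_le_range (T : Subgroup G).subtype 
      (QuotientGroup.mk' (T : Subgroup G)) (by simp))
  obtain ⟨F, _, _, hF, ⟨e⟩⟩ := S1230.result T hnc hnn fun t ht => by
    have h2 : ∀ c ∈ Subgroup.centralizer ({t} : Set G), c ^ 2 = 1 := by
      intro c hc
      by_cases h1 : c = 1
      · simp [h1]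
      rw [← hE.eq_of_commute (Subgroup.mem_centralizer_singleton_iff.mp hc) (h c h1)
        Nat.prime_two dvd_rfl (ht ▸ dvd_rfl), pow_orderOf_eq_one]
    refine ⟨⟨⟨fun a b => Subtype.ext ?_⟩⟩, h2⟩
    have ha := h2 a a.2
    have hb := h2 b b.2
    have hab := h2 (a * b) (mul_mem a.2 b.2)
    rw [sq] at ha hb hab
    change (a : G) * b = b * a
    generalize (a : G) = x at *
    generalize (b : G) = y at *
    calc x * y = (x * x)⁻¹ * x * (x * y * (x * y)) * y * (y * y)⁻¹ * x⁻¹ * y⁻¹ * x * y := by
          group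
      _ = x * y * x⁻¹ * y⁻¹ * x * y := by rw [ha, hb, hab]; group
      _ = x * y * (x * x)⁻¹ * x * (y * y)⁻¹ * y * x * y := by group
      _ = (x * y * (x * y)) * (x * y * (x * y)) * y⁻¹ * x⁻¹ := by rw [ha, hb]; group
      _ = y * (y * y)⁻¹ * (x * x)⁻¹ * x := by rw [hab]; group
      _ = y * x := by rw [ha, hb]; group
  obtain ⟨n, hn⟩ := IsPGroup.iff_card.mp T.isPGroup'
  have h2 : 2 ≤ n := by
    by_contra hlt
    refine hnc ?_
    have : n = 0 ∨ n = 1 := by omega
    rcases this with rfl | rfl
    · have := (Nat.card_eq_one_iff_unique.mp hn).1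
      infer_instance
    · exact isCyclic_of_prime_card (p := 2) hn
  have hF' : Nat.card F = 2 ^ n := by rw [Nat.card_eq_fintype_card, hF, hn]
  rcases (hE.of_mulEquiv e).psl2_even h2 hF' with rfl | rfl
  · obtain ⟨e'⟩ := Cl.psl2_four_equiv_alt hF'
    exact ⟨e.trans e'⟩
  · obtain ⟨y, hy⟩ := (H93.psl2_even_data (by norm_num) hF').2.2.1
    rw [← e.symm.orderOf_eq] at hy
    have := h (e.symm y) (by rintro h1; rw [h1, orderOf_one] at hy; omega)
    rw [hy] at this
    norm_num at this

/-- A finite non-solvable group on which its automorphism group has exactly four orbits is isomorphic to the alternating group of degree 5. -/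
theorem result {G : Type*} [Group G] [Finite G] (hns : ¬ Group.IsSolvable G)
    (h4 : Nat.card (MulAction.orbitRel.Quotient (MulAut G) G) = 4) : Nonempty (G ≃* alternatingGroup (Fin 5)) := by
  have h3 : 2 < (Nat.card G).primeFactors.card := by
    by_contra hc
    exact hns (Ch.burnside_isSolvable_of_card_primeFactors_le_two (by omega))
  obtain ⟨p, hp, q, hq, r, hr, hpq, hpr, hqr⟩ := Finset.two_lt_card.mp h3
  have ex : ∀ p ∈ (Nat.card G).primeFactors, ∃ g : G, orderOf g = p := fun p hp => by
    have := Fact.mk (Nat.prime_of_mem_primeFactors hp)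
    exact exists_prime_orderOf_dvd_card' p (Nat.dvd_of_mem_primeFactors hp)
  have hp' := Nat.prime_of_mem_primeFactors hp
  have hq' := Nat.prime_of_mem_primeFactors hq
  have hr' := Nat.prime_of_mem_primeFactors hr
  have hc : ({1, p, q, r} : Finset ℕ).card = 4 := by
    have := hp'.one_lt
    have := hq'.one_lt
    have := hr'.one_lt
    rw [Finset.card_insert_of_notMem (by simp; omega), Finset.card_eq_three.mpr
      ⟨p, q, r, hpq, hpr, hqr, rfl⟩]
  obtain ⟨h1, -⟩ := H93.orbit_spec (G := G) (s := {1, p, q, r}) (fun m hm => by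
    simp only [Finset.mem_insert, Finset.mem_singleton] at hm
    rcases hm with rfl | rfl | rfl | rfl
    · exact ⟨1, orderOf_one⟩
    · exact ex _ hp
    · exact ex _ hq
    · exact ex _ hr) (by rw [hc, h4])
  refine of_prime_orders hns fun g hg => ?_
  have := h1 g
  simp only [Finset.mem_insert, Finset.mem_singleton, orderOf_eq_one_iff] at this
  rcases this with h | h | h | h
  · exact absurd h hg
  · rwa [h]
  · rwa [h]
  · rwa [h]

end Cfsg.Agent.S4068
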