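import Cfsg.Statements.S4070
import Cfsg.Agent.FG.MWOdd

set_option autoImplicit false
open Cfsg

namespace Cfsg.Agent.S4070

/-- Let G be a finite solvable group acting faithfully by additive automorphisms on a finite vector space V over the field with p elements, completely reducibly (every G-invariant subspace has a G-invariant complement). Then some vector v ∈ V has stabilizer C_G(v) of derived length at most 9; and if both #G and p are odd, some vector has abelian stabilizer. -/
theorem result {G V : Type*} [Group G] [Finite G] [Group.IsSolvable G]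
    {p : ℕ} [Fact p.Prime] [AddCommGroup V] [Module (ZMod p) V] [Finite V] [DistribMulAction G V] [FaithfulSMul G V]
    (hcr : ∀ W : Submodule (ZMod p) V, (∀ (g : G) (w : V), w ∈ W → g • w ∈ W) →
      ∃ W' : Submodule (ZMod p) V, (∀ (g : G) (w : V), w ∈ W' → g • w ∈ W') ∧ IsCompl W W') :
    (∃ v : V, derivedSeries ↥(MulAction.stabilizer G v) 9 = ⊥) ∧
    (Odd (Nat.card G) → p ≠ 2 → ∃ v : V, IsMulCommutative ↥(MulAction.stabilizer G v)) := by
  have hc : FG.MW.CR G V := fun U hU => by
    obtain ⟨W, hW, h⟩ := hcr (AddSubgroup.toZModSubmodule p U) fun g w hw => hU g w hw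
    refine ⟨W.toAddSubgroup, fun g w hw => hW g w hw, eq_bot_iff.mpr fun x hx => ?_,
      eq_top_iff.mpr fun x _ => ?_⟩
    · exact (Submodule.mem_bot (ZMod p)).mp (h.inf_eq_bot.le ⟨hx.1, hx.2⟩)
    · obtain ⟨a, ha, b, hb, rfl⟩ := Submodule.mem_sup.mp (h.sup_eq_top.ge (Submodule.mem_top (x := x)))
      exact AddSubgroup.add_mem_sup ha hb
  have hk : ∀ S : Subgroup G, S ≤ FG.MW.ker G V → S = ⊥ := fun S hS => eq_bot_iff.mpr fun g hg =>
    eq_of_smul_eq_smul (α := V) fun x => (hS hg x).trans (one_smul G x).symm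
  refine ⟨(FG.MW.exists_nine hc).imp fun v hv => FG.MW.derivedSeries_eq_bot (hk _ hv),
    fun hodd hp => ?_⟩
  have hV : Odd (Nat.card V) := by
    rw [Module.natCard_eq_pow_finrank (K := ZMod p), Nat.card_zmod]
    exact ((Fact.out : p.Prime).odd_of_ne_two hp).pow
  refine (FG.MW.exists_ab hodd hV hc).imp fun v hv => ⟨⟨fun a b => Subtype.ext ?_⟩⟩
  exact commutatorElement_eq_one_iff_mul_comm.mp
    (Subgroup.mem_bot.mp ((hk _ hv).le (Subgroup.commutator_mem_commutator a.2 b.2)))

end Cfsg.Agent.S4070
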