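import Mathlib
import Cfsg.Statements.S4071
import Cfsg.Agent.GT.CoprimeAbelian
import Cfsg.Agent.GT.CoprimeFixed
import Cfsg.Agent.GT.Fitting
import Cfsg.Agent.GT.SchurZassenhaus
import Cfsg.Agent.FG.H93EqConj
import Cfsg.Agent.FG.H93Solv
import Cfsg.Agent.FG.H93Elt

set_option autoImplicit false
open Cfsg

namespace Cfsg.Agent.S4071

open Cfsg.Agent.FG Cfsg.Agent.GT Subgroup
open scoped commutatorElement Pointwise

theorem normalizer_eq {G : Type*} [Group G] [Finite G] {x : G} {A H : Subgroup G} [A.Normal]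
    (hc : (zpowers x).IsComplement' A) (hf : ∀ a : G, a ∈ A → a ≠ 1 → x * a * x⁻¹ ≠ a)
    (hx : x ∈ H) : normalizer (H : Set G) = H := by
  refine le_antisymm (fun n hn => ?_) le_normalizer
  obtain ⟨⟨y, a⟩, rfl⟩ := hc.2 n
  have hy : (y : G) ∈ H := zpowers_le.mpr hx y.2
  have ha : (a : G) ∈ normalizer (H : Set G) := by
    simpa using mul_mem (inv_mem (le_normalizer hy)) hn
  have key : ∀ a b : G, a ∈ A → b ∈ A → a * x * a⁻¹ * x⁻¹ = b * x * b⁻¹ * x⁻¹ → a = b := by
    intro a b ha hb h
    by_contra hne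
    refine hf (a⁻¹ * b) (mul_mem (inv_mem ha) hb) (fun h1 => hne (inv_mul_eq_one.mp h1)) ?_
    calc _ = a⁻¹ * (a * x * a⁻¹ * x⁻¹) * x * b * x⁻¹ := by group
      _ = _ := by rw [h]; group
  have hA : ∀ a ∈ A, a * x * a⁻¹ * x⁻¹ ∈ A := fun a ha => by
    simpa [mul_assoc] using mul_mem ha ((inferInstance : A.Normal).conj_mem _ (inv_mem ha) x)
  let f : ↥(H ⊓ A) → ↥(H ⊓ A) := fun b => ⟨b * x * (b : G)⁻¹ * x⁻¹,
    H.mul_mem (H.mul_mem (H.mul_mem b.2.1 hx) (H.inv_mem b.2.1)) (H.inv_mem hx), hA _ b.2.2⟩
  have hinj : Function.Injective f := fun b c h =>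
    Subtype.ext (key _ _ b.2.2 c.2.2 (congrArg Subtype.val h))
  obtain ⟨b, hb⟩ := Finite.injective_iff_surjective.mp hinj ⟨a * x * (a : G)⁻¹ * x⁻¹,
    H.mul_mem ((mem_normalizer_iff.mp ha x).mp hx) (H.inv_mem hx), hA _ a.2⟩
  have h1 := key _ _ b.2.2 a.2 (congrArg Subtype.val hb)
  exact mul_mem hy (h1 ▸ b.2.1)

/-- Let G be a finite solvable non-nilpotent group. Every non-abelian subgroup of G is self-normalizing if and only if G is a semidirect product ⟨x⟩ ⋉ A in which ⟨x⟩ is a p-group for some prime p, A is a normal abelian subgroup of order prime to p, x^p is central in G, and x acts fixed-point-freely on A (no non-identity element of A commutes with x). -/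
theorem result {G : Type*} [Group G] [Finite G]
    [Group.IsSolvable G] (hnn : ¬ Group.IsNilpotent G) :
    (∀ H : Subgroup G, ¬ IsMulCommutative H → Subgroup.normalizer (H : Set G) = H) ↔
    ∃ (x : G) (A : Subgroup G) (p : ℕ), p.Prime ∧ A.Normal ∧ IsMulCommutative A ∧ (∃ k : ℕ, orderOf x = p ^ k) ∧
      ¬ p ∣ Nat.card A ∧ (Subgroup.zpowers x).IsComplement' A ∧ x ^ p ∈ Subgroup.center G ∧
      ∀ a : G, a ∈ A → a ≠ 1 → x * a * x⁻¹ ≠ a := by
  constructor
  · intro hS
    have hnt : Nontrivial G := by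
      by_contra h
      have := not_nontrivial_iff_subsingleton.mp h
      exact hnn inferInstance
    obtain ⟨M, hM, hp⟩ := HT.exists_normal_index_prime G
    set p := M.index with hpd
    have := Fact.mk hp
    have hMc : IsMulCommutative M := by
      by_contra h
      have h1 : M = ⊤ := (hS M h).symm.trans (normalizer_eq_top M)
      exact hp.one_lt.ne (by rw [hpd, h1, index_top])
    obtain ⟨P⟩ : Nonempty (Sylow p G) := inferInstance
    obtain ⟨x, hxP, hxM⟩ : ∃ x ∈ (P : Subgroup G), x ∉ M := by
      by_contra hh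
      push Not at hh
      exact P.not_dvd_index (index_dvd_of_le hh)
    set A := piCoreOf ({p}ᶜ : Set ℕ) M with hA
    have hAM : A ≤ M := piCoreOf_le M
    have hAn : A.Normal := piCoreOf_normal M
    have hAc : IsMulCommutative A := PG.isMulCommutative_of_le hAM hMc
    have hAp : ¬ p ∣ Nat.card A := fun h => isPiNum_piCoreOf _ M p hp h rfl
    have hAP : A ⊔ P = ⊤ := by
      have := isNilpotent_of_isMulCommutative (G := M)
      refine HT.sup_eq_of_coprime_relIndex le_top le_top ?_
      rw [relIndex_top_right, relIndex_top_right, ← relIndex_mul_index hAM]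
      refine Nat.coprime_of_dvd fun q hq h1 h2 => ?_
      have hqp : q = p := by
        rcases (Nat.Prime.dvd_mul hq).mp h1 with h | h
        · by_contra hne
          exact (isPiHallOf_piCoreOf ({p}ᶜ : Set ℕ) M).2.2 q hq hne h
        · exact (Nat.prime_dvd_prime_iff_eq hq hp).mp h
      exact P.not_dvd_index (hqp ▸ h2)
    set X := zpowers x with hX
    have hXP : X ≤ P := zpowers_le.mpr hxP
    have hXp : IsPGroup p X := P.isPGroup'.to_le hXP
    have hcop := CopAct.coprime_of_isPGroup_left hXp hAp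
    have hcopP := CopAct.coprime_of_isPGroup_left P.isPGroup' hAp
    have hn : ∀ H : Subgroup G, H ≤ normalizer (A : Set G) := fun H => by
      rw [normalizer_eq_top]; exact le_top
    have hMX : M ⊔ X = ⊤ := PG.sup_zpowers_eq_top_of_index_prime hp rfl hxM
    have hD : ⁅A, X⁆ ≠ ⊥ := fun h => by
      have h1 : centralizer (A : Set G) = ⊤ := eq_top_iff.mpr (hMX.ge.trans (sup_le
        ((PG.isMulCommutative_iff_le_centralizer.mp hMc).trans (centralizer_le hAM))
        (CopAct.commutator_eq_bot_iff.mp h)))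
      have := isNilpotent_of_isMulCommutative (G := A)
      have := P.isPGroup'.isNilpotent
      have h2 := isNilpotent_sup_of_le_centralizer (H := P) (K := A) (h1 ▸ le_top)
      rw [sup_comm, hAP] at h2
      exact hnn (Group.nilpotent_of_mulEquiv topEquiv)
    have hna : ∀ H : Subgroup G, ⁅A, X⁆ ≤ H → X ≤ H → ¬ IsMulCommutative H := fun H h1 h2 h => by
      refine hD ?_
      rw [← CopAct.commutator_commutator_eq (hn X) hcop, CopAct.commutator_eq_bot_iff]
      exact (h2.trans (PG.isMulCommutative_iff_le_centralizer.mp h)).trans (centralizer_le h1)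
    have hDA : ⁅A, X⁆ ≤ A := CopAct.commutator_le_of_le_normalizer (hn X)
    have hXe : X = P := by
      by_contra hne
      have := P.isPGroup'.isNilpotent
      obtain ⟨y, hy, hyX, hyN⟩ := PG.exists_mem_normalizer_notMem (lt_of_le_of_ne hXP hne)
      have h1 := (hS _ (hna (A ⊔ X) (hDA.trans le_sup_left) le_sup_right)).le
        (PG.le_normalizer_sup (hn _) (zpowers_le.mpr hyN) (mem_zpowers y))
      obtain ⟨a, ha, w, hw, rfl⟩ := HT.mem_sup_of_normal.mp h1
      have h2 : a = 1 := CopAct.eq_one_of_coprime hcopP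
        (by simpa using mul_mem hy (inv_mem (hXP hw))) ha
      exact hyX (by simpa [h2] using hw)
    refine ⟨x, A, p, hp, hAn, hAc, ?_, hAp,
      (isComplement'_of_coprime_of_sup_eq_top hcop.symm (by rw [hXe, hAP])).symm, ?_, ?_⟩
    · obtain ⟨k, hk⟩ := IsPGroup.iff_card.mp hXp
      exact ⟨k, by rw [← hk, Nat.card_zpowers]⟩
    · have h1 : centralizer {x ^ p} = ⊤ := eq_top_iff.mpr (hMX.ge.trans (sup_le
        (fun m hm => mem_centralizer_singleton_iff.mpr (PG.isMulCommutative_iff_forall.mp hMc m hm _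
          (M.pow_index_mem x)))
        (zpowers_le.mpr (mem_centralizer_singleton_iff.mpr ((Commute.refl x).pow_right p).eq))))
      exact mem_center_iff.mpr fun g => mem_centralizer_singleton_iff.mp (h1.ge (mem_top g))
    · intro a ha ha1 hax
      have h1 : a ∈ centralizer (X : Set G) := by
        rw [hX, H93.centralizer_zpowers, mem_centralizer_singleton_iff]
        exact (mul_inv_eq_iff_eq_mul.mp hax).symm
      have hXD : X ≤ normalizer ((⁅A, X⁆ : Subgroup G) : Set G) :=
        CopAct.le_normalizer_commutator (hn X) le_normalizer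
      have h2 := (hS _ (hna (⁅A, X⁆ ⊔ X) le_sup_left le_sup_right)).le
        (PG.le_normalizer_sup (H := zpowers a) ((zpowers_le.mpr
          (centralizer_le hDA (PG.isMulCommutative_iff_le_centralizer.mp hAc ha))).trans
          (PG.centralizer_le_normalizer' _))
          ((zpowers_le.mpr h1).trans (PG.centralizer_le_normalizer' _)) (mem_zpowers a))
      obtain ⟨d, hd, w, hw, rfl⟩ := (PG.mem_sup_of_le_normalizer hXD).mp h2
      have h3 : w = 1 := CopAct.eq_one_of_coprime hcop hw
        (by simpa using mul_mem (inv_mem (hDA hd)) ha)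
      subst h3
      exact ha1 (mem_bot.mp ((CopAct.commutator_inf_centralizer_eq_bot hAc (hn X) hcop).le
        ⟨by simpa using hd, h1⟩))
  · rintro ⟨x, A, p, hp, hAn, hAc, ⟨k, hk⟩, hAp, hc, hz, hf⟩ H hH
    have := Fact.mk hp
    have hXp : IsPGroup p (zpowers x) := IsPGroup.of_card (by rw [Nat.card_zpowers, hk])
    obtain ⟨Q, hQH, hQ, hQi⟩ := HT.exists_sylow_le p H
    obtain ⟨g, -, hg⟩ := HT.exists_conj_le_of_isPGroup (L := ⊤) le_top hQ hXp
      (by rw [relIndex_top_right, hc.symm.index_eq_card]; exact hAp)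
    have hx : x ∈ MulAut.conj g • H := by
      by_contra hx
      have hQZ : Q ≤ center G := fun y hy => by
        obtain ⟨i, hi⟩ := (isOfFinOrder_of_finite x).mem_powers_iff_mem_zpowers.mpr
          (hg (HT.conj_mem_conj_smul g hy))
        simp only at hi
        by_cases hd : p ∣ i
        · obtain ⟨j, rfl⟩ := hd
          have h1 : g * y * g⁻¹ ∈ center G := by rw [← hi, pow_mul]; exact pow_mem hz j
          simpa [mul_assoc] using (inferInstance : (center G).Normal).conj_mem _ h1 g⁻¹
        · refine absurd (zpowers_le.mpr (hi ▸ HT.conj_mem_conj_smul g (hQH hy))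
            (mem_zpowers_pow_iff.mpr ?_)) hx
          rw [hk]
          exact Nat.Coprime.pow_right k ((Nat.Prime.coprime_iff_not_dvd hp).mpr hd).symm
      have h1 : (H ⊓ A) ⊔ Q = H := by
        refine HT.sup_eq_of_coprime_relIndex inf_le_left hQH ?_
        rw [inf_relIndex_left]
        refine Nat.Coprime.coprime_dvd_left (relIndex_dvd_index_of_normal A H) ?_
        rw [hc.index_eq_card, Nat.card_zpowers, hk]
        exact Nat.Coprime.pow_left k ((Nat.Prime.coprime_iff_not_dvd hp).mpr hQi)
      exact hH (h1 ▸ PG.isMulCommutative_sup (PG.isMulCommutative_of_le inf_le_right hAc)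
        (PG.isMulCommutative_of_le hQZ inferInstance) (hQZ.trans (center_le_centralizer _)))
    have h1 := normalizer_eq hc hf hx
    rw [HT.normalizer_conj_smul] at h1
    exact (MulAction.injective _) h1

end Cfsg.Agent.S4071
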