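import Mathlib
import Cfsg.Statements.S4073
import Cfsg.Agent.CIT.SelfNorm
import Cfsg.Agent.S0205
-- import your own Cfsg.Agent.* helpers here

set_option autoImplicit false
open Cfsg

namespace Cfsg.Agent.S4073


/-- Let G be a finite non-abelian simple group. Every non-abelian subgroup of G is self-normalizing if and only if G is isomorphic to PSL₂(2ⁿ) for some n ≥ 2 with 2ⁿ − 1 prime (this includes the alternating group of degree 5 as PSL₂(4)). -/
theorem result {G : Type*} [Group G] [Finite G] [IsSimpleGroup G]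
    (hna : ¬ IsMulCommutative G) :
    (∀ H : Subgroup G, ¬ IsMulCommutative H → Subgroup.normalizer (H : Set G) = H) ↔
    ∃ n : ℕ, 2 ≤ n ∧ (2 ^ n - 1).Prime ∧ Nonempty (G ≃* Matrix.ProjectiveSpecialLinearGroup (Fin 2) (GaloisField 2 n)) := by
  constructor
  · intro h
    have he : Even (Nat.card G) := by
      by_contra ho
      exact CIT.CA.not_isSolvable_of_simple hna (S0205.result (Nat.not_even_iff_odd.1 ho))
    obtain ⟨F, _, _, n, h1, h2, ⟨e⟩⟩ := (CIT.CA.SelfN.iac h hna).exists_equiv_of_simple hna he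
    have := CIT.CA.charP_two_of_card h2
    refine ⟨n, h1, ?_, CIT.CA.nonempty_galoisField h2 e⟩
    rw [← h2, ← Nat.card_eq_fintype_card]
    refine (CIT.CA.SelfN.of_equiv h e.symm).prime_of_psl CharTwo.two_eq_zero ?_
    rw [Nat.card_eq_fintype_card, h2]
    exact Nat.pow_le_pow_right two_pos h1
  · rintro ⟨n, h1, h2, ⟨e⟩⟩
    exact (CIT.CA.selfN_psl CharTwo.two_eq_zero
      (by rwa [GaloisField.card 2 n (by omega)])).of_equiv e

end Cfsg.Agent.S4073
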