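import Mathlib
import Cfsg.Statements.S4074
import Cfsg.Agent.FG.SylowNormal

set_option autoImplicit false
open Cfsg

namespace Cfsg.Agent.S4074

open Cfsg.Agent.FG DihedralGroup

/-- The index two dihedral subgroup for even `n`. -/
def evenSub {n : ℕ} (h : 2 ∣ n) : Subgroup (DihedralGroup n) where
  carrier := {g | match g with
    | r i => ZMod.castHom h (ZMod 2) i = 0
    | sr i => ZMod.castHom h (ZMod 2) i = 0}
  mul_mem' := by
    rintro (i | i) (j | j) (hi : ZMod.castHom h (ZMod 2) i = 0) (hj : ZMod.castHom h (ZMod 2) j = 0)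
    · change ZMod.castHom h (ZMod 2) (i + j) = 0
      rw [map_add, hi, hj, add_zero]
    · change ZMod.castHom h (ZMod 2) (j - i) = 0
      rw [map_sub, hi, hj, sub_zero]
    · change ZMod.castHom h (ZMod 2) (i + j) = 0
      rw [map_add, hi, hj, add_zero]
    · change ZMod.castHom h (ZMod 2) (j - i) = 0
      rw [map_sub, hi, hj, sub_zero]
  one_mem' := map_zero (ZMod.castHom h (ZMod 2))
  inv_mem' := by
    rintro (i | i) (hi : ZMod.castHom h (ZMod 2) i = 0)
    · change ZMod.castHom h (ZMod 2) (-i) = 0
      rw [map_neg, hi, neg_zero]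
    · exact hi

/-- For n > 2, every non-abelian subgroup of the dihedral group of order 2n is self-normalizing if and only if n = 4 or n is odd. -/
theorem result (n : ℕ) (hn : 2 < n) :
    (∀ H : Subgroup (DihedralGroup n), ¬ IsMulCommutative H → Subgroup.normalizer (H : Set (DihedralGroup n)) = H) ↔
    (n = 4 ∨ Odd n) := by
  have : NeZero n := ⟨by omega⟩
  constructor
  · intro h
    by_contra hne
    push Not at hne
    have h2 : 2 ∣ n := even_iff_two_dvd.mp (Nat.not_odd_iff_even.mp hne.2)
    have h22 : ZMod.castHom h2 (ZMod 2) 2 = 0 := by rw [map_ofNat]; rfl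
    have h1 := h (evenSub h2) (fun hc => by
      have h3 := H96.isMulCommutative_iff.mp hc (r 2) h22 (sr 0) (map_zero (ZMod.castHom h2 (ZMod 2)))
      simp only [r_mul_sr, sr_mul_r, sr.injEq] at h3
      have h4 : ((4 : ℕ) : ZMod n) = 0 := by push_cast; linear_combination -h3
      have h5 := Nat.le_of_dvd (by norm_num) ((ZMod.natCast_eq_zero_iff 4 n).mp h4)
      omega)
    have h6 : r 1 ∈ Subgroup.normalizer (evenSub h2 : Set (DihedralGroup n)) := by
      refine Subgroup.mem_normalizer_fintype ?_
      rintro (i | i) (hi : ZMod.castHom h2 (ZMod 2) i = 0)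
      · change ZMod.castHom h2 (ZMod 2) (1 + i + -1) = 0
        rwa [add_neg_cancel_comm]
      · change ZMod.castHom h2 (ZMod 2) (i - 1 + -1) = 0
        rw [show i - 1 + -1 = i - 2 by ring, map_sub, hi, h22, sub_zero]
    rw [h1] at h6
    change ZMod.castHom h2 (ZMod 2) 1 = 0 at h6
    rw [map_one] at h6
    exact one_ne_zero h6
  · rintro (rfl | hodd) H hH
    · have h1 : Nat.card H ∣ 2 ^ 3 := by
        have := H.card_subgroup_dvd_card
        rwa [DihedralGroup.nat_card] at this
      obtain ⟨k, hk, hk'⟩ := (Nat.dvd_prime_pow Nat.prime_two).mp h1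
      have h2 : H = ⊤ := by
        interval_cases k
        · exact absurd (by rw [H.eq_bot_of_card_eq hk']; infer_instance) hH
        · have := isCyclic_of_prime_card (p := 2) hk'
          exact absurd (inferInstance : IsMulCommutative H) hH
        · exact absurd (IsPGroup.isMulCommutative_of_card_eq_prime_sq hk') hH
        · exact H.eq_top_of_card_eq (by rw [hk', DihedralGroup.nat_card]; rfl)
      rw [h2, Subgroup.normalizer_eq_top]
    · obtain ⟨i, hi⟩ : ∃ i, sr i ∈ H := by
        by_contra hne
        push Not at hne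
        refine hH (H96.isMulCommutative_iff.mpr ?_)
        rintro (a | a) ha (b | b) hb
        · simp [add_comm]
        · exact absurd hb (hne b)
        · exact absurd ha (hne a)
        · exact absurd hb (hne b)
      have key : ∀ k, r k ∈ Subgroup.normalizer (H : Set (DihedralGroup n)) → r k ∈ H := by
        intro k hk
        have h1 := H.mul_mem ((Subgroup.mem_normalizer_iff.mp hk _).mp hi) hi
        obtain ⟨m, hm⟩ := hodd
        have h2 := H.pow_mem h1 (m + 1)
        simp only [inv_r, r_mul_sr, sr_mul_r, sr_mul_sr, r_pow] at h2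
        convert h2 using 2
        have h3 : ((2 * m + 1 : ℕ) : ZMod n) = 0 := by rw [← hm, ZMod.natCast_self]
        push_cast at h3 ⊢
        linear_combination (-k) * h3
      refine le_antisymm ?_ Subgroup.le_normalizer
      rintro (k | k) hk
      · exact key k hk
      · have h1 := key _ (Subgroup.mul_mem _ (Subgroup.le_normalizer hi) hk)
        exact (H.mul_mem_cancel_left hi).mp h1

end Cfsg.Agent.S4074
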