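import Mathlib
import Cfsg.Statements.S4075
import Cfsg.Agent.FG.H93Elt

set_option autoImplicit false
open Cfsg

namespace Cfsg.Agent.S4075

open Cfsg.Agent.FG Cfsg.Agent.GT

/-- Let G be a finite nilpotent group. Every non-abelian subgroup of G is self-normalizing if and only if G is abelian or G is a minimal non-abelian p-group for some prime p (non-abelian of prime-power order with every proper subgroup abelian). -/
theorem result {G : Type*} [Group G] [Finite G]
    [Group.IsNilpotent G] :
    (∀ H : Subgroup G, ¬ IsMulCommutative H → Subgroup.normalizer (H : Set G) = H) ↔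
    (IsMulCommutative G ∨ (IsPrimePow (Nat.card G) ∧ ¬ IsMulCommutative G ∧ ∀ H : Subgroup G, H ≠ ⊤ → IsMulCommutative H)) := by
  constructor
  · intro h
    have hp : ∀ H : Subgroup G, H ≠ ⊤ → IsMulCommutative H := fun H hH => by
      by_contra hc
      exact (Group.normalizerCondition_of_isNilpotent H (lt_top_iff_ne_top.mpr hH)).ne' (h H hc)
    by_cases hc : IsMulCommutative G
    · exact Or.inl hc
    refine Or.inr ⟨?_, hc, hp⟩
    by_contra hpp
    refine hc ⟨⟨fun a b => CI.mem_cent.mp (H93.mem_of_forall_primePow fun x _ q hq ⟨k, hk⟩ =>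
      CI.mem_cent_symm.mp (H93.mem_of_forall_primePow fun y _ r hr ⟨l, hl⟩ => ?_))⟩⟩
    by_cases hqr : q = r
    · subst hqr
      have : Fact q.Prime := ⟨hq⟩
      obtain ⟨P⟩ : Nonempty (Sylow q G) := inferInstance
      have hn : (P : Subgroup G).Normal := inferInstance
      have hP : ∀ z : G, (∃ k, orderOf z = q ^ k) → z ∈ (P : Subgroup G) := fun z hz =>
        H93.le_sylow_of_le_normalizer P (CI.isPGroup_zpowers hz)
          Subgroup.le_normalizer_of_normal (Subgroup.mem_zpowers z)
      refine CI.mem_cent.mpr (H96.isMulCommutative_iff.mp (hp P fun ht => ?_) y (hP y ⟨l, hl⟩)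
        x (hP x ⟨k, hk⟩))
      obtain ⟨n, hn⟩ := P.isPGroup'.exists_card_eq
      rw [ht, Subgroup.card_top] at hn
      rcases n with _ | n
      · have := (Nat.card_eq_one_iff_unique.mp hn).1
        exact hc ⟨⟨fun a b => Subsingleton.elim _ _⟩⟩
      · exact hpp (hn ▸ (hq.isPrimePow.pow n.succ_ne_zero))
    · have : Group.IsNilpotent (⊤ : Subgroup G) := inferInstance
      exact CI.mem_cent_commute.mpr (commute_of_coprime_of_isNilpotent (Subgroup.mem_top y)
        (Subgroup.mem_top x) (hk ▸ hl ▸ Nat.Coprime.pow _ _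
          ((Nat.coprime_primes hr hq).mpr (Ne.symm hqr))))
  · rintro (h | ⟨-, -, h⟩) H hH
    · exact absurd (inferInstance : IsMulCommutative H) hH
    · by_cases ht : H = ⊤
      · rw [ht, Subgroup.normalizer_eq_top]
      · exact absurd (h H ht) hH

end Cfsg.Agent.S4075
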