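import Mathlib
import Cfsg.Statements.S4078
import Cfsg.Agent.FG.H93Solv
import Cfsg.Agent.Inv.Basic
import Cfsg.Agent.S0205
import Cfsg.Agent.S0489

set_option autoImplicit false
open Cfsg

namespace Cfsg.Agent.S4078

open Cfsg.Agent.FG Cfsg.Agent.GT Cfsg.Agent.Inv

universe u

theorem solv_pair_inv {G : Type*} [Group G] {s t : G} (hs : s * s = 1) (ht : t * t = 1) :
    Group.IsSolvable (Subgroup.closure ({s, t} : Set G)) := by
  rw [closure_pair_eq_closure_mul, Set.insert_eq, Subgroup.closure_union,
    ← Subgroup.zpowers_eq_closure, ← Subgroup.zpowers_eq_closure, sup_comm]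
  have h1 : Group.IsSolvable (Subgroup.zpowers s) := isSolvable_of_isMulCommutative
  have h2 : Group.IsSolvable (Subgroup.zpowers (s * t)) := isSolvable_of_isMulCommutative
  refine isSolvable_sup_of_le_normalizer (Subgroup.zpowers_le.mpr ?_)
  rw [Subgroup.mem_normalizer_iff]
  intro h
  constructor
  · intro hh
    rw [inverts_of_mem_zpowers (left_inverts_mul hs ht) hh]
    exact Subgroup.inv_mem _ hh
  · intro hh
    have h3 := inverts_of_mem_zpowers (left_inverts_mul hs ht) hh
    have h4 : s * (s * h * s⁻¹) * s⁻¹ = h := by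
      rw [inv_of_mul_self hs]
      calc s * (s * h * s) * s = (s * s) * h * (s * s) := by group
        _ = h := by rw [hs]; group
    rw [← h4, h3]
    exact Subgroup.inv_mem _ hh

theorem aux (G : Type u) [Group G] [Finite G] :
    (∀ x : G, ∃ H : Subgroup G, (H : Set G) =
      {y : G | Group.IsSolvable ↥(Subgroup.closure ({x, y} : Set G))}) → Group.IsSolvable G := by
  refine subgroup_quotient_induction (P := fun G _ _ => (∀ x : G, ∃ H : Subgroup G, (H : Set G) =
      {y : G | Group.IsSolvable ↥(Subgroup.closure ({x, y} : Set G))}) → Group.IsSolvable G) ?_ G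
  intro G _ _ _ ih h
  rcases Nat.even_or_odd (Nat.card G) with he | ho
  swap
  · exact S0205.result ho
  obtain ⟨d, hd⟩ := exists_involution_of_even he
  set K := Subgroup.normalClosure {y : G | y * y = 1} with hK
  have hgen : ∀ x : G, (∀ y : G, y * y = 1 →
      Group.IsSolvable (Subgroup.closure ({x, y} : Set G))) →
      ∀ k ∈ K, Group.IsSolvable (Subgroup.closure ({x, k} : Set G)) := by
    intro x hx k hk
    obtain ⟨H, hH⟩ := h x
    have h1 : K ≤ H := by
      refine (Subgroup.closure_le _).mpr fun y hy => ?_
      obtain ⟨a, ha, hc⟩ := Group.mem_conjugatesOfSet_iff.mp hy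
      obtain ⟨g, rfl⟩ := isConj_iff.mp hc
      rw [hH]
      refine hx _ ?_
      calc g * a * g⁻¹ * (g * a * g⁻¹) = g * (a * a) * g⁻¹ := by group
        _ = 1 := by rw [ha]; group
    have h2 : k ∈ (H : Set G) := h1 hk
    rwa [hH] at h2
  have hKs : Group.IsSolvable K := by
    refine S0489.result fun a b => ?_
    have h1 : Group.IsSolvable (Subgroup.closure ({(a : G), (b : G)} : Set G)) :=
      hgen a (fun y hy => by
        rw [Set.pair_comm]
        exact hgen y (fun z hz => solv_pair_inv hy hz) a a.2) b b.2
    have h2 : (Subgroup.closure ({a, b} : Set K)).map K.subtype =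
        Subgroup.closure ({(a : G), (b : G)} : Set G) := by
      rw [MonoidHom.map_closure, Set.image_pair]; rfl
    rw [← h2] at h1
    exact isSolvable_of_map_of_injective K.subtype_injective
  have hKb : K ≠ ⊥ := fun hb => ne_one_of_two hd (Subgroup.mem_bot.mp
    (hb ▸ Subgroup.subset_normalClosure (mul_self_of_two hd)))
  refine H93.isSolvable_of_normal K hKs (ih K hKb fun x => ?_)
  obtain ⟨x, rfl⟩ := QuotientGroup.mk'_surjective K x
  obtain ⟨H, hH⟩ := h x
  refine ⟨H.map (QuotientGroup.mk' K), Set.ext fun y => ?_⟩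
  have key : ∀ y : G, (Subgroup.closure ({x, y} : Set G)).map (QuotientGroup.mk' K) =
      Subgroup.closure {QuotientGroup.mk' K x, QuotientGroup.mk' K y} := fun y => by
    rw [MonoidHom.map_closure, Set.image_pair]
  constructor
  · rintro ⟨y, hy, rfl⟩
    rw [hH] at hy
    have : Group.IsSolvable (Subgroup.closure ({x, y} : Set G)) := hy
    change Group.IsSolvable _
    rw [← key]
    exact isSolvable_map _ _
  · intro hy
    obtain ⟨y, rfl⟩ := QuotientGroup.mk'_surjective K y
    refine ⟨y, ?_, rfl⟩
    rw [hH]
    have h1 : Group.IsSolvable ((Subgroup.closure ({x, y} : Set G)).map (QuotientGroup.mk' K)) := by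
      rw [key]; exact hy
    have h2 : Group.IsSolvable
        (Subgroup.closure ({x, y} : Set G) ⊓ (QuotientGroup.mk' K).ker : Subgroup G) :=
      isSolvable_of_le (K := K) (by rw [QuotientGroup.ker_mk']; exact inf_le_right)
    exact isSolvable_of_map_of_inf_ker _ (QuotientGroup.mk' K)

/-- For an element x of a finite group G let Sol(x) be the set of y ∈ G such that x and y generate a solvable subgroup. Then G is solvable if and only if Sol(x) is (the carrier of) a subgroup of G for every x ∈ G. -/
theorem result {G : Type*} [Group G] [Finite G] :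
    Group.IsSolvable G ↔ ∀ x : G, ∃ H : Subgroup G, (H : Set G) = {y : G | Group.IsSolvable ↥(Subgroup.closure ({x, y} : Set G))} := by
  exact ⟨fun h x => ⟨⊤, Set.ext fun y => ⟨fun _ => (inferInstance : Group.IsSolvable _),
    fun _ => trivial⟩⟩, aux G⟩

end Cfsg.Agent.S4078
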