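import Mathlib
import Cfsg.Statements.S4080
import Cfsg.Agent.FG.H93Basic

set_option autoImplicit false
open Cfsg

namespace Cfsg.Agent.S4080

theorem ring_aux {S : Type*} [Ring S] {N : S} (h4 : N ^ 4 = 0) (m : ℕ) :
    (1 + N) ^ m = 1 + m • N + m.choose 2 • N ^ 2 + m.choose 3 • N ^ 3 := by
  induction m with
  | zero => simp
  | succ m ih =>
    have h3 : N ^ 3 * N = 0 := by rw [← pow_succ, h4]
    rw [pow_succ, ih, Nat.choose_succ_succ' m 1, Nat.choose_succ_succ' m 2, Nat.choose_one_right]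
    simp only [mul_add, add_mul, mul_one, one_mul, smul_mul_assoc, h3, smul_zero, add_smul, one_smul,
      ← pow_succ, ← pow_two]
    abel

theorem exists_mul_of_cast {p : ℕ} [Fact p.Prime] (x : ZMod (p ^ 2))
    (h : ZMod.castHom (dvd_pow_self p two_ne_zero) (ZMod p) x = 0) : ∃ y, x = p • y := by
  rw [← ZMod.natCast_zmod_val x, map_natCast, ZMod.natCast_eq_zero_iff] at h
  obtain ⟨c, hc⟩ := h
  exact ⟨c, by rw [← ZMod.natCast_zmod_val x, hc, nsmul_eq_mul, Nat.cast_mul]⟩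

theorem exists_mul_of_smul {p : ℕ} [Fact p.Prime] (x : ZMod (p ^ 2)) (h : p • x = 0) :
    ∃ y, x = p • y := by
  rw [← ZMod.natCast_zmod_val x, nsmul_eq_mul, ← Nat.cast_mul, ZMod.natCast_eq_zero_iff] at h
  obtain ⟨c, hc⟩ := (Nat.mul_dvd_mul_iff_left (Fact.out : p.Prime).pos).mp ((pow_two p).symm.dvd.trans h)
  exact ⟨c, by rw [← ZMod.natCast_zmod_val x, hc, nsmul_eq_mul, Nat.cast_mul]⟩

theorem matrix_aux {p : ℕ} [Fact p.Prime] (hp : 3 < p) (M : Matrix (Fin 2) (Fin 2) (ZMod (p ^ 2)))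
    (hM : M ^ p = 1) : p • (M - 1) = 0 := by
  have hpp : p.Prime := Fact.out
  let φ := (ZMod.castHom (dvd_pow_self p two_ne_zero) (ZMod p)).mapMatrix (m := Fin 2)
  have h1 : IsNilpotent (φ (M - 1)) := ⟨p, by
    rw [map_sub, map_one, sub_pow_char_of_commute p (Commute.one_right _), ← map_pow, hM, map_one,
      one_pow, sub_self]⟩
  have h2 := (Matrix.isNilpotent_charpoly_sub_pow_of_isNilpotent h1).eq_zero
  have h3 := Matrix.aeval_self_charpoly (φ (M - 1))
  rw [sub_eq_zero.mp h2, map_pow, Polynomial.aeval_X, Fintype.card_fin, ← map_pow] at h3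
  choose Q hQ using fun i j => exists_mul_of_cast
    (((M - 1) ^ 2 : Matrix (Fin 2) (Fin 2) (ZMod (p ^ 2))) i j) (congrFun (congrFun h3 i) j)
  have h4 : (M - 1) ^ 2 = p • Matrix.of Q := by
    ext i j
    rw [hQ]; rfl
  have h0 : ∀ X : Matrix (Fin 2) (Fin 2) (ZMod (p ^ 2)), p • p • X = 0 := fun X => by
    ext i j
    rw [smul_smul, ← pow_two, Matrix.smul_apply, nsmul_eq_mul, ZMod.natCast_self, zero_mul]
    rfl
  have h5 : (M - 1) ^ 4 = 0 := by
    rw [show 4 = 2 + 2 from rfl, pow_add, h4, smul_mul_assoc, mul_smul_comm, h0]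
  have h6 := ring_aux h5 p
  obtain ⟨c, hc⟩ := hpp.dvd_choose_self two_ne_zero (by omega)
  obtain ⟨d, hd⟩ := hpp.dvd_choose_self three_ne_zero hp
  rw [add_sub_cancel, hM, hc, hd, pow_succ _ 2, h4, smul_mul_assoc, mul_comm p, mul_comm p,
    mul_smul, mul_smul, h0, h0, smul_zero, smul_zero, add_zero, add_zero, left_eq_add] at h6
  exact h6

/-- Let p > 3 be a prime and L the direct product of two cyclic groups of order p². Every automorphism of L of order p fixes every element of order p of L. -/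
theorem result {p : ℕ} [Fact p.Prime] (hp : 3 < p)
    (a : MulAut (Multiplicative (ZMod (p ^ 2) × ZMod (p ^ 2)))) (ha : orderOf a = p)
    (x : Multiplicative (ZMod (p ^ 2) × ZMod (p ^ 2))) (hx : orderOf x = p) : a x = x := by
  let f : MulAut (Multiplicative (ZMod (p ^ 2) × ZMod (p ^ 2))) →*
      Module.End (ZMod (p ^ 2)) (ZMod (p ^ 2) × ZMod (p ^ 2)) :=
    { toFun := fun b => AddMonoidHom.toZModLinearMap (p ^ 2)
        (MonoidHom.toAdditiveRight b.toMonoidHom)
      map_one' := rfl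
      map_mul' := fun _ _ => rfl }
  let e := LinearMap.toMatrixAlgEquiv (Module.Basis.finTwoProd (ZMod (p ^ 2)))
  have h1 := matrix_aux hp (e (f a)) (by
    rw [← map_pow, ← map_pow, orderOf_dvd_iff_pow_eq_one.mp ha.dvd, map_one, map_one])
  rw [← map_one e, ← map_sub, ← map_nsmul, map_eq_zero_iff e e.injective] at h1
  have h2 : p • x.toAdd = 0 := by rw [← toAdd_pow, orderOf_dvd_iff_pow_eq_one.mp hx.dvd, toAdd_one]
  obtain ⟨y, hy⟩ := exists_mul_of_smul x.toAdd.1 (congrArg Prod.fst h2)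
  obtain ⟨z, hz⟩ := exists_mul_of_smul x.toAdd.2 (congrArg Prod.snd h2)
  have h3 : x.toAdd = p • (y, z) := Prod.ext hy hz
  have h4 : (f a - 1) x.toAdd = 0 := by
    rw [h3, map_nsmul, ← LinearMap.smul_apply, h1, LinearMap.zero_apply]
  rw [LinearMap.sub_apply, sub_eq_zero] at h4
  exact h4

end Cfsg.Agent.S4080
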