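import Mathlib
import Cfsg.Statements.S4081
import Cfsg.Agent.FG.H93CycMod
import Cfsg.Agent.FG.H93AutOrb
import Cfsg.Agent.FG.H93Elt
import Cfsg.Agent.FG.H93OrderType
import Cfsg.Agent.GT.FrobeniusComplement
import Cfsg.Agent.Inv.SylowElt
import Cfsg.Agent.Ch.Burnside

set_option autoImplicit false
open Cfsg

namespace Cfsg.Agent.S4081

open Cfsg.Agent.FG Cfsg.Agent.GT

theorem compl {G : Type*} [Group G] [Finite G] {p q n : ℕ} (hp : p.Prime) (hq : q.Prime)
    (hpq : p ≠ q) {P : Subgroup G} (hP : Nat.card P = p ^ n) (hG : Nat.card G = p ^ n * q) {y : G}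
    (hy : orderOf y = q) : P.IsComplement' (Subgroup.zpowers y) :=
  Subgroup.isComplement'_of_coprime (by rw [hP, Nat.card_zpowers, hy, hG])
    (by rw [hP, Nat.card_zpowers, hy]; exact ((Nat.coprime_primes hp hq).mpr hpq).pow_left n)

theorem forward {G : Type*} [Group G] [Finite G] {p q : ℕ} [Fact p.Prime] [Fact q.Prime]
    (hpq : p ≠ q) (hord : ∀ g : G, orderOf g = 1 ∨ orderOf g = p ∨ orderOf g = q)
    (htr : ∀ g h : G, orderOf g = orderOf h → ∃ α : MulAut G, α g = h) (hqG : q ∣ Nat.card G)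
    (hcore : pCore p G ≠ ⊥) : ∃ n, 1 ≤ n ∧ Nat.card G = p ^ n * q ∧
      (∀ P : Sylow p G, (P : Subgroup G).Normal ∧ IsElementaryAbelian p (P : Subgroup G)) ∧
      orderOf (p : ZMod q) = q - 1 ∧
      ∀ x y : G, orderOf x = q → orderOf y = p → x * y * x⁻¹ ≠ y := by
  have hp : p.Prime := Fact.out
  have hq : q.Prime := Fact.out
  have helt : ∀ {r s : ℕ} [Fact r.Prime], s.Prime → r ≠ s → ∀ {R : Subgroup G}, IsPGroup r R →
      ∀ g ∈ R, g ≠ 1 → orderOf g = r ∨ orderOf g = s → orderOf g = r := by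
    intro r s hr hs hrs R hR g hg _ h
    refine h.resolve_right fun h => hrs ?_
    obtain ⟨k, hk⟩ := CI.orderOf_of_mem hR hg
    exact ((Nat.prime_dvd_prime_iff_eq hs hr.out).mp (hs.dvd_of_dvd_pow (h.symm.trans hk).dvd)).symm
  have hord' : ∀ g : G, g ≠ 1 → orderOf g = p ∨ orderOf g = q := fun g hg =>
    (hord g).resolve_left fun h => hg (orderOf_eq_one_iff.mp h)
  have hop : ∀ {R : Subgroup G}, IsPGroup p R → ∀ g ∈ R, g ≠ 1 → orderOf g = p :=
    fun hR g hg h1 => helt hq hpq hR g hg h1 (hord' g h1)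
  obtain ⟨z, hz, hzo, hzc⟩ := Inv.exists_central_of_isPGroup (isPGroup_pCore (G := G) p) hcore
  have hall : ∀ g : G, orderOf g = p →
      g ∈ pCore p G ⊓ Subgroup.centralizer (pCore p G : Set G) := by
    intro g hg
    obtain ⟨α, rfl⟩ := htr z g (hzo.trans hg.symm)
    exact ⟨Subgroup.characteristic_iff_le_comap.mp inferInstance α hz,
      Subgroup.characteristic_iff_le_comap.mp inferInstance α
        (Subgroup.mem_centralizer_iff.mpr fun x hx => hzc x hx)⟩
  have hall' : ∀ {R : Subgroup G}, IsPGroup p R →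
      R ≤ pCore p G ⊓ Subgroup.centralizer (pCore p G : Set G) := fun hR g hg => by
    by_cases h1 : g = 1
    · rw [h1]; exact Subgroup.one_mem _
    · exact hall g (hop hR g hg h1)
  have hel : IsElementaryAbelian p (pCore p G) :=
    ⟨H96.isMulCommutative_iff.mpr fun a ha b hb =>
      Subgroup.mem_centralizer_iff.mp (hall' (isPGroup_pCore p) hb).2 a ha, fun a ha => by
      by_cases h1 : a = 1
      · rw [h1, one_pow]
      · exact orderOf_dvd_iff_pow_eq_one.mp (hop (isPGroup_pCore p) a ha h1).dvd⟩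
  have hS : ∀ P : Sylow p G, (P : Subgroup G) = pCore p G := fun P =>
    le_antisymm ((hall' P.isPGroup').trans inf_le_left) (pCore_le_sylow P)
  have hfpf : ∀ x y : G, orderOf x = q → orderOf y = p → x * y * x⁻¹ ≠ y := by
    intro x y hx hy h
    have h1 := (show Commute x y from mul_inv_eq_iff_eq_mul.mp h).orderOf_mul_eq_mul_orderOf_of_coprime
      (by rw [hx, hy]; exact (Nat.coprime_primes hq hp).mpr hpq.symm)
    rw [hx, hy] at h1
    have := hp.two_le
    have := hq.two_le
    rcases hord (x * y) with h2 | h2 | h2 <;> rw [h1] at h2 <;> nlinarith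
  have hfpf' : ∀ x : G, orderOf x = q → ∀ u ∈ pCore p G, x * u * x⁻¹ = u → u = 1 :=
    fun x hx u hu h => by_contra fun h1 => hfpf x u hx (hop (isPGroup_pCore p) u hu h1) h
  obtain ⟨Q⟩ : Nonempty (Sylow q G) := inferInstance
  have hoq : ∀ g ∈ (Q : Subgroup G), g ≠ 1 → orderOf g = q :=
    fun g hg h1 => helt hp hpq.symm Q.isPGroup' g hg h1 (hord' g h1).symm
  have hA : Frob.HasFpfAction Q := Frob.hasFpfAction_of_fpf hcore
    Subgroup.le_normalizer_of_normal fun a ha h1 => eq_bot_iff.mpr fun u hu =>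
      hfpf' a (hoq a ha h1) u hu.1 (CI.mem_cent'.mp (CI.mem_cent_symm.mp hu.2))
  obtain ⟨x, hx, hxo, hxc⟩ := Inv.exists_central_of_isPGroup Q.isPGroup' (Q.ne_bot_of_dvd_card hqG)
  have hx1 : x ≠ 1 := fun h => hq.one_lt.ne' (by rw [← hxo, h, orderOf_one])
  have hQ : Nat.card Q = q := by
    refine (congrArg (fun H : Subgroup G => Nat.card H)
      (le_antisymm (fun y hy => ?_) (Subgroup.zpowers_le.mpr hx))).trans
      ((Nat.card_zpowers x).trans hxo)
    obtain ⟨k, hk⟩ := hA.mem_zpowers_of_commute (x := ⟨x, hx⟩) (y := ⟨y, hy⟩) hq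
      (fun h => hx1 (congrArg Subtype.val h))
      (Subtype.ext (orderOf_dvd_iff_pow_eq_one.mp hxo.dvd)) (Subtype.ext (by
        by_cases h1 : y = 1
        · simp [h1]
        · exact orderOf_dvd_iff_pow_eq_one.mp (hoq y hy h1).dvd)) (Subtype.ext (hxc y hy).symm)
    exact ⟨k, congrArg Subtype.val hk⟩
  obtain ⟨n, hn⟩ := (isPGroup_pCore (G := G) p).exists_card_eq
  have hcard : Nat.card G = p ^ n * q := by
    obtain ⟨P⟩ : Nonempty (Sylow p G) := inferInstance
    have h1 := P.not_dvd_index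
    rw [hS] at h1
    have h2 := Nat.eq_prime_pow_of_unique_prime_dvd (n := (pCore p G).index) (p := q)
      Subgroup.index_ne_zero_of_finite fun {r} hr hd => by
      have : Fact r.Prime := ⟨hr⟩
      obtain ⟨g, hg⟩ := exists_prime_orderOf_dvd_card' (G := G) r
        (hd.trans (Subgroup.index_dvd_card _))
      rcases hord g with h | h | h
      · exact absurd (hg.symm.trans h) hr.one_lt.ne'
      · exact absurd ((h.symm.trans hg).dvd.trans hd) h1
      · exact hg.symm.trans h
    rw [← (pCore p G).card_mul_index, hn] at hqG ⊢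
    refine congrArg _ (Nat.dvd_antisymm ?_ (((Nat.coprime_primes hq hp).mpr
      hpq.symm).pow_right n |>.dvd_of_dvd_mul_left hqG))
    rw [h2]
    exact (Q.pow_dvd_card_of_pow_dvd_card (h2 ▸ Subgroup.index_dvd_card _)).trans hQ.dvd
  refine ⟨n, Nat.pos_of_ne_zero fun h0 => hcore ?_, hcard, fun P => ?_, ?_, hfpf⟩
  · rwa [h0, pow_zero, ← Subgroup.eq_bot_iff_card] at hn
  · rw [hS]; exact ⟨inferInstance, hel⟩
  have := (Subgroup.nontrivial_iff_ne_bot _).mpr hcore
  refine H93.orderOf_eq_of_mulAut_transitive (P := pCore p G) hel.1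
    (fun a => Subtype.ext (hel.2 a a.2)) hpq (t := MulAut.conjNormal x)
    (by rw [← map_pow, orderOf_dvd_iff_pow_eq_one.mp hxo.dvd, map_one])
    (fun u hu => Subtype.ext (hfpf' x hxo u u.2 (congrArg Subtype.val hu)))
    (fun v w hv hw => ?_) fun k hk hk' => ?_
  · obtain ⟨α, hα⟩ := htr v w ((hop (isPGroup_pCore p) v v.2 fun h => hv (Subtype.ext h)).trans
      (hop (isPGroup_pCore p) w w.2 fun h => hw (Subtype.ext h)).symm)
    obtain ⟨u, hu, y, hy, h⟩ := HT.mem_sup_of_normal.mp
      ((compl hp hq hpq hn hcard hxo).sup_eq_top.ge (Subgroup.mem_top (α x)))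
    obtain ⟨k, rfl⟩ := (isOfFinOrder_of_finite x).mem_powers_iff_mem_zpowers.mpr hy
    refine ⟨MulAut.characteristic _ α, k, Subtype.ext hα, ?_⟩
    rw [H93.characteristic_mul_conjNormal, ← h, map_mul, map_pow,
      show (MulAut.conjNormal u : MulAut (pCore p G)) = 1 from MulEquiv.ext fun a => Subtype.ext
        (mul_inv_eq_iff_eq_mul.mpr (hel.comm hu a.2)), one_mul]
  · obtain ⟨α, hα⟩ := htr x (x ^ k) (Nat.Coprime.orderOf_pow (by
      rw [hxo]; exact (Nat.coprime_of_lt_prime hk.ne' hk' hq))).symm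
    exact ⟨MulAut.characteristic _ α, by rw [H93.characteristic_mul_conjNormal, hα, map_pow]⟩

/-- Let G be a finite group whose order is not a prime power. Then the automorphism group of G has exactly three orbits on G if and only if there are distinct primes p, q with #G = pⁿ·q (n ≥ 1) such that G has a normal elementary abelian Sylow p-subgroup P, p is a primitive root modulo q (the multiplicative order of p mod q is q − 1), and every element of order q of G acts on P without non-identity fixed points. -/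
theorem result {G : Type*} [Group G] [Finite G] (hnpp : ¬ IsPrimePow (Nat.card G)) (hnt : Nat.card G ≠ 1) :
    Nat.card (MulAction.orbitRel.Quotient (MulAut G) G) = 3 ↔
    ∃ (p q n : ℕ) (_ : Fact p.Prime) (_ : Fact q.Prime), p ≠ q ∧ 1 ≤ n ∧ Nat.card G = p ^ n * q ∧
      (∀ P : Sylow p G, (P : Subgroup G).Normal ∧ Cfsg.IsElementaryAbelian p (P : Subgroup G)) ∧
      orderOf (p : ZMod q) = q - 1 ∧
      ∀ x y : G, orderOf x = q → orderOf y = p → x * y * x⁻¹ ≠ y := by
  constructor
  · intro h3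
    obtain ⟨p, hp, hpd⟩ := Nat.exists_prime_and_dvd hnt
    obtain ⟨q, hq, hqd, hqp⟩ : ∃ q, q.Prime ∧ q ∣ Nat.card G ∧ q ≠ p := by
      by_contra hne
      push Not at hne
      exact hnpp (isPrimePow_iff_unique_prime_dvd.mpr ⟨p, ⟨hp, hpd⟩, fun q h => hne q h.1 h.2⟩)
    have hp' : Fact p.Prime := ⟨hp⟩
    have hq' : Fact q.Prime := ⟨hq⟩
    obtain ⟨h1, htr⟩ := H93.orbit_spec (G := G) (s := {1, p, q}) (by
      simp only [Finset.mem_insert, Finset.mem_singleton]
      rintro m (rfl | rfl | rfl)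
      exacts [⟨1, orderOf_one⟩, exists_prime_orderOf_dvd_card' _ hpd,
        exists_prime_orderOf_dvd_card' _ hqd]) (by
      rw [h3, Finset.card_eq_three.mpr ⟨1, p, q, hp.one_lt.ne, hq.one_lt.ne, hqp.symm, rfl⟩])
    simp only [Finset.mem_insert, Finset.mem_singleton] at h1
    have h2 : ∀ r : ℕ, r.Prime → r ∣ Nat.card G → r = p ∨ r = q := fun r hr hd => by
      have : Fact r.Prime := ⟨hr⟩
      obtain ⟨g, hg⟩ := exists_prime_orderOf_dvd_card' (G := G) r hd
      exact hg ▸ (h1 g).resolve_left (hg ▸ hr.one_lt.ne')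
    have := Ch.burnside_isSolvable_of_primes hq h2
    have : Nontrivial G := Finite.one_lt_card_iff_nontrivial.mp
      (hp.one_lt.trans_le (Nat.le_of_dvd Nat.card_pos hpd))
    have h4 := fitting_ne_bot (G := G)
    rw [Ne, fitting_eq_bot_iff] at h4
    push Not at h4
    obtain ⟨r, hr, h4⟩ := h4
    rcases h2 r hr (by_contra fun h => h4 (pCore_eq_bot_of_not_dvd hr h)) with rfl | rfl
    · obtain ⟨n, h⟩ := forward hqp.symm h1 htr hqd h4
      exact ⟨r, q, n, hp', hq', hqp.symm, h⟩
    · obtain ⟨n, h⟩ := forward hqp (fun g => (h1 g).imp_right Or.symm) htr hpd h4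
      exact ⟨r, p, n, hq', hp', hqp, h⟩
  · rintro ⟨p, q, n, hp', hq', hpq, hn, hcard, hP, ho, hfpf⟩
    have hp := hp'.out
    have hq := hq'.out
    obtain ⟨P⟩ : Nonempty (Sylow p G) := inferInstance
    obtain ⟨hPn, hel⟩ := hP P
    have hPc : Nat.card P = p ^ n := by
      rw [P.card_eq_multiplicity, hcard, Nat.factorization_mul (pow_ne_zero _ hp.ne_zero) hq.ne_zero]
      simp [hp.factorization_pow, hq.factorization, hpq]
    have hfpf' : ∀ x : G, orderOf x = q → ∀ u ∈ (P : Subgroup G), x * u * x⁻¹ = u → u = 1 :=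
      fun x hx u hu h => by_contra fun h1 => hfpf x u hx (hel.orderOf_eq hu h1) h
    obtain ⟨x, hx⟩ := exists_prime_orderOf_dvd_card' (G := G) q (hcard ▸ Dvd.intro_left _ rfl)
    have hout : ∀ g : G, g ∉ (P : Subgroup G) → orderOf g = q := by
      intro g hg
      obtain ⟨u, hu, y, hy, rfl⟩ := HT.mem_sup_of_normal.mp
        ((compl hp hq hpq hPc hcard hx).sup_eq_top.ge (Subgroup.mem_top g))
      have hyo : orderOf y = q := orderOf_eq_prime
        (orderOf_dvd_iff_pow_eq_one.mp (hx ▸ orderOf_dvd_of_mem_zpowers hy))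
        fun h => hg (by rwa [h, mul_one])
      obtain ⟨k, -, hk⟩ := Frob.exists_conj_eq_mul_of_fpf (K := P) (a := y)
        (Subgroup.le_normalizer_of_normal (Subgroup.mem_top y)) (eq_bot_iff.mpr fun u hu =>
          hfpf' y hyo u hu.1 (CI.mem_cent'.mp (CI.mem_cent_symm.mp hu.2))) hu
      rw [← hk, H93.orderOf_conj', hyo]
    have key : ∀ y y' : G, orderOf y = q → orderOf y' = q → ∀ v v' : (P : Subgroup G), v ≠ 1 →
        v' ≠ 1 → ∃ α : MulAut G, α y = y' ∧ α v = v' := by
      intro y y' hy hy' v v' hv hv'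
      obtain ⟨s, h1, h2⟩ := H93.exists_mulAut_intertwine (P := (P : Subgroup G)) hel.1
        (fun a => Subtype.ext (hel.2 a a.2)) hpq ho (t := MulAut.conjNormal y)
        (t' := MulAut.conjNormal y')
        (by rw [← map_pow, orderOf_dvd_iff_pow_eq_one.mp hy.dvd, map_one])
        (by rw [← map_pow, orderOf_dvd_iff_pow_eq_one.mp hy'.dvd, map_one])
        (fun u hu => Subtype.ext (hfpf' y hy u u.2 (congrArg Subtype.val hu)))
        (fun u hu => Subtype.ext (hfpf' y' hy' u u.2 (congrArg Subtype.val hu))) hv hv'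
      obtain ⟨α, h3, h4⟩ := H93.exists_mulAut_extend (compl hp hq hpq hPc hcard hy)
        (compl hp hq hpq hPc hcard hy') (hy.trans hy'.symm) h2
      exact ⟨α, h3, by rw [h4, h1]⟩
    have hpG : p ∣ Nat.card G := hcard ▸ (dvd_pow_self p (by omega)).mul_right q
    obtain ⟨v, hv⟩ := Subgroup.ne_bot_iff_exists_ne_one.mp (P.ne_bot_of_dvd_card hpG)
    have hord : ∀ g : G, g = 1 ∨ (g ≠ 1 ∧ g ∈ (P : Subgroup G) ∧ orderOf g = p) ∨ orderOf g = q := by
      intro g
      by_cases h1 : g = 1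
      · exact Or.inl h1
      by_cases h2 : g ∈ (P : Subgroup G)
      · exact Or.inr (Or.inl ⟨h1, h2, hel.orderOf_eq h2 h1⟩)
      · exact Or.inr (Or.inr (hout g h2))
    rw [H93.card_orbits_eq]
    · refine Set.ncard_eq_three.mpr ⟨1, p, q, hp.one_lt.ne, hq.one_lt.ne, hpq, ?_⟩
      ext m
      simp only [Set.mem_range, Set.mem_insert_iff, Set.mem_singleton_iff]
      constructor
      · rintro ⟨g, rfl⟩
        exact (hord g).imp orderOf_eq_one_iff.mpr (Or.imp_left fun h => h.2.2)
      · rintro (rfl | rfl | rfl)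
        exacts [⟨1, orderOf_one⟩, exists_prime_orderOf_dvd_card' _ hpG, ⟨x, hx⟩]
    · intro g h hgh
      rcases hord g with rfl | ⟨h1, h2, h3⟩ | h1
      · exact ⟨1, (orderOf_eq_one_iff.mp (hgh.symm.trans orderOf_one)).symm⟩
      · rcases hord h with rfl | ⟨h4, h5, -⟩ | h4
        · exact absurd (orderOf_eq_one_iff.mp (hgh.trans orderOf_one)) h1
        · obtain ⟨α, -, h6⟩ := key x x hx hx ⟨g, h2⟩ ⟨h, h5⟩ (fun h => h1 (congrArg Subtype.val h))
            (fun h => h4 (congrArg Subtype.val h))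
          exact ⟨α, h6⟩
        · exact absurd (h3.symm.trans (hgh.trans h4)) hpq
      · obtain ⟨α, h6, -⟩ := key g h h1 (hgh.symm.trans h1) v v hv hv
        exact ⟨α, h6⟩

end Cfsg.Agent.S4081
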