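import Mathlib
import Cfsg.Statements.S4082
import Cfsg.Agent.FG.H93PBy

set_option autoImplicit false
open Cfsg

namespace Cfsg.Agent.S4082

open Cfsg.Agent.FG Cfsg.Agent.GT Subgroup
open scoped commutatorElement Pointwise

theorem dihedral_comm {n : ℕ} {x y : DihedralGroup n} (hx : x * x ≠ 1) (hy : y * y ≠ 1) :
    x * y = y * x := by
  rcases x with i | i
  · rcases y with j | j
    · simp [add_comm]
    · exact absurd (by simp) hy
  · exact absurd (by simp) hx

theorem conj_mem_centralizer_iff {G : Type*} [Group G] (Q : Subgroup G) (g c : G) :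
    g * c * g⁻¹ ∈ centralizer ((MulAut.conj g • Q : Subgroup G) : Set G) ↔
      c ∈ centralizer (Q : Set G) := by
  refine ⟨fun h y hy => ?_, fun h y hy => ?_⟩
  · have := h _ (HT.conj_mem_conj_smul g hy)
    rw [conj_mul, conj_mul] at this
    exact (MulAut.conj g).injective this
  · have := h _ (HT.mem_conj_smul.mp hy)
    calc _ = g * (g⁻¹ * y * g * c) * g⁻¹ := by group
      _ = _ := by rw [this]; group

/-- Let p be an odd prime and G a finite group with Sylow p-subgroup P. Say that G has restricted p-by-cyclic subgroups when every subgroup H of G whose Sylow p-subgroup is normal in H with cyclic quotient is itself cyclic or dihedral of order 2pⁿ for some n. Then G has restricted p-by-cyclic subgroups if and only if P is cyclic and one of the following holds: (1) N_G(P) = C_G(P); or (2) N_G(P)/C_G(P) has order 2 and, for the subgroup Q of order p of P, the centralizer C_G(Q) is abelian and every element of N_G(Q) outside C_G(Q) is an involution inverting every element of C_G(Q).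 -/
theorem result {G : Type*} [Group G] [Finite G] {p : ℕ}
    [Fact p.Prime] (hp : p ≠ 2) (P : Sylow p G) :
    (∀ H : Subgroup G, (∀ S : Sylow p ↥H, (S : Subgroup ↥H).Normal) →
        (∀ (S : Sylow p ↥H) [(S : Subgroup ↥H).Normal], IsCyclic (↥H ⧸ (S : Subgroup ↥H))) →
        IsCyclic H ∨ (∃ n : ℕ, Nonempty (H ≃* DihedralGroup (p ^ n)))) ↔
    (IsCyclic P ∧
      (Subgroup.normalizer ((P : Subgroup G) : Set G) = Subgroup.centralizer ((P : Subgroup G) : Set G) ∨
       ((Subgroup.centralizer ((P : Subgroup G) : Set G)).relIndex (Subgroup.normalizer ((P : Subgroup G) : Set G)) = 2 ∧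
        ∀ Q : Subgroup G, Q ≤ P → Nat.card Q = p →
          IsMulCommutative ↥(Subgroup.centralizer (Q : Set G)) ∧
          ∀ x : G, x ∈ Subgroup.normalizer (Q : Set G) → x ∉ Subgroup.centralizer (Q : Set G) →
            orderOf x = 2 ∧ ∀ c : G, c ∈ Subgroup.centralizer (Q : Set G) → x * c * x⁻¹ = c⁻¹))) := by
  have hp' : p.Prime := Fact.out
  have hp2 : ¬ p ∣ 2 := fun h => hp ((Nat.prime_dvd_prime_iff_eq hp' Nat.prime_two).mp h)
  have hQp : ∀ Q : Subgroup G, Nat.card Q = p → IsPGroup p Q := fun Q hQ =>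
    IsPGroup.of_card (n := 1) (by rw [hQ, pow_one])
  have hQC : ∀ Q : Subgroup G, Nat.card Q = p → Q ≤ centralizer (Q : Set G) := fun Q hQ => by
    have := isCyclic_of_prime_card hQ
    exact PG.isMulCommutative_iff_le_centralizer.mp inferInstance
  refine ⟨fun h => ?_, fun ⟨hP, h⟩ H h1 h2 => ?_⟩
  · have hP : IsCyclic P := by
      have h1 := H93.pby_sup P.isPGroup' (x := 1) (one_mem _)
      rw [zpowers_one_eq_bot, sup_bot_eq] at h1
      refine (h P h1.1 h1.2).resolve_right fun ⟨n, ⟨e⟩⟩ => hp ?_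
      refine (isPGroup_iff_isPiNum hp').mp P.isPGroup' 2 Nat.prime_two ?_ |>.symm
      rw [Nat.card_congr e.toEquiv, DihedralGroup.nat_card]
      exact dvd_mul_right _ _
    have key : ∀ Q : Subgroup G, Nat.card Q = p → ∀ x ∈ normalizer (Q : Set G),
        x ∉ centralizer (Q : Set G) → x * x = 1 := fun Q hQ x hx hx' => by
      have h1 := H93.pby_sup (hQp Q hQ) hx
      have hxH : x ∈ Q ⊔ zpowers x := mem_sup_right (mem_zpowers x)
      by_contra h2
      refine hx' fun y hy => ?_
      have hyH : y ∈ Q ⊔ zpowers x := mem_sup_left hy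
      rcases h _ h1.1 h1.2 with h3 | ⟨n, ⟨e⟩⟩
      · exact PG.isMulCommutative_iff_forall.mp inferInstance y hyH x hxH
      by_cases hy1 : y = 1
      · simp [hy1]
      have h3 := dihedral_comm (x := e ⟨y, hyH⟩) (y := e ⟨x, hxH⟩) (fun h3 => hy1 (by
        rw [← map_mul, map_eq_one_iff _ e.injective, ← pow_two] at h3
        have h4 : orderOf y ∣ 2 := orderOf_dvd_of_pow_eq_one (congrArg Subtype.val h3)
        have h5 : orderOf y ∣ p := hQ ▸ orderOf_dvd_natCard _ hy
        exact orderOf_eq_one_iff.mp (Nat.eq_one_of_dvd_coprimes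
          ((Nat.Prime.coprime_iff_not_dvd hp').mpr hp2) h5 h4))) (fun h3 => h2 (by
        rw [← map_mul, map_eq_one_iff _ e.injective] at h3
        exact congrArg Subtype.val h3))
      rw [← map_mul, ← map_mul] at h3
      exact congrArg Subtype.val (e.injective h3)
    have key2 : ∀ Q : Subgroup G, Nat.card Q = p → ∀ x ∈ normalizer (Q : Set G),
        x ∉ centralizer (Q : Set G) → ∀ c ∈ centralizer (Q : Set G), x * c * x⁻¹ = c⁻¹ :=
      fun Q hQ x hx hx' c hc => by
        have h1 := key Q hQ (x * c) (mul_mem hx (PG.centralizer_le_normalizer' _ hc))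
          fun h1 => hx' ((Subgroup.mul_mem_cancel_right _ hc).mp h1)
        rw [inv_eq_of_mul_eq_one_right (key Q hQ x hx hx')]
        exact eq_inv_of_mul_eq_one_left (by rw [← h1]; group)
    refine ⟨hP, or_iff_not_imp_left.mpr fun hne => ?_⟩
    obtain ⟨a, ha, ha'⟩ := SetLike.exists_of_lt
      (lt_of_le_of_ne (PG.centralizer_le_normalizer' (P : Subgroup G)) (Ne.symm hne))
    have hC : ∀ Q : Subgroup G, Q ≤ P → Nat.card Q = p → ∀ y ∈ normalizer ((P : Subgroup G) : Set G),
        y ∈ centralizer (Q : Set G) → y ∈ centralizer ((P : Subgroup G) : Set G) :=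
      fun Q hQP hQ y hy hy' => by
        obtain ⟨x, hx, hxp⟩ := exists_mem_orderOf_eq_prime hp' hQ.symm.dvd
        refine H93.mem_of_forall_primePow fun z hz q hq ⟨k, hk⟩ => ?_
        have hzN := zpowers_le.mpr hy hz
        by_cases hqp : q = p
        · subst hqp
          exact PG.isMulCommutative_iff_le_centralizer.mp inferInstance
            (H93.le_sylow_of_le_normalizer P (IsPGroup.of_card (by rw [Nat.card_zpowers, hk]))
              (zpowers_le.mpr hzN) (mem_zpowers z))
        · exact H93.mem_centralizer_of_cyclic P.isPGroup' (hQP hx)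
            (fun h0 => hp'.one_lt.ne (by rw [← hxp, h0, orderOf_one])) hzN
            (fun h1 => hqp ((Nat.prime_dvd_prime_iff_eq hp' hq).mp
              (hp'.dvd_of_dvd_pow (hk ▸ h1))).symm) (zpowers_le.mpr hy' hz x hx).symm
    refine ⟨?_, fun Q hQP hQ => ⟨?_, fun x hx hx' => ⟨orderOf_eq_prime (by
      rw [pow_two, key Q hQ x hx hx']) (fun h0 => hx' (h0 ▸ one_mem _)), key2 Q hQ x hx hx'⟩⟩⟩
    · have hP0 : (P : Subgroup G) ≠ ⊥ := fun h0 => ha' fun y hy => by
        rw [h0, SetLike.mem_coe, mem_bot] at hy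
        simp [hy]
      obtain ⟨x, hx, hxp⟩ := exists_mem_orderOf_eq_prime (H := (P : Subgroup G)) hp'
        (P.isPGroup'.card_eq_or_dvd.resolve_left fun h0 => hP0 (card_eq_one.mp h0))
      have hQ : Nat.card (zpowers x) = p := by rw [Nat.card_zpowers, hxp]
      have hQP := zpowers_le.mpr hx
      have hN := H93.normalizer_le_normalizer_of_isCyclic hQP
      refine relIndex_eq_two_iff.mpr ⟨a, ha, fun b hb => ?_⟩
      by_cases hb' : b ∈ centralizer ((P : Subgroup G) : Set G)
      · exact Or.inr ⟨hb', fun h1 => ha' ((Subgroup.mul_mem_cancel_left _ hb').mp h1)⟩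
      refine Or.inl ⟨hC _ hQP hQ _ (mul_mem hb ha) fun y hy => ?_, hb'⟩
      have h1 := key2 _ hQ a (hN ha) (fun h1 => ha' (hC _ hQP hQ a ha h1)) y (hQC _ hQ hy)
      have h2 := key2 _ hQ b (hN hb) (fun h1 => hb' (hC _ hQP hQ b hb h1)) _
        (inv_mem (hQC _ hQ hy))
      refine (mul_inv_eq_iff_eq_mul.mp ?_).symm
      calc _ = b * (a * y * a⁻¹) * b⁻¹ := by group
        _ = y := by rw [h1, h2, inv_inv]
    · have h1 := key2 Q hQ a (H93.normalizer_le_normalizer_of_isCyclic hQP ha)
        fun h1 => ha' (hC _ hQP hQ a ha h1)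
      refine PG.isMulCommutative_iff_forall.mpr fun c hc d hd => ?_
      have h2 := h1 _ (mul_mem hc hd)
      rw [← conj_mul, h1 c hc, h1 d hd, ← mul_inv_rev, inv_inj] at h2
      exact h2.symm
  obtain ⟨S⟩ : Nonempty (Sylow p H) := inferInstance
  have := h1 S
  have hc := h2 S
  have hS := H93.isCyclic_sylow_subgroup P S
  rcases h with h | ⟨-, h⟩
  · exact Or.inl (H93.isCyclic_of_npc
      ((Tr.hasNormalPComplement_of_normalizer_le_centralizer P h.le).subgroup H) S)
  by_cases hS0 : (S : Subgroup H) ≤ center H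
  · exact Or.inl (H93.isCyclic_of_sylow_le_center S hS0)
  obtain ⟨x, hx, hxp⟩ := exists_mem_orderOf_eq_prime (H := (S : Subgroup H)) hp'
    (S.isPGroup'.card_eq_or_dvd.resolve_left fun h0 => hS0 (by rw [card_eq_one.mp h0]; exact bot_le))
  set Q := zpowers (x : G) with hQd
  have hQ : Nat.card Q = p := by rw [Nat.card_zpowers, orderOf_coe, hxp]
  have hHN : ∀ y : H, (y : G) ∈ normalizer (Q : Set G) := fun y => by
    have h3 := H93.normalizer_le_normalizer_of_isCyclic (zpowers_le.mpr hx)
      (show y ∈ _ by rw [normalizer_eq_top]; exact mem_top y)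
    have h4 := le_normalizer_map H.subtype ⟨y, h3, rfl⟩
    rwa [MonoidHom.map_zpowers] at h4
  obtain ⟨g, -, hg⟩ := HT.exists_conj_le_of_isPGroup (L := ⊤) le_top (hQp Q hQ) P.isPGroup'
    (by rw [relIndex_top_right]; exact P.not_dvd_index)
  obtain ⟨h3, h4⟩ := h _ hg (by rw [HT.card_conj_smul, hQ])
  have h5 : ∀ c ∈ centralizer (Q : Set G), ∀ d ∈ centralizer (Q : Set G), c * d = d * c :=
    fun c hc d hd => by
      have := PG.isMulCommutative_iff_forall.mp h3 _ ((conj_mem_centralizer_iff Q g c).mpr hc) _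
        ((conj_mem_centralizer_iff Q g d).mpr hd)
      rw [conj_mul, conj_mul] at this
      exact (MulAut.conj g).injective this
  have hSC : ∀ s ∈ (S : Subgroup H), (s : G) ∈ centralizer (Q : Set G) := fun s hs => by
    rw [hQd, H93.centralizer_zpowers, mem_centralizer_singleton_iff]
    exact congrArg Subtype.val (PG.isMulCommutative_iff_forall.mp inferInstance s hs x hx)
  obtain ⟨y, hy⟩ := isCyclic_iff_exists_zpowers_eq_top.mp hc
  obtain ⟨y, rfl⟩ := QuotientGroup.mk_surjective y
  have hyC : (y : G) ∉ centralizer (Q : Set G) := fun hyC => hS0 fun s hs => mem_center_iff.mpr fun z => by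
    obtain ⟨i, hi⟩ : (z : H ⧸ (S : Subgroup H)) ∈ zpowers (y : H ⧸ (S : Subgroup H)) := hy ▸ mem_top _
    have h6 : (y ^ i)⁻¹ * z ∈ (S : Subgroup H) := QuotientGroup.eq.mp (by simpa using hi)
    refine Subtype.ext (h5 _ ?_ _ (hSC s hs))
    simpa using mul_mem (zpow_mem hyC i) (hSC _ h6)
  obtain ⟨h6, h7⟩ := h4 (g * y * g⁻¹) (by
    rw [HT.normalizer_conj_smul]; exact HT.conj_mem_conj_smul g (hHN y))
    fun h6 => hyC ((conj_mem_centralizer_iff Q g y).mp h6)
  have hy2 : y ^ 2 = 1 := Subtype.ext (by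
    have := orderOf_dvd_iff_pow_eq_one.mp h6.dvd
    rw [conj_pow] at this
    simpa using this)
  obtain ⟨a, ha⟩ := (Subgroup.isCyclic_iff_exists_zpowers_eq_top (S : Subgroup H)).mp hS
  obtain ⟨n, hn⟩ := IsPGroup.iff_card.mp S.isPGroup'
  have hyS : y ∉ (S : Subgroup H) := fun h8 => hyC (hSC y h8)
  obtain ⟨e, -⟩ := PG.exists_mulEquiv_dihedral (a := a) (b := y) (n := p ^ n)
    (by rw [← Nat.card_zpowers, ha, hn]) (by
      rw [ha, index, ← card_top, ← hy, Nat.card_zpowers]
      exact orderOf_eq_prime (by rw [← QuotientGroup.mk_pow, hy2]; rfl)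
        fun h8 => hyS ((QuotientGroup.eq_one_iff y).mp h8)) (ha ▸ hyS) (Subtype.ext (by
      have h8 := h7 _ ((conj_mem_centralizer_iff Q g a).mpr (hSC a (ha ▸ mem_zpowers a)))
      apply (MulAut.conj g).injective
      simp only [MulAut.conj_apply, coe_mul, coe_inv]
      calc _ = g * y * g⁻¹ * (g * a * g⁻¹) * (g * y * g⁻¹)⁻¹ := by group
        _ = _ := by rw [h8]; group)) hy2
  exact Or.inr ⟨n, ⟨e⟩⟩

end Cfsg.Agent.S4082
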