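import Mathlib
import Cfsg.Statements.S4086
import Cfsg.Agent.FG.H93Cyc

set_option autoImplicit false
open Cfsg

namespace Cfsg.Agent.S4086

open Cfsg.Agent.FG

/-- For a finite group G the following are equivalent: every non-identity element has prime-power order; whenever two elements generate a cyclic subgroup, one of them is a power of the other (the enhanced power graph of G coincides with its power graph). -/
theorem result {G : Type*} [Group G] [Finite G] :
    (∀ g : G, g ≠ 1 → IsPrimePow (orderOf g)) ↔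
    (∀ x y : G, IsCyclic ↥(Subgroup.closure ({x, y} : Set G)) → (x ∈ Subgroup.zpowers y ∨ y ∈ Subgroup.zpowers x)) := by
  constructor
  · intro h x y hc
    obtain ⟨g, hg⟩ := H93.exists_zpowers_eq (Subgroup.closure ({x, y} : Set G))
    have hx : x ∈ Subgroup.closure ({x, y} : Set G) := Subgroup.subset_closure (by simp)
    have hy : y ∈ Subgroup.closure ({x, y} : Set G) := Subgroup.subset_closure (by simp)
    have hx' : orderOf x ∣ orderOf g := orderOf_dvd_of_mem_zpowers (hg ▸ hx)
    have hy' : orderOf y ∣ orderOf g := orderOf_dvd_of_mem_zpowers (hg ▸ hy)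
    have key : orderOf x ∣ orderOf y ∨ orderOf y ∣ orderOf x := by
      by_cases hg1 : g = 1
      · rw [hg1, orderOf_one, Nat.dvd_one] at hx'
        exact Or.inl (hx' ▸ one_dvd _)
      obtain ⟨p, k, hp, -, hk⟩ := (isPrimePow_nat_iff _).mp (h g hg1)
      rw [← hk] at hx' hy'
      obtain ⟨a, -, ha⟩ := (Nat.dvd_prime_pow hp).mp hx'
      obtain ⟨b, -, hb⟩ := (Nat.dvd_prime_pow hp).mp hy'
      rw [ha, hb]
      exact (le_total a b).imp (pow_dvd_pow p) (pow_dvd_pow p)
    exact key.imp (H93.mem_zpowers_of_orderOf_dvd_of_mem hx hy)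
      (H93.mem_zpowers_of_orderOf_dvd_of_mem hy hx)
  · intro h g hg
    have hpos := orderOf_pos g
    obtain ⟨p, hp, hpd⟩ := Nat.exists_prime_and_dvd (fun h1 => hg (orderOf_eq_one_iff.mp h1))
    refine isPrimePow_iff_unique_prime_dvd.mpr ⟨p, ⟨hp, hpd⟩, fun q ⟨hq, hqd⟩ => ?_⟩
    have h1 : orderOf (g ^ (orderOf g / p)) = p := orderOf_pow_orderOf_div hpos.ne' hpd
    have h2 : orderOf (g ^ (orderOf g / q)) = q := orderOf_pow_orderOf_div hpos.ne' hqd
    have h3 : Subgroup.closure ({g ^ (orderOf g / p), g ^ (orderOf g / q)} : Set G) ≤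
        Subgroup.zpowers g := by
      rw [Subgroup.closure_le]
      rintro _ (rfl | rfl) <;> exact Subgroup.pow_mem _ (Subgroup.mem_zpowers g) _
    rcases h _ _ (Subgroup.isCyclic_of_le h3) with h4 | h4
    · have := orderOf_dvd_of_mem_zpowers h4
      rw [h1, h2] at this
      exact ((Nat.prime_dvd_prime_iff_eq hp hq).mp this).symm
    · have := orderOf_dvd_of_mem_zpowers h4
      rw [h1, h2] at this
      exact (Nat.prime_dvd_prime_iff_eq hq hp).mp this

end Cfsg.Agent.S4086
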