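import Mathlib
import Cfsg.Statements.S4088
import Cfsg.Agent.FG.H94Subnorm
-- import your own Cfsg.Agent.* helpers here

set_option autoImplicit false
open Cfsg

namespace Cfsg.Agent.S4088

open Cfsg.Agent.FG.SubN Cfsg.Agent.FG.Eul
open scoped Pointwise


/-- Let G be a finite group, p a prime dividing the order of G, H a p-subgroup of G and P a Sylow p-subgroup of G. Call the subnormalizer of H the set of elements g of G such that H is subnormal in the subgroup generated by H and g. Then the number of elements of the subnormalizer of H equals the number of Sylow p-subgroups of G containing H times the order of N_G(P), and also equals the number of conjugates of H contained in P times the order of N_G(H). -/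
theorem result {G : Type*} [Group G] [Finite G] (p : ℕ) [Fact p.Prime]
    (hp : p ∣ Nat.card G) (H : Subgroup G) (hH : IsPGroup p H) (P : Sylow p G) :
    Nat.card {g : G // ((H).subgroupOf (H ⊔ Subgroup.zpowers g)).IsSubnormal} =
        Nat.card {Q : Sylow p G // H ≤ (Q : Subgroup G)} * Nat.card (Subgroup.normalizer ((P : Subgroup G) : Set G)) ∧
    Nat.card {g : G // ((H).subgroupOf (H ⊔ Subgroup.zpowers g)).IsSubnormal} =
        Nat.card {K : Subgroup G // K ≤ (P : Subgroup G) ∧ ∃ g : G, K = H.map (MulAut.conj g).toMonoidHom} *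
          Nat.card (Subgroup.normalizer (H : Set G)) := by
  have h1 : Nat.card {g : G // ((H).subgroupOf (H ⊔ Subgroup.zpowers g)).IsSubnormal} =
      Nat.card {Q : Sylow p G // H ≤ (Q : Subgroup G)} *
        Nat.card (Subgroup.normalizer ((P : Subgroup G) : Set G)) := by
    rw [← card_subnormalizer H P]
    exact Nat.card_congr (Equiv.subtypeEquivRight fun g => isSubnormal_iff hH g)
  refine ⟨h1, ?_⟩
  rw [h1, ← card_conj_le_sylow]
  let := MulAction.compHom (Subgroup G) (MulAut.conj (G := G))
  have h2 := card_smul_pred (G := G) H fun K : Subgroup G => K ≤ P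
  have h3 : MulAction.stabilizer G H = Subgroup.normalizer (H : Set G) := by
    ext g
    exact GT.Tr.map_conj_eq_iff
  rw [h3] at h2
  refine h2.trans ?_
  congr 1
  exact Nat.card_congr (Equiv.subtypeEquivRight fun K =>
    ⟨fun ⟨⟨g, hg⟩, h⟩ => ⟨h, g, hg.symm⟩, fun ⟨h, g, hg⟩ => ⟨⟨g, hg.symm⟩, h⟩⟩)

end Cfsg.Agent.S4088
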