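import Mathlib
import Cfsg.Statements.S4089
import Cfsg.Agent.FG.H94Subnorm
-- import your own Cfsg.Agent.* helpers here

set_option autoImplicit false
open Cfsg

namespace Cfsg.Agent.S4089

open Cfsg.Agent.FG.SubN Cfsg.Agent.FG.Eul
open scoped Pointwise


/-- Let G be a finite group, p a prime and H a p-subgroup of G. Then the set of elements g of G such that H is subnormal in the subgroup generated by H and g is the union of the normalizers N_G(R) over the subgroups R of G containing H with R = O_p(N_G(R)); and this set does not change when H is replaced by the intersection of all Sylow p-subgroups of G containing H. -/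
theorem result {G : Type*} [Group G] [Finite G] (p : ℕ) [Fact p.Prime]
    (H : Subgroup G) (hH : IsPGroup p H) :
    {g : G | ((H).subgroupOf (H ⊔ Subgroup.zpowers g)).IsSubnormal} =
      {g : G | ∃ R : Subgroup G, H ≤ R ∧ (Cfsg.pCore p (Subgroup.normalizer (R : Set G))).map (Subgroup.normalizer (R : Set G)).subtype = R ∧ g ∈ Subgroup.normalizer (R : Set G)} ∧
    ∀ g : G, (((H).subgroupOf (H ⊔ Subgroup.zpowers g)).IsSubnormal ↔
      (((sInf {K : Subgroup G | ∃ Q : Sylow p G, H ≤ (Q : Subgroup G) ∧ K = (Q : Subgroup G)})).subgroupOf ((sInf {K : Subgroup G | ∃ Q : Sylow p G, H ≤ (Q : Subgroup G) ∧ K = (Q : Subgroup G)}) ⊔ Subgroup.zpowers g)).IsSubnormal) := by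
  have key : ∀ K : Subgroup G, IsPGroup p K → ∀ g : G,
      ((K.subgroupOf (K ⊔ Subgroup.zpowers g)).IsSubnormal ↔ ∃ R : Subgroup G, K ≤ R ∧
        pCoreOf p (Subgroup.normalizer (R : Set G)) = R ∧ g ∈ Subgroup.normalizer (R : Set G)) := by
    intro K hK g
    rw [isSubnormal_iff hK]
    constructor
    · rintro ⟨R, h1, h2, h3⟩
      obtain ⟨S, h4, h5, h6⟩ := exists_radical h1 h3
      exact ⟨S, h2.trans h4, h5, h6⟩
    · rintro ⟨R, h1, h2, h3⟩
      exact ⟨R, h2 ▸ GT.isPGroup_pCoreOf p _, h1, h3⟩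
  refine ⟨Set.ext fun g => key H hH g, fun g => ?_⟩
  obtain ⟨Q, hQ⟩ := hH.exists_le_sylow
  have hD : sInf {K : Subgroup G | ∃ Q : Sylow p G, H ≤ (Q : Subgroup G) ∧ K = (Q : Subgroup G)} ≤
      Q := sInf_le ⟨Q, hQ, rfl⟩
  rw [key H hH, key _ (Q.isPGroup'.to_le hD)]
  refine exists_congr fun R => and_congr_left fun h => ⟨fun h1 => ?_, fun h1 => le_trans ?_ h1⟩
  · exact le_of_radical h.1 fun S hS => sInf_le ⟨S, h1.trans hS, rfl⟩
  · refine le_sInf ?_
    rintro _ ⟨S, hS, rfl⟩
    exact hS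

end Cfsg.Agent.S4089
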