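import Mathlib
import Cfsg.Statements.S4091
import Cfsg.Agent.FG.H94SubnormP
import Cfsg.Agent.FG.H94FixIneq
import Cfsg.Agent.FG.ClassIdx
-- import your own Cfsg.Agent.* helpers here

set_option autoImplicit false
open Cfsg

namespace Cfsg.Agent.S4091

open Subgroup Cfsg.Agent.FG.SubN Cfsg.Agent.FG.FixI Cfsg.Agent.GT

section aux

variable {G : Type*} [Group G] [Finite G] {p : ℕ} [hp : Fact p.Prime]

theorem fac_ineq {P : Subgroup G} [Fintype P] (hP : IsPGroup p P) {M N : Subgroup G} [M.Normal]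
    [N.Normal] : (∏ x : P, fac p (zpowers (x : G)) M N) ^ p ≤
      fac p ⊥ M N ^ Nat.card P * fac p P M N ^ ((p - 1) * Nat.card P) := by
  unfold fac
  split_ifs with h
  swap
  · simp
  have : (N.map (QuotientGroup.mk' M)).Normal :=
    Normal.map inferInstance _ (QuotientGroup.mk'_surjective M)
  let φ : P →* MulAut (N.map (QuotientGroup.mk' M)) :=
    MulAut.conjNormal.comp ((QuotientGroup.mk' M).comp P.subtype)
  have key : ∀ B : Subgroup P, M.relIndex (cenSec (B.map P.subtype) M N) = Nat.card (fx φ B) := by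
    intro B
    have h1 : (cenSec (B.map P.subtype) M N).map (QuotientGroup.mk' M) =
        (fx φ B).map (N.map (QuotientGroup.mk' M)).subtype := by
      ext y
      constructor
      · rintro ⟨u, hu, rfl⟩
        refine ⟨⟨_, u, hu.1, rfl⟩, mem_fx.2 fun b hb => Subtype.ext ?_, rfl⟩
        have h2 := (QuotientGroup.eq_one_iff _).2 (hu.2 b ⟨b, hb, rfl⟩)
        simpa [φ, mul_inv_eq_one] using h2
      · rintro ⟨⟨_, u, hu, rfl⟩, hv, rfl⟩
        refine ⟨u, ⟨hu, ?_⟩, rfl⟩
        rintro _ ⟨b, hb, rfl⟩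
        have h2 := congrArg Subtype.val (mem_fx.1 hv b hb)
        rw [← QuotientGroup.eq_one_iff]
        simpa [φ, mul_inv_eq_one] using h2
    rw [← card_subtype _ (fx φ B), ← h1, ← relIndex_ker, QuotientGroup.ker_mk']
  have h1 := prod_card_fx_le hP _ φ rfl (by
    rw [← relIndex_ker, QuotientGroup.ker_mk']
    exact (Nat.Prime.coprime_iff_not_dvd hp.out).1 h.symm)
  rw [← key, ← card_top (G := N.map (QuotientGroup.mk' M)), ← fx_bot (φ := φ), ← key,
    ← MonoidHom.range_eq_map, range_subtype, Subgroup.map_bot] at h1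
  simpa only [← key, MonoidHom.map_zpowers, coe_subtype] using h1

/-- The number of Sylow subgroups containing `x`. -/
noncomputable def lam (p : ℕ) (x : G) : ℕ := Nat.card {Q : Sylow p G // x ∈ (Q : Subgroup G)}

theorem prod_lam_le (hG : IsPSolvable p G) (P : Sylow p G) [Fintype (P : Subgroup G)] :
    (∏ x : (P : Subgroup G), lam p (x : G)) ^ p ≤ Nat.card (Sylow p G) ^ Nat.card (P : Subgroup G) := by
  obtain ⟨n, M, h0, hn, hmono, hnormal, hfac⟩ := hG
  have key : ∀ H : Subgroup G, IsPGroup p H →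
      Nat.card {Q : Sylow p G // H ≤ Q} * Nat.card (normalizer ((P : Subgroup G) : Set G)) =
      Nat.card (P : Subgroup G) * ∏ i : Fin n, fac p H (M i.castSucc) (M i.succ) := fun H hH =>
    (card_conj_le_sylow H P).symm.trans (cnt_sylow hH P n M h0 hn hmono hfac)
  have h1 := key ⊥ IsPGroup.of_bot
  have h2 := key P P.isPGroup'
  have h3 : ∀ x : (P : Subgroup G), lam p (x : G) * Nat.card (normalizer ((P : Subgroup G) : Set G)) =
      Nat.card (P : Subgroup G) *
        ∏ i : Fin n, fac p (zpowers (x : G)) (M i.castSucc) (M i.succ) := fun x => by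
    rw [← key _ (P.isPGroup'.to_le (zpowers_le.2 x.2))]
    simp only [lam, zpowers_le]
  have h4 : Nat.card {Q : Sylow p G // (P : Subgroup G) ≤ Q} = 1 := by
    rw [Nat.card_eq_one_iff_exists]
    exact ⟨⟨P, le_rfl⟩, fun Q => Subtype.ext (Sylow.ext (P.is_maximal' Q.1.isPGroup' Q.2))⟩
  simp only [bot_le, Nat.card_subtype_true] at h1
  rw [h4, one_mul] at h2
  have h5 := Finset.prod_le_prod' (s := Finset.univ) fun (i : Fin n) _ =>
    fac_ineq (P := (P : Subgroup G)) P.isPGroup' (M := M i.castSucc) (N := M i.succ)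
  rw [Finset.prod_pow, Finset.prod_comm, Finset.prod_mul_distrib, Finset.prod_pow,
    Finset.prod_pow] at h5
  have h6 := Finset.prod_congr (s₁ := Finset.univ) rfl fun x _ => h3 x
  rw [Finset.prod_mul_distrib, Finset.prod_mul_distrib, Finset.prod_const, Finset.prod_const,
    Finset.card_univ, ← Nat.card_eq_fintype_card] at h6
  obtain ⟨k, hk⟩ : ∃ k, p = k + 1 := ⟨p - 1, (Nat.sub_add_cancel hp.out.one_le).symm⟩
  have hk' : p - 1 = k := by omega
  rw [hk'] at h5
  set c := Nat.card (normalizer ((P : Subgroup G) : Set G))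
  have hc : 0 < c := Nat.card_pos
  refine Nat.le_of_mul_le_mul_right ?_ (pow_pos (pow_pos hc (Nat.card (P : Subgroup G))) p)
  rw [← mul_pow, h6, mul_pow]
  refine (Nat.mul_le_mul_left _ h5).trans_eq ?_
  have h7 : ∀ a : ℕ, a ^ p = a * a ^ k := fun a => by rw [hk, pow_succ']
  rw [h7, h7, ← mul_assoc (Nat.card (Sylow p G) ^ _), ← mul_pow, h1, h2]
  ring

omit [Finite G] hp in
theorem lam_conj (x g : G) : lam p (g * x * g⁻¹) = lam p x := by
  refine Nat.card_congr (Equiv.subtypeEquiv (MulAction.toPerm g⁻¹) fun Q => ?_)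
  rw [MulAction.toPerm_apply, Tr.mem_smul_sylow, inv_inv]

theorem card_eq_sum (P : Sylow p G) [Fintype (P : Subgroup G)] :
    (Nat.card {g : G // ∃ k : ℕ, orderOf g = p ^ k} : ℝ) =
      Nat.card (Sylow p G) * ∑ x : (P : Subgroup G), (lam p (x : G) : ℝ)⁻¹ := by
  classical
  have := Fintype.ofFinite G
  have := Fintype.ofFinite (Sylow p G)
  have h1 : ∀ Q : Sylow p G, ∑ g : G, (if g ∈ (Q : Subgroup G) then (lam p g : ℝ)⁻¹ else 0) =
      ∑ x : (P : Subgroup G), (lam p (x : G) : ℝ)⁻¹ := by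
    intro Q
    obtain ⟨g, rfl⟩ := MulAction.exists_smul_eq G P Q
    rw [← (MulAut.conj g).toEquiv.sum_comp, ← Finset.sum_filter]
    simp only [MulEquiv.toEquiv_eq_coe, EquivLike.coe_coe, MulAut.conj_apply, lam_conj]
    refine Finset.sum_subtype _ (fun x => ?_) fun x => (lam p x : ℝ)⁻¹
    simp [Tr.mem_smul_sylow, mul_assoc]
  rw [Nat.card_eq_fintype_card (α := Sylow p G), ← nsmul_eq_mul, ← Finset.card_univ,
    ← Finset.sum_const, ← Finset.sum_congr rfl fun Q _ => h1 Q, Finset.sum_comm,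
    Nat.card_eq_fintype_card, Fintype.card_subtype, Finset.card_filter, Nat.cast_sum]
  refine Finset.sum_congr rfl fun g _ => ?_
  rw [← Finset.sum_filter, Finset.sum_const, nsmul_eq_mul, ← Fintype.card_subtype,
    ← Nat.card_eq_fintype_card]
  change _ = (lam p g : ℝ) * _
  split_ifs with h
  · obtain ⟨Q, hQ⟩ := (FG.CI.isPGroup_zpowers h).exists_le_sylow
    have : Nonempty {Q : Sylow p G // g ∈ (Q : Subgroup G)} := ⟨⟨Q, hQ (mem_zpowers g)⟩⟩
    have h2 : lam p g ≠ 0 := Nat.card_pos.ne'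
    rw [mul_inv_cancel₀ (Nat.cast_ne_zero.2 h2), Nat.cast_one]
  · have : IsEmpty {Q : Sylow p G // g ∈ (Q : Subgroup G)} :=
      ⟨fun Q => h (FG.CI.orderOf_of_mem Q.1.isPGroup' Q.2)⟩
    have h2 : lam p g = 0 := Nat.card_of_isEmpty
    simp [h2]

end aux


/-- Let G be a finite p-solvable group, P a Sylow p-subgroup of G, u the number of p-elements of G (elements of p-power order, the identity included) and n the number of Sylow p-subgroups of G. Then u/#P ≥ n^((p−1)/p), stated as u^p ≥ #P^p · n^(p−1). -/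
theorem result {G : Type*} [Group G] [Finite G] (p : ℕ) [Fact p.Prime]
    (hG : Cfsg.IsPSolvable p G) (P : Sylow p G) :
    Nat.card (P : Subgroup G) ^ p * Nat.card (Sylow p G) ^ (p - 1) ≤ Nat.card {g : G // ∃ k : ℕ, orderOf g = p ^ k} ^ p := by
  have := Fintype.ofFinite (P : Subgroup G)
  have hp : p.Prime := Fact.out
  have h1 := prod_lam_le hG P
  have h2 := card_eq_sum P
  have hl : ∀ x : (P : Subgroup G), (0 : ℝ) < lam p (x : G) := fun x => by
    have : Nonempty {Q : Sylow p G // (x : G) ∈ (Q : Subgroup G)} := ⟨⟨P, x.2⟩⟩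
    exact Nat.cast_pos.2 Nat.card_pos
  have hm : (0 : ℝ) < Nat.card (P : Subgroup G) := Nat.cast_pos.2 Nat.card_pos
  have hn : (0 : ℝ) < Nat.card (Sylow p G) := Nat.cast_pos.2 Nat.card_pos
  have h3 := Real.geom_mean_le_arith_mean Finset.univ (fun _ : (P : Subgroup G) => (1 : ℝ))
    (fun x => (lam p (x : G) : ℝ)⁻¹) (fun _ _ => zero_le_one) (by simp [Fintype.card_pos])
    fun x _ => (inv_pos.2 (hl x)).le
  simp only [Real.rpow_one, one_mul, Finset.sum_const, Finset.card_univ, nsmul_eq_mul, mul_one,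
    ← Nat.card_eq_fintype_card, Finset.prod_inv_distrib] at h3
  have hL : (0 : ℝ) < ∏ x : (P : Subgroup G), (lam p (x : G) : ℝ) := Finset.prod_pos fun x _ => hl x
  set S := ∑ x : (P : Subgroup G), (lam p (x : G) : ℝ)⁻¹
  have hS : 0 ≤ S := Finset.sum_nonneg fun x _ => (inv_pos.2 (hl x)).le
  have h4 := pow_le_pow_left₀ (Real.rpow_nonneg (inv_pos.2 hL).le _) h3 (Nat.card (P : Subgroup G))
  rw [Real.rpow_inv_natCast_pow (inv_pos.2 hL).le Nat.card_pos.ne'] at h4
  have h5 : ((Nat.card (Sylow p G) : ℝ)⁻¹) ^ Nat.card (P : Subgroup G) ≤ ((S / Nat.card (P : Subgroup G)) ^ p) ^ Nat.card (P : Subgroup G) := by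
    rw [← pow_mul, mul_comm, pow_mul]
    refine le_trans ?_ (pow_le_pow_left₀ (inv_pos.2 hL).le h4 p)
    rw [inv_pow, inv_pow]
    refine inv_anti₀ (pow_pos hL p) ?_
    exact_mod_cast h1
  have h6 := (pow_le_pow_iff_left₀ (inv_pos.2 hn).le (by positivity) Nat.card_pos.ne').1 h5
  rw [← @Nat.cast_le ℝ]
  push_cast
  rw [h2, mul_pow]
  obtain ⟨k, rfl⟩ : ∃ k, p = k + 1 := ⟨p - 1, (Nat.sub_add_cancel hp.one_le).symm⟩
  rw [div_pow, le_div_iff₀ (pow_pos hm _), inv_mul_le_iff₀ hn] at h6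
  rw [Nat.add_sub_cancel, pow_succ (Nat.card (Sylow (k + 1) G) : ℝ), mul_comm, mul_assoc]
  exact mul_le_mul_of_nonneg_left h6 (pow_pos hn k).le

end Cfsg.Agent.S4091
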