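import Mathlib
import Cfsg.Statements.S4092
import Cfsg.Agent.FG.ClassIdx
import Cfsg.Agent.GT.PGroupBasic
import Cfsg.Agent.GT.FrobeniusBasic
-- import your own Cfsg.Agent.* helpers here

set_option autoImplicit false
open Cfsg

namespace Cfsg.Agent.S4092

open Subgroup Cfsg.Agent.FG.CI


/-- Let G be a finite group, p a prime and P a Sylow p-subgroup of G that is not normal in G. Then G has at least p·#P elements of p-power order (the identity included). -/
theorem result {G : Type*} [Group G] [Finite G] (p : ℕ) [Fact p.Prime]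
    (P : Sylow p G) (hP : ¬ (P : Subgroup G).Normal) :
    p * Nat.card (P : Subgroup G) ≤ Nat.card {g : G // ∃ k : ℕ, orderOf g = p ^ k} := by
  classical
  have := Fintype.ofFinite G
  have hp : p.Prime := Fact.out
  -- a Sylow subgroup `Q ≠ P` with maximal intersection among all pairs
  have hex : ∃ Q : Sylow p G, Q ≠ P := by
    by_contra h
    push Not at h
    have : Subsingleton (Sylow p G) := ⟨fun a b => (h a).trans (h b).symm⟩
    exact hP (Sylow.normal_of_subsingleton P)
  obtain ⟨⟨R, Q⟩, hRQ, hmax⟩ := (wellFounded_gt (α := Subgroup G)).onFun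
    (f := fun a : Sylow p G × Sylow p G => (a.1 : Subgroup G) ⊓ a.2) |>.has_min
    {a | a.1 ≠ a.2} (by obtain ⟨Q, hQ⟩ := hex; exact ⟨(Q, P), hQ⟩)
  set D : Subgroup G := (R : Subgroup G) ⊓ Q with hD
  have hmax' : ∀ A B : Sylow p G, A ≠ B → D ≤ A → D ≤ B → (A : Subgroup G) ⊓ B = D := by
    intro A B hAB hA hB
    by_contra hne
    exact hmax (A, B) hAB (lt_of_le_of_ne (le_inf hA hB) (Ne.symm hne))
  have hDR : D < R := by
    refine lt_of_le_of_ne inf_le_left fun h => hRQ ?_
    exact Sylow.ext (R.3 Q.isPGroup' (inf_eq_left.1 h)).symm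
  have : Group.IsNilpotent (R : Subgroup G) := R.isPGroup'.isNilpotent
  obtain ⟨x, hxR, hxD, hxN⟩ := GT.PG.exists_mem_normalizer_notMem hDR
  let S : Finset (Sylow p G) := Finset.univ.filter fun A => D ≤ A
  have hS : p + 1 ≤ S.card := by
    let g : Option (Fin p) → Sylow p G := fun o => o.elim R fun i => (x ^ (i : ℕ)) • Q
    have hxQ : ∀ i : ℕ, x ^ i • Q ≠ R := by
      intro i h
      apply hRQ
      have h1 : (x ^ i)⁻¹ • R = R := Sylow.smul_eq_iff_mem_normalizer.2
        (le_normalizer (inv_mem (pow_mem hxR i)))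
      change R = Q
      rw [← h1, ← h, inv_smul_smul]
    have key : ∀ i j : ℕ, i < j → j < p → x ^ i • Q ≠ x ^ j • Q := by
      intro i j hij hj h
      obtain ⟨d, rfl⟩ := Nat.exists_eq_add_of_lt hij
      rw [add_assoc, pow_add, mul_smul, smul_left_cancel_iff] at h
      have h1 : x ^ (d + 1) ∈ normalizer (Q : Set G) := Sylow.smul_eq_iff_mem_normalizer.1 h.symm
      obtain ⟨k, hk⟩ := orderOf_of_mem R.isPGroup' hxR
      have h2 : x ∈ normalizer (Q : Set G) := by
        have hco : (d + 1).Coprime (orderOf x) := by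
          rw [hk]
          exact ((Nat.coprime_of_lt_prime (by omega) (by omega) hp).symm).pow_right k
        obtain ⟨m, hm⟩ := exists_pow_eq_self_of_coprime hco
        rw [← hm]; exact pow_mem h1 m
      have h3 : zpowers x ≤ (Q : Subgroup G) := by
        have := (isPGroup_zpowers ⟨k, hk⟩).inf_normalizer_sylow Q
        rw [← inf_eq_left, ← this, inf_eq_left]
        exact zpowers_le.2 h2
      exact hxD ⟨hxR, h3 (mem_zpowers x)⟩
    have hg : Function.Injective g := by
      rintro (_ | i) (_ | j) h
      · rfl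
      · exact absurd h.symm (hxQ j)
      · exact absurd h (hxQ i)
      · rcases lt_trichotomy (i : ℕ) j with h1 | h1 | h1
        · exact absurd h (key _ _ h1 j.2)
        · rw [Fin.ext h1]
        · exact absurd h.symm (key _ _ h1 i.2)
    have := Finset.card_le_card_of_injOn (s := Finset.univ) (t := S) g ?_ hg.injOn
    · simpa using this
    rintro (_ | i) -
    · simpa [S, g] using hDR.le
    · simp only [S, g, Finset.coe_filter, Finset.mem_univ, true_and, Option.elim, Set.mem_ofPred_eq]
      intro d hd
      rw [Sylow.coe_subgroup_smul, GT.Frob.mem_conj_smul_iff]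
      have := (mem_normalizer_iff''.1 (pow_mem hxN i) d).1 hd
      exact this.2
  let F : Subgroup G → Finset G := fun A => Finset.univ.filter (· ∈ A)
  have hF : ∀ A, (F A).card = Nat.card A := fun A => by
    rw [Nat.card_eq_fintype_card, Fintype.card_subtype]
  have hcardP : ∀ A : Sylow p G, Nat.card (A : Subgroup G) = Nat.card (P : Subgroup G) := fun A => by
    rw [Sylow.card_eq_multiplicity, Sylow.card_eq_multiplicity]
  have h1 : (F D ∪ S.biUnion fun A => F A \ F D).card ≤
      Nat.card {g : G // ∃ k : ℕ, orderOf g = p ^ k} := by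
    rw [Nat.card_eq_fintype_card, Fintype.card_subtype]
    apply Finset.card_le_card
    intro g hg
    simp only [Finset.mem_union, Finset.mem_biUnion, Finset.mem_sdiff, F, Finset.mem_filter,
      Finset.mem_univ, true_and] at hg ⊢
    rcases hg with hg | ⟨A, -, hg, -⟩
    · exact orderOf_of_mem R.isPGroup' hg.1
    · exact orderOf_of_mem A.isPGroup' hg
  rw [Finset.card_union_of_disjoint, Finset.card_biUnion, Finset.sum_congr rfl
    (g := fun _ => Nat.card (P : Subgroup G) - Nat.card D), Finset.sum_const, hF, smul_eq_mul] at h1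
  · have h2 : p * Nat.card D ≤ Nat.card (P : Subgroup G) := by
      rw [← hcardP R, ← GT.PG.relIndex_mul_card hDR.le]
      apply Nat.mul_le_mul_right
      obtain ⟨k, hk⟩ := R.isPGroup'.index (D.subgroupOf R)
      rw [relIndex, hk]
      rcases k with _ | k
      · exact absurd (relIndex_eq_one.1 hk) (not_le_of_gt hDR)
      · exact Nat.le_self_pow (by omega) p
    have h3 := Nat.mul_le_mul_right (Nat.card (P : Subgroup G) - Nat.card D) hS
    have h4 : Nat.card D ≤ Nat.card (P : Subgroup G) :=
      (Nat.le_mul_of_pos_left _ hp.pos).trans h2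
    obtain ⟨e, he⟩ := Nat.exists_eq_add_of_le h4
    rw [he, Nat.add_sub_cancel_left] at h1 h3
    rw [he] at h2 ⊢
    nlinarith
  · intro A hA
    rw [Finset.card_sdiff_of_subset, hF, hF, hcardP]
    intro g hg
    simp only [F, S, Finset.mem_filter, Finset.mem_univ, true_and] at hg hA ⊢
    exact hA hg
  · intro A hA B hB hAB
    simp only [S, Finset.coe_filter, Finset.mem_univ, true_and, Set.mem_ofPred_eq] at hA hB
    rw [Function.onFun, Finset.disjoint_left]
    intro g hg1 hg2
    simp only [F, Finset.mem_sdiff, Finset.mem_filter, Finset.mem_univ, true_and] at hg1 hg2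
    exact hg1.2 (hmax' A B hAB hA hB ▸ ⟨hg1.1, hg2.1⟩)
  · rw [Finset.disjoint_left]
    intro g hg1 hg2
    simp only [Finset.mem_biUnion, Finset.mem_sdiff] at hg2
    obtain ⟨A, -, -, h⟩ := hg2
    exact h hg1

end Cfsg.Agent.S4092
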