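import Mathlib
import Cfsg.Statements.S4093
import Cfsg.Agent.FG.ClassIdx
import Cfsg.Agent.FG.ClassCount
import Cfsg.Agent.GT.Conj
-- import your own Cfsg.Agent.* helpers here

set_option autoImplicit false
open scoped BigOperators
open Cfsg

namespace Cfsg.Agent.S4093

open Subgroup Cfsg.Agent.FG.CI


/-- Let G be a finite group with a normal subgroup N complementing a Sylow p-subgroup P (a normal p-complement). Then the number of elements of G of p-power order equals the sum over x ∈ P of the index of C_N(x) in N. -/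
theorem result {G : Type*} [Group G] [Finite G] (p : ℕ) [Fact p.Prime]
    (P : Sylow p G) (N : Subgroup G) [N.Normal] (hNP : N.IsComplement' (P : Subgroup G)) :
    Nat.card {g : G // ∃ k : ℕ, orderOf g = p ^ k} =
      ∑ᶠ x : (P : Subgroup G), Nat.card N / Nat.card ↥(N ⊓ Subgroup.centralizer ({(x : G)} : Set G)) := by
  classical
  have := Fintype.ofFinite (P : Subgroup G)
  let f : (Σ x : (P : Subgroup G), {y : G | ∃ h ∈ N, h * (x : G) * h⁻¹ = y}) →
      {g : G // ∃ k : ℕ, orderOf g = p ^ k} := fun a => ⟨a.2.1, by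
        obtain ⟨h, -, hh⟩ := a.2.2
        rw [← hh, GT.orderOf_conj]
        exact orderOf_of_mem P.isPGroup' a.1.2⟩
  have hf : Function.Bijective f := by
    constructor
    · rintro ⟨x, y, h, hh, rfl⟩ ⟨x', y', h', hh', rfl⟩ he
      have he' : h * (x : G) * h⁻¹ = h' * x' * h'⁻¹ := congrArg Subtype.val he
      have hx : x = x' := by
        have h1 : (x : G)⁻¹ * x' ∈ N := by
          rw [← QuotientGroup.eq]
          have := congrArg (QuotientGroup.mk' N) he'
          simpa [(QuotientGroup.eq_one_iff h).2 hh, (QuotientGroup.eq_one_iff h').2 hh'] using this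
        have h2 := Subgroup.disjoint_def.1 hNP.disjoint h1
          ((P : Subgroup G).mul_mem ((P : Subgroup G).inv_mem x.2) x'.2)
        exact Subtype.ext (inv_mul_eq_one.1 h2)
      subst hx
      congr
    · rintro ⟨g, hg⟩
      obtain ⟨c, hc⟩ := exists_conj_mem_sylow P hg
      obtain ⟨⟨n, u⟩, hnu⟩ := hNP.2 c⁻¹
      simp only at hnu
      refine ⟨⟨⟨u * (c * g * c⁻¹) * (u : G)⁻¹, mul_mem (mul_mem u.2 hc) (inv_mem u.2)⟩, g, n, n.2, ?_⟩, rfl⟩
      have : c = (n * u : G)⁻¹ := by rw [hnu, inv_inv]
      simp only; rw [this]; group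
  rw [← Nat.card_eq_of_bijective f hf, Nat.card_sigma, finsum_eq_sum_of_fintype]
  refine Finset.sum_congr rfl fun x _ => ?_
  rw [Nat.card_coe_set_eq, FG.ncard_conj_orbit_subgroup,
    FG.card_eq_relIndex_mul_card_inf (centralizer {(x : G)}) N, inf_comm,
    Nat.mul_div_cancel _ Nat.card_pos]

end Cfsg.Agent.S4093
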