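import Mathlib
import Cfsg.Statements.S4097
import Cfsg.Agent.GT.CentUnique
-- import your own Cfsg.Agent.* helpers here

set_option autoImplicit false
open Cfsg

namespace Cfsg.Agent.S4097

theorem aux.{u_1} (n : ℕ) : ∀ {G : Type u_1} [Group G] [Finite G], Nat.card G ≤ n →
    ∀ (A : Subgroup G), Group.IsSolvable A →
    (∀ S : Subgroup G, A ≤ S → Group.IsSolvable S → ∀ a ∈ A, ∀ s ∈ S, a * s = s * a) →
    A ≤ Subgroup.center G := by
  induction n with
  | zero => intro G _ _ h; exact absurd h (not_le.2 Nat.card_pos)
  | succ n ih =>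
    intro G _ _ hn A hA hc
    by_contra hZ
    have hAA : A ≤ Subgroup.centralizer (A : Set G) := fun a ha b hb => hc A le_rfl hA b hb a ha
    have hprop : ∀ H : Subgroup G, A ≤ H → H ≠ ⊤ → H ≤ Subgroup.centralizer (A : Set G) := by
      intro H hAH hH
      have hlt : Nat.card H ≤ n := by
        have h1 : Nat.card H < Nat.card G := by
          rw [← Subgroup.card_top (G := G)]
          exact Set.Finite.card_lt_card (Set.toFinite _)
            (show (H : Set G) ⊂ (⊤ : Subgroup G) from SetLike.coe_ssubset_coe.2 (lt_top_iff_ne_top.2 hH))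
        omega
      have hA' : Group.IsSolvable (A.subgroupOf H) :=
        solvable_of_solvable_injective (f := (Subgroup.subgroupOfEquivOfLe hAH).toMonoidHom)
          (Subgroup.subgroupOfEquivOfLe hAH).injective
      have := ih hlt (A.subgroupOf H) hA' (by
        intro S hS hSs a ha s hs
        have h1 : A ≤ S.map H.subtype := fun x hx => ⟨⟨x, hAH hx⟩, hS hx, rfl⟩
        have h2 : Group.IsSolvable (S.map H.subtype) :=
          solvable_of_surjective (f := H.subtype.subgroupMap S) (MonoidHom.subgroupMap_surjective _ _)
        exact Subtype.ext (hc _ h1 h2 a ha s ⟨s, hs, rfl⟩))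
      intro h hh a ha
      have h3 := Subgroup.mem_center_iff.1 (this (show (⟨a, hAH ha⟩ : H) ∈ A.subgroupOf H from ha)) ⟨h, hh⟩
      exact (congrArg Subtype.val h3).symm
    haveI := GT.CU.isSolvable_of_central_in_proper hAA hprop hZ
    apply hZ
    intro a ha
    rw [Subgroup.mem_center_iff]
    intro g
    exact (hc ⊤ le_top inferInstance a ha g trivial).symm


/-- Let A be a solvable subgroup of a finite group G such that A lies in the centre of every solvable subgroup of G containing A. Then A lies in the centre of G. -/
theorem result {G : Type*} [Group G] [Finite G]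
    (A : Subgroup G) (hA : Group.IsSolvable A)
    (hc : ∀ S : Subgroup G, A ≤ S → Group.IsSolvable S → ∀ a ∈ A, ∀ s ∈ S, a * s = s * a) : A ≤ Subgroup.center G := by
  exact aux _ le_rfl A hA hc

end Cfsg.Agent.S4097
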