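import Cfsg.Statements.S4100
import Cfsg.Agent.FG.AltSRed
import Cfsg.Agent.Loc.CFSection

set_option autoImplicit false
open Cfsg

namespace Cfsg.Agent.S4100

/-- Let G be a finite group and p a prime other than 3 such that the centralizer of every non-central element of p-power order is solvable. Then every alternating group of degree at least 5 involved in G (as a section) has degree at most p + 4, or at most p + 6 = 8 when p = 2. -/
theorem result {G : Type*} [Group G] [Finite G] (p : ℕ) [Fact p.Prime] (hp3 : p ≠ 3)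
    (h : ∀ x : G, x ∉ Subgroup.center G → (∃ k : ℕ, orderOf x = p ^ k) → Group.IsSolvable (Subgroup.centralizer ({x} : Set G)))
    (d : ℕ) (hd : 5 ≤ d) (hinv : Cfsg.Involves (alternatingGroup (Fin d)) G) :
    d ≤ p + 4 + (if p = 2 then 2 else 0) := by
  obtain ⟨K, f, hf⟩ := Loc.CF.involves_iff.1 hinv
  have hK := FG.AltS.Hy.sub (p := p) h K
  have hp : p.Prime := Fact.out
  by_contra hc
  by_cases h2 : p = 2
  · subst h2
    refine FG.AltS.alt_bound (a := 4) (x := ⟨Equiv.swap 0 1 * Equiv.swap 2 3, Equiv.Perm.mem_alternatingGroup.2 (by decide)⟩) (by simp at hc; omega)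
      (fun e => absurd (congrArg Subtype.val e) (by decide)) ⟨1, orderOf_eq_prime (Subtype.ext (by decide))
      fun e => absurd (congrArg Subtype.val e) (by decide)⟩ (.inr fun W _ _ _ _ σ => FG.AltS.Two.main) K hK f hf
  rw [if_neg h2] at hc
  obtain ⟨q, rfl⟩ : ∃ q, p = q + 2 := ⟨p - 2, by have := hp.two_le; omega⟩
  have hs : finRotate (q + 2) ∈ alternatingGroup (Fin (q + 2)) := by
    obtain ⟨k, hk⟩ := hp.odd_of_ne_two h2
    rw [Equiv.Perm.mem_alternatingGroup, sign_finRotate, show q + 2 - 1 = 2 * k by omega, pow_mul]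
    simp
  have ho : orderOf (⟨_, hs⟩ : alternatingGroup (Fin (q + 2))) = (q + 2) ^ 1 := by
    rw [← Subgroup.orderOf_coe, isCycle_finRotate.orderOf, support_finRotate]
    simp
  refine FG.AltS.alt_bound (a := q + 2) (x := ⟨_, hs⟩) (by omega) (fun e => by rw [e, orderOf_one, pow_one] at ho; omega) ⟨1, ho⟩ ?_
    K hK f hf
  by_cases h5 : q = 3
  · subst h5
    exact .inr fun W _ _ _ _ σ => have := Module.Finite.of_finite (R := ZMod 5) (M := W); FG.AltS.Five.main
  · refine .inl fun h60 => ?_
    have := Nat.le_of_dvd (by norm_num) h60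
    have a : q ≤ 58 := by omega
    revert hp h60
    interval_cases q <;> simp_all <;> norm_num

end Cfsg.Agent.S4100
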