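import Mathlib
import Cfsg.Statements.S4106
import Cfsg.Agent.FG.H94PiClasses
-- import your own Cfsg.Agent.* helpers here

set_option autoImplicit false
open Cfsg

namespace Cfsg.Agent.S4106


/-- Let G be a finite group, π a set of primes and m the π-part of the order of G. Then the number of conjugacy classes of G consisting of π-elements (elements whose order is divisible only by primes in π) is at most m. -/
theorem result {G : Type*} [Group G] [Finite G]
    (π : Set ℕ) (hπ : ∀ q ∈ π, q.Prime)
    (m : ℕ) (hm : m ∣ Nat.card G) (hmπ : ∀ q : ℕ, q.Prime → q ∣ m → q ∈ π)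
    (hm' : ∀ q ∈ π, ¬ q ∣ Nat.card G / m) :
    Nat.card {C : ConjClasses G // ∀ q : ℕ, q.Prime → (∃ g : G, ConjClasses.mk g = C ∧ q ∣ orderOf g) → q ∈ π} ≤ m := by
  refine FG.PiCl.card_piClass_le (Nat.card G).primeFactors G π m ?_ ?_ ?_
  · rintro rfl
    exact Nat.card_pos.ne' (zero_dvd_iff.1 hm)
  · intro q _ hq hd
    exact Nat.mem_primeFactors.2 ⟨hq, hd, Nat.card_pos.ne'⟩
  · intro d hd hdG
    rw [← Nat.mul_div_cancel' hm] at hdG
    exact (hd.coprime' fun q _ hq => hm' q hq).dvd_of_dvd_mul_right hdG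

end Cfsg.Agent.S4106
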