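import Mathlib
import Cfsg.Statements.S4107
import Cfsg.Agent.GT.Fitting
import Cfsg.Agent.FG.ClassIdx
-- import your own Cfsg.Agent.* helpers here

set_option autoImplicit false
open Cfsg

namespace Cfsg.Agent.S4107

open Subgroup Cfsg.Agent.FG.CI


/-- Let G be a finite group and N a proper non-trivial normal subgroup such that for every x outside N all elements of the coset xN have the same order as x. Then N ≤ F(G) or F(G) ≤ N, where F(G) is the Fitting subgroup; and if N is properly contained in F(G) then F(G) has prime-power order. -/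
theorem result {G : Type*} [Group G] [Finite G] (N : Subgroup G) [N.Normal] (hN1 : N ≠ ⊥) (hN2 : N ≠ ⊤)
    (heq : ∀ x : G, x ∉ N → ∀ n ∈ N, orderOf (x * n) = orderOf x) :
    (N ≤ Cfsg.fittingSubgroup G ∨ Cfsg.fittingSubgroup G ≤ N) ∧
    (N < Cfsg.fittingSubgroup G → IsPrimePow (Nat.card (Cfsg.fittingSubgroup G))) := by
  have key : ∀ p : ℕ, p.Prime → ¬ pCore p G ≤ N → IsPGroup p N := by
    intro p hp h
    have := Fact.mk hp
    obtain ⟨x, hx, hxN⟩ := SetLike.not_le_iff_exists.1 h
    obtain ⟨k, hk⟩ := orderOf_of_mem (GT.isPGroup_pCore p) hx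
    intro n
    have h1 : (x * n) ^ p ^ k = 1 := by rw [← hk, ← heq x hxN n n.2, pow_orderOf_eq_one]
    have h2 : (n : G) ^ p ^ k ∈ pCore p G := by
      rw [← QuotientGroup.eq_one_iff]
      have := congrArg (QuotientGroup.mk' (pCore p G)) h1
      simpa [(QuotientGroup.eq_one_iff x).2 hx] using this
    obtain ⟨j, hj⟩ := GT.isPGroup_pCore p ⟨_, h2⟩
    refine ⟨k + j, Subtype.ext ?_⟩
    have := congrArg Subtype.val hj
    simpa [pow_add, pow_mul] using this
  constructor
  · by_contra h
    push Not at h
    obtain ⟨h1, h2⟩ := h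
    apply h2
    rw [GT.fitting_le_iff]
    intro p hp
    by_contra h3
    exact h1 ((GT.le_pCore (key p hp h3)).trans (GT.pCore_le_fitting hp))
  · intro h
    have h2 := not_le_of_gt h
    rw [GT.fitting_le_iff] at h2
    push Not at h2
    obtain ⟨p, hp, h3⟩ := h2
    have := Fact.mk hp
    have hNp := key p hp h3
    have h4 : fittingSubgroup G ≤ pCore p G := by
      rw [GT.fitting_le_iff]
      intro q hq
      by_cases hqp : q = p
      · rw [hqp]
      by_cases h5 : pCore q G ≤ N
      · exact h5.trans (GT.le_pCore hNp)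
      · exfalso
        apply hN1
        rw [eq_bot_iff, ← GT.pCore_inf_pCore hq hp hqp]
        exact le_inf (GT.le_pCore (key q hq h5)) (GT.le_pCore hNp)
    obtain ⟨k, hk⟩ := IsPGroup.iff_card.1 ((GT.isPGroup_pCore p).to_le h4)
    rw [hk]
    refine hp.isPrimePow.pow ?_
    rintro rfl
    rw [pow_zero, Subgroup.card_eq_one] at hk
    rw [hk] at h
    exact not_lt_bot h

end Cfsg.Agent.S4107
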