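import Mathlib
import Cfsg.Statements.S4108
import Cfsg.Agent.FG.ClassIdx
import Cfsg.Agent.GT.FrobeniusBasic
-- import your own Cfsg.Agent.* helpers here

set_option autoImplicit false
open Cfsg

namespace Cfsg.Agent.S4108

open Subgroup Cfsg.Agent.FG.CI


/-- Let G be a finite group, p a prime and N a proper non-trivial normal p-subgroup such that for every x outside N all elements of the coset xN have the same order as x. Then every non-trivial subgroup H of G of order prime to p acts fixed-point-freely on N: NH is a Frobenius group with complement H and kernel N. -/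
theorem result {G : Type*} [Group G] [Finite G] (N : Subgroup G) [N.Normal] (hN1 : N ≠ ⊥) (hN2 : N ≠ ⊤)
    (heq : ∀ x : G, x ∉ N → ∀ n ∈ N, orderOf (x * n) = orderOf x)
    (p : ℕ) [Fact p.Prime] (hNp : IsPGroup p N) :
    ∀ H : Subgroup G, H ≠ ⊥ → (Nat.card H).Coprime p →
      Cfsg.IsFrobeniusComplement (H.subgroupOf (N ⊔ H)) ∧ Cfsg.frobeniusKernel (H.subgroupOf (N ⊔ H)) = (N.subgroupOf (N ⊔ H) : Set ↥(N ⊔ H)) := by
  intro H hH1 hH
  have hd : Disjoint N H := by
    obtain ⟨k, hk⟩ := IsPGroup.iff_card.1 hNp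
    apply Subgroup.disjoint_of_coprime_natCard
    rw [hk]
    exact (hH.symm).pow_left k
  have hc : IsComplement' (N.subgroupOf (N ⊔ H)) (H.subgroupOf (N ⊔ H)) := by
    apply isComplement'_of_disjoint_and_mul_eq_univ
    · rw [disjoint_iff, eq_bot_iff]
      rintro x ⟨h1, h2⟩
      exact Subtype.ext (Subgroup.disjoint_def.1 hd h1 h2)
    · rw [← normal_mul, ← subgroupOf_sup le_sup_left le_sup_right]
      simp
  have hF : IsFrobeniusComplement (H.subgroupOf (N ⊔ H)) := by
    refine GT.Frob.isFrobeniusComplement_of_fpf hc ?_ ?_ ?_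
    · rwa [Ne, subgroupOf_eq_bot, disjoint_iff, inf_eq_left.2 le_sup_left]
    · rwa [Ne, subgroupOf_eq_bot, disjoint_iff, inf_eq_left.2 le_sup_right]
    · intro h hh hh1
      rw [eq_bot_iff]
      rintro n ⟨hn, hnc⟩
      have hc' : Commute (h : G) n := (congrArg Subtype.val (mem_cent.1 hnc)).symm
      have hhN : (h : G) ∉ N := fun h2 => hh1 (Subtype.ext (Subgroup.disjoint_def.1 hd h2 hh))
      have h1 := heq h hhN n hn
      obtain ⟨k, hk⟩ := orderOf_of_mem hNp (show (n : G) ∈ N from hn)
      have hco : (orderOf (h : G)).Coprime (orderOf (n : G)) := by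
        rw [hk]
        exact (Nat.Coprime.coprime_dvd_left (H.orderOf_dvd_natCard hh) hH).pow_right k
      rw [hc'.orderOf_mul_eq_mul_orderOf_of_coprime hco] at h1
      have h2 : orderOf (n : G) = 1 := by
        have := orderOf_pos (h : G)
        nlinarith [Nat.eq_of_mul_eq_mul_left this (h1.trans (mul_one _).symm)]
      exact Subtype.ext (orderOf_eq_one_iff.1 h2)
  exact ⟨hF, hF.kernel_eq_of_isComplement' hc⟩

end Cfsg.Agent.S4108
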