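import Mathlib
import Cfsg.Statements.S4112
import Cfsg.Agent.FG.ClassIdx
import Cfsg.Agent.GT.Frattini
import Cfsg.Agent.FG.SylowNormal
import Cfsg.Agent.GT.PGroupBasic
-- import your own Cfsg.Agent.* helpers here

set_option autoImplicit false
open Cfsg

namespace Cfsg.Agent.S4112

open Subgroup Cfsg.Agent.FG.CI


/-- Let G be a finite group and M ≤ N non-trivial proper normal subgroups such that for every g outside N the conjugacy class of g is a union of cosets of M (equivalently gm is conjugate to g for every m ∈ M). Then (1) and (2) below are equivalent, and they imply (3): (1) every g outside N acts fixed-point-freely on M, that is C_G(x) ≤ N for every x ∈ M, x ≠ 1; (2) the index of N in G is coprime to the order of M; (3) there is a subgroup H of G with HN = G and H ∩ M = 1. -/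
theorem result {G : Type*} [Group G] [Finite G] (N M : Subgroup G) [N.Normal] [M.Normal] (hMN : M ≤ N) (hM1 : M ≠ ⊥) (hN2 : N ≠ ⊤)
    (hcam : ∀ g : G, g ∉ N → ∀ m ∈ M, ∃ x : G, x * g * x⁻¹ = g * m) :
    ((∀ x ∈ M, x ≠ 1 → Subgroup.centralizer ({x} : Set G) ≤ N) ↔ N.index.Coprime (Nat.card M)) ∧
    ((∀ x ∈ M, x ≠ 1 → Subgroup.centralizer ({x} : Set G) ≤ N) → ∃ H : Subgroup G, H ⊔ N = ⊤ ∧ H ⊓ M = ⊥) := by
  have h12 : (∀ x ∈ M, x ≠ 1 → Subgroup.centralizer ({x} : Set G) ≤ N) → N.index.Coprime (Nat.card M) := by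
    intro h
    rw [Nat.coprime_iff_gcd_eq_one]
    by_contra hne
    obtain ⟨p, hp, hpd⟩ := Nat.exists_prime_and_dvd hne
    have := Fact.mk hp
    obtain ⟨P⟩ : Nonempty (Sylow p G) := inferInstance
    have h1 : ¬ p ∣ (P : Subgroup G).relIndex M := FG.H96.not_dvd_relIndex_sylow_inf P M
    have h2 : M.subgroupOf P ≠ ⊥ := by
      intro h3
      rw [subgroupOf_eq_bot, disjoint_comm, ← subgroupOf_eq_bot] at h3
      apply h1
      rw [relIndex, h3, index_bot]
      exact hpd.trans (Nat.gcd_dvd_right _ _)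
    have : Group.IsNilpotent (P : Subgroup G) := P.isPGroup'.isNilpotent
    obtain ⟨⟨x, hx, hxc⟩, hx1⟩ := (Subgroup.ne_bot_iff_exists_ne_one.1
      (GT.PG.inf_center_ne_bot (M.subgroupOf P) h2))
    have h3 : (P : Subgroup G) ≤ N := by
      refine le_trans (fun g hg => mem_cent.2 ?_) (h x hx fun h4 => hx1 (Subtype.ext (Subtype.ext h4)))
      exact congrArg Subtype.val (Subgroup.mem_center_iff.1 hxc ⟨g, hg⟩)
    exact FG.H96.not_dvd_index_of_sylow_le P h3 (hpd.trans (Nat.gcd_dvd_left _ _))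
  refine ⟨⟨h12, fun h x hx hx1 g hg => ?_⟩, fun h => ?_⟩
  · by_contra hgN
    obtain ⟨a, b, ha, hb, ha1, hb1, hab, hg'⟩ := GT.exists_piPart_elem {q | q ∣ Nat.card M} g
    have haN : a ∈ N := by
      have : GT.IsPiNum {q | q ∣ Nat.card M}ᶜ N.index := fun q hq hq1 hq2 =>
        hq.one_lt.ne' (Nat.eq_one_of_dvd_one (h ▸ Nat.dvd_gcd hq1 hq2))
      exact GT.IsPiNum.le_of_index (H := zpowers a) (by rwa [Nat.card_zpowers]) this (mem_zpowers a)
    have hbN : b ∉ N := fun h2 => hgN (hg' ▸ N.mul_mem haN h2)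
    obtain ⟨y, hy⟩ := hcam b hbN x hx
    have hbx : Commute b x := mem_cent.1 ((zpowers_le.2 hg) hb)
    have hco : (orderOf b).Coprime (orderOf x) := by
      refine Nat.Coprime.coprime_dvd_right (M.orderOf_dvd_natCard hx) ?_
      rw [Nat.coprime_iff_gcd_eq_one]
      by_contra hne
      obtain ⟨p, hp, hpd⟩ := Nat.exists_prime_and_dvd hne
      exact hb1 p hp (hpd.trans (Nat.gcd_dvd_left _ _)) (hpd.trans (Nat.gcd_dvd_right _ _))
    have h1 : orderOf (b * x) = orderOf b := by
      rw [← hy]; exact (MulAut.conj y).orderOf_eq b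
    rw [hbx.orderOf_mul_eq_mul_orderOf_of_coprime hco] at h1
    exact hx1 (orderOf_eq_one_iff.1
      (Nat.eq_of_mul_eq_mul_left (orderOf_pos b) (h1.trans (mul_one _).symm)))
  · have hco := h12 h
    obtain ⟨H, hH, hmin⟩ := (wellFounded_lt (α := Subgroup G)).has_min {H | H ⊔ N = ⊤} ⟨⊤, by simp⟩
    refine ⟨H, hH, ?_⟩
    have h1 : N.subgroupOf H ≤ frattini H := by
      rw [GT.le_frattini_iff_forall_sup]
      intro K hK
      have h2 : K.map H.subtype ⊔ N = ⊤ := by
        rw [eq_top_iff, ← hH, sup_le_iff]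
        refine ⟨?_, le_sup_right⟩
        have := congrArg (Subgroup.map H.subtype) hK
        rw [Subgroup.map_sup, subgroupOf_map_subtype, ← MonoidHom.range_eq_map, range_subtype] at this
        exact this.ge.trans (sup_le_sup_left inf_le_left _)
      have h3 : K.map H.subtype = H := by
        by_contra hne
        exact hmin _ h2 (lt_of_le_of_ne (map_subtype_le K) hne)
      apply Subgroup.map_injective H.subtype_injective
      rw [h3, ← MonoidHom.range_eq_map, range_subtype]
    have h2 : GT.IsPiNum {q | q ∣ Nat.card M}ᶜ (Nat.card H) := by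
      apply GT.isPiNum_card_of_index_of_le_frattini h1
      intro q hq hq1 hq2
      have : q ∣ N.index := hq1.trans (relIndex_dvd_index_of_normal N H)
      exact hq.one_lt.ne' (Nat.eq_one_of_dvd_one (hco ▸ Nat.dvd_gcd this hq2))
    rw [inf_comm]
    exact GT.IsPiNum.inf_eq_bot (fun q _ hq => hq) h2

end Cfsg.Agent.S4112
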