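import Mathlib
import Cfsg.Statements.S4115
import Cfsg.Agent.FG.H94TIHall
import Cfsg.Agent.FG.H94Wielandt
-- import your own Cfsg.Agent.* helpers here

set_option autoImplicit false
universe u
open Cfsg

namespace Cfsg.Agent.S4115

section aux
open Subgroup Cfsg.Agent.GT Cfsg.Agent.GT.Frob

theorem aux {G : Type u} [Group G] [Finite G] (H : Subgroup G)
    (hTI : Cfsg.IsTISubset (H : Set G))
    (hHall : (Nat.card H).Coprime (H.subgroupOf (normalizer (H : Set G))).index)
    (K : Subgroup (normalizer (H : Set G))) [K.Normal]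
    (hK : K.IsComplement' (H.subgroupOf (normalizer (H : Set G)))) :
    ∃ N : Subgroup G, N.Normal ∧ N.IsComplement' H := by
  have hH := FG.TIH.isPiHall hTI hHall
  have key : ∀ a ∈ normalizer (H : Set G), IsPiNum {p | p ∣ Nat.card H} (orderOf a) → a ∈ H :=
    fun a ha h => zpowers_le.1 (hH.le_of_normalizes (by rwa [Nat.card_zpowers]) (zpowers_le.2 ha))
  obtain ⟨M, hM, h1, h2⟩ := FG.Wiel.frobenius_wielandt K (fun g hg x hx => by
    obtain ⟨a, b, ha, hb, ha', hb', -, hab⟩ := exists_piPart_elem {p | p ∣ Nat.card H} x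
    have h3 : a = 1 := by
      refine Subtype.ext (hTI g hg a (key a a.2 (by rwa [orderOf_coe])) (key _ ?_ ?_))
      · obtain ⟨k, rfl⟩ := ha
        rw [coe_zpow, ← conj_zpow]
        exact zpow_mem hx k
      · rwa [GT.orderOf_conj, orderOf_coe]
    rw [hab, h3, one_mul]
    refine mem_of_coprime_orderOf_index ?_
    rw [hK.symm.index_eq_card, card_subgroupOf_of_le le_normalizer]
    exact isPiNum_compl_setOf_dvd_iff.1 hb')
  refine ⟨M, hM, isComplement'_iff_of_normal.2 ⟨eq_bot_iff.2 fun x hx => ?_, ?_⟩⟩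
  · have h3 : (⟨x, le_normalizer hx.2⟩ : normalizer (H : Set G)) ∈
        K ⊓ H.subgroupOf (normalizer (H : Set G)) := ⟨h1 ▸ hx.1, hx.2⟩
    rw [hK.disjoint.eq_bot, mem_bot] at h3
    exact congrArg Subtype.val h3
  · rw [eq_top_iff, ← h2]
    refine sup_le le_sup_left fun x hx => ?_
    obtain ⟨⟨k, h⟩, hkh⟩ := hK.2 ⟨x, hx⟩
    have h3 : ((k : normalizer (H : Set G)) : G) * (h : normalizer (H : Set G)) = x :=
      congrArg Subtype.val hkh
    rw [← h3]
    have h4 : (k : normalizer (H : Set G)) ∈ M.subgroupOf _ := h1 ▸ k.2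
    exact mul_mem (mem_sup_left h4) (mem_sup_right h.2)

end aux

/-- Let G be a finite group and H a subgroup that meets each of its conjugates by elements outside N_G(H) trivially and whose order is coprime to its index in N_G(H). Then H has a normal complement in N_G(H) if and only if H has a normal complement in G. Moreover, if H is not normal in G and has a normal complement in N_G(H), then H is isomorphic to a Frobenius complement of some finite Frobenius group. -/
theorem result {G : Type u} [Group G] [Finite G] (H : Subgroup G)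
    (hTI : Cfsg.IsTISubset (H : Set G)) (hHall : (Nat.card H).Coprime (H.subgroupOf (Subgroup.normalizer (H : Set G))).index) :
    ((∃ K : Subgroup (Subgroup.normalizer (H : Set G)), K.Normal ∧ K.IsComplement' (H.subgroupOf (Subgroup.normalizer (H : Set G)))) ↔
      (∃ N : Subgroup G, N.Normal ∧ N.IsComplement' H)) ∧
    (¬ H.Normal → (∃ K : Subgroup (Subgroup.normalizer (H : Set G)), K.Normal ∧ K.IsComplement' (H.subgroupOf (Subgroup.normalizer (H : Set G)))) →
      ∃ (F : Type u) (_ : Group F) (_ : Finite F) (C : Subgroup F), Cfsg.IsFrobeniusComplement C ∧ Nonempty (H ≃* C)) := by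
  refine ⟨⟨fun ⟨K, _, hK⟩ => aux H hTI hHall K hK, fun ⟨N, _, hN⟩ => ⟨N.subgroupOf _, inferInstance, ?_⟩⟩,
    fun hnn ⟨K, _, hK⟩ => ?_⟩
  · obtain ⟨h1, h2⟩ := GT.isComplement'_iff_of_normal.1 hN
    refine GT.isComplement'_iff_of_normal.2 ⟨?_, eq_top_iff.2 fun x _ => ?_⟩
    · exact eq_bot_iff.2 fun x hx => Subtype.ext (h1.le hx)
    · obtain ⟨n, hn, h, hh, hx⟩ := GT.HT.mem_sup_of_normal.1 (h2.ge (Subgroup.mem_top (x : G)))
      have h3 : n ∈ Subgroup.normalizer (H : Set G) := by
        rw [eq_mul_inv_of_mul_eq hx]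
        exact mul_mem x.2 (inv_mem (Subgroup.le_normalizer hh))
      have h4 : x = ⟨n, h3⟩ * ⟨h, Subgroup.le_normalizer hh⟩ := Subtype.ext hx.symm
      rw [h4]
      exact mul_mem (Subgroup.mem_sup_left hn) (Subgroup.mem_sup_right hh)
  · obtain ⟨M, _, hM⟩ := aux H hTI hHall K hK
    have h1 : GT.Frob.HasFpfAction H := by
      refine FG.TIH.hasFpfAction hTI (M := M) Subgroup.le_normalizer_of_normal ?_ fun h => hnn ?_
      · rw [← hM.index_eq_card]; exact FG.TIH.coprime_index hTI hHall
      · rw [← Subgroup.normalizer_eq_top_iff, eq_top_iff, ← hM.sup_eq_top]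
        exact sup_le h Subgroup.le_normalizer
    have : Nontrivial H := (Subgroup.nontrivial_iff_ne_bot H).2 fun h => hnn (h ▸ inferInstance)
    obtain ⟨L, _, _, C, hC, ⟨e⟩⟩ := h1.exists_isFrobeniusComplement
    exact ⟨ULift.{u} L, inferInstance, inferInstance, _, hC.map_equiv MulEquiv.ulift.symm,
      ⟨e.trans (C.equivMapOfInjective _ MulEquiv.ulift.symm.injective)⟩⟩

end Cfsg.Agent.S4115
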