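import Mathlib
import Cfsg.Statements.S4117
import Cfsg.Agent.FG.H94ZAct
-- import your own Cfsg.Agent.* helpers here

set_option autoImplicit false
open Cfsg

namespace Cfsg.Agent.S4117

open Subgroup Cfsg.Agent.GT.CopAct Cfsg.Agent.FG.ZAct


/-- Let A be a finite group acting on the finite group G by automorphisms with the orders of A and G coprime, and suppose every Sylow subgroup of G is cyclic. Then the fixed-point subgroup C_G(A) is a Hall subgroup of G (its order is coprime to its index), the subgroup [G, A] generated by the elements g⁻¹·a(g) is cyclic and normal with [G, A] ∩ C_G(A) = 1 and [G, A]·C_G(A) = G. -/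
theorem result {G A : Type*} [Group G] [Finite G] [Group A] [Finite A]
    [MulDistribMulAction A G] (hcop : (Nat.card A).Coprime (Nat.card G))
    (hcyc : ∀ (p : ℕ) [Fact p.Prime] (P : Sylow p G), IsCyclic (P : Subgroup G)) :
    (Nat.card (MulAction.fixedPoints A G : Set G)).Coprime (Nat.card G / Nat.card (MulAction.fixedPoints A G : Set G)) ∧
    IsCyclic (Subgroup.closure {y : G | ∃ (a : A) (g : G), y = g⁻¹ * a • g}) ∧
    (Subgroup.closure {y : G | ∃ (a : A) (g : G), y = g⁻¹ * a • g}).Normal ∧
    (Subgroup.closure {y : G | ∃ (a : A) (g : G), y = g⁻¹ * a • g} : Set G) ∩ MulAction.fixedPoints A G = {1} ∧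
    Subgroup.closure {y : G | ∃ (a : A) (g : G), y = g⁻¹ * a • g} ⊔ Subgroup.closure (MulAction.fixedPoints A G) = ⊤ := by
  have : IsZGroup G := ⟨fun p hp P => by have := Fact.mk hp; exact hcyc p P⟩
  let φ := MulDistribMulAction.toMulAut A G
  have h1 : Subgroup.closure {y : G | ∃ (a : A) (g : G), y = g⁻¹ * a • g} = actComm φ ⊤ := by
    unfold actComm
    congr 1
    ext y
    exact ⟨fun ⟨a, g, h⟩ => ⟨g, trivial, a, h⟩, fun ⟨g, _, a, h⟩ => ⟨a, g, h⟩⟩
  have h2 : MulAction.fixedPoints A G = (actFixed φ : Set G) := rfl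
  rw [h1, h2, closure_eq]
  refine ⟨?_, isCyclic_actComm φ, actComm_normal φ, ?_, (isComplement'_actComm hcop).sup_eq_top⟩
  · have h3 := coprime_actFixed_index (φ := φ) hcop
    change (Nat.card (actFixed φ)).Coprime (Nat.card G / Nat.card (actFixed φ))
    rwa [← (actFixed φ).card_mul_index, Nat.mul_div_cancel_left _ Nat.card_pos]
  · rw [← coe_inf, actComm_inf_actFixed hcop, coe_bot]

end Cfsg.Agent.S4117
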