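import Mathlib
import Cfsg.Statements.S4118
import Cfsg.Agent.FG.H94TIHall
import Cfsg.Agent.GT.ZassenhausThm
import Cfsg.Agent.GT.Quasisimple
import Cfsg.Agent.Inv.QuatAut
import Cfsg.Agent.Perm.CompLen
-- import your own Cfsg.Agent.* helpers here

set_option autoImplicit false
open Cfsg

namespace Cfsg.Agent.S4118

section aux
open Subgroup Cfsg.Agent.GT Cfsg.Agent.GT.Frob Cfsg.Agent.GT.CopAct

theorem solv_aut {P : Type*} [Group P] [Finite P] (h : HasFpfAction P) {p : ℕ} [Fact p.Prime]
    (hP : IsPGroup p P) : Group.IsSolvable (MulAut P) := by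
  rcases h.isCyclic_or_quaternion hP with hc | ⟨rfl, -⟩
  · exact Group.isSolvable_of_isSolvable_injective
      (f := (IsCyclic.mulAutMulEquiv P).toMonoidHom) (IsCyclic.mulAutMulEquiv P).injective
  · rcases h.isPGroup_mulAut_or hP with h1 | ⟨⟨e⟩⟩
    · have := h1.isNilpotent
      infer_instance
    · have := Perm.CompLen.isSolvable_of_card_lt_sixty (G := MulAut (QuaternionGroup 2))
        (lt_of_le_of_lt Inv.QA.card_mulAut_quaternion_two_le (by norm_num))
      exact Group.isSolvable_of_isSolvable_injective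
        (f := (MulAut.congr e).toMonoidHom) (MulAut.congr e).injective

theorem solv_of_normal {G : Type*} [Group G] [Finite G] (H : Subgroup G) [H.Normal]
    (h : HasFpfAction H) (hs : Group.IsSolvable H) (hc : (Nat.card H).Coprime H.index)
    (hC : centralizer (H : Set G) ≤ H) : Group.IsSolvable G := by
  obtain ⟨A, hA⟩ := exists_right_complement'_of_coprime hc
  by_cases hAs : Group.IsSolvable A
  · refine Group.isSolvable_of_ker_le_range H.subtype (QuotientGroup.mk' H) (by simp)
      (hG'' := Group.isSolvable_of_surjective (f := (QuotientGroup.mk' H).comp A.subtype) ?_)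
    intro q
    obtain ⟨g, rfl⟩ := QuotientGroup.mk_surjective q
    obtain ⟨⟨x, a⟩, rfl⟩ := hA.2 g
    refine ⟨a, ?_⟩
    simp [(QuotientGroup.eq_one_iff _).2 x.2]
  exfalso
  obtain ⟨R, hR, hRR⟩ := exists_perfect_of_not_isSolvable hAs
  set S := R.map A.subtype with hS
  have hSS : ⁅S, S⁆ = S := by rw [hS, ← map_commutator, hRR]
  have hSA : S ≤ A := map_subtype_le R
  have hcop : (Nat.card S).Coprime (Nat.card H) := by
    rw [hA.symm.index_eq_card] at hc
    exact hc.symm.coprime_dvd_left (card_dvd_of_le hSA)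
  have h1 : H ≤ centralizer (S : Set G) := by
    refine le_of_forall_invariant_pgroup_le le_normalizer_of_normal hcop (Or.inr hs)
      fun p _ P hPH hP hSP => le_centralizer_iff.1 ?_
    have h2 := solv_aut (h.of_injective (inclusion hPH) (inclusion_injective hPH)) hP
    have h3 : ⁅(⊤ : Subgroup S), (⊤ : Subgroup S)⁆ = ⊤ := by
      rw [← subgroupOf_self, commutator_subgroupOf le_rfl le_rfl, hSS]
    have h4 := perfect_le_ker_of_isSolvable h3 (conjHom hSP) inferInstance
    rw [conjHom_ker] at h4
    exact fun x hx => h4 (mem_top (⟨x, hx⟩ : S))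
  have h2 : S ≤ H ⊓ A := le_inf ((le_centralizer_iff.1 h1).trans hC) hSA
  rw [hA.disjoint.eq_bot, le_bot_iff, hS,
    map_eq_bot_iff_of_injective _ A.subtype_injective] at h2
  exact hR h2

end aux

/-- Let G be a finite group and H a non-normal subgroup meeting each of its conjugates by elements outside N_G(H) trivially, with the order of H coprime to its index in N_G(H); let π be the set of primes dividing the order of H and suppose G is π-separable (it has a chain of normal subgroups from 1 to G each of whose factors has order divisible only by primes in π or coprime to the order of H). Let O be the largest normal subgroup of G of order coprime to the order of H. Then G = O·N_G(H), O·H is normal in G, and G is solvable if and only if O is solvable and H has no subgroup isomorphic to SL₂(5). -/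
theorem result {G : Type*} [Group G] [Finite G] (H : Subgroup G)
    (hTI : Cfsg.IsTISubset (H : Set G)) (hnn : ¬ H.Normal)
    (hHall : (Nat.card H).Coprime (H.subgroupOf (Subgroup.normalizer (H : Set G))).index)
    (hsep : ∃ (n : ℕ) (M : Fin (n + 1) → Subgroup G), M 0 = ⊥ ∧ M (Fin.last n) = ⊤ ∧ Monotone M ∧ (∀ i, (M i).Normal) ∧
      ∀ i : Fin n, (∀ q : ℕ, q.Prime → q ∣ (M i.castSucc).relIndex (M i.succ) → q ∣ Nat.card H) ∨
        ((M i.castSucc).relIndex (M i.succ)).Coprime (Nat.card H))
    (O : Subgroup G) (hO : O = sSup {K : Subgroup G | K.Normal ∧ (Nat.card K).Coprime (Nat.card H)}) :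
    O ⊔ Subgroup.normalizer (H : Set G) = ⊤ ∧ (O ⊔ H).Normal ∧
    (Group.IsSolvable G ↔ Group.IsSolvable O ∧
      ∀ K : Subgroup G, K ≤ H → ¬ Nonempty (K ≃* Matrix.SpecialLinearGroup (Fin 2) (ZMod 5))) := by
  set π : Set ℕ := {p | p ∣ Nat.card H} with hπ
  have hsep' : GT.IsPiSeparable π G := by
    obtain ⟨n, M, h0, h1, h2, h3, h4⟩ := hsep
    exact ⟨n, M, h0, h1, h2, h3, fun i => (h4 i).imp id GT.isPiNum_compl_setOf_dvd_iff.2⟩
  have hO' : O = piCore πᶜ G := by
    rw [hO, piCore]
    congr 1
    ext K
    exact and_congr_right fun _ => GT.isPiNum_compl_setOf_dvd_iff.symm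
  subst hO'
  set O := piCore πᶜ G
  have hH := FG.TIH.isPiHall hTI hHall
  have h1 := FG.TIH.piCore_sup_normalizer hTI hH hsep'
  have h2 : (O ⊔ H).Normal := GT.normal_of_sup_eq_top h1 (le_sup_left.trans Subgroup.le_normalizer)
    (GT.CopAct.le_normalizer_sup Subgroup.le_normalizer_of_normal le_rfl)
  refine ⟨h1, h2, fun hs => ⟨inferInstance, fun K _ ⟨e⟩ => ?_⟩, fun ⟨hs, hK⟩ => ?_⟩
  · have := GT.Frob.sl2_five_isPerfect
    have : Nontrivial (Matrix.SpecialLinearGroup (Fin 2) (ZMod 5)) :=
      ⟨⟨1, -1, fun h => absurd (congrArg (fun A => A.1 0 0) h) (by decide)⟩⟩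
    exact Group.IsPerfect.not_isSolvable _
      (Group.isSolvable_of_surjective (f := e.toMonoidHom) e.surjective)
  have hcop : (Nat.card H).Coprime (Nat.card O) := hH.card.coprime (GT.isPiNum_piCore _)
  have hF : GT.Frob.HasFpfAction H :=
    FG.TIH.hasFpfAction hTI Subgroup.le_normalizer_of_normal hcop fun h => hnn (by
      rw [← Subgroup.normalizer_eq_top_iff, ← h1, sup_eq_right.2 h])
  have hHs : Group.IsSolvable H := by
    by_contra hns
    obtain ⟨f, hf, -⟩ := hF.exists_normal_sl2_five hns
    exact hK (H.subtype.comp f).range (by rintro _ ⟨x, rfl⟩; exact (f x).2)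
      ⟨(MonoidHom.ofInjective (f := H.subtype.comp f) (H.subtype_injective.comp hf)).symm⟩
  set Hb := H.map (QuotientGroup.mk' O) with hHb
  have hn : Hb.Normal := by
    rw [hHb, ← GT.map_mk'_sup, sup_comm]; exact GT.normal_map_mk' _
  have hHb' : IsPiHall π Hb := hH.map_of_surjective (QuotientGroup.mk'_surjective O)
  have hinj : Function.Injective ((QuotientGroup.mk' O).subgroupMap H) := by
    rw [injective_iff_map_eq_one]
    intro x hx
    exact Subtype.ext (GT.CopAct.eq_one_of_coprime hcop x.2
      ((QuotientGroup.eq_one_iff _).1 (congrArg Subtype.val hx)))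
  have hs2 := solv_of_normal Hb (hF.of_mulEquiv (MulEquiv.ofBijective _
    ⟨hinj, MonoidHom.subgroupMap_surjective _ _⟩)) (GT.HT.isSolvable_map _ hHs) hHb'.coprime (by
      rw [← GT.piCore_eq_of_isPiHall hHb']
      exact (hsep'.quotient O).centralizer_piCore_le GT.piCore_quotient_piCore)
  exact Group.isSolvable_of_ker_le_range O.subtype (QuotientGroup.mk' O) (by simp)

end Cfsg.Agent.S4118
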