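import Mathlib
import Cfsg.Statements.S4120
import Cfsg.Agent.GT.FrobAutNil
import Cfsg.Agent.GT.FrobeniusBasic
import Cfsg.Agent.S0042

set_option autoImplicit false
open Cfsg

namespace Cfsg.Agent.S4120

/-- Let the finite group A act faithfully on the finite group G by automorphisms, and suppose A is a Frobenius group with kernel F and complement H such that F fixes only the identity of G. If the fixed-point subgroup C_G(H) is nilpotent, then G is nilpotent. -/
theorem result {G A : Type*} [Group G] [Finite G] [Group A] [Finite A] [MulDistribMulAction A G] [FaithfulSMul A G]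
    (Fk Hc : Subgroup A) [Fk.Normal] (hHc : Cfsg.IsFrobeniusComplement Hc) (hker : Cfsg.frobeniusKernel Hc = (Fk : Set A))
    (hCF : ∀ g : G, (∀ f ∈ Fk, f • g = g) → g = 1) (hnil : Group.IsNilpotent (Subgroup.closure {g : G | ∀ h ∈ Hc, h • g = g})) : Group.IsNilpotent G := by
  obtain ⟨N, h1, -, h2⟩ := S0042.result Hc hHc
  obtain rfl : N = Fk := SetLike.coe_injective (h1.trans hker)
  refine GT.FrobAut.Hy.isNilpotent (φ := MulDistribMulAction.toMulAut A G) (F := N) (H := Hc)
    ⟨⟨inferInstance, fun h hh h0 f hf e => hHc.eq_one_of_commute (x := f) (y := h) (hker ▸ hf)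
      (fun a => h0 (GT.Frob.eq_one_of_mem_frobeniusKernel a hh)) e.symm, ?_⟩, h2, hCF, ?_⟩
  · rw [hHc.card_eq_index_of_coe_eq h1]; exact hHc.coprime_card_index
  · refine GT.FrobAut.isNilpotent_of_injective _ (Subgroup.inclusion_injective
      (show GT.FrobAut.Cx (MulDistribMulAction.toMulAut A G) Hc ≤ Subgroup.closure {g : G | ∀ h ∈ Hc, h • g = g} from fun x hx =>
        Subgroup.subset_closure fun h hh => hx ⟨h, hh⟩))

end Cfsg.Agent.S4120
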