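import Mathlib
import Cfsg.Statements.S4127
import Cfsg.Agent.GT.Conj
import Cfsg.Agent.GT.PGroupBasic
import Cfsg.Agent.FG.ClassIdx
import Cfsg.Agent.GT.CoprimeNilp
import Cfsg.Agent.GT.TransferFrobenius
import Cfsg.Agent.GT.Cores
-- import your own Cfsg.Agent.* helpers here

set_option autoImplicit false
open Cfsg

namespace Cfsg.Agent.S4127

open Subgroup Cfsg.Agent.FG.CI


/-- Let G be a finite group, p a prime and p^a the largest power of p dividing the size of any conjugacy class of G. If some element of p-power order has a conjugacy class of size exactly p^a, then G has a normal p-complement. -/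
theorem result {G : Type*} [Group G] [Finite G] (p : ℕ) [Fact p.Prime]
    (a : ℕ) (hmax : ∀ y : G, ¬ p ^ (a + 1) ∣ (Subgroup.centralizer ({y} : Set G)).index)
    (hx : ∃ x : G, (∃ k : ℕ, orderOf x = p ^ k) ∧ (Subgroup.centralizer ({x} : Set G)).index = p ^ a) :
    Cfsg.HasNormalPComplement p G := by
  obtain ⟨x, hx, hxa⟩ := hx
  have hp : p.Prime := Fact.out
  have hxO : x ∈ pCore p G := mem_pCore_of_cidx_pow hx ⟨a, hxa⟩
  set C := centralizer ({x} : Set G) with hC
  obtain ⟨P⟩ : Nonempty (Sylow p C) := inferInstance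
  have h1 : (P : Subgroup C) ⊔ centralizer ((P : Subgroup C) : Set C) = ⊤ := by
    apply sylow_sup_centralizer_eq_top
    intro y hy hd
    obtain ⟨k, hk⟩ := hx
    have hc : Commute x y := (mem_cent_commute.1 y.2).symm
    have h2 := cidx_mul_of_coprime hc (by
      rw [hk, Subgroup.orderOf_coe]; exact hy.symm.pow_left k)
    apply hmax (x * y)
    change p ^ (a + 1) ∣ cidx _
    rw [h2, ← cidx_coe, pow_succ']
    exact mul_dvd_mul hd (hxa ▸ dvd_rfl)
  have hn : (centralizer ((P : Subgroup C) : Set C)).Normal :=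
    GT.normal_of_sup_eq_top h1 (GT.PG.le_normalizer_centralizer le_normalizer) le_normalizer
  have h2 : ∀ y : C, (orderOf y).Coprime p → y ∈ centralizer ((P : Subgroup C) : Set C) := by
    intro y hy
    apply GT.mem_of_coprime_orderOf_index
    rw [← relIndex_top_right, ← h1, relIndex_sup_right]
    obtain ⟨k, hk⟩ := P.isPGroup'.index ((centralizer ((P : Subgroup C) : Set C)).subgroupOf P)
    rw [relIndex, hk]
    exact hy.pow_right k
  have h3 : HasNormalPComplement p C := GT.Tr.frobenius_of_sylow P fun Q hQ _ g _ hg =>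
    GT.centralizer_anti hQ (h2 g hg)
  set E := centralizer (pCore p G : Set G) with hE
  have hEC : E ≤ C := GT.centralizer_le_centralizer_singleton hxO
  have h4 : ∀ y ∈ C, (orderOf y).Coprime p → y ∈ E := by
    intro y hyC hy
    have h5 : y ∈ centralizer (((P : Subgroup C).map C.subtype : Subgroup G) : Set G) := by
      rw [mem_centralizer_iff]
      rintro _ ⟨u, hu, rfl⟩
      exact congrArg Subtype.val (mem_centralizer_iff.1
        (h2 ⟨y, hyC⟩ (by rwa [Subgroup.orderOf_mk])) u hu)
    have h6 : pCore p G ⊓ C ≤ (P : Subgroup C).map C.subtype :=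
      (GT.pCore_inf_le C).trans (GT.pCoreOf_le_sylow P)
    refine zpowers_le.1 (GT.CopAct.thompson_times (P.isPGroup'.map C.subtype)
      (by rwa [Nat.card_zpowers]) (GT.isPGroup_pCore p) ?_ ?_ ?_ ?_)
    · rw [GT.centralizer_zpowers, le_cent_iff]; exact h5
    · rw [normalizer_eq_top]; exact le_top
    · rw [normalizer_eq_top]; exact le_top
    · rw [GT.centralizer_zpowers]
      refine le_trans ?_ (h6.trans (le_cent_iff.2 h5))
      exact inf_le_inf_left _ (GT.centralizer_le_centralizer_singleton (h6 ⟨hxO, self_mem_cent x⟩))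
  have h5 : ∃ k, E.index = p ^ k := by
    refine ⟨_, Nat.eq_prime_pow_of_unique_prime_dvd index_ne_zero_of_finite fun {q} hq hd => ?_⟩
    by_contra hqp
    have := Fact.mk hq
    obtain ⟨Q, hQ⟩ := (not_dvd_index_iff (p := q) C).1 (by
      rw [hxa]; exact fun h => hqp ((Nat.prime_dvd_prime_iff_eq hq hp).1 (hq.dvd_of_dvd_pow h)))
    refine (not_dvd_index_iff E).2 ⟨Q, fun y hy => h4 y (hQ hy) ?_⟩ hd
    obtain ⟨k, hk⟩ := orderOf_of_mem Q.isPGroup' hy
    rw [hk]
    exact ((Nat.coprime_primes hq hp).2 hqp).pow_left k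
  obtain ⟨k, hk⟩ := h5
  exact GT.Tr.hasNormalPComplement_of_pResidual_le (GT.Tr.pResidual_le_of_index hk) (h3.of_le hEC)

end Cfsg.Agent.S4127
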