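import Mathlib
import Cfsg.Statements.S4167
import Cfsg.Agent.FG.ClassIdx
import Cfsg.Agent.FG.H93Solv
import Cfsg.Agent.FG.WithFT
import Cfsg.Agent.GT.Conj
import Cfsg.Agent.GT.TransferSylow
import Cfsg.Agent.S0111
-- import your own Cfsg.Agent.* helpers here

set_option autoImplicit false
open Cfsg

namespace Cfsg.Agent.S4167

open Subgroup Cfsg.Agent.FG.CI


/-- Let G be a finite group in which no conjugacy class has size divisible by 4. Then G is solvable. -/
theorem result {G : Type*} [Group G] [Finite G]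
    (h : ∀ x : G, ¬ 4 ∣ (Subgroup.centralizer ({x} : Set G)).index) : Group.IsSolvable G := by
  refine FG.H93.isSolvable_of_simple_sections
    (P := fun G _ _ => ∀ x : G, ¬ 4 ∣ cidx x) ?_ ?_ ?_ G h
  · intro G _ _ N _ h x hx
    exact h x (hx.trans (cidx_coe_dvd N x))
  · intro G _ _ N _ h x hx
    obtain ⟨x, rfl⟩ := QuotientGroup.mk_surjective x
    exact h x (hx.trans (cidx_mk_dvd N x))
  intro G _ _ _ h
  by_contra hns
  have h2 : 2 ∣ Nat.card G := by
    by_contra h2
    exact hns (FG.ft_solvable_of_not_two_dvd h2)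
  obtain ⟨t, ht⟩ := exists_prime_orderOf_dvd_card' 2 h2
  have hc : t ∈ center G := by
    apply mem_center_of_forall_exists_conj
    intro x
    obtain ⟨T, -, hTC, hT, hTi⟩ := GT.Tr.exists_sylowIn_ge (p := 2) (T := ⊥)
      (H := centralizer ({x} : Set G)) IsPGroup.of_bot bot_le
    obtain ⟨P, hP⟩ := hT.exists_le_sylow
    obtain ⟨c, hc⟩ := exists_conj_mem_sylow P ⟨1, by rw [ht, pow_one]⟩
    by_cases hu : c * t * c⁻¹ ∈ T
    · exact ⟨c, hTC hu⟩
    have hi : T.relIndex P = 2 := by
      obtain ⟨k, hk⟩ := P.isPGroup'.index (T.subgroupOf P)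
      change T.relIndex P = _ at hk
      have h3 : T.relIndex P ∣ T.relIndex (centralizer ({x} : Set G)) * cidx x := by
        rw [relIndex_mul_index hTC, ← relIndex_mul_index hP]
        exact Dvd.intro _ rfl
      rw [hk] at h3 ⊢
      have h4 : 2 ^ k ∣ cidx x := (Nat.Coprime.pow_left k
        ((Nat.Prime.coprime_iff_not_dvd Nat.prime_two).2 hTi)).dvd_of_dvd_mul_left h3
      rcases k with _ | _ | k
      · exact absurd (relIndex_eq_one.1 hk hc) hu
      · rfl
      · exact absurd ((Dvd.intro (2 ^ k) (by ring)).trans h4) (h x)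
    rcases Cfsg.Agent.S0111.result P T hP hi (c * t * c⁻¹) (by rw [GT.orderOf_conj, ht]) hc hu with
      ⟨M, hM, hMi, -⟩ | ⟨g, hg⟩
    · rcases hM.eq_bot_or_eq_top with rfl | rfl
      · exact absurd (FG.H93.isSolvable_of_prime_card (by
          rw [← index_bot, hMi]; exact Nat.prime_two)) hns
      · simp at hMi
    · exact ⟨g * c, hTC (by simpa [mul_assoc] using hg)⟩
  rcases (inferInstance : (center G).Normal).eq_bot_or_eq_top with h3 | h3
  · rw [h3, mem_bot] at hc
    rw [hc, orderOf_one] at ht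
    exact absurd ht (by decide)
  · exact hns (Group.isSolvable_of_comm fun a b => Subgroup.mem_center_iff.1 (h3 ▸ mem_top b) a)

end Cfsg.Agent.S4167
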