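import Mathlib
import Cfsg.Statements.S4130
import Cfsg.Agent.S4167
import Cfsg.Agent.FG.H94Breadth
import Cfsg.Agent.FG.H92Basic
import Cfsg.Agent.GT.Supersolvable2
import Cfsg.Agent.GT.Fitting
import Cfsg.Agent.GT.CoprimeProd
import Cfsg.Agent.GT.TransferEval
-- import your own Cfsg.Agent.* helpers here

set_option autoImplicit false
open Cfsg

namespace Cfsg.Agent.S4130

section aux

open Subgroup Cfsg.Agent.GT Cfsg.Agent.FG.CI Cfsg.Agent.FG.Breadth
open scoped commutatorElement

universe u

variable {G : Type u} [Group G] [Finite G]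

theorem relIndex_dvd (h : ∀ x : G, Squarefree (cidx x)) {p : ℕ} [hp : Fact p.Prime]
    {P : Subgroup G} [P.Normal] (hP : IsPGroup p P) (x : G) : (centralizer {x}).relIndex P ∣ p := by
  obtain ⟨n, hn⟩ := PG.relIndex_eq_pow_of_isPGroup hP (centralizer {x})
  have h1 := (h x).squarefree_of_dvd (relIndex_cent_dvd P x)
  rw [hn] at h1 ⊢
  rcases n with _ | n
  · simp
  · rw [show n + 1 = 1 from ((Nat.squarefree_pow_iff hp.out.ne_one n.succ_ne_zero).1 h1).2,
      pow_one]

omit [Finite G] in
theorem quot (h : ∀ x : G, Squarefree (cidx x)) (N : Subgroup G) [N.Normal] (x : G ⧸ N) :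
    Squarefree (cidx x) := by
  obtain ⟨x, rfl⟩ := QuotientGroup.mk_surjective x
  exact (h x).squarefree_of_dvd (cidx_mk_dvd N x)

theorem supersolvable [Group.IsSolvable G] (h : ∀ x : G, Squarefree (cidx x)) :
    IsSupersolvable G := by
  revert h
  refine solvable_induction (P := fun G _ _ _ => (∀ x : G, Squarefree (cidx x)) →
    IsSupersolvable G) (fun G _ _ _ _ _ => SS.of_subsingleton) ?_ G
  intro G _ _ _ N _ p hp hN hE ih h
  have := Fact.mk hp
  have hNp := CopAct.isPGroup_of_isElementaryAbelian hE
  have hcen : N ≤ center G → IsCyclic N := fun hc => by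
    obtain ⟨⟨x, hx⟩, hx1⟩ := Subgroup.ne_bot_iff_exists_ne_one.1 hN.ne_bot
    have : (zpowers x).Normal := FG.H92.normal_of_le_center (zpowers_le.2 (hc hx))
    rcases hN.eq_bot_or_eq (zpowers_le.2 hx) with h1 | h1
    · exact absurd (Subtype.ext (zpowers_eq_bot.1 h1)) hx1
    · rw [← h1]; infer_instance
  have : IsCyclic N := by
    rcases relIndex_or_card hp N ((commutator_le_left N ⊤).trans
      (PG.isMulCommutative_iff_le_centralizer.1 hE.1)) (relIndex_dvd h hNp) with h1 | h1
    · rcases hN.le_or_inf_eq_bot (center G) with h2 | h2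
      · exact hcen h2
      · rw [← inf_relIndex_left, h2, relIndex_bot_left] at h1
        exact isCyclic_of_card_dvd_prime h1
    · rcases hN.eq_bot_or_eq (commutator_le_left N ⊤) with h2 | h2
      · refine hcen ?_
        rwa [Subgroup.commutator_eq_bot_iff_le_centralizer, coe_top, centralizer_univ] at h2
      · rw [h2] at h1
        exact isCyclic_of_card_dvd_prime h1
  exact SS.of_cyclic_normal N (ih (quot h N))

theorem card_dvd_of_core [Group.IsSolvable G] (h : ∀ x : G, Squarefree (cidx x)) {p : ℕ}
    [hp : Fact p.Prime] (hO : pPrimeCore p G = ⊥) : Nat.card (commutator G) ∣ p := by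
  have := SS.isNilpotent_commutator (supersolvable h)
  have h1 : commutator G ≤ pCore p G := fitting_eq_pCore hp.out hO ▸ le_fitting _
  obtain ⟨P⟩ : Nonempty (Sylow p G) := inferInstance
  have h2 : commutator G ≤ P := h1.trans (pCore_le_sylow P)
  have : (P : Subgroup G).Normal := Normal.of_commutator_le G h2
  have hC : centralizer ((P : Subgroup G) : Set G) ≤ P := by
    have := centralizer_pCore_le hp.out hO
    rwa [pCore_eq_sylow P] at this
  have hi := relIndex_dvd h P.isPGroup'
  by_cases hab : IsMulCommutative (P : Subgroup G)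
  · have hab' := PG.isMulCommutative_iff_le_centralizer.1 hab
    rcases relIndex_or_card hp.out (P : Subgroup G) ((commutator_le_left _ ⊤).trans hab') hi
      with h3 | h3
    · have h4 := Tr.sylow_inf_commutator_inf_center_le P
      rw [Subgroup.commutator_eq_bot_iff_le_centralizer.2 hab', inf_eq_right.2 h2, le_bot_iff] at h4
      refine Dvd.dvd.trans ?_ h3
      rw [← relIndex_bot_left, ← h4, inf_relIndex_left]
      exact relIndex_dvd_relIndex_of_le_normalizer _ h2 (by rw [normalizer_eq_top]; exact le_top)
    · refine (card_dvd_of_le ?_).trans h3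
      let π := QuotientGroup.mk' (⁅(P : Subgroup G), ⊤⁆ : Subgroup G)
      have hs : Function.Surjective π := QuotientGroup.mk'_surjective _
      have h5 : (P : Subgroup G).map π ≤ center _ := by
        rintro _ ⟨g, hg, rfl⟩
        refine Subgroup.mem_center_iff.2 fun y => ?_
        obtain ⟨y, rfl⟩ := hs y
        rw [eq_comm, ← commutatorElement_eq_one_iff_mul_comm, ← map_commutatorElement]
        exact (QuotientGroup.eq_one_iff _).2 (commutator_mem_commutator hg (mem_top y))
      have h4 := Tr.sylow_inf_commutator_inf_center_le (P.mapSurjective hs)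
      rw [Sylow.coe_mapSurjective, Subgroup.commutator_eq_bot_iff_le_centralizer.2
        (h5.trans (center_le_centralizer _))] at h4
      intro g hg
      have h6 : π g ∈ commutator _ := by
        rw [_root_.commutator_def, ← map_top_of_surjective π hs, ← Subgroup.map_commutator]
        exact mem_map_of_mem π hg
      exact (QuotientGroup.eq_one_iff _).1
        (mem_bot.1 (h4 ⟨⟨mem_map_of_mem π (h2 hg), h6⟩, h5 (mem_map_of_mem π (h2 hg))⟩))
  have hG : IsPGroup p G := by
    by_contra hG
    obtain ⟨q, hq, hqG, hqp⟩ : ∃ q : ℕ, q.Prime ∧ q ∣ Nat.card G ∧ q ≠ p := by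
      by_contra! h3
      exact hG (IsPGroup.of_card
        (Nat.eq_prime_pow_of_unique_prime_dvd Nat.card_pos.ne' fun hq hd => h3 _ hq hd))
    have := Fact.mk hq
    obtain ⟨y, hy⟩ := exists_prime_orderOf_dvd_card' q hqG
    have hcop : ∀ x ∈ (P : Subgroup G), (orderOf x).Coprime (orderOf y) := fun x hx => by
      obtain ⟨k, hk⟩ := orderOf_of_mem P.isPGroup' hx
      rw [hk, hy]
      exact ((Nat.coprime_primes hp.out hq).2 hqp.symm).pow_left k
    have hyP : ¬ (P : Subgroup G) ≤ centralizer {y} := fun e => by
      have := hcop y (hC (le_cent_iff.1 e))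
      rw [hy, Nat.coprime_self] at this
      exact hq.ne_one this
    have hcz : centralizer (zpowers y : Set G) = centralizer {y} := by
      rw [zpowers_eq_closure, centralizer_closure]
    have hyn : zpowers y ≤ normalizer ((P : Subgroup G) : Set G) := by
      rw [normalizer_eq_top]; exact le_top
    have hc : (Nat.card (zpowers y)).Coprime (Nat.card (P : Subgroup G)) := by
      obtain ⟨k, hk⟩ := P.isPGroup'.exists_card_eq
      rw [Nat.card_zpowers, hy, hk]
      exact ((Nat.coprime_primes hq hp.out).2 hqp).pow_right k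
    have h3 := CopAct.card_commutator_of_relIndex_prime hyn hc
      (Or.inl (CopAct.isSolvable_zpowers y)) hp.out (by
        rw [inf_relIndex_left, hcz]
        exact ((Nat.dvd_prime hp.out).1 (hi y)).resolve_left fun e => hyP (relIndex_eq_one.1 e))
    have h4 := PG.le_centralizer_of_card_prime h3 P.isPGroup' (normalizer_commutator_ge_left _ _)
    have h5 := CopAct.commutator_sup_centralizer hyn hc (Or.inl (CopAct.isSolvable_zpowers y))
    rw [hcz] at h5
    have h6 : ¬ (P : Subgroup G) ⊓ centralizer {y} ≤ centralizer ((P : Subgroup G) : Set G) :=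
      fun e => hab (PG.isMulCommutative_iff_le_centralizer.2
        (h5.ge.trans (sup_le (le_centralizer_iff.1 h4) e)))
    obtain ⟨x, ⟨hxP, hxy⟩, hx⟩ := SetLike.not_le_iff_exists.1 h6
    have h7 := hi (x * y)
    rw [cent_mul_of_coprime (mem_cent_commute.1 hxy) (hcop x hxP)] at h7
    have h8 := eq_of_relIndex_dvd hp.out h7 inf_le_left fun e => hx (le_cent_iff.1 e)
    refine hyP (h5.ge.trans (sup_le ?_ inf_le_right))
    refine (le_inf (commutator_le_left _ _) (le_cent_iff.2 (h4 hxP))).trans
      (h8.trans inf_le_right)
  refine knoche hG fun x => ?_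
  have := relIndex_dvd h (hG.to_subgroup ⊤) x
  rwa [relIndex_top_right] at this

theorem squarefree_card [Group.IsSolvable G] (h : ∀ x : G, Squarefree (cidx x)) :
    Squarefree (Nat.card (commutator G)) := by
  rw [Nat.squarefree_iff_prime_squarefree]
  intro p hp hd
  have := Fact.mk hp
  let π := QuotientGroup.mk' (pPrimeCore p G)
  have h1 := card_dvd_of_core (quot h (pPrimeCore p G)) (pPrimeCore_quotient_pPrimeCore (p := p))
  rw [_root_.commutator_def, ← map_top_of_surjective π (QuotientGroup.mk'_surjective _),
    ← Subgroup.map_commutator, ← relIndex_ker, QuotientGroup.ker_mk', ← _root_.commutator_def] at h1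
  rw [← PG.relIndex_mul_card_inf (pPrimeCore p G)] at hd
  have h2 : (p * p).Coprime (Nat.card (pPrimeCore p G ⊓ commutator G : Subgroup G)) := by
    have := ((coprime_card_pPrimeCore (G := G) p).coprime_dvd_left
      (card_dvd_of_le (inf_le_left (b := commutator G)))).symm
    exact this.mul_left this
  have h3 := Nat.le_of_dvd hp.pos ((h2.dvd_of_dvd_mul_right hd).trans h1)
  nlinarith [hp.two_le]

end aux


/-- Let G be a finite group all of whose conjugacy class sizes are square-free. Then G is supersolvable, G/F(G) and the derived subgroup G′ are cyclic of square-free order (F(G) the Fitting subgroup, which is normal), F(G) has nilpotency class at most 2, and G is metabelian. -/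
theorem result {G : Type*} [Group G] [Finite G]
    (h : ∀ x : G, Squarefree (Subgroup.centralizer ({x} : Set G)).index) :
    Cfsg.IsSupersolvable G ∧ (Cfsg.fittingSubgroup G).Normal ∧
    (∀ _h : (Cfsg.fittingSubgroup G).Normal, IsCyclic (G ⧸ Cfsg.fittingSubgroup G) ∧ Squarefree (Cfsg.fittingSubgroup G).index) ∧
    IsCyclic (commutator G) ∧ Squarefree (Nat.card (commutator G)) ∧
    Subgroup.upperCentralSeries ↥(Cfsg.fittingSubgroup G) 2 = ⊤ ∧ commutator ↥(commutator G) = ⊥ := by
  have hs : Group.IsSolvable G := Cfsg.Agent.S4167.result fun x hx =>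
    (Nat.squarefree_iff_prime_squarefree.1 (h x)) 2 Nat.prime_two hx
  have hss := supersolvable h
  have hsq := squarefree_card h
  have hnil := GT.SS.isNilpotent_commutator hss
  have hz := IsZGroup.of_squarefree hsq
  have hcyc : IsCyclic (commutator G) := inferInstance
  have hle : commutator G ≤ fittingSubgroup G := GT.le_fitting _
  have hFC : fittingSubgroup G ≤ Subgroup.centralizer (commutator G : Set G) := by
    rw [Subgroup.le_centralizer_iff]
    refine GT.le_of_forall_sylow_le fun p hp hd => ?_
    have := Fact.mk hp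
    obtain ⟨P⟩ : Nonempty (Sylow p (commutator G)) := inferInstance
    refine ⟨P, ?_⟩
    have hP : (P : Subgroup (commutator G)).Normal := GT.isNilpotent_iff_sylow_normal.1 hnil p this P
    have := GT.SS.normal_map_sylow_of_normal P hP
    rw [Subgroup.le_centralizer_iff]
    refine (GT.isMinNormal_of_card_prime ?_).fitting_le_centralizer
    rw [Subgroup.card_subtype, P.card_eq_multiplicity, Nat.factorization_eq_one_of_squarefree hsq hp hd,
      pow_one]
    exact hp
  have hucs : ∀ K : Subgroup G, K ≤ Subgroup.centralizer (commutator G : Set G) →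
      Subgroup.upperCentralSeries K 2 = ⊤ := by
    intro K hK
    rw [eq_top_iff]
    intro x _
    rw [Subgroup.mem_upperCentralSeries_succ_iff]
    intro y
    rw [Subgroup.upperCentralSeries_one, Subgroup.mem_center_iff]
    intro z
    exact Subtype.ext (Subgroup.mem_centralizer_iff.1 (hK z.2) _
      (Subgroup.commutator_mem_commutator (Subgroup.mem_top (x : G)) (Subgroup.mem_top (y : G)))).symm
  have hF : fittingSubgroup G = Subgroup.centralizer (commutator G : Set G) := by
    have : Group.IsNilpotent (Subgroup.centralizer (commutator G : Set G)) := ⟨2, hucs _ le_rfl⟩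
    exact le_antisymm hFC (GT.le_fitting _)
  have hi : Squarefree (fittingSubgroup G).index := by
    obtain ⟨y, hy⟩ := (Subgroup.isCyclic_iff_exists_zpowers_eq_top _).1 hcyc
    rw [hF, ← hy, Subgroup.zpowers_eq_closure, Subgroup.centralizer_closure]
    exact h y
  refine ⟨hss, inferInstance, fun _ => ⟨?_, hi⟩, hcyc, hsq, hucs _ hFC, ?_⟩
  · have := IsZGroup.of_squarefree (G := G ⧸ fittingSubgroup G) hi
    have := Subgroup.Normal.quotient_commutative_iff_commutator_le.2 hle
    have := GT.isNilpotent_of_isMulCommutative (G := G ⧸ fittingSubgroup G)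
    infer_instance
  · rw [commutator_eq_bot_iff_center_eq_top, eq_top_iff]
    exact fun g _ => Subgroup.mem_center_iff.2 fun x => IsCyclic.commGroup.mul_comm x g

end Cfsg.Agent.S4130
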