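import Mathlib
import Cfsg.Statements.S4135
import Cfsg.Agent.FG.ClassIdx
import Cfsg.Agent.GT.Conj
import Cfsg.Agent.GT.MinNormal
import Cfsg.Agent.GT.TransferEval
import Cfsg.Agent.GT.TransferSylow
import Cfsg.Agent.FT.Pi
import Cfsg.Agent.S0205
-- import your own Cfsg.Agent.* helpers here

set_option autoImplicit false
open Cfsg

namespace Cfsg.Agent.S4135

section
open Subgroup Cfsg.Agent.FG.CI Cfsg.Agent.GT
open scoped commutatorElement

variable {G : Type*} [Group G] [Finite G] {N : Subgroup G} {m : ℕ}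

theorem eq_of_le (h : ∀ x ∈ N, cidx x = 1 ∨ cidx x = m) {u v : G} (hu : u ∈ N) (hv : v ∈ N)
    (hv' : v ∉ center G) (hle : centralizer ({u} : Set G) ≤ centralizer {v}) :
    centralizer ({u} : Set G) = centralizer {v} := by
  have hu' : u ∉ center G := fun hz =>
    hv' (cent_eq_top_iff.1 (top_le_iff.1 ((cent_eq_top_iff.2 hz).ge.trans hle)))
  have e1 := (h u hu).resolve_left fun e => hu' (cidx_eq_one_iff.1 e)
  have e2 := (h v hv).resolve_left fun e => hv' (cidx_eq_one_iff.1 e)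
  refine eq_of_le_of_card_ge hle (le_of_eq ?_)
  have a1 := card_cent_mul_cidx u
  have a2 := card_cent_mul_cidx v
  rw [e1, ← a2, e2] at a1
  exact (Nat.eq_of_mul_eq_mul_right (e1 ▸ cidx_pos u) a1).symm

theorem le_of_cop (h : ∀ x ∈ N, cidx x = 1 ∨ cidx x = m) {u v : G} (hu : u ∈ N) (hv : v ∈ N)
    (hu' : u ∉ center G) (hc : Commute u v) (hco : (orderOf u).Coprime (orderOf v)) :
    centralizer ({u} : Set G) ≤ centralizer {v} := by
  have e := cent_mul_of_coprime hc hco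
  rw [← eq_of_le h (mul_mem hu hv) hu hu' (e ▸ inf_le_left), e]
  exact inf_le_right

theorem le_cent_of_not_dvd [N.Normal] (h : ∀ x ∈ N, cidx x = 1 ∨ cidx x = m) {l : ℕ}
    [hl : Fact l.Prime] {a : G} (ha : a ∈ N) (ha' : a ∉ center G) (ho : ∃ k, orderOf a = l ^ k)
    (hd : ¬ l ∣ cidx a) : N ≤ centralizer {a} := by
  have e := (h a ha).resolve_left fun e => ha' (cidx_eq_one_iff.1 e)
  have hp : IsPGroup l (zpowers (⟨a, ha⟩ : N)) := isPGroup_zpowers (by simpa using ho)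
  obtain ⟨Q, hQ⟩ := hp.exists_le_sylow
  have := sylow_le_center_of_forall_not_dvd Q (fun x hx => by
    rcases h x x.2 with e' | e'
    · exact hl.out.ne_one (Nat.dvd_one.1 (e' ▸ hx.trans (cidx_coe_dvd N x)))
    · exact hd (e ▸ e' ▸ hx.trans (cidx_coe_dvd N x))) (hQ (mem_zpowers _))
  exact fun y hy => mem_cent.2 (congrArg Subtype.val (mem_center_iff.1 this ⟨y, hy⟩))

theorem cop_pow {r s : ℕ} (hr : r.Prime) (hs : s.Prime) (hrs : r ≠ s) {x y : G}
    (hx : ∃ k, orderOf x = r ^ k) (hy : ∃ k, orderOf y = s ^ k) :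
    (orderOf x).Coprime (orderOf y) := by
  obtain ⟨i, hi⟩ := hx
  obtain ⟨j, hj⟩ := hy
  rw [hi, hj]
  exact Nat.coprime_pow_primes _ _ hr hs hrs

/-- The configuration of a common centralizer. -/
structure Cf (N C : Subgroup G) : Prop where
  ab : ∀ a ∈ N, a ∈ C → C ≤ centralizer {a}
  eq : ∀ a ∈ N, a ∈ C → a ∉ center G → centralizer {a} = C

theorem Cf.comm {C : Subgroup G} (h : Cf N C) {a b : G} (ha : a ∈ N ⊓ C) (hb : b ∈ N ⊓ C) :
    a * b = b * a := mem_cent.1 (h.ab b hb.1 hb.2 ha.2)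

theorem Cf.not_dvd [N.Normal] {C : Subgroup G} (h : Cf N C) {l : ℕ} [hl : Fact l.Prime] {a : G}
    (ha : a ∈ N ⊓ C) (ha' : a ∉ center G) (ho : ∃ k, orderOf a = l ^ k)
    (hS : ∀ P : Subgroup G, IsPGroup l P → P ≤ normalizer (C : Set G) → P ≤ C) :
    ¬ l ∣ cidx a := by
  obtain ⟨P, hP⟩ := (isPGroup_zpowers ho).exists_le_sylow
  have haP := hP (mem_zpowers a)
  refine not_dvd_cidx_of_sylow_le P ?_
  rw [h.eq a ha.1 ha.2 ha']
  by_contra hPC
  have hlt : (P : Subgroup G) ⊓ C < P := inf_lt_left.2 hPC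
  refine (Tr.lt_inf_normalizer P.isPGroup' hlt).not_ge (le_inf inf_le_left ?_)
  refine hS _ (P.isPGroup'.to_le inf_le_left) fun g hg => ?_
  have h1 := conj_mem_of_mem_normalizer hg.2 (show a ∈ (P : Subgroup G) ⊓ C from ⟨haP, ha.2⟩)
  have h2 := h.eq _ (Normal.conj_mem inferInstance a ha.1 g) h1.2 (fun hz => ha' (by
    have := Normal.conj_mem inferInstance _ hz g⁻¹
    simpa [mul_assoc] using this))
  rw [centralizer_singleton_conj, h.eq a ha.1 ha.2 ha'] at h2
  exact map_conj_eq_self_iff.1 h2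

theorem Cf.of_K [N.Normal] {C K : Subgroup G} (h : Cf N C) {l t : ℕ} [hl : Fact l.Prime]
    (ht : t.Prime) (hlt : l ≠ t) {a : G}
    (ha : a ∈ N ⊓ C) (ha' : a ∉ center G) (ho : ∃ k, orderOf a = l ^ k)
    (hAK : N ⊓ C < K) (hKN : K ≤ N ⊓ normalizer (C : Set G))
    (hHK : normalizer (C : Set G) ≤ normalizer (K : Set G))
    (hK : ∀ g ∈ K, ∃ k, g ^ t ^ k ∈ N ⊓ C) (P : Subgroup G) (hP : IsPGroup l P)
    (hPH : P ≤ normalizer (C : Set G)) : P ≤ C := by
  let B : Subgroup G :=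
    { carrier := {b | b ∈ N ⊓ C ∧ ∃ k, b ^ l ^ k = 1}
      one_mem' := ⟨one_mem _, 0, one_pow _⟩
      inv_mem' := fun ⟨h1, k, hk⟩ => ⟨inv_mem h1, k, by rw [inv_pow, hk, inv_one]⟩
      mul_mem' := fun ⟨h1, i, hi⟩ ⟨h2, j, hj⟩ => ⟨mul_mem h1 h2, i + j, by
        rw [Commute.mul_pow (h.comm h1 h2), pow_add, pow_mul, hi, mul_comm (l ^ i), pow_mul, hj]
        simp⟩ }
  have hBp : IsPGroup l B := fun b => by
    obtain ⟨k, hk⟩ := b.2.2
    exact ⟨k, Subtype.ext hk⟩
  have hHB : normalizer (C : Set G) ≤ normalizer (B : Set G) := fun g hg =>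
    mem_normalizer_iff_of_finite.2 fun b ⟨h1, k, hk⟩ =>
      ⟨⟨Normal.conj_mem inferInstance b h1.1 g, conj_mem_of_mem_normalizer hg h1.2⟩, k, by
        rw [conj_pow, hk]; simp⟩
  have haB : a ∈ B := by
    obtain ⟨k, hk⟩ := ho
    exact ⟨ha, k, hk ▸ pow_orderOf_eq_one a⟩
  obtain ⟨g, hgK, hgA⟩ := SetLike.exists_of_lt hAK
  have hW : B ⊓ ⁅K, K⁆ ≠ ⊥ := by
    intro e
    have : ⁅g, a⁆ ∈ B ⊓ ⁅K, K⁆ := mem_inf.2
      ⟨mul_mem (conj_mem_of_mem_normalizer (hHB (hKN hgK).2) haB)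
      (inv_mem haB), commutator_mem_commutator hgK (hAK.le ha)⟩
    rw [e, mem_bot, commutatorElement_eq_one_iff_mul_comm] at this
    exact hgA ⟨(hKN hgK).1, h.eq a ha.1 ha.2 ha' ▸ mem_cent.2 this⟩
  have hPW : P ≤ normalizer ((B ⊓ ⁅K, K⁆ : Subgroup G) : Set G) :=
    (le_inf (hPH.trans hHB) ((hPH.trans hHK).trans
      (normalizer_le_normalizer_commutator_self K))).trans inf_normalizer_le_normalizer_inf
  obtain ⟨w, hw, hw1⟩ := (bot_or_exists_ne_one _).resolve_left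
    (FT.pgroup_meet_cent (hBp.to_le inf_le_left) hP hPW hW)
  have hwA : w ∈ N ⊓ C := hw.1.1.1
  have hwZ : w ∉ center G := by
    intro hz
    obtain ⟨Q, hQ⟩ := (hBp.comap_subtype (K := K)).exists_le_sylow
    have hQA : ∀ q ∈ (Q : Subgroup K), (q : G) ∈ N ⊓ C := by
      intro q hq
      obtain ⟨k, hk⟩ := hK q q.2
      obtain ⟨i, hi⟩ := orderOf_of_mem Q.isPGroup' hq
      have hco : (orderOf (q : G)).Coprime (t ^ k) := by
        rw [Subgroup.orderOf_coe, hi]
        exact Nat.coprime_pow_primes _ _ hl.out ht hlt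
      obtain ⟨n, hn⟩ := exists_pow_eq_self_of_coprime hco.symm
      rw [← hn]
      exact pow_mem hk n
    have hQQ : ⁅(Q : Subgroup K), (Q : Subgroup K)⁆ = ⊥ :=
      commutator_eq_bot_iff_le_centralizer.2 fun x hx => mem_centralizer_iff.2 fun y hy =>
        Subtype.ext (h.comm (hQA y hy) (hQA x hx))
    have hwK : w ∈ K := hAK.le hwA
    have hcom : (⟨w, hwK⟩ : K) ∈ commutator K := by
      have := hw.1.2
      rw [← map_subtype_commutator] at this
      obtain ⟨y, hy, rfl⟩ := this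
      exact hy
    have := Tr.sylow_inf_commutator_inf_center_le Q (x := ⟨w, hwK⟩)
      ⟨⟨hQ hw.1.1, hcom⟩, mem_center_iff.2 fun y => Subtype.ext (mem_center_iff.1 hz y)⟩
    rw [hQQ, mem_bot] at this
    exact hw1 (congrArg Subtype.val this)
  rw [← h.eq w hwA.1 hwA.2 hwZ]
  exact le_cent_iff.2 hw.2

theorem Cf.mem_of_stab {C : Subgroup G} (h : Cf N C) {l : ℕ} {a g : G}
    (ha : a ∈ N ⊓ C) (ha' : a ∉ center G) (ho : ∃ k, orderOf a = l ^ k)
    (hz : g * a * g⁻¹ * a⁻¹ ∈ center G) : ∃ k, g ^ l ^ k ∈ C := by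
  obtain ⟨k, hk⟩ := ho
  obtain ⟨z, hzc, e⟩ : ∃ z ∈ center G, g * a * g⁻¹ = z * a := ⟨_, hz, by group⟩
  have hc : ∀ x, Commute z x := fun x => (mem_center_iff.1 hzc x).symm
  have h1 : z ^ l ^ k = 1 := by
    have := congrArg (· ^ l ^ k) e
    simpa [conj_pow, (hc a).mul_pow, ← hk] using this.symm
  have h2 : ∀ n : ℕ, g ^ n * a * (g ^ n)⁻¹ = z ^ n * a := by
    intro n
    induction n with
    | zero => simp
    | succ n ih =>
      calc g ^ (n + 1) * a * (g ^ (n + 1))⁻¹ = g * (g ^ n * a * (g ^ n)⁻¹) * g⁻¹ := by group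
        _ = (g * z ^ n) * a * g⁻¹ := by rw [ih]; group
        _ = z ^ n * (g * a * g⁻¹) := by rw [← ((hc g).pow_left n).eq]; group
        _ = _ := by rw [e]; group
  refine ⟨k, h.eq a ha.1 ha.2 ha' ▸ mem_cent'.2 ?_⟩
  rw [h2, h1, one_mul]

theorem Cf.exists_K [N.Normal] {C : Subgroup G} (h : Cf N C) {r s : ℕ} (hr : r.Prime)
    (hs : s.Prime) (hrs : r ≠ s) {x y : G} (hx : x ∈ N ⊓ C) (hx' : x ∉ center G)
    (hox : ∃ k, orderOf x = r ^ k) (hy : y ∈ N ⊓ C) (hy' : y ∉ center G)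
    (hoy : ∃ k, orderOf y = s ^ k) (hlt : ¬ N ⊓ normalizer (C : Set G) ≤ C) :
    ∃ (K : Subgroup G) (t : ℕ), t.Prime ∧ N ⊓ C < K ∧ K ≤ N ⊓ normalizer (C : Set G) ∧
      normalizer (C : Set G) ≤ normalizer (K : Set G) ∧ ∀ g ∈ K, ∃ k, g ^ t ^ k ∈ N ⊓ C := by
  have hcj : ∀ g ∈ normalizer (C : Set G), ∀ a ∈ N ⊓ C, g * a * g⁻¹ ∈ N ⊓ C := fun g hg a ha =>
    ⟨Normal.conj_mem inferInstance a ha.1 g, conj_mem_of_mem_normalizer hg ha.2⟩
  by_cases hev : ∃ g ∈ N ⊓ normalizer (C : Set G), g ∉ C ∧ g * g ∈ C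
  · have hinv : ∀ g ∈ N ⊓ normalizer (C : Set G), g ∉ C → g * g ∈ C → ∀ a ∈ N ⊓ C,
        g * a * g⁻¹ * a ∈ center G := by
      intro g hg hgC hgg a ha
      by_contra hz
      have hm := mul_mem (hcj g hg.2 a ha) ha
      refine hgC (h.eq _ hm.1 hm.2 hz ▸ mem_cent'.2 ?_)
      have e := h.comm (show g * g ∈ N ⊓ C from ⟨mul_mem hg.1 hg.1, hgg⟩) ha
      calc g * (g * a * g⁻¹ * a) * g⁻¹ = (g * g * a) * (g * g)⁻¹ * (g * a * g⁻¹) := by group
        _ = a * (g * a * g⁻¹) := by rw [e]; group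
        _ = _ := h.comm ha (hcj g hg.2 a ha)
    have hmul : ∀ g ∈ N ⊓ normalizer (C : Set G), g ∉ C → g * g ∈ C →
        ∀ f ∈ N ⊓ normalizer (C : Set G), f ∉ C → f * f ∈ C → g * f ∈ C := by
      intro g hg hgC hgg f hf hfC hff
      have key : ∀ a ∈ N ⊓ C, g * f * a * (g * f)⁻¹ * a⁻¹ ∈ center G := by
        intro a ha
        have h1 := Normal.conj_mem inferInstance _ (hinv f hf hfC hff a ha) g
        have h2 := mul_mem h1 (inv_mem (hinv g hg hgC hgg a ha))
        have h3 := h.comm ha (hcj g hg.2 a ha)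
        have e : g * f * a * (g * f)⁻¹ * a⁻¹ =
            g * (f * a * f⁻¹ * a) * g⁻¹ * (g * a * g⁻¹ * a)⁻¹ := by
          rw [← h3]; group
        rwa [e]
      obtain ⟨i, hi⟩ := h.mem_of_stab hx hx' hox (key x hx)
      obtain ⟨j, hj⟩ := h.mem_of_stab hy hy' hoy (key y hy)
      obtain ⟨u, v, huv⟩ := Nat.isCoprime_iff_coprime.2 (Nat.coprime_pow_primes i j hr hs hrs)
      have := mul_mem (zpow_mem hi u) (zpow_mem hj v)
      rwa [← zpow_natCast, ← zpow_natCast, ← zpow_mul, ← zpow_mul, ← zpow_add, mul_comm _ u,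
        mul_comm _ v, huv, zpow_one] at this
    let K : Subgroup G :=
      { carrier := {g | g ∈ N ⊓ normalizer (C : Set G) ∧ g * g ∈ C}
        one_mem' := ⟨one_mem _, by simp⟩
        inv_mem' := fun ⟨h1, h2⟩ => ⟨inv_mem h1, by rw [← mul_inv_rev]; exact inv_mem h2⟩
        mul_mem' := by
          rintro g f ⟨h1, h2⟩ ⟨h3, h4⟩
          refine ⟨mul_mem h1 h3, ?_⟩
          by_cases hg : g ∈ C
          · have e : g * f * (g * f) = g * (f * g * f⁻¹) * (f * f) := by group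
            rw [e]
            exact mul_mem (mul_mem hg (conj_mem_of_mem_normalizer h3.2 hg)) h4
          by_cases hf : f ∈ C
          · have e : g * f * (g * f) = (g * f * g⁻¹) * (g * g) * f := by group
            rw [e]
            exact mul_mem (mul_mem (conj_mem_of_mem_normalizer h1.2 hf) h2) hf
          exact mul_mem (hmul g h1 hg h2 f h3 hf h4) (hmul g h1 hg h2 f h3 hf h4) }
    obtain ⟨g, hg, hgC, hgg⟩ := hev
    refine ⟨K, 2, Nat.prime_two, lt_of_le_not_ge (fun a ha => ⟨⟨ha.1, le_normalizer ha.2⟩,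
      mul_mem ha.2 ha.2⟩) fun hle => hgC (hle ⟨hg, hgg⟩).2, fun g hg => hg.1, fun n hn => ?_,
      fun g hg => ⟨1, by rw [pow_one, sq]; exact ⟨mul_mem hg.1.1 hg.1.1, hg.2⟩⟩⟩
    refine mem_normalizer_iff_of_finite.2 fun g hg => ⟨mem_inf.2
      ⟨Normal.conj_mem inferInstance g hg.1.1 n,
      mul_mem (mul_mem hn (mem_inf.1 hg.1).2) (inv_mem hn)⟩, ?_⟩
    have e : n * g * n⁻¹ * (n * g * n⁻¹) = n * (g * g) * n⁻¹ := by group
    rw [e]
    exact conj_mem_of_mem_normalizer hn hg.2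
  let H := normalizer (C : Set G)
  let A : Subgroup H := (N ⊓ C).subgroupOf H
  haveI : A.Normal := ⟨fun a ha g => hcj g g.2 a ha⟩
  let M : Subgroup (H ⧸ A) := (N.subgroupOf H).map (QuotientGroup.mk' A)
  haveI : M.Normal := Normal.map inferInstance _ (QuotientGroup.mk'_surjective A)
  haveI : Group.IsSolvable M := by
    refine S0205.result (Nat.odd_iff.2 ?_)
    by_contra h2
    obtain ⟨⟨_, g, hg, rfl⟩, ho⟩ := exists_prime_orderOf_dvd_card' (G := M) 2 (by omega)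
    rw [← Subgroup.orderOf_coe] at ho
    refine hev ⟨g, ⟨hg, g.2⟩, fun hC => ?_, ?_⟩
    · have : QuotientGroup.mk' A g = 1 := (QuotientGroup.eq_one_iff _).2 ⟨hg, hC⟩
      simp [this] at ho
    · have := pow_orderOf_eq_one (QuotientGroup.mk' A g)
      rw [ho, ← map_pow, sq] at this
      exact ((QuotientGroup.eq_one_iff _).1 this).2
  have hM : M ≠ ⊥ := fun e => hlt fun g hg => by
    have : QuotientGroup.mk' A ⟨g, hg.2⟩ ∈ M := mem_map_of_mem _ hg.1
    rw [e, mem_bot] at this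
    exact ((QuotientGroup.eq_one_iff _).1 this).2
  obtain ⟨D, hD, hDM⟩ := exists_isMinNormal_le hM
  haveI := hD.normal
  haveI : Group.IsSolvable D := isSolvable_of_le hDM
  obtain ⟨t, ht, hp, -⟩ := hD.exists_isPGroup
  refine ⟨(D.comap (QuotientGroup.mk' A)).map H.subtype, t, ht, lt_of_le_not_ge ?_ ?_, ?_, ?_, ?_⟩
  · intro a ha
    refine ⟨⟨a, le_normalizer ha.2⟩, mem_comap.2 ?_, rfl⟩
    rw [show QuotientGroup.mk' A ⟨a, le_normalizer ha.2⟩ = 1 from
      (QuotientGroup.eq_one_iff _).2 ha]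
    exact one_mem _
  · intro hle
    refine hD.ne_bot (eq_bot_iff.2 fun d hd => ?_)
    obtain ⟨g, rfl⟩ := QuotientGroup.mk'_surjective A d
    exact (QuotientGroup.eq_one_iff _).2 (hle ⟨g, hd, rfl⟩)
  · rintro _ ⟨g, hg, rfl⟩
    obtain ⟨n, hn, e⟩ := hDM hg
    have : n⁻¹ * g ∈ A := QuotientGroup.eq.1 e
    have h2 : (n : G) * ((n : G)⁻¹ * g) ∈ N := mul_mem hn this.1
    exact ⟨by simpa using h2, g.2⟩
  · intro n hn
    refine mem_normalizer_iff_of_finite.2 ?_
    rintro _ ⟨g, hg, rfl⟩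
    exact ⟨_, Normal.conj_mem inferInstance g hg ⟨n, hn⟩, rfl⟩
  · rintro _ ⟨g, hg, rfl⟩
    obtain ⟨k, hk⟩ := hp ⟨_, hg⟩
    have hk' : QuotientGroup.mk' A (g ^ t ^ k) = 1 := by
      rw [map_pow]; exact congrArg Subtype.val hk
    have h3 : g ^ t ^ k ∈ A := (QuotientGroup.eq_one_iff _).1 hk'
    exact ⟨k, h3⟩

theorem exists_x {r : ℕ} [hr : Fact r.Prime] (R : Sylow r G) (hR : ¬ (R : Subgroup G) ≤ center G)
    (hRN : (R : Subgroup G) ≤ N) (h : ∀ x ∈ N, cidx x = 1 ∨ cidx x = m) {y : G} (hy : y ∈ N)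
    (hy' : y ∉ center G) :
    ∃ x ∈ centralizer ({y} : Set G), x ∉ center G ∧ ∃ k, orderOf x = r ^ k := by
  by_contra hcon
  push Not at hcon
  obtain ⟨x, hx, hx'⟩ := SetLike.not_le_iff_exists.1 hR
  obtain ⟨P⟩ : Nonempty (Sylow r (centralizer ({y} : Set G))) := inferInstance
  have hBp : IsPGroup r ((P : Subgroup (centralizer ({y} : Set G))).map (Subgroup.subtype _)) :=
    P.isPGroup'.map _
  have hBZ : (P : Subgroup (centralizer ({y} : Set G))).map (Subgroup.subtype _) ≤ center G := by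
    intro b hb
    by_contra hz
    obtain ⟨k, hk⟩ := orderOf_of_mem hBp hb
    exact hcon b (map_subtype_le _ hb) hz k hk
  haveI : ((P : Subgroup (centralizer ({y} : Set G))).map (Subgroup.subtype _)).Normal :=
    ⟨fun b hb g => by rwa [mem_center_iff.1 (hBZ hb) g, mul_inv_cancel_right]⟩
  have hle : (P : Subgroup (centralizer ({y} : Set G))).map (Subgroup.subtype _) ≤
      (R : Subgroup G) ⊓ centralizer {x} :=
    le_inf (hBp.le_sylow_of_normal R) (hBZ.trans (center_le_cent x))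
  have hc : Nat.card (centralizer ({x} : Set G)) = Nat.card (centralizer ({y} : Set G)) := by
    have e1 := (h x (hRN hx)).resolve_left fun e => hx' (cidx_eq_one_iff.1 e)
    have e2 := (h y hy).resolve_left fun e => hy' (cidx_eq_one_iff.1 e)
    have a1 := card_cent_mul_cidx x
    have a2 := card_cent_mul_cidx y
    rw [e1, ← a2, e2] at a1
    exact Nat.eq_of_mul_eq_mul_right (e1 ▸ cidx_pos x) a1
  obtain ⟨k, hk⟩ := (R.isPGroup'.to_le
    (inf_le_left : (R : Subgroup G) ⊓ centralizer {x} ≤ R)).exists_card_eq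
  have hd := card_dvd_of_le (inf_le_right : (R : Subgroup G) ⊓ centralizer {x} ≤ _)
  rw [hc, hk] at hd
  have := eq_of_le_of_card_ge hle (by
    rw [card_map_of_injective (Subgroup.subtype_injective _), hk, P.card_eq_multiplicity]
    exact Nat.pow_le_pow_right hr.out.pos
      ((hr.out.pow_dvd_iff_le_factorization Nat.card_pos.ne').1 hd))
  exact hx' (hBZ (this ▸ ⟨hx, self_mem_cent x⟩))

end


/-- Let G be a finite group, r a prime and R a Sylow r-subgroup of G that is not central, N a normal subgroup of G containing R, and m a natural number such that every element of N has a conjugacy class in G of size 1 or m. Then N is nilpotent. -/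
theorem result {G : Type*} [Group G] [Finite G] (r : ℕ) [Fact r.Prime]
    (R : Sylow r G) (hR : ¬ (R : Subgroup G) ≤ Subgroup.center G) (N : Subgroup G) [N.Normal] (hRN : (R : Subgroup G) ≤ N)
    (m : ℕ) (h : ∀ x ∈ N, (Subgroup.centralizer ({x} : Set G)).index = 1 ∨ (Subgroup.centralizer ({x} : Set G)).index = m) : Group.IsNilpotent N := by
  open Subgroup Cfsg.Agent.FG.CI Cfsg.Agent.GT in
  have hr : r.Prime := Fact.out
  have hrN : ∀ g : G, (∃ k, orderOf g = r ^ k) → g ∈ N := fun g hg => by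
    obtain ⟨u, hu⟩ := exists_conj_mem_sylow R hg
    have := Normal.conj_mem inferInstance _ (hRN hu) u⁻¹
    simpa [mul_assoc] using this
  by_cases hA : ∃ s : ℕ, s.Prime ∧ r ≠ s ∧ ∃ y ∈ N, y ∉ center G ∧ ∃ k, orderOf y = s ^ k
  swap
  · push Not at hA
    have hq : IsPGroup r (N ⧸ center N) := by
      refine IsPGroup.of_card (Nat.eq_prime_pow_of_unique_prime_dvd Nat.card_pos.ne' ?_)
      intro s hs hd
      by_contra hne
      haveI := Fact.mk hs
      obtain ⟨Q⟩ : Nonempty (Sylow s N) := inferInstance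
      refine (not_dvd_index_iff (center N)).2 ⟨Q, fun q hq => ?_⟩ hd
      by_contra hz
      obtain ⟨k, hk⟩ := orderOf_of_mem Q.isPGroup' hq
      exact hA s hs (Ne.symm hne) q q.2 (fun hc => hz (mem_center_iff.2 fun y =>
        Subtype.ext (mem_center_iff.1 hc y))) k (by simpa using hk)
    haveI := hq.isNilpotent
    exact of_quotient_center_nilpotent inferInstance
  obtain ⟨s, hs, hrs, y, hy, hy', hoy⟩ := hA
  obtain ⟨x, hxy, hx', hox⟩ := exists_x R hR hRN h hy hy'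
  have hx := hrN x hox
  have hc := mem_cent_commute.1 hxy
  have hC : centralizer ({y} : Set G) = centralizer {x} :=
    eq_of_le h hy hx hx' (le_of_cop h hy hx hy' hc.symm (cop_pow hs hr hrs.symm hoy hox))
  have hab : ∀ a ∈ N, a ∈ centralizer ({x} : Set G) →
      centralizer ({x} : Set G) ≤ centralizer {a} := by
    have : (centralizer ((centralizer ({x} : Set G) : Subgroup G) : Set G)).relIndex
        (N ⊓ centralizer ({x} : Set G)) = 1 := by
      by_contra hne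
      obtain ⟨p, hp, hd⟩ := Nat.exists_prime_and_dvd hne
      haveI := Fact.mk hp
      obtain ⟨Q⟩ : Nonempty (Sylow p (N ⊓ centralizer ({x} : Set G) : Subgroup G)) := inferInstance
      refine (not_dvd_index_iff _).2 ⟨Q, fun q hq => mem_subgroupOf.2 (le_cent_iff.1 ?_)⟩ hd
      have hoq : ∃ k, orderOf (q : G) = p ^ k := by simpa using orderOf_of_mem Q.isPGroup' hq
      by_cases hpr : r = p
      · exact hC.ge.trans (le_of_cop h hy q.2.1 hy' (mem_cent_commute.1 (hC.ge q.2.2)).symm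
          (cop_pow hs hp (hpr ▸ hrs.symm) hoy hoq))
      · exact le_of_cop h hx q.2.1 hx' (mem_cent_commute.1 q.2.2).symm (cop_pow hr hp hpr hox hoq)
    exact fun a ha ha' => le_cent_iff.2 (relIndex_eq_one.1 this ⟨ha, ha'⟩)
  have cf : Cf N (centralizer ({x} : Set G)) :=
    ⟨hab, fun a ha ha' hz => (eq_of_le h hx ha hz (hab a ha ha')).symm⟩
  have hxA : x ∈ N ⊓ centralizer ({x} : Set G) := ⟨hx, self_mem_cent x⟩
  have hyA : y ∈ N ⊓ centralizer ({x} : Set G) := ⟨hy, hC ▸ self_mem_cent y⟩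
  have hN : N ≤ centralizer ({x} : Set G) := by
    by_cases hlt : N ⊓ normalizer ((centralizer ({x} : Set G) : Subgroup G) : Set G) ≤
        centralizer ({x} : Set G)
    · exact le_cent_of_not_dvd h hx hx' hox (cf.not_dvd hxA hx' hox fun P hP hPH g hg =>
        hlt ⟨hrN g (orderOf_of_mem hP hg), hPH hg⟩)
    obtain ⟨K, t, ht, k1, k2, k3, k4⟩ := cf.exists_K hr hs hrs hxA hx' hox hyA hy' hoy hlt
    by_cases hrt : r = t
    · haveI := Fact.mk hs
      rw [← hC]
      exact le_cent_of_not_dvd h hy hy' hoy (cf.not_dvd hyA hy' hoy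
        (cf.of_K ht (hrt ▸ hrs.symm) hyA hy' hoy k1 k2 k3 k4))
    · exact le_cent_of_not_dvd h hx hx' hox (cf.not_dvd hxA hx' hox
        (cf.of_K ht hrt hxA hx' hox k1 k2 k3 k4))
  haveI : IsMulCommutative N :=
    ⟨⟨fun a b => Subtype.ext (cf.comm ⟨a.2, hN a.2⟩ ⟨b.2, hN b.2⟩)⟩⟩
  exact isNilpotent_of_isMulCommutative

end Cfsg.Agent.S4135
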