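import Mathlib
import Cfsg.Statements.S4137
import Cfsg.Agent.FG.ConjTypeC
-- import your own Cfsg.Agent.* helpers here

set_option autoImplicit false
open Cfsg

namespace Cfsg.Agent.S4137


/-- Let G be a finite group with trivial centre and at most three distinct sizes of conjugacy classes other than 1. Then G is solvable or G is isomorphic to PSL₂(2^a) for some a ≥ 1. -/
theorem result {G : Type*} [Group G] [Finite G]
    (hZ : Subgroup.center G = ⊥) (h : Nat.card {n : ℕ | 1 < n ∧ ∃ x : G, (Subgroup.centralizer ({x} : Set G)).index = n} ≤ 3) :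
    Group.IsSolvable G ∨ ∃ a : ℕ, 0 < a ∧ Nonempty (G ≃* Matrix.ProjectiveSpecialLinearGroup (Fin 2) (GaloisField 2 a)) := by
  by_cases hs : Group.IsSolvable G
  · exact Or.inl hs
  obtain ⟨F, _, _, n, h1, h2, ⟨e⟩⟩ := FG.CT.exists_equiv_of_three hZ hs h
  exact Or.inr ⟨n, by omega, CIT.CA.nonempty_galoisField h2 e⟩

end Cfsg.Agent.S4137
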