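import Mathlib
import Cfsg.Statements.S4139
import Cfsg.Agent.FG.ClassCount
import Cfsg.Agent.GT.TransferFrobenius

set_option autoImplicit false
open Cfsg

namespace Cfsg.Agent.S4139

set_option linter.unusedVariables false

open Cfsg.Agent.GT.Tr Cfsg.Agent.FG

section
variable {G : Type*} [Group G] [Finite G] (p : ℕ) [hp : Fact p.Prime]

theorem index_inf_res {H : Subgroup G} (h : ∃ k, H.index = p ^ k) :
    ∃ k, (pResidual p G ⊓ H).index = p ^ k := by
  obtain ⟨a, ha⟩ := h
  obtain ⟨b, hb⟩ := exists_index_pResidual (G := G) (p := p)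
  have h1 : (pResidual p G).relIndex H ∣ p ^ b := hb ▸ Subgroup.relIndex_dvd_index_of_normal _ _
  obtain ⟨c, -, hc⟩ := (Nat.dvd_prime_pow hp.out).1 h1
  refine ⟨c + a, ?_⟩
  rw [← Subgroup.relIndex_mul_index (inf_le_right : pResidual p G ⊓ H ≤ H),
    Subgroup.inf_relIndex_right, hc, ha, pow_add]

theorem index_of_le {H K : Subgroup G} (hle : H ≤ K) (h : ∃ k, H.index = p ^ k) :
    ∃ k, K.index = p ^ k := by
  obtain ⟨a, ha⟩ := h
  obtain ⟨c, -, hc⟩ := (Nat.dvd_prime_pow hp.out).1 (ha ▸ Subgroup.index_dvd_of_le hle)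
  exact ⟨c, hc⟩

/-- The elements whose class size is a power of `p`. -/
def pSet (G : Type*) [Group G] (p : ℕ) : Set G :=
  {x | ∃ k, (Subgroup.centralizer ({x} : Set G)).index = p ^ k}

theorem mul_mem_pSet {x c : G} (hx : x ∈ pSet G p)
    (hc : c ∈ Subgroup.centralizer (pResidual p G : Set G)) : x * c ∈ pSet G p := by
  refine index_of_le p ?_ (index_inf_res p hx)
  intro y hy
  obtain ⟨hy1, hy2⟩ := Subgroup.mem_inf.1 hy
  have h1 := Subgroup.mem_centralizer_iff.1 hc y hy1
  rw [mem_centralizer_single] at hy2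
  rw [mem_centralizer_single, ← mul_assoc, hy2, mul_assoc, h1, mul_assoc]

omit [Finite G] hp in
theorem conj_mem_pSet {x : G} (hx : x ∈ pSet G p) (g : G) : g * x * g⁻¹ ∈ pSet G p := by
  obtain ⟨k, hk⟩ := hx
  refine ⟨k, ?_⟩
  rw [← hk, ← ncard_isConj_eq_index, ← ncard_isConj_eq_index]
  congr 1
  ext y
  have : IsConj x (g * x * g⁻¹) := isConj_iff.2 ⟨g, rfl⟩
  exact ⟨fun h => this.trans h, fun h => this.symm.trans h⟩

theorem mem_of_comm {x : G} (hx : x ∈ pSet G p)
    (h : ∀ r ∈ pResidual p G, x * r * x⁻¹ * r⁻¹ ∈ Subgroup.centralizer (pResidual p G : Set G)) :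
    x ∈ Subgroup.centralizer (pResidual p G : Set G) := by
  set R := pResidual p G with hR
  have hN : ((Subgroup.centralizer ({x} : Set G)).subgroupOf R).Normal := by
    refine ⟨fun d hd r => ?_⟩
    rw [Subgroup.mem_subgroupOf, mem_centralizer_single] at hd ⊢
    have h1 := Subgroup.mem_centralizer_iff.1 (h r r.2) _ (r * d * r⁻¹).2
    simp only [Subgroup.coe_mul, Subgroup.coe_inv] at h1 ⊢
    have h2 : x * ((r : G) * d * (r : G)⁻¹) * x⁻¹ =
        (x * r * x⁻¹ * (r : G)⁻¹) * ((r : G) * (x * d * x⁻¹) * (r : G)⁻¹) *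
          (x * r * x⁻¹ * (r : G)⁻¹)⁻¹ := by group
    have h3 : x * d * x⁻¹ = d := by rw [← hd]; group
    rw [h3, ← h1] at h2
    have h4 : x * ((r : G) * d * (r : G)⁻¹) * x⁻¹ = (r : G) * d * (r : G)⁻¹ := by
      rw [h2]; group
    conv_lhs => rw [← h4]
    group
  obtain ⟨k, hk⟩ := index_inf_res p hx
  have h1 : ((Subgroup.centralizer ({x} : Set G)).subgroupOf R).index ∣ p ^ k := by
    rw [← hk, ← Subgroup.relIndex_mul_index (inf_le_left : R ⊓ Subgroup.centralizer {x} ≤ R),
      Subgroup.inf_relIndex_left]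
    exact Dvd.intro _ rfl
  obtain ⟨c, -, hc⟩ := (Nat.dvd_prime_pow hp.out).1 h1
  have h2 := pResidual_le_of_index hc
  rw [hR, pResidual_pResidual] at h2
  rw [Subgroup.mem_centralizer_iff]
  intro r hr
  have := h2 (Subgroup.mem_top ⟨r, hr⟩)
  rw [Subgroup.mem_subgroupOf, mem_centralizer_single] at this
  exact this

theorem card_pSet : ∃ m, ¬ p ∣ m ∧
    Nat.card (pSet G p) = Nat.card (Subgroup.centralizer (pResidual p G : Set G)) * m := by
  classical
  set C := Subgroup.centralizer (pResidual p G : Set G) with hC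
  have : C.Normal := by rw [hC]; infer_instance
  let T : Set (G ⧸ C) := QuotientGroup.mk '' pSet G p
  have hpre : QuotientGroup.mk ⁻¹' T = pSet G p := by
    refine Set.Subset.antisymm ?_ (Set.subset_preimage_image _ _)
    rintro y ⟨x, hx, hxy⟩
    have := mul_mem_pSet p hx (QuotientGroup.eq.1 hxy)
    simpa using this
  refine ⟨Nat.card T, ?_, by rw [← hpre, QuotientGroup.card_preimage_mk]⟩
  obtain ⟨P⟩ : Nonempty (Sylow p G) := inferInstance
  have hmem : ∀ (u : G) (t : T), (u : G ⧸ C) * t * (u : G ⧸ C)⁻¹ ∈ T := by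
    rintro u ⟨_, x, hx, rfl⟩
    exact ⟨_, conj_mem_pSet p hx u, rfl⟩
  let : MulAction (P : Subgroup G) T :=
    { smul := fun u t => ⟨_, hmem u t⟩
      one_smul := fun t => Subtype.ext (by
        change ((((1 : (P : Subgroup G)) : G) : G ⧸ C)) * t * _⁻¹ = t
        simp)
      mul_smul := fun u v t => Subtype.ext (by
        change ((((u * v : (P : Subgroup G)) : G) : G ⧸ C)) * t * _⁻¹ =
          ((u : G) : G ⧸ C) * (((v : G) : G ⧸ C) * t * _⁻¹) * _⁻¹
        simp only [Subgroup.coe_mul, QuotientGroup.mk_mul]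
        group) }
  have hs : ∀ (u : (P : Subgroup G)) (t : T),
      ((u • t : T) : G ⧸ C) = ((u : G) : G ⧸ C) * t * ((u : G) : G ⧸ C)⁻¹ := fun _ _ => rfl
  have hmod := P.isPGroup'.card_modEq_card_fixedPoints T
  have h1 : (1 : G) ∈ pSet G p := ⟨0, by
    rw [pow_zero, Subgroup.index_eq_one, eq_top_iff]
    intro y _
    rw [mem_centralizer_single]; simp⟩
  have hfix : MulAction.fixedPoints (P : Subgroup G) T = {⟨((1 : G) : G ⧸ C), 1, h1, rfl⟩} := by
    ext ⟨_, x, hx, rfl⟩
    rw [MulAction.mem_fixedPoints, Set.mem_singleton_iff]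
    constructor
    · intro h
      apply Subtype.ext
      change (x : G ⧸ C) = ((1 : G) : G ⧸ C)
      rw [QuotientGroup.mk_one, QuotientGroup.eq_one_iff]
      refine mem_of_comm p hx fun r _ => ?_
      obtain ⟨k, hk⟩ := hx
      have htop := sup_eq_top_of_index hk P.not_dvd_index
      have hle : (⊤ : Subgroup G) ≤ (Subgroup.centralizer ({(x : G ⧸ C)} : Set (G ⧸ C))).comap
          (QuotientGroup.mk' C) := by
        rw [← htop, sup_le_iff]
        constructor
        · intro y hy
          rw [mem_centralizer_single] at hy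
          rw [Subgroup.mem_comap, mem_centralizer_single]
          exact congrArg (fun z : G => (z : G ⧸ C)) hy
        · intro y hy
          have := congrArg Subtype.val (h ⟨y, hy⟩)
          rw [hs, mul_inv_eq_iff_eq_mul] at this
          rw [Subgroup.mem_comap, mem_centralizer_single]
          exact this
      have h2 := hle (Subgroup.mem_top r)
      rw [Subgroup.mem_comap, mem_centralizer_single, QuotientGroup.mk'_apply] at h2
      rw [← hC, ← QuotientGroup.eq_one_iff]
      simp only [QuotientGroup.mk_mul, QuotientGroup.mk_inv]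
      rw [← h2]; group
    · intro h u
      rw [h]
      apply Subtype.ext
      rw [hs]; simp
  rw [hfix, Nat.card_coe_set_eq ({_} : Set T), Set.ncard_singleton] at hmod
  intro hd
  have := (Nat.ModEq.dvd_iff hmod (dvd_refl p)).1 hd
  exact hp.out.one_lt.ne' (Nat.dvd_one.1 this)

end

theorem card_filter_eq {G : Type*} [Group G] [Finite G] (Q : ℕ → Prop) [DecidablePred Q] :
    Nat.card {x : G | Q (Subgroup.centralizer ({x} : Set G)).index} =
      ∑ᶠ C : ConjClasses G, if Q (Nat.card C.carrier) then Nat.card C.carrier else 0 := by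
  classical
  cases nonempty_fintype G
  rw [finsum_eq_sum_of_fintype, Nat.card_eq_fintype_card, Fintype.card_subtype,
    Finset.card_eq_sum_card_fiberwise (f := ConjClasses.mk) (t := Finset.univ) (by simp)]
  refine Finset.sum_congr rfl fun C _ => ?_
  obtain ⟨g, rfl⟩ := ConjClasses.mk_surjective C
  have key : ∀ x : G, ConjClasses.mk x = ConjClasses.mk g →
      (Subgroup.centralizer ({x} : Set G)).index = Nat.card (ConjClasses.mk g).carrier := by
    intro x hx
    rw [← hx, natCard_carrier_mk]
  split_ifs with hQ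
  · rw [Nat.card_eq_fintype_card, Fintype.card_subtype]
    congr 1
    ext x
    simp only [Finset.mem_filter, Finset.mem_univ, true_and, Set.mem_ofPred_eq,
      ConjClasses.mem_carrier_iff_mk_eq]
    exact ⟨fun h => h.2, fun h => ⟨by rw [key x h]; exact hQ, h⟩⟩
  · rw [Finset.card_eq_zero, Finset.eq_empty_iff_forall_notMem]
    intro x hx
    simp only [Finset.mem_filter, Finset.mem_univ, true_and, Set.mem_ofPred_eq] at hx
    exact hQ (key x hx.2 ▸ hx.1)


/-- Let G and H be finite groups such that for every natural number k, G and H have the same number of conjugacy classes of size k. If H is nilpotent then G is nilpotent. -/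
theorem result {G H : Type*} [Group G] [Finite G] [Group H] [Finite H]
    (hH : Group.IsNilpotent H)
    (h : ∀ k : ℕ, Nat.card {C : ConjClasses G // Nat.card C.carrier = k} = Nat.card {C : ConjClasses H // Nat.card C.carrier = k}) :
    Group.IsNilpotent G := by
  classical
  let e : ConjClasses G ≃ ConjClasses H :=
    Equiv.ofFiberEquiv (f := fun C : ConjClasses G => Nat.card C.carrier)
      (g := fun C : ConjClasses H => Nat.card C.carrier) fun k => (Finite.card_eq.1 (h k)).some
  have he : ∀ C, Nat.card (e C).carrier = Nat.card C.carrier := fun C =>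
    Equiv.ofFiberEquiv_map (f := fun C : ConjClasses G => Nat.card C.carrier)
      (g := fun C : ConjClasses H => Nat.card C.carrier) _ C
  have hcount : ∀ Q : ℕ → Prop,
      Nat.card {x : G | Q (Subgroup.centralizer ({x} : Set G)).index} =
        Nat.card {x : H | Q (Subgroup.centralizer ({x} : Set H)).index} := by
    intro Q
    rw [card_filter_eq, card_filter_eq, ← finsum_comp_equiv e]
    simp only [he]
  have hcard : Nat.card G = Nat.card H := by
    have := hcount fun _ => True
    simpa using this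
  refine (Group.isNilpotent_of_finite_tfae.out 0 3).2 ?_
  intro p hp P
  obtain ⟨m, hm, hG⟩ := card_pSet (G := G) p
  obtain ⟨n, hn, hH'⟩ := card_pSet (G := H) p
  have heq : Nat.card (pSet G p) = Nat.card (pSet H p) := hcount fun k => ∃ a, k = p ^ a
  obtain ⟨Q⟩ : Nonempty (Sylow p H) := inferInstance
  have hQ : (Q : Subgroup H) ≤ Subgroup.centralizer (pResidual p H : Set H) := by
    rw [Subgroup.le_centralizer_iff, pResidual_le_iff]
    intro g hg
    refine (hasNormalPComplement_of_isNilpotent hH).mem_centralizer Q.isPGroup' ?_ hg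
    rw [Subgroup.normalizer_eq_top]
    exact Subgroup.mem_top g
  have h1 : p ^ (Nat.card G).factorization p ∣
      Nat.card (Subgroup.centralizer (pResidual p G : Set G)) * m := by
    rw [← hG, heq, hH', hcard, ← Q.card_eq_multiplicity]
    exact (Subgroup.card_dvd_of_le hQ).mul_right _
  have h2 : p ^ (Nat.card G).factorization p ∣
      Nat.card (Subgroup.centralizer (pResidual p G : Set G)) :=
    (Nat.Coprime.pow_left _ ((Nat.Prime.coprime_iff_not_dvd hp.out).2 hm)).dvd_of_dvd_mul_right h1
  set C := Subgroup.centralizer (pResidual p G : Set G) with hC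
  have : C.Normal := by rw [hC]; infer_instance
  have h3 : ¬ p ∣ C.index := by
    intro hd
    have h4 : p ^ ((Nat.card G).factorization p + 1) ∣ Nat.card G := by
      conv_rhs => rw [← C.card_mul_index]
      rw [pow_succ]
      exact Nat.mul_dvd_mul h2 hd
    exact Nat.pow_succ_factorization_not_dvd Nat.card_pos.ne' hp.out h4
  have hPC : (P : Subgroup G) ≤ C := by
    have h5 : C.relIndex P ∣ C.index := Subgroup.relIndex_dvd_index_of_normal _ _
    obtain ⟨k, hk⟩ := P.isPGroup'.index (C.subgroupOf P)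
    have hk' : C.relIndex P = p ^ k := hk
    rcases Nat.eq_zero_or_pos k with rfl | hk0
    · rw [pow_zero, Subgroup.relIndex_eq_one] at hk'
      exact hk'
    · exact absurd ((hk' ▸ dvd_pow_self p hk0.ne').trans h5) h3
  rw [← Subgroup.normalizer_eq_top_iff, eq_top_iff, ← pResidual_sup_sylow P, sup_le_iff]
  refine ⟨?_, Subgroup.le_normalizer⟩
  exact (Subgroup.le_centralizer_iff.1 hPC).trans (Subgroup.centralizer_le_normalizer _)

end Cfsg.Agent.S4139
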