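import Mathlib
import Cfsg.Statements.S4140
import Cfsg.Agent.FG.Camina
import Cfsg.Agent.GT.FixedPointFreeThompson

set_option autoImplicit false
open Cfsg

namespace Cfsg.Agent.S4140

set_option linter.unusedVariables false

open Subgroup Cfsg.Agent.FG

theorem exists_pElem {G : Type*} [Group G] [Finite G] {p : ℕ} [hp : Fact p.Prime]
    (N : Subgroup G) [N.Normal] {g : G} (h : p ∣ orderOf (g : G ⧸ N)) :
    ∃ a ∈ zpowers g, a ∉ N ∧ ∃ k, a ^ p ^ k = 1 := by
  obtain ⟨a, ha, b, hb, ⟨k, hk⟩, hb', rfl⟩ := GT.Tr.exists_pPart_mul_pPrimePart (p := p) g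
  refine ⟨a, ha, fun haN => ?_, k, hk ▸ pow_orderOf_eq_one a⟩
  rw [QuotientGroup.mk_mul, (QuotientGroup.eq_one_iff a).2 haN, one_mul] at h
  have h1 : p ∣ orderOf b := h.trans (orderOf_map_dvd (QuotientGroup.mk' N) b)
  exact (Nat.Prime.coprime_iff_not_dvd hp.out).1 hb'.symm h1


/-- Let G be a finite group and N a proper non-trivial normal subgroup such that for every g outside N the conjugacy class of g is a union of cosets of N (equivalently gn is conjugate to g for every n ∈ N). Then either every element of G outside N acts fixed-point-freely on N (C_G(x) ≤ N for all x ∈ N, x ≠ 1, so G is a Frobenius group with kernel N), or N has prime-power order, or G/N has prime-power order. -/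
theorem result {G : Type*} [Group G] [Finite G] (N : Subgroup G) [N.Normal] (hN1 : N ≠ ⊥) (hN2 : N ≠ ⊤)
    (hcam : ∀ g : G, g ∉ N → ∀ n ∈ N, ∃ x : G, x * g * x⁻¹ = g * n) :
    (∀ x ∈ N, x ≠ 1 → Subgroup.centralizer ({x} : Set G) ≤ N) ∨ IsPrimePow (Nat.card N) ∨ IsPrimePow N.index := by
  by_contra hcon
  push Not at hcon
  obtain ⟨⟨y, hyN, hy1, hyC⟩, hN, hI⟩ := hcon
  obtain ⟨g, hgy, hgN⟩ := SetLike.not_le_iff_exists.1 hyC
  -- elements of `N` centralised by an element outside `N`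
  have hcent : ∀ x, x ∉ N → ∀ n : ℕ, x ^ n = 1 → ∀ v ∈ N, x * v = v * x → v ^ n = 1 := by
    intro x hx n hn v hv hc
    obtain ⟨z, hz⟩ := hcam x hx v hv
    exact pow_eq_one_of_conj_eq_mul hz hc hn
  have hg1 : orderOf (g : G ⧸ N) ≠ 1 := by
    rw [Ne, orderOf_eq_one_iff, QuotientGroup.eq_one_iff]; exact hgN
  obtain ⟨p, hp, hpg⟩ := Nat.exists_prime_and_dvd hg1
  have := Fact.mk hp
  obtain ⟨u, hu, huN, k, huk⟩ := exists_pElem N hpg
  have hpN : p ∣ Nat.card N := by
    have h1 := hcent u huN _ huk y hyN (mem_centralizer_single.1 ((zpowers_le.2 hgy) hu))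
    obtain ⟨c, -, hc⟩ := (Nat.dvd_prime_pow hp).1 (orderOf_dvd_of_pow_eq_one h1)
    have hc0 : c ≠ 0 := by
      rintro rfl
      exact hy1 (orderOf_eq_one_iff.1 hc)
    exact ((dvd_pow_self p hc0).trans (hc ▸ dvd_rfl)).trans (N.orderOf_dvd_natCard hyN)
  have hpI : p ∣ N.index := hpg.trans (orderOf_dvd_natCard _)
  have hother : ∀ n : ℕ, p ∣ n → ¬ IsPrimePow n → ∃ q, q.Prime ∧ q ∣ n ∧ q ≠ p := by
    intro n h1 h2
    by_contra h3
    push Not at h3
    exact h2 (isPrimePow_iff_unique_prime_dvd.2 ⟨p, ⟨hp, h1⟩, fun q hq => h3 q hq.1 hq.2⟩)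
  obtain ⟨q, hq, hqI, hqp⟩ := hother _ hpI hI
  obtain ⟨r, hr, hrN, hrp, hrc⟩ : ∃ r, r.Prime ∧ r ∣ Nat.card N ∧ r ≠ p ∧
      HasNormalPComplement r N := by
    have := Fact.mk hq
    by_cases hqN : q ∣ Nat.card N
    · obtain ⟨t, ht⟩ := exists_prime_orderOf_dvd_card' (G := G ⧸ N) q hqI
      obtain ⟨t, rfl⟩ := QuotientGroup.mk_surjective t
      obtain ⟨a, -, haN, m, ham⟩ := exists_pElem (p := q) N (g := t) (by rw [ht])
      exact ⟨q, hq, hqN, hqp, hasNormalPComplement_of_coset_conj N ham (hcam a haN)⟩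
    · obtain ⟨r, hr, hrN, hrp⟩ := hother _ hpN hN
      have := Fact.mk hr
      refine ⟨r, hr, hrN, hrp, GT.Tr.hasNormalPComplement_of_isNilpotent ?_⟩
      obtain ⟨t, ht⟩ := exists_prime_orderOf_dvd_card' (G := G) q
        (hqI.trans N.index_dvd_card)
      have htN : t ∉ N := fun h => hqN (ht ▸ N.orderOf_dvd_natCard h)
      refine GT.Frob.isNilpotent_of_fpf (φ := MulAut.conjNormal t) ?_ hq ?_
      · intro v hv
        have h1 : t * v * t⁻¹ = v := congrArg Subtype.val hv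
        have h2 := hcent t htN q (ht ▸ pow_orderOf_eq_one t) v v.2 (mul_inv_eq_iff_eq_mul.1 h1)
        rcases (Nat.dvd_prime hq).1 (orderOf_dvd_of_pow_eq_one h2) with h3 | h3
        · exact Subtype.ext (orderOf_eq_one_iff.1 h3)
        · exact absurd (h3 ▸ N.orderOf_dvd_natCard v.2) hqN
      · rw [← map_pow, ← ht, pow_orderOf_eq_one, map_one]
  have := Fact.mk hr
  obtain ⟨m, hm1, hm2⟩ := exists_pow_notMem_pow_mem (p := p) N huk huN
  set x := u ^ p ^ m with hx
  have hxk : x ^ p ^ k = 1 := by rw [hx, ← pow_mul, mul_comm, pow_mul, huk, one_pow]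
  obtain ⟨hpc, P, hP, hxP, hxc, hPN, hconj⟩ := exists_pgroup_conj_eq_mul N hxk (hcam x hm1)
  have hne : N ⊓ P ≠ ⊥ := by
    intro h
    apply hPN
    rw [← inf_relIndex_right, inf_comm, h, relIndex_bot_left]
    exact hpN
  obtain ⟨w, hwP, hwN, hwp, hw⟩ := exists_second_of_conj_eq_mul hP hxP hconj hne
  set K := (pResidual p N).map N.subtype with hK
  have hKN : K ≤ N := map_subtype_le _
  have hcardK : Nat.card K = Nat.card (pResidual p N) := card_map_of_injective N.subtype_injective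
  have hpK : ¬ p ∣ Nat.card K := hcardK ▸ hpc.not_dvd_card_pResidual
  have hrK : r ∣ Nat.card K := by
    obtain ⟨c, hc⟩ := GT.Tr.exists_index_pResidual (G := N) (p := p)
    rw [← (pResidual p N).card_mul_index, hc] at hrN
    rw [hcardK]
    exact ((Nat.coprime_primes hr hp).2 hrp).pow_right c |>.dvd_of_dvd_mul_right hrN
  have hPK : P ≤ normalizer (K : Set G) :=
    le_trans (by rw [normalizer_eq_top]; exact le_top)
      (GT.Tr.normalizer_le_normalizer_map_pResidual N)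
  have hcop : (Nat.card P).Coprime (Nat.card K) := by
    obtain ⟨c, hc⟩ := IsPGroup.iff_card.1 hP
    rw [hc]
    exact Nat.Coprime.pow_left _ ((Nat.Prime.coprime_iff_not_dvd hp).2 hpK)
  have hPs : Group.IsSolvable P := by have := hP.isNilpotent; infer_instance
  obtain ⟨R, hR⟩ := GT.CopAct.exists_invariant_sylow hPK hcop (Or.inl hPs) r
  set R' := (R : Subgroup K).map K.subtype with hR'
  have hR'p : IsPGroup r R' := R.isPGroup'.map _
  have hR'N : R' ≤ N := (map_subtype_le _).trans hKN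
  have hR'ne : R' ≠ ⊥ := by
    intro h
    rw [hR', map_eq_bot_iff_of_injective _ K.subtype_injective] at h
    apply R.not_dvd_index
    rw [h, index_bot]
    exact hrK
  have hcR : N ⊓ P ≤ centralizer (R' : Set G) := by
    intro n hn
    have h1 : (⟨n, hn.1⟩ : N) ∈ centralizer ((R'.subgroupOf N : Subgroup N) : Set N) := by
      refine hrc.mem_centralizer (hR'p.comap_of_injective _ N.subtype_injective) ?_ ?_
      · rw [mem_normalizer_iff]
        intro v
        exact mem_normalizer_iff.1 (hR hn.2) v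
      · obtain ⟨c, hc⟩ := hP ⟨n, hn.2⟩
        have h2 : (⟨n, hn.1⟩ : N) ^ p ^ c = 1 := Subtype.ext (congrArg Subtype.val hc :)
        exact Nat.Coprime.coprime_dvd_left (orderOf_dvd_of_pow_eq_one h2)
          (((Nat.coprime_primes hp hr).2 hrp.symm).pow_left c)
    rw [mem_centralizer_iff]
    intro v hv
    exact congrArg Subtype.val (mem_centralizer_iff.1 h1 ⟨v, hR'N hv⟩ hv)
  set V := R' ⊓ centralizer (R' : Set G) with hV
  have hVne : V ≠ ⊥ := by
    have := (nontrivial_iff_ne_bot R').2 hR'ne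
    obtain ⟨z, hz⟩ := (nontrivial_iff_exists_ne 1).1 hR'p.center_nontrivial
    intro h
    apply hz
    have : ((z : R') : G) ∈ V := ⟨(z : R').2, mem_centralizer_iff.2 fun v hv =>
      congrArg Subtype.val (mem_center_iff.1 z.2 ⟨v, hv⟩)⟩
    rw [h, mem_bot] at this
    exact Subtype.ext (Subtype.ext this)
  have hVc : IsMulCommutative V := ⟨⟨fun a b => Subtype.ext
    (mem_centralizer_iff.1 b.2.2 a a.2.1)⟩⟩
  have hPV : P ≤ normalizer (V : Set G) :=
    GT.CopAct.le_normalizer_inf hR (GT.CopAct.le_normalizer_centralizer hR)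
  have hcV : N ⊓ P ≤ centralizer (V : Set G) :=
    hcR.trans (centralizer_le (SetLike.coe_subset_coe.2 inf_le_left))
  have hpow : ∀ v ∈ V, ∀ c : ℕ, v ^ p ^ c = 1 → v = 1 := by
    intro v hv c hc
    obtain ⟨d, hd⟩ := hR'p ⟨v, hv.1⟩
    have h1 : v ^ r ^ d = 1 := congrArg Subtype.val hd
    have h2 := Nat.dvd_gcd (orderOf_dvd_of_pow_eq_one hc) (orderOf_dvd_of_pow_eq_one h1)
    rwa [Nat.Coprime.pow c d ((Nat.coprime_primes hp hr).2 hrp.symm), Nat.dvd_one,
      orderOf_eq_one_iff] at h2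
  have hfpf : ∀ z ∈ P, z ∉ N → ∀ v ∈ V, z * v = v * z → v = 1 := by
    intro z hz hzN v hv hc
    obtain ⟨c, hc'⟩ := hP ⟨z, hz⟩
    exact hpow v hv c (hcent z hzN _ (congrArg Subtype.val hc') v (hR'N hv.1) hc)
  apply hVne
  rw [eq_bot_iff]
  intro v hv
  refine hpow v hv 1 ?_
  rw [pow_one]
  refine pow_eq_one_of_fpf_pair hVc (hPV hxP) (hPV hwP) hp.pos (hcV ⟨hm2, pow_mem hxP _⟩)
    (hcV ⟨hwp, pow_mem hwP _⟩) (hcV ⟨?_, ?_⟩)
    (fun j => hfpf _ (mul_mem hxP (pow_mem hwP _)) (hw j))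
    (fun i hi hi' => hfpf _ (pow_mem hwP _) fun h => hwN ?_) hv
  · have := hxc w⁻¹ (inv_mem hwP)
    simpa [mul_assoc] using this
  · exact P.mul_mem (P.inv_mem (P.mul_mem hwP hxP)) (P.mul_mem hxP hwP)
  · have h1 : (w : G ⧸ N) ^ i = 1 := by
      rw [← QuotientGroup.mk_pow, QuotientGroup.eq_one_iff]; exact h
    have h2 : (w : G ⧸ N) ^ p = 1 := by
      rw [← QuotientGroup.mk_pow, QuotientGroup.eq_one_iff]; exact hwp
    have h3 := Nat.dvd_gcd (orderOf_dvd_of_pow_eq_one h2) (orderOf_dvd_of_pow_eq_one h1)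
    rwa [(Nat.coprime_of_lt_prime hi.ne' hi' hp), Nat.dvd_one, orderOf_eq_one_iff,
      QuotientGroup.eq_one_iff] at h3

end Cfsg.Agent.S4140
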