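import Cfsg.Statements.S4149
import Cfsg.Agent.FG.ClassIdx
import Cfsg.Agent.GT.TransferFrobenius

set_option autoImplicit false
open Cfsg

namespace Cfsg.Agent.S4149

open Subgroup Cfsg.Agent.FG.CI Finset

/-- Without a normal `p`-complement at least half of the elements have class size divisible
by `p`. -/
theorem half {G : Type*} [Group G] [Fintype G] {p : ℕ} [Fact p.Prime]
    (h : ¬ HasNormalPComplement p G) :
    Nat.card G ≤ 2 * #{x : G | p ∣ cidx x} := by
  classical
  have := Fintype.ofFinite (Sylow p G)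
  have h1 : ∀ Q : Sylow p G, 2 * Nat.card (centralizer ((Q : Subgroup G) : Set G)) *
      Nat.card (Sylow p G) ≤ Nat.card G := fun Q => by
    rw [Q.card_eq_index_normalizer, ← card_mul_index (normalizer ((Q : Subgroup G) : Set G))]
    refine Nat.mul_le_mul_right _ ?_
    have h2 := centralizer_le_normalizer ((Q : Subgroup G) : Set G)
    obtain ⟨k, hk⟩ := card_dvd_of_le h2
    have h3 : k ≠ 1 := fun h3 => h (GT.Tr.hasNormalPComplement_of_normalizer_le_centralizer Q
      (eq_of_le_of_card_ge h2 (by rw [hk, h3, mul_one])).ge)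
    have h4 : k ≠ 0 := fun h4 => Nat.card_pos.ne' (by rw [hk, h4, mul_zero])
    rw [hk, mul_comm]
    exact Nat.mul_le_mul_left _ (by omega)
  have h2 : #{x : G | ¬ p ∣ cidx x} ≤
      ∑ Q : Sylow p G, Nat.card (centralizer ((Q : Subgroup G) : Set G)) := by
    refine le_trans (card_le_card (t := univ.biUnion fun Q : Sylow p G =>
      {x : G | x ∈ centralizer ((Q : Subgroup G) : Set G)}) fun x hx => ?_)
      (card_biUnion_le.trans (sum_le_sum fun Q _ => le_of_eq ?_))
    · obtain ⟨Q, hQ⟩ := (not_dvd_index_iff _).1 (mem_filter.1 hx).2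
      exact mem_biUnion.2 ⟨Q, mem_univ _, mem_filter.2 ⟨mem_univ _, le_cent_iff.1 hQ⟩⟩
    · rw [Nat.card_eq_fintype_card, Fintype.card_subtype]
  have h3 : 2 * (∑ Q : Sylow p G, Nat.card (centralizer ((Q : Subgroup G) : Set G))) *
      Nat.card (Sylow p G) ≤ Nat.card G * Nat.card (Sylow p G) := by
    rw [mul_sum, sum_mul]
    refine (sum_le_sum fun Q _ => h1 Q).trans (le_of_eq ?_)
    rw [sum_const, card_univ, smul_eq_mul, mul_comm, Nat.card_eq_fintype_card (α := Sylow p G)]
  have h4 := Nat.le_of_mul_le_mul_right h3 Nat.card_pos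
  have h5 := card_filter_add_card_filter_not (s := (univ : Finset G)) fun x => p ∣ cidx x
  rw [card_univ, ← Nat.card_eq_fintype_card] at h5
  omega

/-- Double counting. -/
theorem count {G : Type*} [Group G] [Finite G] {σ : ℕ}
    (hσ : ∀ x : G, (cidx x).primeFactors.card ≤ σ) (T : Finset ℕ)
    (hT : ∀ p ∈ T, p.Prime ∧ ¬ HasNormalPComplement p G) : T = ∅ ∨ #T < 2 * σ := by
  classical
  have := Fintype.ofFinite G
  have h1 : #T * Nat.card G ≤ 2 * ∑ p ∈ T, #{x : G | p ∣ cidx x} := by
    rw [mul_sum, ← smul_eq_mul, ← sum_const]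
    exact sum_le_sum fun p hp => by
      have := Fact.mk (hT p hp).1
      exact half (hT p hp).2
  have h2 : ∑ p ∈ T, #{x : G | p ∣ cidx x} = ∑ x : G, #{p ∈ T | p ∣ cidx x} := by
    simp only [card_filter]
    exact sum_comm
  have h3 : ∑ x : G, #{p ∈ T | p ∣ cidx x} ≤ ∑ x ∈ univ.erase (1 : G), σ := by
    rw [← add_sum_erase _ _ (mem_univ (1 : G)), card_eq_zero.2 (filter_eq_empty_iff.2 fun p hp => by
      rw [cidx_one, Nat.dvd_one]; exact (hT p hp).1.ne_one), zero_add]
    exact sum_le_sum fun x _ => le_trans (card_le_card fun p hp => Nat.mem_primeFactors.2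
      ⟨(hT p (mem_filter.1 hp).1).1, (mem_filter.1 hp).2, cidx_ne_zero x⟩) (hσ x)
  rw [sum_const, card_erase_of_mem (mem_univ _), card_univ, ← Nat.card_eq_fintype_card,
    smul_eq_mul] at h3
  obtain ⟨n, hn⟩ := Nat.exists_eq_succ_of_ne_zero (Nat.card_pos (α := G)).ne'
  rw [hn, Nat.succ_eq_add_one] at h1 h3
  rw [Nat.add_sub_cancel] at h3
  rw [← card_eq_zero]
  by_contra! h4
  nlinarith [Nat.pos_of_ne_zero h4.1, h4.2]

/-- Let G be a finite group that has a normal p-complement for at most one prime p dividing its order, and let σ be a natural number such that every conjugacy class size of G has at most σ distinct prime divisors. Then the number of primes dividing at least one conjugacy class size of G is at most 2σ. -/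
theorem result {G : Type*} [Group G] [Finite G] (σ : ℕ)
    (hσ : ∀ x : G, ((Subgroup.centralizer ({x} : Set G)).index).primeFactors.card ≤ σ)
    (hnil : ∀ p q : ℕ, p.Prime → q.Prime → p ∣ Nat.card G → q ∣ Nat.card G →
      Cfsg.HasNormalPComplement p G → Cfsg.HasNormalPComplement q G → p = q) :
    Nat.card {p : ℕ | p.Prime ∧ ∃ x : G, p ∣ (Subgroup.centralizer ({x} : Set G)).index} ≤ 2 * σ := by
  classical
  set R := (Nat.card G).primeFactors.filter fun p => ∃ x : G, p ∣ cidx x with hR
  have h1 : {p : ℕ | p.Prime ∧ ∃ x : G, p ∣ (Subgroup.centralizer ({x} : Set G)).index} = R := by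
    ext p
    simp only [hR, Set.mem_setOf_eq, coe_filter, Nat.mem_primeFactors]
    exact ⟨fun ⟨h1, x, h2⟩ => ⟨⟨h1, h2.trans (cidx_dvd_card x), Nat.card_pos.ne'⟩, x, h2⟩,
      fun h => ⟨h.1.1, h.2⟩⟩
  rw [h1, Nat.card_eq_card_toFinset, toFinset_coe]
  have h2 : #(R.filter fun p => HasNormalPComplement p G) ≤ 1 := card_le_one.2 fun p hp q hq => by
    have h3 := Nat.mem_primeFactors.1 (mem_filter.1 (mem_filter.1 hp).1).1
    have h4 := Nat.mem_primeFactors.1 (mem_filter.1 (mem_filter.1 hq).1).1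
    exact hnil p q h3.1 h4.1 h3.2.1 h4.2.1 (mem_filter.1 hp).2 (mem_filter.1 hq).2
  have h3 := card_filter_add_card_filter_not (s := R) fun p => HasNormalPComplement p G
  rcases R.eq_empty_or_nonempty with h4 | ⟨p, hp⟩
  · simp [h4]
  obtain ⟨hp1, x, hx⟩ := mem_filter.1 hp
  have h5 : 0 < σ := lt_of_lt_of_le (card_pos.2 ⟨p, Nat.mem_primeFactors.2
    ⟨(Nat.mem_primeFactors.1 hp1).1, hx, cidx_ne_zero x⟩⟩) (hσ x)
  rcases count hσ (R.filter fun p => ¬ HasNormalPComplement p G) (fun p hp =>
    ⟨(Nat.mem_primeFactors.1 (mem_filter.1 (mem_filter.1 hp).1).1).1, (mem_filter.1 hp).2⟩) with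
    h6 | h6
  · rw [h6, card_empty] at h3
    omega
  · omega

end Cfsg.Agent.S4149
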