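import Cfsg.Statements.S4150
import Cfsg.Agent.Sym.PrimeCycle

set_option autoImplicit false
open Cfsg

namespace Cfsg.Agent.S4150

open Subgroup Equiv Equiv.Perm MulAction Cfsg.Agent.Sym

theorem main {α : Type*} [DecidableEq α] [Fintype α] {σ ρ : Perm α} (h : ∀ a, σ a ≠ a ∨ ρ a ≠ a)
    {p q : ℕ} (hp : p.Prime) (hq : q.Prime) (hσ : orderOf σ = p) (hρ : orderOf ρ = q)
    (h3 : 3 ≤ p) (hpq : p < q) (h1 : Fintype.card α ≤ 2 * p)
    (h2 : Fintype.card α = 2 * p → q + 3 ≤ 2 * p ∨ p = 3)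
    (h4 : p + 3 ≤ q ∨ (p = 3 ∧ q = 5) ∨ (p = 5 ∧ q = 7) ∨ (p = 11 ∧ q = 13)) :
    ∃ d : ℕ, 5 ≤ d ∧ Nonempty ((closure {σ, ρ} : Subgroup (Perm α)) ≃* alternatingGroup (Fin d)) := by
  have hG := isPreprimitive_closure_pair h (hσ ▸ hp) (hρ ▸ hq) (by omega) (by omega)
  have m1 : σ ∈ closure {σ, ρ} := subset_closure (by simp)
  have m2 : ρ ∈ closure {σ, ρ} := subset_closure (by simp)
  have hA : closure {σ, ρ} ≤ alternatingGroup α := (closure_le _).2 (by
    rintro g (rfl | rfl)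
    · exact mem_alternatingGroup_of_odd_orderOf (hσ ▸ hp.odd_of_ne_two (by omega))
    · exact mem_alternatingGroup_of_odd_orderOf (hρ ▸ hq.odd_of_ne_two (by omega)))
  have c2 := isCycle_of_prime_order' (hρ ▸ hq) (by omega)
  have s2 : ρ.support.card = q := c2.orderOf.symm.trans hρ
  have h5 : q ≤ Fintype.card α := s2 ▸ ρ.support.card_le_univ
  have key : alternatingGroup α ≤ closure {σ, ρ} → ∃ d : ℕ, 5 ≤ d ∧
      Nonempty ((closure {σ, ρ} : Subgroup (Perm α)) ≃* alternatingGroup (Fin d)) := fun h =>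
    ⟨Fintype.card α, by omega, ⟨(MulEquiv.subgroupCongr (le_antisymm hA h)).trans
      (Fintype.equivFin α).altCongrHom⟩⟩
  rcases h1.eq_or_lt with h1 | h1
  · rcases h2 h1 with h2 | rfl
    · exact key (Perm.alt_le_of_prime_cycle hG hq (by omega) c2 s2 m2)
    · obtain rfl : q = 5 := by
        have : q ≠ 6 := by rintro rfl; norm_num at hq
        omega
      exact (nonempty_mulEquiv_of_degree_six h1 hA (isMultiplyPretransitive_of_isCycle hG m2 c2
        (s2 ▸ hq) (c := 0) (by omega))).elim key fun h => ⟨5, le_rfl, h⟩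
  have c1 := isCycle_of_prime_order' (hσ ▸ hp) (by omega)
  have s1 : σ.support.card = p := c1.orderOf.symm.trans hσ
  refine key ?_
  by_cases h6 : p + 3 ≤ Fintype.card α
  · exact Perm.alt_le_of_prime_cycle hG hp h6 c1 s1 m1
  rcases h4 with h4 | ⟨rfl, rfl⟩ | ⟨rfl, rfl⟩ | ⟨rfl, rfl⟩
  · omega
  · exact alternatingGroup_le_of_isPreprimitive_of_isThreeCycle_mem hG
      (card_support_eq_three_iff.1 s1) m1
  · exact alternatingGroup_le_of_degree_seven (by omega) hA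
      (isMultiplyPretransitive_of_isCycle hG m1 c1 (s1 ▸ hp) (c := 1) (by omega))
  · exact alternatingGroup_le_of_degree_thirteen (by omega) hA hG m1 c1 s1

/-- Let m ≥ 5. Then there are primes p < q with m/2 ≤ p and q ≤ m such that any two elements x, y of the alternating group of degree m with x of order p and y of order q generate a subgroup isomorphic to an alternating group of some degree d ≥ 5. -/
theorem result (m : ℕ) (hm : 5 ≤ m) :
    ∃ p q : ℕ, p.Prime ∧ q.Prime ∧ m ≤ 2 * p ∧ p < q ∧ q ≤ m ∧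
      ∀ x y : alternatingGroup (Fin m), orderOf x = p → orderOf y = q →
        ∃ d : ℕ, 5 ≤ d ∧ Nonempty (Subgroup.closure ({x, y} : Set (alternatingGroup (Fin m))) ≃* alternatingGroup (Fin d)) := by
  obtain ⟨p, q, hp, hq, h1, h2, h3, h4, h5, h6⟩ : ∃ p q : ℕ, p.Prime ∧ q.Prime ∧ m ≤ 2 * p ∧
      p < q ∧ q ≤ m ∧ 3 ≤ p ∧ (m = 2 * p → q + 3 ≤ 2 * p ∨ p = 3) ∧
      (p + 3 ≤ q ∨ (p = 3 ∧ q = 5) ∨ (p = 5 ∧ q = 7) ∨ (p = 11 ∧ q = 13)) := by
    rcases (show m < 7 ∨ 7 ≤ m ∧ m < 11 ∨ 11 ≤ m ∧ m < 15 ∨ 15 ≤ m ∧ m < 17 ∨ 17 ≤ m by omega)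
      with h | h | h | h | h
    · exact ⟨3, 5, by norm_num, by norm_num, by omega⟩
    · exact ⟨5, 7, by norm_num, by norm_num, by omega⟩
    · exact ⟨7, 11, by norm_num, by norm_num, by omega⟩
    · exact ⟨11, 13, by norm_num, by norm_num, by omega⟩
    · obtain ⟨p, q, hp, hq, h⟩ := exists_two_primes h
      exact ⟨p, q, hp, hq, by omega⟩
  refine ⟨p, q, hp, hq, h1, h2, h3, fun x y hx hy => ?_⟩
  obtain ⟨D, σ, ρ, h7, h8, h9, ⟨e⟩⟩ := exists_restrict_pair x.1 y.1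
  have h10 : Fintype.card D ≤ m := by simpa using D.card_le_univ
  obtain ⟨d, hd, ⟨f⟩⟩ := main h7 hp hq (by rw [← lcm_cycleType, h8, lcm_cycleType, orderOf_coe, hx])
    (by rw [← lcm_cycleType, h9, lcm_cycleType, orderOf_coe, hy]) h4 h2 (by omega)
    (fun h => h5 (by omega)) h6
  refine ⟨d, hd, ⟨((equivMapOfInjective _ _ (subtype_injective _)).trans
    (MulEquiv.subgroupCongr ?_)).trans (e.trans f)⟩⟩
  rw [MonoidHom.map_closure, Set.image_pair]
  rfl

end Cfsg.Agent.S4150
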