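import Mathlib
import Cfsg.Statements.S4151
import Cfsg.Agent.FG.H94TIHall
import Cfsg.Agent.S4118
import Cfsg.Agent.FG.H94ZAct
-- import your own Cfsg.Agent.* helpers here

set_option autoImplicit false
open Cfsg

namespace Cfsg.Agent.S4151


/-- Let G be a finite group and H a non-normal subgroup meeting each of its conjugates by elements outside N_G(H) trivially, with the order of H coprime to its index in N_G(H), such that G is π-separable for π the set of primes dividing the order of H (G has a chain of normal subgroups from 1 to G each of whose factors has order divisible only by primes dividing the order of H or coprime to it). Suppose a Sylow 2-subgroup of H is abelian and Q is a complement of H in N_G(H). Then C_H(Q), the subgroup of elements of H commuting with Q, has order coprime to its index in G and has a normal complement in G. -/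
theorem result {G : Type*} [Group G] [Finite G] (H : Subgroup G)
    (hTI : Cfsg.IsTISubset (H : Set G)) (hnn : ¬ H.Normal)
    (hHall : (Nat.card H).Coprime (H.subgroupOf (Subgroup.normalizer (H : Set G))).index)
    (hsep : ∃ (n : ℕ) (M : Fin (n + 1) → Subgroup G), M 0 = ⊥ ∧ M (Fin.last n) = ⊤ ∧ Monotone M ∧ (∀ i, (M i).Normal) ∧
      ∀ i : Fin n, (∀ q : ℕ, q.Prime → q ∣ (M i.castSucc).relIndex (M i.succ) → q ∣ Nat.card H) ∨
        ((M i.castSucc).relIndex (M i.succ)).Coprime (Nat.card H))
    (h2 : ∀ P : Sylow 2 H, IsMulCommutative (P : Subgroup H))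
    (Q : Subgroup G) (hQ : Q ≤ Subgroup.normalizer (H : Set G)) (hQH : Q ⊓ H = ⊥) (hQH' : Q ⊔ H = Subgroup.normalizer (H : Set G)) :
    (Nat.card ↥(H ⊓ Subgroup.centralizer (Q : Set G))).Coprime (H ⊓ Subgroup.centralizer (Q : Set G)).index ∧
    ∃ N : Subgroup G, N.Normal ∧ N.IsComplement' (H ⊓ Subgroup.centralizer (Q : Set G)) := by
  obtain ⟨h1, -, -⟩ := S4118.result H hTI hnn hHall hsep _ rfl
  set O := sSup {K : Subgroup G | K.Normal ∧ (Nat.card K).Coprime (Nat.card H)} with hO
  have hOn : O.Normal := Subgroup.sSup_normal _ fun _ h => h.1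
  have hcop : (Nat.card O).Coprime (Nat.card H) :=
    GT.sSup_normal_prop (fun K => (Nat.card K).Coprime (Nat.card H)) (by simp)
      fun A B _ _ hA hB => (Nat.Coprime.mul_left hA hB).coprime_dvd_left (GT.card_sup_dvd A B)
  have hF : GT.Frob.HasFpfAction H :=
    FG.TIH.hasFpfAction hTI Subgroup.le_normalizer_of_normal hcop.symm fun h => hnn (by
      rw [← Subgroup.normalizer_eq_top_iff, ← h1, sup_eq_right.2 h])
  have hZ : IsZGroup H := hF.isZGroup_of_two fun P => by
    have := h2 P
    exact hF.isCyclic_subgroup_of_comm _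
  have hQc : (Nat.card Q).Coprime (Nat.card H) := by
    have h3 : H.relIndex (Subgroup.normalizer (H : Set G)) = Nat.card Q := by
      rw [← hQH', GT.relIndex_sup_of_le_normalizer hQ, ← Subgroup.inf_relIndex_right, inf_comm, hQH,
        Subgroup.relIndex_bot_left]
    rw [← h3]; exact hHall.symm
  set C := H ⊓ Subgroup.centralizer (Q : Set G) with hC
  set φ := GT.CopAct.conjHom hQ with hφ
  have h3 : GT.CopAct.actFixed φ = C.subgroupOf H := by
    rw [hφ, GT.CopAct.actFixed_conjHom, hC, Subgroup.inf_subgroupOf_left]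
  have h4 : (GT.CopAct.actComm φ ⊤).map H.subtype = ⁅H, Q⁆ := by
    rw [hφ, GT.CopAct.map_actComm_conjHom, ← MonoidHom.range_eq_map, Subgroup.range_subtype]
  have h5 := FG.ZAct.coprime_actFixed_index (φ := φ) hQc
  have h6 := FG.ZAct.coprime_actFixed (φ := φ) hQc
  have h7 := (FG.ZAct.isComplement'_actComm (φ := φ) hQc).sup_eq_top
  have hCH : C ≤ H := inf_le_left
  rw [h3, GT.card_subgroupOf_of_le hCH] at h5 h6
  rw [← GT.card_map_subtype, h4] at h6
  have h8 : ⁅H, Q⁆ ⊔ C = H := by
    have := congrArg (Subgroup.map H.subtype) h7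
    rwa [Subgroup.map_sup, h4, h3, GT.map_subtype_subgroupOf_of_le hCH, ← MonoidHom.range_eq_map,
      Subgroup.range_subtype] at this
  have hd := Subgroup.card_dvd_of_le hCH
  refine ⟨?_, O ⊔ (⁅H, Q⁆ ⊔ Q), ?_⟩
  · rw [← Subgroup.relIndex_mul_index hCH]
    exact Nat.Coprime.mul_right h5 ((FG.TIH.coprime_index hTI hHall).coprime_dvd_left hd)
  have hQn : Q ≤ Subgroup.normalizer ((⁅H, Q⁆ : Subgroup G) : Set G) :=
    GT.le_normalizer_commutator hQ Subgroup.le_normalizer
  have h9 : H ≤ Subgroup.normalizer ((⁅H, Q⁆ ⊔ Q : Subgroup G) : Set G) := by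
    have hHn : H ≤ Subgroup.normalizer ((⁅H, Q⁆ : Subgroup G) : Set G) :=
      Subgroup.normalizer_commutator_ge_left H Q
    intro h hh
    refine GT.mem_normalizer_of_map_conj_le ?_
    rw [Subgroup.map_sup]
    refine sup_le (le_sup_of_le_left (GT.map_conj_le_of_mem_normalizer le_rfl (hHn hh))) ?_
    refine GT.map_conj_le_iff_forall.2 fun q hq => ?_
    have : h * q * h⁻¹ = (h * q * h⁻¹ * q⁻¹) * q := by group
    rw [this]
    exact mul_mem (Subgroup.mem_sup_left (Subgroup.commutator_mem_commutator hh hq))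
      (Subgroup.mem_sup_right hq)
  have h10 : (O ⊔ (⁅H, Q⁆ ⊔ Q)).Normal := by
    refine GT.normal_of_sup_eq_top h1 (le_sup_left.trans Subgroup.le_normalizer)
      (GT.CopAct.le_normalizer_sup Subgroup.le_normalizer_of_normal ?_)
    rw [← hQH']
    exact sup_le (le_sup_right.trans Subgroup.le_normalizer) h9
  refine ⟨h10, GT.isComplement'_of_coprime_of_sup_eq_top ?_ ?_⟩
  · refine Nat.Coprime.coprime_dvd_left (GT.HT.card_sup_dvd Subgroup.le_normalizer_of_normal) ?_
    refine Nat.Coprime.mul_left (hcop.coprime_dvd_right hd) ?_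
    exact Nat.Coprime.coprime_dvd_left (GT.HT.card_sup_dvd hQn)
      (Nat.Coprime.mul_left h6.symm (hQc.coprime_dvd_right hd))
  · rw [eq_top_iff, ← h1, ← hQH']
    refine sup_le (le_sup_of_le_left le_sup_left) (sup_le
      (le_sup_of_le_left (le_sup_of_le_right le_sup_right)) (h8.ge.trans ?_))
    exact sup_le (le_sup_of_le_left (le_sup_of_le_right le_sup_left)) le_sup_right

end Cfsg.Agent.S4151
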