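import Mathlib
import Cfsg.Statements.S4153
import Cfsg.Agent.FG.ClassIdx
import Cfsg.Agent.FG.ClassCount
import Cfsg.Agent.GT.Conj
import Cfsg.Agent.FG.SylowNormal
-- import your own Cfsg.Agent.* helpers here

set_option autoImplicit false
open Cfsg

namespace Cfsg.Agent.S4153

open Subgroup Cfsg.Agent.FG.CI


/-- Let G be a finite group, p a prime, N a normal subgroup, P a Sylow p-subgroup of G and P̄ a Sylow p-subgroup of G/N. Count the elements of p-power order, the identity included. Then (number of such elements of G/N)/#P̄ ≤ (number of such elements of G)/#P, stated as a cross-multiplied inequality, with equality when N is central. -/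
theorem result {G : Type*} [Group G] [Finite G] (p : ℕ) [Fact p.Prime] (N : Subgroup G) [N.Normal]
    (P : Sylow p G) (Pbar : Sylow p (G ⧸ N)) :
    Nat.card {g : (G ⧸ N) // ∃ k : ℕ, orderOf g = p ^ k} * Nat.card (P : Subgroup G) ≤ Nat.card {g : G // ∃ k : ℕ, orderOf g = p ^ k} * Nat.card (Pbar : Subgroup (G ⧸ N)) ∧
    (N ≤ Subgroup.center G → Nat.card {g : (G ⧸ N) // ∃ k : ℕ, orderOf g = p ^ k} * Nat.card (P : Subgroup G) = Nat.card {g : G // ∃ k : ℕ, orderOf g = p ^ k} * Nat.card (Pbar : Subgroup (G ⧸ N))) := by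
  classical
  set D : Subgroup G := (P : Subgroup G) ⊓ N with hD
  have hPD : Nat.card (P : Subgroup G) = Nat.card (Pbar : Subgroup (G ⧸ N)) * Nat.card D := by
    have h1 : Nat.card (Pbar : Subgroup (G ⧸ N)) =
        Nat.card ((P : Subgroup G).map (QuotientGroup.mk' N)) := by
      rw [Sylow.card_eq_multiplicity]
      exact (Sylow.card_eq_multiplicity (P.mapSurjective (QuotientGroup.mk'_surjective N))).symm
    rw [h1, FG.card_eq_relIndex_mul_card_inf N P, inf_comm]
    congr 1
    rw [← relIndex_ker, QuotientGroup.ker_mk']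
  -- choose p-element lifts together with conjugating elements
  have hl : ∀ q : {g : (G ⧸ N) // ∃ k : ℕ, orderOf g = p ^ k}, ∃ x c : G, (x : G ⧸ N) = q ∧
      c * x * c⁻¹ ∈ (P : Subgroup G) := by
    intro q
    obtain ⟨x, hx, hx'⟩ := FG.H96.exists_pElement_lift (QuotientGroup.mk'_surjective N) q.2
    obtain ⟨c, hc⟩ := exists_conj_mem_sylow P hx'
    exact ⟨x, c, hx, hc⟩
  choose x c hx hc using hl
  let f : {g : (G ⧸ N) // ∃ k : ℕ, orderOf g = p ^ k} × D → {g : G // ∃ k : ℕ, orderOf g = p ^ k} :=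
    fun a => ⟨x a.1 * ((c a.1)⁻¹ * a.2 * c a.1), by
      have h1 : x a.1 * ((c a.1)⁻¹ * a.2 * c a.1) =
        (c a.1)⁻¹ * (c a.1 * x a.1 * (c a.1)⁻¹ * a.2) * (c a.1)⁻¹⁻¹ := by group
      rw [h1, GT.orderOf_conj]
      exact orderOf_of_mem P.isPGroup' (mul_mem (hc a.1) a.2.2.1)⟩
  have hq : ∀ a, ((f a : G) : G ⧸ N) = a.1 := by
    intro a
    have : (((c a.1)⁻¹ * a.2 * c a.1 : G) : G ⧸ N) = 1 :=
      (QuotientGroup.eq_one_iff _).2 (Normal.conj_mem' inferInstance _ a.2.2.2 _)
    simp only [f]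
    rw [QuotientGroup.mk_mul, this, mul_one, hx]
  have hf : Function.Injective f := by
    rintro ⟨q, d⟩ ⟨q', d'⟩ he
    have h1 : q = q' := Subtype.ext (by rw [← hq (q, d), ← hq (q', d'), he])
    subst h1
    have h2 := congrArg Subtype.val he
    simp only [f, mul_right_inj, mul_left_inj] at h2
    rw [Subtype.ext h2]
  constructor
  · have := Nat.card_le_card_of_injective f hf
    rw [Nat.card_prod] at this
    rw [hPD, mul_comm (Nat.card (Pbar : Subgroup (G ⧸ N))), ← mul_assoc]
    exact Nat.mul_le_mul_right _ this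
  · intro hN
    have hs : Function.Surjective f := by
      rintro ⟨g, k, hk⟩
      have hg : ∃ j, orderOf (g : G ⧸ N) = p ^ j := by
        have := orderOf_map_dvd (QuotientGroup.mk' N) g
        rw [hk] at this
        obtain ⟨j, -, hj⟩ := (Nat.dvd_prime_pow Fact.out).1 this
        exact ⟨j, hj⟩
      set y := x ⟨_, hg⟩ with hy
      have h1 : y⁻¹ * g ∈ N := QuotientGroup.eq.1 (hx ⟨_, hg⟩)
      have h2 : Commute y⁻¹ g := by
        have := Subgroup.mem_center_iff.1 (hN h1) g
        rw [← mul_assoc] at this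
        exact (mul_right_cancel this).symm
      have h3 : ∃ j, orderOf (y⁻¹ * g) = p ^ j := by
        obtain ⟨j, hj⟩ := orderOf_of_mem P.isPGroup' (hc ⟨_, hg⟩)
        rw [GT.orderOf_conj, ← hy, ← orderOf_inv] at hj
        have := h2.orderOf_mul_dvd_mul_orderOf
        rw [hj, hk, ← pow_add] at this
        obtain ⟨j, -, hj⟩ := (Nat.dvd_prime_pow Fact.out).1 this
        exact ⟨j, hj⟩
      obtain ⟨e, he⟩ := exists_conj_mem_sylow P h3
      have h4 : ∀ e : G, e * (y⁻¹ * g) * e⁻¹ = y⁻¹ * g := fun e => by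
        rw [Subgroup.mem_center_iff.1 (hN h1) e]; group
      rw [h4] at he
      refine ⟨⟨⟨_, hg⟩, ⟨y⁻¹ * g, he, h1⟩⟩, Subtype.ext ?_⟩
      have := h4 (c ⟨_, hg⟩)⁻¹
      rw [inv_inv] at this
      simp only [f]
      rw [this, ← hy]; group
    have := Nat.card_eq_of_bijective f ⟨hf, hs⟩
    rw [Nat.card_prod] at this
    rw [hPD, mul_comm (Nat.card (Pbar : Subgroup (G ⧸ N))), ← mul_assoc, this]

end Cfsg.Agent.S4153
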