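import Mathlib
import Cfsg.Statements.S4154
import Cfsg.Agent.FG.ClassIdx
-- import your own Cfsg.Agent.* helpers here

set_option autoImplicit false
open Cfsg

namespace Cfsg.Agent.S4154

open Subgroup Cfsg.Agent.FG.CI


/-- Let G be a finite group and α an automorphism of G such that every element of G is the product of an element fixed by α and an element of the form g⁻¹α(g). If N is a normal α-invariant subgroup, then the automorphism ᾱ induced on G/N has the same property, and every coset fixed by ᾱ contains an element fixed by α (so the fixed points of ᾱ are the images of the fixed points of α). -/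
theorem result {G : Type*} [Group G] [Finite G] (α : MulAut G)
    (hccp : ∀ x : G, ∃ c g : G, α c = c ∧ x = c * (g⁻¹ * α g))
    (N : Subgroup G) [N.Normal] (hN : ∀ n ∈ N, α n ∈ N) :
    (∀ x : G, ∃ c g : G, c⁻¹ * α c ∈ N ∧ x⁻¹ * (c * (g⁻¹ * α g)) ∈ N) ∧
    (∀ x : G, x⁻¹ * α x ∈ N → ∃ c : G, α c = c ∧ c⁻¹ * x ∈ N) := by
  refine ⟨fun x => ?_, ?_⟩
  · obtain ⟨c, g, hc, hx⟩ := hccp x
    exact ⟨c, g, by simp [hc], by simp [← hx]⟩
  classical
  let β : G ⧸ N →* G ⧸ N := QuotientGroup.map N N α.toMonoidHom hN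
  let C : Subgroup (G ⧸ N) := β.eqLocus (MonoidHom.id _)
  let D : Subgroup (G ⧸ N) := (α.toMonoidHom.eqLocus (MonoidHom.id _)).map (QuotientGroup.mk' N)
  let φ : G ⧸ N → G ⧸ N := fun q => q⁻¹ * β q
  have hDC : D ≤ C := by
    rintro _ ⟨c, hc, rfl⟩
    have hc' : α c = c := hc
    change β (c : G ⧸ N) = c
    simp [β, hc']
  have h1 : Nat.card (C × Set.range φ) ≤ Nat.card (G ⧸ N) := by
    refine Nat.card_le_card_of_injective (fun a => a.1.1 * a.2.2.choose) ?_
    rintro ⟨c, t⟩ ⟨c', t'⟩ h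
    simp only at h
    have key : ∀ (c : C) (s : G ⧸ N), φ (c.1 * s) = φ s := by
      intro c s
      have hc : β c.1 = c.1 := c.2
      simp [φ, hc, mul_assoc]
    have ht : t = t' := by
      apply Subtype.ext
      rw [← t.2.choose_spec, ← t'.2.choose_spec, ← key c, h, key c']
    subst ht
    rw [Subtype.ext (mul_right_cancel h)]
  have h2 : Nat.card (G ⧸ N) ≤ Nat.card (D × Set.range φ) := by
    refine Nat.card_le_card_of_surjective (fun a => a.1.1 * a.2.1) ?_
    intro q
    obtain ⟨x, rfl⟩ := QuotientGroup.mk_surjective q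
    obtain ⟨c, g, hc, hx⟩ := hccp x
    refine ⟨⟨⟨c, c, hc, rfl⟩, ⟨φ g, g, rfl⟩⟩, ?_⟩
    simp [φ, β, hx]
  have h3 : Nat.card C ≤ Nat.card D := by
    rw [Nat.card_prod] at h1 h2
    have : 0 < Nat.card (Set.range φ) := Nat.card_pos
    exact Nat.le_of_mul_le_mul_right (h1.trans h2) this
  have h4 : D = C := Subgroup.eq_of_le_of_card_ge hDC h3
  intro x hx
  have h5 : (x : G ⧸ N) ∈ C := by
    change β (x : G ⧸ N) = x
    exact (QuotientGroup.eq.2 hx).symm
  rw [← h4] at h5
  obtain ⟨c, hc, h6⟩ := h5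
  exact ⟨c, hc, QuotientGroup.eq.1 h6⟩

end Cfsg.Agent.S4154
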