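import Mathlib
import Cfsg.Statements.S4155
import Cfsg.Agent.S4107
import Cfsg.Agent.FG.ClassIdx
import Cfsg.Agent.FG.SylowNormal
import Cfsg.Agent.GT.Conj
import Cfsg.Agent.GT.Fitting
import Cfsg.Agent.GT.FrobeniusFpf
import Cfsg.Agent.GT.FrobeniusComplement
import Cfsg.Agent.GT.PGroupBasic
-- import your own Cfsg.Agent.* helpers here

set_option autoImplicit false
open Cfsg

namespace Cfsg.Agent.S4155

open Subgroup Cfsg.Agent.FG.CI
open scoped IsMulCommutative


/-- Let G be a finite group and N a proper non-trivial normal nilpotent subgroup whose order is not a prime power, such that for every x outside N all elements of the coset xN have the same order as x. Then N is the Fitting subgroup of G, and for every prime q every Sylow q-subgroup of G/N is cyclic or generalized quaternion. -/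
theorem result {G : Type*} [Group G] [Finite G] (N : Subgroup G) [N.Normal] (hN1 : N ≠ ⊥) (hN2 : N ≠ ⊤)
    (heq : ∀ x : G, x ∉ N → ∀ n ∈ N, orderOf (x * n) = orderOf x)
    (hnil : Group.IsNilpotent N) (hnpp : ¬ IsPrimePow (Nat.card N)) :
    N = Cfsg.fittingSubgroup G ∧
    ∀ (q : ℕ) [Fact q.Prime] (Q : Sylow q (G ⧸ N)), IsCyclic (Q : Subgroup (G ⧸ N)) ∨ ∃ n : ℕ, Nonempty ((Q : Subgroup (G ⧸ N)) ≃* QuaternionGroup (2 ^ n)) := by
  constructor
  · have h1 := Cfsg.Agent.S4107.result N hN1 hN2 heq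
    have h2 : N ≤ fittingSubgroup G := GT.le_fitting N
    by_contra h
    obtain ⟨p, k, hp, -, hk⟩ := (isPrimePow_nat_iff _).1 (h1.2 (lt_of_le_of_ne h2 h))
    obtain ⟨j, -, hj⟩ := (Nat.dvd_prime_pow hp).1 (hk ▸ card_dvd_of_le h2)
    apply hnpp
    rw [hj]
    refine hp.isPrimePow.pow ?_
    rintro rfl
    exact hN1 (Subgroup.card_eq_one.1 hj)
  intro q _ Q
  have hq : q.Prime := Fact.out
  obtain ⟨p, hp, hpN, hpq⟩ : ∃ p : ℕ, p.Prime ∧ p ∣ Nat.card N ∧ p ≠ q := by
    by_contra h
    push Not at h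
    apply hnpp
    rw [Nat.eq_prime_pow_of_unique_prime_dvd (n := Nat.card N) Nat.card_pos.ne'
      fun hp hd => h _ hp hd]
    refine hq.isPrimePow.pow fun h0 => hN1 ?_
    rw [← Subgroup.card_eq_one, Nat.eq_prime_pow_of_unique_prime_dvd (n := Nat.card N)
      Nat.card_pos.ne' fun hp hd => h _ hp hd, h0, pow_zero]
  have := Fact.mk hp
  set V : Subgroup G := pCoreOf p N ⊓ centralizer (N : Set G) with hV
  have hVN : V ≤ N := inf_le_left.trans (GT.pCoreOf_le N)
  have hVp : IsPGroup p V := (GT.isPGroup_pCoreOf p N).to_le inf_le_left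
  have hV1 : V ≠ ⊥ := by
    have h1 : pCore p N ≠ ⊥ := by
      obtain ⟨x, hx⟩ := exists_prime_orderOf_dvd_card' p hpN
      intro h
      have h2 := GT.le_pCore_of_isNilpotent (isPGroup_zpowers (x := x) ⟨1, by rw [hx, pow_one]⟩)
      rw [h, le_bot_iff, zpowers_eq_bot] at h2
      rw [h2, orderOf_one] at hx
      exact hp.one_lt.ne hx
    obtain ⟨⟨x, hx, hxc⟩, hx1⟩ := Subgroup.ne_bot_iff_exists_ne_one.1
      (GT.PG.inf_center_ne_bot _ h1)
    refine Subgroup.ne_bot_iff_exists_ne_one.2 ⟨⟨x, ⟨x, hx, rfl⟩, mem_centralizer_iff.2 fun n hn =>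
      congrArg Subtype.val (Subgroup.mem_center_iff.1 hxc ⟨n, hn⟩)⟩, fun h => hx1 ?_⟩
    exact Subtype.ext (Subtype.ext (congrArg (fun a : V => (a : G)) h))
  have : IsMulCommutative V := GT.PG.isMulCommutative_iff_le_centralizer.2
    (inf_le_right.trans (GT.centralizer_anti hVN))
  have : Nontrivial V := (nontrivial_iff_ne_bot V).2 hV1
  let φ : G ⧸ N →* MulAut V := QuotientGroup.lift N MulAut.conjNormal fun n hn => by
    ext v
    have := mem_centralizer_iff.1 v.2.2 n hn
    simp [this]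
  have hF : GT.Frob.HasFpfAction (Q : Subgroup (G ⧸ N)) := by
    refine GT.Frob.hasFpfAction_of_finite (φ.comp (Q : Subgroup (G ⧸ N)).subtype) fun a ha v hv => ?_
    obtain ⟨x, hx, k, hk⟩ := FG.H96.exists_pElement_lift (QuotientGroup.mk'_surjective N)
      (orderOf_of_mem Q.isPGroup' a.2)
    have hx' : (x : G ⧸ N) = a := hx
    have hxN : x ∉ N := fun h => ha (Subtype.ext (hx' ▸ (QuotientGroup.eq_one_iff x).2 h))
    have h1 : x * v * x⁻¹ = v := by
      have h2 : φ (x : G ⧸ N) v = v := by rw [hx']; exact hv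
      exact congrArg Subtype.val h2
    have hc : Commute x v := mul_inv_eq_iff_eq_mul.1 h1
    obtain ⟨j, hj⟩ := orderOf_of_mem hVp v.2
    have h2 := heq x hxN v (hVN v.2)
    rw [hc.orderOf_mul_eq_mul_orderOf_of_coprime (by
      rw [hk, hj]; exact Nat.coprime_pow_primes _ _ hq hp hpq.symm)] at h2
    exact Subtype.ext (orderOf_eq_one_iff.1
      (Nat.eq_of_mul_eq_mul_left (orderOf_pos x) (h2.trans (mul_one _).symm)))
  exact (hF.isCyclic_or_quaternion Q.isPGroup').imp_right fun h => h.2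

end Cfsg.Agent.S4155
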