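import Mathlib
import Cfsg.Statements.S4156
import Cfsg.Agent.Cl.LinearBasic

set_option autoImplicit false
open Cfsg

namespace Cfsg.Agent.S4156

/-- The permutation representation on the sum-zero hyperplane. -/
def rho (n : ℕ) (F : Type*) [Field F] : Equiv.Perm (Fin (n + 1)) →* Matrix (Fin n) (Fin n) F where
  toFun σ := Matrix.of fun i j => (if σ j.castSucc = i.castSucc then 1 else 0) -
    (if σ (Fin.last n) = i.castSucc then 1 else 0)
  map_one' := by
    ext i j
    simp [Matrix.one_apply, (Fin.castSucc_lt_last i).ne', eq_comm]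
  map_mul' σ τ := by
    ext i j
    have h := Fin.sum_univ_castSucc fun k : Fin (n + 1) =>
      ((if σ k = i.castSucc then (1 : F) else 0) - (if σ (Fin.last n) = i.castSucc then 1 else 0)) *
        ((if τ j.castSucc = k then 1 else 0) - (if τ (Fin.last n) = k then 1 else 0))
    rw [sub_self, zero_mul, add_zero] at h
    simp only [Matrix.mul_apply, Matrix.of_apply, Equiv.Perm.mul_apply]
    rw [← h]
    simp only [mul_sub, mul_ite, mul_one, mul_zero, Finset.sum_sub_distrib, Finset.sum_ite_eq,
      Finset.mem_univ, if_true]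
    rw [sub_sub_sub_cancel_right]
    congr 1

/-- Let n ≥ 5 and F a finite field. Then the projective special linear group PSL_n(F) contains a subgroup isomorphic to the alternating group of degree n + 1. -/
theorem result (n : ℕ) (hn : 5 ≤ n) (F : Type*) [Field F] [Finite F] :
    ∃ f : alternatingGroup (Fin (n + 1)) →* Matrix.ProjectiveSpecialLinearGroup (Fin n) F, Function.Injective f := by
  have hc : 5 ≤ Nat.card (Fin (n + 1)) := by simp; omega
  have hs := alternatingGroup.isSimpleGroup hc
  let f1 : alternatingGroup (Fin (n + 1)) →* GL (Fin n) F :=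
    (rho n F).toHomUnits.comp (alternatingGroup _).subtype
  have hdet : ∀ σ, (f1 σ : Matrix (Fin n) (Fin n) F).det = 1 := fun σ => by
    have h1 := Abelianization.commutator_subset_ker (Matrix.GeneralLinearGroup.det.comp f1)
    rw [commutator_alternatingGroup_eq_top hc] at h1
    exact congrArg Units.val (h1 (Subgroup.mem_top σ))
  let f2 : alternatingGroup (Fin (n + 1)) →* Matrix.SpecialLinearGroup (Fin n) F :=
    { toFun := fun σ => ⟨f1 σ, hdet σ⟩
      map_one' := Subtype.ext (by simp)
      map_mul' := fun σ τ => Subtype.ext (congrArg Units.val (map_mul f1 σ τ)) }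
  refine ⟨(QuotientGroup.mk' _).comp f2, (MonoidHom.ker_eq_bot_iff _).1
    ((hs.eq_bot_or_eq_top_of_normal _ inferInstance).resolve_right fun h => ?_)⟩
  let a : Fin n := ⟨0, by omega⟩
  let b : Fin n := ⟨1, by omega⟩
  let c : Fin n := ⟨2, by omega⟩
  have hab : a.castSucc ≠ b.castSucc := by simp [a, b, Fin.ext_iff]
  have hac : a.castSucc ≠ c.castSucc := by simp [a, c, Fin.ext_iff]
  have hbc : b.castSucc ≠ c.castSucc := by simp [b, c, Fin.ext_iff]
  let σ : alternatingGroup (Fin (n + 1)) :=
    ⟨Equiv.swap a.castSucc b.castSucc * Equiv.swap b.castSucc c.castSucc, by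
      simp [Equiv.Perm.mem_alternatingGroup, hab, hbc]⟩
  have h1 : σ ∈ ((QuotientGroup.mk' (Subgroup.center _)).comp f2).ker := h ▸ Subgroup.mem_top σ
  rw [MonoidHom.mem_ker, MonoidHom.comp_apply, QuotientGroup.mk'_apply, QuotientGroup.eq_one_iff,
    Matrix.SpecialLinearGroup.mem_center_iff] at h1
  obtain ⟨r, -, hr⟩ := h1
  have h2 := congrFun (congrFun hr b) a
  have h3 : (f2 σ : Matrix (Fin n) (Fin n) F) b a = rho n F σ b a := rfl
  rw [h3, Matrix.scalar_apply, Matrix.diagonal_apply_ne _ (fun e => hab (by rw [e]))] at h2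
  simp [rho, σ, Equiv.swap_apply_of_ne_of_ne, hab, hac, (Fin.castSucc_lt_last _).ne'] at h2

end Cfsg.Agent.S4156
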