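import Mathlib
import Cfsg.Statements.S4159
import Cfsg.Agent.FG.RealSylow
import Cfsg.Agent.S0205
-- import your own Cfsg.Agent.* helpers here

set_option autoImplicit false
open Cfsg

namespace Cfsg.Agent.S4159

open Subgroup Cfsg.Agent.FG.CI


/-- Let G be a finite group such that in every subgroup H of G, any two conjugacy classes of H of size greater than 1 have non-coprime sizes. Then G is solvable. -/
theorem result {G : Type*} [Group G] [Finite G]
    (h : ∀ (H : Subgroup G) (x y : H), 1 < (Subgroup.centralizer ({x} : Set H)).index → 1 < (Subgroup.centralizer ({y} : Set H)).index →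
      ¬ ((Subgroup.centralizer ({x} : Set H)).index).Coprime (Subgroup.centralizer ({y} : Set H)).index) : Group.IsSolvable G := by
  have h1 : Odd (pCore 2 G).index := by
    apply odd_index_pCore_two_of_no_inverted
    intro t x ht hx hinv
    by_contra hx1
    have hxx : x⁻¹ ≠ x := by
      intro h2
      have : x ^ 2 = 1 := by rw [sq]; nth_rewrite 1 [← h2]; simp
      have h3 := orderOf_dvd_of_pow_eq_one this
      have h4 := (Nat.dvd_prime Nat.prime_two).1 h3
      rcases h4 with h4 | h4
      · exact hx1 (orderOf_eq_one_iff.1 h4)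
      · rw [h4] at hx; exact absurd hx (by decide)
    have htn : zpowers t ≤ normalizer (zpowers x : Set G) := by
      rw [zpowers_le]
      apply GT.Tr.mem_normalizer_of_conj_mem
      rintro _ ⟨j, rfl⟩
      simp only [← conj_zpow, hinv]
      exact zpow_mem (inv_mem (mem_zpowers x)) j
    set H := zpowers x ⊔ zpowers t with hH
    have hxH : x ∈ H := mem_sup_left (mem_zpowers x)
    have htH : t ∈ H := mem_sup_right (mem_zpowers t)
    have hne : t * x ≠ x * t := by
      intro h2
      apply hxx
      rw [← hinv, h2]; group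
    have hcard : Nat.card H ∣ orderOf x * orderOf t := by
      have := GT.card_sup_mul_card_inf_of_le_normalizer htn
      rw [Nat.card_zpowers, Nat.card_zpowers, sup_comm, mul_comm (orderOf t)] at this
      exact Dvd.intro _ this
    have hd1 : cidx (⟨x, hxH⟩ : H) ∣ orderOf t := by
      have h2 : cidx (⟨x, hxH⟩ : H) ∣ (zpowers (⟨x, hxH⟩ : H)).index :=
        index_dvd_of_le (zpowers_le.2 (self_mem_cent _))
      have h3 := (zpowers (⟨x, hxH⟩ : H)).card_mul_index
      rw [Nat.card_zpowers, Subgroup.orderOf_mk] at h3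
      rw [← h3] at hcard
      exact h2.trans (Nat.dvd_of_mul_dvd_mul_left (orderOf_pos x) hcard)
    have hd2 : cidx (⟨t, htH⟩ : H) ∣ orderOf x := by
      have h2 : cidx (⟨t, htH⟩ : H) ∣ (zpowers (⟨t, htH⟩ : H)).index :=
        index_dvd_of_le (zpowers_le.2 (self_mem_cent _))
      have h3 := (zpowers (⟨t, htH⟩ : H)).card_mul_index
      rw [Nat.card_zpowers, Subgroup.orderOf_mk] at h3
      rw [← h3, mul_comm (orderOf x)] at hcard
      exact h2.trans (Nat.dvd_of_mul_dvd_mul_left (orderOf_pos t) hcard)
    refine h H ⟨x, hxH⟩ ⟨t, htH⟩ (one_lt_cidx_iff.2 fun h2 => hne ?_)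
      (one_lt_cidx_iff.2 fun h2 => hne ?_) ?_
    · exact congrArg Subtype.val (Subgroup.mem_center_iff.1 h2 ⟨t, htH⟩)
    · exact (congrArg Subtype.val (Subgroup.mem_center_iff.1 h2 ⟨x, hxH⟩)).symm
    · obtain ⟨k, hk⟩ := ht
      refine Nat.Coprime.coprime_dvd_left hd1 (Nat.Coprime.coprime_dvd_right hd2 ?_)
      rw [hk]
      exact ((Nat.coprime_two_left).2 hx).pow_left k
  have h2 : Group.IsSolvable (G ⧸ pCore 2 G) := Cfsg.Agent.S0205.result h1
  have h3 : Group.IsSolvable (pCore 2 G) :=
    GT.CopAct.isSolvable_of_isPGroup (GT.isPGroup_pCore 2)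
  exact Group.isSolvable_of_ker_le_range (pCore 2 G).subtype (QuotientGroup.mk' (pCore 2 G)) (by simp)

end Cfsg.Agent.S4159
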