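import Mathlib
import Cfsg.Statements.S4160
import Cfsg.Agent.FG.ClassIdx
import Cfsg.Agent.GT.Conj
import Cfsg.Agent.GT.TransferSylow
import Cfsg.Agent.GT.TransferFrobenius
-- import your own Cfsg.Agent.* helpers here

set_option autoImplicit false
open Cfsg

namespace Cfsg.Agent.S4160

open Subgroup Cfsg.Agent.FG.CI

theorem aux {G : Type*} [Group G] [Finite G] {p : ℕ} [Fact p.Prime] (P : Sylow p G)
    (h : ¬ HasNormalPComplement p G) :
    2 * Nat.card ((G ⧸ normalizer ((P : Subgroup G) : Set G)) ×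
      centralizer ((P : Subgroup G) : Set G)) ≤ Nat.card G := by
  have h1 : centralizer ((P : Subgroup G) : Set G) ≤ normalizer ((P : Subgroup G) : Set G) :=
    centralizer_le_normalizer _
  have h2 : (centralizer ((P : Subgroup G) : Set G)).relIndex
      (normalizer ((P : Subgroup G) : Set G)) ≠ 1 := fun h2 =>
    h (GT.Tr.hasNormalPComplement_of_normalizer_le_centralizer P (relIndex_eq_one.1 h2))
  have h3 : (centralizer ((P : Subgroup G) : Set G)).relIndex
      (normalizer ((P : Subgroup G) : Set G)) ≠ 0 := index_ne_zero_of_finite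
  rw [Nat.card_prod, ← (normalizer ((P : Subgroup G) : Set G)).index_mul_card,
    ← GT.card_mul_relIndex h1, ← index_eq_card, ← mul_assoc, mul_comm 2]
  rw [mul_assoc, mul_comm 2]
  exact Nat.mul_le_mul_left _ (Nat.mul_le_mul_left _ (by omega))

theorem aux2 {G : Type*} [Group G] [Finite G] {p : ℕ} [Fact p.Prime] (P : Sylow p G) {x : G}
    (h : ¬ p ∣ cidx x) : ∃ a : (G ⧸ normalizer ((P : Subgroup G) : Set G)) ×
      centralizer ((P : Subgroup G) : Set G), a.1.out * a.2 * a.1.out⁻¹ = x := by
  obtain ⟨g, hg⟩ := (not_dvd_cidx_iff_conj P x).1 h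
  obtain ⟨n, hn⟩ := QuotientGroup.mk_out_eq_mul (normalizer ((P : Subgroup G) : Set G)) g⁻¹
  refine ⟨⟨(g⁻¹ : G), (n : G)⁻¹ * (g * x * g⁻¹) * n,
    GT.conj_mem_of_mem_normalizer' (GT.Tr.normalizer_le_normalizer_centralizer _ n.2) hg⟩, ?_⟩
  simp only [hn]; group


/-- Let G be a finite group and p ≠ q primes each dividing the size of some conjugacy class of G, such that no conjugacy class size is divisible by pq. Then G has a normal p-complement or a normal q-complement. -/
theorem result {G : Type*} [Group G] [Finite G] (p q : ℕ) (hp : p.Prime) (hq : q.Prime) (hpq : p ≠ q)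
    (hp' : ∃ x : G, p ∣ (Subgroup.centralizer ({x} : Set G)).index) (hq' : ∃ x : G, q ∣ (Subgroup.centralizer ({x} : Set G)).index) (h : ∀ x : G, ¬ p * q ∣ (Subgroup.centralizer ({x} : Set G)).index) :
    Cfsg.HasNormalPComplement p G ∨ Cfsg.HasNormalPComplement q G := by
  classical
  have := Fact.mk hp
  have := Fact.mk hq
  by_contra hc
  push Not at hc
  obtain ⟨P⟩ : Nonempty (Sylow p G) := inferInstance
  obtain ⟨Q⟩ : Nonempty (Sylow q G) := inferInstance
  have h1 := aux P hc.1
  have h2 := aux Q hc.2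
  let f : ((G ⧸ normalizer ((P : Subgroup G) : Set G)) × centralizer ((P : Subgroup G) : Set G)) ⊕
      ((G ⧸ normalizer ((Q : Subgroup G) : Set G)) × centralizer ((Q : Subgroup G) : Set G)) → G :=
    Sum.elim (fun a => a.1.out * a.2 * a.1.out⁻¹) (fun a => a.1.out * a.2 * a.1.out⁻¹)
  have hs : Function.Surjective f := by
    intro x
    by_cases hx : p ∣ cidx x
    · have : ¬ q ∣ cidx x := fun h2 =>
        h x (Nat.Coprime.mul_dvd_of_dvd_of_dvd ((Nat.coprime_primes hp hq).2 hpq) hx h2)
      obtain ⟨a, ha⟩ := aux2 Q this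
      exact ⟨Sum.inr a, ha⟩
    · obtain ⟨a, ha⟩ := aux2 P hx
      exact ⟨Sum.inl a, ha⟩
  have hi : ¬ Function.Injective f := by
    intro hi
    have := @hi (Sum.inl ((1 : G), 1)) (Sum.inr ((1 : G), 1)) (by simp [f])
    exact Sum.inl_ne_inr this
  have h3 := lt_of_le_of_ne (Nat.card_le_card_of_surjective f hs) fun h =>
    hi ((Nat.bijective_iff_surjective_and_card f).2 ⟨hs, h.symm⟩).1
  rw [Nat.card_sum] at h3
  omega

end Cfsg.Agent.S4160
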