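import Mathlib
import Cfsg.Statements.S4163
import Cfsg.Agent.GT.Conj
import Cfsg.Agent.GT.PGroupBasic
import Cfsg.Agent.FG.ClassIdx
import Cfsg.Agent.FG.ClassCount
-- import your own Cfsg.Agent.* helpers here

set_option autoImplicit false
open Cfsg

namespace Cfsg.Agent.S4163

open Subgroup Cfsg.Agent.FG.CI
open scoped commutatorElement

/-- Mann's lemma: a commutator of `x` with an element of an abelian normal subgroup has a
smaller class than `x`. -/
theorem mann {G : Type*} [Group G] [Finite G] (K : Subgroup G) [K.Normal]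
    (hK : IsMulCommutative K) {x t : G} (hx : x ∉ center G) (ht : t ∈ K) :
    cidx ⁅t, x⁆ < cidx x := by
  classical
  by_cases hy : ⁅t, x⁆ = 1
  · rw [hy, cidx_one]; exact one_lt_cidx_iff.2 hx
  have hcomm := GT.PG.isMulCommutative_iff_forall.1 hK
  set C := centralizer ({x} : Set G) with hC
  set H := K ⊔ C with hH
  have hmem : ∀ k ∈ K, ⁅k, x⁆ ∈ K := fun k hk => by
    have := K.mul_mem hk (Normal.conj_mem inferInstance _ (K.inv_mem hk) x)
    simpa [commutatorElement_def, mul_assoc] using this
  -- the set of commutators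
  let S : Set G := {y | ∃ k ∈ K, k * x * k⁻¹ = y}
  have hS : S.ncard = C.relIndex K := FG.ncard_conj_orbit_subgroup K x
  let T : Set G := {y | ∃ h ∈ H, h * ⁅t, x⁆ * h⁻¹ = y}
  have hT : T.ncard = (centralizer {⁅t, x⁆}).relIndex H := FG.ncard_conj_orbit_subgroup H _
  have hTS : (fun y => y * x) '' T ⊆ S \ {x} := by
    rintro _ ⟨_, ⟨h, hh, rfl⟩, rfl⟩
    have hh' : h ∈ ((K ⊔ C : Subgroup G) : Set G) := hh
    rw [normal_mul] at hh'
    obtain ⟨k, hk, c, hc, rfl⟩ := hh'
    have hc' : c * x * c⁻¹ = x := mem_cent'.1 hc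
    refine ⟨⟨c * t * c⁻¹, Normal.conj_mem inferInstance _ ht c, ?_⟩, ?_⟩
    · have h1 : c * ⁅t, x⁆ * c⁻¹ = ⁅c * t * c⁻¹, x⁆ := by
        rw [conjugate_commutatorElement, hc']
      have h2 := hcomm k hk _ (hmem _ (Normal.conj_mem inferInstance _ ht c))
      calc c * t * c⁻¹ * x * (c * t * c⁻¹)⁻¹ = ⁅c * t * c⁻¹, x⁆ * x := by
            simp [commutatorElement_def, mul_assoc]
        _ = k * ⁅c * t * c⁻¹, x⁆ * k⁻¹ * x := by rw [h2]; group
        _ = _ := by rw [← h1]; group
    · simp only [Set.mem_singleton_iff, mul_eq_right]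
      intro h2
      apply hy
      calc ⁅t, x⁆ = (k * c)⁻¹ * (k * c * ⁅t, x⁆ * (k * c)⁻¹) * (k * c) := by group
        _ = 1 := by rw [h2]; group
  have h1 : T.ncard < S.ncard := by
    rw [← Set.ncard_image_of_injective T (mul_left_injective x)]
    refine Set.ncard_lt_ncard (lt_of_le_of_lt hTS ?_)
    exact Set.sdiff_singleton_ssubset.2 ⟨1, K.one_mem, by simp⟩
  have h2 : C.relIndex K = C.relIndex H := by
    rw [hH, sup_comm, GT.relIndex_sup_of_le_normalizer_left (by rw [normalizer_eq_top]; exact le_top)]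
  have h3 : cidx x = C.relIndex H * H.index := (relIndex_mul_index le_sup_right).symm
  have h4 : cidx ⁅t, x⁆ ≤ (centralizer {⁅t, x⁆}).relIndex H * H.index := by
    rw [← inf_relIndex_right, relIndex_mul_index inf_le_right]
    exact Nat.le_of_dvd (Nat.pos_of_ne_zero index_ne_zero_of_finite) (index_dvd_of_le inf_le_left)
  rw [h3, ← h2, ← hS]
  refine h4.trans_lt ?_
  rw [← hT]
  exact Nat.mul_lt_mul_of_pos_right h1 (Nat.pos_of_ne_zero index_ne_zero_of_finite)


/-- Let G be a finite group with a normal abelian subgroup A satisfying C_G(A) = A. Suppose some conjugacy class of G has size greater than 1, let m be the smallest such size, and let M be the subgroup generated by the elements whose class has size 1 or m. Then M is nilpotent of class at most 3. -/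
theorem result {G : Type*} [Group G] [Finite G]
    (A : Subgroup G) [A.Normal] (hA : IsMulCommutative A) (hCA : Subgroup.centralizer (A : Set G) = A)
    (m : ℕ) (hm1 : 1 < m) (hm : ∃ x : G, (Subgroup.centralizer ({x} : Set G)).index = m) (hmin : ∀ x : G, 1 < (Subgroup.centralizer ({x} : Set G)).index → m ≤ (Subgroup.centralizer ({x} : Set G)).index) :
    Subgroup.upperCentralSeries ↥(Subgroup.closure {x : G | (Subgroup.centralizer ({x} : Set G)).index = 1 ∨ (Subgroup.centralizer ({x} : Set G)).index = m}) 3 = ⊤ := by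
  set M := closure {x : G | cidx x = 1 ∨ cidx x = m} with hM
  have h1 : ∀ x ∈ M, ∀ a ∈ A, ⁅a, x⁆ ∈ center G := by
    intro x hx
    induction hx using closure_induction with
    | mem x hx =>
      intro a ha
      by_cases hxc : x ∈ center G
      · rw [commutatorElement_def, mul_assoc a, ← Subgroup.mem_center_iff.1 hxc a⁻¹]
        simp
      · have h2 := mann A hA hxc ha
        rcases hx with hx | hx
        · exact absurd (cidx_eq_one_iff.1 hx) hxc
        · by_contra h3
          exact absurd (hmin _ (one_lt_cidx_iff.2 h3)) (by rw [← hx]; exact not_le_of_gt h2)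
    | one => simp
    | mul x y _ _ hx hy =>
      intro a ha
      have : ⁅a, x * y⁆ = ⁅a, x⁆ * (x * ⁅a, y⁆ * x⁻¹) := by
        simp only [commutatorElement_def]; group
      rw [this]
      exact mul_mem (hx a ha) (Normal.conj_mem inferInstance _ (hy a ha) x)
    | inv x _ hx =>
      intro a ha
      have : ⁅a, x⁻¹⁆ = x⁻¹ * ⁅a, x⁆⁻¹ * x := by
        simp only [commutatorElement_def]; group
      rw [this]
      exact Normal.conj_mem' inferInstance _ (inv_mem (hx a ha)) x
  have h2 : ⁅A, M⁆ ≤ center G := commutator_le.2 fun a ha x hx => h1 x hx a ha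
  have h3 : ⁅⁅A, M⁆, M⁆ = ⊥ := by
    rw [commutator_eq_bot_iff_le_centralizer]
    exact h2.trans (center_le_centralizer _)
  have h4 : ⁅M, M⁆ ≤ A := by
    rw [← hCA, ← commutator_eq_bot_iff_le_centralizer]
    exact commutator_commutator_eq_bot_of_rotate (by rwa [commutator_comm M A]) h3
  rw [eq_top_iff]
  intro x _
  rw [Subgroup.mem_upperCentralSeries_succ_iff]
  intro y
  rw [Subgroup.mem_upperCentralSeries_succ_iff]
  intro z
  rw [Subgroup.upperCentralSeries_one, Subgroup.mem_center_iff]
  intro w
  apply Subtype.ext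
  exact Subgroup.mem_center_iff.1 (h1 z z.2 _ (h4 (commutator_mem_commutator x.2 y.2))) w

end Cfsg.Agent.S4163
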