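import Mathlib
import Cfsg.Statements.S4169
import Cfsg.Agent.S4163
-- import your own Cfsg.Agent.* helpers here

set_option autoImplicit false
open Cfsg

namespace Cfsg.Agent.S4169

open Cfsg.Agent.FG.CI


/-- Let P be a finite p-group whose conjugacy classes have exactly two sizes (1 and one other value). Then P has nilpotency class at most 3. -/
theorem result {P : Type*} [Group P] [Finite P] {p : ℕ} [Fact p.Prime] (hP : IsPGroup p P)
    (m : ℕ) (hm : 1 < m) (h : ∀ x : P, (Subgroup.centralizer ({x} : Set P)).index = 1 ∨ (Subgroup.centralizer ({x} : Set P)).index = m) :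
    upperCentralSeries P 3 = ⊤ := by
  have := hP.isNilpotent
  by_cases hex : ∃ x : P, cidx x = m
  · obtain ⟨A, -, hA, hCA⟩ := GT.PG.exists_self_centralizing_normal (⊥ : Subgroup P) inferInstance
    have h1 := Cfsg.Agent.S4163.result A
      (GT.PG.isMulCommutative_iff_le_centralizer.2 hCA.ge) hCA m hm hex (fun x hx => by
        rcases h x with h2 | h2
        · exact absurd h2 hx.ne'
        · exact h2.ge)
    have h2 : Subgroup.closure {x : P | cidx x = 1 ∨ cidx x = m} = ⊤ := by
      rw [eq_top_iff]; intro x _; exact Subgroup.subset_closure (h x)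
    have e : Subgroup.closure {x : P | cidx x = 1 ∨ cidx x = m} ≃* P :=
      (MulEquiv.subgroupCongr h2).trans Subgroup.topEquiv
    have h3 := Subgroup.comap_upperCentralSeries e 3
    change Subgroup.upperCentralSeries P 3 = ⊤
    rw [eq_top_iff]
    intro x _
    obtain ⟨y, rfl⟩ := e.surjective x
    have : y ∈ Subgroup.comap (e : _ →* P) (Subgroup.upperCentralSeries P 3) := by
      rw [h3, h1]; trivial
    exact this
  · push Not at hex
    have h1 : Subgroup.upperCentralSeries P 1 = ⊤ := by
      rw [Subgroup.upperCentralSeries_one, eq_top_iff]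
      intro x _
      exact cidx_eq_one_iff.1 ((h x).resolve_right (hex x))
    change Subgroup.upperCentralSeries P 3 = ⊤
    rw [eq_top_iff, ← h1]
    exact Subgroup.upperCentralSeries_mono P (by norm_num)

end Cfsg.Agent.S4169
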