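import Cfsg.Statements.S4170
import Mathlib

set_option autoImplicit false
open Cfsg

namespace Cfsg.Agent.S4170

open MulAction
open scoped Pointwise

theorem dvd_index {G : Type*} [Group G] [Finite G] {p : ℕ} [hp : Fact p.Prime] (K : Subgroup G)
    {x : G} (hx : x ^ p = 1) (hn : x ∈ Subgroup.normalizer (K : Set G)) (hK : x ∉ K) :
    p ∣ K.index := by
  haveI : (K.subgroupOf (Subgroup.normalizer (K : Set G))).Normal := Subgroup.normal_in_normalizer
  have h1 : orderOf (QuotientGroup.mk' (K.subgroupOf (Subgroup.normalizer (K : Set G))) ⟨x, hn⟩)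
      = p := by
    apply orderOf_eq_prime
    · rw [← map_pow, show (⟨x, hn⟩ : Subgroup.normalizer (K : Set G)) ^ p = 1 from Subtype.ext hx,
        map_one]
    · intro h
      exact hK ((QuotientGroup.eq_one_iff (N := K.subgroupOf (Subgroup.normalizer (K : Set G)))
        (⟨x, hn⟩ : Subgroup.normalizer (K : Set G))).1 h)
  exact (h1 ▸ orderOf_dvd_natCard _).trans (Subgroup.relIndex_dvd_index_of_le Subgroup.le_normalizer)

/-- Let p be an odd prime and G a nontrivial group of permutations of a finite set Ω that is generated by its elements of p-power order. Then Ω has two disjoint nonempty subsets Δ₁ and Δ₂ such that the index in G of the subgroup of elements mapping Δ₁ onto Δ₁ and Δ₂ onto Δ₂ (and hence also the complement of their union onto itself) is divisible by p. -/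
theorem result {Ω : Type*} [Fintype Ω] (p : ℕ) [Fact p.Prime] (hp : p ≠ 2) (G : Subgroup (Equiv.Perm Ω)) (hG : G ≠ ⊥) (hgen : Subgroup.closure {g : G | ∃ k : ℕ, orderOf g = p ^ k} = ⊤) :
    ∃ Δ₁ Δ₂ : Set Ω, Δ₁.Nonempty ∧ Δ₂.Nonempty ∧ Disjoint Δ₁ Δ₂ ∧ p ∣ (MulAction.stabilizer G Δ₁ ⊓ MulAction.stabilizer G Δ₂).index := by
  classical
  have hpp : p.Prime := Fact.out
  have hdvd : p ∣ Nat.card G := by
    by_contra hnd
    apply hG
    have : Subgroup.closure {g : G | ∃ k : ℕ, orderOf g = p ^ k} ≤ ⊥ := by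
      rw [Subgroup.closure_le]
      rintro g ⟨k, hk⟩
      rcases k with _ | k
      · exact orderOf_eq_one_iff.1 (by simpa using hk)
      · exact absurd ((dvd_pow_self p k.succ_ne_zero).trans (hk ▸ orderOf_dvd_natCard g)) hnd
    rw [hgen] at this
    rw [eq_bot_iff]
    intro g hg
    exact congrArg Subtype.val (this (Subgroup.mem_top (⟨g, hg⟩ : G)))
  obtain ⟨x, hx⟩ := exists_prime_orderOf_dvd_card' p hdvd
  have hx1 : x ≠ 1 := fun h => hpp.ne_one (by rw [← hx, h, orderOf_one])
  obtain ⟨c, hc⟩ : ∃ c : Ω, x • c ≠ c := by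
    by_contra h
    push Not at h
    exact hx1 (Subtype.ext (Equiv.ext h))
  set C : Set Ω := orbit (Subgroup.zpowers x) c with hC
  have hcC : c ∈ C := mem_orbit_self c
  have hxC : ∀ d ∈ C, ∀ y ∈ Subgroup.zpowers x, y • d ∈ C := by
    rintro _ ⟨z, rfl⟩ y hy
    exact ⟨⟨y, hy⟩ * z, mul_smul _ _ _⟩
  have hCcard : C.ncard ≤ p := by
    rw [← hx, ← Nat.card_zpowers, ← Set.ncard_univ, hC, orbit, ← Set.image_univ]
    exact Set.ncard_image_le
  refine ⟨{c}, C \ {c}, Set.singleton_nonempty c,
    ⟨x • c, hxC c hcC x (Subgroup.mem_zpowers x), hc⟩, Set.disjoint_sdiff_right, ?_⟩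
  set S := stabilizer G ({c} : Set Ω) ⊓ stabilizer G (C \ {c}) with hS
  by_contra hnd
  obtain ⟨Q⟩ : Nonempty (Sylow p S) := inferInstance
  set R := (Q : Subgroup S).map S.subtype with hR
  have hRp : IsPGroup p R := Q.isPGroup'.map _
  have hRS : R ≤ S := Subgroup.map_subtype_le _
  have hRK : R ≤ fixingSubgroup G C := by
    intro y hy
    rw [mem_fixingSubgroup_iff]
    intro d hd
    by_cases hdc : d = c
    · subst hdc
      have := mem_stabilizer_iff.1 (hRS hy).1
      rwa [Set.smul_set_singleton, Set.singleton_eq_singleton_iff] at this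
    have hsub : orbit R d ⊆ C \ {c} := by
      rintro _ ⟨z, rfl⟩
      rw [← mem_stabilizer_iff.1 (hRS z.2).2]
      exact Set.smul_mem_smul_set ⟨hd, hdc⟩
    obtain ⟨n, hn⟩ := hRp.card_orbit d
    have h1 := Set.ncard_le_ncard hsub
    have h2 := Set.ncard_diff_singleton_lt_of_mem hcC
    rw [← Nat.card_coe_set_eq, hn] at h1
    have hn0 : n = 0 := by
      by_contra h
      have := Nat.le_self_pow h p
      omega
    rw [hn0, pow_zero, Nat.card_eq_one_iff_unique] at hn
    exact congrArg Subtype.val (hn.1.elim (⟨_, mem_orbit d ⟨y, hy⟩⟩ : orbit R d)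
      ⟨d, mem_orbit_self d⟩)
  have h3 : p ∣ (fixingSubgroup G C).index := by
    refine dvd_index _ (hx ▸ pow_orderOf_eq_one x) ?_ fun h =>
      hc ((mem_fixingSubgroup_iff G).1 h c hcC)
    rw [Subgroup.mem_normalizer_iff]
    intro h
    simp only [mem_fixingSubgroup_iff]
    constructor
    · intro hh d hd
      rw [mul_smul, mul_smul, hh _ (hxC d hd _ (inv_mem (Subgroup.mem_zpowers x))), smul_inv_smul]
    · intro hh d hd
      have := hh _ (hxC d hd _ (Subgroup.mem_zpowers x))
      rw [mul_smul, mul_smul, inv_smul_smul] at this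
      exact smul_left_cancel x this
  have h4 := h3.trans (Subgroup.index_dvd_of_le hRK)
  rw [hR, Subgroup.index_map_subtype] at h4
  rcases (Nat.Prime.dvd_mul hpp).1 h4 with h | h
  · exact Q.not_dvd_index h
  · exact hnd h

end Cfsg.Agent.S4170
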