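import Mathlib
import Cfsg.Statements.S4176
import Cfsg.Agent.GT.PSolvable
import Cfsg.Agent.FG.ClassIdx
import Cfsg.Agent.GT.MinNormal

set_option autoImplicit false
open Cfsg

namespace Cfsg.Agent.S4176

open Cfsg.Agent.GT

universe u v w

section
variable {k : Type u} [Field k] {V : Type v} [AddCommGroup V] [Module k V] {H : Type w} [Group H]

/-- stabilizer of a vector -/
def stab (ρ : Representation k H V) (v : V) : Subgroup H where
  carrier := {h | ρ h v = v}
  one_mem' := by simp
  mul_mem' := by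
    intro a b ha hb
    simp only [Set.mem_ofPred_eq] at ha hb ⊢
    rw [map_mul, Module.End.mul_apply, hb, ha]
  inv_mem' := by
    intro a ha
    simp only [Set.mem_ofPred_eq] at ha ⊢
    conv_lhs => rw [← ha]
    rw [← Module.End.mul_apply, ← map_mul, inv_mul_cancel, map_one, Module.End.one_apply]

theorem mem_stab {ρ : Representation k H V} {v : V} {h : H} : h ∈ stab ρ v ↔ ρ h v = v := Iff.rfl

theorem card_orbit (ρ : Representation k H V) (v : V) :
    Nat.card {u : V | ∃ h : H, ρ h v = u} = (stab ρ v).index := by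
  let _ : MulAction H V := MulAction.compHom V (ρ : H →* Module.End k V)
  have h1 : stab ρ v = MulAction.stabilizer H v := by
    ext h; rfl
  rw [h1, MulAction.index_stabilizer, Nat.card_coe_set_eq]
  rfl

theorem index_stab_conj (ρ : Representation k H V) (v : V) (h : H) :
    (stab ρ (ρ h v)).index = (stab ρ v).index := by
  rw [← card_orbit, ← card_orbit]
  congr 2
  ext u
  constructor
  · rintro ⟨x, rfl⟩
    exact ⟨x * h, by rw [map_mul, Module.End.mul_apply]⟩
  · rintro ⟨x, rfl⟩
    exact ⟨x * h⁻¹, by rw [← Module.End.mul_apply, ← map_mul, inv_mul_cancel_right]⟩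

open Classical in
theorem sum_eq [Fintype H] (ρ : Representation k H V) (K : Subgroup H) (v : V) :
    ∑ x ∈ Finset.univ.filter (· ∈ K), ρ x v =
      ((Finset.univ.filter (· ∈ K)).filter (fun x => ρ x v = v)).card •
        ∑ w ∈ (Finset.univ.filter (· ∈ K)).image (fun x => ρ x v), w := by
  rw [Finset.sum_comp (f := fun w : V => w) (g := fun x => ρ x v), Finset.smul_sum]
  refine Finset.sum_congr rfl fun w hw => ?_
  obtain ⟨y, hy, rfl⟩ := Finset.mem_image.1 hw
  simp only [Finset.mem_filter, Finset.mem_univ, true_and] at hy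
  congr 1
  refine Finset.card_bij (fun x _ => y⁻¹ * x) ?_ ?_ ?_
  · intro x hx
    simp only [Finset.mem_filter, Finset.mem_univ, true_and] at hx ⊢
    refine ⟨K.mul_mem (K.inv_mem hy) hx.1, ?_⟩
    rw [map_mul, Module.End.mul_apply, hx.2, ← Module.End.mul_apply, ← map_mul, inv_mul_cancel,
      map_one, Module.End.one_apply]
  · intro x _ x' _ h
    exact mul_left_cancel h
  · intro x hx
    simp only [Finset.mem_filter, Finset.mem_univ, true_and] at hx
    refine ⟨y * x, ?_, by simp⟩
    simp only [Finset.mem_filter, Finset.mem_univ, true_and]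
    exact ⟨K.mul_mem hy hx.1, by rw [map_mul, Module.End.mul_apply, hx.2]⟩

open Classical in
theorem sum_fixed [Fintype H] (ρ : Representation k H V) {K N : Subgroup H} (hK : K ≤ N) (v : V)
    (h : ∀ n ∈ N, ∃ x ∈ K, ρ x v = ρ n v) {n : H} (hn : n ∈ N) :
    ρ n (∑ x ∈ Finset.univ.filter (· ∈ K), ρ x v) = ∑ x ∈ Finset.univ.filter (· ∈ K), ρ x v := by
  rw [sum_eq, map_nsmul, map_sum]
  congr 1
  have key : ∀ n ∈ N, ∀ w ∈ (Finset.univ.filter (· ∈ K)).image (fun x => ρ x v),
      ρ n w ∈ (Finset.univ.filter (· ∈ K)).image (fun x => ρ x v) := by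
    intro n hn w hw
    obtain ⟨y, hy, rfl⟩ := Finset.mem_image.1 hw
    simp only [Finset.mem_filter, Finset.mem_univ, true_and] at hy
    obtain ⟨x, hx, e⟩ := h (n * y) (N.mul_mem hn (hK hy))
    refine Finset.mem_image.2 ⟨x, by simpa using hx, ?_⟩
    rw [e, map_mul, Module.End.mul_apply]
  refine Finset.sum_nbij' (fun w => ρ n w) (fun w => ρ n⁻¹ w) (key n hn) (key n⁻¹ (N.inv_mem hn))
    ?_ ?_ (fun _ _ => rfl)
  · intro w _
    rw [← Module.End.mul_apply, ← map_mul, inv_mul_cancel, map_one, Module.End.one_apply]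
  · intro w _
    rw [← Module.End.mul_apply, ← map_mul, mul_inv_cancel, map_one, Module.End.one_apply]

open Classical in
theorem sum_of_fixed [Fintype H] (ρ : Representation k H V) (K : Subgroup H) (v : V)
    (h : ∀ x ∈ K, ρ x v = v) :
    ∑ x ∈ Finset.univ.filter (· ∈ K), ρ x v = (Nat.card K : k) • v := by
  rw [Finset.sum_congr rfl (g := fun _ => v) (fun x hx => h x (by simpa using hx)),
    Finset.sum_const, Nat.cast_smul_eq_nsmul]
  congr 1
  rw [Nat.card_eq_fintype_card, Fintype.card_subtype]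

end

variable {k : Type u} [Field k] {p : ℕ} [hp : Fact p.Prime] [CharP k p]

theorem exists_proj {V : Type v} [AddCommGroup V] [Module k V] {H : Type w} [Group H] [Finite H]
    (ρ : Representation k H V) (a : V) (ha : ¬ p ∣ (stab ρ a).index)
    (hspan : Submodule.span k {u : V | ∃ h : H, ρ h a = u} = ⊤) (N : Subgroup H) [hN : N.Normal]
    (hc : IsPGroup p N ∨ (Nat.card N).Coprime p) :
    (∃ E : V →ₗ[k] V, (∀ v, ∀ n ∈ N, ρ n (E v) = E v) ∧ (∀ v, (∀ n ∈ N, ρ n v = v) → E v = v) ∧
      ∀ h v, E (ρ h v) = ρ h (E v)) ∧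
    ∀ b, (stab ρ a).index.Coprime (stab ρ b).index → ∀ n ∈ N, ρ n b = b := by
  classical
  have ext : ∀ f g : V →ₗ[k] V, (∀ h, f (ρ h a) = g (ρ h a)) → f = g := by
    intro f g hfg
    refine LinearMap.ext_on hspan ?_
    rintro _ ⟨h, rfl⟩
    exact hfg h
  rcases hc with hc | hc
  · have hle : ∀ h, N ≤ stab ρ (ρ h a) := by
      intro h
      rw [← Subgroup.relIndex_eq_one]
      have h1 := FG.CI.relIndex_dvd_index_of_normal_right (stab ρ (ρ h a)) N
      rw [index_stab_conj] at h1
      obtain ⟨m, hm⟩ := hc.index ((stab ρ (ρ h a)).subgroupOf N)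
      have h2 : (stab ρ (ρ h a)).relIndex N = p ^ m := hm
      rw [h2] at h1 ⊢
      rcases m with _ | m
      · rfl
      · exact absurd ((dvd_pow_self p (Nat.succ_ne_zero m)).trans h1) ha
    have all : ∀ v, ∀ n ∈ N, ρ n v = v := by
      intro v n hn
      have : ρ n = LinearMap.id := ext _ _ fun h => hle h hn
      rw [this]; rfl
    exact ⟨⟨LinearMap.id, all, fun _ _ => rfl, fun _ _ => rfl⟩, fun b _ => all b⟩
  · have := Fintype.ofFinite H
    have hne : ∀ K : Subgroup H, K ≤ N → (Nat.card K : k) ≠ 0 := by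
      intro K hK h0
      rw [CharP.cast_eq_zero_iff k p] at h0
      have h1 := h0.trans (Subgroup.card_dvd_of_le hK)
      exact hp.out.one_lt.ne' (Nat.Coprime.eq_one_of_dvd hc.symm h1)
    constructor
    · refine ⟨(Nat.card N : k)⁻¹ • ∑ x ∈ Finset.univ.filter (· ∈ N), ρ x, ?_, ?_, ?_⟩
      · intro v n hn
        rw [LinearMap.smul_apply, map_smul, LinearMap.sum_apply,
          sum_fixed ρ le_rfl v (fun n hn => ⟨n, hn, rfl⟩) hn]
      · intro v hv
        rw [LinearMap.smul_apply, LinearMap.sum_apply, sum_of_fixed ρ N v hv, smul_smul,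
          inv_mul_cancel₀ (hne N le_rfl), one_smul]
      · intro h v
        rw [LinearMap.smul_apply, LinearMap.smul_apply, map_smul, LinearMap.sum_apply,
          LinearMap.sum_apply, map_sum]
        congr 1
        refine Finset.sum_nbij' (fun x => h⁻¹ * x * h) (fun x => h * x * h⁻¹) ?_ ?_ ?_ ?_ ?_
        · intro x hx
          simp only [Finset.mem_filter, Finset.mem_univ, true_and] at hx ⊢
          exact hN.conj_mem' x hx h
        · intro x hx
          simp only [Finset.mem_filter, Finset.mem_univ, true_and] at hx ⊢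
          exact hN.conj_mem x hx h
        · intro x _; group
        · intro x _; group
        · intro x _
          rw [← Module.End.mul_apply, ← Module.End.mul_apply, ← map_mul, ← map_mul]
          congr 2; group
    · intro b hb n hn
      obtain ⟨K, hK⟩ : ∃ K, K = stab ρ b ⊓ N := ⟨_, rfl⟩
      have hKN : K ≤ N := hK ▸ inf_le_right
      have e : ρ n ∘ₗ ∑ x ∈ Finset.univ.filter (· ∈ K), ρ x =
          ∑ x ∈ Finset.univ.filter (· ∈ K), ρ x := by
        refine ext _ _ fun h => ?_
        rw [LinearMap.comp_apply, LinearMap.sum_apply]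
        refine sum_fixed ρ hKN _ ?_ hn
        intro m hm
        have hco : ((stab ρ b).subgroupOf N).index.Coprime
            ((stab ρ (ρ h a)).subgroupOf N).index := by
          have h1 := FG.CI.relIndex_dvd_index_of_normal_right (stab ρ (ρ h a)) N
          rw [index_stab_conj] at h1
          have h2 := FG.CI.relIndex_dvd_index_of_normal_right (stab ρ b) N
          exact Nat.Coprime.coprime_dvd_left h2 (Nat.Coprime.coprime_dvd_right h1 hb.symm)
        obtain ⟨x, hx, y, hy, e⟩ := FG.CI.exists_mul_of_coprime_index hco ⟨m, hm⟩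
        refine ⟨x, hK ▸ ⟨hx, x.2⟩, ?_⟩
        have e' : m = (x : H) * y := congrArg Subtype.val e
        have hy' : ρ y (ρ h a) = ρ h a := hy
        rw [e', map_mul, Module.End.mul_apply, hy']
      have e2 := LinearMap.congr_fun e b
      rw [LinearMap.comp_apply, LinearMap.sum_apply,
        sum_of_fixed ρ K b (fun x hx => (hK ▸ hx : x ∈ stab ρ b ⊓ N).1), map_smul] at e2
      exact smul_right_injective V (hne K hKN) e2

theorem aux (n : ℕ) : ∀ (V : Type v) [AddCommGroup V] [Module k V] (H : Type w) [Group H]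
    [Finite H], Nat.card H = n → Cfsg.IsPSolvable p H → ∀ (ρ : Representation k H V) (a : V),
    ¬ p ∣ (stab ρ a).index → Submodule.span k {u : V | ∃ h : H, ρ h a = u} = ⊤ →
    (∃ c : V, ∀ v, (∀ h, ρ h v = v) → ∃ t : k, t • c = v) ∧
    ∀ b, (stab ρ a).index.Coprime (stab ρ b).index → ∀ h, ρ h b = b := by
  induction n using Nat.strong_induction_on with
  | _ n ih =>
  intro V _ _ H _ _ hn hsol ρ a ha hspan
  rcases subsingleton_or_nontrivial H with hH | hH
  · have h1 : ∀ h : H, ∀ v, ρ h v = v := fun h v => by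
      rw [Subsingleton.elim h 1, map_one, Module.End.one_apply]
    refine ⟨⟨a, fun v _ => ?_⟩, fun b _ h => h1 h b⟩
    have h2 : {u : V | ∃ h : H, ρ h a = u} = {a} := by
      ext u
      constructor
      · rintro ⟨h, rfl⟩; exact h1 h a
      · rintro rfl; exact ⟨1, h1 1 _⟩
    rw [h2] at hspan
    have : v ∈ Submodule.span k {a} := hspan ▸ Submodule.mem_top
    exact Submodule.mem_span_singleton.1 this
  obtain ⟨N, hN, hne, hc⟩ : ∃ N : Subgroup H, N.Normal ∧ N ≠ ⊥ ∧
      (IsPGroup p N ∨ (Nat.card N).Coprime p) := by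
    rcases hsol.pCore_ne_bot_or with h | h
    · exact ⟨_, inferInstance, h, Or.inl (isPGroup_pCore p)⟩
    · exact ⟨_, inferInstance, h, Or.inr (coprime_card_pPrimeCore p)⟩
  obtain ⟨⟨E, hE1, hE2, hE3⟩, hb⟩ := exists_proj ρ a ha hspan N hc
  let W := Representation.invariants (ρ.comp N.subtype)
  let σ : Representation k (H ⧸ N) W := ρ.quotientToInvariants N
  have hσ : ∀ (h : H) (w : W), ((σ (h : H ⧸ N) w : W) : V) = ρ h w := fun h w => rfl
  have hidx : ∀ w : W, (stab σ w).index = (stab ρ (w : V)).index := by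
    intro w
    rw [← Subgroup.index_comap_of_surjective _ (QuotientGroup.mk'_surjective N)]
    congr 1
    ext h
    rw [Subgroup.mem_comap, mem_stab, mem_stab, Subtype.ext_iff]
    rfl
  let E' : V →ₗ[k] W := E.codRestrict W (fun v n => hE1 v n n.2)
  have hE' : ∀ v, ((E' v : W) : V) = E v := fun v => rfl
  have hdvd : (stab σ (E' a)).index ∣ (stab ρ a).index := by
    rw [hidx]
    refine Subgroup.index_dvd_of_le fun h hh => ?_
    rw [mem_stab] at hh ⊢
    rw [hE', ← hE3, hh]
  have hlt : Nat.card (H ⧸ N) < n := hn ▸ card_quotient_lt hne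
  have hsp : Submodule.span k {u : W | ∃ h : H ⧸ N, σ h (E' a) = u} = ⊤ := by
    have h1 : {u : W | ∃ h : H ⧸ N, σ h (E' a) = u} = E' '' {u : V | ∃ h : H, ρ h a = u} := by
      ext u
      constructor
      · rintro ⟨h, rfl⟩
        obtain ⟨h, rfl⟩ := QuotientGroup.mk_surjective h
        exact ⟨ρ h a, ⟨h, rfl⟩, Subtype.ext (by rw [hσ, hE', hE', hE3])⟩
      · rintro ⟨_, ⟨h, rfl⟩, rfl⟩
        exact ⟨h, Subtype.ext (by rw [hσ, hE', hE', hE3])⟩
    rw [h1, Submodule.span_image, hspan, Submodule.map_top, LinearMap.range_eq_top]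
    intro w
    exact ⟨w, Subtype.ext (hE2 w fun n hn => w.2 ⟨n, hn⟩)⟩
  obtain ⟨⟨c, hc1⟩, hc2⟩ := ih _ hlt W (H ⧸ N) rfl (hsol.quotient N) σ (E' a)
    (fun h => ha (h.trans hdvd)) hsp
  refine ⟨⟨c, fun v hv => ?_⟩, fun b hb' h => ?_⟩
  · obtain ⟨t, ht⟩ := hc1 ⟨v, fun n => hv n⟩ (fun h => by
      obtain ⟨h, rfl⟩ := QuotientGroup.mk_surjective h
      exact Subtype.ext (hv h))
    exact ⟨t, congrArg Subtype.val ht⟩
  · have hbW : b ∈ W := fun n => hb b hb' n n.2
    have := hc2 ⟨b, hbW⟩ (by
      rw [hidx ⟨b, hbW⟩]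
      exact Nat.Coprime.coprime_dvd_left hdvd hb') h
    exact congrArg Subtype.val this

/-- Let k be a field of prime characteristic p, H a finite p-soluble group and ρ a k-linear representation of H on V. Let a be a vector that is fixed by some Sylow p-subgroup of H and whose H-orbit spans V. Then the space of H-fixed vectors has dimension at most 1, and every vector b whose H-orbit has size coprime to the size of the orbit of a is fixed by H. -/
theorem result {k V H : Type*} [Field k] (p : ℕ) [Fact p.Prime] [CharP k p] [AddCommGroup V] [Module k V]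
    [Group H] [Finite H] (hsol : Cfsg.IsPSolvable p H) (ρ : Representation k H V) (a : V)
    (hfix : ∃ P : Sylow p H, ∀ x : H, x ∈ (P : Subgroup H) → ρ x a = a)
    (hspan : Submodule.span k {u : V | ∃ h : H, ρ h a = u} = ⊤) :
    Module.finrank k ρ.invariants ≤ 1 ∧
    ∀ b : V, (Nat.card {u : V | ∃ h : H, ρ h a = u}).Coprime (Nat.card {u : V | ∃ h : H, ρ h b = u}) → ∀ h : H, ρ h b = b := by
  obtain ⟨P, hP⟩ := hfix
  have ha : ¬ p ∣ (stab ρ a).index := fun h =>
    P.not_dvd_index (h.trans (Subgroup.index_dvd_of_le (fun x hx => hP x hx)))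
  obtain ⟨⟨c, hc⟩, h2⟩ := aux (p := p) _ V H rfl hsol ρ a ha hspan
  refine ⟨?_, fun b hb => h2 b (by rwa [card_orbit, card_orbit] at hb)⟩
  have hle : ρ.invariants ≤ Submodule.span k {c} := fun v hv =>
    Submodule.mem_span_singleton.2 (hc v hv)
  refine (Submodule.finrank_mono hle).trans ?_
  simpa using finrank_span_le_card (R := k) ({c} : Set V)

end Cfsg.Agent.S4176
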