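import Mathlib
import Cfsg.Statements.S4177
import Cfsg.Agent.FG.ClassIdx
-- import your own Cfsg.Agent.* helpers here

set_option autoImplicit false
open Cfsg

namespace Cfsg.Agent.S4177

open Subgroup Cfsg.Agent.FG.CI


/-- Let k be a field whose characteristic does not divide the order of the finite group H (for instance a field of characteristic zero), and ρ a k-linear representation of H on V. Let a be a vector whose H-orbit spans V. Then the space of H-fixed vectors has dimension at most 1, and every vector b whose H-orbit has size coprime to the size of the orbit of a is fixed by H. -/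
theorem result {k V H : Type*} [Field k] [AddCommGroup V] [Module k V] [Group H] [Finite H]
    (hchar : ¬ ringChar k ∣ Nat.card H) (ρ : Representation k H V) (a : V)
    (hspan : Submodule.span k {u : V | ∃ h : H, ρ h a = u} = ⊤) :
    Module.finrank k ρ.invariants ≤ 1 ∧
    ∀ b : V, (Nat.card {u : V | ∃ h : H, ρ h a = u}).Coprime (Nat.card {u : V | ∃ h : H, ρ h b = u}) → ∀ h : H, ρ h b = b := by
  classical
  have := Fintype.ofFinite H
  have hne : ∀ A : Subgroup H, (Nat.card A : k) ≠ 0 := fun A h =>
    hchar (((ringChar.spec k _).1 h).trans (card_subgroup_dvd_card A))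
  have hH : (Fintype.card H : k) ≠ 0 := by
    have := hne ⊤
    rwa [Subgroup.card_top, Nat.card_eq_fintype_card] at this
  -- a map vanishing on the orbit of `a` is zero
  have hext : ∀ f : V →ₗ[k] V, (∀ h, f (ρ h a) = 0) → f = 0 := by
    intro f hf
    apply LinearMap.ext_on hspan
    rintro _ ⟨h, rfl⟩
    exact hf h
  constructor
  · let e : V →ₗ[k] V := ∑ h : H, ρ h
    have he : ∀ h v, e (ρ h v) = e v := by
      intro h v
      simp only [e, LinearMap.sum_apply, ← Module.End.mul_apply, ← map_mul]
      exact Fintype.sum_equiv (Equiv.mulRight h) _ _ fun _ => rfl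
    have h1 : ρ.invariants ≤ Submodule.span k {e a} := by
      intro v hv
      have h2 : e v = (Fintype.card H : k) • v := by
        simp only [e, LinearMap.sum_apply]
        rw [Finset.sum_congr rfl fun h _ => hv h, Finset.sum_const, Finset.card_univ,
          Nat.cast_smul_eq_nsmul]
      have h3 : e v ∈ Submodule.span k {e a} := by
        have : v ∈ Submodule.span k {u : V | ∃ h : H, ρ h a = u} := hspan ▸ Submodule.mem_top
        have h4 : Submodule.span k {u : V | ∃ h : H, ρ h a = u} ≤
            (Submodule.span k {e a}).comap e := by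
          rw [Submodule.span_le]
          rintro _ ⟨h, rfl⟩
          change e (ρ h a) ∈ Submodule.span k {e a}
          rw [he]; exact Submodule.mem_span_singleton_self _
        exact h4 this
      rw [h2] at h3
      exact (Submodule.smul_mem_iff _ hH).1 h3
    refine (Submodule.finrank_mono h1).trans ?_
    simpa using finrank_span_le_card (R := k) ({e a} : Set V)
  intro b hco
  -- stabilizers
  let St : V → Subgroup H := fun v =>
    { carrier := {h | ρ h v = v}
      mul_mem' := fun {x y} hx hy => by
        simp only [Set.mem_ofPred_eq] at *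
        rw [map_mul, Module.End.mul_apply, hy, hx]
      one_mem' := by simp
      inv_mem' := fun {x} hx => by
        simp only [Set.mem_ofPred_eq] at *
        nth_rewrite 1 [← hx]
        rw [← Module.End.mul_apply, ← map_mul]; simp }
  have hSt : ∀ v, Nat.card {u : V | ∃ h : H, ρ h v = u} = (St v).index := by
    intro v
    symm
    refine Nat.card_eq_of_bijective (Quotient.lift (fun h => ⟨ρ h v, h, rfl⟩) ?_) ⟨?_, ?_⟩
    · intro x y hxy
      have h1 : ρ (x⁻¹ * y) v = v := QuotientGroup.leftRel_apply.1 hxy
      apply Subtype.ext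
      simp only
      nth_rewrite 1 [← h1]
      rw [← Module.End.mul_apply, ← map_mul]; simp
    · intro x y hxy
      obtain ⟨x, rfl⟩ := QuotientGroup.mk_surjective x
      obtain ⟨y, rfl⟩ := QuotientGroup.mk_surjective y
      have h1 : ρ x v = ρ y v := congrArg Subtype.val hxy
      apply QuotientGroup.eq.2
      change ρ (x⁻¹ * y) v = v
      rw [map_mul, Module.End.mul_apply, ← h1, ← Module.End.mul_apply, ← map_mul]; simp
    · rintro ⟨_, h, rfl⟩
      exact ⟨(h : H ⧸ St v), rfl⟩
  rw [hSt, hSt] at hco
  let U : Submodule k V := Submodule.span k {u | ∃ h : H, ρ h b - b = u}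
  have hU : ∀ g, ∀ u ∈ U, ρ g u ∈ U := by
    intro g u hu
    have h4 : U ≤ U.comap (ρ g) := by
      rw [Submodule.span_le]
      rintro _ ⟨h, rfl⟩
      change ρ g (ρ h b - b) ∈ U
      have : ρ g (ρ h b - b) = (ρ (g * h) b - b) - (ρ g b - b) := by
        rw [map_sub, map_mul, Module.End.mul_apply]; abel
      rw [this]
      exact U.sub_mem (Submodule.subset_span ⟨_, rfl⟩) (Submodule.subset_span ⟨_, rfl⟩)
    exact h4 hu
  have := Fintype.ofFinite (St a)
  let e : V →ₗ[k] V := ∑ h : St a, ρ h
  have he : ∀ h ∈ St a, ∀ v, e (ρ h v) = e v := by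
    intro h hh v
    simp only [e, LinearMap.sum_apply, ← Module.End.mul_apply, ← map_mul]
    exact Fintype.sum_equiv (Equiv.mulRight (⟨h, hh⟩ : St a)) _ _ fun _ => rfl
  have heU : ∀ u ∈ U, e u = 0 := by
    intro u hu
    have h4 : U ≤ LinearMap.ker e := by
      rw [Submodule.span_le]
      rintro _ ⟨h, rfl⟩
      obtain ⟨x, hx, y, hy, rfl⟩ := exists_mul_of_coprime_index hco h
      change e (ρ (x * y) b - b) = 0
      have hy' : ρ y b = b := hy
      rw [map_sub, map_mul, Module.End.mul_apply, hy', he x hx, sub_self]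
    exact h4 hu
  obtain ⟨W, hW⟩ := U.exists_isCompl
  let q : V →ₗ[k] V := U.subtype ∘ₗ U.projectionOnto W hW
  have hq1 : ∀ v, q v ∈ U := fun v => (U.projectionOnto W hW v).2
  have hq2 : ∀ u ∈ U, q u = u := fun u hu => by
    exact congrArg Subtype.val (Submodule.projectionOnto_apply_left hW ⟨u, hu⟩)
  let π : V →ₗ[k] V := ∑ h : H, ρ h ∘ₗ q ∘ₗ ρ h⁻¹
  have hπ1 : ∀ g v, π (ρ g v) = ρ g (π v) := by
    intro g v
    simp only [π, LinearMap.sum_apply, LinearMap.comp_apply, map_sum]
    refine (Fintype.sum_equiv (Equiv.mulLeft g) _ _ fun h => ?_).symm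
    simp only [Equiv.coe_mulLeft, map_mul, Module.End.mul_apply, mul_inv_rev]
    congr 4
    rw [← Module.End.mul_apply, ← map_mul]; simp
  have hπ2 : ∀ v, π v ∈ U := by
    intro v
    simp only [π, LinearMap.sum_apply, LinearMap.comp_apply]
    exact U.sum_mem fun h _ => hU _ _ (hq1 _)
  have hπ3 : ∀ u ∈ U, π u = (Fintype.card H : k) • u := by
    intro u hu
    simp only [π, LinearMap.sum_apply, LinearMap.comp_apply]
    rw [Finset.sum_congr rfl (g := fun _ => u) fun h _ => ?_, Finset.sum_const, Finset.card_univ,
          Nat.cast_smul_eq_nsmul]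
    rw [hq2 _ (hU _ _ hu), ← Module.End.mul_apply, ← map_mul]; simp
  have hπa : π a = 0 := by
    have h1 := heU _ (hπ2 a)
    have h2 : e (π a) = (Nat.card (St a) : k) • π a := by
      simp only [e, LinearMap.sum_apply]
      rw [Finset.sum_congr rfl (g := fun _ => π a) fun h _ => ?_, Finset.sum_const, Finset.card_univ,
          Nat.cast_smul_eq_nsmul, Nat.card_eq_fintype_card]
      have : ρ h a = a := h.2
      rw [← hπ1, this]
    rw [h2] at h1
    exact (smul_eq_zero.1 h1).resolve_left (hne _)
  have hπ : π = 0 := hext π fun h => by rw [hπ1, hπa, map_zero]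
  intro h
  have h1 := hπ3 _ (Submodule.subset_span ⟨h, rfl⟩)
  rw [hπ, LinearMap.zero_apply] at h1
  exact sub_eq_zero.1 ((smul_eq_zero.1 h1.symm).resolve_left hH)

end Cfsg.Agent.S4177
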