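import Mathlib
import Cfsg.Statements.S4178

-- import your own Cfsg.Agent.* helpers here

set_option autoImplicit false
open Cfsg

namespace Cfsg.Agent.S4178

open Subgroup

/-- The index of a subgroup containing a point stabilizer is at most the size of an invariant
set containing the point. -/
theorem index_le {H X : Type*} [Group H] [MulAction H X] (R : Subgroup H) (S : Set X)
    (hS : S.Finite) {x : X} (hx : ∀ h : H, h • x ∈ S) (hR : ∀ h : H, h • x = x → h ∈ R) :
    R.index ≤ S.ncard := by
  have h1 : MulAction.orbit H x ⊆ S := by rintro _ ⟨h, rfl⟩; exact hx h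
  have h2 : (MulAction.stabilizer H x).index = (MulAction.orbit H x).ncard :=
    MulAction.index_stabilizer H x
  refine le_trans (Nat.le_of_dvd ?_ (index_dvd_of_le (H := MulAction.stabilizer H x) hR))
    (h2 ▸ Set.ncard_le_ncard h1 hS)
  rw [h2, Set.ncard_pos (hS.subset h1)]
  exact MulAction.nonempty_orbit x

theorem ncard_ne_zero {F V : Type*} [Field F] [Fintype F] [AddCommGroup V] [Module F V]
    [FiniteDimensional F V] :
    Set.ncard {v : V | v ≠ 0} = Fintype.card F ^ Module.finrank F V - 1 := by
  have : Finite V := Module.finite_of_finite F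
  rw [← Nat.card_eq_fintype_card, ← Module.natCard_eq_pow_finrank]
  have : {v : V | v ≠ 0} = Set.univ \ {0} := by ext; simp
  rw [this, Set.ncard_sdiff_singleton_of_mem (Set.mem_univ _), Set.ncard_univ]


/-- Let F be a finite field with q elements, V a non-zero finite-dimensional F-space of dimension d, H a group of invertible linear maps of V, and R the subgroup of H generated by the elements of H that fix some non-zero vector (have eigenvalue 1). Then the index of R in H is at most q^d − 1; and if H leaves invariant some proper non-zero subspace, the index is at most q^(d/2) − 1. -/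
theorem result {F V : Type*} [Field F] [Fintype F] [AddCommGroup V] [Module F V] [FiniteDimensional F V] [Nontrivial V]
    (H : Subgroup (V ≃ₗ[F] V)) :
    (Subgroup.closure {h : ↥H | ∃ v : V, v ≠ 0 ∧ (h : V ≃ₗ[F] V) v = v}).index ≤ Fintype.card F ^ Module.finrank F V - 1 ∧
    ((∃ W : Submodule F V, W ≠ ⊥ ∧ W ≠ ⊤ ∧ ∀ h ∈ H, ∀ w ∈ W, h w ∈ W) →
      ((Subgroup.closure {h : ↥H | ∃ v : V, v ≠ 0 ∧ (h : V ≃ₗ[F] V) v = v}).index : ℝ) ≤ Real.sqrt ((Fintype.card F : ℝ) ^ Module.finrank F V) - 1) := by
  have hfin : Finite V := Module.finite_of_finite F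
  set R := Subgroup.closure {h : ↥H | ∃ v : V, v ≠ 0 ∧ (h : V ≃ₗ[F] V) v = v} with hR
  constructor
  · obtain ⟨v, hv⟩ := exists_ne (0 : V)
    rw [← ncard_ne_zero]
    exact index_le R _ (Set.toFinite _) (x := v)
      (fun h => (map_ne_zero_iff _ (h : V ≃ₗ[F] V).injective).2 hv)
      fun h hh => subset_closure ⟨v, hv, hh⟩
  rintro ⟨W, hW0, hW1, hW⟩
  have h1 : R.index ≤ Fintype.card F ^ Module.finrank F W - 1 := by
    obtain ⟨v, hv, hv0⟩ := (Submodule.ne_bot_iff W).1 hW0
    rw [← ncard_ne_zero, ← Set.ncard_image_of_injective _ W.subtype_injective]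
    exact index_le R _ (Set.toFinite _) (x := v)
      (fun h => ⟨⟨_, hW h h.2 v hv⟩, fun h0 => (map_ne_zero_iff _ (h : V ≃ₗ[F] V).injective).2 hv0
        (congrArg Subtype.val h0), rfl⟩)
      fun h hh => subset_closure ⟨v, hv0, hh⟩
  have h2 : R.index ≤ Fintype.card F ^ Module.finrank F (V ⧸ W) - 1 := by
    let act : MulAction H (V ⧸ W) :=
      { smul := fun h => W.mapQ W (h : V ≃ₗ[F] V).toLinearMap (hW h h.2)
        one_smul := fun q => by
          obtain ⟨v, rfl⟩ := W.mkQ_surjective q
          rfl
        mul_smul := fun a b q => by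
          obtain ⟨v, rfl⟩ := W.mkQ_surjective q
          rfl }
    have hsm : ∀ (h : H) (v : V), h • W.mkQ v = W.mkQ ((h : V ≃ₗ[F] V) v) := fun _ _ => rfl
    obtain ⟨v, -, hv⟩ := SetLike.exists_of_lt (lt_top_iff_ne_top.2 hW1)
    have hv0 : W.mkQ v ≠ 0 := fun h => hv ((Submodule.Quotient.mk_eq_zero W).1 h)
    have : Finite (V ⧸ W) := Module.finite_of_finite F
    rw [← ncard_ne_zero]
    refine index_le R _ (Set.toFinite _) (x := W.mkQ v) (fun h h0 => hv0 ?_) fun h hh => ?_
    · rw [← inv_smul_smul h (W.mkQ v), h0, ← map_zero W.mkQ, hsm, map_zero]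
    · apply Subgroup.subset_closure
      by_contra hno
      simp only [Set.mem_ofPred_eq, not_exists, not_and] at hno
      let f : V →ₗ[F] V := (h : V ≃ₗ[F] V).toLinearMap - LinearMap.id
      have hf : Function.Injective f := by
        rw [← LinearMap.ker_eq_bot, LinearMap.ker_eq_bot']
        intro u hu
        by_contra hu0
        exact hno u hu0 (sub_eq_zero.1 hu)
      have hfW : ∀ w ∈ W, f w ∈ W := fun w hw => W.sub_mem (hW h h.2 w hw) hw
      have hsurj : Function.Surjective (f.restrict hfW) :=
        LinearMap.surjective_of_injective fun a b hab =>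
          Subtype.ext (hf (congrArg Subtype.val hab))
      rw [hsm] at hh
      obtain ⟨w, hw⟩ := hsurj ⟨f v, (Submodule.Quotient.eq W).1 hh⟩
      have : (w : V) = v := hf (congrArg Subtype.val hw)
      exact hv (this ▸ w.2)
  have h3 := W.finrank_quotient_add_finrank
  have hq : 1 ≤ Fintype.card F := Fintype.card_pos
  have h4 : (R.index + 1) * (R.index + 1) ≤ Fintype.card F ^ Module.finrank F V := by
    rw [← h3, pow_add]
    have := Nat.one_le_pow (Module.finrank F W) _ hq
    have := Nat.one_le_pow (Module.finrank F (V ⧸ W)) _ hq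
    exact Nat.mul_le_mul (by omega) (by omega)
  rw [le_sub_iff_add_le]
  apply Real.le_sqrt_of_sq_le
  rw [sq]
  exact_mod_cast h4

end Cfsg.Agent.S4178
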