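import Cfsg.Statements.S4181
import Cfsg.Agent.SyF.Red

set_option autoImplicit false
open Cfsg

namespace Cfsg.Agent.S4181

/-- Let p be a prime and G a finite group generated by its elements of p-power order, and let H be a proper subgroup of G containing a Sylow p-subgroup of G. Then 2p − 1 times the number of Sylow p-subgroups of H is at most p − 1 times the number of Sylow p-subgroups of G. -/
theorem result {G : Type*} [Group G] [Finite G] (p : ℕ) [Fact p.Prime] (hgen : Subgroup.closure {g : G | ∃ k : ℕ, orderOf g = p ^ k} = ⊤)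
    (H : Subgroup G) (hH : H ≠ ⊤) (P : Sylow p G) (hP : (P : Subgroup G) ≤ H) :
    (2 * p - 1) * Nat.card (Sylow p ↥H) ≤ (p - 1) * Nat.card (Sylow p G) := by
  have hg : SyF.gen (Set.univ : Set (Sylow p G)) = ⊤ := by
    refine top_le_iff.1 (hgen ▸ (Subgroup.closure_le _).2 ?_)
    rintro g ⟨k, hk⟩
    have hz : IsPGroup p (Subgroup.zpowers g) := IsPGroup.of_card (n := k) (by rw [Nat.card_zpowers, hk])
    obtain ⟨Q, hQ⟩ := hz.exists_le_sylow
    exact SyF.le_gen (Set.mem_univ Q) (hQ (Subgroup.mem_zpowers g))
  have h := SyF.sub_bound hg hH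
  rw [SyF.red_card_top hP] at h
  have hp := (Fact.out : p.Prime).one_le
  zify [hp, (by omega : 1 ≤ 2 * p)]
  exact h

end Cfsg.Agent.S4181
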