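import Cfsg.Statements.S4182
import Mathlib.GroupTheory.Sylow
import Mathlib.Tactic

set_option autoImplicit false
open Cfsg

namespace Cfsg.Agent.S4182

open scoped Pointwise

universe u

/-- the subgroup generated by the `p`-elements of `H` -/
def cl {G : Type u} [Group G] (p : ℕ) (H : Subgroup G) : Subgroup G :=
  Subgroup.closure {g : G | g ∈ H ∧ ∃ k : ℕ, orderOf g = p ^ k}

section
variable {G : Type u} [Group G] {p : ℕ}

theorem cl_le (H : Subgroup G) : cl p H ≤ H :=
  (Subgroup.closure_le _).2 fun _ h => h.1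

theorem cl_mono {H K : Subgroup G} (h : H ≤ K) : cl p H ≤ cl p K :=
  Subgroup.closure_mono fun _ hx => ⟨h hx.1, hx.2⟩

theorem mem_cl {H : Subgroup G} {g : G} (h : g ∈ H) (hk : ∃ k : ℕ, orderOf g = p ^ k) :
    g ∈ cl p H := Subgroup.subset_closure ⟨h, hk⟩

theorem cl_cl (H : Subgroup G) : cl p (cl p H) = cl p H := by
  refine le_antisymm (cl_le _) ((Subgroup.closure_le _).2 fun g hg => ?_)
  exact mem_cl (mem_cl hg.1 hg.2) hg.2

theorem cl_smul (H : Subgroup G) (h : cl p H = H) (g : G) :
    cl p (MulAut.conj g • H) = MulAut.conj g • H := by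
  refine le_antisymm (cl_le _) ?_
  have : H ≤ (cl p (MulAut.conj g • H)).comap (MulAut.conj g).toMonoidHom := by
    conv_lhs => rw [← h]
    refine (Subgroup.closure_le _).2 fun x hx => ?_
    show (MulAut.conj g) x ∈ cl p (MulAut.conj g • H)
    refine mem_cl (Subgroup.smul_mem_pointwise_smul _ _ _ hx.1) ?_
    obtain ⟨k, hk⟩ := hx.2
    exact ⟨k, by rw [MulEquiv.orderOf_eq]; exact hk⟩
  intro y hy
  obtain ⟨x, hx, rfl⟩ := hy
  exact this hx

theorem gen_sub (H : Subgroup G) (h : cl p H = H) :
    Subgroup.closure {g : H | ∃ k : ℕ, orderOf g = p ^ k} = ⊤ := by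
  apply Subgroup.map_injective H.subtype_injective
  rw [MonoidHom.map_closure, ← MonoidHom.range_eq_map, Subgroup.range_subtype]
  conv_rhs => rw [← h]
  unfold cl
  congr 1
  ext x
  constructor
  · rintro ⟨y, ⟨k, hk⟩, rfl⟩
    exact ⟨y.2, k, by simpa using hk⟩
  · rintro ⟨hx, k, hk⟩
    exact ⟨⟨x, hx⟩, ⟨k, by simpa using hk⟩, rfl⟩

end

theorem pgroup_case {G : Type u} [Group G] [Finite G] (p : ℕ) [hp : Fact p.Prime]
    (hG : IsPGroup p G) {ι : Type*} [Fintype ι] (K : ι → Subgroup G) (hK : ∀ i, K i ≠ ⊤)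
    (hcov : ∀ g : G, ∃ i, g ∈ K i) : p + 1 ≤ Fintype.card ι := by
  classical
  haveI := Fintype.ofFinite G
  by_contra hlt
  have hle : Fintype.card ι ≤ p := by omega
  have h1 : ∀ i, p * Nat.card (K i) ≤ Nat.card G := by
    intro i
    obtain ⟨n, hn⟩ := hG.index (K i)
    have hn0 : n ≠ 0 := by
      rintro rfl
      exact hK i (Subgroup.index_eq_one.1 (by simpa using hn))
    rw [← (K i).index_mul_card, hn]
    exact Nat.mul_le_mul_right _ (Nat.le_self_pow hn0 p)
  have hsub : (Finset.univ.erase (1 : G)) ⊆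
      Finset.univ.biUnion fun i => (Finset.univ.filter (· ∈ K i)).erase 1 := by
    intro g hg
    obtain ⟨i, hi⟩ := hcov g
    simp only [Finset.mem_biUnion, Finset.mem_univ, true_and, Finset.mem_erase,
      Finset.mem_filter] at hg ⊢
    exact ⟨i, hg.1, hi⟩
  have h2 := (Finset.card_le_card hsub).trans Finset.card_biUnion_le
  have h3 : ∀ i, p * ((Finset.univ.filter (· ∈ K i)).erase (1 : G)).card + p ≤ Nat.card G := by
    intro i
    have h4 : (Finset.univ.filter (· ∈ K i)).card = Nat.card (K i) := by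
      rw [Nat.card_eq_fintype_card, Fintype.card_subtype]
    have h5 := Finset.card_erase_add_one (s := Finset.univ.filter (· ∈ K i)) (a := (1 : G))
      (by simp)
    have := h1 i
    rw [← h4, ← h5] at this
    linarith
  have h6 := Finset.card_erase_add_one (s := (Finset.univ : Finset G)) (a := (1 : G)) (by simp)
  rw [Finset.card_univ, ← Nat.card_eq_fintype_card] at h6
  obtain ⟨i0, -⟩ := hcov 1
  have hpG : p ≤ Nat.card G := by have := h3 i0; omega
  have h7 : p * ∑ i : ι, ((Finset.univ.filter (· ∈ K i)).erase (1 : G)).card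
      ≤ p * (Nat.card G - p) := by
    rw [Finset.mul_sum]
    calc _ ≤ ∑ _i : ι, (Nat.card G - p) :=
          Finset.sum_le_sum fun i _ => by have := h3 i; omega
      _ = Fintype.card ι * (Nat.card G - p) := by simp
      _ ≤ _ := Nat.mul_le_mul_right _ hle
  have h8 := Nat.le_of_mul_le_mul_left h7 hp.out.pos
  have := hp.out.two_le
  omega

theorem main (p : ℕ) [hp : Fact p.Prime] {ι : Type*} [Fintype ι] (n : ℕ) :
    ∀ (G : Type u) [Group G] [Finite G], Nat.card G = n →
      Subgroup.closure {g : G | ∃ k : ℕ, orderOf g = p ^ k} = ⊤ →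
      ∀ (K : ι → Subgroup G), (∀ i, K i ≠ ⊤) →
      (∀ g : G, (∃ k : ℕ, orderOf g = p ^ k) → ∃ i, g ∈ K i) → p + 1 ≤ Fintype.card ι := by
  classical
  induction n using Nat.strong_induction_on with
  | _ n ih =>
  intro G _ _ hn hgen K hK hcov
  by_contra hlt
  have hin : ∀ H : Subgroup G, cl p H = H → H ≠ ⊤ → ∃ i, H ≤ K i := by
    intro H hH hne
    by_contra hcon
    push Not at hcon
    refine hlt (ih (Nat.card H) ?_ H rfl (gen_sub H hH) (fun i => (K i).subgroupOf H) ?_ ?_)
    · rw [← hn]
      have h1 := H.index_mul_card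
      have h2 : H.index ≠ 1 := fun h => hne (Subgroup.index_eq_one.1 h)
      have h3 : H.index ≠ 0 := Subgroup.index_ne_zero_of_finite
      have h4 : 0 < Nat.card H := Nat.card_pos
      have h5 : 2 ≤ H.index := by omega
      nlinarith
    · intro i hi
      exact hcon i (Subgroup.subgroupOf_eq_top.1 hi)
    · rintro g ⟨k, hk⟩
      obtain ⟨i, hi⟩ := hcov g ⟨k, by simpa using hk⟩
      exact ⟨i, hi⟩
  obtain ⟨P⟩ : Nonempty (Sylow p G) := inferInstance
  by_cases hP : (P : Subgroup G) = ⊤
  · have hG : IsPGroup p G := by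
      have := P.isPGroup'
      rw [hP] at this
      exact this.of_equiv Subgroup.topEquiv
    exact hlt (pgroup_case p hG K hK fun g => hcov g (IsPGroup.iff_orderOf.1 hG g))
  have hPgen : cl p (P : Subgroup G) = P := by
    refine le_antisymm (cl_le _) fun g hg => mem_cl hg ?_
    obtain ⟨k, hk⟩ := IsPGroup.iff_orderOf.1 P.isPGroup' ⟨g, hg⟩
    exact ⟨k, by simpa using hk⟩
  obtain ⟨L, ⟨hLg, hLne, Q, hQ⟩, hmax⟩ := Set.Finite.exists_maximalFor
    (fun L : Subgroup G => Nat.card L)
    {L : Subgroup G | cl p L = L ∧ L ≠ ⊤ ∧ ∃ Q : Sylow p G, (Q : Subgroup G) ≤ L}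
    (Set.toFinite _) ⟨P, hPgen, hP, P, le_rfl⟩
  have hconj : ∀ g : G, ∃ i, MulAut.conj g • L = cl p (K i) := by
    intro g
    have hc : Nat.card ↥(MulAut.conj g • L) = Nat.card L :=
      (Nat.card_congr (Subgroup.equivSMul (MulAut.conj g) L).toEquiv).symm
    have hne : MulAut.conj g • L ≠ ⊤ := by
      intro h
      apply hLne
      apply Subgroup.eq_top_of_card_eq
      rw [← hc, h, Subgroup.card_top]
    obtain ⟨i, hi⟩ := hin _ (cl_smul L hLg g) hne
    have hle : MulAut.conj g • L ≤ cl p (K i) := by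
      rw [← cl_smul L hLg g]; exact cl_mono hi
    refine ⟨i, Subgroup.eq_of_le_of_card_ge hle ?_⟩
    rw [hc]
    by_contra hcon
    push Not at hcon
    have := hmax (j := cl p (K i)) ⟨cl_cl _, fun h => hK i (top_le_iff.1 (h ▸ cl_le _)),
      g • Q, le_trans ?_ hle⟩ hcon.le
    · exact absurd this (not_le.2 hcon)
    · rw [Sylow.coe_subgroup_smul]
      exact Subgroup.pointwise_smul_le_pointwise_smul_iff.2 hQ
  have hnorm : ∀ x : G, (∃ k : ℕ, orderOf x = p ^ k) → MulAut.conj x • L = L := by
    rintro x ⟨k, hk⟩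
    by_contra hx
    obtain ⟨j, hj⟩ := hcov x ⟨k, hk⟩
    have hxj : x ∈ cl p (K j) := mem_cl hj ⟨k, hk⟩
    choose f hf using hconj
    have hfix : MulAut.conj x • cl p (K j) = cl p (K j) :=
      Subgroup.conj_smul_eq_self_of_mem hxj
    have hne : ∀ a : ℕ, f (x ^ a) ≠ j := by
      intro a ha
      have h1 := hf (x ^ a)
      rw [ha] at h1
      apply hx
      have h2 : MulAut.conj (x ^ a) • (MulAut.conj x • L) = MulAut.conj (x ^ a) • L := by
        rw [← mul_smul, ← map_mul, ← pow_succ, pow_succ', map_mul, mul_smul, h1, hfix]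
      exact smul_left_cancel _ h2
    have hinj : ∀ a b : ℕ, a < b → b < p → f (x ^ a) ≠ f (x ^ b) := by
      intro a b hab hb he
      obtain ⟨c, rfl⟩ := Nat.exists_eq_add_of_lt hab
      have h1 : MulAut.conj (x ^ a) • (MulAut.conj (x ^ (c + 1)) • L)
          = MulAut.conj (x ^ a) • L := by
        rw [← mul_smul, ← map_mul, ← pow_add, ← add_assoc, hf, hf, he]
      have h2 := smul_left_cancel _ h1
      have hcop : (c + 1).Coprime (orderOf x) := by
        rw [hk]
        apply Nat.Coprime.pow_right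
        exact (Nat.coprime_of_lt_prime (by omega) (by omega) hp.out).symm
      obtain ⟨m, hm⟩ := exists_pow_eq_self_of_coprime hcop
      apply hx
      rw [← hm, map_pow]
      exact (MulAction.stabilizer (MulAut G) L).pow_mem h2 m
    let F : Option (Fin p) → ι := fun o => o.elim j fun a => f (x ^ (a : ℕ))
    have hF : Function.Injective F := by
      rintro (_ | a) (_ | b) h
      · rfl
      · exact absurd h.symm (hne b)
      · exact absurd h (hne a)
      · rcases lt_trichotomy (a : ℕ) b with h1 | h1 | h1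
        · exact absurd h (hinj _ _ h1 b.2)
        · rw [Fin.ext h1]
        · exact absurd h.symm (hinj _ _ h1 a.2)
    have := Fintype.card_le_of_injective F hF
    simp at this
    exact hlt this
  have hall : ∀ g : G, MulAut.conj g • L = L := by
    intro g
    have hg : g ∈ Subgroup.closure {g : G | ∃ k : ℕ, orderOf g = p ^ k} := by
      rw [hgen]; trivial
    have : Subgroup.closure {g : G | ∃ k : ℕ, orderOf g = p ^ k} ≤
        (MulAction.stabilizer (MulAut G) L).comap MulAut.conj :=
      (Subgroup.closure_le _).2 fun x hx => hnorm x hx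
    exact this hg
  apply hLne
  rw [eq_top_iff, ← hgen]
  refine (Subgroup.closure_le _).2 fun x hx => ?_
  obtain ⟨k, hk⟩ := hx
  have hz : IsPGroup p (Subgroup.zpowers x) :=
    IsPGroup.of_card (n := k) (by rw [Nat.card_zpowers, hk])
  obtain ⟨R, hR⟩ := hz.exists_le_sylow
  obtain ⟨g, rfl⟩ := MulAction.exists_smul_eq G Q R
  have : ((g • Q : Sylow p G) : Subgroup G) ≤ L := by
    rw [Sylow.coe_subgroup_smul, ← hall g]
    exact Subgroup.pointwise_smul_le_pointwise_smul_iff.2 hQ
  exact this (hR (Subgroup.mem_zpowers x))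

/-- Let p be a prime and G a finite group generated by its p-elements. If a finite family of proper subgroups of G covers the set of p-elements of G (every element of p-power order lies in one of them), then the family has at least p + 1 members. -/
theorem result {G : Type*} [Group G] [Finite G] (p : ℕ) [Fact p.Prime] (hgen : Subgroup.closure {g : G | ∃ k : ℕ, orderOf g = p ^ k} = ⊤)
    {ι : Type*} [Fintype ι] (K : ι → Subgroup G) (hK : ∀ i, K i ≠ ⊤)
    (hcov : ∀ g : G, (∃ k : ℕ, orderOf g = p ^ k) → ∃ i, g ∈ K i) :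
    p + 1 ≤ Fintype.card ι :=
  main p _ G rfl hgen K hK hcov

end Cfsg.Agent.S4182
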