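import Cfsg.Statements.S4184
import Cfsg.Agent.FG.ClassIdx
import Cfsg.Agent.Inv.SylowElt

set_option autoImplicit false
open Cfsg

namespace Cfsg.Agent.S4184

open Subgroup Cfsg.Agent.FG.CI

/-- `c` has the full `B`-part of `m`. -/
def F (B : Set ℕ) (m c : ℕ) : Prop := ∀ q ∈ B, q.Prime → m.factorization q ≤ c.factorization q

theorem F.mono {B : Set ℕ} {m c d : ℕ} (h : F B m c) (hd : d ≠ 0) (hcd : c ∣ d) : F B m d := by
  intro q hq hp
  have hc : c ≠ 0 := by rintro rfl; exact hd (Nat.eq_zero_of_zero_dvd hcd)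
  exact (h q hq hp).trans ((Nat.factorization_le_iff_dvd hc hd).2 hcd q)

theorem not_F {B : Set ℕ} {m c p : ℕ} (hm : m ≠ 0) (hp : p.Prime) (hpB : p ∈ B) (hpm : p ∣ m)
    (hpc : ¬ p ∣ c) : ¬ F B m c := by
  intro h
  have h1 := h p hpB hp
  rw [Nat.factorization_eq_zero_of_not_dvd hpc] at h1
  have := hp.factorization_pos_of_dvd hm hpm
  omega

theorem dvd_of_F {B : Set ℕ} {m c : ℕ} (hm : m ≠ 0) (hc : c ≠ 0) (h1 : F B m c)
    (h2 : F Bᶜ m c) : m ∣ c := by
  rw [← Nat.factorization_prime_le_iff_dvd hm hc]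
  intro p hp
  by_cases hB : p ∈ B
  · exact h1 p hB hp
  · exact h2 p hB hp

theorem exists_central {G : Type*} [Group G] [Finite G] {p : ℕ} [Fact p.Prime] (P : Sylow p G)
    (hp : p ∣ Nat.card G) : ∃ z ∈ (P : Subgroup G), orderOf z = p ∧
      (P : Subgroup G) ≤ centralizer ({z} : Set G) := by
  obtain ⟨z, hz, ho, hc⟩ := Inv.exists_central_of_isPGroup P.isPGroup' (P.ne_bot_of_dvd_card hp)
  exact ⟨z, hz, ho, fun x hx => mem_cent_commute.2 (hc x hx)⟩

theorem core {G : Type*} [Group G] [Finite G] {m : ℕ} (hm : m ≠ 0) (A : Set ℕ)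
    (hdvd : ∀ g : G, cidx g ∣ m)
    (hor : ∀ g : G, g ≠ 1 → F A m (cidx g) ∨ F Aᶜ m (cidx g))
    (hnot : ∀ g : G, F A m (cidx g) → ¬ F Aᶜ m (cidx g))
    {p q : ℕ} (hp : p.Prime) (hq : q.Prime) (hpA : p ∈ A) (hqA : q ∈ Aᶜ) (hpm : p ∣ m)
    (hqm : q ∣ m) (hqG : q ∣ Nat.card G) :
    (Nat.card G).factorization p ≤ m.factorization p := by
  by_contra hlt
  push Not at hlt
  haveI := Fact.mk hp
  haveI := Fact.mk hq
  have hpq : p ≠ q := fun e => hqA (e ▸ hpA)
  have hcop : p.Coprime q := (Nat.coprime_primes hp hq).2 hpq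
  obtain ⟨Q⟩ : Nonempty (Sylow q G) := inferInstance
  obtain ⟨w, -, hwo, hwQ⟩ := exists_central Q hqG
  have hw1 : w ≠ 1 := by rintro rfl; rw [orderOf_one] at hwo; exact hq.one_lt.ne hwo
  have hwA : F A m (cidx w) := (hor w hw1).resolve_right
    (not_F hm hq hqA hqm (not_dvd_cidx_of_sylow_le Q hwQ))
  have hpC : p ∣ Nat.card (centralizer ({w} : Set G)) := by
    by_contra hn
    have h1 := card_cent_mul_cidx w
    have h2 : (Nat.card G).factorization p = (cidx w).factorization p := by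
      rw [← h1, Nat.factorization_mul Nat.card_pos.ne' (cidx_ne_zero w), Finsupp.add_apply,
        Nat.factorization_eq_zero_of_not_dvd hn, zero_add]
    have h3 := (Nat.factorization_le_iff_dvd (cidx_ne_zero w) hm).2 (hdvd w) p
    omega
  obtain ⟨y0, hy0⟩ := exists_prime_orderOf_dvd_card' p hpC
  set y : G := (y0 : G) with hy
  have hyo : orderOf y = p := by rw [hy, Subgroup.orderOf_coe, hy0]
  have hyw : Commute y w := mem_cent_commute.1 y0.2
  have hy1 : y ≠ 1 := by intro e; rw [e, orderOf_one] at hyo; exact hp.one_lt.ne hyo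
  have hc1 : (orderOf y).Coprime (orderOf w) := by rw [hyo, hwo]; exact hcop
  have hywA : F A m (cidx (y * w)) :=
    hwA.mono (cidx_ne_zero _) (cidx_dvd_cidx_mul_right hyw hc1)
  have hyA : F A m (cidx y) := (hor y hy1).resolve_right fun h =>
    hnot _ hywA (h.mono (cidx_ne_zero _) (cidx_dvd_cidx_mul_left hyw hc1))
  have hrel : ¬ p ∣ (centralizer ({w} : Set G)).relIndex (centralizer ({y} : Set G)) := by
    intro hd
    have h0 : (centralizer ({w} : Set G)).relIndex (centralizer ({y} : Set G)) ≠ 0 :=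
      index_ne_zero_of_finite
    have h1 := (Nat.factorization_le_iff_dvd (cidx_ne_zero _) hm).2 (hdvd (y * w)) p
    rw [cidx_mul_of_coprime hyw hc1, Nat.factorization_mul h0 (cidx_ne_zero y),
      Finsupp.add_apply] at h1
    have h2 := hp.factorization_pos_of_dvd h0 hd
    have h3 := hyA p hpA hp
    omega
  obtain ⟨S, hyS, hSD, hSp, hSi⟩ := GT.Tr.exists_sylowIn_ge (p := p) (T := zpowers y)
    (H := centralizer ({y} : Set G) ⊓ centralizer ({w} : Set G))
    (isPGroup_zpowers ⟨1, by rw [hyo, pow_one]⟩)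
    (zpowers_le.2 ⟨self_mem_cent y, mem_cent_commute.2 hyw⟩)
  have hSy : ¬ p ∣ S.relIndex (centralizer ({y} : Set G)) := by
    rw [← relIndex_mul_relIndex S _ _ hSD inf_le_left, inf_relIndex_left]
    exact hp.not_dvd_mul hSi hrel
  obtain ⟨P, hSP⟩ := hSp.exists_le_sylow
  have hpG : p ∣ Nat.card G := hyo ▸ orderOf_dvd_natCard y
  obtain ⟨z, hzP, hzo, hPz⟩ := exists_central P hpG
  have hzy : z ∈ centralizer ({y} : Set G) := mem_cent_symm.1 (hPz (hSP (hyS (mem_zpowers y))))
  have hzS : z ∈ S := GT.Tr.le_of_sylowIn_le (T := (P : Subgroup G) ⊓ centralizer ({y} : Set G))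
    hSy (P.isPGroup'.to_inf_left) (le_inf hSP (hSD.trans inf_le_left)) inf_le_right ⟨hzP, hzy⟩
  have hzw : Commute z w := mem_cent_commute.1 (hSD hzS).2
  have hz1 : z ≠ 1 := by rintro rfl; rw [orderOf_one] at hzo; exact hp.one_lt.ne hzo
  have hzA : F Aᶜ m (cidx z) := (hor z hz1).resolve_left
    (not_F hm hp hpA hpm (not_dvd_cidx_of_sylow_le P hPz))
  have hc2 : (orderOf z).Coprime (orderOf w) := by rw [hzo, hwo]; exact hcop
  exact hnot (z * w) (hwA.mono (cidx_ne_zero _) (cidx_dvd_cidx_mul_right hzw hc2))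
    (hzA.mono (cidx_ne_zero _) (cidx_dvd_cidx_mul_left hzw hc2))

/-- an element of prime order on one side has the full part of the other side -/
theorem F_of_prime {M : Type*} [Group M] [Finite M] {B : Set ℕ} {r : ℕ} (hr : r.Prime)
    (hrB : r ∉ B) (hno : ∀ b ∈ B, b.Prime → b ∣ Nat.card M → ¬ ∃ x : M, orderOf x = r * b)
    {x : M} (hx : orderOf x = r) : F B (Nat.card M) (cidx x) := by
  intro b hb hbp
  haveI := Fact.mk hbp
  have hn : ¬ b ∣ Nat.card (centralizer ({x} : Set M)) := by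
    intro hd
    obtain ⟨y, hy⟩ := exists_prime_orderOf_dvd_card' b hd
    have hyo : orderOf (y : M) = b := by rw [Subgroup.orderOf_coe, hy]
    have hxy : Commute x (y : M) := (mem_cent_commute.1 y.2).symm
    have hne : r ≠ b := fun e => hrB (e ▸ hb)
    refine hno b hb hbp (hd.trans (card_subgroup_dvd_card _)) ⟨x * y, ?_⟩
    rw [hxy.orderOf_mul_eq_mul_orderOf_of_coprime
      (by rw [hx, hyo]; exact (Nat.coprime_primes hr hbp).2 hne), hx, hyo]
  rw [← card_cent_mul_cidx x, Nat.factorization_mul Nat.card_pos.ne' (cidx_ne_zero x),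
    Finsupp.add_apply, Nat.factorization_eq_zero_of_not_dvd hn, zero_add]

/-- Let G and M be finite groups with trivial centres and the same set of conjugacy class sizes, and suppose the prime graph of M is disconnected: the prime divisors of #M split into two non-empty parts such that M has no element of order pq with p in one part and q in the other. Then #G = #M. -/
theorem result {G M : Type*}
    [Group G] [Finite G] [Group M] [Finite M] (hZG : Subgroup.center G = ⊥) (hZM : Subgroup.center M = ⊥)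
    (h : Set.range (fun g : G => (Subgroup.centralizer ({g} : Set G)).index) = Set.range (fun g : M => (Subgroup.centralizer ({g} : Set M)).index))
    (hdisc : ∃ A : Set ℕ, (∃ a ∈ A, a.Prime ∧ a ∣ Nat.card M) ∧ (∃ b ∉ A, b.Prime ∧ b ∣ Nat.card M) ∧
      ∀ a ∈ A, ∀ b ∉ A, a.Prime → b.Prime → a ∣ Nat.card M → b ∣ Nat.card M → ¬ ∃ x : M, orderOf x = a * b) :
    Nat.card G = Nat.card M := by
  obtain ⟨A, ⟨a, haA, ha, ham⟩, ⟨b, hbA, hb, hbm⟩, hno⟩ := hdisc
  have hm : Nat.card M ≠ 0 := Nat.card_pos.ne'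
  have hn : Nat.card G ≠ 0 := Nat.card_pos.ne'
  have hGM : ∀ g : G, ∃ x : M, cidx x = cidx g := fun g => by
    have : cidx g ∈ Set.range (fun g : G => (centralizer ({g} : Set G)).index) := ⟨g, rfl⟩
    rw [h] at this
    exact this
  have hMG : ∀ x : M, ∃ g : G, cidx g = cidx x := fun x => by
    have : cidx x ∈ Set.range (fun g : M => (centralizer ({g} : Set M)).index) := ⟨x, rfl⟩
    rw [← h] at this
    exact this
  have hin : ∀ r ∈ A, r.Prime → ∀ x : M, orderOf x = r → F Aᶜ (Nat.card M) (cidx x) :=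
    fun r hrA hr x hx => F_of_prime (B := Aᶜ) hr (fun h => h hrA)
      (fun q hq hqp hqm => hno r hrA q hq hr hqp (hx ▸ orderOf_dvd_natCard x) hqm) hx
  have hout : ∀ r ∉ A, r.Prime → ∀ x : M, orderOf x = r → F A (Nat.card M) (cidx x) :=
    fun r hrA hr x hx => F_of_prime hr hrA
      (fun q hq hqp hqm => by
        rw [mul_comm]; exact hno q hq r hrA hqp hr hqm (hx ▸ orderOf_dvd_natCard x)) hx
  have horM : ∀ x : M, x ≠ 1 → F A (Nat.card M) (cidx x) ∨ F Aᶜ (Nat.card M) (cidx x) := by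
    intro x hx
    have h1 : orderOf x ≠ 1 := by rwa [Ne, orderOf_eq_one_iff]
    obtain ⟨r, hr, hrd⟩ := Nat.exists_prime_and_dvd h1
    have h2 : orderOf (x ^ (orderOf x / r)) = r :=
      orderOf_pow_orderOf_div (orderOf_pos x).ne' hrd
    by_cases hrA : r ∈ A
    · exact Or.inr ((hin r hrA hr _ h2).mono (cidx_ne_zero x) (cidx_pow_dvd x _))
    · exact Or.inl ((hout r hrA hr _ h2).mono (cidx_ne_zero x) (cidx_pow_dvd x _))
  have hnotM : ∀ x : M, F A (Nat.card M) (cidx x) → ¬ F Aᶜ (Nat.card M) (cidx x) := by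
    intro x h1 h2
    have h3 := dvd_of_F hm (cidx_ne_zero x) h1 h2
    have h4 := card_cent_mul_cidx x
    have h5 : cidx x = Nat.card M := Nat.dvd_antisymm (cidx_dvd_card x) h3
    rw [h5] at h4
    have h6 : Nat.card (centralizer ({x} : Set M)) = 1 := by
      apply Nat.eq_of_mul_eq_mul_right (Nat.pos_of_ne_zero hm)
      rw [h4, one_mul]
    have h7 : x = 1 := by
      have := self_mem_cent x
      rwa [Subgroup.card_eq_one.1 h6, mem_bot] at this
    rw [h7, cidx_one] at h5
    rw [← h5] at ham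
    exact ha.one_lt.ne' (Nat.dvd_one.1 ham)
  have hdvd : ∀ g : G, cidx g ∣ Nat.card M := fun g => by
    obtain ⟨x, hx⟩ := hGM g
    exact hx ▸ cidx_dvd_card x
  have hor : ∀ g : G, g ≠ 1 → F A (Nat.card M) (cidx g) ∨ F Aᶜ (Nat.card M) (cidx g) := by
    intro g hg
    obtain ⟨x, hx⟩ := hGM g
    rw [← hx]
    apply horM
    rintro rfl
    rw [cidx_one, eq_comm, cidx_eq_one_iff, hZG, mem_bot] at hx
    exact hg hx
  have hnot : ∀ g : G, F A (Nat.card M) (cidx g) → ¬ F Aᶜ (Nat.card M) (cidx g) := by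
    intro g
    obtain ⟨x, hx⟩ := hGM g
    rw [← hx]
    exact hnotM x
  have hmn : Nat.card M ∣ Nat.card G := by
    haveI := Fact.mk ha
    haveI := Fact.mk hb
    obtain ⟨x, hx⟩ := exists_prime_orderOf_dvd_card' a ham
    obtain ⟨y, hy⟩ := exists_prime_orderOf_dvd_card' b hbm
    obtain ⟨g, hg⟩ := hMG x
    obtain ⟨k, hk⟩ := hMG y
    exact dvd_of_F hm hn ((hout b hbA hb y hy).mono hn (hk ▸ cidx_dvd_card k))
      ((hin a haA ha x hx).mono hn (hg ▸ cidx_dvd_card g))
  refine Nat.dvd_antisymm ?_ hmn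
  rw [← Nat.factorization_prime_le_iff_dvd hn hm]
  intro p hp
  by_cases hpm : p ∣ Nat.card M
  · by_cases hpA : p ∈ A
    · exact core hm A hdvd hor hnot hp hb hpA hbA hpm hbm (hbm.trans hmn)
    · refine core hm Aᶜ hdvd (fun g hg => ?_) (fun g h1 h2 => ?_) hp ha hpA
        (by rwa [compl_compl]) hpm ham (ham.trans hmn)
      · rw [compl_compl]; exact (hor g hg).symm
      · rw [compl_compl] at h2; exact hnot g h2 h1
  · haveI := Fact.mk hp
    obtain ⟨P⟩ : Nonempty (Sylow p G) := inferInstance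
    have h1 := sylow_le_center_of_forall_not_dvd P fun g hd => hpm (hd.trans (hdvd g))
    rw [hZG, le_bot_iff] at h1
    have h2 : ¬ p ∣ Nat.card G := fun hd => P.ne_bot_of_dvd_card hd h1
    rw [Nat.factorization_eq_zero_of_not_dvd h2]
    exact Nat.zero_le _

end Cfsg.Agent.S4184
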