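import Mathlib
import Cfsg.Statements.S4193
import Cfsg.Agent.FG.RealSylow
import Cfsg.Agent.S0205
-- import your own Cfsg.Agent.* helpers here

set_option autoImplicit false
open Cfsg

namespace Cfsg.Agent.S4193

open Subgroup Cfsg.Agent.FG.CI


/-- Let G be a finite group in which the conjugacy classes of all non-central real elements (elements conjugate to their inverses) have sizes with the same 2-part, and suppose G has a Sylow 2-subgroup S such that every element of S that is conjugate in S to its inverse lies in the centre of S. Then G is solvable and the subgroup generated by the 2-elements of G (the smallest normal subgroup of odd index) has a normal 2-complement. -/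
theorem result {G : Type*} [Group G] [Finite G] (a : ℕ) (h : ∀ x : G, IsConj x x⁻¹ → x ∉ Subgroup.center G → ((Subgroup.centralizer ({x} : Set G)).index).factorization 2 = a) (S : Sylow 2 G) (hS : ∀ s : ↥(S : Subgroup G), IsConj s s⁻¹ → s ∈ Subgroup.center ↥(S : Subgroup G)) : Group.IsSolvable G ∧ Cfsg.HasNormalPComplement 2 ↥(Subgroup.closure {g : G | ∃ k : ℕ, orderOf g = 2 ^ k}) := by
  have hsolv : ∀ (N : Subgroup G) [N.Normal], Group.IsSolvable N → Group.IsSolvable (G ⧸ N) →
      Group.IsSolvable G := fun N _ _ _ =>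
    Group.isSolvable_of_ker_le_range N.subtype (QuotientGroup.mk' N) (by simp)
  -- real 2-elements are 2-central
  have h1 : ∀ x : G, (∃ k : ℕ, orderOf x = 2 ^ k) → IsConj x x⁻¹ → ¬ 2 ∣ cidx x := by
    intro x hx hr
    by_cases hxx : x⁻¹ = x
    · obtain ⟨g, hg⟩ := exists_conj_mem_sylow S hx
      refine (not_dvd_cidx_iff_conj S x).2 ⟨g, mem_centralizer_iff.2 fun s hs => ?_⟩
      have := hS ⟨_, hg⟩ (by
        have : (⟨_, hg⟩ : (S : Subgroup G))⁻¹ = ⟨_, hg⟩ := by
          apply Subtype.ext
          simp [mul_assoc, hxx]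
        rw [this])
      exact congrArg Subtype.val (Subgroup.mem_center_iff.1 this ⟨s, hs⟩)
    · obtain ⟨g, hg⟩ := isConj_iff.1 hr
      obtain ⟨t, -, ht, hinv⟩ := exists_two_elt_inverts hg
      have htn : zpowers t ≤ normalizer (zpowers x : Set G) := by
        rw [zpowers_le]
        apply GT.Tr.mem_normalizer_of_conj_mem
        rintro _ ⟨j, rfl⟩
        simp only [← conj_zpow, hinv]
        exact zpow_mem (inv_mem (mem_zpowers x)) j
      obtain ⟨c, hc⟩ := GT.Tr.exists_conj_le_sylow S
        (GT.PG.isPGroup_sup_of_le_normalizer (isPGroup_zpowers ht) (isPGroup_zpowers hx) htn)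
      have hcx := hc x (mem_sup_right (mem_zpowers x))
      have hct := hc t (mem_sup_left (mem_zpowers t))
      refine (not_dvd_cidx_iff_conj S x).2 ⟨c, mem_centralizer_iff.2 fun s hs => ?_⟩
      have := hS ⟨_, hcx⟩ (isConj_iff.2 ⟨⟨_, hct⟩, by
        apply Subtype.ext
        simp only [coe_mul, coe_inv]
        calc c * t * c⁻¹ * (c * x * c⁻¹) * (c * t * c⁻¹)⁻¹ = c * (t * x * t⁻¹) * c⁻¹ := by group
          _ = _ := by rw [hinv]; group⟩)
      exact congrArg Subtype.val (Subgroup.mem_center_iff.1 this ⟨s, hs⟩)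
  by_cases hc : ∀ x : G, x ^ 4 = 1 → IsConj x x⁻¹ → x ∈ center G
  · have h2 := hasNormalPComplement_two_of_real_central hc
    refine ⟨?_, h2.subgroup _⟩
    obtain ⟨N, hN, hN1, k, hk⟩ := h2.exists_normal
    refine hsolv N (Cfsg.Agent.S0205.result (by
      rwa [← Nat.not_even_iff_odd, even_iff_two_dvd])) ?_
    have : IsPGroup 2 (G ⧸ N) := IsPGroup.of_card hk
    have h5 : Group.IsNilpotent (G ⧸ N) := this.isNilpotent
    exact IsNilpotent.to_isSolvable
  · push Not at hc
    obtain ⟨y, hy4, hyr, hyc⟩ := hc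
    have hy4' : y ^ 2 ^ 2 = 1 := hy4
    obtain ⟨k, -, hk⟩ := (Nat.dvd_prime_pow Nat.prime_two).1 (orderOf_dvd_of_pow_eq_one hy4')
    have ha : a = 0 := by
      rw [← h y hyr hyc]
      exact Nat.factorization_eq_zero_of_not_dvd (h1 y ⟨k, hk⟩ hyr)
    have h2 : ∀ t x : G, (∃ k : ℕ, orderOf t = 2 ^ k) → Odd (orderOf x) → t * x * t⁻¹ = x⁻¹ →
        x = 1 := by
      intro t x _ hx hinv
      have hr : IsConj x x⁻¹ := isConj_iff.2 ⟨t, hinv⟩
      have h3 : ¬ 2 ∣ cidx x := by
        by_cases hxc : x ∈ center G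
        · rw [cidx_eq_one_iff.2 hxc]; decide
        · have := h x hr hxc
          rw [ha, Nat.factorization_eq_zero_iff] at this
          rcases this with h4 | h4 | h4
          · exact absurd Nat.prime_two h4
          · exact h4
          · exact absurd h4 (cidx_ne_zero x)
      have h4 := inv_eq_of_real_of_odd_cidx h3 hr
      have : x ^ 2 = 1 := by rw [sq]; nth_rewrite 1 [← h4]; simp
      rcases (Nat.dvd_prime Nat.prime_two).1 (orderOf_dvd_of_pow_eq_one this) with h5 | h5
      · exact orderOf_eq_one_iff.1 h5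
      · rw [h5] at hx; exact absurd hx (by decide)
    refine ⟨hsolv (pCore 2 G)
      (GT.CopAct.isSolvable_of_isPGroup (GT.isPGroup_pCore 2))
      (Cfsg.Agent.S0205.result (odd_index_pCore_two_of_no_inverted h2)), ?_⟩
    apply GT.Tr.hasNormalPComplement_of_isPGroup
    apply (GT.isPGroup_pCore (G := G) 2).to_le
    rw [closure_le]
    intro g hg
    obtain ⟨T, hT⟩ := (isPGroup_zpowers hg).exists_le_sylow
    rw [← sylow_two_eq_pCore_of_no_inverted h2 T]
    exact hT (mem_zpowers g)

end Cfsg.Agent.S4193
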