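import Mathlib
import Cfsg.Statements.S4194
import Cfsg.Agent.FG.RealElts
-- import your own Cfsg.Agent.* helpers here

set_option autoImplicit false
open Cfsg

namespace Cfsg.Agent.S4194

open Subgroup Cfsg.Agent.FG.CI
open scoped commutatorElement

section

variable {G : Type*} [Group G] [Finite G]

theorem weak (T T' : Sylow 2 G) (c : G)
    (h : ∀ x ∈ (T : Subgroup G), x * x = 1 → c * x * c⁻¹ ∈ (T' : Subgroup G)) :
    ∀ y ∈ (T' : Subgroup G), y * y = 1 → c⁻¹ * y * c ∈ (T : Subgroup G) := by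
  obtain ⟨g, rfl⟩ := MulAction.exists_smul_eq G T T'
  let f : {x : G // x ∈ (T : Subgroup G) ∧ x * x = 1} →
      {x : G // x ∈ (T : Subgroup G) ∧ x * x = 1} := fun x =>
    ⟨g⁻¹ * (c * x * c⁻¹) * g, GT.Tr.mem_smul_sylow.1 (h x x.2.1 x.2.2), by
      calc g⁻¹ * (c * x * c⁻¹) * g * (g⁻¹ * (c * x * c⁻¹) * g)
          = g⁻¹ * c * ((x : G) * x) * c⁻¹ * g := by group
        _ = 1 := by rw [x.2.2]; group⟩
  have hf : Function.Injective f := by
    intro a b hab
    have := congrArg Subtype.val hab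
    apply Subtype.ext
    simpa [f] using this
  intro y hy hy2
  obtain ⟨x, hx⟩ := Finite.surjective_of_injective hf ⟨g⁻¹ * y * g, GT.Tr.mem_smul_sylow.1 hy, by
    calc g⁻¹ * y * g * (g⁻¹ * y * g) = g⁻¹ * (y * y) * g := by group
      _ = 1 := by rw [hy2]; group⟩
  have h1 : g⁻¹ * (c * x * c⁻¹) * g = g⁻¹ * y * g := congrArg Subtype.val hx
  have h2 : c⁻¹ * y * c = x := by
    calc c⁻¹ * y * c = c⁻¹ * g * (g⁻¹ * y * g) * g⁻¹ * c := by group
      _ = x := by rw [← h1]; group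
  rw [h2]; exact x.2.1

variable (h : ∀ x : G, (∃ k : ℕ, orderOf x = 2 ^ k) → ¬ 2 ∣ cidx x)
include h

theorem inv_comm {T : Subgroup G} (hT : IsPGroup 2 T) {a b : G} (ha : a ∈ T) (hb : b ∈ T)
    (ha2 : a * a = 1) (hb2 : b * b = 1) : a * b = b * a := by
  have ha' : a⁻¹ = a := inv_eq_of_mul_eq_one_left ha2
  have hb' : b⁻¹ = b := inv_eq_of_mul_eq_one_left hb2
  have := inv_eq_of_real_of_odd_cidx (h _ (orderOf_of_mem hT (mul_mem ha hb)))
    (isConj_iff.2 ⟨a, by rw [mul_inv_rev, hb', ← mul_assoc, ha2, one_mul]⟩)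
  rw [← this, mul_inv_rev, ha', hb']

theorem exists_E {T : Subgroup G} (hT : IsPGroup 2 T) :
    ∃ E : Subgroup G, ∀ x, x ∈ E ↔ x ∈ T ∧ x * x = 1 :=
  ⟨{ carrier := {x | x ∈ T ∧ x * x = 1}
     mul_mem' := by
      rintro a b ⟨ha, ha2⟩ ⟨hb, hb2⟩
      refine ⟨mul_mem ha hb, ?_⟩
      nth_rewrite 1 [inv_comm h hT ha hb ha2 hb2]
      calc b * a * (a * b) = b * (a * a) * b := by group
        _ = 1 := by rw [ha2, mul_one, hb2]
     one_mem' := ⟨one_mem _, mul_one _⟩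
     inv_mem' := by
      rintro a ⟨ha, ha2⟩
      exact ⟨inv_mem ha, by rw [← mul_inv_rev, ha2, inv_one]⟩ }, fun _ => Iff.rfl⟩

theorem step1 (S : Sylow 2 G) {x e : G} (hx : x ∈ (S : Subgroup G)) (he : e ∈ (S : Subgroup G))
    (he2 : e * e = 1) : e * x = x * e := by
  by_contra hne
  obtain ⟨E, hE⟩ := exists_E h S.isPGroup'
  have hES : E ≤ S := fun y hy => ((hE y).1 hy).1
  have hxE : zpowers x ≤ normalizer (E : Set G) := by
    rw [zpowers_le]
    apply GT.Tr.mem_normalizer_of_conj_mem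
    intro a ha
    obtain ⟨ha, ha2⟩ := (hE a).1 ha
    refine (hE _).2 ⟨mul_mem (mul_mem hx ha) (inv_mem hx), ?_⟩
    calc x * a * x⁻¹ * (x * a * x⁻¹) = x * (a * a) * x⁻¹ := by group
      _ = 1 := by rw [ha2]; group
  obtain ⟨f, hf, hfN, -, -, hfc⟩ := GT.PG.exists_step (p := 2)
    (N := E ⊓ centralizer ({x} : Set G)) (M := E) (H := zpowers x) (S.isPGroup'.to_le hES)
    (S.isPGroup'.to_le (zpowers_le.2 hx)) hxE
    (GT.PG.le_normalizer_inf hxE ((zpowers_le.2 (self_mem_cent x)).trans le_normalizer))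
    (lt_of_le_of_ne inf_le_left (fun h1 => hne (mem_cent.1
      ((h1.symm ▸ (hE e).2 ⟨he, he2⟩ : e ∈ E ⊓ centralizer ({x} : Set G)).2))))
  obtain ⟨hz1, hz2⟩ := hfc x (mem_zpowers x)
  set z := ⁅f, x⁆ with hz
  obtain ⟨hfS, hf2⟩ := (hE f).1 hf
  obtain ⟨hzS, hzz⟩ := (hE z).1 hz1
  have hfz : f * z = z * f := inv_comm h S.isPGroup' hfS hzS hf2 hzz
  set C := centralizer ({x} : Set G) ⊓ centralizer ({z} : Set G) with hC
  have hfC : f ∈ normalizer (C : Set G) := by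
    apply GT.Tr.mem_normalizer_of_conj_mem
    rintro c ⟨hc1, hc2⟩
    have hc1 := mem_cent.1 hc1
    have hc2 := mem_cent.1 hc2
    have hf' : f⁻¹ = f := inv_eq_of_mul_eq_one_left hf2
    have h1 : f⁻¹ * x * f = z * x := by
      rw [hz, commutatorElement_def, hf']; group
    have h2 : f⁻¹ * z * f = z := by rw [mul_assoc, ← hfz]; group
    refine ⟨mem_cent.2 ?_, mem_cent.2 ?_⟩
    · calc f * c * f⁻¹ * x = f * (c * (f⁻¹ * x * f)) * f⁻¹ := by group
        _ = f * ((f⁻¹ * x * f) * c) * f⁻¹ := by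
          rw [h1, ← mul_assoc c, hc2, mul_assoc z, hc1, mul_assoc z]
        _ = _ := by group
    · calc f * c * f⁻¹ * z = f * (c * (f⁻¹ * z * f)) * f⁻¹ := by group
        _ = f * ((f⁻¹ * z * f) * c) * f⁻¹ := by rw [h2, hc2]
        _ = _ := by group
  obtain ⟨T, hT1, hT2⟩ := exists_sylow_ge_le (h x (orderOf_of_mem S.isPGroup' hx))
    (S.isPGroup'.to_le (zpowers_le.2 hzS)) (zpowers_le.2 hz2)
  obtain ⟨ET, hET⟩ := exists_E h T.isPGroup'
  have hETC : ET ≤ C := by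
    intro y hy
    obtain ⟨hy, hy2⟩ := (hET y).1 hy
    exact ⟨hT2 hy, mem_cent.2 (inv_comm h T.isPGroup' hy (hT1 (mem_zpowers z)) hy2 hzz)⟩
  obtain ⟨U, hU1, hU2, hU, hi⟩ := GT.Tr.exists_sylowIn_ge (S.isPGroup'.to_le (zpowers_le.2 hfS))
    (zpowers_le.2 hfC)
  obtain ⟨c, hc, hcU⟩ := GT.Tr.exists_conj_le_sylowIn hU hi
    (T.isPGroup'.to_le (fun y hy => ((hET y).1 hy).1 : ET ≤ T)) (hETC.trans le_normalizer)
  obtain ⟨T', hT'⟩ := hU.exists_le_sylow
  have h3 := weak T T' c (fun y hy hy2 => hT' (hcU y ((hET y).2 ⟨hy, hy2⟩))) f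
    (hT' (hU1 (mem_zpowers f))) hf2
  have h4 : c⁻¹ * f * c ∈ C := hETC ((hET _).2 ⟨h3, by
    calc c⁻¹ * f * c * (c⁻¹ * f * c) = c⁻¹ * (f * f) * c := by group
      _ = 1 := by rw [hf2]; group⟩)
  have h5 := GT.Tr.conj_mem_of_mem_normalizer hc h4
  have h6 : c * (c⁻¹ * f * c) * c⁻¹ = f := by group
  rw [h6] at h5
  exact hfN ⟨hf, h5.1⟩

theorem main (S : Sylow 2 G) {x s : G} (hx : x ∈ (S : Subgroup G)) (hs : s ∈ (S : Subgroup G)) :
    s * x = x * s := by
  obtain ⟨E, hE⟩ := exists_E h S.isPGroup'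
  have hES : E ≤ S := fun y hy => ((hE y).1 hy).1
  set C := centralizer (E : Set G) with hC
  have hSC : (S : Subgroup G) ≤ C := fun y hy => mem_centralizer_iff.2 fun e he =>
    step1 h S hy ((hE e).1 he).1 ((hE e).1 he).2
  have hconj : ∀ R : Subgroup G, IsPGroup 2 R → R ≤ C → ∃ k ∈ C, ∀ y ∈ R,
      k * y * k⁻¹ ∈ (S : Subgroup G) := fun R hR hRC =>
    GT.Tr.exists_conj_le_sylowIn S.isPGroup'
      (fun h1 => S.not_dvd_index (h1.trans (relIndex_dvd_index_of_le hSC))) hR hRC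
  have hnil : HasNormalPComplement 2 C := by
    apply hasNormalPComplement_two_of_real_central
    intro y hy4 hr
    have hy4' : (y : G) ^ 2 ^ 2 = 1 := by simpa using congrArg Subtype.val hy4
    obtain ⟨k, -, hk⟩ := (Nat.dvd_prime_pow Nat.prime_two).1 (orderOf_dvd_of_pow_eq_one hy4')
    have hr' : IsConj (y : G) (y : G)⁻¹ := by simpa using C.subtype.map_isConj hr
    have h1 := inv_eq_of_real_of_odd_cidx (h y ⟨k, hk⟩) hr'
    obtain ⟨g, hg, h2⟩ := hconj _ (isPGroup_zpowers ⟨k, hk⟩) (zpowers_le.2 y.2)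
    have h3 : g * y * g⁻¹ ∈ E := (hE _).2 ⟨h2 y (mem_zpowers _), by
      calc g * y * g⁻¹ * (g * y * g⁻¹) = g * (y * y) * g⁻¹ := by group
        _ = 1 := by nth_rewrite 1 [← h1]; group⟩
    have h4 : g * y * g⁻¹ = y := by
      have := mem_centralizer_iff.1 hg _ h3
      calc g * y * g⁻¹ = g⁻¹ * (g * (g * y * g⁻¹)) := by group
        _ = y := by rw [← this]; group
    rw [h4] at h3
    rw [Subgroup.mem_center_iff]
    intro c
    exact Subtype.ext (mem_centralizer_iff.1 c.2 _ h3).symm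
  obtain ⟨T, hT1, hT2⟩ := exists_sylow_mem_le_cent (orderOf_of_mem S.isPGroup' hx)
    (h x (orderOf_of_mem S.isPGroup' hx))
  have hEx : E ≤ centralizer ({x} : Set G) := fun e he =>
    mem_cent.2 (step1 h S hx ((hE e).1 he).1 ((hE e).1 he).2)
  obtain ⟨c, hc, hcT⟩ := GT.Tr.exists_conj_le_sylowIn T.isPGroup'
    (fun h1 => T.not_dvd_index (h1.trans (relIndex_dvd_index_of_le hT2)))
    (S.isPGroup'.to_le hES) hEx
  have hT'C : ((c⁻¹ • T : Sylow 2 G) : Subgroup G) ≤ C := by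
    intro t ht
    rw [GT.Tr.mem_smul_sylow, inv_inv] at ht
    refine mem_centralizer_iff.2 fun e he => ?_
    have := step1 h T ht (hcT e he) (by
      calc c * e * c⁻¹ * (c * e * c⁻¹) = c * (e * e) * c⁻¹ := by group
        _ = 1 := by rw [((hE e).1 he).2]; group)
    calc e * t = c⁻¹ * (c * e * c⁻¹ * (c * t * c⁻¹)) * c := by group
      _ = t * e := by rw [this]; group
  have hT'x : ((c⁻¹ • T : Sylow 2 G) : Subgroup G) ≤ centralizer ({x} : Set G) := by
    intro t ht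
    rw [GT.Tr.mem_smul_sylow, inv_inv] at ht
    have := mul_mem (mul_mem (inv_mem hc) (hT2 ht)) hc
    simpa [mul_assoc] using this
  have hxT' : x ∈ ((c⁻¹ • T : Sylow 2 G) : Subgroup G) := by
    rw [GT.Tr.mem_smul_sylow, inv_inv, mem_cent'.1 hc]; exact hT1
  obtain ⟨k, hk, hkS⟩ := hconj _ (c⁻¹ • T : Sylow 2 G).isPGroup' hT'C
  have hkT : k • c⁻¹ • T = S := by
    apply Sylow.ext
    refine (k • c⁻¹ • T).is_maximal' S.isPGroup' ?_ |>.symm
    intro y hy
    have := hkS _ (GT.Tr.mem_smul_sylow.1 hy)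
    simpa [mul_assoc] using this
  obtain ⟨u, hu, hu2⟩ := hnil.exists_conj_eq (S.subtype hSC) ⟨k, hk⟩
  have h5 : k * x * k⁻¹ = u * x * (u : G)⁻¹ := by
    have := hu2 ⟨x, hSC hx⟩ hx (hkS x hxT')
    simpa using congrArg Subtype.val this
  have hu' : (u : G) ∈ (S : Subgroup G) := hu
  have h6 : (u : G) * s * (u : G)⁻¹ ∈ ((k • c⁻¹ • T : Sylow 2 G) : Subgroup G) := by
    rw [hkT]; exact mul_mem (mul_mem hu' hs) (inv_mem hu')
  have h7 := hT'x (GT.Tr.mem_smul_sylow.1 h6)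
  rw [← mem_cent_conj, h5, mem_cent_conj] at h7
  have h8 : (u : G)⁻¹ * ((u : G) * s * (u : G)⁻¹) * u = s := by group
  rw [h8] at h7
  exact mem_cent.1 h7

end


/-- A finite group G has commutative Sylow 2-subgroups if and only if every 2-element of G (element of order a power of 2) is 2-central, that is, its centralizer contains a Sylow 2-subgroup of G. -/
theorem result {G : Type*} [Group G] [Finite G] (P : Sylow 2 G) :
    IsMulCommutative (P : Subgroup G) ↔ ∀ x : G, (∃ k : ℕ, orderOf x = 2 ^ k) → (∃ Q : Sylow 2 G, (Q : Subgroup G) ≤ Subgroup.centralizer ({x} : Set G)) := by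
  constructor
  · intro hc x hx
    obtain ⟨g, hg⟩ := exists_conj_mem_sylow P hx
    exact (not_dvd_index_iff _).1 ((not_dvd_cidx_iff_conj P x).2
      ⟨g, GT.PG.isMulCommutative_iff_le_centralizer.1 hc hg⟩)
  · intro h
    exact GT.PG.isMulCommutative_iff_forall.2 fun a ha b hb =>
      main (fun x hx => (not_dvd_index_iff _).2 (h x hx)) P hb ha

end Cfsg.Agent.S4194
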