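import Mathlib
import Cfsg.Statements.S4196
import Cfsg.Agent.FG.RealElts
-- import your own Cfsg.Agent.* helpers here

set_option autoImplicit false
open Cfsg

namespace Cfsg.Agent.S4196

open Subgroup Cfsg.Agent.FG.CI


/-- A finite group G has elementary abelian Sylow 2-subgroups (commutative with every element squaring to the identity) if and only if every 2-element of G has a Sylow 2-subgroup in its centralizer and is conjugate to its inverse. -/
theorem result {G : Type*} [Group G] [Finite G] (P : Sylow 2 G) :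
    (IsMulCommutative (P : Subgroup G) ∧ ∀ x ∈ (P : Subgroup G), x ^ 2 = 1) ↔
      ∀ x : G, (∃ k : ℕ, orderOf x = 2 ^ k) → (∃ Q : Sylow 2 G, (Q : Subgroup G) ≤ Subgroup.centralizer ({x} : Set G)) ∧ IsConj x x⁻¹ := by
  constructor
  · rintro ⟨hc, h2⟩ x hx
    obtain ⟨g, hg⟩ := exists_conj_mem_sylow P hx
    refine ⟨(not_dvd_index_iff _).1 ((not_dvd_cidx_iff_conj P x).2
      ⟨g, GT.PG.isMulCommutative_iff_le_centralizer.1 hc hg⟩), ?_⟩
    have h3 := h2 _ hg
    rw [conj_pow, mul_inv_eq_one, mul_eq_left] at h3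
    have : x⁻¹ = x := by rw [inv_eq_iff_mul_eq_one, ← sq, h3]
    rw [this]
  · intro h
    have h1 : ∀ x ∈ (P : Subgroup G), x⁻¹ = x := by
      intro x hx
      obtain ⟨⟨Q, hQ⟩, hr⟩ := h x (orderOf_of_mem P.isPGroup' hx)
      exact inv_eq_of_real_of_odd_cidx (not_dvd_cidx_of_sylow_le Q hQ) hr
    refine ⟨GT.PG.isMulCommutative_iff_forall.2 fun a ha b hb => ?_, fun x hx => ?_⟩
    · rw [← h1 _ (mul_mem ha hb), mul_inv_rev, h1 a ha, h1 b hb]
    · rw [sq]; nth_rewrite 1 [← h1 x hx]; simp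

end Cfsg.Agent.S4196
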