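import Mathlib
import Cfsg.Statements.S4211
import Cfsg.Agent.GT.PGroupCyclicMax
import Cfsg.Agent.GT.PGroupElemAb
import Cfsg.Agent.GT.PGroupMaxTwo
import Cfsg.Agent.GT.Fitting
import Cfsg.Agent.GT.Conj
import Cfsg.Agent.FG.H93Cyc

set_option autoImplicit false
open Cfsg

namespace Cfsg.Agent.S4211

open Subgroup Cfsg.Agent.GT
open scoped commutatorElement

variable {G : Type*} [Group G] [Finite G] (hn : ∀ H : Subgroup G, H.Normal)
include hn

omit [Finite G] in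
theorem comm_mem_left (x y : G) : ⁅x, y⁆ ∈ zpowers x := by
  rw [commutatorElement_def, mul_assoc, mul_assoc, ← mul_assoc y]
  exact mul_mem (mem_zpowers x) ((hn _).conj_mem _ (inv_mem (mem_zpowers x)) y)

omit [Finite G] in
theorem comm_mem_right (x y : G) : ⁅x, y⁆ ∈ zpowers y := by
  rw [← commutatorElement_inv]
  exact inv_mem (comm_mem_left hn y x)

theorem order_aux {x y : G} (hc : ¬ Commute x y)
    (hmin : ∀ u : G, orderOf u < orderOf x → Commute u y) :
    (orderOf ⁅x, y⁆).Prime ∧ ∃ a, orderOf x = orderOf ⁅x, y⁆ ^ (a + 2) := by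
  have h1 : ⁅x, y⁆ ≠ 1 := fun h => hc (commutatorElement_eq_one_iff_commute.1 h)
  have hx : Commute x ⁅x, y⁆ := by
    obtain ⟨k, hk⟩ := comm_mem_left hn x y
    rw [← hk]
    exact Commute.self_zpow x k
  have h2 : ∀ q : ℕ, q.Prime → q ∣ orderOf x → orderOf ⁅x, y⁆ = q := fun q hq hd => by
    have := Fact.mk hq
    refine orderOf_eq_prime ?_ h1
    rw [← PG.commutator_pow_left_of_commute hx, commutatorElement_eq_one_iff_commute]
    refine hmin _ ?_
    rw [orderOf_pow_of_dvd hq.ne_zero hd]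
    exact Nat.div_lt_self (orderOf_pos x) hq.one_lt
  have h3 : orderOf x ≠ 1 := fun h => hc (by rw [orderOf_eq_one_iff.1 h]; exact Commute.one_left y)
  obtain ⟨p, hp, hpx⟩ := Nat.exists_prime_and_dvd h3
  rw [h2 p hp hpx]
  refine ⟨hp, ?_⟩
  obtain ⟨a, ha⟩ := (isPiNum_singleton_iff hp (orderOf_pos x).ne').1
    fun q hq hd => (h2 q hq hd).symm.trans (h2 p hp hpx)
  rcases a with _ | _ | a
  · exact absurd ha h3
  · exfalso
    have h4 : zpowers ⁅x, y⁆ = zpowers x := PG.eq_of_le_of_card_le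
      (zpowers_le.2 (comm_mem_left hn x y)) (by simp [ha, h2 p hp hpx])
    obtain ⟨k, hk⟩ := zpowers_le.2 (comm_mem_right hn x y) (h4 ▸ mem_zpowers x)
    exact hc (by rw [← hk]; exact Commute.zpow_self y k)
  · exact ⟨a, ha⟩

theorem exists_pair (hna : ¬ IsMulCommutative G) :
    ∃ x y : G, orderOf x = 4 ∧ y ^ 2 = x ^ 2 ∧ y * x * y⁻¹ = x⁻¹ := by
  classical
  have hex : ∃ n, ∃ x y : G, ¬ Commute x y ∧ orderOf x + orderOf y = n := by
    by_contra h
    push Not at h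
    exact hna ⟨⟨fun x y => by_contra fun hc => h _ x y hc rfl⟩⟩
  obtain ⟨x, y, hc, hs, hle⟩ : ∃ x y : G, ¬ Commute x y ∧ orderOf x + orderOf y = Nat.find hex ∧
      orderOf y ≤ orderOf x := by
    obtain ⟨x, y, hc, hs⟩ := Nat.find_spec hex
    rcases le_total (orderOf y) (orderOf x) with h | h
    exacts [⟨x, y, hc, hs, h⟩, ⟨y, x, fun h => hc h.symm, by omega, h⟩]
  have hmin : ∀ u v : G, orderOf u + orderOf v < orderOf x + orderOf y → Commute u v :=
    fun u v h => by_contra fun h1 => Nat.find_min hex (hs ▸ h) ⟨u, v, h1, rfl⟩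
  obtain ⟨hp, a, ha⟩ := order_aux hn hc fun u hu => hmin u y (by omega)
  obtain ⟨-, b, hb⟩ := order_aux hn (fun h => hc h.symm) fun u hu => hmin u x (by omega)
  rw [← commutatorElement_inv, orderOf_inv] at hb
  obtain ⟨p, hpc⟩ : ∃ p, orderOf ⁅x, y⁆ = p := ⟨_, rfl⟩
  rw [hpc] at hp ha hb
  have hba : b ≤ a := by
    rw [ha, hb, Nat.pow_le_pow_iff_right hp.one_lt] at hle
    omega
  have key : ∀ {z : G} {n : ℕ}, orderOf z = p ^ (n + 2) → ⁅x, y⁆ ∈ zpowers z →
      zpowers (z ^ p ^ (n + 1)) = zpowers ⁅x, y⁆ := fun {z n} h1 h2 =>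
    FG.H93.eq_of_card_eq_of_isCyclic (C := zpowers z) (zpowers_le.2 (npow_mem_zpowers _ _))
      (zpowers_le.2 h2) (by
        rw [Nat.card_zpowers, Nat.card_zpowers, PG.orderOf_pow_prime_pow hp.pos h1 (by omega), hpc]
        simp)
  have k1 := key ha (comm_mem_left hn x y)
  have k2 := key hb (comm_mem_right hn x y)
  obtain ⟨k, hk⟩ : (y ^ p ^ (b + 1))⁻¹ ∈ Submonoid.powers (x ^ p ^ (a + 1)) := by
    rw [mem_powers_iff_mem_zpowers, k1, ← k2]
    exact inv_mem (mem_zpowers _)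
  obtain ⟨d, rfl⟩ := Nat.exists_eq_add_of_le hba
  have hx : Commute x ⁅x, y⁆ := by
    obtain ⟨k, hk⟩ := comm_mem_left hn x y
    rw [← hk]
    exact Commute.self_zpow x k
  have hy : Commute y ⁅x, y⁆ := by
    obtain ⟨k, hk⟩ := comm_mem_right hn x y
    rw [← hk]
    exact Commute.self_zpow y k
  have h1 : ¬ p ∣ p ^ d * k * (p ^ (b + 1)).choose 2 := by
    rintro ⟨e, he⟩
    have h2 : ⁅y, x ^ (p ^ d * k)⁆ = (⁅x, y⁆ ^ (p ^ d * k))⁻¹ := by
      rw [← commutatorElement_inv, PG.commutator_pow_left_of_commute hx]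
    have h3 : (x ^ (p ^ d * k) * y) ^ p ^ (b + 1) = 1 := by
      rw [PG.mul_pow_eq_of_swap (c := (⁅x, y⁆ ^ (p ^ d * k))⁻¹) ?_
        ((hx.symm.pow_pow _ _).inv_left) (hy.symm.pow_left _).inv_left, inv_pow, ← pow_mul,
        ← pow_mul, he, pow_mul ⁅x, y⁆, ← hpc, pow_orderOf_eq_one, hpc, one_pow, inv_one, mul_one,
        show p ^ d * k * p ^ (b + 1) = p ^ (b + d + 1) * k by ring, pow_mul,
        show (x ^ p ^ (b + d + 1)) ^ k = _ from hk, inv_mul_cancel]
      rw [← ((hx.pow_pow _ _).mul_left (hy.pow_right _)).inv_right.symm.eq, ← h2,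
        commutatorElement_def]
      group
    have h4 := orderOf_le_of_pow_eq_one (pow_pos hp.pos _) h3
    have h5 : p ^ (b + 1) < p ^ (b + 2) := Nat.pow_lt_pow_right hp.one_lt (by omega)
    have h6 := (Commute.self_pow x (p ^ d * k)).inv_right.mul_right (hmin x _ (by omega :
      orderOf x + orderOf (x ^ (p ^ d * k) * y) < _))
    rw [inv_mul_cancel_left] at h6
    exact hc h6
  have h2 : p = 2 := by
    by_contra h
    exact h1 (Dvd.dvd.mul_left ((dvd_pow_self p (by omega)).trans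
      (PG.choose_two_dvd_of_odd (hp.odd_of_ne_two h).pow)) _)
  subst h2
  have h3 : d = 0 := by
    by_contra h
    exact h1 (((dvd_pow_self 2 h).mul_right _).mul_right _)
  have h4 : b = 0 := by
    by_contra h
    obtain ⟨n, rfl⟩ := Nat.exists_eq_succ_of_ne_zero h
    refine h1 (Dvd.dvd.mul_left ?_ _)
    rw [Nat.choose_two_right, show 2 ^ (n.succ + 1) * (2 ^ (n.succ + 1) - 1) =
      2 * (2 * (2 ^ n * (2 ^ (n.succ + 1) - 1))) by simp only [Nat.succ_eq_add_one]; ring,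
      Nat.mul_div_cancel_left _ two_pos]
    exact Dvd.intro _ rfl
  subst h3 h4
  have h5 : ⁅x, y⁆ ^ 2 = 1 := hpc ▸ pow_orderOf_eq_one _
  have h6 : ⁅x, y⁆ ≠ 1 := fun h => hc (commutatorElement_eq_one_iff_commute.1 h)
  have h7 := (PG.eq_one_or_eq_of_sq_eq_one (m := 1) ha (comm_mem_left hn x y) h5).resolve_left h6
  have h8 := (PG.eq_one_or_eq_of_sq_eq_one (m := 1) hb (comm_mem_right hn x y) h5).resolve_left h6
  refine ⟨x, y, ha, h8.symm.trans h7, ?_⟩
  rw [← inv_inj, inv_inv, ← mul_right_inj x, ← sq, ← pow_one 2, ← h7, commutatorElement_def]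
  group

theorem conj_cases {w : G} (hw : w ^ 4 = 1) (g : G) : g * w * g⁻¹ = w ∨ g * w * g⁻¹ = w⁻¹ := by
  obtain ⟨i, hi⟩ := mem_powers_iff_mem_zpowers.2 ((hn _).conj_mem w (mem_zpowers w) g)
  have h1 : g * w * g⁻¹ = w ^ (i % 4) := by
    rw [← pow_eq_pow_mod i hw]; exact hi.symm
  have h2 : i % 4 < 4 := Nat.mod_lt _ (by norm_num)
  interval_cases i % 4
  · rw [pow_zero, conj_eq_one_iff] at h1
    simp [h1]
  · exact Or.inl (h1.trans (pow_one w))
  · have h3 : g * w ^ 2 * g⁻¹ = 1 := by rw [← conj_pow, h1, ← pow_mul, hw]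
    rw [conj_eq_one_iff] at h3
    rw [h3, conj_eq_one_iff] at h1
    simp [h1]
  · exact Or.inr (h1.trans (eq_inv_of_mul_eq_one_left (by rw [← pow_succ, hw])))

omit hn [Finite G]

/-- A finite non-abelian group in which every subgroup is normal is the internal direct product of a subgroup isomorphic to the quaternion group of order `8`, an elementary abelian `2`-subgroup and an abelian subgroup of odd order. -/
theorem result {G : Type*} [Group G] [Finite G] (hna : ¬ IsMulCommutative G) (hn : ∀ H : Subgroup G, H.Normal) : ∃ Q E A : Subgroup G, Nonempty (Q ≃* QuaternionGroup 2) ∧ Cfsg.IsElementaryAbelian 2 E ∧ IsMulCommutative A ∧ Odd (Nat.card A) ∧ E ⊓ A = ⊥ ∧ Q ⊓ (E ⊔ A) = ⊥ ∧ Q ⊔ (E ⊔ A) = ⊤ := by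
  have : Group.IsNilpotent G := isNilpotent_iff_sylow_normal.2 fun _ _ _ => hn _
  obtain ⟨x, y, hx, hy, hxy⟩ := exists_pair hn hna
  have hx4 : x ^ 4 = 1 := hx ▸ pow_orderOf_eq_one x
  have hx2 : x ^ 2 ≠ 1 := pow_ne_one_of_lt_orderOf two_ne_zero (by omega)
  have hy4 : y ^ 4 = 1 := by rw [show 4 = 2 * 2 from rfl, pow_mul, hy, ← pow_mul, hx4]
  have hnc : x * y ≠ y * x := fun h => hx2 (by
    rw [← h, mul_inv_cancel_right] at hxy
    rw [sq]; nth_rw 1 [hxy]; exact inv_mul_cancel x)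
  have hyx : x * y * x⁻¹ = y⁻¹ := (conj_cases hn hy4 x).resolve_left
    fun h => hnc (mul_inv_eq_iff_eq_mul.1 h)
  have hAo : Odd (Nat.card (pPrimeCore 2 G)) := odd_card_oddCore
  have hA : IsMulCommutative (pPrimeCore 2 G) := by
    by_contra h
    obtain ⟨u, -, hu, -⟩ := exists_pair (G := pPrimeCore 2 G) (fun H => by
      rw [← subgroupOf_map_subtype_self _ H]
      exact (hn _).subgroupOf _) h
    exact absurd (hAo.of_dvd_nat (hu ▸ orderOf_dvd_natCard u)) (by decide)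
  have hAZ : pPrimeCore 2 G ≤ center G := by
    rw [← centralizer_top, ← pCore_sup_pPrimeCore 2, centralizer_sup]
    exact le_inf pPrimeCore_le_centralizer_pCore (PG.isMulCommutative_iff_le_centralizer.1 hA)
  obtain ⟨C, hC⟩ : ∃ C : Subgroup G, C = centralizer {x} ⊓ centralizer {y} := ⟨_, rfl⟩
  have hmC : ∀ {g : G}, g ∈ C ↔ g * x = x * g ∧ g * y = y * g := by
    intro g
    rw [hC, mem_inf, mem_centralizer_singleton_iff, mem_centralizer_singleton_iff]
  have hAC : pPrimeCore 2 G ≤ C := fun g hg =>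
    hmC.2 ⟨(mem_center_iff.1 (hAZ hg) x).symm, (mem_center_iff.1 (hAZ hg) y).symm⟩
  have h4 : ∀ g ∈ C, g ^ 4 = 1 → g ^ 2 = 1 := by
    intro g hg h
    obtain ⟨h1, h2⟩ := hmC.1 hg
    have h3 : y * (x * g) * y⁻¹ = x⁻¹ * g := by
      rw [← hxy, mul_inv_eq_iff_eq_mul, mul_assoc _ g, h2]
      group
    rcases conj_cases hn (w := x * g) (by rw [Commute.mul_pow h1.symm, hx4, h, mul_one]) y with
      h5 | h5
    · rw [h3, mul_left_inj] at h5
      exact absurd (by rw [sq]; nth_rw 1 [← h5]; exact inv_mul_cancel x) hx2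
    · rw [h3, ← h1, mul_inv_rev, mul_right_inj] at h5
      rw [sq]; nth_rw 1 [h5]; exact inv_mul_cancel g
  have h2 : ∀ g ∈ pCore 2 G ⊓ C, g ^ 2 = 1 := by
    rintro g ⟨hg, hgC⟩
    obtain ⟨k, hk⟩ := isPGroup_pCore 2 ⟨g, hg⟩
    have hk' : g ^ 2 ^ k = 1 := congrArg Subtype.val hk
    clear hk
    induction k with
    | zero => rw [pow_zero, pow_one] at hk'; rw [hk', one_pow]
    | succ k ih =>
      rcases k with _ | k
      · exact hk'
      · refine ih ?_
        rw [pow_succ, pow_mul]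
        refine h4 _ (pow_mem hgC _) ?_
        rw [← pow_mul, ← hk']
        congr 1
        ring
  have hE0 : IsElementaryAbelian 2 (pCore 2 G ⊓ C) := by
    refine ⟨PG.isMulCommutative_iff_forall.2 fun a ha b hb => ?_, h2⟩
    have h5 : ∀ g ∈ pCore 2 G ⊓ C, g⁻¹ = g := fun g hg =>
      inv_eq_of_mul_eq_one_left (by rw [← sq, h2 g hg])
    rw [← h5 _ (mul_mem ha hb), mul_inv_rev, h5 a ha, h5 b hb]
  have hc : x ^ 2 ∈ pCore 2 G ⊓ C := ⟨le_pCore_of_isNilpotent (IsElementaryAbelian.zpowers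
    (by rw [← pow_mul, hx4])).isPGroup (mem_zpowers _), hmC.2 ⟨Commute.pow_self x 2,
      hy ▸ Commute.pow_self y 2⟩⟩
  obtain ⟨E, hE, hE1, hE2⟩ := hE0.exists_compl (zpowers_le.2 hc)
  have hyx' : y ∉ zpowers x := by
    rintro ⟨k, rfl⟩
    exact hnc (Commute.self_zpow x k)
  have hi : (zpowers x).relIndex (zpowers x ⊔ zpowers y) = 2 :=
    PG.relIndex_sup_zpowers Nat.prime_two (le_normalizer_of_normal (mem_top y)) hyx'
      (hy ▸ npow_mem_zpowers x 2)
  have hxQ : x ∈ zpowers x ⊔ zpowers y := mem_sup_left (mem_zpowers x)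
  have hyQ : y ∈ zpowers x ⊔ zpowers y := mem_sup_right (mem_zpowers y)
  have hzp : zpowers (⟨x, hxQ⟩ : ↥(zpowers x ⊔ zpowers y)) = (zpowers x).subgroupOf _ := by
    rw [← subgroupOf_map_subtype_self _ (zpowers _), MonoidHom.map_zpowers]
    rfl
  obtain ⟨e, -⟩ := PG.exists_mulEquiv_quaternion (a := (⟨x, hxQ⟩ : ↥(zpowers x ⊔ zpowers y)))
    (b := ⟨y, hyQ⟩) (n := 2) (by rw [Subgroup.orderOf_mk, hx]) (by rw [hzp]; exact hi)
    (by rw [hzp]; exact hyx') (Subtype.ext hxy) (Subtype.ext hy)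
  have hodd : ∀ g ∈ pPrimeCore 2 G, g ^ 2 = 1 → g = 1 := fun g hg h => by
    rw [← orderOf_eq_one_iff]
    exact Nat.eq_one_of_dvd_coprimes (coprime_card_pPrimeCore 2) (orderOf_dvd_natCard _ hg)
      (orderOf_dvd_of_pow_eq_one h)
  refine ⟨zpowers x ⊔ zpowers y, E, pPrimeCore 2 G, ⟨e⟩, hE0.mono hE, hA, hAo, ?_, ?_, ?_⟩
  · exact eq_bot_iff.2 fun g hg => hodd g hg.2 (h2 g (hE hg.1))
  · rw [eq_bot_iff]
    rintro g ⟨hgQ, hg⟩
    have hgC : g ∈ C := sup_le (hE.trans inf_le_right) hAC hg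
    have h5 : g ∈ zpowers x := by
      by_contra h
      have h6 := PG.sup_zpowers_eq_of_relIndex_prime Nat.prime_two le_sup_left hi hgQ h
      have h7 : zpowers x ⊔ zpowers g ≤ centralizer {x} := sup_le
        (zpowers_le.2 (mem_centralizer_singleton_iff.2 rfl)) (zpowers_le.2 (hC ▸ hgC).1)
      exact hnc (mem_centralizer_singleton_iff.1 (h7 (h6 ▸ hyQ))).symm
    have h6 : g ^ 2 = 1 := by
      refine h4 g hgC ?_
      rw [← hx, ← Nat.card_zpowers, ← orderOf_dvd_iff_pow_eq_one]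
      exact orderOf_dvd_natCard _ h5
    rcases PG.eq_one_or_eq_of_sq_eq_one (m := 1) hx h5 h6 with h7 | h7
    · exact h7
    obtain ⟨u, hu, a, ha, hua⟩ := mem_sup_of_normal_right.1 hg
    have h8 : a ∈ pCore 2 G ⊓ C := by
      rw [eq_inv_mul_iff_mul_eq.2 hua, h7]
      exact mul_mem (inv_mem (hE hu)) hc
    rw [hodd a ha (h2 a h8), mul_one] at hua
    rw [← hE1]
    exact ⟨h7 ▸ mem_zpowers _, hua ▸ hu⟩
  · have h5 : C ≤ (zpowers x ⊔ zpowers y) ⊔ (E ⊔ pPrimeCore 2 G) := by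
      intro g hg
      obtain ⟨s, hs, a, ha, rfl⟩ := mem_sup_of_normal_right.1
        ((pCore_sup_pPrimeCore (G := G) 2).ge (mem_top g))
      refine mul_mem ?_ (mem_sup_right (mem_sup_right ha))
      have h6 : s ∈ zpowers (x ^ 2) ⊔ E := hE2 ▸ ⟨hs, (mul_mem_cancel_right (hAC ha)).1 hg⟩
      exact sup_le_sup (zpowers_le.2 (pow_mem hxQ 2)) le_sup_left h6
    have h6 : ∀ g : G, g * x * g⁻¹ = x → g ∈ (zpowers x ⊔ zpowers y) ⊔ (E ⊔ pPrimeCore 2 G) := by
      intro g hg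
      rcases conj_cases hn hy4 g with h | h
      · exact h5 (hmC.2 ⟨mul_inv_eq_iff_eq_mul.1 hg, mul_inv_eq_iff_eq_mul.1 h⟩)
      · refine (mul_mem_cancel_left (mem_sup_left hxQ)).1 (h5 (hmC.2 ⟨?_, ?_⟩))
        · rw [mul_assoc, mul_inv_eq_iff_eq_mul.1 hg]
        · rw [← mul_inv_eq_iff_eq_mul]
          calc x * g * y * (x * g)⁻¹ = x * (g * y * g⁻¹) * x⁻¹ := by group
            _ = (x * y * x⁻¹)⁻¹ := by rw [h]; group
            _ = y := by rw [hyx, inv_inv]
    rw [eq_top_iff]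
    intro g _
    rcases conj_cases hn hx4 g with h | h
    · exact h6 g h
    · refine (mul_mem_cancel_left (mem_sup_left hyQ)).1 (h6 _ ?_)
      calc y * g * x * (y * g)⁻¹ = y * (g * x * g⁻¹) * y⁻¹ := by group
        _ = (y * x * y⁻¹)⁻¹ := by rw [h]; group
        _ = x := by rw [hxy, inv_inv]

end Cfsg.Agent.S4211
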