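import Cfsg.Statements.S4231
import Cfsg.Agent.Sym.Sylow
import Cfsg.Agent.Sym.Aut

set_option autoImplicit false
open Cfsg

namespace Cfsg.Agent.S4231

open Subgroup Equiv Equiv.Perm Cfsg.Agent.Sym

theorem aux (n : ℕ) (hn : 5 ≤ n) (G : Subgroup (MulAut (alternatingGroup (Fin n))))
    (hG : (MulAut.conj : alternatingGroup (Fin n) →* MulAut (alternatingGroup (Fin n))).range ≤ G)
    (p q : ℕ) [hp : Fact p.Prime] [hq : Fact q.Prime] (hpq : p < q)
    (h : ∀ g : G, orderOf g ≠ p * q) (Q : Sylow q G) : IsMulCommutative (Q : Subgroup G) := by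
  have h2 := hp.out.two_le
  have hodd := hq.out.odd_of_ne_two (by omega)
  have hc : Function.Injective (MulAut.conj : alternatingGroup (Fin n) →* MulAut _) :=
    fun a b e => Subtype.ext (conjNormal_alternating_injective (by simp; omega)
      (MulEquiv.ext fun x => Subtype.ext (congrArg Subtype.val (DFunLike.congr_fun e x))))
  by_cases hn' : n < q ^ 2
  · have key : ∀ g : Q, (g.1.1 : MulAut _) ∈
        (MulAut.conj : alternatingGroup (Fin n) →* MulAut _).range := fun g => by
      obtain ⟨k, hk⟩ := IsPGroup.iff_orderOf.1 Q.isPGroup' g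
      obtain ⟨m, hm⟩ := exists_pow_eq_self_of_coprime (x := g) (n := 4)
        (hk ▸ Nat.Coprime.pow 2 k (Nat.coprime_two_left.2 hodd))
      rw [← hm]
      exact pow_mem (aut_alternating_pow_four_mem (by simp; omega) _) m
    exact isMulCommutative_of_card_lt_sq Q.isPGroup' ((alternatingGroup (Fin n)).subtype.comp
      ((MonoidHom.ofInjective hc).symm.toMonoidHom.comp
        ((G.subtype.comp (Q : Subgroup G).subtype).codRestrict _ key)))
      (Subtype.val_injective.comp ((MonoidHom.ofInjective hc).symm.injective.comp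
        fun a b e => Subtype.ext (Subtype.ext (Subtype.ext_iff.1 e :)))) (by simpa using hn')
  · obtain ⟨g, hg⟩ : p * q ∈ Set.range (orderOf : alternatingGroup (Fin n) → ℕ) := by
      have h3 := (Nat.coprime_primes hp.out hq.out).2 hpq.ne
      rw [mem_range_orderOf_alternating_iff, Fintype.card_fin]
      rcases hp.out.eq_two_or_odd' with rfl | hp2
      · exact ⟨{2, 2, q}, by simp; nlinarith, by simp; omega, by simp [parity_simps, hodd],
          by simp [lcm_eq_nat_lcm, ← Nat.lcm_assoc, h3.lcm_eq_mul]⟩
      · exact ⟨{p, q}, by simp; nlinarith, by simp; omega, by simp; grind,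
          by simp [lcm_eq_nat_lcm, h3.lcm_eq_mul]⟩
    exact absurd (by rw [← orderOf_coe, orderOf_injective _ hc, hg]) (h ⟨_, hG ⟨g, rfl⟩⟩)

/-- Let n ≥ 5 and let G be a group of automorphisms of the alternating group of degree n containing all inner automorphisms. If p ≠ q are primes and G has no element of order pq, then every Sylow p-subgroup of G is abelian or every Sylow q-subgroup of G is abelian. -/
theorem result (n : ℕ) (hn : 5 ≤ n) (G : Subgroup (MulAut (alternatingGroup (Fin n))))
    (hG : (MulAut.conj : alternatingGroup (Fin n) →* MulAut (alternatingGroup (Fin n))).range ≤ G)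
    (p q : ℕ) [Fact p.Prime] [Fact q.Prime] (hpq : p ≠ q) (h : ∀ g : G, orderOf g ≠ p * q) :
    (∀ P : Sylow p G, IsMulCommutative (P : Subgroup G)) ∨ (∀ Q : Sylow q G, IsMulCommutative (Q : Subgroup G)) := by
  rcases hpq.lt_or_gt with hlt | hlt
  · exact Or.inr (aux n hn G hG p q hlt h)
  · exact Or.inl (aux n hn G hG q p hlt (mul_comm p q ▸ h))

end Cfsg.Agent.S4231
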