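import Mathlib
import Cfsg.Statements.S4234
import Cfsg.Agent.Inv.PrimeSylow
import Cfsg.Agent.Inv.BrauerFowler
import Cfsg.Agent.Cl.PSL2Pairs
import Cfsg.Agent.Cl.PSL2Solv
import Cfsg.Agent.Cl.PSL2Max
import Cfsg.Agent.GT.HallTools
-- import your own Cfsg.Agent.* helpers here

set_option autoImplicit false
open Cfsg

namespace Cfsg.Agent.S4234

open Subgroup Cfsg.Agent.GT Cfsg.Agent.Inv

section simple

variable {G : Type*} [Group G] [Finite G] [IsSimpleGroup G] (hG : Nat.card G = 1092)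
include hG

theorem card_le {K : Subgroup G} (hK : K ≠ ⊤) : Nat.card K ≤ 84 := by
  have h1 := card_dvd_factorial_index hK
  have h2 : 13 ≤ K.index :=
    (Nat.Prime.dvd_factorial (by norm_num)).1 (dvd_trans (by rw [hG]; norm_num) h1)
  have h3 := K.card_mul_index
  rw [hG] at h3
  nlinarith

omit [Finite G] in
theorem norm_ne_top {H : Subgroup G} (h0 : H ≠ ⊥) (h1 : H ≠ ⊤) : normalizer (H : Set G) ≠ ⊤ :=
  fun h => ((normalizer_eq_top_iff.1 h).eq_bot_or_eq_top).elim h0 h1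

theorem le_norm {K : Subgroup G} (hK : K ≠ ⊤) {x : G} (hx : x ∈ K) {p : ℕ} (hp : p = 13 ∨ p = 7)
    (ho : orderOf x = p) : K ≤ normalizer (zpowers x : Set G) := by
  have : Fact p.Prime := ⟨by rcases hp with rfl | rfl <;> norm_num⟩
  have h1 := PS.relIndex_normalizer_modEq (by rw [hG]; rcases hp with rfl | rfl <;> norm_num) ho hx
  have h2 := HT.card_inf_mul_relIndex (normalizer (zpowers x : Set G)) K
  obtain ⟨j, hj⟩ : p ∣ Nat.card ↥(normalizer (zpowers x : Set G) ⊓ K) := by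
    rw [← ho]
    exact orderOf_dvd_natCard _ (mem_inf.2 ⟨le_normalizer (mem_zpowers x), hx⟩)
  have h3 := card_le hG hK
  have h4 := K.card_subgroup_dvd_card
  have h5 : 0 < Nat.card ↥(normalizer (zpowers x : Set G) ⊓ K) := Nat.card_pos
  rw [← relIndex_eq_one]
  rw [← h2, hj] at h3 h4
  rw [hj] at h5
  have h6 : 0 < j := Nat.pos_of_ne_zero (by rintro rfl; simp at h5)
  have h7 := (Dvd.intro_left _ rfl).trans h4
  rw [hG] at h7
  generalize (normalizer (zpowers x : Set G)).relIndex K = r at *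
  have h8 : p * r ≤ 84 := le_trans (Nat.mul_le_mul_right r (Nat.le_mul_of_pos_right p h6)) h3
  rcases hp with rfl | rfl
  · unfold Nat.ModEq at h1; omega
  · unfold Nat.ModEq at h1
    have h9 : r ≠ 8 := by rintro rfl; omega
    omega

theorem data13 {x : G} (ho : orderOf x = 13) :
    Nat.card (normalizer (zpowers x : Set G)) = 78 ∧ ∃ v, v ≤ 3 ∧
      Nat.card (centralizer ({x} : Set G)) = v * 13 := by
  have : Fact (Nat.Prime 13) := ⟨by norm_num⟩
  obtain ⟨n, e, v, -, h1, h2, h3, h4, h5, h6, h7⟩ :=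
    PS.prime_data (p := 13) (by rw [hG]; norm_num) (by rw [hG]; norm_num) ho
  rw [hG] at h3
  have h8 : n * (e * v) = 84 := by nlinarith
  have h9 : n ∣ 84 := Dvd.intro _ h8
  have h10 := Nat.le_of_dvd (by norm_num) h9
  obtain rfl : n = 14 := by
    interval_cases n <;> omega
  exact ⟨by omega, v, by nlinarith, h1⟩

theorem data7 {x : G} (ho : orderOf x = 7) :
    Nat.card (normalizer (zpowers x : Set G)) = 14 ∧ Nat.card (centralizer ({x} : Set G)) = 7 := by
  have : Fact (Nat.Prime 7) := ⟨by norm_num⟩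
  obtain ⟨n, e, v, -, h1, h2, h3, h4, h5, h6, h7⟩ :=
    PS.prime_data (p := 7) (by rw [hG]; norm_num) (by rw [hG]; norm_num) ho
  rw [hG] at h3
  have h8 : n * (e * v) = 156 := by nlinarith
  have h9 : n ∣ 156 := Dvd.intro _ h8
  have h10 := Nat.le_of_dvd (by norm_num) h9
  obtain rfl : n = 78 := by
    interval_cases n <;> omega
  have h11 : e * v = 2 := by omega
  have h12 : v = 1 := by
    have : v ≤ 1 := by nlinarith
    interval_cases v <;> omega
  exact ⟨by omega, by omega⟩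

theorem dvd78 {K : Subgroup G} (hK : K ≠ ⊤) (h : 13 ∣ Nat.card K) : Nat.card K ∣ 78 := by
  have : Fact (Nat.Prime 13) := ⟨by norm_num⟩
  obtain ⟨x, hx⟩ := exists_prime_orderOf_dvd_card' 13 h
  have ho := (orderOf_coe x).trans hx
  exact (data13 hG ho).1 ▸ card_dvd_of_le (le_norm hG hK x.2 (Or.inl rfl) ho)

theorem dvd14 {K : Subgroup G} (hK : K ≠ ⊤) (h : 7 ∣ Nat.card K) : Nat.card K ∣ 14 := by
  have : Fact (Nat.Prime 7) := ⟨by norm_num⟩
  obtain ⟨x, hx⟩ := exists_prime_orderOf_dvd_card' 7 h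
  have ho := (orderOf_coe x).trans hx
  exact (data7 hG ho).1 ▸ card_dvd_of_le (le_norm hG hK x.2 (Or.inr rfl) ho)

omit [Finite G] [IsSimpleGroup G] in
theorem dvd12 {K : Subgroup G} (h13 : ¬ 13 ∣ Nat.card K) (h7 : ¬ 7 ∣ Nat.card K) :
    Nat.card K ∣ 12 := by
  have h := K.card_subgroup_dvd_card
  rw [hG, show 1092 = 13 * (7 * 12) by norm_num] at h
  exact ((Nat.Prime.coprime_iff_not_dvd (by norm_num)).2 h7).symm.dvd_of_dvd_mul_left
    (((Nat.Prime.coprime_iff_not_dvd (by norm_num)).2 h13).symm.dvd_of_dvd_mul_left h)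

theorem dvd12' {K : Subgroup G} (hK : K ≠ ⊤) (h : 4 ∣ Nat.card K) : Nat.card K ∣ 12 :=
  dvd12 hG (fun h1 => by have := h.trans (dvd78 hG hK h1); omega)
    fun h1 => by have := h.trans (dvd14 hG hK h1); omega

theorem coatom {K : Subgroup G} (hK : K ≠ ⊤)
    (h : 78 ∣ Nat.card K ∨ 14 ∣ Nat.card K ∨ 12 ∣ Nat.card K) : IsCoatom K := by
  refine ⟨hK, fun L hL => by_contra fun hT => hL.ne (eq_of_le_of_card_ge hL.le ?_)⟩
  have h1 := card_dvd_of_le hL.le
  refine Nat.le_of_dvd Nat.card_pos ?_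
  rcases h with h | h | h
  · exact (dvd78 hG hT ((dvd_trans (by norm_num) h).trans h1)).trans h
  · exact (dvd14 hG hT ((dvd_trans (by norm_num) h).trans h1)).trans h
  · exact (dvd12' hG hT ((dvd_trans (by norm_num) h).trans h1)).trans h

theorem ne_top_of_card {K : Subgroup G} (h : Nat.card K ≠ 1092) : K ≠ ⊤ := fun e => by
  rw [e, card_top] at h
  exact h hG

theorem zp_ne {x : G} {p : ℕ} (ho : orderOf x = p) (h1 : p ≠ 1) (h2 : p ≠ 1092) :
    zpowers x ≠ ⊥ ∧ zpowers x ≠ ⊤ :=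
  ⟨fun e => h1 (by rw [← ho, zpowers_eq_bot.1 e, orderOf_one]),
    ne_top_of_card hG (by rw [Nat.card_zpowers, ho]; exact h2)⟩

theorem data3 {x : G} (ho : orderOf x = 3) :
    Nat.card (normalizer (zpowers x : Set G)) = 12 ∧ Nat.card (centralizer ({x} : Set G)) = 6 := by
  have : Fact (Nat.Prime 3) := ⟨by norm_num⟩
  obtain ⟨n, e, v, -, h1, h2, h3, h4, h5, h6, h7⟩ :=
    PS.prime_data (p := 3) (by rw [hG]; norm_num) (by rw [hG]; norm_num) ho
  obtain ⟨h8, h9⟩ := zp_ne hG ho (by norm_num) (by norm_num)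
  have hN := norm_ne_top hG h8 h9
  have h10 := card_le hG hN
  have h11 := dvd14 hG hN
  obtain rfl : e = 2 := le_antisymm (Nat.le_of_dvd (by norm_num) h6) h7
  rw [hG] at h3
  rw [h2] at h10 h11 ⊢
  rw [h1]
  have h12 : v ≤ 14 := by omega
  interval_cases v <;> omega

theorem cent_ne_top {t : G} (ht : t ≠ 1) : centralizer ({t} : Set G) ≠ ⊤ := fun h => by
  have h1 : t ∈ center G := mem_center_iff.2 fun g => (mem_centralizer_singleton_iff.1
    (h ▸ mem_top g))
  rcases (inferInstance : (center G).Normal).eq_bot_or_eq_top with h2 | h2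
  · exact ht (mem_bot.1 (h2 ▸ h1))
  · have : Fact (Nat.Prime 7) := ⟨by norm_num⟩
    obtain ⟨x, hx⟩ := exists_prime_orderOf_dvd_card' (G := G) 7 (by rw [hG]; norm_num)
    have h3 := (data7 hG hx).2
    have h4 : centralizer ({x} : Set G) = ⊤ := top_unique fun g _ =>
      mem_centralizer_singleton_iff.2 (mem_center_iff.1 (h2 ▸ mem_top x) g)
    rw [h4, card_top] at h3
    omega

omit [IsSimpleGroup G] in
theorem card_syl2 (V : Sylow 2 G) : Nat.card (V : Subgroup G) = 4 := by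
  rw [V.card_eq_multiplicity, hG]
  decide +kernel

omit [IsSimpleGroup G] in
theorem syl2_comm (V : Sylow 2 G) {a b : G} (ha : a ∈ (V : Subgroup G))
    (hb : b ∈ (V : Subgroup G)) : a * b = b * a :=
  congrArg Subtype.val (IsPGroup.commutative_of_card_eq_prime_sq (p := 2) (card_syl2 hG V)
    ⟨a, ha⟩ ⟨b, hb⟩)

theorem norm_syl2 (V : Sylow 2 G) : ∃ y ∈ normalizer ((V : Subgroup G) : Set G), orderOf y = 3 ∧
    y ∉ centralizer ((V : Subgroup G) : Set G) := by
  have hc := card_syl2 hG V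
  have hN : normalizer ((V : Subgroup G) : Set G) ≠ ⊤ := norm_ne_top hG
    (fun e => by rw [e, card_bot] at hc; omega) (ne_top_of_card hG (by omega))
  have h4 : 4 ∣ Nat.card (normalizer ((V : Subgroup G) : Set G)) :=
    hc ▸ card_dvd_of_le le_normalizer
  have h12 := dvd12' hG hN h4
  have hB := PS.not_normalizer_le_centralizer (by rw [hG]; norm_num) V (by rw [hG]; norm_num)
  have hVC : (V : Subgroup G) ≤ centralizer ((V : Subgroup G) : Set G) := fun a ha b hb =>
    syl2_comm hG V hb ha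
  have h3 : Nat.card (normalizer ((V : Subgroup G) : Set G)) = 12 := by
    have h5 : Nat.card (normalizer ((V : Subgroup G) : Set G)) ≠ 4 := fun e =>
      hB ((eq_of_le_of_card_ge le_normalizer (e.trans hc.symm).le).ge.trans hVC)
    have := Nat.le_of_dvd (by norm_num) h12
    generalize Nat.card (normalizer ((V : Subgroup G) : Set G)) = c at *
    interval_cases c <;> omega
  have : Fact (Nat.Prime 3) := ⟨by norm_num⟩
  obtain ⟨y, hy⟩ := exists_prime_orderOf_dvd_card' 3 (h3 ▸ (by norm_num : 3 ∣ 12))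
  have ho := (orderOf_coe y).trans hy
  refine ⟨y, y.2, ho, fun h => hB (eq_of_le_of_card_ge (centralizer_le_normalizer _) ?_).ge⟩
  refine h3.le.trans ?_
  exact Nat.le_of_dvd Nat.card_pos (Nat.Coprime.mul_dvd_of_dvd_of_dvd (m := 4) (n := 3)
    (by norm_num) (hc ▸ card_dvd_of_le hVC) (ho ▸ orderOf_dvd_natCard _ h))

omit [IsSimpleGroup G] in
theorem exists_syl2 {t : G} (ht : orderOf t = 2) : ∃ V : Sylow 2 G, t ∈ (V : Subgroup G) := by
  obtain ⟨V, hV⟩ := (IsPGroup.of_card (p := 2) (n := 1) (G := zpowers t)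
    (by rw [Nat.card_zpowers, ht, pow_one])).exists_le_sylow
  exact ⟨V, hV (mem_zpowers t)⟩

omit [IsSimpleGroup G] in
theorem four_dvd {t : G} (ht : orderOf t = 2) : 4 ∣ Nat.card (centralizer ({t} : Set G)) := by
  obtain ⟨V, hV⟩ := exists_syl2 hG ht
  rw [← card_syl2 hG V]
  exact card_dvd_of_le fun a ha => mem_centralizer_singleton_iff.2 (syl2_comm hG V ha hV)

theorem three_dvd {t : G} (ht : orderOf t = 2) : 3 ∣ Nat.card (centralizer ({t} : Set G)) := by
  classical
  have : Fact (Nat.Prime 3) := ⟨by norm_num⟩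
  have aux : ∀ y : G, orderOf y = 3 → y * t * y⁻¹ = t →
      3 ∣ Nat.card (centralizer ({t} : Set G)) := fun y hy h =>
    hy ▸ orderOf_dvd_natCard _ (mem_centralizer_singleton_iff.2 (mul_inv_eq_iff_eq_mul.1 h))
  obtain ⟨V, hV⟩ := exists_syl2 hG ht
  obtain ⟨y, hyN, hy, -⟩ := norm_syl2 hG V
  by_cases h1 : y * t * y⁻¹ = t
  · exact aux y hy h1
  obtain ⟨x, hx⟩ := exists_prime_orderOf_dvd_card' (G := G) 3 (by rw [hG]; norm_num)
  obtain ⟨s, hs⟩ := exists_prime_orderOf_dvd_card' 2 ((data3 hG hx).2 ▸ (by norm_num : 2 ∣ 6))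
  have hs2 := (orderOf_coe s).trans hs
  have hsx : (s : G) * x = x * s := mem_centralizer_singleton_iff.1 s.2
  obtain ⟨W, hW⟩ := exists_syl2 hG hs2
  obtain ⟨g, rfl⟩ := MulAction.exists_smul_eq G W V
  have hs' : g * s * g⁻¹ ∈ ((g • W : Sylow 2 G) : Subgroup G) := HT.conj_mem_conj_smul g hW
  generalize (g • W : Sylow 2 G) = V at *
  have aux2 : ∀ u : G, g * s * g⁻¹ = u * t * u⁻¹ → 3 ∣ Nat.card (centralizer ({t} : Set G)) :=
    fun u hu => aux ((u⁻¹ * g) * x * (u⁻¹ * g)⁻¹) (by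
      rw [← hx]; exact (MulAut.conj (u⁻¹ * g)).orderOf_eq x) (by
      have h2 : t = (u⁻¹ * g) * s * (u⁻¹ * g)⁻¹ := by
        calc t = u⁻¹ * (u * t * u⁻¹) * u := by group
          _ = _ := by rw [← hu]; group
      rw [h2]
      calc _ = (u⁻¹ * g) * (x * s) * x⁻¹ * (u⁻¹ * g)⁻¹ := by group
        _ = _ := by rw [← hsx]; group)
  have hy3 : y ^ 3 = 1 := hy ▸ pow_orderOf_eq_one y
  have ht1 : t ≠ 1 := fun e => by rw [e, orderOf_one] at ht; omega
  have hs1 : (s : G) ≠ 1 := fun e => by rw [e, orderOf_one] at hs2; omega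
  have h2 : y⁻¹ * t * y⁻¹⁻¹ ≠ t := fun e => h1 (by
    calc _ = y * (y⁻¹ * t * y⁻¹⁻¹) * y⁻¹ := by rw [e]
      _ = t := by group)
  have h3 : y * t * y⁻¹ ≠ y⁻¹ * t * y⁻¹⁻¹ := fun e => h2 (by
    calc _ = y ^ 3 * (y⁻¹ * t * y⁻¹⁻¹) * (y ^ 3)⁻¹ := by rw [hy3]; group
      _ = y * (y * t * y⁻¹) * y⁻¹ := by simp [pow_succ, mul_assoc]
      _ = y * (y⁻¹ * t * y⁻¹⁻¹) * y⁻¹ := by rw [e]
      _ = t := by group)
  by_contra hc
  have h4 : ({1, t, y * t * y⁻¹, y⁻¹ * t * y⁻¹⁻¹, g * s * g⁻¹} : Set G) ⊆ (V : Subgroup G) := by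
    rintro _ (rfl | rfl | rfl | rfl | rfl)
    exacts [one_mem _, hV, (mem_normalizer_iff.1 hyN t).1 hV,
      (mem_normalizer_iff.1 (inv_mem hyN) t).1 hV, hs']
  have h5 := Set.ncard_le_ncard h4
  have h6 : ((V : Subgroup G) : Set G).ncard = 4 := card_syl2 hG V
  have e1 : t ≠ g * s * g⁻¹ := fun e => hc (aux2 1 (by rw [← e]; group))
  have e2 : y * t * y⁻¹ ≠ g * s * g⁻¹ := fun e => hc (aux2 _ e.symm)
  have e3 : y⁻¹ * t * y⁻¹⁻¹ ≠ g * s * g⁻¹ := fun e => hc (aux2 _ e.symm)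
  rw [h6, Set.ncard_insert_of_notMem (by
      simp only [Set.mem_insert_iff, Set.mem_singleton_iff, not_or]
      exact ⟨ht1.symm, fun e => ht1 (by simpa using e.symm), fun e => ht1 (conj_eq_one_iff.1 e.symm),
        fun e => hs1 (by simpa using e.symm)⟩),
    Set.ncard_insert_of_notMem (by
      simp only [Set.mem_insert_iff, Set.mem_singleton_iff, not_or]
      exact ⟨Ne.symm h1, h2.symm, e1⟩),
    Set.ncard_insert_of_notMem (by
      simp only [Set.mem_insert_iff, Set.mem_singleton_iff, not_or]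
      exact ⟨h3, e2⟩), Set.ncard_pair e3] at h5
  omega

theorem cent13 {x : G} (ho : orderOf x = 13) : Nat.card (centralizer ({x} : Set G)) = 13 := by
  obtain ⟨-, v, hv, hc⟩ := data13 hG ho
  have aux : ∀ r, r.Prime → r ∣ Nat.card (centralizer ({x} : Set G)) → ∃ y : G, orderOf y = r ∧
      13 ∣ Nat.card (centralizer ({y} : Set G)) := fun r hr h => by
    have : Fact r.Prime := ⟨hr⟩
    obtain ⟨y, hy⟩ := exists_prime_orderOf_dvd_card' r h
    exact ⟨y, (orderOf_coe y).trans hy, ho ▸ orderOf_dvd_natCard _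
      (mem_centralizer_singleton_iff.2 (mem_centralizer_singleton_iff.1 y.2).symm)⟩
  have h0 : 0 < Nat.card (centralizer ({x} : Set G)) := Nat.card_pos
  obtain rfl | rfl | rfl | rfl : v = 0 ∨ v = 1 ∨ v = 2 ∨ v = 3 := by omega
  · omega
  · omega
  · obtain ⟨t, ht, h⟩ := aux 2 Nat.prime_two (by omega)
    have := (four_dvd hG ht).trans
      (dvd78 hG (cent_ne_top hG fun e => by rw [e, orderOf_one] at ht; omega) h)
    omega
  · obtain ⟨t, ht, h⟩ := aux 3 Nat.prime_three (by omega)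
    rw [(data3 hG ht).2] at h
    omega

omit hG [IsSimpleGroup G] in
theorem norm_le {x : G} (hc : Nat.card (centralizer ({x} : Set G)) = orderOf x) {H : Subgroup G}
    (hx : x ∈ H) (hH : H ≤ normalizer (zpowers x : Set G)) :
    normalizer (zpowers x : Set G) ≤ normalizer (H : Set G) := fun n hn => by
  have h1 : zpowers x = centralizer ({x} : Set G) := eq_of_le_of_card_ge
    (zpowers_le.2 (mem_centralizer_singleton_iff.2 rfl)) (by rw [hc, Nat.card_zpowers])
  refine mem_normalizer_fintype fun h hh => ?_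
  obtain ⟨a, ha⟩ := (mem_normalizer_iff.1 (inv_mem hn) x).1 (mem_zpowers x)
  obtain ⟨b, hb⟩ := (mem_normalizer_iff.1 (inv_mem (hH hh)) x).1 (mem_zpowers x)
  simp only [inv_inv] at ha hb
  have h2 : n * h * n⁻¹ * h⁻¹ ∈ zpowers x := by
    rw [h1, mem_centralizer_singleton_iff]
    have e1 : (n * h)⁻¹ * x * (n * h) = x ^ (a * b) := by
      calc _ = h⁻¹ * (n⁻¹ * x * n) * h := by group
        _ = (h⁻¹ * x * h⁻¹⁻¹) ^ a := by rw [← ha, conj_zpow, inv_inv]
        _ = _ := by rw [inv_inv, ← hb, ← zpow_mul, mul_comm]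
    have e2 : (h * n)⁻¹ * x * (h * n) = x ^ (a * b) := by
      calc _ = n⁻¹ * (h⁻¹ * x * h) * n := by group
        _ = (n⁻¹ * x * n⁻¹⁻¹) ^ b := by rw [← hb, conj_zpow, inv_inv]
        _ = _ := by rw [inv_inv, ← ha, ← zpow_mul]
    calc _ = (n * h) * ((h * n)⁻¹ * x * (h * n)) * (h * n)⁻¹ := by group
      _ = (n * h) * ((n * h)⁻¹ * x * (n * h)) * (h * n)⁻¹ := by rw [e1, e2]
      _ = _ := by group
  simpa using H.mul_mem (zpowers_le.2 hx h2) hh

theorem main {H : Subgroup G} (hH : ¬ H.Normal) : IsCoatom (normalizer (H : Set G)) := by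
  have h0 : H ≠ ⊥ := fun e => hH (e ▸ inferInstance)
  have h1 : H ≠ ⊤ := fun e => hH (e ▸ inferInstance)
  refine coatom hG (norm_ne_top hG h0 h1) ?_
  by_cases h13 : 13 ∣ Nat.card H
  · have : Fact (Nat.Prime 13) := ⟨by norm_num⟩
    obtain ⟨x, hx⟩ := exists_prime_orderOf_dvd_card' 13 h13
    have ho := (orderOf_coe x).trans hx
    exact Or.inl ((data13 hG ho).1 ▸ card_dvd_of_le (norm_le ((cent13 hG ho).trans ho.symm) x.2
      (le_norm hG h1 x.2 (Or.inl rfl) ho)))
  by_cases h7 : 7 ∣ Nat.card H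
  · have : Fact (Nat.Prime 7) := ⟨by norm_num⟩
    obtain ⟨x, hx⟩ := exists_prime_orderOf_dvd_card' 7 h7
    have ho := (orderOf_coe x).trans hx
    exact Or.inr (Or.inl ((data7 hG ho).1 ▸ card_dvd_of_le
      (norm_le ((data7 hG ho).2.trans ho.symm) x.2 (le_norm hG h1 x.2 (Or.inr rfl) ho))))
  refine Or.inr (Or.inr ?_)
  have h12 := dvd12 hG h13 h7
  have hne : Nat.card H ≠ 1 := fun e => h0 (card_eq_one.1 e)
  have : Fact (Nat.Prime 3) := ⟨by norm_num⟩
  have hle := Nat.le_of_dvd (by norm_num) h12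
  obtain h | h | h | h | h : Nat.card H = 2 ∨ Nat.card H = 3 ∨ Nat.card H = 4 ∨ Nat.card H = 6 ∨
      Nat.card H = 12 := by
    generalize Nat.card H = c at *
    interval_cases c <;> omega
  · obtain ⟨t, ht⟩ := exists_prime_orderOf_dvd_card' (G := H) 2 (by rw [h])
    have ho := (orderOf_coe t).trans ht
    have h2 : zpowers (t : G) = H := eq_of_le_of_card_ge (zpowers_le.2 t.2)
      (by rw [Nat.card_zpowers, ho, h])
    refine (Nat.Coprime.mul_dvd_of_dvd_of_dvd (m := 4) (n := 3) (by norm_num) (four_dvd hG ho)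
      (three_dvd hG ho)).trans (card_dvd_of_le ?_)
    rw [← PS.centralizer_zpowers, h2]
    exact centralizer_le_normalizer _
  · obtain ⟨t, ht⟩ := exists_prime_orderOf_dvd_card' (G := H) 3 (by rw [h])
    have ho := (orderOf_coe t).trans ht
    have h2 : zpowers (t : G) = H := eq_of_le_of_card_ge (zpowers_le.2 t.2)
      (by rw [Nat.card_zpowers, ho, h])
    rw [← (data3 hG ho).1, h2]
  · let V : Sylow 2 G := Sylow.ofCard H (by rw [h, hG]; decide +kernel)
    obtain ⟨y, hy, ho, -⟩ := norm_syl2 hG V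
    exact Nat.Coprime.mul_dvd_of_dvd_of_dvd (m := 4) (n := 3) (by norm_num)
      (h ▸ card_dvd_of_le le_normalizer) (ho ▸ orderOf_dvd_natCard _ hy)
  · obtain ⟨t, ht⟩ := exists_prime_orderOf_dvd_card' 3 (h ▸ (by norm_num : 3 ∣ 6))
    have ho := (orderOf_coe t).trans ht
    have aux : ∀ A B : Subgroup G, A ≤ B → Nat.card B = Nat.card A * 2 →
        B ≤ normalizer (A : Set G) := fun A B hAB hc => by
      have h2 := HT.card_mul_relIndex hAB
      rw [hc] at h2
      exact (normal_subgroupOf_iff_le_normalizer hAB).1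
        (normal_of_index_eq_two (Nat.eq_of_mul_eq_mul_left Nat.card_pos h2))
    have h2 := aux _ _ (zpowers_le.2 t.2) (by rw [Nat.card_zpowers, ho, h])
    rw [← (data3 hG ho).1]
    exact card_dvd_of_le (aux _ _ h2 (by rw [(data3 hG ho).1, h]))
  · exact h ▸ card_dvd_of_le le_normalizer

end simple

/-- Every non-normal subgroup has a maximal normalizer. -/
def MN (X : Type*) [Group X] : Prop :=
  ∀ H : Subgroup X, ¬ H.Normal → IsCoatom (normalizer (H : Set X))

theorem MN.of_surj {X Y : Type*} [Group X] [Group Y] [Finite X] (h : MN Y) (π : X →* Y)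
    (hπ : Function.Surjective π) (hz : ∀ H : Subgroup X, ∀ x, ∀ a ∈ H, ∀ b ∈ H,
      π (x * a * x⁻¹) = π b → x * a * x⁻¹ ∈ H) : MN X := fun H hH => by
  have h1 : normalizer (H : Set X) = (normalizer (H.map π : Set Y)).comap π := by
    refine le_antisymm (map_le_iff_le_comap.1 (le_normalizer_map π)) fun x hx => ?_
    refine mem_normalizer_fintype fun a ha => ?_
    obtain ⟨b, hb, e⟩ := (mem_normalizer_iff.1 hx (π a)).1 (mem_map_of_mem π ha)
    exact hz H x a ha b hb (by rw [e]; simp)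
  rw [h1]
  refine isCoatom_comap_of_surjective hπ (h _ fun hn => hH (normalizer_eq_top_iff.1 ?_))
  rw [h1, normalizer_eq_top_iff.2 hn, comap_top]

theorem MN.of_equiv {X Y : Type*} [Group X] [Group Y] [Finite X] (h : MN Y) (e : X ≃* Y) : MN X :=
  h.of_surj e.toMonoidHom e.surjective fun _ _ _ _ _ hb e1 => e.injective e1 ▸ hb

theorem mn_psl : MN (Matrix.ProjectiveSpecialLinearGroup (Fin 2) (ZMod 13)) := by
  have : Fact (Nat.Prime 13) := ⟨by norm_num⟩
  have h1 := Cl.L2.card_PSL_mul (F := ZMod 13)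
  rw [Nat.card_zmod, show Nat.gcd 2 (13 - 1) = 2 by norm_num] at h1
  have := Cl.L2.isSimpleGroup_PSL (F := ZMod 13) (by rw [Nat.card_zmod]; norm_num)
  exact fun H hH => main (by omega) hH

theorem two_ne : (2 : ZMod 13) ≠ 0 := by decide

theorem mn_sl : MN (Matrix.SpecialLinearGroup (Fin 2) (ZMod 13)) := by
  have : Fact (Nat.Prime 13) := ⟨by norm_num⟩
  refine mn_psl.of_surj (QuotientGroup.mk' (center _)) (QuotientGroup.mk'_surjective _)
    fun H x a ha b hb e => ?_
  have h2 : (2 : ZMod 13) ≠ 0 := two_ne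
  obtain ⟨z, hz, e⟩ := (QuotientGroup.mk'_eq_mk' _).1 e.symm
  have hc := Cl.L2.card_center_SL (F := ZMod 13)
  rw [Nat.card_zmod, show Nat.gcd 2 (13 - 1) = 2 by norm_num] at hc
  have hz2 : z ^ 2 = 1 := by
    have := pow_card_eq_one' (x := (⟨z, hz⟩ : center _))
    rw [hc] at this
    exact congrArg Subtype.val this
  rw [← e]
  refine H.mul_mem hb ?_
  by_cases hev : 2 ∣ Nat.card H
  · obtain ⟨t, ht⟩ := exists_prime_orderOf_dvd_card' 2 hev
    have ho := (orderOf_coe t).trans ht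
    rcases Cl.L2.sl_mul_self_eq_one h2 (by rw [← pow_two]; exact hz2) with rfl | rfl
    · exact one_mem _
    · rcases Cl.L2.sl_mul_self_eq_one h2 (A := t) (by
        rw [← pow_two]; exact orderOf_dvd_iff_pow_eq_one.1 ho.dvd) with h | h
      · rw [h, orderOf_one] at ho; omega
      · exact h ▸ t.2
  · obtain ⟨k, hk⟩ : Odd (Nat.card H) := Nat.odd_iff.2 (by omega)
    have h3 : ∀ c ∈ H, c ^ Nat.card H = 1 := fun c hc =>
      congrArg Subtype.val (pow_card_eq_one' (x := (⟨c, hc⟩ : H)))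
    have h4 : (b * z) ^ Nat.card H = (x * a * x⁻¹) ^ Nat.card H := by rw [e]
    rw [conj_pow, h3 a ha, Commute.mul_pow (mem_center_iff.1 hz b), h3 b hb, hk, pow_succ, pow_mul,
      hz2] at h4
    have : z = 1 := by simpa using h4
    exact this ▸ one_mem _

/-- Let K be isomorphic to PSL(2, 13) or to SL(2, 13) and let S be a finite abelian group of order coprime to the order of K. Then in the direct product K × S every subgroup that is not normal has a normalizer that is a maximal subgroup. -/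
theorem result {K S : Type*} [Group K] [CommGroup S] [Finite K] [Finite S]
    (hK : Nonempty (K ≃* Matrix.ProjectiveSpecialLinearGroup (Fin 2) (ZMod 13)) ∨
      Nonempty (K ≃* Matrix.SpecialLinearGroup (Fin 2) (ZMod 13)))
    (hKS : (Nat.card K).Coprime (Nat.card S)) (H : Subgroup (K × S)) (hH : ¬ H.Normal) :
    IsCoatom (Subgroup.normalizer (H : Set (K × S))) := by
  have h1 : MN K := by
    rcases hK with ⟨⟨e⟩⟩ | ⟨⟨e⟩⟩
    exacts [mn_psl.of_equiv e, mn_sl.of_equiv e]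
  refine h1.of_surj (MonoidHom.fst K S) Prod.fst_surjective (fun H x a ha b hb e => ?_) H hH
  obtain ⟨m, hm1, hm2⟩ := Nat.chineseRemainder hKS 0 1
  have key : ∀ c ∈ H, ((1 : K), c.2) ∈ H := fun c hc => by
    have h2 : c ^ m = ((1 : K), c.2) := by
      refine Prod.ext ?_ ?_
      · exact orderOf_dvd_iff_pow_eq_one.1
          ((orderOf_dvd_natCard c.1).trans ((Nat.modEq_zero_iff_dvd).1 hm1))
      · change c.2 ^ m = c.2
        conv_rhs => rw [← pow_one c.2]
        exact pow_eq_pow_iff_modEq.2 (hm2.of_dvd (orderOf_dvd_natCard c.2))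
    exact h2 ▸ H.pow_mem hc m
  have h3 : x * a * x⁻¹ = b * ((1 : K), b.2)⁻¹ * ((1 : K), a.2) :=
    Prod.ext (by simpa using e) (by simp)
  rw [h3]
  exact H.mul_mem (H.mul_mem hb (H.inv_mem (key b hb))) (key a ha)

end Cfsg.Agent.S4234
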