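import Mathlib
import Cfsg.Statements.S4238
import Cfsg.Agent.GT.TransferAbelian
import Cfsg.Agent.GT.CoprimeAbelian
import Cfsg.Agent.GT.CoprimeFixed
import Cfsg.Agent.GT.Fitting
import Cfsg.Agent.GT.Conj
import Cfsg.Agent.GT.PGroupBasic
import Cfsg.Agent.GT.Subnormal

set_option autoImplicit false
open Cfsg

namespace Cfsg.Agent.S4238

open Cfsg.Agent.GT

universe u

def Hyp (p : ℕ) (G : Type u) [Group G] : Prop :=
  ∀ (H : Subgroup G) (K : Type u) [Group K] (f : H →* K), Function.Surjective f →
    pPrimeCore p K = ⊥ → ∃ k : K, orderOf k = Monoid.exponent K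

theorem Hyp.sub {p : ℕ} {G : Type u} [Group G] (h : Hyp p G) (L : Subgroup G) : Hyp p L := by
  intro H K _ f hf hK
  exact h (H.map L.subtype) K (f.comp (H.equivMapOfInjective L.subtype
    L.subtype_injective).symm.toMonoidHom) (hf.comp (MulEquiv.surjective _)) hK

theorem Hyp.quot {p : ℕ} {G : Type u} [Group G] (h : Hyp p G) (N : Subgroup G) [N.Normal] :
    Hyp p (G ⧸ N) := by
  intro H K _ f hf hK
  refine h (H.comap (QuotientGroup.mk' N)) K (f.comp ((QuotientGroup.mk' N).subgroupComap H))
    (hf.comp ?_) hK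
  exact MonoidHom.subgroupComap_surjective_of_surjective _ _ (QuotientGroup.mk'_surjective N)

theorem core {G : Type u} [Group G] [Finite G] {p : ℕ} [hp : Fact p.Prime]
    (hS : ∀ H : Subgroup G, H ≠ ⊤ → HasNormalPComplement p H)
    (hQ : ∀ (N : Subgroup G) [N.Normal], N ≠ ⊥ → HasNormalPComplement p (G ⧸ N))
    (h : pPrimeCore p G = ⊥ → ∃ k : G, orderOf k = Monoid.exponent G) :
    HasNormalPComplement p G := by
  by_contra hn
  have h0 : pPrimeCore p G = ⊥ := by
    by_contra h0
    exact hn (Tr.hasNormalPComplement_of_quotient_of_not_dvd _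
      (not_dvd_card_pPrimeCore hp.out) (hQ _ h0))
  obtain ⟨k, hk⟩ := h h0
  obtain ⟨hnil, hnorm, -⟩ := Tr.ito_minimal hn hS
  obtain ⟨P⟩ : Nonempty (Sylow p G) := inferInstance
  have hPn := hnorm P
  obtain ⟨a, ha, b, hb, ⟨i, hi⟩, hbc, hab⟩ := Tr.exists_pPart_mul_pPrimePart (p := p) k
  have hcomm : Commute a b := by
    obtain ⟨m, rfl⟩ := ha
    obtain ⟨n, rfl⟩ := hb
    exact Commute.zpow_zpow_self k m n
  have ha1 : a ≠ 1 := by
    rintro rfl
    rw [one_mul] at hab
    subst hab
    apply hn
    apply Tr.hasNormalPComplement_of_not_dvd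
    intro hd
    obtain ⟨x, hx⟩ := exists_prime_orderOf_dvd_card' p hd
    have h1 := Monoid.order_dvd_exponent x
    rw [hx, ← hk] at h1
    exact (Nat.Prime.coprime_iff_not_dvd hp.out).1 hbc.symm h1
  have hb1 : b ≠ 1 := by
    rintro rfl
    rw [mul_one] at hab
    subst hab
    apply hn
    apply Tr.hasNormalPComplement_of_isPGroup
    intro x
    exact ⟨i, by rw [← hi, hk]; exact Monoid.pow_exponent_eq_one x⟩
  have haP : a ∈ (P : Subgroup G) := by
    have h1 : IsPGroup p (Subgroup.zpowers a) := IsPGroup.of_card (by rw [Nat.card_zpowers, hi])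
    obtain ⟨Q, hQ⟩ := h1.exists_le_sylow
    have := P.unique_of_normal hPn
    rw [Subsingleton.elim P Q]
    exact hQ (Subgroup.mem_zpowers a)
  set B := Subgroup.zpowers b with hB
  have hBc : (Nat.card B).Coprime p := by rwa [hB, Nat.card_zpowers]
  have hcop := CopAct.coprime_of_isPGroup_right hBc P.isPGroup'
  have hBN : B ≤ Subgroup.normalizer ((P : Subgroup G) : Set G) := by
    rw [(P : Subgroup G).normalizer_eq_top]; exact le_top
  have hnc : ¬ B ≤ Subgroup.centralizer ((P : Subgroup G) : Set G) := by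
    intro hc
    by_cases ht : Subgroup.centralizer ((P : Subgroup G) : Set G) = ⊤
    · apply hn
      apply Tr.hasNormalPComplement_of_normalizer_le_centralizer P
      rw [ht]; exact le_top
    have h1 := hnil _ ht
    have h2 := le_pPrimeCore_of_isSubnormal ((subnormalIn_of_isNilpotent h1 hc).isSubnormal
      (Subgroup.Normal.isSubnormal inferInstance)) hBc
    rw [h0, le_bot_iff, hB, Subgroup.zpowers_eq_bot] at h2
    exact hb1 h2
  have h1 : ⁅(P : Subgroup G), B⁆ ⊔ B = ⊤ := by
    by_contra ht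
    have h2 := hnil _ ht
    apply hnc
    apply CopAct.le_centralizer_of_commutator_commutator_eq_bot hBN hcop
    rw [CopAct.commutator_eq_bot_iff]
    exact le_centralizer_of_coprime_of_isNilpotent (H := ⁅(P : Subgroup G), B⁆ ⊔ B) le_sup_right
      le_sup_left (CopAct.coprime_mono hcop le_rfl (CopAct.commutator_le_of_le_normalizer hBN))
  have h2 : ⁅(P : Subgroup G), B⁆ = P := by
    have h3 := inf_sup_eq_of_le_normalizer (K := B) (CopAct.commutator_le_of_le_normalizer hBN)
      (CopAct.le_normalizer_commutator hBN Subgroup.le_normalizer)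
    rw [h1, inf_top_eq, inf_comm, CopAct.inf_eq_bot_of_coprime hcop, sup_bot_eq] at h3
    exact h3.symm
  by_cases hc : ⁅(P : Subgroup G), (P : Subgroup G)⁆ = ⊥
  · have h3 := CopAct.commutator_inf_centralizer_le hBN hcop
    rw [h2, hc] at h3
    refine ha1 (Subgroup.mem_bot.1 (h3 ⟨haP, ?_⟩))
    rw [hB, centralizer_zpowers]
    exact Subgroup.mem_centralizer_singleton_iff.2 hcomm
  · have h3 := hQ _ hc
    have hPb : (P : Subgroup G) ≠ ⊥ := fun h => ha1 (by rwa [h, Subgroup.mem_bot] at haP)
    have hs := CopAct.isSolvable_of_isPGroup P.isPGroup'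
    refine (commutator_lt_of_isSolvable hPb).not_ge ?_
    conv_lhs => rw [← h2]
    rw [commutator_le_iff_map_mk', CopAct.commutator_eq_bot_iff, hB, MonoidHom.map_zpowers,
      Subgroup.zpowers_le]
    refine h3.mem_centralizer (P.isPGroup'.map _) ?_ ?_
    · have := normal_map_mk' (N := ⁅(P : Subgroup G), (P : Subgroup G)⁆) (P : Subgroup G)
      rw [Subgroup.normalizer_eq_top]; trivial
    · exact hbc.coprime_dvd_left (orderOf_map_dvd _ b)

theorem of_hyp (G : Type u) [Group G] [Finite G] (p : ℕ) [hp : Fact p.Prime] :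
    Hyp p G → HasNormalPComplement p G := by
  refine subgroup_quotient_induction (P := fun G _ _ => Hyp p G → HasNormalPComplement p G) ?_ G
  intro G _ _ ihS ihQ h
  refine core (fun H hH => ihS H hH (h.sub H)) (fun N _ hN => ihQ N hN (h.quot N)) ?_
  exact h ⊤ G (⊤ : Subgroup G).subtype (fun x => ⟨⟨x, trivial⟩, rfl⟩)

/-- Let G be a finite group and p a prime. Then G has a normal p-complement if and only if every section K = H/N of G (N a normal subgroup of a subgroup H) whose largest normal subgroup of order prime to p is trivial contains an element whose order equals the exponent of K. -/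
theorem result {G : Type*} [Group G] [Finite G] (p : ℕ) [Fact p.Prime] :
    Cfsg.HasNormalPComplement p G ↔
      ∀ (H : Subgroup G) (N : Subgroup H) [N.Normal], Cfsg.pPrimeCore p (H ⧸ N) = ⊥ →
        ∃ k : H ⧸ N, orderOf k = Monoid.exponent (H ⧸ N) := by
  constructor
  · intro h H N _ h0
    have h1 := (h.subgroup H).quotient N
    rw [h1.pPrimeCore_eq_pResidual, Tr.pResidual_eq_bot_iff] at h0
    obtain ⟨g, hg⟩ := (Fact.out : p.Prime).exists_orderOf_eq_pow_factorization_exponent (H ⧸ N)
    refine ⟨g, ?_⟩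
    obtain ⟨n, hn⟩ := IsPGroup.iff_card.1 h0
    obtain ⟨m, -, hm⟩ := (Nat.dvd_prime_pow (Fact.out : p.Prime)).1
      (hn ▸ Group.exponent_dvd_nat_card (G := H ⧸ N))
    rw [hg, hm, Nat.Prime.factorization_pow (Fact.out : p.Prime), Finsupp.single_eq_same]
  · intro h
    refine of_hyp G p ?_
    intro H K _ f hf hK
    let e := QuotientGroup.quotientKerEquivOfSurjective f hf
    obtain ⟨k, hk⟩ := h H f.ker (by
      rw [← map_pPrimeCore_equiv e.symm, hK, Subgroup.map_bot])
    exact ⟨e k, by rw [MulEquiv.orderOf_eq, hk, Monoid.exponent_eq_of_mulEquiv e]⟩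

end Cfsg.Agent.S4238
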