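import Mathlib
import Cfsg.Statements.S4240
import Cfsg.Agent.S0108
import Cfsg.Agent.GT.CoprimeFT
import Cfsg.Agent.GT.CoprimeActThms
import Cfsg.Agent.GT.Thompson
import Cfsg.Agent.GT.TransferFrobenius
import Cfsg.Agent.GT.Fitting
import Cfsg.Agent.GT.Frattini
import Cfsg.Agent.GT.TransferEval

set_option autoImplicit false
open Cfsg

namespace Cfsg.Agent.S4240

open Cfsg.Agent.GT Cfsg.Agent.GT.CopAct

universe u v

theorem solvable_aux {A : Type v} [Group A] [Finite A] (G : Type u) [Group G] [Finite G] :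
    ∀ φ : A →* MulAut G, (Nat.card A).Coprime (Nat.card G) →
      (∀ H : Subgroup G, H ≠ ⊤ → ActInv φ H → Group.IsNilpotent H) → Group.IsSolvable G := by
  refine card_induction (P := fun G _ _ => ∀ φ : A →* MulAut G,
    (Nat.card A).Coprime (Nat.card G) →
      (∀ H : Subgroup G, H ≠ ⊤ → ActInv φ H → Group.IsNilpotent H) → Group.IsSolvable G) ?_ G
  intro G _ _ ih φ hcop hnil
  by_cases hN : ∃ N : Subgroup G, N.Normal ∧ ActInv φ N ∧ N ≠ ⊥ ∧ N ≠ ⊤
  · obtain ⟨N, hNn, hNi, hNb, hNt⟩ := hN
    have h1 := hnil N hNt hNi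
    have h2 : Group.IsSolvable (G ⧸ N) := by
      refine ih (G ⧸ N) ?_ (quotHom φ N hNi) ?_ ?_
      · have h3 := Subgroup.card_eq_card_quotient_mul_card_subgroup N
        have h4 : 1 < Nat.card N := (Subgroup.one_lt_card_iff_ne_bot N).2 hNb
        have h5 : 0 < Nat.card (G ⧸ N) := Nat.card_pos
        nlinarith
      · exact hcop.coprime_dvd_right (Subgroup.card_quotient_dvd_card N)
      · intro H hH hHi
        have h3 : H.comap (QuotientGroup.mk' N) ≠ ⊤ := by
          intro h
          apply hH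
          rw [← Subgroup.map_comap_eq_self_of_surjective (QuotientGroup.mk'_surjective N) H, h,
            Subgroup.map_top_of_surjective _ (QuotientGroup.mk'_surjective N)]
        have h4 := hnil _ h3 (actInv_comap_mk' hHi)
        have h5 := isNilpotent_map (H.comap (QuotientGroup.mk' N)) (QuotientGroup.mk' N)
        rwa [Subgroup.map_comap_eq_self_of_surjective (QuotientGroup.mk'_surjective N) H] at h5
    exact Group.isSolvable_of_ker_le_range N.subtype (QuotientGroup.mk' N) (by simp)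
  push Not at hN
  by_cases hodd : ∃ p : ℕ, p.Prime ∧ p ≠ 2 ∧ p ∣ Nat.card G
  · obtain ⟨p, hp, hp2, hpG⟩ := hodd
    have : Fact p.Prime := ⟨hp⟩
    obtain ⟨P, hP⟩ := act_exists_invariant_sylow φ hcop (isSolvable_or_of_coprime hcop) p
    have hPb : (P : Subgroup G) ≠ ⊥ := P.ne_bot_of_dvd_card hpG
    have hpg : ∀ U : Subgroup G, U ≤ P → U = ⊤ → Group.IsSolvable G := by
      intro U hU hUt
      have h1 : (P : Subgroup G) = ⊤ := top_le_iff.1 (hUt ▸ hU)
      have h2 : IsPGroup p G := by
        have h3 := P.isPGroup'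
        rw [h1] at h3
        exact h3.of_equiv Subgroup.topEquiv
      have := h2.isNilpotent
      infer_instance
    have hJi : ActInv φ (thJ p (P : Subgroup G)) := by
      rw [actInv_iff_map_eq]
      intro a
      rw [← thJ_map_equiv (φ a), hP.map_eq a]
    by_cases hJ : Subgroup.normalizer (thJ p (P : Subgroup G) : Set G) = ⊤
    · exact hpg _ (thJ_le p _) (hN _ (Subgroup.normalizer_eq_top_iff.1 hJ) hJi
        (thJ_ne_bot dvd_rfl P.isPGroup' hPb))
    have hZi : ActInv φ ((P : Subgroup G) ⊓ Subgroup.centralizer (P : Set G)) :=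
      hP.inf hP.centralizer
    by_cases hZ : Subgroup.centralizer (((P : Subgroup G) ⊓ Subgroup.centralizer (P : Set G) :
        Subgroup G) : Set G) = ⊤
    · refine hpg _ inf_le_left (hN _ ?_ hZi ?_)
      · apply normal_of_top_le_normalizer
        rw [← hZ]
        exact Subgroup.centralizer_le_normalizer _
      · obtain ⟨x, hx1, hx2, hx3, -⟩ := th_exists_center_order P.isPGroup' hPb
        intro h
        have h1 : x ∈ (P : Subgroup G) ⊓ Subgroup.centralizer (P : Set G) := ⟨hx1, hx2⟩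
        rw [h] at h1
        exact hx3 (Subgroup.mem_bot.1 h1)
    have h1 : HasNormalPComplement p G := by
      refine (S0108.result hp2 P).2 ⟨?_, ?_⟩
      · rw [thompsonSubgroupOf_eq]
        exact Tr.hasNormalPComplement_of_isNilpotent (hnil _ hJ hJi.normalizer)
      · exact Tr.hasNormalPComplement_of_isNilpotent (hnil _ hZ hZi.centralizer)
    have h2 := h1.not_dvd_card_pResidual
    by_cases hb : pResidual p G = ⊥
    · have := (Tr.pResidual_eq_bot_iff.1 hb).isNilpotent
      infer_instance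
    · have h3 := hN _ inferInstance (actInv_of_characteristic φ _) hb
      rw [h3, Subgroup.card_top] at h2
      exact absurd hpG h2
  · push Not at hodd
    have h1 : IsPGroup 2 G := by
      have h2 := Nat.eq_prime_pow_of_unique_prime_dvd (p := 2) (Nat.card_pos (α := G)).ne'
        (fun {d} hd hdG => by by_contra h; exact hodd d hd h hdG)
      exact IsPGroup.of_card h2
    have := h1.isNilpotent
    infer_instance

theorem structure_aux {A G : Type*} [Group A] [Finite A] [Group G] [Finite G]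
    [Group.IsSolvable G] (φ : A →* MulAut G) (hcop : (Nat.card A).Coprime (Nat.card G))
    (hnil : ∀ H : Subgroup G, H ≠ ⊤ → ActInv φ H → Group.IsNilpotent H)
    (hG : ¬ Group.IsNilpotent G) :
    ∃ (p q a b : ℕ) (P : Sylow p G), p.Prime ∧ q.Prime ∧ p ≠ q ∧ Nat.card G = p ^ a * q ^ b ∧
      p ∣ Nat.card G ∧ (P : Subgroup G).Normal ∧ ActInv φ P := by
  have hnt : Nontrivial G := by
    by_contra h
    rw [not_nontrivial_iff_subsingleton] at h
    exact hG inferInstance
  obtain ⟨M, hM, hle⟩ := exists_isCoatom_ge (Group.IsSolvable.commutator_lt_top_of_nontrivial G).ne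
  have hMn : M.Normal := Subgroup.Normal.of_commutator_le _ hle
  have hq := index_prime_of_isCoatom_of_normal hM
  obtain ⟨q, hqM⟩ : ∃ q, q = M.index := ⟨_, rfl⟩
  rw [← hqM] at hq
  have : Fact q.Prime := ⟨hq⟩
  have hNM : pResidual q G ≤ M := Tr.pResidual_le_of_index (k := 1) (by rw [pow_one, hqM])
  have hNt : pResidual q G ≠ ⊤ := fun h => hM.1 (top_le_iff.1 (h ▸ hNM))
  have hNn := hnil _ hNt (actInv_of_characteristic φ _)
  obtain ⟨k, hk⟩ := Tr.exists_index_pResidual (p := q) (G := G)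
  have hsyl : ∀ r : ℕ, r.Prime → r ≠ q → ∃ R : Sylow r G, (R : Subgroup G).Normal := by
    intro r hr hrq
    have : Fact r.Prime := ⟨hr⟩
    obtain ⟨R, hR⟩ := Tr.exists_sylow_le_of_not_dvd_index (p := r) (H := pResidual q G) (by
      rw [hk]
      intro h
      exact hrq ((Nat.prime_dvd_prime_iff_eq hr hq).1 (hr.dvd_of_dvd_pow h)))
    have h1 := le_pCoreOf_of_isNilpotent hR R.isPGroup'
    have h2 := R.is_maximal' (isPGroup_pCoreOf r _) h1
    refine ⟨R, ?_⟩
    rw [← h2]
    infer_instance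
  obtain ⟨Q, hQ⟩ := act_exists_invariant_sylow φ hcop (Or.inr inferInstance) q
  by_contra hcon
  apply hG
  apply isNilpotent_of_exists_sylow_normal
  intro r hr hrG
  by_cases hrq : r = q
  swap
  · exact hsyl r hr hrq
  subst hrq
  refine ⟨Q, ?_⟩
  rw [← Subgroup.normalizer_eq_top_iff]
  apply eq_top_of_forall_sylow_le
  intro s hs hsG
  by_cases hsr : s = r
  · subst hsr
    exact ⟨Q, Subgroup.le_normalizer⟩
  have : Fact s.Prime := ⟨hs⟩
  obtain ⟨R, hR⟩ := hsyl s hs hsr
  refine ⟨R, ?_⟩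
  have hRc : (R : Subgroup G).Characteristic := R.characteristic_of_normal hR
  have hRi : ActInv φ R := actInv_of_characteristic φ _
  obtain ⟨a, ha⟩ := IsPGroup.iff_card.1 R.isPGroup'
  obtain ⟨b, hb⟩ := IsPGroup.iff_card.1 Q.isPGroup'
  by_cases ht : (Q : Subgroup G) ⊔ (R : Subgroup G) = ⊤
  · exfalso
    apply hcon
    have h1 := card_sup_dvd (Q : Subgroup G) (R : Subgroup G)
    rw [ht, Subgroup.card_top, ha, hb, Nat.dvd_mul] at h1
    obtain ⟨k₁, k₂, h1, h2, h3⟩ := h1
    obtain ⟨i, -, rfl⟩ := (Nat.dvd_prime_pow hr).1 h1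
    obtain ⟨j, -, rfl⟩ := (Nat.dvd_prime_pow hs).1 h2
    exact ⟨s, r, j, i, R, hs, hr, hsr, by rw [← h3, mul_comm], hsG, hR, hRi⟩
  · have h1 := hnil _ ht (hQ.sup hRi)
    refine le_trans ?_ (Subgroup.centralizer_le_normalizer _)
    refine le_centralizer_of_coprime_of_isNilpotent (H := (Q : Subgroup G) ⊔ (R : Subgroup G))
      le_sup_right le_sup_left ?_
    rw [ha, hb]
    exact Nat.coprime_pow_primes a b hs hr hsr

/-- Let a finite group A act by automorphisms on a finite group G of order coprime to that of A. Suppose every maximal A-invariant proper subgroup of G is nilpotent while G is not. Then G is solvable, the order of G has the form p^a·q^b for two distinct primes p and q, and G has a normal A-invariant Sylow subgroup for some prime dividing its order. -/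
theorem result {A G : Type*} [Group A] [Group G] [Finite A] [Finite G] [MulDistribMulAction A G]
    (hcop : (Nat.card A).Coprime (Nat.card G))
    (hmax : ∀ H : Subgroup G, H ≠ ⊤ → (∀ a : A, ∀ x ∈ H, a • x ∈ H) →
      (∀ K : Subgroup G, H < K → (∀ a : A, ∀ x ∈ K, a • x ∈ K) → K = ⊤) → Group.IsNilpotent H)
    (hG : ¬ Group.IsNilpotent G) :
    Group.IsSolvable G ∧
      (∃ p q a b : ℕ, p.Prime ∧ q.Prime ∧ p ≠ q ∧ Nat.card G = p ^ a * q ^ b) ∧
      ∃ (p : ℕ) (P : Sylow p G), p.Prime ∧ p ∣ Nat.card G ∧ (P : Subgroup G).Normal ∧ (∀ a : A, ∀ x ∈ (P : Subgroup G), a • x ∈ (P : Subgroup G)) := by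
  let φ : A →* MulAut G := MulDistribMulAction.toMulAut A G
  have hnil : ∀ H : Subgroup G, H ≠ ⊤ → ActInv φ H → Group.IsNilpotent H := by
    intro H hH hHi
    obtain ⟨K, hHK, ⟨hK1, hK2⟩, hK3⟩ :=
      exists_maximal_ge (P := fun K : Subgroup G => K ≠ ⊤ ∧ ActInv φ K) ⟨hH, hHi⟩
    have h1 := hmax K hK1 hK2 (fun L hL hLi => by
      by_contra h
      exact hL.ne' (hK3 L ⟨h, hLi⟩ hL.le))
    exact isNilpotent_of_le hHK
  have hs := solvable_aux G φ hcop hnil
  obtain ⟨p, q, a, b, P, hp, hq, hpq, hc, hd, hn, hi⟩ := structure_aux φ hcop hnil hG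
  exact ⟨hs, ⟨p, q, a, b, hp, hq, hpq, hc⟩, p, P, hp, hd, hn, hi⟩

end Cfsg.Agent.S4240
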