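import Mathlib
import Cfsg.Statements.S4242
import Cfsg.Agent.GT.TransferFrobenius
import Cfsg.Agent.GT.CoprimeSylow
import Cfsg.Agent.GT.Fitting
import Cfsg.Agent.GT.Conj
import Cfsg.Agent.GT.PGroupBasic

set_option autoImplicit false
open Cfsg

namespace Cfsg.Agent.S4242

open Cfsg.Agent.GT

theorem coprime_of_pgroup {G : Type*} [Group G] [Finite G] {p : ℕ} [hp : Fact p.Prime]
    {Q H : Subgroup G} (hQ : IsPGroup p Q) (hH : ¬ p ∣ Nat.card H) :
    (Nat.card Q).Coprime (Nat.card H) := by
  obtain ⟨k, hk⟩ := IsPGroup.iff_card.1 hQ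
  rw [hk]
  exact ((Nat.Prime.coprime_iff_not_dvd hp.out).2 hH).pow_left k

theorem dvd_card_of_pgroup {G : Type*} [Group G] [Finite G] {p : ℕ} [hp : Fact p.Prime]
    {Q H : Subgroup G} (hQ : IsPGroup p Q) (hb : Q ≠ ⊥) (hH : Q ≤ H) : p ∣ Nat.card H := by
  obtain ⟨k, hk⟩ := IsPGroup.iff_card.1 hQ
  refine dvd_trans ?_ (Subgroup.card_dvd_of_le hH)
  rw [hk]
  refine dvd_pow_self p ?_
  rintro rfl
  exact hb (Subgroup.card_eq_one.1 hk)

theorem eq_of_sup_eq_top {G : Type*} [Group G] [Finite G] {p : ℕ} [hp : Fact p.Prime]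
    {Q H L : Subgroup G} (hQ : IsPGroup p Q) (hH : ¬ p ∣ Nat.card H) (hL : L ≤ H)
    (hn : Q ≤ Subgroup.normalizer (L : Set G) ∨ L ≤ Subgroup.normalizer (Q : Set G))
    (h : L ⊔ Q = ⊤) : L = H := by
  have h1 : H ⊓ (L ⊔ Q) = L ⊔ H ⊓ Q := by
    rcases hn with hn | hn
    · exact inf_sup_eq_of_le_normalizer hL hn
    · exact inf_sup_eq_of_le_normalizer' hL hn
  rw [h, inf_top_eq, inf_comm, Tr.inf_eq_bot_of_isPGroup_of_not_dvd hQ hH, sup_bot_eq] at h1
  exact h1.symm

/-- Let G be a finite group and p a prime dividing its order. Every maximal subgroup of G of order divisible by p is nilpotent if and only if G is nilpotent, or G is a minimal non-nilpotent group, or G is the internal direct product of a normal subgroup of order p and a normal minimal non-nilpotent subgroup of order prime to p. -/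
theorem result {G : Type*} [Group G] [Finite G] (p : ℕ) (hp : p.Prime) (hpG : p ∣ Nat.card G) :
    (∀ M : Subgroup G, IsCoatom M → p ∣ Nat.card M → Group.IsNilpotent M) ↔
      (Group.IsNilpotent G ∨ Cfsg.IsMinimalNonNilpotent G ∨
        ∃ Z K : Subgroup G, Z.Normal ∧ K.Normal ∧ Z ⊓ K = ⊥ ∧ Z ⊔ K = ⊤ ∧ Nat.card Z = p ∧
          Cfsg.IsMinimalNonNilpotent K ∧ ¬ p ∣ Nat.card K) := by
  have : Fact p.Prime := ⟨hp⟩
  constructor
  · intro hmax
    have hall : ∀ L : Subgroup G, L ≠ ⊤ → p ∣ Nat.card L → Group.IsNilpotent L := by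
      intro L hL hpL
      obtain ⟨M, hM, hLM⟩ := exists_isCoatom_ge hL
      have := hmax M hM (hpL.trans (Subgroup.card_dvd_of_le hLM))
      exact isNilpotent_of_le hLM
    by_cases hn : Group.IsNilpotent G
    · exact Or.inl hn
    by_cases hpr : ∀ H : Subgroup G, H ≠ ⊤ → Group.IsNilpotent H
    · exact Or.inr (Or.inl ⟨hn, hpr⟩)
    right; right
    push Not at hpr
    obtain ⟨H, hHt, hHn⟩ := hpr
    have hpH : ¬ p ∣ Nat.card H := fun h => hHn (hall H hHt h)
    have hsup : ∀ X K : Subgroup G, IsPGroup p X → X ≠ ⊥ → ¬ Group.IsNilpotent K →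
        K ⊔ X = ⊤ := by
      intro X K hX hXb hK
      by_contra h
      have := hall _ h (dvd_card_of_pgroup hX hXb le_sup_right)
      exact hK (isNilpotent_of_le (K := K ⊔ X) le_sup_left)
    have hcent : ∀ X K L : Subgroup G, IsPGroup p X → X ≠ ⊥ → ¬ p ∣ Nat.card K → L < K →
        (X ≤ Subgroup.normalizer (L : Set G) ∨ L ≤ Subgroup.normalizer (X : Set G)) →
        Group.IsNilpotent L ∧ L ≤ Subgroup.centralizer (X : Set G) := by
      intro X K L hX hXb hK hL hn
      have h1 := hall (L ⊔ X) (fun h => hL.ne (eq_of_sup_eq_top hX hK hL.le hn h))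
        (dvd_card_of_pgroup hX hXb le_sup_right)
      refine ⟨isNilpotent_of_le (K := L ⊔ X) le_sup_left, ?_⟩
      exact le_centralizer_of_coprime_of_isNilpotent (H := L ⊔ X) le_sup_left le_sup_right
        (coprime_of_pgroup hX fun h => hK (h.trans (Subgroup.card_dvd_of_le hL.le))).symm
    have hlt : ∀ (K P : Subgroup G) (q : ℕ), q.Prime → ¬ Group.IsNilpotent K → P ≤ K →
        IsPGroup q P → P < K := by
      intro K P q hq hK hPK hP
      have : Fact q.Prime := ⟨hq⟩
      refine lt_of_le_of_ne hPK fun e => hK ?_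
      rw [← e]
      exact hP.isNilpotent
    have hA : ∃ Q : Subgroup G, Q.Normal ∧ IsPGroup p Q ∧ Q ≠ ⊥ := by
      by_contra hc
      push Not at hc
      have h1 : HasNormalPComplement p G := by
        refine Tr.frobenius_local_iff.2 fun Q hQ hQb => ?_
        refine Tr.hasNormalPComplement_of_isNilpotent (hall _ ?_
          (dvd_card_of_pgroup hQ hQb Subgroup.le_normalizer))
        exact fun h => hQb (hc Q (Subgroup.normalizer_eq_top_iff.1 h) hQ)
      have h2 := h1.not_dvd_card_pResidual
      have h3 : ¬ Group.IsNilpotent (pResidual p G) := fun h =>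
        hHn (isNilpotent_of_le (Tr.le_pResidual_of_not_dvd hpH))
      obtain ⟨x, hx⟩ := exists_prime_orderOf_dvd_card' p hpG
      have hX : IsPGroup p (Subgroup.zpowers x) :=
        IsPGroup.of_card (n := 1) (by rw [Nat.card_zpowers, hx, pow_one])
      have hXb : Subgroup.zpowers x ≠ ⊥ := by
        rw [Ne, Subgroup.zpowers_eq_bot]
        rintro rfl
        exact hp.one_lt.ne (by rw [← hx, orderOf_one])
      refine hXb (hc _ ?_ hX)
      refine normal_of_sup_eq_top (hsup _ _ hX hXb h3) ?_ Subgroup.le_normalizer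
      apply le_normalizer_of_le_centralizer
      have hs : Group.IsSolvable (Subgroup.zpowers x) := by
        have := hX.isNilpotent
        infer_instance
      refine CopAct.le_of_forall_invariant_pgroup_le (A := Subgroup.zpowers x)
        (by rw [(pResidual p G).normalizer_eq_top]; exact le_top) (coprime_of_pgroup hX h2)
        (Or.inl hs) ?_
      intro q hq S hS hSq hSn
      exact (hcent _ _ S hX hXb h2 (hlt _ _ q hq.out h3 hS hSq) (Or.inl hSn)).2
    obtain ⟨Q, hQn, hQ, hQb⟩ := hA
    have hQ' : ∀ L : Subgroup G, L ≤ Subgroup.normalizer (Q : Set G) := fun L => by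
      rw [Q.normalizer_eq_top]; exact le_top
    have hHQ : H ≤ Subgroup.centralizer (Q : Set G) := by
      refine le_of_forall_isPGroup_le fun q hq _ P hPH hP => ?_
      exact (hcent _ _ P hQ hQb hpH (hlt _ _ q hq hHn hPH hP) (Or.inr (hQ' P))).2
    obtain ⟨x, hx⟩ := exists_prime_orderOf_dvd_card' p (dvd_card_of_pgroup hQ hQb le_rfl)
    have hZc : Nat.card (Subgroup.zpowers (x : G)) = p := by
      rw [Nat.card_zpowers, Subgroup.orderOf_coe, hx]
    have hZQ : Subgroup.zpowers (x : G) ≤ Q := (Subgroup.zpowers_le).2 x.2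
    have hZb : Subgroup.zpowers (x : G) ≠ ⊥ := by
      intro h
      rw [h, Subgroup.card_bot] at hZc
      exact hp.one_lt.ne hZc
    have hZ := hsup _ _ (hQ.to_le hZQ) hZb hHn
    have hHZ : H ≤ Subgroup.centralizer (Subgroup.zpowers (x : G) : Set G) :=
      hHQ.trans (centralizer_anti hZQ)
    refine ⟨Subgroup.zpowers (x : G), H, ?_, ?_, ?_, ?_, hZc, ⟨hHn, ?_⟩, hpH⟩
    · exact normal_of_sup_eq_top hZ (le_normalizer_of_le_centralizer hHZ) Subgroup.le_normalizer
    · exact normal_of_sup_eq_top hZ Subgroup.le_normalizer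
        (le_normalizer_of_le_centralizer (Subgroup.le_centralizer_iff.1 hHZ))
    · exact Tr.inf_eq_bot_of_isPGroup_of_not_dvd (hQ.to_le hZQ) hpH
    · rw [sup_comm, hZ]
    · intro L hL
      have h1 : L.map H.subtype < H := by
        refine lt_of_le_of_ne (Subgroup.map_subtype_le L) fun e => hL ?_
        apply Subgroup.map_injective H.subtype_injective
        rw [e, ← MonoidHom.range_eq_map, Subgroup.range_subtype]
      have := (hcent _ _ _ hQ hQb hpH h1 (Or.inr (hQ' _))).1
      exact isNilpotent_of_map_of_injective H.subtype_injective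
  · rintro (h | h | ⟨Z, K, hZn, hKn, hi, hs, hZ, hK, hpK⟩) M hM hpM
    · infer_instance
    · exact h.2 M hM.1
    have hZp : IsPGroup p Z := IsPGroup.of_card (n := 1) (by rw [hZ, pow_one])
    have hZM : Z ≤ M := by
      by_contra hc
      have h1 := card_sup_mul_card_inf_of_le_normalizer (H := M) (N := Z)
        (by rw [Z.normalizer_eq_top]; exact le_top)
      have h2 := card_sup_mul_card_inf_of_le_normalizer (H := K) (N := Z)
        (by rw [Z.normalizer_eq_top]; exact le_top)
      have h3 : M ⊓ Z = ⊥ := by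
        have h4 : Fact (Nat.card Z).Prime := ⟨hZ ▸ hp⟩
        rcases (M.subgroupOf Z).eq_bot_or_eq_top_of_prime_card with h | h
        · exact disjoint_iff.1 (Subgroup.subgroupOf_eq_bot.1 h)
        · exact absurd (Subgroup.subgroupOf_eq_top.1 h) hc
      rw [sup_eq_top_of_isCoatom hM hc, h3] at h1
      rw [sup_comm, hs, inf_comm, hi, h1] at h2
      rw [Nat.eq_of_mul_eq_mul_right Nat.card_pos h2] at hpM
      exact hpK hpM
    have h1 : M = Z ⊔ M ⊓ K := by
      rw [← inf_sup_eq_of_normal_left hZM, hs, inf_top_eq]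
    have h2 : Group.IsNilpotent (M ⊓ K : Subgroup G) := by
      have h3 := hK.2 (M.subgroupOf K) (fun h => hM.1 (by
        rw [eq_top_iff, ← hs]
        exact sup_le hZM (Subgroup.subgroupOf_eq_top.1 h)))
      have h4 := isNilpotent_map (M.subgroupOf K) K.subtype
      rwa [Subgroup.subgroupOf_map_subtype] at h4
    have h3 := hZp.isNilpotent
    rw [h1]
    refine isNilpotent_sup_of_le_centralizer (le_trans ?_ (centralizer_anti inf_le_right))
    intro z hz
    rw [Subgroup.mem_centralizer_iff]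
    intro k hk
    exact (Subgroup.commute_of_normal_of_disjoint Z K hZn hKn (disjoint_iff.2 hi) z k hz hk).symm

end Cfsg.Agent.S4242
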