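import Mathlib
import Cfsg.Statements.S4250
import Cfsg.Agent.GT.TransferChains
-- import your own Cfsg.Agent.* helpers here

set_option autoImplicit false
open Cfsg

namespace Cfsg.Agent.S4250

open Cfsg.Agent.GT.Tr
open scoped commutatorElement

/-- Let P be a Sylow p-subgroup of a finite group G. Call an intersection H = P ∩ Q with a Sylow p-subgroup Q tame when N_P(H) and N_Q(H) are Sylow p-subgroups of N_G(H). Then P ∩ G′ is generated by [P, N_G(P)] together with the commutator subgroups [P ∩ Q, ⟨x⟩] for all tame intersections P ∩ Q and all p-elements x of N_G(P ∩ Q). -/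
theorem result {G : Type*} [Group G] [Finite G] (p : ℕ) [Fact p.Prime] (P : Sylow p G) :
    (P : Subgroup G) ⊓ commutator G =
      ⁅(P : Subgroup G), Subgroup.normalizer ((P : Subgroup G) : Set G)⁆ ⊔
        ⨆ (Q : Sylow p G) (_ : (¬ p ∣ ((P : Subgroup G) ⊓ Subgroup.normalizer (((P : Subgroup G) ⊓ (Q : Subgroup G) : Subgroup G) : Set G)).relIndex (Subgroup.normalizer (((P : Subgroup G) ⊓ (Q : Subgroup G) : Subgroup G) : Set G)) ∧ ¬ p ∣ ((Q : Subgroup G) ⊓ Subgroup.normalizer (((P : Subgroup G) ⊓ (Q : Subgroup G) : Subgroup G) : Set G)).relIndex (Subgroup.normalizer (((P : Subgroup G) ⊓ (Q : Subgroup G) : Subgroup G) : Set G))))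
          (x : G) (_ : x ∈ Subgroup.normalizer (((P : Subgroup G) ⊓ (Q : Subgroup G) : Subgroup G) : Set G) ∧ ∃ k : ℕ, orderOf x = p ^ k),
          ⁅(P : Subgroup G) ⊓ (Q : Subgroup G), Subgroup.zpowers x⁆ := by
  refine le_antisymm ?_ (sup_le ?_ (iSup_le fun Q => iSup_le fun _ => iSup_le fun x =>
    iSup_le fun hx => ?_))
  · rw [inf_comm (P : Subgroup G) (commutator G), Subgroup.commutator_inf_eq_focalSubgroup]
    set K := ⁅(P : Subgroup G), Subgroup.normalizer ((P : Subgroup G) : Set G)⁆ ⊔ _ with hK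
    have key : ∀ x y : G, x⁻¹ * (y * x * y⁻¹) = ⁅x⁻¹, y⁆ := fun x y => by
      rw [commutatorElement_def]; group
    refine focalSubgroup_le_iff.2 fun x hx g hg => ?_
    refine alperin_induction_tame P (fun A g => ∀ a ∈ A, a⁻¹ * (g * a * g⁻¹) ∈ K)
      (fun A D g hAD h a ha => h a (hAD ha)) (fun A g h h1 h2 a ha => ?_)
      (fun A g h1 => ?_) (fun n hn a ha => ?_) (fun Q B hB _ h1 h2 y hy hk a ha => ?_)
      (Subgroup.zpowers x) (Subgroup.zpowers_le.2 hx) g ?_ x (Subgroup.mem_zpowers x)
    · convert mul_mem (h1 a ha) (h2 _ (conj_mem_map_conj.2 ha)) using 1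
      group
    · rintro _ ⟨a, ha, rfl⟩
      convert inv_mem (h1 a ha) using 1
      simp only [MulEquiv.coe_toMonoidHom, MulAut.conj_apply]
      group
    · rw [key]
      exact Subgroup.mem_sup_left (Subgroup.commutator_mem_commutator (inv_mem ha) hn)
    · subst hB
      rw [key]
      refine Subgroup.mem_sup_right ?_
      refine Subgroup.mem_iSup_of_mem Q (Subgroup.mem_iSup_of_mem ⟨h1, h2⟩
        (Subgroup.mem_iSup_of_mem y (Subgroup.mem_iSup_of_mem ⟨hy, hk⟩ ?_)))
      exact Subgroup.commutator_mem_commutator (inv_mem ha) (Subgroup.mem_zpowers y)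
    · rintro _ ⟨k, rfl⟩
      have := zpow_mem hg k
      rwa [conj_zpow] at this
  · exact le_inf (Subgroup.le_normalizer_iff_commutator_le_left.1 le_rfl)
      (Subgroup.commutator_mono le_top le_top)
  · exact le_inf ((Subgroup.le_normalizer_iff_commutator_le_left.1
      (Subgroup.zpowers_le.2 hx.1)).trans inf_le_left) (Subgroup.commutator_mono le_top le_top)

end Cfsg.Agent.S4250
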