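import Mathlib
import Cfsg.Statements.S4251
import Cfsg.Agent.GT.TransferChains
-- import your own Cfsg.Agent.* helpers here

set_option autoImplicit false
open Cfsg

namespace Cfsg.Agent.S4251

open Cfsg.Agent.GT.Tr

/-- Let P be a Sylow p-subgroup of a finite group G. Call an intersection H = P ∩ Q with a Sylow p-subgroup Q tame when N_P(H) and N_Q(H) are Sylow p-subgroups of N_G(H). If N_G(H)/C_G(H) is a p-group for every nontrivial tame intersection H = P ∩ Q, then G has a normal p-complement. -/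
theorem result {G : Type*} [Group G] [Finite G] (p : ℕ) [Fact p.Prime] (P : Sylow p G)
    (h : ∀ Q : Sylow p G, (P : Subgroup G) ⊓ (Q : Subgroup G) ≠ ⊥ → (¬ p ∣ ((P : Subgroup G) ⊓ Subgroup.normalizer (((P : Subgroup G) ⊓ (Q : Subgroup G) : Subgroup G) : Set G)).relIndex (Subgroup.normalizer (((P : Subgroup G) ⊓ (Q : Subgroup G) : Subgroup G) : Set G)) ∧ ¬ p ∣ ((Q : Subgroup G) ⊓ Subgroup.normalizer (((P : Subgroup G) ⊓ (Q : Subgroup G) : Subgroup G) : Set G)).relIndex (Subgroup.normalizer (((P : Subgroup G) ⊓ (Q : Subgroup G) : Subgroup G) : Set G))) →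
      IsPGroup p (Subgroup.normalizer (((P : Subgroup G) ⊓ (Q : Subgroup G) : Subgroup G) : Set G) ⧸
        (Subgroup.centralizer (((P : Subgroup G) ⊓ (Q : Subgroup G) : Subgroup G) : Set G)).subgroupOf
          (Subgroup.normalizer (((P : Subgroup G) ⊓ (Q : Subgroup G) : Subgroup G) : Set G)))) :
    Cfsg.HasNormalPComplement p G := by
  have key : ∀ (Q : Sylow p G) (B : Subgroup G), B = (P : Subgroup G) ⊓ (Q : Subgroup G) →
      ¬ p ∣ ((P : Subgroup G) ⊓ Subgroup.normalizer (B : Set G)).relIndex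
        (Subgroup.normalizer (B : Set G)) →
      ¬ p ∣ ((Q : Subgroup G) ⊓ Subgroup.normalizer (B : Set G)).relIndex
        (Subgroup.normalizer (B : Set G)) →
      ∀ y ∈ Subgroup.normalizer (B : Set G),
        ∃ m ∈ (P : Subgroup G), ∀ a ∈ B, y * a * y⁻¹ = m * a * m⁻¹ := by
    rintro Q B rfl h1 h2 y hy
    by_cases hb : (P : Subgroup G) ⊓ (Q : Subgroup G) = ⊥
    · refine ⟨1, one_mem _, fun b hb' => ?_⟩
      rw [hb, Subgroup.mem_bot] at hb'
      simp [hb']
    obtain ⟨s, hs, h3⟩ := exists_conj_eq_of_coprime_centralize inf_le_right h1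
      (fun g hg hc => pResidual_le_of_isPGroup_quotient (h Q hb ⟨h1, h2⟩)
        (mem_pResidual (g := ⟨g, hg⟩) (by rwa [← Subgroup.orderOf_coe]))) inf_le_right hy
    exact ⟨s, hs.1, h3⟩
  have hPP : ¬ p ∣ ((P : Subgroup G) ⊓ Subgroup.normalizer ((P : Subgroup G) : Set G)).relIndex
      (Subgroup.normalizer ((P : Subgroup G) : Set G)) := by
    rw [Subgroup.inf_relIndex_right]
    exact fun h => P.not_dvd_index
      (h.trans (Subgroup.relIndex_dvd_index_of_le Subgroup.le_normalizer))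
  refine hasNormalPComplement_of_fusion P fun x hx g hg => ?_
  obtain ⟨m, hm, h1⟩ := alperin_induction_tame P
    (fun A g => ∃ m ∈ (P : Subgroup G), ∀ a ∈ A, g * a * g⁻¹ = m * a * m⁻¹)
    (fun A D g hAD ⟨m, hm, h⟩ => ⟨m, hm, fun a ha => h a (hAD ha)⟩)
    (fun A g h ⟨m, hm, h1⟩ ⟨m', hm', h2⟩ => ⟨m' * m, mul_mem hm' hm, fun a ha => by
      have := h2 _ (conj_mem_map_conj.2 ha)
      calc h * g * a * (h * g)⁻¹ = h * (g * a * g⁻¹) * h⁻¹ := by group
        _ = m' * (m * a * m⁻¹) * m'⁻¹ := by rw [this, h1 a ha]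
        _ = _ := by group⟩)
    (fun A g ⟨m, hm, h1⟩ => ⟨m⁻¹, inv_mem hm, by
      rintro _ ⟨a, ha, rfl⟩
      change g⁻¹ * (g * a * g⁻¹) * g⁻¹⁻¹ = m⁻¹ * (g * a * g⁻¹) * m⁻¹⁻¹
      conv_rhs => rw [h1 a ha]
      group⟩)
    (key P P (inf_idem _).symm hPP hPP) (fun Q B hB _ h1 h2 y hy _ => key Q B hB h1 h2 y hy)
    (Subgroup.zpowers x) (Subgroup.zpowers_le.2 hx) g (by
      rintro _ ⟨k, rfl⟩
      have := zpow_mem hg k
      rwa [conj_zpow] at this)
  exact ⟨m, hm, h1 x (Subgroup.mem_zpowers x)⟩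

end Cfsg.Agent.S4251
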