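import Mathlib
import Cfsg.Statements.S4252
import Cfsg.Agent.GT.FrobeniusBasic

set_option autoImplicit false
open Cfsg

namespace Cfsg.Agent.S4252

/-- Let a finite group G act on a finite set Ω with more than one point, transitively but not regularly, so that no non-identity element of G fixes two distinct points. Then the stabilizer H of any point is a Frobenius complement in G (nontrivial, proper, meeting its other conjugates trivially), and the Frobenius kernel of G with respect to H (the identity together with the elements lying in no conjugate of H) is exactly the set consisting of the identity and the elements fixing no point. -/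
theorem result {G Ω : Type*} [Group G] [Finite G] [Fintype Ω] [MulAction G Ω] (hΩ : 1 < Fintype.card Ω)
    (htrans : ∀ α β : Ω, ∃ g : G, g • α = β) (hnreg : ∃ g : G, g ≠ 1 ∧ ∃ α : Ω, g • α = α)
    (hfix : ∀ g : G, g ≠ 1 → ∀ α β : Ω, g • α = α → g • β = β → α = β) (α : Ω) :
    Cfsg.IsFrobeniusComplement (MulAction.stabilizer G α) ∧
      Cfsg.frobeniusKernel (MulAction.stabilizer G α) = {g : G | g = 1 ∨ ∀ ω : Ω, g • ω ≠ ω} := by
  constructor
  · refine GT.Frob.isFrobeniusComplement_iff.mpr ⟨?_, ?_, ?_⟩
    · obtain ⟨g, hg, β, hβ⟩ := hnreg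
      obtain ⟨a, rfl⟩ := htrans α β
      intro h
      have : a⁻¹ * g * a ∈ MulAction.stabilizer G α := by
        rw [MulAction.mem_stabilizer_iff, mul_smul, mul_smul, hβ, inv_smul_smul]
      rw [h, Subgroup.mem_bot] at this
      apply hg
      have h2 : g = a * (a⁻¹ * g * a) * a⁻¹ := by group
      rw [h2, this]; simp
    · intro h
      obtain ⟨β, hβ⟩ := Fintype.exists_ne_of_one_lt_card hΩ α
      obtain ⟨a, rfl⟩ := htrans α β
      exact hβ (MulAction.mem_stabilizer_iff.mp (h ▸ Subgroup.mem_top a))
    · intro g x hx hx1 hgx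
      rw [MulAction.mem_stabilizer_iff] at hx hgx ⊢
      have h1 : x • g⁻¹ • α = g⁻¹ • α := by
        rw [eq_inv_smul_iff, ← mul_smul, ← mul_smul]; exact hgx
      have := hfix x hx1 _ _ hx h1
      exact (eq_inv_smul_iff.mp this)
  · ext g
    rw [GT.Frob.mem_frobeniusKernel_iff]
    refine or_congr_right ⟨fun h ω hω => ?_, fun h a ha => ?_⟩
    · obtain ⟨a, rfl⟩ := htrans α ω
      refine h a⁻¹ ?_
      rw [MulAction.mem_stabilizer_iff, inv_inv, mul_smul, mul_smul, hω, inv_smul_smul]
    · refine h (a⁻¹ • α) ?_
      rw [MulAction.mem_stabilizer_iff] at ha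
      rw [eq_inv_smul_iff, ← mul_smul, ← mul_smul]; exact ha

end Cfsg.Agent.S4252
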