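import Mathlib
import Cfsg.Statements.S4253
import Cfsg.Agent.GT.FrobeniusBasic

set_option autoImplicit false
open Cfsg

namespace Cfsg.Agent.S4253

/-- Let H be a Frobenius complement in a finite group G (a nontrivial proper subgroup meeting each conjugate gHg⁻¹ with g outside H trivially). Then in the action of G on the left cosets of H by left multiplication, no non-identity element of G fixes two distinct cosets. -/
theorem result {G : Type*} [Group G] [Finite G] (H : Subgroup G) (hH : Cfsg.IsFrobeniusComplement H)
    (g : G) (hg : g ≠ 1) (a b : G ⧸ H) (ha : g • a = a) (hb : g • b = b) : a = b := by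
  obtain ⟨a, rfl⟩ := QuotientGroup.mk_surjective a
  obtain ⟨b, rfl⟩ := QuotientGroup.mk_surjective b
  change ((g * a : G) : G ⧸ H) = _ at ha
  change ((g * b : G) : G ⧸ H) = _ at hb
  have h1 := H.inv_mem (QuotientGroup.eq.mp ha)
  have h2 := H.inv_mem (QuotientGroup.eq.mp hb)
  refine QuotientGroup.eq.mpr (hH.mem_of_conj_mem h2 (fun h => hg ?_) ?_)
  · have : g = b * ((g * b)⁻¹ * b)⁻¹ * b⁻¹ := by group
    rw [this, h]; simp
  · convert h1 using 1; group

end Cfsg.Agent.S4253
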