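import Mathlib
import Cfsg.Statements.S4260

set_option autoImplicit false
open Cfsg

namespace Cfsg.Agent.S4260

/-- Let H be a Hall subgroup of a finite group G (the order of H is coprime to its index) such that x^[G : H] lies in H for every x in G. Then H is normal in G. -/
theorem result {G : Type*} [Group G] [Finite G] (H : Subgroup G) (hHall : (Nat.card H).Coprime H.index)
    (hexp : ∀ x : G, x ^ H.index ∈ H) : H.Normal := by
  -- elements of order coprime to the index lie in `H`
  have key : ∀ x : G, (orderOf x).Coprime H.index → x ∈ H := by
    intro x hx
    have h1 := hexp x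
    obtain ⟨m, hm⟩ := exists_pow_eq_self_of_coprime hx.symm
    rw [← hm]
    exact H.pow_mem h1 m
  constructor
  intro h hh g
  apply key
  have : orderOf (g * h * g⁻¹) = orderOf h := by
    have := (MulAut.conj g).orderOf_eq h
    simpa using this
  rw [this]
  exact Nat.Coprime.coprime_dvd_left (H.orderOf_dvd_natCard hh) hHall

end Cfsg.Agent.S4260
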