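import Mathlib
import Cfsg.Statements.S4261
import Cfsg.Agent.GT.Frattini
import Cfsg.Agent.GT.PPrimeCore
import Cfsg.Agent.GT.PGroupChain
import Cfsg.Agent.GT.Supersolvable2

set_option autoImplicit false
open Cfsg

namespace Cfsg.Agent.S4261

/-- Let M be a maximal subgroup of a finite solvable group G such that x^[G : M] lies in M for every x in G. Then M is normal in G. -/
theorem result {G : Type*} [Group G] [Finite G] (hG : Group.IsSolvable G) (M : Subgroup G) (hM : IsCoatom M)
    (hexp : ∀ x : G, x ^ M.index ∈ M) : M.Normal := by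
  obtain ⟨p, k, hp, -, hk⟩ := (isPrimePow_nat_iff _).1 (GT.isPrimePow_index_of_isCoatom hM)
  haveI : Fact p.Prime := ⟨hp⟩
  have hle : Cfsg.pResidual p G ≤ M := by
    rw [GT.pResidual_le_iff]
    intro x hx
    have h1 := hexp x
    have hc : (orderOf x).Coprime M.index := by rw [← hk]; exact hx.pow_right k
    obtain ⟨m, hm⟩ := exists_pow_eq_self_of_coprime hc.symm
    rw [← hm]
    exact M.pow_mem h1 m
  haveI : (Cfsg.pResidual p G).Characteristic := GT.pResidual_characteristic
  have h1 := GT.SS.isCoatom_map_mk' hM hle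
  have h2 := GT.PG.normal_of_isCoatom (GT.isPGroup_quotient_pResidual p) h1
  have h3 := h2.comap (QuotientGroup.mk' (Cfsg.pResidual p G))
  rwa [Subgroup.comap_map_eq_self (by rwa [QuotientGroup.ker_mk'])] at h3

end Cfsg.Agent.S4261
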