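import Mathlib
import Cfsg.Statements.S4263
import Cfsg.Agent.GT.Fitting
import Cfsg.Agent.GT.Subnormal
import Cfsg.Agent.S4244

set_option autoImplicit false
open Cfsg

namespace Cfsg.Agent.S4263

open Cfsg.Agent.GT

theorem mem_of_forall_prime {G : Type*} [Group G] [Finite G] (F : Subgroup G) (x : G)
    (h : ∀ p : ℕ, p.Prime → ∃ n : ℕ, ¬ p ∣ n ∧ x ^ n ∈ F) : x ∈ F := by
  have hle : Subgroup.zpowers x ≤ F := by
    rw [← Subgroup.relIndex_eq_one]
    by_contra hne
    obtain ⟨p, hp, hd⟩ := Nat.exists_prime_and_dvd hne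
    obtain ⟨n, hn, hx⟩ := h p hp
    apply hn
    refine hd.trans ?_
    let y : Subgroup.zpowers x := ⟨x, Subgroup.mem_zpowers x⟩
    have : IsMulCommutative (Subgroup.zpowers x) := inferInstance
    have hN : (F.subgroupOf (Subgroup.zpowers x)).Normal := Subgroup.normal_of_isMulCommutative _
    have hy : (y : Subgroup.zpowers x ⧸ F.subgroupOf (Subgroup.zpowers x)) ^ n = 1 := by
      rw [← QuotientGroup.mk_pow, QuotientGroup.eq_one_iff]
      exact hx
    have hgen : ∀ z : Subgroup.zpowers x ⧸ F.subgroupOf (Subgroup.zpowers x),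
        z ∈ Subgroup.zpowers (y : Subgroup.zpowers x ⧸ F.subgroupOf (Subgroup.zpowers x)) := by
      intro z
      obtain ⟨⟨_, k, rfl⟩, rfl⟩ := QuotientGroup.mk_surjective z
      exact ⟨k, (QuotientGroup.mk_zpow _ y k).symm⟩
    have := orderOf_eq_card_of_forall_mem_zpowers hgen
    change Nat.card _ ∣ n
    rw [← this]
    exact orderOf_dvd_of_pow_eq_one hy
  exact hle (Subgroup.mem_zpowers x)

/-- Let G be a finite group. An element x lies in the Fitting subgroup F(G) if and only if, for every subgroup H of G, the power x^[G : H] lies in H. -/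
theorem result {G : Type*} [Group G] [Finite G] (x : G) :
    x ∈ Cfsg.fittingSubgroup G ↔ ∀ H : Subgroup G, x ^ H.index ∈ H := by
  constructor
  · intro hx H
    have hs : (Subgroup.zpowers x).IsSubnormal :=
      (subnormalIn_of_isNilpotent (L := Cfsg.fittingSubgroup G) inferInstance
        (by rwa [Subgroup.zpowers_le])).isSubnormal (Subgroup.Normal.isSubnormal inferInstance)
    obtain ⟨c, hc⟩ := Cfsg.Agent.S4244.result _ hs H
    rw [hc, pow_mul]
    apply H.pow_mem
    have : IsMulCommutative (Subgroup.zpowers x) := inferInstance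
    have hN : ((Subgroup.zpowers x ⊓ H).subgroupOf (Subgroup.zpowers x)).Normal :=
      Subgroup.normal_of_isMulCommutative _
    have := Subgroup.pow_index_mem ((Subgroup.zpowers x ⊓ H).subgroupOf (Subgroup.zpowers x))
      ⟨x, Subgroup.mem_zpowers x⟩
    exact this.2
  · intro h
    apply mem_of_forall_prime
    intro p hp
    have : Fact p.Prime := ⟨hp⟩
    obtain ⟨P⟩ : Nonempty (Sylow p G) := inferInstance
    refine ⟨(P : Subgroup G).index, P.not_dvd_index, pCore_le_fitting hp ?_⟩
    rw [pCore_eq_iInf_sylow, Subgroup.mem_iInf]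
    intro Q
    have hi : (P : Subgroup G).index = (Q : Subgroup G).index := by
      have h1 := Subgroup.card_mul_index (P : Subgroup G)
      have h2 := Subgroup.card_mul_index (Q : Subgroup G)
      rw [Sylow.card_eq_multiplicity] at h1 h2
      exact Nat.eq_of_mul_eq_mul_left (pow_pos hp.pos _) (h1.trans h2.symm)
    rw [hi]
    exact h Q

end Cfsg.Agent.S4263
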