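import Mathlib
import Cfsg.Statements.S4264
import Cfsg.Agent.FG.ClassCount
import Cfsg.Agent.Perm.Basic
import Cfsg.Agent.Sym.Basic

set_option autoImplicit false
open Cfsg

namespace Cfsg.Agent.S4264

set_option linter.unusedVariables false

open MulAction Cfsg.Agent.FG

theorem card_conjClasses_perm_le (X : Type) [Fintype X] [DecidableEq X] :
    Nat.card (ConjClasses (Equiv.Perm X)) ≤ 2 ^ (Fintype.card X - 1) := by
  rw [← composition_card, ← Nat.card_eq_fintype_card]
  refine le_trans ?_ (Nat.card_le_card_of_surjective _ Nat.Partition.ofComposition_surj)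
  refine Nat.card_le_card_of_injective
    (Quotient.lift (fun σ : Equiv.Perm X => σ.partition)
      fun a b h => Equiv.Perm.partition_eq_of_isConj.1 h) ?_
  rintro ⟨a⟩ ⟨b⟩ h
  exact Quotient.sound (Equiv.Perm.partition_eq_of_isConj.2 h)

/-- Bochert: a primitive group not containing the alternating group has a base of size at most
half the degree. -/
theorem exists_base {G Ω : Type*} [Group G] [MulAction G Ω] [FaithfulSMul G Ω] [Fintype Ω]
    [DecidableEq Ω] (hprim : IsPreprimitive G Ω)
    (hA : ¬ alternatingGroup Ω ≤ (toPermHom G Ω).range) :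
    ∃ Δ : Finset Ω, 2 * Δ.card ≤ Fintype.card Ω ∧ ∀ g : G, (∀ x ∈ Δ, g • x = x) → g = 1 := by
  classical
  have hex : ∃ k, ∃ Δ : Finset Ω, Δ.card = k ∧ ∀ g : G, (∀ x ∈ Δ, g • x = x) → g = 1 :=
    ⟨_, Finset.univ, rfl, fun g hg => Perm.eq_one_of_smul_eq fun x => hg x (Finset.mem_univ x)⟩
  obtain ⟨Δ, hΔ, hb⟩ := Nat.find_spec hex
  have hmin : ∀ Γ : Finset Ω, Γ.card < Δ.card → ∃ g : G, (∀ x ∈ Γ, g • x = x) ∧ g ≠ 1 := by
    intro Γ hΓ
    have := Nat.find_min hex (hΔ ▸ hΓ)
    push Not at this
    exact this Γ rfl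
  have hle := Finset.card_le_univ Δ
  refine ⟨Δ, ?_, hb⟩
  by_contra hk
  obtain ⟨g, hg, hg1⟩ := hmin Δᶜ (by rw [Finset.card_compl]; omega)
  obtain ⟨a, ha⟩ := Perm.exists_smul_ne (X := Ω) hg1
  have haΔ : a ∈ Δ := by
    by_contra h
    exact ha (hg a (by simpa using h))
  obtain ⟨h, hh, hh1⟩ := hmin (Δ.erase a) (Finset.card_erase_lt_of_mem haΔ)
  have hha : h • a ≠ a := fun e => hh1 (hb h fun x hx => by
    by_cases hxa : x = a
    · rw [hxa, e]
    · exact hh x (Finset.mem_erase.2 ⟨hxa, hx⟩))
  have := (Sym.isThreeCycle_commutator_of_inter (g := toPermHom G Ω g) (h := toPermHom G Ω h)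
    (a := a) ha hha (fun x h1 h2 => by
      by_contra hxa
      by_cases hx : x ∈ Δ
      · exact h2 (hh x (Finset.mem_erase.2 ⟨hxa, hx⟩))
      · exact h1 (hg x (by simpa using hx)))).2
  exact hA (Equiv.Perm.alternatingGroup_le_of_isPreprimitive_of_isThreeCycle_mem
    (Perm.isPreprimitive_range_iff.2 hprim) this
    ⟨g * h * g⁻¹ * h⁻¹, by simp only [map_mul, map_inv]⟩)

theorem prim_case (G X : Type) [Group G] [Finite G] [Finite X] [MulAction G X] [FaithfulSMul G X]
    (h : IsPreprimitive G X)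
    (ih : ∀ (H Z : Type) [Group H] [Finite H] [Finite Z] [MulAction H Z] [FaithfulSMul H Z],
      Nonempty Z → Nat.card Z < Nat.card X → Nat.card (ConjClasses H) ≤ 5 ^ (Nat.card Z - 1)) :
    Nat.card (ConjClasses G) ≤ 5 ^ (Nat.card X - 1) := by
  classical
  cases nonempty_fintype X
  have hinj : Function.Injective (toPermHom G X) := toPerm_injective
  by_cases hA : alternatingGroup X ≤ (toPermHom G X).range
  · rw [card_conjClasses_congr (MonoidHom.ofInjective hinj)]
    set R := (toPermHom G X).range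
    rcases le_or_gt (Nat.card X) 7 with hn | hn
    · have h1 : Nat.card (ConjClasses R) ≤ (Nat.card X).factorial := by
        refine card_conjClasses_le_card.trans ?_
        rw [← Nat.card_perm]
        exact R.card_le_card_group
      refine h1.trans ?_
      generalize Nat.card X = n at hn
      interval_cases n <;> decide
    · have h4 : 4 ^ Nat.card X ≤ 5 ^ (Nat.card X - 1) := by
        obtain ⟨m, hm⟩ : ∃ m, Nat.card X = m + 8 := ⟨Nat.card X - 8, by omega⟩
        rw [hm, show m + 8 - 1 = m + 7 by omega, pow_add, pow_add]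
        exact Nat.mul_le_mul (Nat.pow_le_pow_left (by norm_num) _) (by norm_num)
      refine le_trans ?_ h4
      have : Nontrivial X := by
        rw [← Finite.one_lt_card_iff_nontrivial]; omega
      have h1 : R.index ≤ 2 := by
        rw [← alternatingGroup.index_eq_two (α := X)]
        exact Nat.le_of_dvd (by rw [alternatingGroup.index_eq_two]; norm_num)
          (Subgroup.index_dvd_of_le hA)
      refine (card_conjClasses_subgroup_le R).trans ?_
      refine (Nat.mul_le_mul h1 (card_conjClasses_perm_le X)).trans ?_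
      rw [← pow_succ', ← Nat.card_eq_fintype_card, Nat.sub_add_cancel (by omega)]
      exact Nat.pow_le_pow_left (by norm_num) _
  obtain ⟨Δ, hΔ, hb⟩ := exists_base h hA
  rw [← Nat.card_eq_fintype_card] at hΔ
  rcases Δ.eq_empty_or_nonempty with rfl | ⟨a, ha⟩
  · have : Subsingleton G := ⟨fun x y => by
      rw [hb x (by simp), hb y (by simp)]⟩
    refine card_conjClasses_le_card.trans ?_
    rw [Nat.card_unique]
    exact Nat.one_le_pow _ _ (by norm_num)
  have hpos : 0 < Δ.card := Finset.card_pos.2 ⟨a, ha⟩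
  open Pointwise in
  let H : Subgroup G := stabilizer G Δ
  let S : SubMulAction H X := ⟨{x | x ∈ Δ}, fun g x hx => by
    have h1 := Finset.smul_mem_smul_finset (a := (g : G)) (show x ∈ Δ from hx)
    rwa [mem_stabilizer_iff.1 g.2] at h1⟩
  have hfaith : FaithfulSMul H S := ⟨fun {x y} e => by
    rw [← inv_mul_eq_one]
    refine Subtype.ext (hb _ fun z hz => ?_)
    have h1 : (x : G) • z = (y : G) • z := congrArg Subtype.val (e ⟨z, hz⟩)
    rw [Subgroup.coe_mul, Subgroup.coe_inv, mul_smul, ← h1, inv_smul_smul]⟩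
  have hS : Nat.card S = Δ.card := (Nat.card_eq_fintype_card (α := Δ)).trans (Fintype.card_coe Δ)
  have h1 := ih H S ⟨⟨a, ha⟩⟩ (by omega)
  have h2 : H.index ≤ 2 ^ Nat.card X := by
    open Pointwise in
    rw [index_stabilizer, Nat.card_eq_fintype_card, ← Fintype.card_finset,
      ← Nat.card_eq_fintype_card]
    exact Set.ncard_le_card _
  refine (card_conjClasses_le_index_mul H).trans ((Nat.mul_le_mul h2 h1).trans ?_)
  have h3 : 2 ^ Nat.card X ≤ 5 ^ (Nat.card X - Δ.card) :=
    (Nat.pow_le_pow_right (by norm_num) (show Nat.card X ≤ 2 * (Nat.card X - Δ.card) by omega)).trans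
      (by rw [pow_mul]; exact Nat.pow_le_pow_left (by norm_num) _)
  refine (Nat.mul_le_mul_right _ h3).trans ?_
  rw [← pow_add, hS]
  exact Nat.pow_le_pow_right (by norm_num) (by omega)

theorem main (n : ℕ) : ∀ (G X Y : Type) [Group G] [Finite G] [Finite X] [MulAction G X]
    [FaithfulSMul G X] (π : X → Y), Function.Surjective π → (∀ (g : G) x, π (g • x) = π x) →
    Nat.card X = n → Nat.card (ConjClasses G) ≤ 5 ^ (n - Nat.card Y) := by
  induction n using Nat.strong_induction_on with
  | _ n ih =>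
  have two : ∀ (G X Y : Type) [Group G] [Finite G] [Finite X] [MulAction G X]
      [FaithfulSMul G X] (π : X → Y), Function.Surjective π → (∀ (g : G) x, π (g • x) = π x) →
      Nat.card X = n → Nontrivial Y → Nat.card (ConjClasses G) ≤ 5 ^ (n - Nat.card Y) := by
    intro G X Y _ _ _ _ _ π hπ hinv hn hY
    classical
    have : Finite Y := Finite.of_surjective π hπ
    obtain ⟨y, y', hyy⟩ := hY
    let S₁ : SubMulAction G X := ⟨{x | π x = y}, fun g x hx => (hinv g x).trans hx⟩
    let S₂ : SubMulAction G X := ⟨{x | π x ≠ y}, fun g x hx h => hx ((hinv g x).symm.trans h)⟩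
    have hsum : Nat.card S₁ + Nat.card S₂ = n := by
      rw [← hn, ← Nat.card_sum]
      exact Nat.card_congr (Equiv.sumCompl fun x => π x = y)
    have hY' : Nat.card {z : Y // z ≠ y} + 1 = Nat.card Y := by
      have := Nat.card_congr (Equiv.sumCompl fun z : Y => z = y)
      rw [Nat.card_sum, Nat.card_unique] at this
      rw [← this, add_comm]
    obtain ⟨x₁, hx₁⟩ := hπ y
    obtain ⟨x₂, hx₂⟩ := hπ y'
    have hne₁ : Nonempty S₁ := ⟨⟨x₁, hx₁⟩⟩
    have hne₂ : Nonempty S₂ := ⟨⟨x₂, fun h => hyy (h.symm.trans hx₂)⟩⟩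
    have hp₁ : 0 < Nat.card S₁ := Nat.card_pos
    have hp₂ : 0 < Nat.card S₂ := Nat.card_pos
    let f := toPermHom G S₁
    have h1 := ih _ (by omega) f.range S₁ Unit (fun _ => ()) (fun _ => ⟨hne₁.some, rfl⟩)
      (fun _ _ => rfl) rfl
    have hfaith : FaithfulSMul f.ker S₂ := ⟨fun {a b} h => by
      apply Subtype.ext
      apply eq_of_smul_eq_smul (α := X)
      intro x
      by_cases hx : π x = y
      · have ha := congrArg Subtype.val (Equiv.ext_iff.1 (MonoidHom.mem_ker.1 a.2) ⟨x, hx⟩)
        have hb := congrArg Subtype.val (Equiv.ext_iff.1 (MonoidHom.mem_ker.1 b.2) ⟨x, hx⟩)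
        exact ha.trans hb.symm
      · exact congrArg Subtype.val (h ⟨x, hx⟩)⟩
    let π₂ : S₂ → {z : Y // z ≠ y} := fun x => ⟨π x, x.2⟩
    have hπ₂ : Function.Surjective π₂ := by
      rintro ⟨z, hz⟩
      obtain ⟨x, rfl⟩ := hπ z
      exact ⟨⟨x, hz⟩, rfl⟩
    have h2 := ih _ (by omega) f.ker S₂ {z : Y // z ≠ y} π₂ hπ₂
      (fun g x => Subtype.ext (hinv g x)) rfl
    have h3 := Nat.card_le_card_of_surjective π₂ hπ₂
    refine (card_conjClasses_le_ker_mul_range f).trans ((Nat.mul_le_mul h2 h1).trans ?_)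
    rw [← pow_add, Nat.card_unique (α := Unit)]
    exact Nat.pow_le_pow_right (by norm_num) (by omega)
  intro G X Y _ _ _ _ _ π hπ hinv hn
  classical
  have : Finite Y := Finite.of_surjective π hπ
  rcases subsingleton_or_nontrivial Y with hY | hY
  swap
  · exact two G X Y π hπ hinv hn hY
  have hle : n - 1 ≤ n - Nat.card Y := by
    have := Finite.card_le_one_iff_subsingleton.2 hY
    omega
  refine le_trans ?_ (Nat.pow_le_pow_right (by norm_num) hle)
  by_cases ht : IsPretransitive G X
  swap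
  · have hq : Nontrivial (orbitRel.Quotient G X) := by
      by_contra hq
      rw [not_nontrivial_iff_subsingleton] at hq
      refine ht ⟨fun a b => ?_⟩
      have : (Quotient.mk'' b : orbitRel.Quotient G X) = Quotient.mk'' a := Subsingleton.elim _ _
      exact Quotient.exact this
    refine (two G X (orbitRel.Quotient G X) Quotient.mk'' Quotient.mk''_surjective
      (fun g x => Quotient.sound ⟨g, rfl⟩) hn hq).trans (Nat.pow_le_pow_right (by norm_num) ?_)
    have : 0 < Nat.card (orbitRel.Quotient G X) := Nat.card_pos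
    omega
  by_cases hp : IsPreprimitive G X
  · rw [← hn]
    refine prim_case G X hp fun H Z _ _ _ _ _ hZ hlt => ?_
    have := ih _ (hn ▸ hlt) H Z Unit (fun _ => ()) (fun _ => ⟨hZ.some, rfl⟩) (fun _ _ => rfl) rfl
    rwa [Nat.card_unique (α := Unit)] at this
  have hex : ∃ r : X → X → Prop, Equivalence r ∧ (∀ (g : G) x y, r x y → r (g • x) (g • y)) ∧
      ¬ ((∀ x y, r x y → x = y) ∨ ∀ x y, r x y) := by
    by_contra hcon
    apply hp
    refine Perm.isPreprimitive_of_rel fun r h1 h2 => ?_
    by_contra h3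
    exact hcon ⟨r, h1, h2, h3⟩
  obtain ⟨r, hr, hrinv, hr'⟩ := hex
  push Not at hr'
  obtain ⟨⟨a, b, hab, hab'⟩, c, d, hcd⟩ := hr'
  let s : Setoid X := ⟨r, hr⟩
  let _ : MulAction G (Quotient s) :=
    { smul := fun g => Quotient.map (fun x => g • x) fun x y h => hrinv g x y h
      one_smul := by
        rintro ⟨x⟩
        exact congrArg (Quotient.mk s) (one_smul G x)
      mul_smul := by
        rintro g h ⟨x⟩
        exact congrArg (Quotient.mk s) (mul_smul g h x) }
  have hQ : Nontrivial (Quotient s) :=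
    ⟨⟨Quotient.mk s c, Quotient.mk s d, fun h => hcd (Quotient.exact h)⟩⟩
  have hlt : Nat.card (Quotient s) < n := by
    rw [← hn]
    refine lt_of_le_of_ne (Nat.card_le_card_of_surjective _ Quotient.mk_surjective) fun h => ?_
    have hb := (Nat.bijective_iff_surjective_and_card (Quotient.mk s)).2
      ⟨Quotient.mk_surjective, h.symm⟩
    exact hab' (hb.1 (Quotient.sound hab))
  let f := toPermHom G (Quotient s)
  have h1 := ih _ hlt f.range (Quotient s) Unit (fun _ => ())
    (fun _ => ⟨Quotient.mk s a, rfl⟩) (fun _ _ => rfl) rfl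
  have h2 := two f.ker X (Quotient s) (Quotient.mk s) Quotient.mk_surjective
    (fun g x => Equiv.ext_iff.1 (MonoidHom.mem_ker.1 g.2) (Quotient.mk s x)) hn hQ
  refine (card_conjClasses_le_ker_mul_range f).trans ((Nat.mul_le_mul h2 h1).trans ?_)
  rw [← pow_add, Nat.card_unique (α := Unit)]
  have : 0 < Nat.card (Quotient s) := Nat.card_pos
  exact Nat.pow_le_pow_right (by norm_num) (by omega)


/-- Let G be a subgroup of the symmetric group of degree d ≥ 1. Then G has at most 5^{d−1} conjugacy classes. -/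
theorem result (d : ℕ) (hd : 1 ≤ d) (G : Subgroup (Equiv.Perm (Fin d))) : Nat.card (ConjClasses ↥G) ≤ 5 ^ (d - 1) := by
  have := main d G (Fin d) Unit (fun _ => ()) (fun _ => ⟨⟨0, hd⟩, rfl⟩) (fun _ _ => rfl)
    (by simp)
  simpa using this

end Cfsg.Agent.S4264
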