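import Cfsg.Statements.S4265
import Cfsg.Agent.FG.HKT

set_option autoImplicit false
open Cfsg

namespace Cfsg.Agent.S4265

/-- Let G be a finite solvable subgroup of GL_r(ℂ), r ≥ 1, with Fitting subgroup F(G) normal in G. Then for every subgroup H of G the quotient H/(H ∩ F(G)) has at most 3^{r−1} conjugacy classes. -/
theorem result (r : ℕ) (hr : 1 ≤ r) (G : Subgroup (GL (Fin r) ℂ)) [Finite ↥G] (hsolv : Group.IsSolvable ↥G) [hF : (Cfsg.fittingSubgroup ↥G).Normal] (H : Subgroup ↥G) : Nat.card (ConjClasses (↥H ⧸ (Cfsg.fittingSubgroup ↥G).subgroupOf H)) ≤ 3 ^ (r - 1) := by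
  let ρ : G →* Module.End ℂ (Fin r → ℂ) :=
    (Matrix.toLinAlgEquiv' : Matrix (Fin r) (Fin r) ℂ ≃ₐ[ℂ] _).toMonoidHom.comp
      ((Units.coeHom _).comp G.subtype)
  obtain ⟨Q, _, π, hs, hu, h⟩ := FG.HK.fk_lin r G (Fin r → ℂ) ρ (by simp) hr
  have := Finite.of_surjective π hs
  have h1 := h.of_inj π ((injective_iff_map_eq_one π).2 fun g hg => Subtype.ext (Units.ext
    ((Matrix.toLinAlgEquiv' : Matrix (Fin r) (Fin r) ℂ ≃ₐ[ℂ] _).injective
      (((hu g hg).eq_one (Nat.cast_ne_zero.2 (orderOf_pos g).ne')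
        (by rw [← map_pow, pow_orderOf_eq_one, map_one])).trans (map_one ρ).symm))))
  exact (FG.HK.KB.of_inj h1 (QuotientGroup.map _ _ H.subtype le_rfl)
    ((MonoidHom.ker_eq_bot_iff _).1 (eq_bot_iff.2 fun y hy => by
      obtain ⟨g, rfl⟩ := QuotientGroup.mk_surjective y
      exact (QuotientGroup.eq_one_iff _).2 ((QuotientGroup.eq_one_iff (g : G)).1 hy)))).top

end Cfsg.Agent.S4265
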