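import Mathlib
import Cfsg.Statements.S4269
import Cfsg.Agent.FG.Pronormal

set_option autoImplicit false
open Cfsg

namespace Cfsg.Agent.S4269

open Cfsg.Agent.GT Cfsg.Agent.FG Cfsg.Agent.FG.PN
open scoped commutatorElement

/-- Let G be a finite group, V an abelian normal subgroup and H a subgroup with HV = G. Then H is pronormal in G (H and gHg⁻¹ are conjugate inside the subgroup they generate, for every g) if and only if every H-invariant subgroup U of V satisfies U = N_U(H)·[H, U], that is, U is the join of U ∩ N_G(H) and the commutator subgroup [H, U]. -/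
theorem result {G : Type*} [Group G] [Finite G]
    (V : Subgroup G) [V.Normal] (hV : IsMulCommutative ↥V) (H : Subgroup G) (hHV : H ⊔ V = ⊤) :
    Cfsg.IsPronormal H ↔
      ∀ U : Subgroup G, U ≤ V → (∀ h ∈ H, U.map (MulAut.conj h).toMonoidHom = U) →
        U = (U ⊓ Subgroup.normalizer (H : Set G)) ⊔ ⁅H, U⁆ := by
  have hc : ∀ a ∈ V, ∀ b ∈ V, a * b = b * a := PG.isMulCommutative_iff_forall.1 hV
  have hVn : V.Normal := inferInstance
  constructor
  · intro h U hUV hU
    have hHU : H ≤ Subgroup.normalizer (U : Set G) := fun k hk => map_conj_eq_self_iff.1 (hU k hk)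
    have h1 : ⁅H, U⁆ ≤ U := by
      rw [Subgroup.commutator_le]
      intro k hk u hu
      rw [commutatorElement_def]
      exact U.mul_mem (conj_mem_of_mem_normalizer (hHU hk) hu) (U.inv_mem hu)
    refine le_antisymm (fun u hu => ?_) (sup_le inf_le_left h1)
    obtain ⟨x, hx, he⟩ := h u
    have h2 : H ⊔ H.map (MulAut.conj u).toMonoidHom ≤ ⁅H, U⁆ ⊔ H := by
      refine sup_le le_sup_right (map_conj_le_iff_forall.2 fun k hk => ?_)
      have e : u * k * u⁻¹ = ⁅k, u⁆⁻¹ * k := by rw [commutatorElement_def]; group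
      rw [e]
      exact Subgroup.mul_mem_sup (Subgroup.inv_mem _ (Subgroup.commutator_mem_commutator hk hu)) hk
    obtain ⟨c, hc', k, hk, rfl⟩ := (PG.mem_sup_of_le_normalizer
      (le_normalizer_commutator Subgroup.le_normalizer hHU)).1 (h2 hx)
    rw [map_conj_mul, map_conj_eq_of_mem hk, map_conj_eq_map_conj_iff] at he
    have e : u = c * (c⁻¹ * u) := by group
    rw [e]
    exact Subgroup.mul_mem _ (Subgroup.mem_sup_right hc')
      (Subgroup.mem_sup_left ⟨U.mul_mem (U.inv_mem (h1 hc')) hu, he⟩)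
  · intro h g
    have hg : g ∈ V ⊔ H := by rw [sup_comm, hHV]; trivial
    obtain ⟨v, hv, k, hk, rfl⟩ := Subgroup.mem_sup_of_normal_left.1 hg
    refine ProAt.congr (g := v) ?_ (by rw [map_conj_mul, map_conj_eq_of_mem hk])
    set L := H ⊔ H.map (MulAut.conj v).toMonoidHom with hL
    have hHL : H ≤ L := le_sup_left
    have hcomm : ∀ u ∈ V, ∀ a : G, u * a * u⁻¹ * a⁻¹ ∈ V := fun u hu a => by
      have := V.mul_mem hu (hVn.conj_mem _ (V.inv_mem hu) a)
      simpa [mul_assoc] using this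
    let U : Subgroup G :=
      { carrier := {u | u ∈ V ∧ ∀ a ∈ H, u * a * u⁻¹ ∈ L}
        mul_mem' := by
          rintro u w ⟨hu, hu'⟩ ⟨hw, hw'⟩
          refine ⟨V.mul_mem hu hw, fun a ha => ?_⟩
          have e : u * w * a * (u * w)⁻¹ = (w * a * w⁻¹ * a⁻¹) * (u * a * u⁻¹) := by
            rw [← mul_assoc, ← mul_assoc, ← hc u hu _ (hcomm w hw a)]
            group
          rw [e]
          exact L.mul_mem (L.mul_mem (hw' a ha) (L.inv_mem (hHL ha))) (hu' a ha)
        one_mem' := ⟨V.one_mem, fun a ha => by simpa using hHL ha⟩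
        inv_mem' := by
          rintro u ⟨hu, hu'⟩
          refine ⟨V.inv_mem hu, fun a ha => ?_⟩
          have e : u⁻¹ * a * u⁻¹⁻¹ = a * (u * a⁻¹ * u⁻¹) * a := by
            have h1 := hc u⁻¹ (V.inv_mem hu) _ (hVn.conj_mem u hu a)
            calc u⁻¹ * a * u⁻¹⁻¹ = u⁻¹ * (a * u * a⁻¹) * a := by group
              _ = (a * u * a⁻¹) * u⁻¹ * a := by rw [h1]
              _ = _ := by group
          rw [e]
          exact L.mul_mem (L.mul_mem (hHL ha) (hu' _ (H.inv_mem ha))) (hHL ha) }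
    have hUV : U ≤ V := fun u hu => hu.1
    have hvU : v ∈ U := ⟨hv, fun a ha => Subgroup.mem_sup_right (conj_mem_map_conj.2 ha)⟩
    have h1 := h U hUV (fun a ha => by
      refine map_conj_eq_of_mem_norm (mem_normalizer_iff_of_finite.2 ?_)
      rintro u ⟨hu, hu'⟩
      refine ⟨hVn.conj_mem u hu a, fun b hb => ?_⟩
      have e : a * u * a⁻¹ * b * (a * u * a⁻¹)⁻¹ = a * (u * (a⁻¹ * b * a) * u⁻¹) * a⁻¹ := by group
      rw [e]
      exact L.mul_mem (L.mul_mem (hHL ha) (hu' _ (H.mul_mem (H.mul_mem (H.inv_mem ha) hb) ha)))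
        (L.inv_mem (hHL ha)))
    have h2 : ⁅H, U⁆ ≤ L ⊓ V := by
      rw [Subgroup.commutator_le]
      intro a ha u hu
      rw [commutatorElement_def]
      refine ⟨?_, V.mul_mem (hVn.conj_mem u hu.1 a) (V.inv_mem hu.1)⟩
      have e : a * u * a⁻¹ * u⁻¹ = a * (u * a⁻¹ * u⁻¹) := by group
      rw [e]
      exact L.mul_mem (hHL ha) (hu.2 _ (H.inv_mem ha))
    have h3 : v ∈ ⁅H, U⁆ ⊔ (U ⊓ Subgroup.normalizer (H : Set G)) := by
      rw [sup_comm, ← h1]; exact hvU
    obtain ⟨c, hc', n, hn, hcn⟩ := (PG.mem_sup_of_le_normalizer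
      (le_normalizer_commutator inf_le_right (inf_le_left.trans Subgroup.le_normalizer))).1 h3
    refine ⟨c, (h2 hc').1, ?_⟩
    rw [← hcn, map_conj_mul, map_conj_eq_of_mem_norm hn.2]

end Cfsg.Agent.S4269
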