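import Mathlib
import Cfsg.Statements.S4270
import Cfsg.Agent.FG.Pronormal

set_option autoImplicit false
open Cfsg

namespace Cfsg.Agent.S4270

open Cfsg.Agent.GT Cfsg.Agent.FG Cfsg.Agent.FG.PN

/-- Let p be a prime and G a finite group with a normal subgroup A such that, both in A and in G/A, every subgroup containing a Sylow p-subgroup of that group is pronormal in that group. Let T be a Sylow p-subgroup of A. Then every subgroup of G containing a Sylow p-subgroup of G is pronormal in G if and only if (i) every subgroup of N_G(T)/T containing a Sylow p-subgroup of N_G(T)/T is pronormal there, and (ii) for every subgroup H of G containing a Sylow p-subgroup of G, the image of N_G(H) in G/A is the full normalizer of the image of H. (Pronormal: H and gHg⁻¹ are conjugate inside the subgroup they generate, for every g.) -/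
theorem result {G : Type*} [Group G] [Finite G] {p : ℕ} [Fact p.Prime]
    (A : Subgroup G) [A.Normal] (hA : (∀ K : Subgroup ↥A, (∃ P : Sylow p ↥A, (P : Subgroup ↥A) ≤ K) → Cfsg.IsPronormal K)) (hQ : (∀ K : Subgroup (G ⧸ A), (∃ P : Sylow p (G ⧸ A), (P : Subgroup (G ⧸ A)) ≤ K) → Cfsg.IsPronormal K))
    (T : Subgroup G) (hT : ∃ P : Sylow p ↥A, (P : Subgroup ↥A).map A.subtype = T) [(T.subgroupOf (Subgroup.normalizer (T : Set G))).Normal] :
    (∀ K : Subgroup G, (∃ P : Sylow p G, (P : Subgroup G) ≤ K) → Cfsg.IsPronormal K) ↔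
      ((∀ K : Subgroup (↥(Subgroup.normalizer (T : Set G)) ⧸ T.subgroupOf (Subgroup.normalizer (T : Set G))), (∃ P : Sylow p (↥(Subgroup.normalizer (T : Set G)) ⧸ T.subgroupOf (Subgroup.normalizer (T : Set G))), (P : Subgroup (↥(Subgroup.normalizer (T : Set G)) ⧸ T.subgroupOf (Subgroup.normalizer (T : Set G)))) ≤ K) → Cfsg.IsPronormal K) ∧
        ∀ K : Subgroup G, (∃ P : Sylow p G, (P : Subgroup G) ≤ K) →
          (Subgroup.normalizer (K : Set G)).map (QuotientGroup.mk' A) = Subgroup.normalizer ((K.map (QuotientGroup.mk' A) : Subgroup (G ⧸ A)) : Set (G ⧸ A))) := by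
  obtain ⟨P₀, hP₀⟩ := hT
  have hTp : IsPGroup p T := hP₀ ▸ P₀.isPGroup'.map _
  have hTA : T ≤ A := hP₀ ▸ Subgroup.map_subtype_le _
  have hTi : ¬ p ∣ T.relIndex A := hP₀ ▸ Tr.not_dvd_relIndex_map_sylow P₀
  have hinf : ∀ S : Sylow p G, T ≤ S → (S : Subgroup G) ≤ Subgroup.normalizer (T : Set G) := by
    intro S hS
    have h1 : T = (S : Subgroup G) ⊓ A := le_antisymm (le_inf hS hTA)
      (Tr.le_of_sylowIn_le hTi (S.isPGroup'.to_le inf_le_left) (le_inf hS hTA) inf_le_right)
    rw [h1]
    exact PG.le_normalizer_inf Subgroup.le_normalizer (by rw [A.normalizer_eq_top]; exact le_top)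
  have hNi : ¬ p ∣ (Subgroup.normalizer (T : Set G)).index := by
    obtain ⟨S, hS⟩ := hTp.exists_le_sylow
    exact (CI.not_dvd_index_iff _).2 ⟨S, hinf S hS⟩
  constructor
  · intro h
    refine ⟨fun K hK => ?_, fun K hK => map_normalizer_eq_of_isPronormal (h K hK)
      (QuotientGroup.mk'_surjective A)⟩
    rw [← CI.not_dvd_index_iff] at hK
    rw [← map_comap_mk' K]
    refine isPronormal_map ?_ (QuotientGroup.mk'_surjective _)
    intro g
    refine ProAt.of_map (f := (Subgroup.normalizer (T : Set G)).subtype) (by simp) (h _ ?_ g)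
    rw [← CI.not_dvd_index_iff, Subgroup.index_map_subtype,
      Subgroup.index_comap_of_surjective _ (QuotientGroup.mk'_surjective _)]
    exact (Fact.out : p.Prime).not_dvd_mul hK hNi
  · rintro ⟨h1, h2⟩
    have key : ∀ (K : Subgroup G) (S : Sylow p G), (S : Subgroup G) ≤ K → T ≤ S →
        IsPronormal K := by
      intro K S hSK hTS
      refine isPronormal_of_ext hTp hTi hTA (hTS.trans hSK) ?_ ?_ ?_ (h2 K ⟨S, hSK⟩)
      · intro a ha
        refine proAt_of_subgroupOf inf_le_right (hA _ ⟨P₀, ?_⟩) ha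
        rw [Subgroup.subgroupOf, ← Subgroup.map_le_iff_le_comap, hP₀]
        exact le_inf (hTS.trans hSK) hTA
      · intro t ht
        refine proAt_of_subgroupOf inf_le_right ?_ ht
        refine isPronormal_of_map (f := QuotientGroup.mk' (T.subgroupOf
          (Subgroup.normalizer (T : Set G)))) ?_ (h1 _ ⟨(S.subtype (hinf S hTS)).mapSurjective
            (QuotientGroup.mk'_surjective _), ?_⟩)
        · rw [QuotientGroup.ker_mk']
          exact Subgroup.comap_mono (le_inf (hTS.trans hSK) Subgroup.le_normalizer)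
        · rw [Sylow.coe_mapSurjective, Sylow.coe_subtype]
          exact Subgroup.map_mono (Subgroup.comap_mono (le_inf hSK (hinf S hTS)))
      · refine hQ _ ⟨S.mapSurjective (QuotientGroup.mk'_surjective A), ?_⟩
        rw [Sylow.coe_mapSurjective]
        exact Subgroup.map_mono hSK
    rintro K ⟨S, hS⟩
    obtain ⟨c, hc⟩ := Tr.exists_conj_le_sylow S hTp
    refine isPronormal_of_map_conj (c := c⁻¹) (key _ (c⁻¹ • S) ?_ ?_)
    · rw [Tr.coe_smul_sylow]
      exact Subgroup.map_mono hS
    · intro t ht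
      rw [Tr.mem_smul_sylow, inv_inv]
      exact hc t ht

end Cfsg.Agent.S4270
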