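import Mathlib
import Cfsg.Statements.S4271
import Cfsg.Agent.FG.Pronormal
import Cfsg.Agent.S4270

set_option autoImplicit false
open Cfsg

namespace Cfsg.Agent.S4271

open Cfsg.Agent.GT Cfsg.Agent.FG Cfsg.Agent.FG.PN

/-- Let p be a prime and G a finite group with a normal subgroup A such that every subgroup of A containing a Sylow p-subgroup of A is pronormal in A, and the Sylow p-subgroups of G/A are self-normalizing. Let T be a Sylow p-subgroup of A. Then every subgroup of G containing a Sylow p-subgroup of G is pronormal in G if and only if every subgroup of N_G(T)/T containing a Sylow p-subgroup of N_G(T)/T is pronormal in N_G(T)/T. (Pronormal: H and gHg⁻¹ are conjugate inside the subgroup they generate, for every g.) -/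
theorem result {G : Type*} [Group G] [Finite G] {p : ℕ} [Fact p.Prime]
    (A : Subgroup G) [A.Normal] (hA : (∀ K : Subgroup ↥A, (∃ P : Sylow p ↥A, (P : Subgroup ↥A) ≤ K) → Cfsg.IsPronormal K))
    (hQ : ∀ P : Sylow p (G ⧸ A), Subgroup.normalizer ((P : Subgroup (G ⧸ A)) : Set (G ⧸ A)) = P)
    (T : Subgroup G) (hT : ∃ P : Sylow p ↥A, (P : Subgroup ↥A).map A.subtype = T) [(T.subgroupOf (Subgroup.normalizer (T : Set G))).Normal] :
    (∀ K : Subgroup G, (∃ P : Sylow p G, (P : Subgroup G) ≤ K) → Cfsg.IsPronormal K) ↔ (∀ K : Subgroup (↥(Subgroup.normalizer (T : Set G)) ⧸ T.subgroupOf (Subgroup.normalizer (T : Set G))), (∃ P : Sylow p (↥(Subgroup.normalizer (T : Set G)) ⧸ T.subgroupOf (Subgroup.normalizer (T : Set G))), (P : Subgroup (↥(Subgroup.normalizer (T : Set G)) ⧸ T.subgroupOf (Subgroup.normalizer (T : Set G)))) ≤ K) → Cfsg.IsPronormal K) := by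
  have hN : ∀ K : Subgroup (G ⧸ A), (∃ P : Sylow p (G ⧸ A), (P : Subgroup (G ⧸ A)) ≤ K) →
      Subgroup.normalizer (K : Set (G ⧸ A)) ≤ K := by
    rintro K ⟨P, hP⟩ g hg
    obtain ⟨m, hm, n, hn, rfl⟩ := Tr.frattini_sylowIn P.isPGroup' hP
      (fun h => P.not_dvd_index (h.trans (Subgroup.relIndex_dvd_index_of_le hP))) hg
    rw [hQ P] at hn
    exact K.mul_mem hm (hP hn)
  have hQ' : ∀ K : Subgroup (G ⧸ A), (∃ P : Sylow p (G ⧸ A), (P : Subgroup (G ⧸ A)) ≤ K) →
      Cfsg.IsPronormal K := by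
    rintro K ⟨P, hP⟩
    refine isPronormal_of_normalizer hP (isPronormal_sylow P) fun g hg => ?_
    rw [hQ P] at hg
    exact ProAt.of_mem_normalizer (Subgroup.le_normalizer (hP hg))
  rw [S4270.result A hA hQ' T hT]
  refine and_iff_left ?_
  rintro K ⟨S, hS⟩
  refine le_antisymm (Subgroup.le_normalizer_map _) ((hN _ ⟨S.mapSurjective
    (QuotientGroup.mk'_surjective A), ?_⟩).trans (Subgroup.map_mono Subgroup.le_normalizer))
  rw [Sylow.coe_mapSurjective]
  exact Subgroup.map_mono hS

end Cfsg.Agent.S4271
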