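import Mathlib
import Cfsg.Statements.S4294
import Cfsg.Agent.FG.AmitC
import Cfsg.Agent.S3359
import Cfsg.Agent.S4293

set_option autoImplicit false
open Cfsg

namespace Cfsg.Agent.S4294

/-- A finite non-solvable subgroup of the multiplicative group of a division ring is isomorphic to the binary icosahedral group SL(2,5). -/
theorem result {D : Type*} [DivisionRing D] (H : Subgroup Dˣ) [Finite H] (hH : ¬ Group.IsSolvable H) :
    Nonempty (H ≃* Matrix.SpecialLinearGroup (Fin 2) (ZMod 5)) := by
  have hne : H ≠ ⊥ := by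
    rintro rfl
    exact hH inferInstance
  obtain ⟨G₀, hn, hi, S, M, h1, -, h3, ⟨e⟩, -, h5⟩ := S3359.result hH (S4293.result H hne)
  let ι : H →* D := (Units.coeHom D).comp H.subtype
  have hι : Function.Injective ι := Units.val_injective.comp Subtype.val_injective
  let φ : FG.Amit.S5 →* H := S.subtype.comp e.symm.toMonoidHom
  have hf : Function.Injective (ι.comp φ) :=
    hι.comp (Subtype.val_injective.comp e.symm.injective)
  have hr : φ.range = S := by
    rw [MonoidHom.range_comp, MonoidHom.range_eq_top.2 e.symm.surjective, ← MonoidHom.range_eq_map,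
      Subgroup.range_subtype]
  have hM : M = ⊥ := eq_bot_iff.2 fun η hη => hι (by
    have c : ∀ y, Commute (ι η) (ι.comp φ y) := fun y =>
      (show Commute η (φ y) from (h3 _ (e.symm y).2 η hη).symm).map ι
    rw [map_one]
    exact FG.Amit.cent_eq_one hf (c _) (c _) (l := Nat.card M)
      (h5.coprime_dvd_right (by norm_num) |>.mul_right (h5.coprime_dvd_right (by norm_num)) :
        (Nat.card M).Coprime (2 * 10))
      (by rw [← map_pow, show η ^ Nat.card M = 1 from
        congrArg Subtype.val (pow_card_eq_one' (x := (⟨η, hη⟩ : M))), map_one]))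
  rw [hM, sup_bot_eq] at h1
  subst h1
  have ht : S = ⊤ := eq_top_iff.2 fun x _ => hr ▸ FG.Amit.mem_range hf hι rfl
    (fun y => by
      obtain ⟨y', k⟩ : x * φ y * x⁻¹ ∈ φ.range := hr ▸ hn.conj_mem _ (e.symm y).2 x
      exact ⟨y', k.symm⟩)
    (by
      rw [hr]
      rcases hi with k | k
      · rw [Subgroup.index_eq_one.1 k]; trivial
      · exact Subgroup.mul_self_mem_of_index_two k x)
  subst ht
  exact ⟨Subgroup.topEquiv.symm.trans e⟩

end Cfsg.Agent.S4294
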