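import Mathlib
import Cfsg.Statements.S4330
import Cfsg.Agent.FG.CoverFix
import Cfsg.Agent.GT.FStar

set_option autoImplicit false
open Pointwise
open Cfsg

namespace Cfsg.Agent.S4330

open Subgroup Cfsg.Agent.GT

local notation:75 H " ^ᶜ " g:76 => Subgroup.map (MulEquiv.toMonoidHom (MulAut.conj g)) H

universe u

theorem commute_of {G : Type*} [Group G] [Finite G] {p : ℕ} {A N : Subgroup G} [hn : N.Normal]
    (hA : IsPGroup p A) (hN : (Nat.card N).Coprime p) {g : G} (hg : g ∈ N)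
    (h : SubnormalIn A (A ⊔ A ^ᶜ g)) {a : G} (ha : a ∈ A) : g * a * g⁻¹ = a := by
  have h1 : g * a * g⁻¹ * a⁻¹ ∈ N := by
    simpa [mul_assoc] using mul_mem hg (hn.conj_mem _ (inv_mem hg) a)
  have h2 : g * a * g⁻¹ * a⁻¹ ∈ A ⊔ A ^ᶜ g :=
    mul_mem (mem_sup_right (conj_mem_map_conj.2 ha)) (mem_sup_left (inv_mem ha))
  have h3 : Commute (g * a * g⁻¹ * a⁻¹) a := by
    have h4 := pCore_le_centralizer (p := p) (N := N.subgroupOf (A ⊔ A ^ᶜ g))
      (hN.coprime_dvd_left (card_comap_dvd_of_injective _ _ (subtype_injective _)))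
      (le_pCore_of_isSubnormal h.subgroupOf hA.comap_subtype
        (show (⟨a, mem_sup_left ha⟩ : (A ⊔ A ^ᶜ g : Subgroup G)) ∈ _ from ha)) ⟨_, h2⟩ h1
    exact congrArg Subtype.val h4
  obtain ⟨k, hk⟩ := hA ⟨a, ha⟩
  have h5 : a ^ p ^ k = 1 := congrArg Subtype.val hk
  have h6 := h3.mul_pow (p ^ k)
  rw [inv_mul_cancel_right, conj_pow, h5, mul_one, mul_one, mul_inv_cancel] at h6
  exact mul_inv_eq_one.1 (congrArg Subtype.val (CopAct.eq_one_of_pow_eq_one_of_coprime
    (x := (⟨_, h1⟩ : N)) (hN.symm.pow_left k) (Subtype.ext h6.symm)))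

theorem main (p : ℕ) [hp : Fact p.Prime] (hp2 : p ≠ 2) (G : Type u) [Group G] [Finite G] :
    Group.IsSolvable G → ∀ A : Subgroup G, IsPGroup p A →
      (∀ c : G, ∃ g : G, IsConj c g ∧ SubnormalIn A (A ⊔ A ^ᶜ g)) → A ≤ pCore p G := by
  refine subgroup_quotient_induction (P := fun G _ _ => Group.IsSolvable G → ∀ A : Subgroup G,
    IsPGroup p A → (∀ c : G, ∃ g : G, IsConj c g ∧ SubnormalIn A (A ⊔ A ^ᶜ g)) → A ≤ pCore p G)
    (fun G _ _ _ ih => ?_) G
  intro hG A hA h
  rcases subsingleton_or_nontrivial G with _ | _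
  · exact (Subsingleton.elim _ _).le
  obtain ⟨N, hN⟩ := exists_isMinNormal G
  have hn := hN.normal
  obtain ⟨q, hq, hNq, hNc⟩ := hN.exists_isPGroup
  have h1 : A ≤ (pCore p (G ⧸ N)).comap (QuotientGroup.mk' N) :=
    map_le_iff_le_comap.1 (ih N hN.ne_bot inferInstance _ (hA.map _) fun c => by
      obtain ⟨c, rfl⟩ := QuotientGroup.mk'_surjective N c
      obtain ⟨g, h1, h2⟩ := h c
      refine ⟨_, (QuotientGroup.mk' N).map_isConj h1, ?_⟩
      rw [← map_map_conj, ← Subgroup.map_sup]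
      exact h2.map _)
  obtain ⟨L, hL⟩ : ∃ L, L = (pCore p (G ⧸ N)).comap (QuotientGroup.mk' N) := ⟨_, rfl⟩
  have hLn : L.Normal := hL ▸ inferInstance
  have hLp : ∀ x ∈ L, ∃ k, x ^ p ^ k ∈ N := fun x hx => by
    obtain ⟨k, hk⟩ := isPGroup_pCore (G := G ⧸ N) p ⟨x, hL.le hx⟩
    exact ⟨k, (QuotientGroup.eq_one_iff _).1 (congrArg Subtype.val hk)⟩
  rw [← hL] at h1
  by_cases hqp : q = p
  · subst hqp
    refine h1.trans (le_pCore fun x => ?_)
    obtain ⟨k, hk⟩ := hLp x x.2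
    obtain ⟨l, hl⟩ := hNq ⟨_, hk⟩
    exact ⟨k + l, Subtype.ext (by simpa [pow_add, pow_mul] using congrArg Subtype.val hl)⟩
  have hc : (Nat.card N).Coprime p := by
    have := Fact.mk hq
    obtain ⟨k, hk⟩ := IsPGroup.iff_card.1 hNq
    exact hk ▸ ((Nat.coprime_primes hq hp.1).2 hqp).pow_left k
  have h2 : A ≤ centralizer (N : Set G) := fun a ha => by
    let _ : CommGroup N := IsMulCommutative.instCommGroup
    let φ : G →* MulAut N := MulAut.conjNormal
    have := hLn.map _ φ.rangeRestrict_surjective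
    by_contra hne
    obtain ⟨v, hv⟩ := FG.CF.exists_not_fixed φ.range.subtype hp.1 hp2
      (hp.1.coprime_iff_not_dvd.1 hc.symm) (P := L.map φ.rangeRestrict) (by
        rintro ⟨_, x, hx, rfl⟩
        obtain ⟨k, hk⟩ := hLp x hx
        refine ⟨k, Subtype.ext ?_⟩
        change φ.rangeRestrict x ^ p ^ k = 1
        rw [← map_pow]
        exact Subtype.ext (MulEquiv.ext fun v => Subtype.ext
          (mul_inv_eq_iff_eq_mul.2 (le_centralizer N v.2 _ hk)))) ⟨a, h1 ha, rfl⟩
      fun e => hne fun v hv => by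
        have := congrArg Subtype.val (DFunLike.congr_fun e ⟨v, hv⟩)
        exact (mul_inv_eq_iff_eq_mul.1 this).symm
    obtain ⟨g, h3, h4⟩ := h v
    obtain ⟨x, rfl⟩ := isConj_iff.1 h3
    have h5 := commute_of hA hc (hn.conj_mem _ v.2 x) h4 ha
    refine hv (φ.rangeRestrict x⁻¹) ?_
    rw [← map_inv, ← map_mul, ← map_mul]
    refine Subtype.ext ?_
    change x⁻¹ * a * x⁻¹⁻¹ * v * (x⁻¹ * a * x⁻¹⁻¹)⁻¹ = v
    calc _ = x⁻¹ * a * x * v * x⁻¹ * a⁻¹ * x := by group
      _ = x⁻¹ * (x * v * x⁻¹ * a * (x * v * x⁻¹)⁻¹) * x * v * x⁻¹ * a⁻¹ * x := by rw [h5]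
      _ = v := by group
  have h3 : Group.IsNilpotent (L ⊓ centralizer (N : Set G) : Subgroup G) := by
    have := (isPGroup_pCore (G := G ⧸ N) p).isNilpotent
    refine Subgroup.isNilpotent_of_ker_le_center (((QuotientGroup.mk' N).comp
      (L ⊓ centralizer (N : Set G)).subtype).codRestrict (pCore p (G ⧸ N)) fun x => hL.le x.2.1)
      fun x hx => mem_center_iff.2 fun y => Subtype.ext (y.2.2 x ?_).symm
    exact (QuotientGroup.eq_one_iff _).1 (congrArg Subtype.val hx)
  exact (le_pCoreOf_of_isNilpotent (le_inf h1 h2) hA).trans (pCoreOf_le_pCore _)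

/-- Let G be a finite solvable group, p an odd prime and A a p-subgroup of G such that every conjugacy class of G contains an element g for which A is subnormal in the subgroup generated by A and its conjugate by g. Then A is contained in O_p(G). (The hypothesis that p is odd is needed.) -/
theorem result {G : Type*} [Group G] [Finite G]
    (hG : Group.IsSolvable G) (p : ℕ) [Fact p.Prime] (hp : p ≠ 2) (A : Subgroup G) (hA : IsPGroup p A)
    (h : ∀ c : G, ∃ g : G, IsConj c g ∧ (A.subgroupOf (A ⊔ MulAut.conj g • A)).IsSubnormal) :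
    A ≤ Cfsg.pCore p G := by
  exact main p hp G hG A hA fun c => (h c).imp fun g hg => ⟨hg.1, le_sup_left, hg.2⟩

end Cfsg.Agent.S4330
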