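import Mathlib
import Cfsg.Statements.S4331
import Cfsg.Agent.GT.Subnormal
import Cfsg.Agent.GT.Cores
import Cfsg.Agent.Ch.Burnside
-- import your own Cfsg.Agent.* helpers here

set_option autoImplicit false
open Cfsg

namespace Cfsg.Agent.S4331

open Subgroup Cfsg.Agent.GT

/-- sign -/
def sg (e : Bool) : ZMod 3 := if e then -1 else 1

/-- The group `AΓL(1,9)`: maps `z ↦ (a + b i) σ^e(z) + (x + y i)`. -/
@[ext] structure AG where
  x : ZMod 3
  y : ZMod 3
  a : ZMod 3
  b : ZMod 3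
  e : Bool
  h : a * a + b * b ≠ 0
deriving DecidableEq

theorem nz_mul : ∀ (a b a' b' : ZMod 3) (e : Bool), a * a + b * b ≠ 0 → a' * a' + b' * b' ≠ 0 →
    (a * a' - sg e * b * b') * (a * a' - sg e * b * b') +
      (sg e * a * b' + b * a') * (sg e * a * b' + b * a') ≠ 0 := by
  decide

theorem nz_inv : ∀ (a b : ZMod 3) (e : Bool), a * a + b * b ≠ 0 →
    ((a * a + b * b) * a) * ((a * a + b * b) * a) +
      (- sg e * (a * a + b * b) * b) * (- sg e * (a * a + b * b) * b) ≠ 0 := by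
  decide

instance : Mul AG := ⟨fun g k => ⟨g.a * k.x - sg g.e * g.b * k.y + g.x,
  sg g.e * g.a * k.y + g.b * k.x + g.y, g.a * k.a - sg g.e * g.b * k.b,
  sg g.e * g.a * k.b + g.b * k.a, xor g.e k.e, nz_mul _ _ _ _ _ g.h k.h⟩⟩

instance : One AG := ⟨⟨0, 0, 1, 0, false, by decide⟩⟩

instance : Inv AG := ⟨fun g => ⟨- (g.a * g.a + g.b * g.b) * (g.a * g.x + g.b * g.y),
  - sg g.e * (g.a * g.a + g.b * g.b) * (g.a * g.y - g.b * g.x), (g.a * g.a + g.b * g.b) * g.a,
  - sg g.e * (g.a * g.a + g.b * g.b) * g.b, g.e, nz_inv _ _ _ g.h⟩⟩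

/-- coordinates -/
def agEquiv : AG ≃ {t : ZMod 3 × ZMod 3 × ZMod 3 × ZMod 3 × Bool //
    t.2.2.1 * t.2.2.1 + t.2.2.2.1 * t.2.2.2.1 ≠ 0} where
  toFun g := ⟨(g.x, g.y, g.a, g.b, g.e), g.h⟩
  invFun t := ⟨t.1.1, t.1.2.1, t.1.2.2.1, t.1.2.2.2.1, t.1.2.2.2.2, t.2⟩
  left_inv _ := rfl
  right_inv _ := rfl

instance : Fintype AG := Fintype.ofEquiv _ agEquiv.symm

theorem mul_def (g k : AG) : g * k = ⟨g.a * k.x - sg g.e * g.b * k.y + g.x,
  sg g.e * g.a * k.y + g.b * k.x + g.y, g.a * k.a - sg g.e * g.b * k.b,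
  sg g.e * g.a * k.b + g.b * k.a, xor g.e k.e, nz_mul _ _ _ _ _ g.h k.h⟩ := rfl

instance : Group AG := Group.ofLeftAxioms
  (by
    rintro ⟨x, y, a, b, e, h⟩ ⟨x', y', a', b', e', h'⟩ ⟨x'', y'', a'', b'', e'', h''⟩
    cases e <;> cases e' <;> cases e'' <;> (ext <;> simp [mul_def, sg] <;> ring))
  (by decide +kernel)
  (by decide +kernel)

/-- the involution -/
def t : AG := ⟨0, 0, 1, 0, true, by decide⟩

/-- point stabiliser -/
def S0 : Subgroup AG where
  carrier := {g | g.x = 0 ∧ g.y = 0}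
  one_mem' := ⟨rfl, rfl⟩
  mul_mem' := by
    rintro g k ⟨h1, h2⟩ ⟨h3, h4⟩
    constructor <;> simp [mul_def, h1, h2, h3, h4]
  inv_mem' := by
    rintro g ⟨h1, h2⟩
    constructor
    · change - (g.a * g.a + g.b * g.b) * (g.a * g.x + g.b * g.y) = 0
      simp [h1, h2]
    · change - sg g.e * (g.a * g.a + g.b * g.b) * (g.a * g.y - g.b * g.x) = 0
      simp [h1, h2]

theorem card_AG : Fintype.card AG = 144 := by decide +kernel

theorem pow8 : ∀ g : AG, g.x = 0 → g.y = 0 → g * g * (g * g) * (g * g * (g * g)) = 1 := by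
  decide +kernel

theorem key : ∀ c : AG, ∃ h : AG, ((h * c * h⁻¹).x = 0 ∧ (h * c * h⁻¹).y = 0) ∨
    h * c * h⁻¹ * t = t * (h * c * h⁻¹) := by
  decide +kernel

theorem isPGroup_S0 : IsPGroup 2 S0 := by
  rintro ⟨g, h1, h2⟩
  refine ⟨3, Subtype.ext ?_⟩
  change g ^ 2 ^ 3 = 1
  rw [← pow8 g h1 h2]
  norm_num only [pow_succ, pow_zero, one_mul, mul_assoc]

theorem orderOf_t : orderOf t = 2 :=
  orderOf_eq_prime (by rw [pow_two]; decide) (by decide)


/-- There is a finite solvable group G with a subgroup A of order 2 such that every conjugacy class of G contains an element g for which A is subnormal in the subgroup generated by A and g, and yet A is not contained in O_2(G). (So the corresponding criteria for odd primes fail at the prime 2, even for solvable groups.) -/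
theorem result :
    ∃ (G : Type) (_ : Group G) (_ : Finite G) (A : Subgroup G), Group.IsSolvable G ∧ Nat.card A = 2 ∧
      (∀ c : G, ∃ g : G, IsConj c g ∧ (A.subgroupOf (A ⊔ Subgroup.zpowers g)).IsSubnormal) ∧
      ¬ A ≤ Cfsg.pCore 2 G := by
  refine ⟨AG, inferInstance, inferInstance, zpowers t, ?_, ?_, ?_, ?_⟩
  · exact Ch.burnside_isSolvable_of_card_eq (a := 4) (b := 2) Nat.prime_two Nat.prime_three
      (by rw [Nat.card_eq_fintype_card, card_AG]; norm_num)
  · rw [Nat.card_zpowers, orderOf_t]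
  · intro c
    obtain ⟨h, hh⟩ := key c
    refine ⟨h * c * h⁻¹, isConj_iff.2 ⟨h, rfl⟩, ?_⟩
    rcases hh with hh | hh
    · have hle : zpowers t ⊔ zpowers (h * c * h⁻¹) ≤ S0 :=
        sup_le (zpowers_le.2 ⟨rfl, rfl⟩) (zpowers_le.2 hh)
      have := (isPGroup_S0.to_le hle).isNilpotent
      exact isSubnormal_of_isNilpotent _
    · refine Normal.isSubnormal ?_
      rw [normal_subgroupOf_iff_le_normalizer le_sup_left]
      refine sup_le le_normalizer (le_trans ?_ (centralizer_le_normalizer _))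
      rw [zpowers_eq_closure t, centralizer_closure, zpowers_le]
      exact mem_centralizer_singleton_iff.2 hh
  · intro hle
    let v : AG := ⟨0, 1, 1, 0, false, by decide⟩
    have h1 : t ∈ pCore 2 AG := hle (mem_zpowers t)
    have h2 : t * (v * t * v⁻¹) ∈ pCore 2 AG := mul_mem h1 (Normal.conj_mem inferInstance t h1 v)
    obtain ⟨k, hk⟩ := isPGroup_pCore 2 ⟨_, h2⟩
    have hk' : (t * (v * t * v⁻¹)) ^ 2 ^ k = 1 := congrArg Subtype.val hk
    have h3 : orderOf (t * (v * t * v⁻¹)) = 3 :=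
      orderOf_eq_prime (by rw [pow_three]; decide) (by decide)
    have := orderOf_dvd_of_pow_eq_one hk'
    rw [h3] at this
    exact absurd ((Nat.prime_dvd_prime_iff_eq Nat.prime_three Nat.prime_two).1
      (Nat.prime_three.dvd_of_dvd_pow this)) (by decide)

end Cfsg.Agent.S4331
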