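import Cfsg.Statements.S4332
import Cfsg.Agent.Sym.Orbits

set_option autoImplicit false
open Pointwise
open Cfsg

namespace Cfsg.Agent.S4332

/-- Representatives of the conjugacy classes, as lists of cycles. -/
def reps : List (List (List (Fin 8))) :=
  [[],
    [[0, 1]],
    [[0, 1], [3, 4]],
    [[0, 1], [3, 4], [5, 6]],
    [[0, 3], [1, 4], [2, 5], [6, 7]],
    [[0, 1, 2]],
    [[0, 1, 2], [3, 4]],
    [[0, 1, 2], [3, 4], [5, 6]],
    [[0, 1, 2], [3, 4, 5]],
    [[0, 1, 2], [3, 4, 5], [6, 7]],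
    [[3, 4, 5, 6]],
    [[0, 3, 1, 4], [2, 5]],
    [[0, 3, 1, 4], [2, 5], [6, 7]],
    [[0, 3, 1, 4], [2, 5, 6]],
    [[0, 3, 1, 4], [2, 5, 6, 7]],
    [[3, 4, 5, 6, 7]],
    [[0, 3, 1, 4, 5], [2, 6]],
    [[0, 3, 1, 4, 5], [2, 6, 7]],
    [[0, 3, 1, 4, 2, 5]],
    [[0, 3, 1, 4, 2, 5], [6, 7]],
    [[0, 3, 1, 4, 2, 5, 6]],
    [[0, 3, 1, 4, 2, 5, 6, 7]]]

/-- The product of a list of cycles. -/
def rep (l : List (List (Fin 8))) : Equiv.Perm (Fin 8) := (l.map List.formPerm).prod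

theorem reps_spec : ∀ m ∈ Sym.partsLe 8 8 8, ∃ l ∈ reps, (rep l).cycleType = m ∧
    Sym.cyc3 0 1 2 * (rep l * Sym.cyc3 0 1 2 * (rep l)⁻¹) =
      (rep l * Sym.cyc3 0 1 2 * (rep l)⁻¹) * Sym.cyc3 0 1 2 := by
  decide +kernel

/-- In the symmetric group of degree 8, let A be the subgroup generated by a 3-cycle. Then every conjugacy class contains an element g for which A is subnormal in the subgroup generated by A and its conjugate by g, although O_3 of the symmetric group of degree 8 is trivial. -/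
theorem result
    (σ : Equiv.Perm (Fin 8)) (hσ : σ.IsThreeCycle) :
    (∀ c : Equiv.Perm (Fin 8), ∃ g : Equiv.Perm (Fin 8), IsConj c g ∧
      ((Subgroup.zpowers σ).subgroupOf (Subgroup.zpowers σ ⊔ MulAut.conj g • Subgroup.zpowers σ)).IsSubnormal) ∧
    Cfsg.pCore 3 (Equiv.Perm (Fin 8)) = ⊥ := by
  constructor
  · intro c
    obtain ⟨l, -, h1, h2⟩ := Sym.forall_cycleType_of_partsLe (n := 8) (by simp)
      (P := fun m => ∃ l ∈ reps, (rep l).cycleType = m ∧
        Sym.cyc3 0 1 2 * (rep l * Sym.cyc3 0 1 2 * (rep l)⁻¹) =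
          (rep l * Sym.cyc3 0 1 2 * (rep l)⁻¹) * Sym.cyc3 0 1 2) reps_spec c
    obtain ⟨h, rfl⟩ := isConj_iff.1 (Equiv.Perm.isConj_iff_cycleType_eq.2
      ((Sym.isThreeCycle_cyc3 (a := (0 : Fin 8)) (b := 1) (c := 2) (by decide) (by decide)
        (by decide)).cycleType.trans hσ.cycleType.symm))
    refine ⟨h * rep l * h⁻¹, (Equiv.Perm.isConj_iff_cycleType_eq.2 h1.symm).trans
      (isConj_iff.2 ⟨h, rfl⟩), Subgroup.Normal.isSubnormal ?_⟩
    rw [Subgroup.normal_subgroupOf_iff_le_normalizer le_sup_left]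
    refine le_trans ?_ (Subgroup.centralizer_le_normalizer _)
    rw [Subgroup.zpowers_eq_closure, Subgroup.centralizer_closure, ← Subgroup.zpowers_eq_closure,
      show ∀ (g : Equiv.Perm (Fin 8)) (K : Subgroup (Equiv.Perm (Fin 8))), MulAut.conj g • K =
        K.map (MulAut.conj g).toMonoidHom from fun _ _ => rfl,
      MonoidHom.map_zpowers, sup_le_iff, Subgroup.zpowers_le,
      Subgroup.zpowers_le, Subgroup.mem_centralizer_singleton_iff,
      Subgroup.mem_centralizer_singleton_iff]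
    refine ⟨rfl, ?_⟩
    simp only [MulEquiv.coe_toMonoidHom, MulAut.conj_apply]
    calc _ = h * ((rep l * Sym.cyc3 0 1 2 * (rep l)⁻¹) * Sym.cyc3 0 1 2) * h⁻¹ := by group
      _ = _ := by rw [← h2]; group
  · rw [pCore, sSup_eq_bot]
    rintro N ⟨h1, h2⟩
    by_contra h
    haveI : Fact (Nat.Prime 3) := ⟨Nat.prime_three⟩
    obtain ⟨k, hk⟩ := IsPGroup.iff_card.1 h2
    have h3 := Sym.card_dvd_card_of_normal h
    rw [hk, Fintype.card_fin] at h3
    have h4 := Nat.prime_two.dvd_of_dvd_pow ((by norm_num : 2 ∣ 8).trans h3)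
    norm_num at h4

end Cfsg.Agent.S4332
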