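import Mathlib
import Cfsg.Statements.S4333
import Cfsg.Agent.GT.Zipper
import Cfsg.Agent.GT.Conj
import Cfsg.Agent.GT.MinNormal

set_option autoImplicit false
open Pointwise
open Cfsg

namespace Cfsg.Agent.S4333

open Cfsg.Agent.GT

/-- Let A be a subgroup of a finite group G. If A is subnormal in the subgroup generated by A and its conjugate by g⁻¹ a g, for every a ∈ A and every g ∈ G, then A is subnormal in G. (A sharpening of Wielandt's subnormality criterion: only conjugates of A by conjugates of elements of A are needed.) -/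
theorem result {G : Type*} [Group G] [Finite G]
    (A : Subgroup G)
    (h : ∀ a ∈ A, ∀ g : G, (A.subgroupOf (A ⊔ MulAut.conj (g⁻¹ * a * g) • A)).IsSubnormal) :
    A.IsSubnormal := by
  rw [← subnormalIn_top_iff]
  suffices key : ∀ L : Subgroup G, A ≤ L → SubnormalIn A L from key ⊤ le_top
  intro L
  induction L using subgroup_lt_induction with
  | h L ih =>
  intro hAL
  by_contra hn
  obtain ⟨M, hAM, hML, hM⟩ := zipper hAL (fun H h1 h2 => ih H h2 h1) hn
  have h1 : ∀ a ∈ A, ∀ g ∈ L, g⁻¹ * a * g ∈ Subgroup.normalizer (M : Set G) := by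
    intro a ha g hg
    have hb : g⁻¹ * a * g ∈ L := L.mul_mem (L.mul_mem (L.inv_mem hg) (hAL ha)) hg
    have h2 : SubnormalIn A (A ⊔ A.map (MulAut.conj (g⁻¹ * a * g)).toMonoidHom) :=
      ⟨le_sup_left, h a ha g⟩
    have h3 : A ⊔ A.map (MulAut.conj (g⁻¹ * a * g)).toMonoidHom ≤ L :=
      sup_le hAL (map_conj_le_of_mem hAL hb)
    have h4 := hM _ le_sup_left (lt_of_le_of_ne h3 fun e => hn (e ▸ h2))
    have h5 := map_conj_le_iff.1 (le_sup_right.trans h4)
    have h6 : M.map (MulAut.conj (g⁻¹ * a * g)⁻¹).toMonoidHom < L := by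
      rw [← map_conj_eq_of_mem (L.inv_mem hb)]
      exact map_conj_lt_map_conj_iff.2 hML
    exact (inv_mem_iff).1 (mem_normalizer_of_map_conj_le (hM _ h5 h6))
  by_cases hN : L ≤ Subgroup.normalizer (M : Set G)
  · exact hn ((ih M hML hAM).trans (SubnormalIn.of_le_normalizer hML.le hN))
  have h2 : L ⊓ Subgroup.normalizer (M : Set G) ≤ M :=
    hM _ (le_inf hAL (hAM.trans Subgroup.le_normalizer))
      (lt_of_le_of_ne inf_le_left fun e => hN (inf_eq_left.1 e))
  let K : Subgroup G := ((M.subgroupOf L).normalCore).map L.subtype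
  have hKM : K ≤ M := (Subgroup.map_mono (Subgroup.normalCore_le _)).trans (by
    rw [Subgroup.subgroupOf_map_subtype]; exact inf_le_left)
  have hAK : A ≤ K := by
    intro a ha
    refine ⟨⟨a, hAL ha⟩, fun g => ?_, rfl⟩
    have h3 := h1 a ha _ (L.inv_mem g.2)
    rw [inv_inv] at h3
    exact h2 ⟨(g * (⟨a, hAL ha⟩ : L) * g⁻¹).2, h3⟩
  exact hn ((ih K (hKM.trans_lt hML) hAK).trans (SubnormalIn.of_le_normalizer
    (Subgroup.map_subtype_le _) ((normal_iff_le_normalizer_map_subtype _).1 inferInstance)))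

end Cfsg.Agent.S4333
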