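import Mathlib
import Cfsg.Statements.S4334
import Cfsg.Agent.FG.NilpHall

set_option autoImplicit false
open Cfsg

namespace Cfsg.Agent.S4334

open Cfsg.Agent.GT Subgroup

/-- Let σ and τ be disjoint sets of primes with union π. Suppose a finite group G has a Hall π-subgroup H which is the direct product of a nilpotent σ-subgroup and a τ-subgroup (two elementwise-commuting subgroups generating H), and that the maximal τ-subgroups of G are pairwise conjugate. Then the maximal π-subgroups of G are pairwise conjugate. -/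
theorem result {G : Type*} [Group G] [Finite G]
    (σ τ π : Set ℕ) (hπ : π = σ ∪ τ) (hd : Disjoint σ τ) (H Hs Ht : Subgroup G) (hH : Cfsg.IsPiHall π H)
    (hs : Cfsg.IsPiSubgroup σ Hs) (ht : Cfsg.IsPiSubgroup τ Ht) (hsn : Group.IsNilpotent Hs)
    (hjoin : Hs ⊔ Ht = H) (hcomm : ∀ a ∈ Hs, ∀ b ∈ Ht, a * b = b * a) (hD : Cfsg.IsDPiGroup τ G) :
    Cfsg.IsDPiGroup π G := by
  subst hπ hjoin
  have hc : Hs ≤ centralizer (Ht : Set G) := fun a ha => mem_centralizer_iff.2
    fun b hb => (hcomm a ha b hb).symm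
  have hst : (Nat.card Hs).Coprime (Nat.card Ht) :=
    IsPiNum.coprime_of_disjoint (isPiSubgroup_iff.1 hs) (isPiSubgroup_iff.1 ht) hd
  have hcard : Nat.card (Hs ⊔ Ht : Subgroup G) = Nat.card Hs * Nat.card Ht :=
    card_sup_of_inf_eq_bot (le_normalizer_of_le_centralizer hc)
      (disjoint_of_coprime_natCard hst).eq_bot
  have hi : Ht.index = Nat.card Hs * (Hs ⊔ Ht).index := by
    have h1 := Ht.card_mul_index
    rw [← (Hs ⊔ Ht).card_mul_index, hcard, mul_comm (Nat.card Hs), mul_assoc] at h1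
    exact Nat.eq_of_mul_eq_mul_left Nat.card_pos h1
  have hT : IsPiHall τ Ht := ⟨ht, fun p hp hpτ h => by
    rw [hi, hp.dvd_mul] at h
    rcases h with h | h
    · exact Set.disjoint_left.1 hd (hs p hp h) hpτ
    · exact hH.2 p hp (Or.inr hpτ) h⟩
  have hmax : ∀ {ρ : Set ℕ} {A : Subgroup G}, IsPiHall ρ A → Maximal (IsPiSubgroup ρ) A :=
    fun h => ⟨h.1, fun B hB hle => (h.eq_of_le hB hle).ge⟩
  have hdom : FG.NH.Dom (Hs ⊔ Ht) := by
    refine FG.NH.dom_sup _ Hs Ht rfl hsn hc hst hH.coprime fun K hK => ?_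
    obtain ⟨M, hKM, hM⟩ := Finite.exists_le_maximal (p := IsPiSubgroup τ) (a := K)
      fun p hp h => ht p hp (hK p hp h)
    obtain ⟨g, hg⟩ := hD M Ht hM (hmax hT)
    exact ⟨g, hg ▸ map_mono hKM⟩
  have key : ∀ K : Subgroup G, Maximal (IsPiSubgroup (σ ∪ τ)) K →
      ∃ g : G, K = (Hs ⊔ Ht).map (MulAut.conj g).toMonoidHom := by
    intro K hK
    obtain ⟨g, hg⟩ := hdom K fun p hp h =>
      ((hp.dvd_mul.1 ((Hs ⊔ Ht).card_mul_index ▸ h.trans (card_subgroup_dvd_card K))).resolve_right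
        (hH.2 p hp (hK.1 p hp h)))
    exact ⟨g⁻¹, le_antisymm (map_conj_le_iff.1 hg)
      (hK.2 (hH.map_conj g⁻¹).1 (map_conj_le_iff.1 hg))⟩
  intro A B hA hB
  obtain ⟨a, rfl⟩ := key A hA
  obtain ⟨b, rfl⟩ := key B hB
  exact ⟨b * a⁻¹, by rw [map_conj_map_conj, inv_mul_cancel_right]⟩

end Cfsg.Agent.S4334
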