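import Cfsg.Statements.S4337
import Cfsg.Agent.Sym.Orbits

set_option autoImplicit false
open Cfsg

namespace Cfsg.Agent.S4337

/-- In a finite symmetric group, any three transpositions generate a solvable subgroup. -/
theorem result (n : ℕ) (a b c : Equiv.Perm (Fin n))
    (ha : a.IsSwap) (hb : b.IsSwap) (hc : c.IsSwap) :
    Group.IsSolvable (Subgroup.closure ({a, b, c} : Set (Equiv.Perm (Fin n)))) := by
  refine Sym.isSolvable_of_ncard_orbit_le_four (X := Fin n) fun x => ?_
  have h1 := Sym.ncard_orbit_closure_swaps_le {a, b, c} (by simp [*]) x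
  have h2 := Finset.card_le_three (a := a) (b := b) (c := c)
  rw [Finset.coe_insert, Finset.coe_pair] at h1
  omega

end Cfsg.Agent.S4337
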