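import Mathlib
import Cfsg.Statements.S4341
import Cfsg.Agent.FG.SylowCount

set_option autoImplicit false
open Cfsg

namespace Cfsg.Agent.S4341

open Cfsg.Agent.FG.H96 Pointwise


/-- Let K be a normal subgroup of a finite group G, p a prime and P a Sylow p-subgroup of G; let N be the normalizer of P ∩ K inside the subgroup PK. Then the number of Sylow p-subgroups of G equals the product of the numbers of Sylow p-subgroups of G/K, of K, and of N/(P ∩ K). (The normality of P ∩ K in N, which always holds, is assumed as a hypothesis so that the quotient can be formed.) -/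
theorem result {G : Type*} [Group G] [Finite G]
    (p : ℕ) [Fact p.Prime] (K : Subgroup G) [K.Normal] (P : Sylow p G) (N : Subgroup G)
    (hN : N = ((P : Subgroup G) ⊔ K) ⊓ Subgroup.normalizer (((P : Subgroup G) ⊓ K : Subgroup G) : Set G))
    [hn : (((P : Subgroup G) ⊓ K).subgroupOf N).Normal] :
    Nat.card (Sylow p G) =
      Nat.card (Sylow p (G ⧸ K)) * Nat.card (Sylow p K) * Nat.card (Sylow p (N ⧸ ((P : Subgroup G) ⊓ K).subgroupOf N)) := by
  set NP := Subgroup.normalizer ((P : Subgroup G) : Set G) with hNP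
  set N0 := Subgroup.normalizer (((P : Subgroup G) ⊓ K : Subgroup G) : Set G) with hN0
  have hNP0 : NP ≤ N0 := by
    intro x hx
    rw [hN0, Subgroup.mem_normalizer_iff]
    intro y
    rw [Subgroup.mem_inf, Subgroup.mem_inf, Subgroup.mem_normalizer_iff.1 hx y]
    refine and_congr Iff.rfl ⟨fun h => ‹K.Normal›.conj_mem y h x, fun h => ?_⟩
    have := ‹K.Normal›.conj_mem _ h x⁻¹
    simpa [mul_assoc] using this
  have hPNP : (P : Subgroup G) ≤ NP := Subgroup.le_normalizer
  have hPN : (P : Subgroup G) ≤ N := hN ▸ le_inf le_sup_left (hPNP.trans hNP0)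
  rw [card_sylow_eq_quotient_mul K P, card_sylow_normal P K, mul_assoc]
  congr 1
  rw [card_sylow_quotient _ (P.subtype hPN), Sylow.coe_subtype,
    ← Subgroup.subgroupOf_normalizer_eq hPN,
    sup_eq_left.2 (Subgroup.subgroupOf_mono N (inf_le_left.trans hPNP))]
  change NP.relIndex K = N0.relIndex K * NP.relIndex N
  have h1 : NP.relIndex N = NP.relIndex (N0 ⊓ K) := by
    apply relIndex_eq_of_mul
    · rw [hN]; exact le_inf (inf_le_right.trans le_sup_right) inf_le_left
    · intro m hm
      rw [hN] at hm
      have hm' : m ∈ ((K ⊔ (P : Subgroup G) : Subgroup G) : Set G) := by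
        rw [sup_comm]; exact hm.1
      rw [Subgroup.normal_mul] at hm'
      obtain ⟨k, hk, h, hh, rfl⟩ := hm'
      refine ⟨k, ⟨?_, hk⟩, by simpa using hPNP hh⟩
      have := N0.mul_mem hm.2 (N0.inv_mem (hNP0 (hPNP hh)))
      simpa using this
  rw [h1, ← Subgroup.inf_relIndex_right NP K, ← Subgroup.inf_relIndex_right N0 K,
    ← Subgroup.inf_relIndex_right NP (N0 ⊓ K), ← inf_assoc, inf_eq_left.2 hNP0, mul_comm,
    Subgroup.relIndex_mul_relIndex _ _ _ (inf_le_inf_right K hNP0) inf_le_right]

end Cfsg.Agent.S4341
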