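import Mathlib
import Cfsg.Statements.S4342
import Cfsg.Agent.FG.SylowCount

set_option autoImplicit false
open Cfsg

namespace Cfsg.Agent.S4342

open Cfsg.Agent.FG.H96 Pointwise


/-- Let H be a normal subgroup of a finite group G and p a prime not dividing the index of H. Then the number of Sylow p-subgroups of H/Z(H) equals the number of Sylow p-subgroups of G. -/
theorem result {G : Type*} [Group G] [Finite G]
    (p : ℕ) [Fact p.Prime] (H : Subgroup G) [H.Normal] (hp : ¬ p ∣ H.index) :
    Nat.card (Sylow p (H ⧸ Subgroup.center H)) = Nat.card (Sylow p G) := by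
  obtain ⟨P⟩ : Nonempty (Sylow p G) := inferInstance
  have hPH : (P : Subgroup G) ≤ H := by
    obtain ⟨R, -, hR⟩ := exists_sylow_le_of_not_dvd_index hp (IsPGroup.of_bot (p := p)) bot_le
    obtain ⟨g, rfl⟩ := MulAction.exists_smul_eq G R P
    rw [Sylow.coe_subgroup_smul]
    rintro _ ⟨y, hy, rfl⟩
    exact ‹H.Normal›.conj_mem y (hR hy) g
  have e : Subgroup.normalizer ((P : Subgroup G) : Set G) ⊔ H = ⊤ := P.normalizer_sup_eq_top' hPH
  rw [card_sylow_quotient _ (P.subtype hPH), sup_eq_left.2 (Subgroup.center_le_normalizer _),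
    card_sylow_eq_quotient_mul H P, card_sylow_quotient H P, e,
    Subgroup.index_top, one_mul, Sylow.coe_subtype, ← Subgroup.subgroupOf_normalizer_eq hPH]
  rfl

end Cfsg.Agent.S4342
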