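import Mathlib
import Cfsg.Statements.S4344
import Cfsg.Agent.FG.SylowNormal

set_option autoImplicit false
open Cfsg

namespace Cfsg.Agent.S4344

open Cfsg.Agent.FG.H96 Pointwise


/-- Let S be a finite non-abelian simple group, M a maximal subgroup of S and C a cyclic normal subgroup of M. If a Sylow p-subgroup P of S (for a prime p dividing the order of S) is contained in C, then the number of Sylow p-subgroups of S equals the index of M. -/
theorem result {S : Type*} [Group S] [Finite S]
    [IsSimpleGroup S] (hS : ¬ IsMulCommutative S) (p : ℕ) [Fact p.Prime] (hp : p ∣ Nat.card S)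
    (M : Subgroup S) (hM : IsCoatom M) (C : Subgroup S) (hCM : C ≤ M) (hCn : (C.subgroupOf M).Normal)
    (hC : IsCyclic C) (P : Sylow p S) (hP : (P : Subgroup S) ≤ C) :
    Nat.card (Sylow p S) = M.index := by
  rw [P.card_eq_index_normalizer]
  congr 1
  have hle : M ≤ Subgroup.normalizer ((P : Subgroup S) : Set S) := by
    intro m hm
    have hCm : ∀ x ∈ C, m * x * m⁻¹ ∈ C := fun x hx =>
      hCn.conj_mem ⟨x, hCM hx⟩ hx ⟨m, hm⟩
    have hQ : ((m • P : Sylow p S) : Subgroup S) ≤ C := by
      intro x hx
      rw [Sylow.coe_subgroup_smul] at hx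
      obtain ⟨y, hy, rfl⟩ := hx
      exact hCm y (hP hy)
    have hcomm : IsMulCommutative C := hC.isMulCommutative
    have hn : ((P.subtype hP : Sylow p C) : Subgroup C).Normal := Subgroup.normal_of_isMulCommutative _
    have := (Sylow.unique_of_normal (P.subtype hP) hn).uniq
    have e : (m • P).subtype hQ = P.subtype hP := (this _).trans (this _).symm
    exact Sylow.smul_eq_iff_mem_normalizer.1 (Sylow.subtype_injective e)
  rcases (hM.le_iff).1 hle with h | h
  · exfalso
    have hn : (P : Subgroup S).Normal := Subgroup.normalizer_eq_top_iff.1 h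
    rcases hn.eq_bot_or_eq_top with h | h
    · exact P.ne_bot_of_dvd_card hp h
    · apply hS
      have hCt : C = ⊤ := top_le_iff.1 (h ▸ hP)
      have hcomm : IsMulCommutative C := hC.isMulCommutative
      refine ⟨⟨fun a b => ?_⟩⟩
      exact FG.H96.isMulCommutative_iff.1 hcomm a (hCt ▸ Subgroup.mem_top a) b (hCt ▸ Subgroup.mem_top b)
  · exact h

end Cfsg.Agent.S4344
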