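import Mathlib
import Cfsg.Statements.S4346
import Cfsg.Agent.S0720
import Cfsg.Agent.S0985
import Cfsg.Agent.GT.Conj

set_option autoImplicit false
open Cfsg

namespace Cfsg.Agent.S4346


open Subgroup MulAction

section
variable {G : Type*} [Group G] [Finite G]

omit [Finite G] in
theorem relIndex_stab (X : Subgroup G) (Q : Sylow 3 G) :
    (stabilizer G Q).relIndex X = (orbit X Q).ncard := by
  rw [← index_stabilizer]; rfl

omit [Finite G] in
theorem mem_smul {g x : G} {T : Sylow 3 G} :
    x ∈ ((g • T : Sylow 3 G) : Subgroup G) ↔ g⁻¹ * x * g ∈ (T : Subgroup G) := by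
  rw [Sylow.coe_subgroup_smul, mem_pointwise_smul_iff_inv_smul_mem]
  simp

omit [Finite G] in
theorem eq_of_le_stab {P Q : Sylow 3 G} (h : (P : Subgroup G) ≤ stabilizer G Q) : P = Q := by
  rw [Sylow.stabilizer_eq_normalizer] at h
  have h1 := P.isPGroup'.inf_normalizer_sylow Q
  have h2 : (P : Subgroup G) ≤ Q := by
    rw [← inf_eq_left, ← h1]; exact inf_eq_left.mpr h
  exact Sylow.ext (P.is_maximal' Q.isPGroup' h2).symm

omit [Finite G] in
theorem le_stab (P : Sylow 3 G) : (P : Subgroup G) ≤ stabilizer G P := by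
  rw [Sylow.stabilizer_eq_normalizer]; exact le_normalizer

theorem index_stab (h : Nat.card (Sylow 3 G) = 22) (P : Sylow 3 G) :
    (stabilizer G P).index = 22 := by rw [index_stabilizer_of_transitive, h]

theorem prim (h : Nat.card (Sylow 3 G) = 22) : IsPreprimitive G (Sylow 3 G) := by
  have : Nontrivial (Sylow 3 G) := Finite.one_lt_card_iff_nontrivial.mp (by omega)
  obtain ⟨P⟩ : Nonempty (Sylow 3 G) := inferInstance
  rw [← isCoatom_stabilizer_iff_preprimitive G P]
  have h0 := index_stab h P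
  refine ⟨fun e => by rw [e, index_top] at h0; omega, fun M hM => ?_⟩
  have hP : (P : Subgroup G) ≤ M := (le_stab P).trans hM.le
  have h1 := card_sylow_modEq_one 3 M
  rw [(P.subtype hP).card_eq_index_normalizer] at h1
  have h2 : (normalizer ((P.subtype hP : Sylow 3 M) : Set M)).index =
      (stabilizer G P).relIndex M := by
    rw [Sylow.stabilizer_eq_normalizer, relIndex]
    exact congrArg index (subgroupOf_normalizer_eq hP).symm
  rw [h2] at h1
  have h3 := relIndex_mul_index hM.le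
  rw [h0] at h3
  have h4 : (stabilizer G P).relIndex M ≠ 1 := fun e => hM.not_ge (relIndex_eq_one.mp e)
  have h5 : (stabilizer G P).relIndex M ≤ 22 := Nat.le_of_dvd (by norm_num) ⟨_, h3.symm⟩
  rw [← index_eq_one]
  unfold Nat.ModEq at h1
  generalize (stabilizer G P).relIndex M = a at *
  interval_cases a <;> omega

theorem two (h : Nat.card (Sylow 3 G) = 22) {P Q T U : Sylow 3 G} (h1 : P ≠ Q) (h2 : T ≠ U) :
    ∃ g : G, g • P = T ∧ g • Q = U := by
  classical
  have := prim h
  have := Fintype.ofFinite (Sylow 3 G)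
  let f : Sylow 3 G →ₑ[(toPermHom G (Sylow 3 G)).rangeRestrict] Sylow 3 G :=
    ⟨id, fun _ _ => rfl⟩
  have hp : IsPreprimitive (toPermHom G (Sylow 3 G)).range (Sylow 3 G) :=
    IsPreprimitive.of_surjective (f := f) Function.surjective_id
  rcases S0720.result (p := 11) (by norm_num) (by rw [← Nat.card_eq_fintype_card, h]) _ hp P with
    h3 | ⟨-, a, ha, h3, -⟩
  · obtain ⟨⟨_, g, rfl⟩, h4⟩ := is_two_pretransitive_iff.mp h3 h1 h2
    exact ⟨g, h4⟩
  · exfalso
    have : a < 3 := by nlinarith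
    interval_cases a <;> omega

theorem rel21 (h : Nat.card (Sylow 3 G) = 22) {P Q : Sylow 3 G} (h1 : P ≠ Q) :
    (stabilizer G Q).relIndex (stabilizer G P) = 21 := by
  have : orbit (stabilizer G P) Q = {P}ᶜ := by
    ext T
    constructor
    · rintro ⟨g, rfl⟩ e
      have e' : (g : G) • Q = (g : G) • P := e.trans g.2.symm
      exact h1 (smul_left_cancel _ e').symm
    · intro hT
      obtain ⟨g, h2, h3⟩ := two h h1 (Ne.symm hT)
      exact ⟨⟨g, h2⟩, h3⟩
  rw [relIndex_stab, this]
  have := Set.ncard_add_ncard_compl ({P} : Set (Sylow 3 G))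
  rw [Set.ncard_singleton, h] at this
  omega

theorem line (h : Nat.card (Sylow 3 G) = 22) {P Q : Sylow 3 G} (h1 : P ≠ Q) (T : Sylow 3 G) :
    (T : Subgroup G) ≤ (P : Subgroup G) ⊔ Q := by
  set L : Subgroup G := (P : Subgroup G) ⊔ Q with hL
  set H := normalizer (L : Set G) with hH
  set l : Set (Sylow 3 G) := {T | (T : Subgroup G) ≤ L} with hl
  have hPl : P ∈ l := (le_sup_left : (P : Subgroup G) ≤ (P : Subgroup G) ⊔ Q)
  have hQl : Q ∈ l := (le_sup_right : (Q : Subgroup G) ≤ (P : Subgroup G) ⊔ Q)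
  have k1 : ∀ g : G, g • P ∈ l → g • Q ∈ l → g ∈ H := by
    intro g h2 h3
    refine mem_normalizer_fintype fun x hx => ?_
    have : L ≤ L.comap (MulAut.conj g).toMonoidHom := sup_le
      (fun y hy => h2 (mem_smul.mpr (by simpa [mul_assoc] using hy)))
      (fun y hy => h3 (mem_smul.mpr (by simpa [mul_assoc] using hy)))
    exact this hx
  have k2 : ∀ g ∈ H, ∀ T ∈ l, g • T ∈ l := fun g hg T hT x hx => by
    have := (mem_normalizer_iff.mp hg _).mp (hT (mem_smul.mp hx))
    simpa [mul_assoc] using this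
  have o1 : orbit H P = l := by
    ext T
    constructor
    · rintro ⟨g, rfl⟩; exact k2 g g.2 P hPl
    · intro hT
      by_cases e : T = P
      · rw [e]; exact mem_orbit_self P
      obtain ⟨g, h2, h3⟩ := two h h1 e
      exact ⟨⟨g, k1 g (h2 ▸ hT) (h3 ▸ hPl)⟩, h2⟩
  have o2 : orbit (H ⊓ stabilizer G P : Subgroup G) Q = l \ {P} := by
    ext T
    constructor
    · rintro ⟨g, rfl⟩
      refine ⟨k2 g g.2.1 Q hQl, fun e => ?_⟩
      have e' : (g : G) • Q = (g : G) • P := e.trans g.2.2.symm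
      exact h1 (smul_left_cancel _ e').symm
    · rintro ⟨hT, e⟩
      obtain ⟨g, h2, h3⟩ := two h h1 (Ne.symm e)
      exact ⟨⟨g, k1 g (h2.symm ▸ hPl) (h3 ▸ hT), h2⟩, h3⟩
  have hb := relIndex_stab H P
  have ha := relIndex_stab (H ⊓ stabilizer G P) Q
  rw [o1] at hb
  rw [o2] at ha
  have hc := Set.ncard_sdiff_singleton_add_one hPl
  have hS : stabilizer G Q ⊓ stabilizer G P ≤ H ⊓ stabilizer G P := fun g hg =>
    ⟨k1 g (hg.2.symm ▸ hPl) (hg.1.symm ▸ hQl), hg.2⟩
  have e0 : (stabilizer G Q ⊓ stabilizer G P).relIndex (H ⊓ stabilizer G P) =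
      (l \ {P}).ncard := by
    rw [← ha, ← inf_relIndex_right (stabilizer G Q) (H ⊓ stabilizer G P), ← inf_relIndex_right
      (stabilizer G Q ⊓ stabilizer G P)]
    congr 1
    rw [inf_assoc, inf_comm (stabilizer G P), inf_assoc, inf_idem]
  have e1 := relIndex_mul_relIndex _ _ _ hS (inf_le_right : _ ≤ stabilizer G P)
  rw [inf_relIndex_right (stabilizer G Q), rel21 h h1, e0] at e1
  have e2 := relIndex_mul_relIndex _ _ _ hS (inf_le_left : _ ≤ H)
  rw [e0, inf_relIndex_left, hb] at e2
  have e3 := relIndex_mul_index (hS.trans inf_le_left)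
  rw [← e2, ← relIndex_mul_index (inf_le_right : _ ≤ stabilizer G P), inf_relIndex_right,
    rel21 h h1, index_stab h] at e3
  have e4 : 1 < (l \ {P}).ncard := by
    obtain ⟨x, hx, hx'⟩ := SetLike.not_le_iff_exists.mp fun e => h1 (eq_of_le_stab e)
    rw [Set.one_lt_ncard]
    refine ⟨Q, ⟨hQl, Ne.symm h1⟩, x • Q, ?_, fun e => hx' e.symm⟩
    rw [← o2]
    exact ⟨⟨x, le_normalizer (hPl hx), le_stab P hx⟩, rfl⟩
  have e5 : (l \ {P}).ncard ≤ 21 := Nat.le_of_dvd (by norm_num) ⟨_, e1.symm⟩
  have e6 : l.ncard = 22 := by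
    rw [← hc] at e3 ⊢
    generalize (l \ {P}).ncard = a at *
    interval_cases a <;> omega
  have : l = Set.univ := Set.eq_of_subset_of_ncard_le (Set.subset_univ _)
    (by rw [Set.ncard_univ, h, e6])
  exact (this.symm ▸ Set.mem_univ T : T ∈ l)

theorem three {P : Subgroup G} (hP : Nat.card P = 3) {x y : G} (hx : x ∈ P) (hx1 : x ≠ 1)
    (hy : y ∈ P) : y = 1 ∨ y = x ∨ y = x⁻¹ := by
  have h3 : x ^ 3 = 1 := by
    have := pow_card_eq_one' (x := (⟨x, hx⟩ : P))
    rw [hP] at this
    exact congrArg Subtype.val this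
  have ho := orderOf_eq_prime h3 hx1
  have e : zpowers x = P := eq_of_le_of_card_ge (zpowers_le.mpr hx)
    (by rw [Nat.card_zpowers, ho, hP])
  classical
  rw [← e, mem_zpowers_iff_mem_range_orderOf, ho] at hy
  obtain ⟨i, hi, rfl⟩ := Finset.mem_image.mp hy
  rw [Finset.mem_range] at hi
  interval_cases i
  · simp
  · simp
  · right; right
    rw [eq_inv_iff_mul_eq_one, ← pow_succ, h3]

theorem small (h : Nat.card (Sylow 3 G) = 22) (hk : ∀ g : G, (∀ T : Sylow 3 G, g • T = T) → g = 1) :
    ∃ P R : Sylow 3 G, P ≠ R ∧ Nat.card (stabilizer G R ⊓ stabilizer G P : Subgroup G) ≤ 4 ∧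
      ∀ g ∈ stabilizer G R ⊓ stabilizer G P, g ^ 2 = 1 := by
  obtain ⟨P, R, hne, h1⟩ := S0985.result (G := G) 3 2 (by rw [h]; decide)
  have hcard : Nat.card (P : Subgroup G) = Nat.card (R : Subgroup G) := by
    rw [P.card_eq_multiplicity, R.card_eq_multiplicity]
  set D : Subgroup G := P ⊓ R with hD
  have i1 : D.relIndex P = 3 := by
    rw [hD, inf_relIndex_left]
    obtain ⟨n, hn⟩ := P.isPGroup'.index ((R : Subgroup G).subgroupOf P)
    have h2 : n ≠ 0 := fun e => hne (eq_of_le_stab ((relIndex_eq_one.mp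
      (by rw [relIndex, hn, e, pow_zero])).trans (le_stab R)))
    rw [hn] at h1
    have := (Nat.pow_le_pow_iff_right (by norm_num)).mp h1
    rw [relIndex, hn, show n = 1 by omega, pow_one]
  have c1 := (D.subgroupOf P).index_mul_card
  have c2 := (D.subgroupOf R).index_mul_card
  rw [Nat.card_congr (subgroupOfEquivOfLe inf_le_left).toEquiv] at c1
  rw [Nat.card_congr (subgroupOfEquivOfLe inf_le_right).toEquiv, ← hcard, ← c1] at c2
  have i2 : D.relIndex R = 3 := (Nat.eq_of_mul_eq_mul_right Nat.card_pos c2).trans i1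
  have hn : ∀ T : Sylow 3 G, D ≤ T → D.relIndex T = 3 → (T : Subgroup G) ≤ normalizer D := by
    intro T hT hi
    rw [← normal_subgroupOf_iff_le_normalizer hT]
    obtain ⟨n, hn⟩ := IsPGroup.iff_card.mp T.isPGroup'
    refine normal_of_index_eq_minFac_card ?_
    have h0 : n ≠ 0 := by
      rintro rfl
      have := (D.subgroupOf T).index_dvd_card
      rw [hn, ← relIndex, hi] at this
      norm_num at this
    rw [hn, Nat.prime_three.pow_minFac h0]; exact hi
  have hD0 : D = ⊥ := by
    refine eq_bot_iff.mpr fun d hd => mem_bot.mpr (hk d fun T => le_stab T ?_)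
    have h2 : (T : Subgroup G) ≤ normalizer D := (line h hne T).trans
      (sup_le (hn P inf_le_left i1) (hn R inf_le_right i2))
    have h3 := T.is_maximal' ((P.isPGroup'.to_le inf_le_left).to_sup_of_normal_left'
      T.isPGroup' h2) le_sup_right
    exact h3.le (mem_sup_left hd)
  have cP : Nat.card (P : Subgroup G) = 3 := by
    rw [← c1, ← relIndex, i1, ← hD, hD0, card_bot]
  have ex : ∀ T : Subgroup G, Nat.card T = 3 → ∃ x ∈ T, x ≠ 1 := fun T hT => by
    by_contra hc
    push Not at hc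
    rw [(eq_bot_iff_forall T).mpr hc, card_bot] at hT
    omega
  obtain ⟨x, hx, hx1⟩ := ex _ cP
  obtain ⟨y, hy, hy1⟩ := ex _ (hcard ▸ cP)
  have key : ∀ g : G, g * x * g⁻¹ = x → g * y * g⁻¹ = y → g = 1 := by
    intro g h2 h3
    have k : ∀ (T : Subgroup G) (z : G), Nat.card T = 3 → z ∈ T → z ≠ 1 → g * z * g⁻¹ = z →
        T ≤ centralizer {g} := fun T z hT hz hz1 e w hw => by
      have hc : Commute z g := (mul_inv_eq_iff_eq_mul.mp e).symm
      rw [mem_centralizer_singleton_iff]
      rcases three hT hz hz1 hw with rfl | rfl | rfl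
      · simp
      · exact hc
      · exact hc.inv_left
    refine hk g fun T => Sylow.smul_eq_iff_mem_normalizer.mpr (mem_normalizer_fintype fun w hw => ?_)
    have := mem_centralizer_singleton_iff.mp (((line h hne T).trans
      (sup_le (k _ x cP hx hx1 h2) (k _ y (hcard ▸ cP) hy hy1 h3))) hw)
    rw [← this]; simpa using hw
  have dich : ∀ (T : Sylow 3 G) (z g : G), Nat.card (T : Subgroup G) = 3 → z ∈ (T : Subgroup G) →
      z ≠ 1 → g ∈ stabilizer G T → g * z * g⁻¹ = z ∨ g * z * g⁻¹ = z⁻¹ := by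
    intro T z g hT hz hz1 hg
    rw [Sylow.stabilizer_eq_normalizer] at hg
    rcases three hT hz hz1 ((mem_normalizer_iff.mp hg z).mp hz) with e | e | e
    · exact absurd (by simpa using e) hz1
    · exact Or.inl e
    · exact Or.inr e
  refine ⟨P, R, hne, ?_, fun g hg => key _ ?_ ?_⟩
  · classical
    let f : (stabilizer G R ⊓ stabilizer G P : Subgroup G) → Bool × Bool := fun g =>
      (decide (g * x * (g : G)⁻¹ = x), decide (g * y * (g : G)⁻¹ = y))
    have hf : Function.Injective f := by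
      intro a b e
      simp only [f, Prod.mk.injEq, decide_eq_decide] at e
      have k : ∀ (T : Sylow 3 G) (z : G), Nat.card (T : Subgroup G) = 3 → z ∈ (T : Subgroup G) →
          z ≠ 1 → (a : G) ∈ stabilizer G T → (b : G) ∈ stabilizer G T →
          (a * z * (a : G)⁻¹ = z ↔ b * z * (b : G)⁻¹ = z) →
          ((b : G)⁻¹ * a) * z * ((b : G)⁻¹ * a)⁻¹ = z := by
        intro T z hT hz hz1 ha hb e
        have : a * z * (a : G)⁻¹ = b * z * (b : G)⁻¹ := by
          rcases dich T z a hT hz hz1 ha with h2 | h2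
          · rw [h2, e.mp h2]
          · rcases dich T z b hT hz hz1 hb with h3 | h3
            · rw [h3, e.mpr h3]
            · rw [h2, h3]
        calc _ = (b : G)⁻¹ * (a * z * (a : G)⁻¹) * b := by group
          _ = _ := by rw [this]; group
      have := key _ (k P x cP hx hx1 a.2.2 b.2.2 e.1) (k R y (hcard ▸ cP) hy hy1 a.2.1 b.2.1 e.2)
      exact Subtype.ext (inv_mul_eq_one.mp this).symm
    simpa using Nat.card_le_card_of_injective f hf
  all_goals
    have k : ∀ z : G, (g * z * g⁻¹ = z ∨ g * z * g⁻¹ = z⁻¹) → g ^ 2 * z * (g ^ 2)⁻¹ = z := by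
      intro z e
      have : g ^ 2 * z * (g ^ 2)⁻¹ = g * (g * z * g⁻¹) * g⁻¹ := by rw [sq]; group
      rcases e with e | e
      · rw [this, e, e]
      · rw [this, e]
        calc _ = (g * z * g⁻¹)⁻¹ := by group
          _ = _ := by rw [e, inv_inv]
  · exact k x (dich P x g cP hx hx1 hg.2)
  · exact k y (dich R y g (hcard ▸ cP) hy hy1 hg.1)

theorem faithful (h : Nat.card (Sylow 3 G) = 22)
    (hk : ∀ g : G, (∀ T : Sylow 3 G, g • T = T) → g = 1) : False := by
  obtain ⟨P, Q, hne, h4, hsq⟩ := small h hk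
  have c0 := (stabilizer G Q ⊓ stabilizer G P).index_mul_card
  rw [← relIndex_mul_index (inf_le_right : _ ≤ stabilizer G P), inf_relIndex_right,
    rel21 h hne, index_stab h] at c0
  have p0 : 0 < Nat.card (stabilizer G Q ⊓ stabilizer G P : Subgroup G) := Nat.card_pos
  generalize Nat.card (stabilizer G Q ⊓ stabilizer G P : Subgroup G) = e at h4 c0 p0
  have : Fact (Nat.Prime 11) := ⟨by norm_num⟩
  obtain ⟨R⟩ : Nonempty (Sylow 11 G) := inferInstance
  have cR : Nat.card (R : Subgroup G) = 11 := by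
    obtain ⟨n, hn⟩ := IsPGroup.iff_card.mp R.isPGroup'
    have h1 := (R : Subgroup G).index_mul_card
    have h2 := R.not_dvd_index
    rw [hn, ← c0] at h1
    rw [hn]
    rcases n with _ | _ | n
    · exact absurd ⟨42 * e, by omega⟩ h2
    · rfl
    · exfalso
      have : 121 ∣ 21 * 22 * e := ⟨(R : Subgroup G).index * 11 ^ n, by rw [← h1]; ring⟩
      omega
  have hs : ∀ s : ℕ, s = 3 ∨ s = 7 → ¬ s ∣ Nat.card (normalizer (R : Set G)) := by
    intro s hs hd
    have hp : Fact s.Prime := ⟨by rcases hs with rfl | rfl <;> norm_num⟩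
    obtain ⟨c, hc⟩ := exists_prime_orderOf_dvd_card' s hd
    rw [← orderOf_coe] at hc
    have hcp : IsPGroup s (zpowers (c : G)) :=
      IsPGroup.of_card (n := 1) (by rw [Nat.card_zpowers, hc, pow_one])
    have h1 := GT.card_modEq_card_inf_centralizer (L := R) hcp (zpowers_le.mpr c.2)
    obtain ⟨r, hr, hr1⟩ : ∃ r ∈ (R : Subgroup G) ⊓ centralizer (zpowers (c : G) : Set G),
        r ≠ 1 := by
      by_contra hc
      push Not at hc
      rw [(eq_bot_iff_forall _).mpr hc, card_bot, cR] at h1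
      rcases hs with rfl | rfl <;> exact absurd h1 (by decide)
    have hro : orderOf r = 11 := by
      refine orderOf_eq_prime ?_ hr1
      have := pow_card_eq_one' (x := (⟨r, hr.1⟩ : (R : Subgroup G)))
      rw [cR] at this
      exact congrArg Subtype.val this
    obtain ⟨T, hT⟩ := hcp.nonempty_fixed_point_of_prime_not_dvd_card (Sylow 3 G)
      (by rw [h]; rcases hs with rfl | rfl <;> norm_num)
    have hT1 : (c : G) • T = T := hT ⟨c, mem_zpowers _⟩
    have hT2 : (c : G) • r • T = r • T := by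
      rw [smul_smul, hr.2 c (mem_zpowers _), mul_smul, hT1]
    have hne' : T ≠ r • T := by
      intro e1
      have h2 := orderOf_dvd_natCard (⟨r, e1.symm⟩ : stabilizer G T)
      have h3 := (stabilizer G T).index_mul_card
      rw [← orderOf_coe, hro] at h2
      rw [index_stab h, ← c0] at h3
      omega
    obtain ⟨g, h2, h3⟩ := two h hne hne'
    have h5 := hsq (g⁻¹ * c * g) ⟨by
      show _ • Q = Q
      rw [mul_smul, mul_smul, h3, hT2, ← h3, inv_smul_smul], by
      show _ • P = P
      rw [mul_smul, mul_smul, h2, hT1, ← h2, inv_smul_smul]⟩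
    have h6 : (c : G) ^ 2 = 1 := by
      calc (c : G) ^ 2 = g * (g⁻¹ * c * g) ^ 2 * g⁻¹ := by rw [sq, sq]; group
        _ = 1 := by rw [h5]; group
    have := orderOf_dvd_of_pow_eq_one h6
    rw [hc] at this
    rcases hs with rfl | rfl <;> omega
  have n1 := card_sylow_modEq_one 11 G
  rw [R.card_eq_index_normalizer] at n1
  have n2 := (normalizer (R : Set G)).index_mul_card
  obtain ⟨c, hc⟩ : 11 ∣ Nat.card (normalizer (R : Set G)) := by
    have := card_dvd_of_le (le_normalizer (H := (R : Subgroup G)))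
    rwa [cR] at this
  have n3 := hs 3 (Or.inl rfl)
  have n7 := hs 7 (Or.inr rfl)
  rw [← c0] at n2
  generalize (normalizer (R : Set G)).index = n at n1 n2
  generalize Nat.card (normalizer (R : Set G)) = m at n2 hc n3 n7
  have d3 : 3 ∣ n := ((Nat.prime_three.dvd_mul).mp ⟨154 * e, by omega⟩).resolve_right n3
  have d7 : 7 ∣ n := (((by norm_num : Nat.Prime 7).dvd_mul).mp ⟨66 * e, by omega⟩).resolve_right n7
  have hc0 : 0 < c := by
    rcases c with _ | c
    · subst hc; omega
    · omega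
  have : n * 11 ≤ n * m := Nat.mul_le_mul_left _ (by omega)
  unfold Nat.ModEq at n1
  omega

end

universe u

theorem aux (n : ℕ) : ∀ (G : Type u) [Group G] [Finite G], Nat.card G = n →
    Nat.card (Sylow 3 G) ≠ 22 := by
  induction n using Nat.strong_induction_on with
  | _ n ih =>
  intro G _ _ hn h
  set N := (toPermHom G (Sylow 3 G)).ker with hN
  have hm : ∀ g : G, g ∈ N ↔ ∀ T : Sylow 3 G, g • T = T := fun g => by
    rw [MonoidHom.mem_ker, Equiv.ext_iff]; rfl
  by_cases h0 : N = ⊥
  · exact faithful h fun g hg => mem_bot.mp (h0 ▸ (hm g).mpr hg)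
  refine ih _ ?_ (G ⧸ N) rfl ?_
  · have := card_eq_card_quotient_mul_card_subgroup N
    have h1 := (one_lt_card_iff_ne_bot N).mpr h0
    have h2 : 0 < Nat.card (G ⧸ N) := Nat.card_pos
    nlinarith
  · rw [← h]
    refine (Nat.card_eq_of_bijective (Sylow.mapSurjective (QuotientGroup.mk'_surjective N))
      ⟨fun P Q e => eq_of_le_stab fun x hx => ?_, Sylow.mapSurjective_surjective _ 3⟩).symm
    have h1 : (QuotientGroup.mk' N) x ∈ (Q : Subgroup G).map (QuotientGroup.mk' N) := by
      rw [← Sylow.coe_mapSurjective (QuotientGroup.mk'_surjective N), ← e]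
      exact ⟨x, hx, rfl⟩
    obtain ⟨y, hy, e1⟩ := h1
    have h2 : y⁻¹ * x ∈ N := QuotientGroup.eq.mp e1
    have := mul_mem (le_stab Q hy) (show y⁻¹ * x ∈ stabilizer G Q from (hm _).mp h2 Q)
    simpa using this



/-- No finite group has exactly 22 Sylow 3-subgroups. -/
theorem result {G : Type*} [Group G] [Finite G] : Nat.card (Sylow 3 G) ≠ 22 := by
  exact aux _ G rfl

end Cfsg.Agent.S4346
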