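import Mathlib
import Cfsg.Statements.S4359
import Cfsg.Agent.Loc.MssSyl
import Cfsg.Agent.GT.PGroupChain

set_option autoImplicit false
open Pointwise
open Cfsg

namespace Cfsg.Agent.S4359

open Subgroup Cfsg.Agent.Loc.Mss Cfsg.Agent.GT
open scoped commutatorElement

section

variable {G : Type*} [Group G]

/-- One half of Sims' lower bound. -/
theorem half (T : ℤ → Subgroup G) (S : ℤ → ℤ → Subgroup G) {t k μ : ℤ}
    (gen : ∀ c d C, d - c ≤ t - 1 → (∀ j, c ≤ j → j ≤ d → T j ≤ C) → S c d ≤ C)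
    (le : ∀ c d j, c ≤ j → j ≤ d → T j ≤ S c d)
    (comm : ∀ c d, d - c ≤ t - 1 → ⁅S c d, S c d⁆ ≤ S (c + 1) (d - 1))
    (hk : ∀ i j, i - j < k → j - i < k → T i ≤ 𝐂[T j]) {u v : G} (hu : u ∈ T 0) (hv : v ∈ T k)
    (hw : ⁅u, v⁆ ∈ S μ (k - 1)) (h1 : 1 ≤ μ) (h2 : μ ≤ k - 1)
    (hm : ∀ C, S (μ + 1) (k - 1) ≤ C → ⁅u, v⁆ ∈ C → S μ (k - 1) ≤ C) (h3 : μ + k ≤ t - 1) :
    T μ ≤ 𝐂[T (μ + k)] := by
  refine cent_comm fun s hs => ?_
  have hc : ⁅s, u⁆ ∈ S (0 + 1) (μ + k - 1) := comm 0 (μ + k) (by omega)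
    (commutator_mem_commutator (le _ _ _ (by omega) le_rfl hs) (le _ _ _ le_rfl (by omega) hu))
  have c1 : Commute v ⁅s, u⁆ := mem_cent.1 (gen _ _ _ (by omega)
    (fun j _ _ => hk j k (by omega) (by omega)) hc) v hv
  have c2 : Commute ⁅u, v⁆ ⁅s, u⁆ := mem_cent.1 (gen _ _ _ (by omega) (fun j _ _ =>
    cent_comm (gen _ _ _ (by omega) fun i _ _ => hk i j (by omega) (by omega))) hc) _ hw
  have c3 : Commute v s := mem_cent.1 (hk _ _ (by omega) (by omega) hs) v hv
  have k1 : S μ (k - 1) ≤ 𝐂[zpowers s] := by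
    refine hm _ (gen _ _ _ (by omega) fun j _ _ => (hk j (μ + k) (by omega) (by omega)).trans
      (cent_anti (zpowers_le.2 hs))) (cent_comm (zpowers_le.2 (mem_cent.2 ?_)) (mem_zpowers _))
    rintro _ ⟨n, rfl⟩
    refine Commute.zpow_left (Eq.symm ?_) n
    calc s * ⁅u, v⁆ = ⁅s, u⁆ * u * (s * v) * u⁻¹ * v⁻¹ := by simp only [commutatorElement_def]; group
      _ = ⁅s, u⁆ * ⁅u, v⁆ * (v * ⁅s, u⁆⁻¹) * s * v⁻¹ := by
        rw [← c3.eq]; simp only [commutatorElement_def]; group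
      _ = ⁅u, v⁆ * (v * s) * v⁻¹ := by rw [c1.inv_right.eq, ← c2.eq]; group
      _ = _ := by rw [c3.eq]; group
  exact cent_comm ((le _ _ _ le_rfl h2).trans k1) (mem_zpowers s)

/-- intersections of consecutive conjugates -/
def R (P : Subgroup G) (h : G) (a b : ℤ) : Subgroup G := ⨅ j ∈ Set.Icc a b, cj(h ^ j, P)

variable {P : Subgroup G} {h : G}

theorem mem_R {a b : ℤ} {x : G} : x ∈ R P h a b ↔ ∀ j, a ≤ j → j ≤ b → x ∈ cj(h ^ j, P) := by
  simp only [R, mem_iInf, Set.mem_Icc, and_imp]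

theorem R_mono {a b a' b' : ℤ} (h1 : a' ≤ a) (h2 : b ≤ b') : R P h a' b' ≤ R P h a b :=
  fun _ hx => mem_R.2 fun j _ _ => mem_R.1 hx j (by omega) (by omega)

theorem cj_R (a b n : ℤ) : cj(h ^ n, R P h a b) = R P h (a + n) (b + n) := by
  ext x
  rw [mem_cj, mem_R, mem_R]
  refine ⟨fun H j _ _ => ?_, fun H j _ _ => ?_⟩
  · have := H (j - n) (by omega) (by omega)
    rwa [← mem_cj, cj_cj, ← zpow_add, add_sub_cancel] at this
  · rw [← mem_cj, cj_cj, ← zpow_add]
    exact H _ (by omega) (by omega)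

theorem R_self (a : ℤ) : R P h a a = cj(h ^ a, P) := by
  ext x
  exact mem_R.trans ⟨fun H => H a le_rfl le_rfl, fun H j _ _ => by rwa [show j = a by omega]⟩

theorem R_inf {a b a' b' : ℤ} (h1 : a ≤ a') (h2 : b ≤ b') (h3 : a' ≤ b + 1) :
    R P h a b ⊓ R P h a' b' = R P h a b' :=
  le_antisymm (fun _ hx => mem_R.2 fun j _ _ => if hj : j ≤ b then mem_R.1 hx.1 j ‹_› hj else
    mem_R.1 hx.2 j (by omega) ‹_›) (le_inf (R_mono le_rfl h2) (R_mono h1 le_rfl))

theorem card_R (a b : ℤ) : Nat.card (R P h a b) = Nat.card (R P h 0 (b - a)) := by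
  rw [← card_cj _ (h ^ (-a)), cj_R, add_neg_cancel, sub_eq_add_neg]

theorem card_eq {A B : Subgroup G} (hAB : A ≤ B) : A.relIndex B * Nat.card A = Nat.card B := by
  rw [mul_comm, ← card_mul_index (A.subgroupOf B), Nat.card_congr (subgroupOfEquivOfLe hAB).toEquiv]
  rfl

theorem le_of_prime {T K C : Subgroup G} {q : ℕ} (hq : q.Prime) (hT : T ≤ K)
    (hi : T.relIndex K = q) (h1 : T ≤ C) {g : G} (hg : g ∈ C) (hg1 : g ∈ K) (hg2 : g ∉ T) :
    K ≤ C := by
  have e := relIndex_mul_relIndex T (K ⊓ C) K (le_inf hT h1) inf_le_left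
  rw [hi] at e
  rcases (Nat.dvd_prime hq).1 (Dvd.intro _ e) with h2 | h2
  · exact absurd (relIndex_eq_one.1 h2 ⟨hg1, hg⟩) hg2
  · rw [h2] at e
    exact (relIndex_eq_one.1 (Nat.eq_of_mul_eq_mul_left hq.pos (by rw [e, mul_one]))).trans
      inf_le_right

theorem R_zero : R P h 0 0 = P := by rw [R_self, zpow_zero, cj_one]

theorem R_one : R P h 0 1 = P ⊓ cj(h, P) := by
  rw [← R_inf (b := 0) (a' := 1) (by omega) (by omega) (by omega), R_self, R_self, zpow_zero,
    cj_one, zpow_one]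

theorem cR {a b : ℤ} (i : ℤ) (e : b - a = i) : Nat.card (R P h a b) = Nat.card (R P h 0 i) :=
  e ▸ card_R a b

theorem nm {p : ℕ} (hN : cj(h, P) ≤ 𝐍[P ⊓ cj(h, P)]) (hi : (P ⊓ cj(h, P)).relIndex cj(h, P) = p)
    {a b : ℤ} (hab : a ≤ b) :
    R P h a b ≤ 𝐍[R P h (a - 1) b] ∧ (R P h (a - 1) b).relIndex (R P h a b) ∣ p := by
  have a1 : R P h a a ≤ 𝐍[R P h (a - 1) a] := by
    have := cj_mono (h ^ (a - 1)) hN
    rwa [cj_norm, ← R_one, cj_R, cj_cj, ← zpow_add_one, ← R_self, zero_add, sub_add_cancel,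
      add_sub_cancel] at this
  have a2 : (R P h (a - 1) a).relIndex (R P h a a) = p := by
    have := relIndex_map_map_of_injective (P ⊓ cj(h, P)) cj(h, P) (cj_inj (h ^ (a - 1)))
    rw [hi, ← R_one, cj_R, cj_cj, ← zpow_add_one, ← R_self, zero_add, sub_add_cancel,
      add_sub_cancel] at this
    exact this
  have a3 : R P h a b ≤ R P h a a := R_mono le_rfl hab
  rw [← R_inf (a := a - 1) (b := a) (a' := a) (by omega) hab (by omega), inf_relIndex_right]
  refine ⟨norm_inf (a3.trans a1) le_normalizer, ?_⟩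
  have := (normal_subgroupOf_iff_le_normalizer (R_mono (by omega) le_rfl)).2 a1
  rw [← relIndex_subgroupOf a3, ← a2]
  exact relIndex_dvd_index_of_normal _ _

structure Ch (P : Subgroup G) (h : G) (p t : ℕ) : Prop where
  pos : 1 ≤ t
  il : ∀ a b : ℤ, a ≤ b → b - a < t → (R P h (a - 1) b).relIndex (R P h a b) = p
  pg : IsPGroup p P
  fix : h ∈ 𝐍[R P h 0 t]

variable [Finite G] {p t : ℕ} [hp : Fact p.Prime]

theorem exists_ch (hN : cj(h, P) ≤ 𝐍[P ⊓ cj(h, P)]) (hi : (P ⊓ cj(h, P)).relIndex cj(h, P) = p)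
    (triv : ∀ Q ≤ P, P ≤ 𝐍[Q] → h ∈ 𝐍[Q] → Q = ⊥) : ∃ t, Ch P h p t := by
  classical
  have ex : ∃ t : ℕ, Nat.card (R P h 0 t) = Nat.card (R P h 0 (t + 1)) :=
    ⟨Function.argmin fun t : ℕ => Nat.card (R P h 0 t), le_antisymm
      (Function.argmin_le (fun t : ℕ => Nat.card (R P h 0 t)) (_ + 1))
      (card_le_of_le (R_mono le_rfl (by omega)))⟩
  set t := Nat.find ex
  have ht : Nat.card (R P h 0 t) = Nat.card (R P h 0 (t + 1)) := Nat.find_spec ex
  have eQ : cj(h, R P h 0 t) = R P h 0 t := by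
    have := cj_R (P := P) (h := h) 0 t 1
    rw [zpow_one] at this
    rw [this, ← eq_of_le_of_card_ge (R_mono (show (0 : ℤ) ≤ 0 + 1 by omega)
      le_rfl) (by rw [cR t (by omega)]; exact ht.le)]
    exact eq_of_le_of_card_ge (R_mono le_rfl (by omega)) ht.le
  refine ⟨t, Nat.pos_of_ne_zero fun e => ?_, fun a b hab hlt => ?_, ?_, cj_eq_iff.1 eQ⟩
  · have e1 := card_eq (inf_le_right : P ⊓ cj(h, P) ≤ _)
    rw [e, Nat.cast_zero, zero_add, R_zero] at ht
    rw [hi, ← R_one, card_cj, ← ht] at e1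
    exact hp.out.one_lt.ne' (Nat.eq_of_mul_eq_mul_right Nat.card_pos (e1.trans (one_mul _).symm))
  · refine ((Nat.dvd_prime hp.out).1 (nm hN hi hab).2).resolve_left fun e => ?_
    have e1 := card_eq (R_mono (P := P) (h := h) (show a - 1 ≤ a by omega) (le_refl b))
    obtain ⟨i, hi⟩ := Int.eq_ofNat_of_zero_le (sub_nonneg.2 hab)
    rw [e, one_mul, cR (i + 1) (by omega), cR i hi] at e1
    exact Nat.find_min ex (m := i) (by omega) e1.symm
  have k : ∀ i : ℕ, pResidualOf p (R P h t t) ≤ R P h (t - i) t := by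
    intro i
    induction i with
    | zero => simpa using res_le _
    | succ i ih =>
      refine (res_le_res ih).trans (res_le_of_pow fun x hx => ⟨1, ?_⟩)
      obtain ⟨a1, m, a2⟩ := nm hN hi (a := t - i) (b := t) (by omega)
      have := (normal_subgroupOf_iff_le_normalizer (R_mono (by omega) le_rfl)).2 a1
      have := pow_mem (((R P h (t - i - 1) t).subgroupOf _).pow_index_mem ⟨x, hx⟩) m
      rw [← pow_mul, mem_subgroupOf] at this
      rw [pow_one, a2, Nat.cast_add, Nat.cast_one, ← sub_sub]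
      exact this
  have e : pResidualOf p (R P h t t) = pResidualOf p (R P h 0 t) :=
    le_antisymm (res_le_res (by simpa using k t)) (res_mono (R_mono (by omega) le_rfl))
  have n1 : h ∈ 𝐍[pResidualOf p (R P h 0 t)] := norm_res le_rfl (cj_eq_iff.1 eQ)
  have e' : pResidualOf p P = pResidualOf p (R P h 0 t) := by
    rw [← cj_eq_cj (g := h ^ (t : ℤ)), cj_res, ← R_self, e, cj_of_norm (zpow_mem n1 _)]
  exact pg_of_res_eq_bot (triv _ (res_le P) (le_norm_res P) (e' ▸ n1))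

omit hp in
theorem Ch.ir (H : Ch P h p t) (a b : ℤ) (hab : a ≤ b) (hlt : b - a < t) :
    (R P h a (b + 1)).relIndex (R P h a b) = p := by
  have e1 := card_eq (R_mono (P := P) (h := h) (show a - 1 ≤ a by omega) (le_refl b))
  have e2 := card_eq (R_mono (P := P) (h := h) (le_refl a) (show b ≤ b + 1 by omega))
  rw [H.il a b hab hlt, cR (b - a + 1) (by omega), ← e2, cR (b := b + 1) (b - a + 1) (by omega)] at e1
  exact (Nat.eq_of_mul_eq_mul_right Nat.card_pos e1).symm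

omit [Finite G] hp in
theorem Ch.pR (H : Ch P h p t) {a b : ℤ} (hab : a ≤ b) : IsPGroup p (R P h a b) :=
  (pg_cj H.pg (h ^ a)).to_le (R_self (P := P) a ▸ R_mono le_rfl hab)

theorem Ch.gen0 (H : Ch P h p t) (m : ℕ) : ∀ (a b : ℤ) (C : Subgroup G), a ≤ b →
    b - a + m = t - 1 → (∀ j, j ≤ a → b ≤ j + t - 1 → R P h j (j + t - 1) ≤ C) → R P h a b ≤ C := by
  have gen1 : ∀ (a b : ℤ) C, a ≤ b → b - a + 1 < t → R P h a (b + 1) ≤ C → R P h (a - 1) b ≤ C →
      R P h a b ≤ C := by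
    intro a b C hab hlt a1 a2
    obtain ⟨x, hx, hx'⟩ := SetLike.not_le_iff_exists.1 fun e : R P h (a - 1) b ≤ _ =>
      hp.out.one_lt.ne' ((H.ir (a - 1) b (by omega) (by omega)).symm.trans (relIndex_eq_one.2 e))
    refine le_of_prime hp.out (R_mono le_rfl (by omega)) (H.ir a b hab (by omega)) a1 (a2 hx)
      (R_mono (by omega) le_rfl hx) fun e => hx' ?_
    rw [← R_inf (b := b) (a' := a) (by omega) (by omega) (by omega)]
    exact ⟨hx, e⟩
  induction m with
  | zero => exact fun a b C _ e H => (show a + t - 1 = b by omega) ▸ H a le_rfl (by omega)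
  | succ m ih =>
    exact fun a b C hab e H => gen1 a b C hab (by omega)
      (ih _ _ _ (by omega) (by omega) fun j _ _ => H j (by omega) (by omega))
      (ih _ _ _ (by omega) (by omega) fun j _ _ => H j (by omega) (by omega))

theorem Ch.bot (H : Ch P h p t) (triv : ∀ Q ≤ P, P ≤ 𝐍[Q] → h ∈ 𝐍[Q] → Q = ⊥) (a b : ℤ)
    (hab : t ≤ b - a) : R P h a b = ⊥ := by
  have t0 := H.pos
  have Q0 : R P h 0 t = ⊥ := by
    refine triv _ ((R_mono le_rfl (by omega)).trans R_zero.le) (R_zero.ge.trans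
      (H.gen0 (t - 1) 0 0 _ le_rfl (by omega) fun j _ _ => ?_)) H.fix
    have : R P h j (j + t - 1) = cj(h ^ j, R P h 0 (t - 1)) := by
      rw [cj_R, zero_add, show (t : ℤ) - 1 + j = j + t - 1 by ring]
    rw [this, ← cj_of_norm (zpow_mem H.fix j), ← cj_norm, cj_le_cj]
    exact PG.le_normalizer_of_relIndex_prime (H.pR (by omega)) (R_mono le_rfl (by omega))
      (by simpa using H.ir 0 (t - 1) (by omega) (by omega))
  rw [← cj_eq_bot (g := h ^ (-a)), cj_R, eq_bot_iff, ← Q0]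
  exact R_mono (by omega) (by omega)

omit hp in
theorem Ch.card (H : Ch P h p t) (bot : ∀ a b : ℤ, t ≤ b - a → R P h a b = ⊥) (i : ℕ) :
    i ≤ t → Nat.card (R P h 0 (t - i)) = p ^ i := by
  induction i with
  | zero => intro _; rw [bot _ _ (by omega), card_bot, pow_zero]
  | succ i ih =>
    intro hi
    have e2 := card_eq (R_mono (P := P) (h := h) (le_refl 0)
      (show (t : ℤ) - (i + 1 : ℕ) ≤ t - (i + 1 : ℕ) + 1 by omega))
    rw [H.ir _ _ (by omega) (by omega), cR (t - i) (by omega), ih (by omega)] at e2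
    rw [pow_succ']; exact e2.symm

theorem Ch.comm (H : Ch P h p t) (bot : ∀ a b : ℤ, t ≤ b - a → R P h a b = ⊥) (a b : ℤ)
    (hab : b - a ≤ t - 1) : ⁅R P h b (a + t - 1), R P h b (a + t - 1)⁆ ≤
      R P h (b - 1) (a + 1 + t - 1) := by
  by_cases h' : a ≤ b
  swap
  · rw [bot _ _ (by omega)]; simp
  have pp := H.pR (a := b) (b := a + t - 1) (by omega)
  have a1 := H.il b (a + t - 1) (by omega) (by omega)
  have a2 := H.ir b (a + t - 1) (by omega) (by omega)
  have b1 : R P h (b - 1) (a + t - 1) ≤ R P h b (a + t - 1) := R_mono (by omega) le_rfl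
  have b2 : R P h b (a + t - 1 + 1) ≤ R P h b (a + t - 1) := R_mono le_rfl (by omega)
  refine (le_inf (PG.commutator_le_of_relIndex_prime pp pp le_normalizer
    (PG.le_normalizer_of_relIndex_prime pp b1 a1) b1 a1).1 (PG.commutator_le_of_relIndex_prime
    pp pp le_normalizer (PG.le_normalizer_of_relIndex_prime pp b2 a2) b2 a2).1).trans ?_
  rw [R_inf (by omega) (by omega) (by omega)]
  exact R_mono le_rfl (by omega)

omit [Finite G] hp in
theorem shift (i j : ℤ) : R P h 0 (0 + t - 1) ≤ 𝐂[R P h j (j + t - 1)] ↔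
    R P h i (i + t - 1) ≤ 𝐂[R P h (i + j) (i + j + t - 1)] := by
  rw [← cj_le_cj (g := h ^ i), cj_cent]
  simp only [cj_R]
  rw [show (0 : ℤ) + t - 1 + i = i + t - 1 by ring, zero_add, show j + t - 1 + i = i + j + t - 1 by
    ring, add_comm j]

theorem Ch.low (H : Ch P h p t) (bot : ∀ a b : ℤ, t ≤ b - a → R P h a b = ⊥) {k : ℤ} (k0 : 1 ≤ k)
    (kt : k < t) (hk : ∀ i j : ℤ, i - j < k → j - i < k →
      R P h i (i + t - 1) ≤ 𝐂[R P h j (j + t - 1)])
    (hne : ¬ R P h 0 (0 + t - 1) ≤ 𝐂[R P h k (k + t - 1)]) : 2 * (t : ℤ) ≤ 3 * k := by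
  set T : ℤ → Subgroup G := fun j => R P h j (j + t - 1) with hT
  set S : ℤ → ℤ → Subgroup G := fun a b => R P h b (a + t - 1) with hS
  have gen : ∀ (a b : ℤ) C, b - a ≤ t - 1 → (∀ j, a ≤ j → j ≤ b → T j ≤ C) → S a b ≤ C := by
    intro a b C hab H'
    by_cases h' : a ≤ b
    · obtain ⟨m, hm⟩ := Int.eq_ofNat_of_zero_le (sub_nonneg.2 h')
      exact H.gen0 m _ _ C (by omega) (by omega) fun j _ _ => H' j (by omega) (by omega)
    · exact (bot _ _ (by omega)).le.trans bot_le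
  have le : ∀ a b j, a ≤ j → j ≤ b → T j ≤ S a b := fun a b j _ _ => R_mono ‹_› (by omega)
  have comm : ∀ a b : ℤ, b - a ≤ t - 1 → ⁅S a b, S a b⁆ ≤ S (a + 1) (b - 1) := H.comm bot
  obtain ⟨u, hu, hu'⟩ := SetLike.not_le_iff_exists.1 hne
  rw [mem_cent] at hu'
  push Not at hu'
  obtain ⟨v, hv, huv⟩ := hu'
  have w1 : ∀ a b : ℤ, ⁅u, v⁆ ∈ R P h a b → b - a < t := fun a b hw => not_le.1 fun hle =>
    huv (commutatorElement_eq_one_iff_mul_comm.1 ((eq_bot_iff_forall _).1 (bot _ _ hle) _ hw)).symm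
  have w2 : ⁅u, v⁆ ∈ S (0 + 1) (k - 1) := comm 0 k (by omega)
    (commutator_mem_commutator (le _ _ _ le_rfl (by omega) hu) (le _ _ _ (by omega) le_rfl hv))
  obtain ⟨μ, ⟨m1, m2⟩, m3⟩ := Int.exists_greatest_of_bdd (P := fun μ => 1 ≤ μ ∧
    ⁅u, v⁆ ∈ S μ (k - 1)) ⟨k, fun z hz => by have := w1 _ _ hz.2; omega⟩ ⟨1, le_rfl, w2⟩
  obtain ⟨ν, ⟨n1, n2⟩, n3⟩ := Int.exists_least_of_bdd (P := fun ν => ν ≤ k - 1 ∧
    ⁅u, v⁆ ∈ S 1 ν) ⟨0, fun z hz => by have := w1 _ _ hz.2; omega⟩ ⟨k - 1, le_rfl, w2⟩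
  have n0 := w1 _ _ n2
  have mn := w1 ν (μ + t - 1) (by
    rw [← R_inf (b := 1 + t - 1) (a' := k - 1) n1 (by omega) (by omega)]; exact ⟨n2, m2⟩)
  have b1 : ¬ μ + k ≤ t - 1 := fun h3 => hne ((shift μ k).2 (half T S gen le comm hk hu hv m2 m1
    (by omega) (fun C a1 a2 => le_of_prime hp.out (R_mono le_rfl (by omega))
      (H.ir (k - 1) (μ + t - 1) (by omega) (by omega)) ((R_mono le_rfl (by omega)).trans a1) a2 m2
      fun e => by have := m3 (μ + 1) ⟨by omega, R_mono le_rfl (by omega) e⟩; omega) h3))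
  have b2 : ¬ (k - ν) + k ≤ t - 1 := fun h3 => hne ((shift (ν - k) k).2 (cent_comm (by
    have := half (fun j => T (k - j)) (fun a b => S (k - b) (k - a)) (t := t) (k := k) (μ := k - ν)
      (u := v) (v := u)
      (fun a b C hab H => gen _ _ C (by omega) fun j _ _ => by
        simpa using H (k - j) (by omega) (by omega))
      (fun a b j _ _ => le _ _ _ (by omega) (by omega))
      (fun a b hab => (comm _ _ (by omega)).trans (R_mono (by omega) (by omega)))
      (fun i j _ _ => hk _ _ (by omega) (by omega)) (by simpa using hv) (by simpa [hT] using hu)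
      (by rw [← commutatorElement_inv, inv_mem_iff]; simpa using n2) (by omega) (by omega)
      (fun C a1 a2 => (R_mono (by omega) (by omega)).trans (le_of_prime hp.out
        (R_mono (by omega) le_rfl)
        (H.il ν (1 + t - 1) (by omega) (by omega)) ((R_mono (by omega) (by omega)).trans a1)
        (by rwa [← commutatorElement_inv, inv_mem_iff] at a2) n2
        fun e => by have := n3 (ν - 1) ⟨by omega, e⟩; omega)) h3
    simpa [show k - (k - ν + k) = ν - k by ring] using this)))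
  omega

end

/-- Let P be a subgroup of a finite group G and g an element such that P ∩ g⁻¹Pg is a normal subgroup of prime index p in g⁻¹Pg. Let n ≥ 1 and let K be the subgroup generated by P and its conjugates g⁻ⁱPgⁱ for i ≤ n. Suppose that g normalizes no non-identity normal subgroup of P and that P meets the center of K trivially. Then the order of P is pᵗ for some t with 1 ≤ t ≤ 3n and t ≠ 3n - 1. -/
theorem result {G : Type*} [Group G] [Finite G]
    (P : Subgroup G) (g : G) (p : ℕ) (hp : p.Prime)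
    (hN : ((P ⊓ MulAut.conj g⁻¹ • P).subgroupOf (MulAut.conj g⁻¹ • P)).Normal)
    (hidx : (P ⊓ MulAut.conj g⁻¹ • P).relIndex (MulAut.conj g⁻¹ • P) = p)
    (n : ℕ) (hn : 1 ≤ n) (K : Subgroup G) (hK : K = ⨆ i ∈ Finset.range (n + 1), MulAut.conj (g ^ i)⁻¹ • P)
    (h1 : ∀ Q : Subgroup G, Q ≤ P → (Q.subgroupOf P).Normal → MulAut.conj g • Q = Q → Q = ⊥)
    (h2 : P ⊓ (Subgroup.center K).map K.subtype = ⊥) :
    ∃ t : ℕ, Nat.card P = p ^ t ∧ 1 ≤ t ∧ t ≤ 3 * n ∧ t ≠ 3 * n - 1 := by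
  classical
  have : Fact p.Prime := ⟨hp⟩
  have triv : ∀ Q ≤ P, P ≤ 𝐍[Q] → g⁻¹ ∈ 𝐍[Q] → Q = ⊥ := fun Q a1 a2 a3 =>
    h1 Q a1 ((normal_subgroupOf_iff_le_normalizer a1).2 a2)
      (cj_eq_iff.2 (inv_mem_iff.1 a3) : cj(g, Q) = Q)
  obtain ⟨t, H⟩ := exists_ch (h := g⁻¹) ((normal_subgroupOf_iff_le_normalizer inf_le_right).1 hN)
    hidx triv
  have bot := H.bot triv
  have t0 := H.pos
  set T : ℤ → Subgroup G := fun j => R P g⁻¹ j (j + t - 1) with hT
  have exk : ∃ k : ℕ, k = t ∨ ¬ T 0 ≤ 𝐂[T k] := ⟨t, Or.inl rfl⟩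
  have sp := Nat.find_spec exk
  set k := Nat.find exk
  have kt : k ≤ t := Nat.find_min' exk (Or.inl rfl)
  have hk : ∀ i j : ℤ, i - j < k → j - i < k → T i ≤ 𝐂[T j] := by
    have : ∀ i j : ℤ, i ≤ j → j - i < k → T i ≤ 𝐂[T j] := fun i j hij hlt => by
      obtain ⟨m, hm⟩ := Int.eq_ofNat_of_zero_le (sub_nonneg.2 hij)
      have := (shift i m).1 (not_not.1 (not_or.1 (Nat.find_min exk (m := m) (by omega))).2)
      rwa [← hm, add_sub_cancel] at this
    intro i j a1 a2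
    rcases le_total i j with h' | h'
    · exact this i j h' a2
    · exact cent_comm (this j i h' a1)
  have k0 : 1 ≤ k := Nat.pos_of_ne_zero fun e => by
    refine sp.elim (by omega) fun h' => h' ?_
    have := H.comm bot 0 0 (by omega)
    rw [bot (0 - 1) _ (by omega), le_bot_iff, comm_eq_bot_iff] at this
    rwa [e]
  have up : 2 * k ≤ t + n := by
    by_contra hlt
    have a1 : T (k - t) ≤ P := (R_mono (by omega) (by omega)).trans R_zero.le
    have a2 : K ≤ 𝐂[T (k - t)] := by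
      rw [hK]
      refine iSup₂_le fun i hi => ?_
      have := Finset.mem_range.1 hi
      change cj((g ^ i)⁻¹, P) ≤ _
      rw [← inv_pow, ← zpow_natCast, ← R_self]
      exact H.gen0 (t - 1) i i _ le_rfl (by omega) fun j _ _ => hk j _ (by omega) (by omega)
    have a3 : P ≤ K := by
      rw [hK]
      exact le_iSup₂_of_le 0 (by simp) (by simp)
    have a4 : T (k - t) ≤ ⊥ := h2 ▸ fun x hx => ⟨a1 hx, ⟨x, a3 (a1 hx)⟩,
      mem_center_iff.2 fun y => Subtype.ext (mem_cent.1 (a2 y.2) x hx).symm, rfl⟩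
    have := H.card bot 1 t0
    rw [← cR (a := k - t) (b := k - t + t - 1) _ (by omega), pow_one] at this
    exact hp.one_lt.ne' (this.symm.trans (card_eq_one.2 (le_bot_iff.1 a4)))
  have low : 2 * t ≤ 3 * k := by
    by_cases e : k = t
    · omega
    have := H.low bot (k := k) (by omega) (by omega) hk (sp.resolve_left e)
    omega
  refine ⟨t, ?_, t0, by omega, by omega⟩
  rw [← H.card bot t le_rfl, sub_self, R_zero]

end Cfsg.Agent.S4359
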