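import Mathlib
import Cfsg.Statements.S4370
import Cfsg.Agent.GT.PGroupCyclicNormal
import Cfsg.Agent.GT.Fitting

set_option autoImplicit false
open Cfsg

namespace Cfsg.Agent.S4370

section pre
open Subgroup _root_.Cfsg.Agent.GT GT.PG

theorem exists_prod {G : Type*} [Group G] {H K : Subgroup G} (h : H.IsComplement' K)
    (hc : H ≤ centralizer (K : Set G)) : Nonempty (H × K ≃* G) :=
  ⟨MulEquiv.ofBijective (MonoidHom.noncommCoprod H.subtype K.subtype
    fun a b => (hc a.2 b b.2).symm) h⟩

theorem isCyclic_centralizer_of_equiv {G H : Type*} [Group G] [Group H] (e : G ≃* H) {x : G}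
    (h : IsCyclic (centralizer ({e x} : Set H))) : IsCyclic (centralizer ({x} : Set G)) := by
  refine isCyclic_of_injective ((e.toMonoidHom.comp (centralizer ({x} : Set G)).subtype).codRestrict
    (centralizer ({e x} : Set H)) fun y => ?_) fun a b hab => ?_
  · rw [mem_centralizer_singleton_iff]
    change e y * e x = e x * e y
    rw [← map_mul, ← map_mul, mem_centralizer_singleton_iff.1 y.2]
  · exact Subtype.ext (e.injective (congrArg Subtype.val hab))

theorem quat {k : ℕ} (hk : 1 ≤ k) {x : QuaternionGroup (2 ^ k)}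
    (hx : x ∉ center (QuaternionGroup (2 ^ k))) :
    IsCyclic (centralizer ({x} : Set (QuaternionGroup (2 ^ k)))) := by
  obtain ⟨a, b, h, h1, h2⟩ := exists_maxTwo_of_quaternion hk (MulEquiv.refl _)
  by_cases hxa : x ∈ zpowers a
  · rw [h.centralizer_eq_of_notMem_center hxa hx]; infer_instance
  · obtain ⟨i, hi⟩ := h.exists_eq_of_notMem hxa
    have h3 : x ^ 2 = a ^ 2 ^ k := by
      rw [hi, mul_zpow_sq (r := -1) (s := (2 ^ k : ℕ)) (by simpa using h2)
        (by rw [h1, zpow_natCast]), ← zpow_natCast]
      congr 1; ring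
    rw [h.centralizer_eq_of_notMem hxa, h.center_eq, ← h3,
      sup_eq_right.2 (zpowers_le.2 (pow_mem (mem_zpowers x) 2))]
    infer_instance

end pre

/-- Let G be a finite non-abelian nilpotent group. Then the centralizer of every non-central element of G is cyclic if and only if G is isomorphic to the direct product of a generalized quaternion group and a cyclic group of odd order. -/
theorem result {G : Type*} [Group G] [Finite G] (hG : Group.IsNilpotent G)
    (hna : ¬ IsMulCommutative G) :
    (∀ x : G, x ∉ Subgroup.center G → IsCyclic (Subgroup.centralizer ({x} : Set G))) ↔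
      ∃ (k m : ℕ), 1 ≤ k ∧ Odd m ∧ Nonempty (G ≃* QuaternionGroup (2 ^ k) × Multiplicative (ZMod m)) := by
  constructor
  · intro h
    obtain ⟨x₀, hx₀⟩ : ∃ x : G, x ∉ Subgroup.center G := by
      by_contra hc
      push Not at hc
      exact hna ⟨⟨fun a b => Subgroup.mem_center_iff.1 (hc b) a⟩⟩
    have hab : ∀ A : Subgroup G, IsMulCommutative A → IsCyclic A := by
      intro A hA
      by_cases hZ : A ≤ Subgroup.center G
      · have := h x₀ hx₀
        exact Subgroup.isCyclic_of_le (hZ.trans (Subgroup.center_le_centralizer {x₀}))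
      · obtain ⟨a, ha, haZ⟩ := SetLike.not_le_iff_exists.1 hZ
        have := h a haZ
        exact Subgroup.isCyclic_of_le (H' := Subgroup.centralizer {a}) fun b hb =>
          Subgroup.mem_centralizer_singleton_iff.2 (GT.PG.isMulCommutative_iff_forall.1 hA b hb a ha)
    have hr : ∀ (p : ℕ) [Fact p.Prime] (H : Subgroup G), PRankLE p 1 H := fun p _ H =>
      GT.PG.pRankLE_subgroup_iff.2 fun A _ hA => by
        rw [pow_one]; exact hA.isCyclic_iff.1 (hab A hA.1)
    have hc : (pCore 2 G).IsComplement' (pPrimeCore 2 G) := by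
      rw [GT.pCore_eq_piCore Nat.prime_two, GT.pPrimeCore_eq_piCore Nat.prime_two]
      exact GT.isComplement'_piCore _
    obtain ⟨e⟩ := exists_prod hc (Subgroup.le_centralizer_iff.1 GT.pPrimeCore_le_centralizer_pCore)
    have hodd : Odd (Nat.card (pPrimeCore 2 G)) :=
      Nat.coprime_two_right.1 (GT.coprime_card_pPrimeCore 2)
    have hK : IsCyclic (pPrimeCore 2 G) := by
      have : IsZGroup (pPrimeCore 2 G) := ⟨fun p hp P => by
        have := Fact.mk hp
        by_cases h2 : p = 2
        · subst h2
          have : (P : Subgroup (pPrimeCore 2 G)) = ⊥ := by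
            by_contra hne
            obtain ⟨n, hn⟩ := IsPGroup.iff_card.1 P.2
            have h1 := (P : Subgroup (pPrimeCore 2 G)).card_subgroup_dvd_card
            have h3 : n ≠ 0 := fun e => hne (Subgroup.card_eq_one.1 (by rw [hn, e, pow_zero]))
            exact hodd.not_two_dvd_nat ((dvd_pow_self 2 h3).trans (hn ▸ h1))
          rw [this]; infer_instance
        · exact GT.PG.isCyclic_of_pRankLE_one_of_odd h2 P.2 ((hr p _).subgroup _)⟩
      infer_instance
    rcases GT.PG.isCyclic_or_quaternion_of_pRankLE_one (GT.isPGroup_pCore 2) (hr 2 (pCore 2 G))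
      with h1 | ⟨-, k, hk, ⟨e'⟩⟩
    · have : IsMulCommutative (pCore 2 G × pPrimeCore 2 G) := ⟨⟨fun a b => Prod.ext
        (IsCyclic.isMulCommutative.is_comm.comm _ _) (IsCyclic.isMulCommutative.is_comm.comm _ _)⟩⟩
      exact absurd ⟨⟨fun a b => e.symm.injective (by
        rw [map_mul, map_mul]; exact this.is_comm.comm _ _)⟩⟩ hna
    · exact ⟨k, _, hk, hodd, ⟨e.symm.trans (e'.prodCongr (zmodCyclicMulEquiv hK).symm)⟩⟩
  · rintro ⟨k, m, hk, hm, ⟨e⟩⟩ x hx
    apply isCyclic_centralizer_of_equiv e
    have hm0 : NeZero m := ⟨by rintro rfl; simp at hm⟩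
    have h1 : (e x).1 ∉ Subgroup.center (QuaternionGroup (2 ^ k)) := fun h => hx (by
      rw [Subgroup.mem_center_iff] at h ⊢
      intro g
      apply e.injective
      rw [map_mul, map_mul]
      exact Prod.ext (h _) (mul_comm _ _))
    have h2 : IsCyclic (Subgroup.centralizer ({(e x).1} : Set (QuaternionGroup (2 ^ k))) ×
        Multiplicative (ZMod m)) := by
      refine Group.isCyclic_prod_iff.2 ⟨quat hk h1, inferInstance, ?_⟩
      refine Nat.Coprime.coprime_dvd_left (Subgroup.card_subgroup_dvd_card _) ?_
      rw [GT.PG.quaternion_card, Nat.card_congr Multiplicative.toAdd, Nat.card_zmod,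
        show 4 * 2 ^ k = 2 ^ (k + 2) by ring]
      exact Nat.Coprime.pow_left _ (Nat.coprime_two_left.2 hm)
    refine isCyclic_of_injective (MonoidHom.prod (((MonoidHom.fst _ _).comp
      (Subgroup.centralizer {e x}).subtype).codRestrict
      (Subgroup.centralizer ({(e x).1} : Set (QuaternionGroup (2 ^ k)))) fun y => ?_)
      ((MonoidHom.snd _ _).comp (Subgroup.centralizer {e x}).subtype)) fun a b hab => ?_
    · exact Subgroup.mem_centralizer_singleton_iff.2
        (congrArg Prod.fst (Subgroup.mem_centralizer_singleton_iff.1 y.2))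
    · have k1 := congrArg (fun z => z.1.1) hab
      have k2 := congrArg Prod.snd hab
      exact Subtype.ext (Prod.ext k1 k2)

end Cfsg.Agent.S4370
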