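import Mathlib
import Cfsg.Statements.S4373
import Cfsg.Agent.FG.BaseGrp
import Cfsg.Agent.GT.PSolvable
import Cfsg.Agent.GT.Cores

set_option autoImplicit false
open Pointwise
open Cfsg

namespace Cfsg.Agent.S4373

open Cfsg.Agent.GT

theorem core {G : Type*} [Group G] [Finite G] {π : Set ℕ} (h : IsPiSeparable π G)
    (h0 : piCore π G = ⊥) {H : Subgroup G} (hH : IsPiNum π (Nat.card H)) [Group.IsSolvable H] :
    ∃ x y : G, ∀ g ∈ H, x⁻¹ * g * x ∈ H → y⁻¹ * g * y ∈ H → g = 1 := by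
  have hK := isPiNum_piCore (G := G) πᶜ
  have hC := h.compl.centralizer_piCore_le (by rwa [compl_compl])
  have hb := hH.inf_eq_bot hK
  obtain ⟨x, y, hxy⟩ := FG.BS.base_two_coprime
    ((MulAut.conjNormal (H := piCore πᶜ G)).comp H.subtype) (hH.coprime hK)
  have key : ∀ z : piCore πᶜ G, ∀ g ∈ H, (z : G)⁻¹ * g * z ∈ H → g * z * g⁻¹ = z := fun z g hg hz => by
    have h1 : (z : G)⁻¹ * (g * z * g⁻¹) ∈ H ⊓ piCore πᶜ G :=
      Subgroup.mem_inf.mpr ⟨by simpa only [mul_assoc] using H.mul_mem hz (H.inv_mem hg),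
        Subgroup.mul_mem _ (Subgroup.inv_mem _ z.2) (Subgroup.Normal.conj_mem inferInstance _ z.2 g)⟩
    rw [hb, Subgroup.mem_bot, inv_mul_eq_one] at h1
    exact h1.symm
  refine ⟨x, y, fun g hg hx hy => Subgroup.mem_bot.mp (hb ▸ ⟨hg, hC fun k hk => ?_⟩)⟩
  have := congrArg Subtype.val (hxy ⟨g, hg⟩ (Subtype.ext (key x g hg hx))
    (Subtype.ext (key y g hg hy)) ⟨k, hk⟩)
  exact (mul_inv_eq_iff_eq_mul.mp this).symm


/-- Let π be a set of primes and G a finite π-solvable group: G has a chain of normal subgroups from 1 to G in which each successive index is a power of a prime in π or is divisible by no prime in π. Let H be a Hall π-subgroup of G. Then there are x, y ∈ G with H ∩ xHx⁻¹ ∩ yHy⁻¹ = O_π(G), the largest normal π-subgroup. -/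
theorem result {G : Type*} [Group G] [Finite G] (π : Set ℕ)
    (hsolv : (∃ (n : ℕ) (N : Fin (n + 1) → Subgroup G), N 0 = ⊥ ∧ N (Fin.last n) = ⊤ ∧ Monotone N ∧ (∀ i, (N i).Normal) ∧
      ∀ i : Fin n, (∃ p ∈ π, p.Prime ∧ ∃ k : ℕ, (N i.castSucc).relIndex (N i.succ) = p ^ k) ∨
        (∀ q : ℕ, q.Prime → q ∣ (N i.castSucc).relIndex (N i.succ) → q ∉ π))) (H : Subgroup G) (hH : Cfsg.IsPiHall π H) :
    ∃ x y : G, H ⊓ MulAut.conj x • H ⊓ MulAut.conj y • H = Cfsg.piCore π G := by
  obtain ⟨n, N, h0, h1, h2, h3, h4⟩ := hsolv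
  have hsep : IsPiSeparable π G := ⟨n, N, h0, h1, h2, h3, fun i => (h4 i).imp
    (fun ⟨p, hp, hp', k, e⟩ => e ▸ isPiNum_prime_pow hp' hp k) id⟩
  have hs : ∀ i, Group.IsSolvable (H ⊓ N i : Subgroup G) := fun i => by
    induction i using Fin.induction with
    | zero => rw [h0, inf_bot_eq]; infer_instance
    | succ i ih =>
      have := h3 i.castSucc
      let f := (QuotientGroup.mk' (N i.castSucc)).comp (H ⊓ N i.succ).subtype
      have hd : Nat.card f.range ∣ (N i.castSucc).relIndex (N i.succ) := by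
        rw [← card_map_mk'_eq_relIndex]
        exact Subgroup.card_dvd_of_le (by rintro _ ⟨x, rfl⟩; exact ⟨x, x.2.2, rfl⟩)
      have hr : Group.IsSolvable f.range := by
        rcases h4 i with ⟨p, -, hp, k, e⟩ | e
        · have := Fact.mk hp
          have := (IsPGroup.of_card_dvd_pow (e ▸ hd)).isNilpotent
          infer_instance
        · rw [IsPiNum.eq_bot (π := π) ((hH.card.card_of_le inf_le_left).of_dvd
            (Subgroup.card_range_dvd f)) (IsPiNum.of_dvd e hd)]
          infer_instance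
      exact Group.isSolvable_of_ker_le_range (Subgroup.inclusion (inf_le_inf_left H
        (h2 i.castSucc_le_succ))) f.rangeRestrict fun x hx =>
          ⟨⟨x, x.2.1, (QuotientGroup.eq_one_iff _).mp (congrArg Subtype.val hx)⟩, rfl⟩
  have := hs (Fin.last n)
  rw [h1, inf_top_eq] at this
  have : Group.IsSolvable (H.map (QuotientGroup.mk' (piCore π G))) :=
    Group.isSolvable_of_surjective (MonoidHom.subgroupMap_surjective _ H)
  obtain ⟨x, y, hxy⟩ := core (hsep.quotient (piCore π G)) piCore_quotient_piCore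
    (hH.card.card_map (QuotientGroup.mk' (piCore π G)))
  obtain ⟨x, rfl⟩ := QuotientGroup.mk_surjective x
  obtain ⟨y, rfl⟩ := QuotientGroup.mk_surjective y
  have hO := piCore_le_of_isPiHall hH
  have hc : ∀ z : G, piCore π G ≤ MulAut.conj z • H := fun z g hg =>
    CopAct.mem_conj_smul_iff.mpr (hO (Subgroup.Normal.conj_mem' inferInstance g hg z))
  refine ⟨x, y, le_antisymm (fun (g : G) hg => (QuotientGroup.eq_one_iff g).mp (hxy g ⟨g, hg.1.1, rfl⟩
    ⟨_, CopAct.mem_conj_smul_iff.mp hg.1.2, rfl⟩ ⟨_, CopAct.mem_conj_smul_iff.mp hg.2, rfl⟩))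
    (le_inf (le_inf hO (hc x)) (hc y))⟩

end Cfsg.Agent.S4373
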