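import Mathlib
import Cfsg.Statements.S4376
import Cfsg.Agent.S4377
import Cfsg.Agent.FG.OrderTypeG1
import Cfsg.Agent.FG.OrderTypeG2
import Cfsg.Agent.FG.OrderTypeG3
import Cfsg.Agent.FG.OrderTypeH1
import Cfsg.Agent.FG.OrderTypeH2
import Cfsg.Agent.FG.OrderTypeH3
import Cfsg.Agent.FG.OrderTypeH4

set_option autoImplicit false
open Cfsg

namespace Cfsg.Agent.S4376

open Cfsg.Agent.FG.PE Cfsg.Agent.FG.OT Cfsg.Agent.Spor

theorem card_prod (A B : Type) [Group A] [Group B] (d : ℕ) :
    Nat.card {g : A × B // g ^ d = 1} = Nat.card {a : A // a ^ d = 1} * Nat.card {b : B // b ^ d = 1} := by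
  rw [← Nat.card_prod]
  apply Nat.card_congr
  refine (Equiv.subtypeEquivRight (q := fun g : A × B => g.1 ^ d = 1 ∧ g.2 ^ d = 1) fun g => ?_).trans
    (Equiv.subtypeProdEquivProd (p := fun a : A => a ^ d = 1) (q := fun b : B => b ^ d = 1))
  rw [Prod.ext_iff]; rfl

theorem countP_gcd (O : List ℕ) (h : allL O (fun m => Nat.beq (168 % m) 0) = true) (d : ℕ) :
    (O.countP fun m => decide (m ∣ d)) = O.countP fun m => Nat.beq (Nat.gcd d 168 % m) 0 := by
  apply List.countP_congr
  intro m hm
  have := (allL_iff _ _).1 h m hm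
  rw [nbeq_iff] at this
  rw [decide_eq_true_eq, nbeq_iff, ← Nat.dvd_iff_mod_eq_zero, Nat.dvd_gcd_iff]
  exact ⟨fun h => ⟨h, Nat.dvd_of_mod_eq_zero this⟩, fun h => h.1⟩

/-- The number of members of `O` dividing `e`. -/
def cnt (O : List ℕ) (e : ℕ) : ℕ := O.countP fun m => Nat.beq (e % m) 0

theorem key : allL [1, 2, 3, 4, 6, 7, 8, 12, 14, 21, 24, 28, 42, 56, 84, 168] (fun e =>
    Nat.beq (cnt G1O e * (cnt G2O e * cnt G3O e))
      (cnt H1O e * (cnt H2O e * (cnt H3O e * cnt H4O e)))) = true := by decide +kernel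

theorem divs : ∀ e ∈ Nat.divisors 168,
    e ∈ [1, 2, 3, 4, 6, 7, 8, 12, 14, 21, 24, 28, 42, 56, 84, 168] := by decide +kernel

theorem not_solv : ¬ Group.IsSolvable (grp 8 H4S2) := by
  intro h
  have h1 : ¬ Group.IsSolvable (grp 8 [H4g0, H4g2]) :=
    not_isSolvable (by norm_num) (by decide +kernel)
      [([H4g0, H4g0, H4g0, H4g0, H4g2], [H4g0, H4g0, H4g2, H4g0]),
       ([H4g0, H4g0, H4g0, H4g0, H4g2, H4g0, H4g0], [H4g0, H4g0, H4g0, H4g0, H4g2, H4g0, H4g0, H4g2])]
      (by decide +kernel) (by decide +kernel)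
  have hle : grp 8 [H4g0, H4g2] ≤ grp 8 H4S2 := grp_mono (by simp [H4S2, H4S1, H4S0])
  exact h1 (Group.isSolvable_of_isSolvable_injective (Subgroup.inclusion_injective hle))


/-- There are finite groups G and H having the same number of elements of each order (the same order type) with G solvable and H not solvable. -/
theorem result :
    ∃ (G : Type) (_ : Group G) (_ : Finite G) (H : Type) (_ : Group H) (_ : Finite H),
      Group.IsSolvable G ∧ ¬ Group.IsSolvable H ∧ ∀ n : ℕ, Nat.card {g : G // orderOf g = n} = Nat.card {h : H // orderOf h = n} := by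
  refine ⟨grp 8 G1S4 × grp 26 G2S6 × grp 27 G3S7, inferInstance, inferInstance,
    grp 7 H1S1 × grp 15 H2S3 × grp 15 H3S4 × grp 8 H4S2, inferInstance, inferInstance, ?_, ?_, ?_⟩
  · have := G1sol4
    have := G2sol6
    have := G3sol7
    infer_instance
  · intro h
    apply not_solv
    have := Group.isSolvable_of_surjective (f := MonoidHom.snd (grp 7 H1S1) (grp 15 H2S3 × grp 15 H3S4 × grp 8 H4S2))
      Prod.snd_surjective
    have := Group.isSolvable_of_surjective (f := MonoidHom.snd (grp 15 H2S3) (grp 15 H3S4 × grp 8 H4S2))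
      Prod.snd_surjective
    exact Group.isSolvable_of_surjective (f := MonoidHom.snd (grp 15 H3S4) (grp 8 H4S2))
      Prod.snd_surjective
  · rw [Cfsg.Agent.S4377.result]
    intro d
    rw [card_prod, card_prod, card_prod, card_prod, card_prod, G1_card, G2_card, G3_card, H1_card,
      H2_card, H3_card, H4_card, countP_gcd G1O (by decide +kernel), countP_gcd G2O (by decide +kernel),
      countP_gcd G3O (by decide +kernel), countP_gcd H1O (by decide +kernel),
      countP_gcd H2O (by decide +kernel), countP_gcd H3O (by decide +kernel),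
      countP_gcd H4O (by decide +kernel)]
    have := (allL_iff _ _).1 key _ (divs (Nat.gcd d 168)
      (Nat.mem_divisors.2 ⟨Nat.gcd_dvd_right _ _, by norm_num⟩))
    exact (nbeq_iff _ _).1 this

end Cfsg.Agent.S4376
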