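import Mathlib
import Cfsg.Statements.S4379
import Cfsg.Agent.GT.PSolvable
import Cfsg.Agent.GT.Frattini
import Cfsg.Agent.GT.SchurZassenhaus
import Cfsg.Agent.GT.HallTools
import Cfsg.Agent.GT.TransferPNilp
import Cfsg.Agent.GT.MinNormal
import Cfsg.Agent.GT.PLength

set_option autoImplicit false
open Cfsg

namespace Cfsg.Agent.S4379

section pre
open Subgroup _root_.Cfsg.Agent.GT
open scoped Pointwise
universe u

theorem exists_compl {G : Type*} [Group G] [Finite G] {p : ℕ} [hp : Fact p.Prime]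
    {N K : Subgroup G} [N.Normal] [K.Normal] (hN : IsPGroup p N) (hNK : N ≤ K)
    (hi : ¬ p ∣ N.relIndex K) (h : N ≤ frattini G ∨ K ≤ centralizer (N : Set G)) :
    ∃ L : Subgroup G, L.Normal ∧ L ≤ K ∧ ¬ p ∣ Nat.card L ∧ ∃ k, L.relIndex K = p ^ k := by
  obtain ⟨n, hn⟩ := IsPGroup.iff_card.1 hN
  have hc : (Nat.card N).Coprime (N.relIndex K) :=
    hn ▸ ((Nat.Prime.coprime_iff_not_dvd hp.out).2 hi).pow_left n
  obtain ⟨L, hLK, h1, -, h3⟩ := exists_complement_of_coprime_relIndex hNK le_normalizer_of_normal hc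
  have hs : Group.IsSolvable N := by
    have := hN.isNilpotent
    infer_instance
  have key : ∀ g : G, ∃ a ∈ N, a⁻¹ * g ∈ normalizer (L : Set G) := fun g => by
    obtain ⟨a, ha, e⟩ := conj_of_coprime_sup_eq_of_normal N L (MulAut.conj g • L) (h3 ▸ hc)
      (by rw [HT.card_conj_smul, h3]; exact hc)
      (by
        rw [h1]
        conv_lhs => rw [← Subgroup.Normal.conj_smul_eq_self g K, ← h1, smul_sup,
          Subgroup.Normal.conj_smul_eq_self]) (Or.inl hs)
    refine ⟨a, ha, HT.conj_smul_eq_iff.1 ?_⟩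
    rw [← HT.conj_smul_conj_smul, ← e, HT.conj_inv_smul_conj_smul]
  have hLn : L.Normal := by
    refine normal_of_top_le_normalizer ?_
    rcases h with h | h
    · refine (eq_top_of_sup_of_le_frattini h (eq_top_iff.2 fun g _ => ?_)).ge
      obtain ⟨a, ha, e⟩ := key g
      have := mul_mem (mem_sup_right ha) (mem_sup_left e :
        a⁻¹ * g ∈ normalizer (L : Set G) ⊔ N)
      simpa using this
    · intro g _
      obtain ⟨a, ha, e⟩ := key g
      have h4 : a ∈ normalizer (L : Set G) :=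
        centralizer_le_normalizer _ (fun x hx => (h (hLK hx) a ha).symm)
      simpa using mul_mem h4 e
  refine ⟨L, hLn, hLK, h3 ▸ hi, ?_⟩
  obtain ⟨k, -, hk⟩ := (Nat.dvd_prime_pow hp.out).1 (hn ▸ h1 ▸
    HT.relIndex_sup_dvd_card (N := N) (H := L) le_normalizer_of_normal)
  exact ⟨k, hk⟩

/-- the chain -/
def Ch (p : ℕ) (G : Type*) [Group G] : Prop :=
  ∃ A B C D : Subgroup G, A.Normal ∧ B.Normal ∧ C.Normal ∧ D.Normal ∧ A ≤ B ∧ B ≤ C ∧ C ≤ D ∧
    ¬ p ∣ Nat.card A ∧ (∃ k : ℕ, A.relIndex B = p ^ k) ∧ ¬ p ∣ B.relIndex C ∧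
    (∃ k : ℕ, C.relIndex D = p ^ k) ∧ ¬ p ∣ D.index ∧ (p = 2 → D = ⊤)

theorem relIndex_comap' {G H : Type*} [Group G] [Group H] {f : G →* H} (hf : Function.Surjective f)
    (A B : Subgroup H) : (A.comap f).relIndex (B.comap f) = A.relIndex B := by
  rw [relIndex_comap, map_comap_eq_self_of_surjective hf]

theorem relIndex_ker' {G : Type*} [Group G] (N : Subgroup G) [N.Normal] (A : Subgroup (G ⧸ N)) :
    N.relIndex (A.comap (QuotientGroup.mk' N)) = Nat.card A := by
  rw [← relIndex_bot_left, ← relIndex_comap' (QuotientGroup.mk'_surjective N),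
    MonoidHom.comap_bot, QuotientGroup.ker_mk']

theorem step {G : Type*} [Group G] [Finite G] {p : ℕ} [hp : Fact p.Prime] (N : Subgroup G)
    [N.Normal] (h : Ch p (G ⧸ N)) (E : Subgroup G) [E.Normal] (hE : ¬ p ∣ E.index) (hNE : N ≤ E)
    (hN : ¬ p ∣ Nat.card N ∨ (IsPGroup p N ∧ (N ≤ frattini G ∨ E ≤ centralizer (N : Set G)))) :
    Ch p G := by
  obtain ⟨A, B, C, D, hA, hB, hC, hD, hAB, hBC, hCD, h1, ⟨k, h2⟩, h3, ⟨l, h4⟩, h5, h6⟩ := h
  have hf := QuotientGroup.mk'_surjective N
  set f := QuotientGroup.mk' N with hfd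
  have hNA : N ≤ A.comap f := fun x hx => by
    rw [mem_comap, show f x = 1 from (QuotientGroup.eq_one_iff x).2 hx]; exact one_mem _
  have hi : ¬ p ∣ N.relIndex (A.comap f ⊓ E) := fun e => h1 (by
    rw [← relIndex_ker' N A]
    exact e.trans (Dvd.intro _ (relIndex_mul_relIndex _ _ _ (le_inf hNA hNE) inf_le_left)))
  obtain ⟨L, hL, hLK, hL1, j, hj⟩ : ∃ L : Subgroup G, L.Normal ∧ L ≤ A.comap f ⊓ E ∧
      ¬ p ∣ Nat.card L ∧ ∃ k, L.relIndex (A.comap f ⊓ E) = p ^ k := by
    rcases hN with hN | ⟨hN, h⟩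
    · refine ⟨_, inferInstance, le_rfl, ?_, 0, relIndex_self _⟩
      rw [← HT.card_mul_relIndex (le_inf hNA hNE)]
      exact fun e => ((Nat.Prime.dvd_mul hp.out).1 e).elim hN hi
    · exact exists_compl hN (le_inf hNA hNE) hi (h.imp id fun h => inf_le_right.trans h)
  have hAB' : A.comap f ⊓ E ≤ B.comap f ⊓ E := inf_le_inf_right _ (comap_mono hAB)
  refine ⟨L, B.comap f ⊓ E, C.comap f, D.comap f, hL, inferInstance, inferInstance, inferInstance,
    hLK.trans hAB', inf_le_left.trans (comap_mono hBC), comap_mono hCD, hL1, ?_, ?_,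
    ⟨l, by rw [relIndex_comap' hf, h4]⟩, by rwa [index_comap_of_surjective _ hf],
    fun e => by rw [h6 e, comap_top]⟩
  · have h7 : (A.comap f ⊓ E).relIndex (B.comap f ⊓ E) ∣ p ^ k := by
      rw [← h2, ← relIndex_comap' hf]
      have : (A.comap f ⊓ E).relIndex (B.comap f ⊓ E) = (A.comap f).relIndex (B.comap f ⊓ E) := by
        rw [← inf_relIndex_right (A.comap f), ← inf_assoc, inf_eq_left.2 (comap_mono hAB)]
      rw [this]
      exact relIndex_dvd_of_le_right inf_le_left
    obtain ⟨m, -, hm⟩ := (Nat.dvd_prime_pow hp.out).1 h7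
    exact ⟨j + m, by rw [← relIndex_mul_relIndex _ _ _ hLK hAB', hj, hm, pow_add]⟩
  · rw [← relIndex_mul_relIndex _ _ _ inf_le_left (comap_mono hBC), relIndex_comap' hf,
      inf_comm, inf_relIndex_right]
    exact fun e => ((Nat.Prime.dvd_mul hp.out).1 e).elim
      (fun e => hE (e.trans (relIndex_dvd_index_of_normal _ _))) h3

theorem main {p : ℕ} [hp : Fact p.Prime] (G : Type u) [Group G] [Finite G] :
    IsPSolvable p G → (∀ M : Subgroup G, IsCoatom M → HasNormalPComplement p M ∨ M.index.Prime) →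
      Ch p G := by
  refine card_induction (P := fun G _ _ => IsPSolvable p G →
    (∀ M : Subgroup G, IsCoatom M → HasNormalPComplement p M ∨ M.index.Prime) → Ch p G)
    (fun G _ _ ih hG hmax => ?_) G
  have h1 : ¬ p ∣ 1 := hp.out.one_lt.ne' ∘ Nat.dvd_one.1
  rcases subsingleton_or_nontrivial G with hs | hs
  · refine ⟨⊤, ⊤, ⊤, ⊤, inferInstance, inferInstance, inferInstance, inferInstance, le_rfl, le_rfl,
      le_rfl, ?_, ⟨0, relIndex_self _⟩, by rwa [relIndex_self], ⟨0, relIndex_self _⟩,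
      by rwa [index_top], fun _ => rfl⟩
    rwa [Nat.card_unique]
  obtain ⟨N, hN⟩ := exists_isMinNormal G
  have := hN.normal
  have hf := QuotientGroup.mk'_surjective N
  have hq : Ch p (G ⧸ N) := ih _ (HT.card_quotient_lt N hN.ne_bot) (hG.quotient N) fun M hM => by
    rcases hmax _ (isCoatom_comap_of_surjective hf hM) with h | h
    · left
      have := h.map (QuotientGroup.mk' N)
      rwa [map_comap_eq_self_of_surjective hf] at this
    · right
      rwa [index_comap_of_surjective _ hf] at h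
  rcases hG.isPGroup_or_coprime_of_minimal (N := N) fun K _ h => hN.eq_bot_or_eq h with hNp | hNp
  swap
  · exact step N hq ⊤ (by rwa [index_top]) le_top
      (Or.inl ((Nat.Prime.coprime_iff_not_dvd hp.out).1 hNp.symm))
  by_cases hF : N ≤ frattini G
  · exact step N hq ⊤ (by rwa [index_top]) le_top (Or.inr ⟨hNp, Or.inl hF⟩)
  obtain ⟨M, hM, hNM⟩ := exists_isCoatom_not_le hF
  have := (hN.elementary_of_isPGroup hp.out hNp).1
  have hc := hN.isComplement'_of_isCoatom hM hNM
  obtain ⟨n, hn⟩ := IsPGroup.iff_card.1 hNp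
  rcases hmax M hM with h | h
  · obtain ⟨K, hK, h2, k, h3⟩ := (h.of_mulEquiv hc.symm.QuotientMulEquiv.symm).exists_normal
    refine ⟨⊥, N, K.comap (QuotientGroup.mk' N), ⊤, inferInstance, inferInstance, inferInstance,
      inferInstance, bot_le, fun x hx => ?_, le_top, by rwa [card_bot],
      ⟨n, by rwa [relIndex_bot_left]⟩, by rwa [relIndex_ker'], ⟨k, ?_⟩, by rwa [index_top],
      fun _ => rfl⟩
    · rw [mem_comap, show QuotientGroup.mk' N x = 1 from (QuotientGroup.eq_one_iff x).2 hx]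
      exact one_mem _
    · rw [relIndex_top_right, index_comap_of_surjective _ hf, h3]
  · rw [hc.index_eq_card] at h
    have hNc : Nat.card N = p := by
      rw [hn] at h ⊢
      rw [(Nat.Prime.eq_one_of_pow h), pow_one]
    refine step N hq (centralizer (N : Set G)) ?_ (le_centralizer N) (Or.inr ⟨hNp, Or.inr le_rfl⟩)
    have h2 : centralizer (N : Set G) = (MulAut.conjNormal (H := N)).ker := by
      ext g
      rw [MonoidHom.mem_ker, mem_centralizer_iff]
      constructor
      · intro h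
        ext x
        simp [← h x x.2]
      · intro h x hx
        have := congrArg Subtype.val (DFunLike.congr_fun h ⟨x, hx⟩)
        simp at this
        rw [mul_inv_eq_iff_eq_mul] at this
        exact this.symm
    have := isCyclic_of_prime_card hNc
    rw [h2, index_ker]
    intro e
    have h3 := e.trans (card_subgroup_dvd_card _)
    rw [IsCyclic.card_mulAut, hNc, Nat.totient_prime hp.out] at h3
    have := Nat.le_of_dvd (by have := hp.out.two_le; omega) h3
    have := hp.out.two_le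
    omega

end pre

/-- Let p be an odd prime and G a finite p-solvable group in which every maximal subgroup either has a normal p-complement or has prime index. Then G has a chain of normal subgroups 1 ≤ A ≤ B ≤ C ≤ D ≤ G in which A, C/B and G/D have order prime to p and B/A and D/C are p-groups (so the p-length of G is at most 2). -/
theorem result {G : Type*} [Group G] [Finite G]
    (p : ℕ) [Fact p.Prime] (hp : p ≠ 2) (hG : Cfsg.IsPSolvable p G)
    (hmax : ∀ M : Subgroup G, IsCoatom M → (∃ K : Subgroup ↥M, K.Normal ∧ ¬ p ∣ Nat.card K ∧ ∃ k : ℕ, K.index = p ^ k) ∨ (M.index).Prime) :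
    ∃ A B C D : Subgroup G, A.Normal ∧ B.Normal ∧ C.Normal ∧ D.Normal ∧ A ≤ B ∧ B ≤ C ∧ C ≤ D ∧ ¬ p ∣ Nat.card A ∧
      (∃ k : ℕ, A.relIndex B = p ^ k) ∧ ¬ p ∣ B.relIndex C ∧ (∃ k : ℕ, C.relIndex D = p ^ k) ∧ ¬ p ∣ D.index := by
  have _ := hp
  obtain ⟨A, B, C, D, h1, h2, h3, h4, h5, h6, h7, h8, h9, h10, h11, h12, -⟩ :=
    main G hG fun M hM => (hmax M hM).imp_left fun ⟨K, _, h, _, h'⟩ =>
      GT.Tr.hasNormalPComplement_of_normal K h h'
  exact ⟨A, B, C, D, h1, h2, h3, h4, h5, h6, h7, h8, h9, h10, h11, h12⟩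

end Cfsg.Agent.S4379
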