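import Mathlib
import Cfsg.Statements.S4381
import Cfsg.Agent.GT.CoprimeActThms
import Cfsg.Agent.GT.PGroupFrattini
import Cfsg.Agent.GT.Frattini
import Cfsg.Agent.GT.Fitting

set_option autoImplicit false
open Pointwise
open Cfsg

namespace Cfsg.Agent.S4381

section pre
open Subgroup _root_.Cfsg.Agent.GT _root_.Cfsg.Agent.GT.CopAct

theorem exists_max {A G : Type*} [Group A] [Group G] [Finite G] (φ : A →* MulAut G)
    {U : Subgroup G} (hU : ActInv φ U) (h : U ≠ ⊤) :
    ∃ M : Subgroup G, U ≤ M ∧ (M ≠ ⊤ ∧ ActInv φ M ∧ ∀ L : Subgroup G, M < L → ActInv φ L → L = ⊤) := by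
  obtain ⟨M, ⟨h1, h2, h3⟩, h4⟩ := Set.Finite.exists_maximal
    (s := {M : Subgroup G | U ≤ M ∧ M ≠ ⊤ ∧ ActInv φ M}) (Set.toFinite _) ⟨U, le_rfl, h, hU⟩
  refine ⟨M, h1, h2, h3, fun L hL hL' => ?_⟩
  by_contra hne
  exact hL.not_ge (h4 ⟨h1.trans hL.le, hne, hL'⟩ hL.le)

end pre

/-- Let the finite group A act by automorphisms on the finite group G with the orders of A and G coprime, and assume that A or G is solvable. Call a proper A-invariant subgroup of G maximal A-invariant when no A-invariant subgroup lies strictly between it and G. Then all maximal A-invariant subgroups of G are conjugate under elements of the fixed-point subgroup C_G(A) if and only if G is a p-group for some prime p and A leaves invariant no subgroup strictly between the Frattini subgroup of G and G. In that case, if G is nontrivial, the Frattini subgroup is the only maximal A-invariant subgroup (a trivial G has none). -/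
theorem result {A G : Type*} [Group A] [Finite A]
    [Group G] [Finite G] [MulDistribMulAction A G] (hcop : (Nat.card A).Coprime (Nat.card G)) (hsol : Group.IsSolvable A ∨ Group.IsSolvable G) :
    ((∀ M N : Subgroup G, (M ≠ ⊤ ∧ (∀ a : A, ∀ x ∈ M, a • x ∈ M) ∧ ∀ L : Subgroup G, M < L → (∀ a : A, ∀ x ∈ L, a • x ∈ L) → L = ⊤) → (N ≠ ⊤ ∧ (∀ a : A, ∀ x ∈ N, a • x ∈ N) ∧ ∀ L : Subgroup G, N < L → (∀ a : A, ∀ x ∈ L, a • x ∈ L) → L = ⊤) →
        ∃ c : G, (∀ a : A, a • c = c) ∧ N = MulAut.conj c • M) ↔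
      ((∃ p : ℕ, p.Prime ∧ IsPGroup p G) ∧ ∀ L : Subgroup G, frattini G < L → (∀ a : A, ∀ x ∈ L, a • x ∈ L) → L = ⊤)) ∧
    (((∃ p : ℕ, p.Prime ∧ IsPGroup p G) ∧ ∀ L : Subgroup G, frattini G < L → (∀ a : A, ∀ x ∈ L, a • x ∈ L) → L = ⊤) →
      ∀ M : Subgroup G, (M ≠ ⊤ ∧ (∀ a : A, ∀ x ∈ M, a • x ∈ M) ∧ ∀ L : Subgroup G, M < L → (∀ a : A, ∀ x ∈ L, a • x ∈ L) → L = ⊤) ↔ (M = frattini G ∧ M ≠ ⊤)) := by
  set φ := MulDistribMulAction.toMulAut A G with hφ
  have second : (∀ L : Subgroup G, frattini G < L → GT.CopAct.ActInv φ L → L = ⊤) →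
      ∀ M : Subgroup G, (M ≠ ⊤ ∧ GT.CopAct.ActInv φ M ∧
        ∀ L : Subgroup G, M < L → GT.CopAct.ActInv φ L → L = ⊤) ↔ (M = frattini G ∧ M ≠ ⊤) := by
    intro h M
    have hF := GT.CopAct.actInv_of_characteristic φ (frattini G)
    constructor
    · rintro ⟨h1, h2, h3⟩
      refine ⟨?_, h1⟩
      have h4 : frattini G ≤ M := by
        by_contra hn
        exact h1 (GT.eq_top_of_sup_of_le_frattini le_rfl
          (h3 _ (left_lt_sup.2 hn) (h2.sup hF)))
      by_contra hne
      exact h1 (h M (lt_of_le_of_ne h4 (Ne.symm hne)) h2)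
    · rintro ⟨rfl, h1⟩
      exact ⟨h1, hF, h⟩
  refine ⟨⟨fun h => ?_, fun h M N hM hN => ?_⟩, fun h M => second h.2 M⟩
  · have hp : ∃ p : ℕ, p.Prime ∧ IsPGroup p G := by
      by_contra hn
      push Not at hn
      have hG : (⊥ : Subgroup G) ≠ ⊤ := fun e => hn 2 Nat.prime_two (by
        have : Subsingleton G := Subgroup.subsingleton_iff.1 (subsingleton_of_bot_eq_top e)
        exact fun g => ⟨0, Subsingleton.elim _ _⟩)
      obtain ⟨M, -, hM⟩ := exists_max φ (GT.CopAct.actInv_bot φ) hG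
      refine hM.1 (GT.eq_top_of_forall_sylow_le fun q hq _ => ?_)
      have : Fact q.Prime := ⟨hq⟩
      obtain ⟨P, hP⟩ := GT.CopAct.act_exists_invariant_sylow φ hcop hsol q
      obtain ⟨N, hPN, hN⟩ := exists_max φ hP fun e => hn q hq
        (P.2.of_equiv ((MulEquiv.subgroupCongr e).trans Subgroup.topEquiv))
      obtain ⟨c, -, hc⟩ := h N M hN hM
      refine ⟨c • P, ?_⟩
      rw [hc, Sylow.coe_subgroup_smul]
      exact Subgroup.pointwise_smul_le_pointwise_smul_iff.2 hPN
    refine ⟨hp, fun L hL hLA => ?_⟩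
    obtain ⟨p, hp, hG⟩ := hp
    have : Fact p.Prime := ⟨hp⟩
    by_contra hne
    have hF := GT.CopAct.actInv_of_characteristic φ (frattini G)
    have hnt : Nontrivial G := by
      by_contra hs
      rw [not_nontrivial_iff_subsingleton] at hs
      exact hne (Subsingleton.elim _ _)
    have hcp : (Nat.card A).Coprime p := by
      obtain ⟨n, hn0, hn⟩ := hG.nontrivial_iff_card.1 hnt
      exact hcop.coprime_dvd_right (hn ▸ dvd_pow_self p hn0.ne')
    have hea := (GT.PG.frattini_eq_bot_iff (hG.to_quotient (frattini G))).1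
      GT.frattini_quotient_frattini
    obtain ⟨W, -, hW, h1, h2⟩ := GT.CopAct.act_exists_invariant_complement_of_isElementaryAbelian
      (φ := GT.CopAct.quotHom φ _ hF) (p := p) (V := ⊤)
      ⟨⟨⟨fun a b => Subtype.ext (hea.1.is_comm.comm _ _)⟩⟩, fun a _ => hea.2 a⟩
      (GT.CopAct.actInv_top _) hcp le_top (GT.CopAct.actInv_map_mk' hF hLA)
    have hW' := GT.CopAct.actInv_comap_mk' hW
    have hWne : W.comap (QuotientGroup.mk' (frattini G)) ≠ ⊤ := fun e => by
      have e' : W = ⊤ := by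
        rw [← Subgroup.map_comap_eq_self_of_surjective (QuotientGroup.mk'_surjective _) W, e,
          Subgroup.map_top_of_surjective _ (QuotientGroup.mk'_surjective _)]
      rw [e', inf_top_eq, Subgroup.map_eq_bot_iff, QuotientGroup.ker_mk'] at h1
      exact hL.not_ge h1
    obtain ⟨M, hLM, hM⟩ := exists_max φ hLA hne
    obtain ⟨N, hWN, hN⟩ := exists_max φ hW' hWne
    obtain ⟨c, -, hc⟩ := h M N hM hN
    have hMn : M.Normal := GT.PG.normal_of_frattini_le hG (hL.le.trans hLM)
    rw [Subgroup.Normal.conj_smul_eq_self] at hc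
    subst hc
    refine hM.1 (eq_top_iff.2 ?_)
    have h3 := congrArg (Subgroup.comap (QuotientGroup.mk' (frattini G))) h2
    rw [← Subgroup.comap_sup_eq _ _ _ (QuotientGroup.mk'_surjective _), Subgroup.comap_map_eq,
      QuotientGroup.ker_mk', Subgroup.comap_top] at h3
    rw [← h3]
    exact sup_le (sup_le hLM (hL.le.trans hLM)) hWN
  · refine ⟨1, fun a => smul_one a, ?_⟩
    rw [map_one, one_smul, ((second h.2 M).1 hM).1, ((second h.2 N).1 hN).1]

end Cfsg.Agent.S4381
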