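import Mathlib
import Cfsg.Statements.S4383
import Cfsg.Agent.Loc.MssSyl
import Cfsg.Agent.GT.Hall
import Cfsg.Agent.Loc.GlaubTrans

set_option autoImplicit false
open Pointwise
open Cfsg

namespace Cfsg.Agent.S4383

open Subgroup Cfsg.Agent.Loc.Mss Cfsg.Agent.GT

universe u

section Core

variable {G : Type u} [Group G] [Finite G] {M N X : Subgroup G} {p : ℕ}

omit [Finite G] in
theorem syl_top [Fact p.Prime] {T L : Subgroup G} (h : Syl p T L) (hL : ¬ p ∣ L.index) :
    Syl p T ⊤ :=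
  ⟨le_top, h.pg, by
    rw [relIndex_top_right, ← relIndex_mul_index h.le]
    exact (Fact.out : p.Prime).not_dvd_mul h.nd hL⟩

/-- A large `p`-subgroup fixes at most one coset of `M`. -/
theorem uniq [Fact p.Prime] (cov : ∀ H : Subgroup G, H ≠ ⊤ → ∃ g, H ≤ cj(g, M) ∨ H ≤ cj(g, N))
    (loc : ∀ X : Subgroup G, IsPGroup p X → X ≠ ⊥ → 𝐍[X] ≠ ⊤) (hm : ¬ p ∣ M.index)
    (hn : p ∣ N.index) (X : Subgroup G) : IsPGroup p X → X ≠ ⊥ →
      (∀ (g : G) (Y : Subgroup G), IsPGroup p Y → Y ≤ cj(g, N) → Nat.card Y ≤ Nat.card X) →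
      ∀ g h, X ≤ cj(g, M) → X ≤ cj(h, M) → g⁻¹ * h ∈ M := by
  induction X using WellFoundedGT.induction with
  | ind X ih =>
  intro hX h0 big
  obtain ⟨k, hk⟩ := cov _ (loc X hX h0)
  have key : 𝐍[X] ≤ cj(k, M) ∧ ∀ g, X ≤ cj(g, M) → g⁻¹ * k ∈ M := by
    by_cases hs : Syl p X ⊤
    · have hk' := hk.resolve_right fun e => hs.nd (by
        rw [relIndex_top_right]
        exact (index_map_conj N k ▸ hn).trans (index_dvd_of_le (le_normalizer.trans e)))
      refine ⟨hk', fun g hg => ?_⟩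
      have s1 : Syl p cj(k * g⁻¹, X) cj(k, M) :=
        (cj_top (k * g⁻¹) ▸ hs.cj (k * g⁻¹)).mono
          (by rw [← cj_cj]; exact cj_mono k (le_cj_iff_inv_le.1 hg)) le_top
      obtain ⟨y, hy, e⟩ := s1.conj_eq (hs.mono (le_normalizer.trans hk') le_top)
      rw [cj_cj, cj_eq_iff] at e
      simpa [mul_assoc] using mem_cj.1 ((mul_mem_cancel_left hy).1 (hk' e))
    · have step : ∀ T, X ≤ T → Syl p T ⊤ → X < T ⊓ 𝐍[X] ∧ IsPGroup p ↥(T ⊓ 𝐍[X]) :=
        fun T h1 h2 => ⟨Tr.lt_inf_normalizer h2.pg (h1.lt_of_ne fun e => hs (e ▸ h2)),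
          h2.pg.to_inf_left⟩
      have lt : ∀ {Y}, X < Y → Nat.card X < Nat.card Y := fun h =>
        (card_le_of_le h.le).lt_of_ne fun e => h.ne (PG.eq_of_le_of_card_le h.le e.ge)
      obtain ⟨T0, t1, t2⟩ := Syl.exists_ge hX (le_top : X ≤ ⊤)
      have hk' := hk.resolve_right fun e =>
        (lt (step T0 t1 t2).1).not_ge (big k _ (step T0 t1 t2).2 (inf_le_right.trans e))
      refine ⟨hk', fun g hg => ?_⟩
      obtain ⟨T, h1, h2⟩ := Syl.exists_ge hX hg
      obtain ⟨a1, a2⟩ := step T h1 (syl_top h2 (by rwa [index_map_conj]))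
      exact ih _ a1 a2 (ne_bot_of_gt a1) (fun g' Y b1 b2 => (big g' Y b1 b2).trans (lt a1).le)
        g k (inf_le_left.trans h2.le) (inf_le_right.trans hk')
  intro g h hg hh
  simpa [mul_assoc] using mul_mem (key.2 g hg) (inv_mem (key.2 h hh))

omit [Finite G] in
theorem stab_eq (M : Subgroup G) (g : G) : MulAction.stabilizer G (g : G ⧸ M) = cj(g, M) := by
  ext x
  rw [MulAction.mem_stabilizer_iff, mem_cj, MulAction.Quotient.smul_mk, eq_comm, QuotientGroup.eq,
    smul_eq_mul, mul_assoc]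

theorem pow_dvd [Fact p.Prime] (cov : ∀ H : Subgroup G, H ≠ ⊤ → ∃ g, H ≤ cj(g, M) ∨ H ≤ cj(g, N))
    (loc : ∀ X : Subgroup G, IsPGroup p X → X ≠ ⊥ → 𝐍[X] ≠ ⊤) (hm : ¬ p ∣ M.index)
    (hn : p ∣ N.index) {e : ℕ} (he : p ^ e ∣ N.index) : p ^ e ∣ M.index - 1 := by
  classical
  obtain ⟨P, hP⟩ := Syl.exists p M
  obtain ⟨S, rfl⟩ := (syl_top hP hm).exists_sylow_top
  have fix : ∀ s : (S : Subgroup G), s • ((1 : G) : G ⧸ M) = ((1 : G) : G ⧸ M) := fun s =>
    show (s : G) ∈ MulAction.stabilizer G ((1 : G) : G ⧸ M) by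
      rw [stab_eq, cj_one]; exact hP.le s.2
  let Ω : SubMulAction S (G ⧸ M) := ⟨{x | x ≠ ((1 : G) : G ⧸ M)}, fun s x hx e =>
    hx (smul_left_cancel s (e.trans (fix s).symm))⟩
  have c : Nat.card Ω = M.index - 1 := by
    have := Fintype.ofFinite (G ⧸ M)
    rw [index, Nat.card_eq_fintype_card (α := G ⧸ M)]
    exact (Nat.card_eq_fintype_card (α := {x // x ≠ ((1 : G) : G ⧸ M)})).trans
      (by rw [Fintype.card_subtype_compl, Fintype.card_subtype_eq])
  rw [← c]
  refine Loc.GA.dvd_card_of_orbits (R := S) fun ⟨x, hx⟩ => ?_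
  obtain ⟨g, rfl⟩ := QuotientGroup.mk_surjective x
  have e1 : Nat.card (MulAction.orbit S (⟨(g : G ⧸ M), hx⟩ : Ω)) = cj(g, M).relIndex S := by
    rw [Nat.card_coe_set_eq, ← MulAction.index_stabilizer, relIndex, ← stab_eq]
    congr 1
    ext s
    exact ⟨fun h => congrArg Subtype.val h, fun h => Subtype.ext h⟩
  have e2 : Nat.card ((S : Subgroup G) ⊓ cj(g, M) : Subgroup G) * cj(g, M).relIndex S =
      Nat.card S := by
    rw [← (cj(g, M).subgroupOf S).card_mul_index, ← inf_subgroupOf_left,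
      Nat.card_congr (subgroupOfEquivOfLe inf_le_left).toEquiv, inf_subgroupOf_left]
    rfl
  have hX : IsPGroup p ↥((S : Subgroup G) ⊓ cj(g, M)) := S.isPGroup'.to_inf_left
  rw [e1]
  refine Nat.dvd_of_mul_dvd_mul_left (k := Nat.card ((S : Subgroup G) ⊓ cj(g, M) : Subgroup G))
    Nat.card_pos ?_
  rw [e2]
  obtain ⟨b, hb⟩ := hX.exists_card_eq
  rw [hb, ← pow_add]
  refine S.pow_dvd_card_of_pow_dvd_card ?_
  rw [pow_add, ← N.card_mul_index]
  refine mul_dvd_mul ?_ he
  by_cases h0 : (S : Subgroup G) ⊓ cj(g, M) = ⊥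
  · rw [← hb, h0, card_bot]; exact one_dvd _
  by_contra hc
  refine hx (QuotientGroup.eq.2 (uniq cov loc hm hn _ hX h0 (fun g' Y b1 b2 => ?_) g 1 inf_le_right
    (by rw [cj_one]; exact inf_le_left.trans hP.le)))
  obtain ⟨y, hy⟩ := b1.exists_card_eq
  by_contra hlt
  refine hc ((pow_dvd_pow p ?_).trans (hy ▸ card_cj N g' ▸ card_dvd_of_le b2))
  rw [hb, hy, not_le] at hlt
  exact ((Nat.pow_lt_pow_iff_right (Fact.out : p.Prime).one_lt).1 hlt).le

theorem index_dvd [Nontrivial G]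
    (cov : ∀ H : Subgroup G, H ≠ ⊤ → ∃ g, H ≤ cj(g, M) ∨ H ≤ cj(g, N))
    (loc : ∀ p : ℕ, p.Prime → ∀ X : Subgroup G, IsPGroup p X → X ≠ ⊥ → 𝐍[X] ≠ ⊤) :
    N.index ∣ M.index - 1 := by
  refine (Nat.dvd_iff_prime_pow_dvd_dvd _ _).2 fun p e hp he => ?_
  have := Fact.mk hp
  rcases e with _ | e
  · simp
  have hn : p ∣ N.index := (dvd_pow_self p e.succ_ne_zero).trans he
  refine pow_dvd cov (loc p hp) (fun hm => ?_) hn he
  obtain ⟨P⟩ : Nonempty (Sylow p G) := inferInstance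
  obtain ⟨g, h | h⟩ := cov P fun e => loc p hp P P.isPGroup' (by rw [e]; exact top_ne_bot)
    (top_le_iff.1 (e.ge.trans le_normalizer))
  · exact P.not_dvd_index ((index_map_conj M g ▸ hm).trans (index_dvd_of_le h))
  · exact P.not_dvd_index ((index_map_conj N g ▸ hn).trans (index_dvd_of_le h))

end Core

/-- At most two classes of maximal subgroups. -/
def Two (G : Type u) [Group G] : Prop :=
  ∃ M N : Subgroup G, ∀ L, IsCoatom L → ∃ g, L = cj(g, M) ∨ L = cj(g, N)

theorem Two.exists_normal {G : Type u} [Group G] [Finite G] [Nontrivial G] (h : Two G) :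
    ∃ p : ℕ, p.Prime ∧ ∃ X : Subgroup G, IsPGroup p X ∧ X ≠ ⊥ ∧ 𝐍[X] = ⊤ := by
  by_contra hc
  push Not at hc
  have key : ∀ M N : Subgroup G, M ≠ ⊤ → N ≠ ⊤ →
      ¬ ∀ L, IsCoatom L → ∃ g, L = cj(g, M) ∨ L = cj(g, N) := fun M N hM hN h => by
    have cov : ∀ H : Subgroup G, H ≠ ⊤ → ∃ g, H ≤ cj(g, M) ∨ H ≤ cj(g, N) := fun H hH => by
      obtain ⟨L, hL, hle⟩ := (eq_top_or_exists_le_coatom H).resolve_left hH
      exact (h L hL).imp fun g => Or.imp hle.trans_eq hle.trans_eq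
    have m := one_lt_index_of_ne_top hM
    have n := one_lt_index_of_ne_top hN
    have d1 := Nat.le_of_dvd (by omega) (index_dvd cov hc)
    have d2 := Nat.le_of_dvd (by omega) (index_dvd (fun H hH => (cov H hH).imp fun _ => Or.symm) hc)
    omega
  obtain ⟨M, N, h⟩ := h
  have nt : ∀ {L : Subgroup G} {g}, IsCoatom L → L ≠ cj(g, ⊤) := fun hL e => hL.1 (e.trans (cj_top _))
  obtain ⟨L, hL, -⟩ := (eq_top_or_exists_le_coatom (⊥ : Subgroup G)).resolve_left bot_ne_top
  by_cases hM : M = ⊤ <;> by_cases hN : N = ⊤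
  · obtain ⟨g, e | e⟩ := h L hL
    exacts [nt hL (hM ▸ e), nt hL (hN ▸ e)]
  · exact key N N hN hN fun L hL => (h L hL).imp fun g e =>
      Or.inl (e.resolve_left (hM ▸ nt hL))
  · exact key M M hM hM fun L hL => (h L hL).imp fun g e =>
      Or.inl (e.resolve_right (hN ▸ nt hL))
  · exact key M N hM hN h

theorem Two.quotient {G : Type u} [Group G] (h : Two G) (K : Subgroup G) [K.Normal] :
    Two (G ⧸ K) := by
  obtain ⟨M, N, h⟩ := h
  refine ⟨M.map (QuotientGroup.mk' K), N.map (QuotientGroup.mk' K), fun L hL => ?_⟩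
  obtain ⟨g, e⟩ := h _ (isCoatom_comap_of_surjective (QuotientGroup.mk'_surjective K) hL)
  refine ⟨QuotientGroup.mk' K g, e.imp (fun e => ?_) fun e => ?_⟩ <;>
    rw [← map_cj, ← e, map_comap_mk']

theorem Two.solvable (n : ℕ) : ∀ (G : Type u) [Group G] [Finite G], Nat.card G = n → Two G →
    Group.IsSolvable G := by
  induction n using Nat.strong_induction_on with
  | _ n ih =>
  intro G _ _ hn h
  rcases subsingleton_or_nontrivial G with _ | _
  · infer_instance
  obtain ⟨p, hp, X, hX, h0, hN⟩ := h.exists_normal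
  have := Fact.mk hp
  have := normal_of_top hN.ge
  have := CopAct.isSolvable_of_isPGroup hX
  have := ih _ (by
    rw [← hn, ← X.card_mul_index]
    exact lt_mul_of_one_lt_left Nat.card_pos (one_lt_card_iff_ne_bot X |>.2 h0)) (G ⧸ X) rfl
    (h.quotient X)
  exact Group.isSolvable_of_ker_le_range X.subtype (QuotientGroup.mk' X) (by simp)


/-- A finite group with exactly two conjugacy classes of maximal subgroups is solvable and its order has exactly two prime divisors. -/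
theorem result {G : Type*} [Group G] [Finite G]
    (M₁ M₂ : Subgroup G) (h1 : IsCoatom M₁) (h2 : IsCoatom M₂) (hne : ∀ g : G, M₂ ≠ MulAut.conj g • M₁)
    (hall : ∀ M : Subgroup G, IsCoatom M → ∃ g : G, M = MulAut.conj g • M₁ ∨ M = MulAut.conj g • M₂) :
    Group.IsSolvable G ∧ (Nat.card G).primeFactors.card = 2 := by
  have hs : Group.IsSolvable G := Two.solvable _ G rfl ⟨M₁, M₂, hall⟩
  refine ⟨hs, le_antisymm ?_ (by_contra fun hc => ?_)⟩
  · refine le_trans (Finset.card_le_card (t := {M₁.index.minFac, M₂.index.minFac}) fun p hp => ?_)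
      Finset.card_le_two
    obtain ⟨hp, hd, -⟩ := Nat.mem_primeFactors.1 hp
    obtain ⟨H, a1, a2⟩ := exists_isPiHall {p}ᶜ G
    obtain ⟨L, hL, hle⟩ := (eq_top_or_exists_le_coatom H).resolve_left fun e =>
      a1 p hp (by rwa [e, card_top]) rfl
    have hm : L.index.minFac = p := by
      by_contra n
      exact a2 _ (Nat.minFac_prime (one_lt_index_of_ne_top hL.1).ne') n
        ((Nat.minFac_dvd _).trans (index_dvd_of_le hle))
    obtain ⟨g, e | e⟩ := hall L hL <;>
      rw [e, conj_smul_eq_map_conj, index_map_conj] at hm <;> simp [hm]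
  · have nt : Nontrivial G := Subgroup.nontrivial_iff.1 ⟨_, _, h1.1⟩
    have hp := Nat.minFac_prime (Finite.one_lt_card (α := G)).ne'
    set p := (Nat.card G).minFac
    have := Fact.mk hp
    have hq : ∀ q : ℕ, q.Prime → q ∣ Nat.card G → q = p := fun q h1 h2 =>
      Finset.card_le_one.1 (by omega) q (Nat.mem_primeFactors.2 ⟨h1, h2, Nat.card_pos.ne'⟩) p
        (Nat.mem_primeFactors.2 ⟨hp, Nat.minFac_dvd _, Nat.card_pos.ne'⟩)
    have hG : IsPGroup p G := IsPGroup.of_card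
      (Nat.eq_prime_pow_of_unique_prime_dvd Nat.card_pos.ne' fun h1 h2 => hq _ h1 h2)
    have := hG.isNilpotent
    have n1 := Subgroup.NormalizerCondition.normal_of_coatom M₁
      (Group.normalizerCondition_of_isNilpotent) h1
    have n2 := Subgroup.NormalizerCondition.normal_of_coatom M₂
      (Group.normalizerCondition_of_isNilpotent) h2
    have ne : M₂ ≠ M₁ := by simpa using hne 1
    obtain ⟨x, hx, hx'⟩ := SetLike.not_le_iff_exists.1 fun e : M₁ ≤ M₂ =>
      ne ((h1.le_iff.1 e).resolve_left h2.1)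
    obtain ⟨y, hy, hy'⟩ := SetLike.not_le_iff_exists.1 fun e : M₂ ≤ M₁ =>
      ne ((h2.le_iff.1 e).resolve_left h1.1).symm
    have top : zpowers (x * y) = ⊤ := by
      by_contra n
      obtain ⟨L, hL, hle⟩ := (eq_top_or_exists_le_coatom _).resolve_left n
      have m := hle (mem_zpowers _)
      obtain ⟨g, e | e⟩ := hall L hL <;>
        rw [e, conj_smul_eq_map_conj, map_conj_eq_of_normal] at m
      exacts [hy' ((mul_mem_cancel_left hx).1 m), hx' ((mul_mem_cancel_right hy).1 m)]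
    have dv : ∀ {M : Subgroup G} {w}, IsCoatom M → w ∈ M → ∃ i, (x * y) ^ (p * i) = w :=
      fun {M w} hM hw => by
        obtain ⟨i, rfl⟩ := mem_powers_iff_mem_zpowers.2 (top.ge (mem_top w))
        by_cases d : p ∣ i
        · obtain ⟨j, rfl⟩ := d
          exact ⟨j, rfl⟩
        refine (hM.1 (top_le_iff.1 (top.ge.trans (zpowers_le.2
          (zpowers_le.2 hw (mem_zpowers_pow_iff.2 ?_)))))).elim
        obtain ⟨k, hk⟩ := (IsPGroup.iff_orderOf.1 hG) (x * y)
        rw [hk]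
        exact ((hp.coprime_iff_not_dvd.2 d).symm.pow_right k)
    obtain ⟨i, hi⟩ := dv h1 hx
    obtain ⟨j, hj⟩ := dv h2 hy
    have e : (x * y) ^ (p * (i + j)) = x * y := by rw [mul_add, pow_add, hi, hj]
    have e' : ∀ k, (x * y) ^ (p * (i + j)) ^ k = x * y := fun k => by
      induction k with
      | zero => simp
      | succ k ih => rw [pow_succ, pow_mul, ih, e]
    obtain ⟨k, hk⟩ := hG (x * y)
    have := e' k
    rw [mul_pow, pow_mul, hk, one_pow] at this
    exact hy' ((mul_mem_cancel_left hx).1 (this ▸ one_mem _))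

end Cfsg.Agent.S4383
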