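import Mathlib
import Cfsg.Statements.S4385
import Cfsg.Agent.S4359
import Cfsg.Agent.Loc.DihExt
import Cfsg.Agent.GT.Cores

set_option autoImplicit false
open Pointwise
open Cfsg

namespace Cfsg.Agent.S4385

open Subgroup Cfsg.Agent.Loc Cfsg.Agent.Loc.Mss Cfsg.Agent.GT Cfsg.Agent.S4359
open scoped commutatorElement

section

variable {G : Type*} [Group G] [Finite G] {P : Subgroup G} {h : G} {t : ℕ}

theorem genS (H : Ch P h 2 t) (bot : ∀ a b : ℤ, t ≤ b - a → R P h a b = ⊥) {a b : ℤ}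
    {C : Subgroup G} (hab : a ≤ b)
    (hC : ∀ j, j ≤ a → b ≤ j + t - 1 → R P h j (j + t - 1) ≤ C) : R P h a b ≤ C := by
  by_cases h' : t ≤ b - a
  · exact (bot _ _ h').le.trans bot_le
  · obtain ⟨m, hm⟩ := Int.eq_ofNat_of_zero_le (show 0 ≤ t - 1 - (b - a) by omega)
    exact H.gen0 m _ _ C hab (by omega) hC

theorem exists_k (H : Ch P h 2 t) (bot : ∀ a b : ℤ, t ≤ b - a → R P h a b = ⊥) :
    ∃ k : ℕ, 1 ≤ k ∧ k ≤ t ∧ 2 * t ≤ 3 * k ∧ (∀ i j : ℤ, i - j < k → j - i < k →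
      R P h i (i + t - 1) ≤ 𝐂[R P h j (j + t - 1)]) ∧ (k < t → ∀ i j : ℤ, j = i + k →
      ¬ R P h i (i + t - 1) ≤ 𝐂[R P h j (j + t - 1)]) := by
  classical
  have t0 := H.pos
  set T : ℤ → Subgroup G := fun j => R P h j (j + t - 1) with hT
  have exk : ∃ k : ℕ, k = t ∨ ¬ T 0 ≤ 𝐂[T k] := ⟨t, Or.inl rfl⟩
  have sp := Nat.find_spec exk
  set k := Nat.find exk
  have kt : k ≤ t := Nat.find_min' exk (Or.inl rfl)
  have hk : ∀ i j : ℤ, i - j < k → j - i < k → T i ≤ 𝐂[T j] := by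
    have : ∀ i j : ℤ, i ≤ j → j - i < k → T i ≤ 𝐂[T j] := fun i j hij hlt => by
      obtain ⟨m, hm⟩ := Int.eq_ofNat_of_zero_le (sub_nonneg.2 hij)
      have := (shift i m).1 (not_not.1 (not_or.1 (Nat.find_min exk (m := m) (by omega))).2)
      rwa [← hm, add_sub_cancel] at this
    intro i j a1 a2
    rcases le_total i j with h' | h'
    · exact this i j h' a2
    · exact cent_comm (this j i h' a1)
  have k0 : 1 ≤ k := Nat.pos_of_ne_zero fun e => by
    refine sp.elim (by omega) fun h' => h' ?_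
    have := H.comm bot 0 0 (by omega)
    rw [bot (0 - 1) _ (by omega), le_bot_iff, comm_eq_bot_iff] at this
    rwa [e]
  refine ⟨k, k0, kt, ?_, hk, fun hlt i j e h' => sp.resolve_left hlt.ne ((shift i k).2 (e ▸ h'))⟩
  by_cases e : k = t
  · omega
  have := H.low bot (k := k) (by omega) (by omega) hk (sp.resolve_left e)
  omega

theorem card_R' (H : Ch P h 2 t) (bot : ∀ a b : ℤ, t ≤ b - a → R P h a b = ⊥) {a b : ℤ} (i : ℕ)
    (hi : i ≤ t) (e : b - a = t - i) : Nat.card (R P h a b) = 2 ^ i :=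
  (cR _ e).trans (H.card bot i hi)

theorem ea (H : Ch P h 2 t) (bot : ∀ a b : ℤ, t ≤ b - a → R P h a b = ⊥) {k : ℕ}
    (hk : ∀ i j : ℤ, i - j < k → j - i < k → R P h i (i + t - 1) ≤ 𝐂[R P h j (j + t - 1)])
    {a b : ℤ} (hab : a ≤ b) (hlt : t - 1 - (b - a) < k) :
    R P h a b ≤ 𝐂[R P h a b] ∧ ∀ x ∈ R P h a b, x * x = 1 := by
  have : R P h a b ≤ Am.omZ 2 (R P h a b) := genS H bot hab fun j _ _ x hx => Am.mem_omZ.2
    ⟨R_mono ‹_› ‹_› hx, cent_comm (genS H bot hab fun i _ _ => hk i j (by omega) (by omega)) hx, by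
      have := pow_card_eq_one' (x := (⟨x, hx⟩ : R P h j (j + t - 1)))
      rw [card_R' H bot 1 H.pos (by omega)] at this
      exact congrArg Subtype.val this⟩
  exact ⟨fun x hx => (Am.mem_omZ.1 (this hx)).2.1, fun x hx => by
    rw [← pow_two]; exact (Am.mem_omZ.1 (this hx)).2.2⟩

theorem normA {A Q V : Subgroup G} {u : G} (h1 : A ≤ Q) (h2 : V ≤ A) (h3 : A ≤ 𝐂[A])
    (h4 : Q ⊓ 𝐂[V] ≤ A) (hu : u ∈ 𝐍[Q]) (h5 : ∀ v ∈ V, v * v = 1)
    (h7 : ∀ v ∈ V, ⁅u, v⁆ ∈ Q ∧ ⁅u, v⁆ * ⁅u, v⁆ = 1) (h8 : ∀ v ∈ V, ∀ w ∈ V, v = 1 ∨ v = w ∨ w = 1) :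
    u ∈ 𝐍[A] := by
  have k : ∀ v ∈ V, u * v * u⁻¹ ∈ A := fun v hv => by
    have e : ⁅u, v⁆ ∈ A := h4 ⟨(h7 v hv).1, mem_cent.2 fun w hw => by
      rcases h8 v hv w hw with rfl | rfl | rfl
      · simp
      · have e1 := inv_eq_of_mul_eq_one_right (h5 v hv)
        calc v * ⁅u, v⁆ = v * u * v * u⁻¹ * v⁻¹ := by rw [commutatorElement_def]; group
          _ = ⁅u, v⁆⁻¹ * v := by rw [commutatorElement_inv, commutatorElement_def, e1]
          _ = _ := by rw [inv_eq_of_mul_eq_one_right (h7 v hv).2]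
      · simp⟩
    simpa [commutatorElement_def] using mul_mem e (h2 hv)
  refine inv_mem_iff.1 (mem_norm_of_cj_le (cj_le_iff.2 fun x hx => h4 ⟨conj_mem_of_norm (inv_mem hu)
    (h1 hx), mem_cent.2 fun v hv => ?_⟩))
  have := mem_cent.1 (h3 hx) _ (k v hv)
  calc _ = u⁻¹ * (u * v * u⁻¹ * x) * u := by group
    _ = _ := by rw [this]; group

theorem not_six (H : Ch P h 2 6) (bot : ∀ a b : ℤ, (6 : ℕ) ≤ b - a → R P h a b = ⊥)
    (hk : ∀ i j : ℤ, i - j < (4 : ℕ) → j - i < (4 : ℕ) →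
      R P h i (i + (6 : ℕ) - 1) ≤ 𝐂[R P h j (j + (6 : ℕ) - 1)])
    (hn : ∀ i j : ℤ, j = i + (4 : ℕ) → ¬ R P h i (i + (6 : ℕ) - 1) ≤ 𝐂[R P h j (j + (6 : ℕ) - 1)])
    (i : ℤ) (h0 : 0 ≤ i) (h2 : i ≤ 2) : R P h i i ≤ 𝐍[R P h 0 2] := by
  have eA := ea H bot hk (a := 0) (b := 2) (by omega) (by omega)
  have two : ∀ j : ℤ, ∀ v ∈ R P h j (j + (6 : ℕ) - 1), ∀ w ∈ R P h j (j + (6 : ℕ) - 1),
      v = 1 ∨ v = w ∨ w = 1 := fun j v hv w hw => by
    obtain ⟨z, -, hz⟩ := (Nat.card_eq_two_iff' (1 : R P h j (j + (6 : ℕ) - 1))).1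
      (card_R' H bot 1 H.pos (by omega))
    by_contra hc
    push Not at hc
    exact hc.2.1 (congrArg Subtype.val ((hz ⟨v, hv⟩ fun e => hc.1 (congrArg Subtype.val e)).trans
      (hz ⟨w, hw⟩ fun e => hc.2.2 (congrArg Subtype.val e)).symm))
  have nl : ∀ a b : ℤ, a ≤ b → b - a < (6 : ℕ) → R P h a b ≤ 𝐍[R P h (a - 1) b] := fun a b _ _ =>
    PG.le_normalizer_of_relIndex_prime (H.pR ‹_›) (R_mono (by omega) le_rfl) (H.il a b ‹_› ‹_›)
  have nr : ∀ a b : ℤ, a ≤ b → b - a < (6 : ℕ) → R P h a b ≤ 𝐍[R P h a (b + 1)] := fun a b _ _ =>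
    PG.le_normalizer_of_relIndex_prime (H.pR ‹_›) (R_mono le_rfl (by omega)) (H.ir a b ‹_› ‹_›)
  refine genS H bot le_rfl fun j _ _ u hu => ?_
  by_cases j1 : j = -5
  · subst j1
    have e1 := ea H bot hk (a := 0 - 1) (b := -5 + 1 + (6 : ℕ) - 1) (by omega) (by omega)
    refine normA (Q := R P h 0 1) (V := R P h 0 (0 + (6 : ℕ) - 1)) (R_mono le_rfl (by omega))
      (R_mono le_rfl (by omega)) eA.1 (fun x hx => by_contra fun hx' => hn (-4) 0 (by omega)
        ((R_mono (by omega) (by omega)).trans (le_of_prime Nat.prime_two (R_mono le_rfl (by omega))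
          (H.ir 0 1 (by omega) (by omega)) (eA.1.trans (cent_anti (R_mono le_rfl (by omega))))
          hx.2 hx.1 hx'))) (nr 0 0 le_rfl (by omega) (R_mono (by omega) (by omega) hu))
      (fun v hv => eA.2 v (R_mono le_rfl (by omega) hv))
      (fun v hv => ?_) (two 0)
    have := H.comm bot (-5) 0 (by omega) (commutator_mem_commutator (R_mono (by omega) le_rfl hu)
      (R_mono le_rfl (by omega) hv))
    exact ⟨R_mono (by omega) (by omega) this, e1.2 _ this⟩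
  by_cases j2 : j = 2
  · subst j2
    have e1 := ea H bot hk (a := 2 - 1) (b := -3 + 1 + (6 : ℕ) - 1) (by omega) (by omega)
    refine normA (Q := R P h 1 2) (V := R P h (-3) (-3 + (6 : ℕ) - 1)) (R_mono (by omega) le_rfl)
      (R_mono (by omega) (by omega)) eA.1 (fun x hx => by_contra fun hx' => hn (-3) 1 (by omega)
        (cent_comm ((R_mono (by omega) (by omega)).trans (le_of_prime Nat.prime_two
          (R_mono (by omega) le_rfl) (H.il 1 2 (by omega) (by omega))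
          (eA.1.trans (cent_anti (R_mono (by omega) (by omega)))) hx.2 hx.1 hx'))))
      (nl 2 2 le_rfl (by omega) (R_mono (by omega) (by omega) hu))
      (fun v hv => eA.2 v (R_mono (by omega) (by omega) hv))
      (fun v hv => ?_) (two (-3))
    have := H.comm bot (-3) 2 (by omega) (commutator_mem_commutator (R_mono le_rfl (by omega) hu)
      (R_mono (by omega) le_rfl hv))
    exact ⟨R_mono (by omega) (by omega) this, e1.2 _ this⟩
  by_cases j3 : j ≤ 0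
  · exact nr 0 1 (by omega) (by omega) (R_mono j3 (by omega) hu)
  · exact nl 1 2 (by omega) (by omega) (R_mono (by omega) (by omega) hu)

structure Dat (H P : Subgroup G) (a : H) (n : ℕ) : Prop where
  le : P ≤ H
  odd : Odd n
  an : a ^ n ∈ pCore 2 H
  inv : ∀ τ : H, (τ : G) ∈ P → (τ : G) ∉ pCoreOf 2 H → τ * a * τ⁻¹ * a ∈ pCore 2 H
  gen : ∀ τ : H, (τ : G) ∈ P → (τ : G) ∉ pCoreOf 2 H → ∀ g : H, ∃ j : ℕ, ∃ q ∈ pCore 2 H,
    g = q * a ^ j ∨ g = q * a ^ j * τ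
  QP : pCoreOf 2 H ≤ P
  i2 : (pCoreOf 2 H).relIndex P = 2
  gH : ∀ C : Subgroup G, P ≤ C → cj((a : G), P) ≤ C → H ≤ C
  eQ : P ⊓ cj((a : G), P) = pCoreOf 2 H

omit [Finite G] in
theorem mQ {H : Subgroup G} (g : H) : (g : G) ∈ pCoreOf 2 H ↔ g ∈ pCore 2 H := by
  rw [← Am.pCoreOf_subgroupOf, mem_subgroupOf]

theorem exists_dat {H : Subgroup G} {n : ℕ} (hn : 2 ≤ n)
    (hdih : Nonempty (H ⧸ pCore 2 H ≃* DihedralGroup n)) (hPH : P ≤ H) (hP : IsPGroup 2 P)
    (hPsyl : ¬ 2 ∣ P.relIndex H) : ∃ a, Dat H P a n := by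
  obtain ⟨φ⟩ := hdih
  have : NeZero n := ⟨by omega⟩
  let ψ : H →* DihedralGroup n := φ.toMonoidHom.comp (QuotientGroup.mk' _)
  have sψ : Function.Surjective ψ := φ.surjective.comp (QuotientGroup.mk'_surjective _)
  have kψ : ∀ g : H, ψ g = 1 ↔ g ∈ pCore 2 H := fun g =>
    (map_eq_one_iff φ φ.injective).trans (QuotientGroup.eq_one_iff g)
  set Q := pCoreOf 2 H with hQ
  have odd : Odd n := by
    rcases Nat.even_or_odd' n with ⟨m, rfl | rfl⟩
    swap
    · exact odd_two_mul_add_one m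
    exfalso
    have e : ((m : ZMod (2 * m)) + m) = 0 := by
      rw [← Nat.cast_add, ← two_mul, ZMod.natCast_self]
    have c : ∀ x, x * DihedralGroup.r (m : ZMod (2 * m)) = DihedralGroup.r (m : ZMod (2 * m)) * x := by
      rintro (i | i)
      · simp [add_comm]
      · simp [eq_sub_iff_add_eq, add_assoc, e]
    obtain ⟨g, hg⟩ := φ.surjective (DihedralGroup.r m)
    have c' : ∀ x, x * g = g * x := fun x => φ.injective (by rw [map_mul, map_mul, hg, c])
    have := Am.le_pCore (p := 2) (N := zpowers g) ⟨by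
      rintro _ ⟨j, rfl⟩ x
      rw [(Commute.zpow_right (c' x) j).eq, mul_inv_cancel_right]; exact ⟨j, rfl⟩⟩
      (pg_iff.2 (by
        rintro _ ⟨j, rfl⟩
        refine ⟨1, ?_⟩
        rw [pow_one, ← zpow_natCast, ← zpow_mul, mul_comm, zpow_mul, zpow_natCast, pow_two,
          show g * g = 1 from φ.injective (by simp [hg, e]), one_zpow])) (mem_zpowers g)
    rw [pCore_quotient_pCore, mem_bot] at this
    rw [this, map_one, DihedralGroup.one_def, DihedralGroup.r.injEq, eq_comm,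
      ZMod.natCast_eq_zero_iff] at hg
    have := Nat.le_of_dvd (by omega) hg
    omega
  have sP : Syl 2 P H := ⟨hPH, hP, hPsyl⟩
  have QP : Q ≤ P := sP.core_le
  have rot : ∀ (g : H) (j : ZMod n), ψ g = DihedralGroup.r j → (∃ k, (g : G) ^ 2 ^ k = 1) →
      (g : G) ∈ Q := by
    rintro g j e ⟨k, hk⟩
    refine (mQ g).2 ((kψ g).1 (orderOf_eq_one_iff.1 (Nat.eq_one_of_dvd_coprimes
      ((Nat.coprime_two_left.2 odd).pow_left k) (orderOf_dvd_of_pow_eq_one ?_)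
      (orderOf_dvd_of_pow_eq_one ?_))))
    · rw [← map_pow, show g ^ 2 ^ k = 1 from Subtype.ext hk, map_one]
    · rw [e]; simp
  have refl : ∀ x (hx : x ∈ P), x ∉ Q → ∃ i, ψ ⟨x, hPH hx⟩ = DihedralGroup.sr i := fun x hx hx' => by
    rcases e : ψ ⟨x, hPH hx⟩ with j | j
    · exact absurd (rot _ j e (pg_iff.1 hP x hx)) hx'
    · exact ⟨j, rfl⟩
  obtain ⟨a, ha⟩ := sψ (DihedralGroup.r 1)
  have an : a ^ n ∈ pCore 2 H := (kψ _).1 (by rw [map_pow, ha, DihedralGroup.r_one_pow_n])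
  have inv : ∀ τ : H, (∃ i, ψ τ = DihedralGroup.sr i) → τ * a * τ⁻¹ * a ∈ pCore 2 H := by
    rintro τ ⟨i, hi⟩
    exact (kψ _).1 (by simp [hi, ha])
  have gen : ∀ τ : H, (∃ i, ψ τ = DihedralGroup.sr i) → ∀ g : H, ∃ j : ℕ, ∃ q ∈ pCore 2 H,
      g = q * a ^ j ∨ g = q * a ^ j * τ := by
    rintro τ ⟨i, hi⟩ g
    have k : ∀ (g : H) j, ψ g = DihedralGroup.r j → g * (a ^ j.val)⁻¹ ∈ pCore 2 H := fun g j e =>
      (kψ _).1 (by simp [e, ha])
    rcases e : ψ g with j | j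
    · exact ⟨_, _, k g j e, Or.inl (by group)⟩
    · exact ⟨_, _, k (g * τ⁻¹) (i - j) (by simp [e, hi]), Or.inr (by group)⟩
  obtain ⟨τ₀, h0, h0'⟩ : ∃ x ∈ P, x ∉ Q := SetLike.not_le_iff_exists.1 fun e => hPsyl (by
    rw [le_antisymm e QP, hQ, relIndex, Am.pCoreOf_subgroupOf, index, Nat.card_congr φ.toEquiv,
      DihedralGroup.nat_card]
    exact Dvd.intro _ rfl)
  have i2 : Q.relIndex P = 2 := Cub.relIndex_eq_two_of h0 h0' fun x hx y hy h1 h2 => by
    obtain ⟨i, hi⟩ := refl x hx h1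
    obtain ⟨j, hj⟩ := refl y hy h2
    exact rot (⟨x, hPH hx⟩ * ⟨y, hPH hy⟩) _ (by rw [map_mul, hi, hj]; rfl)
      (pg_iff.1 hP _ (mul_mem hx hy))
  have gH : ∀ C : Subgroup G, P ≤ C → cj((a : G), P) ≤ C → H ≤ C := fun C h1 h2 => by
    have b1 := h1 (QP ((mQ _).2 (inv _ (refl τ₀ h0 h0'))))
    have b2 : (a : G) ^ 2 ∈ C := by
      have := mul_mem (mul_mem (h2 (conj_mem_cj h0)) (inv_mem (h1 h0))) b1
      simp only [coe_mul, coe_inv] at this
      convert this using 1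
      rw [pow_two]; group
    have b3 := DihExt.pow_gcd_mem b2 (h1 (QP ((mQ _).2 an)))
    rw [Nat.Coprime.gcd_eq_one (Nat.coprime_two_left.2 odd), pow_one] at b3
    intro g hg
    obtain ⟨j, q, hq, e⟩ := gen _ (refl τ₀ h0 h0') ⟨g, hg⟩
    have b4 := mul_mem (h1 (QP ((mQ _).2 hq))) (pow_mem b3 j)
    rcases e with e | e <;> rw [show g = _ from congrArg Subtype.val e]
    · exact b4
    · exact mul_mem b4 (h1 h0)
  have nQ : H ≤ 𝐍[Q] := le_norm_core H
  have eQ : P ⊓ cj((a : G), P) = Q := by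
    refine le_antisymm (fun x hx => by_contra fun hx' => ?_) (le_inf QP
      ((cj_of_norm (nQ a.2)).ge.trans (cj_mono _ QP)))
    have b1 := gH _ (le_of_prime Nat.prime_two QP i2 ((cj_of_norm (nQ a.2)).ge.trans (cj_mono _ QP))
      hx.2 hx.1 hx') le_rfl
    have b2 := (kψ a).2 ((mQ a).1 (rot a 1 ha (pg_iff.1 (pg_cj hP _) _ (b1 a.2))))
    have b3 := DihedralGroup.orderOf_r_one (n := n)
    rw [← ha, b2, orderOf_one] at b3
    omega
  exact ⟨a, hPH, odd, an, fun τ b1 b2 => inv τ (refl τ b1 b2), fun τ b1 b2 => gen τ (refl τ b1 b2),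
    QP, i2, gH, eQ⟩

theorem final {H : Subgroup G} {a : H} {n k : ℕ} (d : Dat H P a n) (hc : Ch P h 2 t)
    (bot : ∀ a b : ℤ, t ≤ b - a → R P h a b = ⊥) (r1 : R P h 1 1 = cj((a : G), P))
    (rQ : R P h 0 1 = pCoreOf 2 H)
    (hk : ∀ i j : ℤ, i - j < k → j - i < k → R P h i (i + t - 1) ≤ 𝐂[R P h j (j + t - 1)])
    (hk' : k < t → ∀ i j : ℤ, j = i + k → ¬ R P h i (i + t - 1) ≤ 𝐂[R P h j (j + t - 1)])
    (tk : t = 2 ∧ k = 2 ∨ t = 3 ∧ k = 2 ∨ t = 4 ∧ k = 3) :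
    Nonempty (H ⧸ oddCore H ≃* Multiplicative (ZMod 2) × Multiplicative (ZMod 2)) ∨
     Nonempty (H ⧸ oddCore H ≃* Equiv.Perm (Fin 4)) ∨
     Nonempty (H ⧸ oddCore H ≃* Equiv.Perm (Fin 4) × Multiplicative (ZMod 2)) := by
  have hPH := d.le
  have QP := d.QP
  have gH := d.gH
  set Q := pCoreOf 2 H
  obtain ⟨⟨τ, hτ⟩, hτ1⟩ := ne_bot_iff_exists_ne_one.1 (show R P h (1 - t) (1 - t + t - 1) ≠ ⊥ from
    fun e => by
      have := card_R' hc bot (a := 1 - t) (b := 1 - t + t - 1) 1 hc.pos (by omega)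
      rw [e, card_bot] at this; omega)
  have τP : τ ∈ P := R_zero.le (R_mono (by omega) (by omega) hτ)
  have τQ : τ ∉ Q := fun e => hτ1 (Subtype.ext ((eq_bot_iff_forall _).1 (bot (1 - t) 1 (by omega)) τ
    ((R_inf (b := 1 - t + t - 1) (a' := 0) (by omega) (by omega) (by omega)).le ⟨hτ, rQ.ge e⟩)))
  have eQ' := ea hc bot hk (a := 0) (b := 1) (by omega) (by omega)
  rw [rQ] at eQ'
  have D : DihExt.DQ (pCore 2 H) a ⟨τ, hPH τP⟩ n := ⟨inferInstance,
    fun q hq => Subtype.ext (eQ'.2 q ((mQ q).2 hq)), d.odd, d.an, d.inv _ τP τQ,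
    Subtype.ext ((ea hc bot hk (by omega) (by omega)).2 τ hτ), d.gen _ τP τQ⟩
  have cQ : ∀ W ≤ H, Nat.card (W.subgroupOf H) = Nat.card W := fun W hW =>
    Nat.card_congr (subgroupOfEquivOfLe hW).toEquiv
  have cQ' : Nat.card (pCore 2 H) = 2 ^ (t - 1) := by
    rw [← Am.pCoreOf_subgroupOf, cQ _ (QP.trans hPH), ← rQ]
    exact card_R' hc bot _ (by omega) (by omega)
  have cen : ∀ a b : ℤ, a ≤ b → a + t - 1 < k → 1 - (b - t + 1) < k → H ≤ 𝐂[R P h a b] :=
    fun a b _ _ _ => gH _ (R_zero.ge.trans (genS hc bot le_rfl fun j _ _ => cent_comm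
      (genS hc bot ‹_› fun i _ _ => hk _ _ (by omega) (by omega)))) (r1.ge.trans (genS hc bot le_rfl
      fun j _ _ => cent_comm (genS hc bot ‹_› fun i _ _ => hk _ _ (by omega) (by omega))))
  by_cases ht : t = 2
  · refine Or.inl (D.klein' (by rw [cQ', ht]; rfl) (fun q hq => mem_center_iff.2 fun g => Subtype.ext
      (mem_cent.1 (cen 0 1 (by omega) (by omega) (by omega) g.2) q (rQ.ge ((mQ q).2 hq))).symm)
      fun e => τQ ((mQ _).2 e))
  have hk'' := hk' (by omega)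
  have WQ : R P h (-1) 2 ≤ Q := (R_mono (by omega) (by omega)).trans rQ.le
  have cW := cQ _ (WQ.trans (QP.trans hPH))
  rw [card_R' hc bot (t - 3) (by omega) (by omega)] at cW
  have c1 : R P h (0 - 1) 1 ≤ 𝐂[R P h (1 - t) (1 - t + t - 1)] :=
    genS hc bot (by omega) fun j _ _ => hk _ _ (by omega) (by omega)
  refine Or.inr (D.four' (W := (R P h (-1) 2).subgroupOf H) (fun q hq => (mQ q).1 (WQ hq))
    (fun q hq => mem_center_iff.2 fun g => Subtype.ext
      (mem_cent.1 (cen (-1) 2 (by omega) (by omega) (by omega) g.2) q hq).symm)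
    (by rw [cQ', cW, show t - 1 = 2 + (t - 3) by omega, pow_add]; rfl) (fun q hq hz => ?_)
    (fun e => hk'' (2 - t) 1 (by omega) (cent_comm fun g hg => ?_)) (fun q hq q' hq' b1 b2 => ?_)
    (by rw [cW]; rcases (show t = 3 ∨ t = 4 by omega) with rfl | rfl <;> simp))
  · have b0 : ∀ C ≤ H, (q : G) ∈ 𝐂[C] := fun C hC => mem_cent.2 fun g hg =>
      congrArg Subtype.val (mem_center_iff.1 hz ⟨g, hC hg⟩)
    have b1 : (q : G) ∈ R P h 0 1 := rQ.ge ((mQ q).2 hq)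
    rw [mem_subgroupOf, ← R_inf (b := 1) (a' := 0) (by omega) (by omega) (by omega)]
    refine ⟨by_contra fun e => hk'' (1 - t) 0 (by omega) (cent_comm ((R_mono le_rfl (by omega)).trans
      (le_of_prime Nat.prime_two (R_mono (by omega) le_rfl) (hc.il 0 1 (by omega) (by omega)) c1
      (b0 _ ((R_mono (by omega) (by omega)).trans (R_zero.le.trans hPH))) b1 e))),
      by_contra fun e => hk'' (2 - t) 1 (by omega) ((R_mono (by omega) (by omega)).trans
      (le_of_prime Nat.prime_two (R_mono le_rfl (by omega)) (hc.ir 0 1 (by omega) (by omega))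
      (genS hc bot (by omega) fun j _ _ => hk _ _ (by omega) (by omega))
      (b0 _ ((R_mono le_rfl (by omega)).trans (r1.le.trans (cj_le_of_mem hPH a.2)))) b1 e))⟩
  · have b0 : R P h (2 - t) (2 - t + t - 1) ≤ Q := (R_mono (by omega) (by omega)).trans rQ.le
    obtain ⟨j, q, hq, e'⟩ := D.gen ⟨g, cj_le_of_mem hPH a.2 (r1.le (R_mono le_rfl (by omega) hg))⟩
    have b1 : (a : G) ∈ 𝐂[Q] := mem_cent.2 fun x hx => congrArg Subtype.val
      (mem_cent.1 e ⟨x, hPH (QP hx)⟩ ((mQ _).1 hx))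
    have b2 := cent_anti b0 (mul_mem (eQ'.1 ((mQ q).2 hq)) (pow_mem b1 j))
    rcases e' with e' | e' <;> rw [show g = _ from congrArg Subtype.val e']
    · exact b2
    · exact mul_mem b2 (hk _ _ (by omega) (by omega) hτ)
  · have b3 : ∀ x : H, (x : G) ∈ R P h (0 - 1) 1 → Commute x ⟨τ, hPH τP⟩ := fun x hx =>
      Subtype.ext (mem_cent.1 (c1 hx) τ hτ).symm
    exact b3 _ ((mul_mem_iff_of_index_two (H := (R P h (0 - 1) 1).subgroupOf (R P h 0 1))
      (hc.il 0 1 (by omega) (by omega)) (a := ⟨q, rQ.ge ((mQ q).2 hq)⟩)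
      (b := ⟨q', rQ.ge ((mQ q').2 hq')⟩)).2 (iff_of_false (fun e => b1 (b3 q e)) fun e => b2 (b3 q' e)))

end

/-- Let H be a subgroup of a finite group G whose largest normal 2-subgroup O_2(H) is nontrivial and such that H/O_2(H) is a dihedral group of order at least 4. Let P be a Sylow 2-subgroup of H and S a Sylow 2-subgroup of G containing P. Suppose y ∈ S lies outside P, normalizes P, has y² in the product of P with the centralizer of P in G, and normalizes no non-identity normal subgroup of H contained in P. Then P has order 4, 8 or 16, and H modulo its largest normal subgroup of odd order is isomorphic to the four-group, to the symmetric group of degree 4, or to the direct product of the symmetric group of degree 4 with a group of order 2. -/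
theorem result {G : Type*} [Group G] [Finite G]
    (H : Subgroup G) (hO : Cfsg.pCore 2 ↥H ≠ ⊥) (n : ℕ) (hn : 2 ≤ n) (hdih : Nonempty (↥H ⧸ Cfsg.pCore 2 ↥H ≃* DihedralGroup n))
    (P : Subgroup G) (hPH : P ≤ H) (hP : IsPGroup 2 P) (hPsyl : ¬ 2 ∣ P.relIndex H)
    (S : Sylow 2 G) (hPS : P ≤ (S : Subgroup G)) (y : G) (hyS : y ∈ (S : Subgroup G)) (hyP : y ∉ P)
    (hy2 : y ^ 2 ∈ P ⊔ Subgroup.centralizer (P : Set G)) (hyN : MulAut.conj y • P = P)
    (hyQ : ∀ Q : Subgroup G, Q ≤ P → (Q.subgroupOf H).Normal → MulAut.conj y • Q = Q → Q = ⊥) :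
    (Nat.card P = 4 ∨ Nat.card P = 8 ∨ Nat.card P = 16) ∧
    (Nonempty (↥H ⧸ Cfsg.oddCore ↥H ≃* Multiplicative (ZMod 2) × Multiplicative (ZMod 2)) ∨
     Nonempty (↥H ⧸ Cfsg.oddCore ↥H ≃* Equiv.Perm (Fin 4)) ∨
     Nonempty (↥H ⧸ Cfsg.oddCore ↥H ≃* Equiv.Perm (Fin 4) × Multiplicative (ZMod 2))) := by
  obtain ⟨a, d⟩ := exists_dat hn hdih hPH hP hPsyl
  have gH := d.gH
  have eQ := d.eQ
  have nQ : H ≤ 𝐍[pCoreOf 2 H] := le_norm_core H
  have yN : y ∈ 𝐍[P] := cj_eq_iff.1 hyN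
  have e1 : cj((a : G) * y, P) = cj((a : G), P) := by rw [← cj_cj, cj_of_norm yN]
  have tr0 : ∀ N ≤ P, H ≤ 𝐍[N] → y ∈ 𝐍[N] → N = ⊥ := fun N b1 b2 b3 =>
    hyQ N b1 ((normal_subgroupOf_iff_le_normalizer (b1.trans hPH)).2 b2) (cj_eq_iff.2 b3 : cj(y, N) = N)
  set h := (a : G) * y with hh
  have triv : ∀ N ≤ P, P ≤ 𝐍[N] → h ∈ 𝐍[N] → N = ⊥ := fun N b1 b2 b3 => by
    have b4 := gH _ b2 (by rw [← e1, ← cj_of_norm b3, ← cj_norm]; exact cj_mono _ b2)
    exact tr0 N b1 b4 ((mul_mem_cancel_left (b4 a.2)).1 b3)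
  have r1 : R P h 1 1 = cj((a : G), P) := by rw [R_self, zpow_one, e1]
  have rQ : R P h 0 1 = pCoreOf 2 H := by rw [R_one, e1, eQ]
  have triv2 : ∀ N ≤ P, (∀ i : ℤ, 0 ≤ i → i ≤ 2 → R P h i i ≤ 𝐍[N]) → N = ⊥ := fun N b1 b2 => by
    have b3 : H ≤ 𝐍[N] := gH _ (R_zero.ge.trans (b2 0 le_rfl (by omega))) 
      (r1.ge.trans (b2 1 (by omega) (by omega)))
    have b4 : cj(h ^ (-1 : ℤ), N) = cj(y⁻¹, N) := by
      rw [zpow_neg_one, hh, mul_inv_rev, ← cj_cj, cj_of_norm (inv_mem (b3 a.2))]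
    have b5 : H ≤ 𝐍[cj(y⁻¹, N)] := by
      rw [← b4, ← cj_norm]
      exact gH _ (R_zero.ge.trans ((R_mono (by omega) (by omega)).trans ((cj_R 1 1 (-1)).ge.trans
        (cj_mono _ (b2 1 (by omega) (by omega)))))) (r1.ge.trans ((R_mono (by omega) (by omega)).trans
        ((cj_R 2 2 (-1)).ge.trans (cj_mono _ (b2 2 (by omega) le_rfl)))))
    have b6 : cj(y⁻¹, N) ≤ P := cj_le_of_norm b1 (inv_mem yN)
    have b7 : y ^ 2 ∈ 𝐍[cj(y⁻¹, N)] :=
      sup_le (hPH.trans b5) ((cent_anti b6).trans (cent_le_norm _)) hy2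
    exact le_bot_iff.1 (le_sup_left.trans (tr0 (N ⊔ cj(y⁻¹, N)) (sup_le b1 b6) (norm_sup b3 b5)
      (cj_eq_iff.1 (by
        rw [cj_sup, cj_cj_inv, sup_comm, ← cj_of_norm b7, cj_cj, pow_two, mul_inv_cancel_right]))).le)
  obtain ⟨t, hc⟩ := exists_ch (p := 2) (P := P) (h := h)
    (by rw [e1, eQ]; exact (cj_le_of_mem hPH a.2).trans nQ)
    (by rw [e1, eQ, ← cj_of_norm (nQ a.2), relIndex_map_map_of_injective _ _ (cj_inj _), d.i2]) triv
  have bot := hc.bot triv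
  obtain ⟨k, k0, kt, low, hk, hk'⟩ := exists_k hc bot
  have up : 2 * k ≤ t + 2 := by
    by_contra hlt
    have := card_R' hc bot (a := k - t) (b := k - t + t - 1) 1 hc.pos (by omega)
    rw [triv2 _ ((R_mono (by omega) (by omega)).trans R_zero.le) fun i _ _ => norm_of_cent
      (genS hc bot le_rfl fun j _ _ => hk j _ (by omega) (by omega)), card_bot] at this
    omega
  have t2 : 2 ≤ t := by
    by_contra hlt
    exact hO ((map_eq_bot_iff_of_injective _ H.subtype_injective).1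
      (rQ.symm.trans (bot 0 1 (by omega))))
  have t6 : t ≠ 6 := by
    rintro rfl
    obtain rfl : k = 4 := by omega
    have := card_R' hc bot (a := 0) (b := 2) 4 (by omega) (by omega)
    rw [triv2 _ ((R_mono le_rfl (by omega)).trans R_zero.le)
      (not_six hc bot hk (hk' (by omega))), card_bot] at this
    omega
  have cP : Nat.card P = 2 ^ t := by
    rw [← card_R' hc bot (a := 0) (b := 0) t le_rfl (by omega), R_zero]
  refine ⟨by rw [cP]; rcases (show t = 2 ∨ t = 3 ∨ t = 4 by omega) with rfl | rfl | rfl <;> simp,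
    final d hc bot r1 rQ hk hk' (by omega)⟩

end Cfsg.Agent.S4385
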