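import Mathlib
import Cfsg.Statements.S4387
import Cfsg.Agent.FG.CoverConj

set_option autoImplicit false
open Pointwise
open Cfsg

namespace Cfsg.Agent.S4387

open Cfsg.Agent.FG.H96


/-- Let G be a non-trivial finite group in which any two maximal subgroups are conjugate. Then G is cyclic of prime-power order. -/
theorem result {G : Type*} [Group G] [Finite G] [Nontrivial G]
    (h : ∀ M N : Subgroup G, IsCoatom M → IsCoatom N → ∃ g : G, N = MulAut.conj g • M) :
    IsCyclic G ∧ IsPrimePow (Nat.card G) := by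
  obtain ⟨M, hM, -⟩ := (eq_top_or_exists_le_coatom (⊥ : Subgroup G)).resolve_left bot_ne_top
  constructor
  · obtain ⟨x, hx⟩ := exists_not_mem_conj M hM.1
    rcases eq_top_or_exists_le_coatom (Subgroup.zpowers x) with h1 | ⟨N, hN, h1⟩
    · exact ⟨⟨x, fun y => by
        have : y ∈ Subgroup.zpowers x := h1 ▸ Subgroup.mem_top y
        exact this⟩⟩
    · obtain ⟨g, rfl⟩ := h M N hM hN
      exact absurd (h1 (Subgroup.mem_zpowers x)) (hx g)
  · have hi : M.index ≠ 1 := fun e => hM.1 (Subgroup.index_eq_one.1 e)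
    obtain ⟨p, hp, hpM⟩ := Nat.exists_prime_and_dvd hi
    have := Fact.mk hp
    obtain ⟨P⟩ : Nonempty (Sylow p G) := inferInstance
    rcases eq_top_or_exists_le_coatom (P : Subgroup G) with h1 | ⟨N, hN, h1⟩
    · obtain ⟨k, hk⟩ := P.isPGroup'.exists_card_eq
      rw [h1, Subgroup.card_top] at hk
      refine ⟨p, k, hp.prime, Nat.pos_of_ne_zero ?_, hk.symm⟩
      rintro rfl
      have := Finite.one_lt_card (α := G)
      simp [hk] at this
    · obtain ⟨g, rfl⟩ := h M N hM hN
      exact absurd (hpM.trans (index_conj_smul M g ▸ Subgroup.index_dvd_of_le h1)) P.not_dvd_index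

end Cfsg.Agent.S4387
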