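import Cfsg.Statements.S4396
import Cfsg.Agent.FG.FreeB
import Cfsg.Agent.GT.Fitting
import Cfsg.Agent.GT.FrobeniusBasic
import Cfsg.Agent.Perm.PermModule

set_option autoImplicit false
open Cfsg

namespace Cfsg.Agent.S4396

/-- Let the finite group A act faithfully and linearly on a finite-dimensional vector space V over a field k, and suppose A is a Frobenius group with nilpotent kernel F (every Frobenius kernel is nilpotent) and complement H such that F fixes no nonzero vector. Then V is free as a module for H: there is a subspace W with V the direct sum of the translates hW, h ∈ H. (No assumption on the characteristic of k.) -/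
theorem result {k V A : Type*} [Field k] [AddCommGroup V] [Module k V] [FiniteDimensional k V] [Group A] [Finite A] [DecidableEq A]
    (ρ : Representation k A V) (hρ : Function.Injective ρ)
    (Fk Hc : Subgroup A) [Fk.Normal] (hHc : Cfsg.IsFrobeniusComplement Hc) (hker : Cfsg.frobeniusKernel Hc = (Fk : Set A)) (hnil : Group.IsNilpotent ↥Fk)
    (hCF : ∀ v : V, (∀ f ∈ Fk, ρ f v = v) → v = 0) :
    ∃ W : Submodule k V, DirectSum.IsInternal (fun h : ↥Hc => W.map (ρ (h : A))) := by
  classical
  obtain ⟨Z, hZn, hZF, hZ, hfix⟩ : ∃ Z : Subgroup A, Z.Normal ∧ Z ≤ Fk ∧ (Nat.card Z : k) ≠ 0 ∧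
      ∀ v : V, (∀ f ∈ Z, ρ f v = v) → v = 0 := by
    obtain ⟨p, hp⟩ := CharP.exists k
    rcases CharP.char_is_prime_or_zero k p with h | rfl
    swap
    · have := CharP.charP_to_charZero k
      exact ⟨Fk, inferInstance, le_rfl, Nat.cast_ne_zero.2 Nat.card_pos.ne', hCF⟩
    have : Fact p.Prime := ⟨h⟩
    have hn : (GT.pPrimeCoreOf p Fk).Normal := by
      have := GT.pPrimeCore_characteristic (p := p) (G := Fk)
      exact ConjAct.normal_of_characteristic_of_normal
    refine ⟨GT.pPrimeCoreOf p Fk, hn, GT.pPrimeCoreOf_le Fk, fun e => ?_, fun v hv => ?_⟩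
    · exact (h.coprime_iff_not_dvd.1 (GT.coprime_card_pPrimeCoreOf p Fk).symm)
        ((CharP.cast_eq_zero_iff k p _).1 e)
    by_contra hv0
    let U : Submodule k V := ⨅ z : GT.pPrimeCoreOf p Fk, LinearMap.ker (ρ z - 1)
    have hU : ∀ v, v ∈ U ↔ ∀ z ∈ GT.pPrimeCoreOf p Fk, ρ z v = v := fun v => by
      simp [U, sub_eq_zero]
    obtain ⟨w, h1, h2, h3⟩ := Perm.exists_fixed_ne_zero_of_isPGroup (GT.isPGroup_pCoreOf p Fk)
      (ρ.comp (pCoreOf p Fk).subtype) U ((Submodule.ne_bot_iff _).2 ⟨v, (hU v).2 hv, hv0⟩)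
      fun y v hv => (hU _).2 fun z hz => by
        have := (hU _).1 hv _ (hn.conj_mem' _ hz y)
        change ρ z (ρ y v) = ρ y v
        conv_rhs => rw [← this]
        simp only [← Module.End.mul_apply, ← map_mul, mul_assoc, mul_inv_cancel_left]
    refine h2 (hCF w fun f hf => ?_)
    rw [← GT.pCoreOf_sup_pPrimeCoreOf p Fk, ← SetLike.mem_coe, Subgroup.mul_normal] at hf
    obtain ⟨x, hx, y, hy, rfl⟩ := hf
    rw [map_mul, Module.End.mul_apply, (hU w).1 h1 y hy]
    exact h3 ⟨x, hx⟩
  have := Fintype.ofFinite Z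
  have := Fintype.ofFinite Hc
  have : Group.IsSolvable Z :=
    Group.isSolvable_of_isSolvable_injective (Subgroup.inclusion_injective hZF)
  exact (FG.Free.main _ Z (fun h : Hc => (MulAut.conjNormal (h : A)).toMonoidHom) rfl
    (fun h => (MulAut.conjNormal (h : A)).injective) (fun h hh z hz => by
      by_contra hz1
      have e : (h : A) * z * (h : A)⁻¹ = z := congrArg Subtype.val hz
      have := hHc.mem_kernel_of_commute (x := z) (y := h) (hker ▸ hZF z.2)
        (fun e => hz1 (Subtype.ext e)) (mul_inv_eq_iff_eq_mul.1 e).symm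
      exact hh (Subtype.ext (GT.Frob.eq_one_of_mem_frobeniusKernel this h.2)))
    (by rwa [← Nat.card_eq_fintype_card]) _ V (ρ.comp Z.subtype) (ρ.comp Hc.subtype) rfl
    (fun h z => by
      change ρ h * ρ z = ρ (h * z * (h : A)⁻¹) * ρ h
      rw [← map_mul, ← map_mul, inv_mul_cancel_right])
    fun v hv => hfix v fun f hf => hv ⟨f, hf⟩).isInternal

end Cfsg.Agent.S4396
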