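import Mathlib
import Cfsg.Statements.S4402
import Cfsg.Agent.FG.WrD8
import Cfsg.Agent.FG.SectRank
import Cfsg.Agent.GT.CoprimeSylow

set_option autoImplicit false
open Cfsg

namespace Cfsg.Agent.S4402

open Subgroup Cfsg.Agent.FG.WrD8

theorem eq_or {V : Subgroup M} (hn : ∀ g, ∀ v ∈ V, g * v * g⁻¹ ∈ V)
    (he : IsElementaryAbelian 2 V) (hc : Nat.card V = 16) : V = U ∨ V = W := by
  have h1 : ∀ v ∈ V, v ∈ U ∨ v ∈ W := fun v hv => by
    by_contra! e
    obtain ⟨g, hg⟩ := mem_or v e.1 e.2 (by rw [← sq]; exact he.2 v hv)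
    exact hg (congrArg Subtype.val (he.1.1.1 ⟨v, hv⟩ ⟨_, hn g v hv⟩))
  by_cases hU : V ≤ U
  · exact Or.inl (eq_of_le_of_card_ge hU (by rw [hc, card_U]))
  obtain ⟨v, hv, hv'⟩ := SetLike.not_le_iff_exists.1 hU
  refine Or.inr (eq_of_le_of_card_ge (fun u hu => ?_) (by rw [hc, card_W]))
  rcases h1 u hu with h | h
  · exact (mul_mem_cancel_left ((h1 v hv).resolve_left hv')).1
      ((h1 _ (mul_mem hv hu)).resolve_left fun e => hv' ((mul_mem_cancel_right h).1 e))
  · exact h

theorem aut_or (α : MulAut M) {A : Subgroup M} (hn : ∀ m ∈ A, ∀ g, g * m * g⁻¹ ∈ A)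
    (h2 : ∀ m ∈ A, m * m = 1) (hc : Nat.card A = 16) :
    (∀ m, α m ∈ A ↔ m ∈ U) ∨ ∀ m, α m ∈ A ↔ m ∈ W := by
  have e : ∀ m, m ∈ A.map α.symm.toMonoidHom ↔ α m ∈ A := fun m => mem_map_equiv
  have h3 : ∀ m ∈ A.map α.symm.toMonoidHom, m * m = 1 := fun m hm =>
    α.injective (by rw [map_mul, h2 _ ((e m).1 hm), map_one])
  have := eq_or (V := A.map α.symm.toMonoidHom)
    (fun g v hv => (e _).2 (by rw [map_mul, map_mul, map_inv]; exact hn _ ((e v).1 hv) _))
    ⟨⟨⟨fun a b => Subtype.ext (by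
      have h4 := inv_eq_of_mul_eq_one_right (h3 _ (mul_mem a.2 b.2))
      rw [mul_inv_rev, inv_eq_of_mul_eq_one_right (h3 _ a.2),
        inv_eq_of_mul_eq_one_right (h3 _ b.2)] at h4
      exact h4.symm)⟩⟩, fun a ha => by rw [sq]; exact h3 a ha⟩
    (by rw [card_map_of_injective α.symm.injective, hc])
  exact this.imp (fun h m => by rw [← e, h]) fun h m => by rw [← e, h]

/-- `α` fixes both normal elementary abelian subgroups of order `16`. -/
def Pres (α : MulAut M) : Prop := (∀ m, α m ∈ U ↔ m ∈ U) ∧ ∀ m, α m ∈ W ↔ m ∈ W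

/-- `α` exchanges them. -/
def Swap (α : MulAut M) : Prop := (∀ m, α m ∈ U ↔ m ∈ W) ∧ ∀ m, α m ∈ W ↔ m ∈ U

theorem uu_U : uu ∈ U := by decide
theorem uu_W : uu ∉ W := by decide

theorem dich (α : MulAut M) : Pres α ∨ Swap α := by
  have h0 : ¬ ∀ m, α m ∈ U ↔ α m ∈ W := fun h => uu_W (by
    simpa [uu_U] using h (α.symm uu))
  rcases aut_or α U_conj U_sq card_U with h1 | h1 <;>
    rcases aut_or α W_conj W_sq card_W with h2 | h2
  exacts [(h0 fun m => (h1 m).trans (h2 m).symm).elim, Or.inl ⟨h1, h2⟩, Or.inr ⟨h1, h2⟩,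
    (h0 fun m => (h1 m).trans (h2 m).symm).elim]

theorem pres_of_U {α : MulAut M} (h : ∀ m ∈ U, α m ∈ U) : Pres α :=
  (dich α).resolve_right fun e => uu_W ((e.1 _).1 (h _ uu_U))

theorem pres_of_W {α : MulAut M} (h : ∀ m ∈ W, α m ∈ W) : Pres α :=
  (dich α).resolve_right fun e => uu_W (by
    have h1 : α.symm uu ∈ W := (e.1 _).1 (by simpa using uu_U)
    simpa using h _ h1)

theorem aut_D (α : MulAut M) {d : M} (hd : d ∈ D) : α d ∈ D := by
  obtain ⟨u, hu, w, hw, rfl⟩ := D_eq d hd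
  rw [map_mul]
  rcases dich α with h | h
  · exact mul_mem ((h.1 u).2 hu).1 ((h.2 w).2 hw).1
  · exact mul_mem ((h.2 u).2 hu).1 ((h.1 w).2 hw).1

theorem aut_z (α : MulAut M) : α z = z :=
  ((cen_iff _).1 fun g => by
    obtain ⟨g, rfl⟩ := α.surjective g
    rw [← map_mul, ← map_mul, (cen_iff z).2 (Or.inr rfl)]).resolve_left fun e =>
    (by decide : z ≠ 1) (α.injective (e.trans (map_one α).symm))

theorem tr {α : MulAut M} {A : Subgroup M} (hA : ∀ m, α m ∈ A ↔ m ∈ A) {c : M} (hc : α c = c)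
    (u : M) : (∃ w ∈ A, α u * w = c * (w * α u)) ↔ ∃ w ∈ A, u * w = c * (w * u) := by
  constructor
  · rintro ⟨w, hw, e⟩
    obtain ⟨w, rfl⟩ := α.surjective w
    exact ⟨w, (hA w).1 hw, α.injective (by simpa only [map_mul, hc] using e)⟩
  · rintro ⟨w, hw, e⟩
    exact ⟨α w, (hA w).2 hw, by simpa only [map_mul, hc] using congrArg α e⟩

theorem central {α : MulAut M} (h : Pres α) (h1 : α z1 = z1) {d : M} (hd : d ∈ D) :
    d⁻¹ * α d ∈ U ⊓ W := by
  have h2 : α (z1 * z) = z1 * z := by rw [map_mul, h1, aut_z]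
  obtain ⟨u, hu, w, hw, rfl⟩ := D_eq d hd
  have e1 := U_det u hu _ ((h.1 u).2 hu)
    (by rw [← U_a _ ((h.1 u).2 hu), ← U_a _ hu, tr h.2 h1])
    (by rw [← U_b _ ((h.1 u).2 hu), ← U_b _ hu, tr h.2 h2])
  have e2 := W_det w hw _ ((h.2 w).2 hw)
    (by rw [← W_a _ ((h.2 w).2 hw), ← W_a _ hw, tr h.1 h1])
    (by rw [← W_b _ ((h.2 w).2 hw), ← W_b _ hw, tr h.1 h2])
  rw [show (u * w)⁻¹ * α (u * w) = w⁻¹ * (u⁻¹ * α u) * α w by rw [map_mul]; group,
    ← UW_cen _ e1 _ (D.inv_mem hw.1), mul_assoc]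
  exact mul_mem e1 e2

variable {S : Type*} [Group S] [Finite S]

theorem key0 (hr : SectionalPRankLE 2 4 S) {φ : M →* S} (hφ : Function.Injective φ) {x : S}
    {α : MulAut M} (hα : ∀ m, φ (α m) = x * φ m * x⁻¹) {n : M} (hn : x * x = φ n) (h : Pres α)
    (h1 : α z1 = z1) : x ∈ φ.range := by
  have hx : ∀ m, x * φ m = φ (α m) * x := fun m => by rw [hα]; group
  have hfix : ∀ c ∈ U ⊓ W, α c = c := fun c hc => by
    rcases UW_cases c hc with rfl | rfl | rfl | rfl
    exacts [map_one α, aut_z α, h1, by rw [map_mul, h1, aut_z]]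
  have hnZ : n ∈ U ⊓ W := cen_D n fun d hd => hφ (by
    have e : α (α d) = d := by
      have e1 := central h h1 hd
      rw [show α (α d) = α d * α (d⁻¹ * α d) by simp, hfix _ e1,
        show α d * (d⁻¹ * α d) = d * ((d⁻¹ * α d) * (d⁻¹ * α d)) by group, U_sq _ e1.1, mul_one]
    rw [map_mul, map_mul, ← hn, mul_assoc, hx, ← mul_assoc, hx, e, mul_assoc])
  have hnD : n ∈ D := hnZ.1.1
  let K : Subgroup S :=
    { carrier := {g | ∃ d ∈ D, g = φ d ∨ g = φ d * x}
      one_mem' := ⟨1, one_mem _, Or.inl (map_one φ).symm⟩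
      mul_mem' := by
        rintro _ _ ⟨a, ha, rfl | rfl⟩ ⟨b, hb, rfl | rfl⟩
        · exact ⟨_, mul_mem ha hb, Or.inl (map_mul φ a b).symm⟩
        · exact ⟨_, mul_mem ha hb, Or.inr (by rw [map_mul, mul_assoc])⟩
        · exact ⟨_, mul_mem ha (aut_D α hb), Or.inr (by rw [map_mul, mul_assoc, hx, mul_assoc])⟩
        · exact ⟨_, mul_mem (mul_mem ha (aut_D α hb)) hnD, Or.inl (by
            rw [map_mul, map_mul, ← hn, hα]; group)⟩
      inv_mem' := by
        rintro _ ⟨a, ha, rfl | rfl⟩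
        · exact ⟨_, inv_mem ha, Or.inl (map_inv φ a).symm⟩
        · exact ⟨_, aut_D α (inv_mem (mul_mem ha hnD)), Or.inr (by
            rw [hα, map_inv, map_mul, ← hn]; group)⟩ }
  have hK := FG.SR.relIndex_le_two hr (N := (U ⊓ W).map φ) (H := K) (by
    rintro _ ⟨a, ha, rfl | rfl⟩
    · exact ⟨_, D_sq a ha, by rw [map_mul, sq]⟩
    · refine ⟨a * a * (a⁻¹ * α a) * n, mul_mem (mul_mem (D_sq a ha) (central h h1 ha)) hnZ, ?_⟩
      simp only [map_mul, map_inv, ← hn, hα, sq]
      group)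
  have hDK : D.map φ ≤ K := by
    rintro _ ⟨d, hd, rfl⟩
    exact ⟨d, hd, Or.inl rfl⟩
  have hle : U ⊓ W ≤ D := fun m hm => hm.1.1
  have e1 := relIndex_mul_relIndex _ _ K (map_mono (f := φ) hle) hDK
  have e2 := (U ⊓ W).subgroupOf D |>.index_mul_card
  rw [Nat.card_congr (subgroupOfEquivOfLe hle).toEquiv, card_UW, card_D] at e2
  rw [relIndex_map_map_of_injective _ _ hφ, show (U ⊓ W).relIndex D = 16 by
    rw [relIndex]; omega] at e1
  have e3 : (D.map φ).relIndex K ≠ 0 := index_ne_zero_of_finite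
  exact map_le_range φ D (relIndex_eq_one.1 (by omega)
    (show x ∈ K from ⟨1, one_mem _, Or.inr (by simp)⟩))

theorem key (hr : SectionalPRankLE 2 4 S) {φ : M →* S} (hφ : Function.Injective φ) {x : S}
    {α : MulAut M} (hα : ∀ m, φ (α m) = x * φ m * x⁻¹) {n : M} (hn : x * x = φ n) (h : Pres α) :
    x ∈ φ.range := by
  have hz : z1 ∈ U ⊓ W := by decide
  rcases UW_cases (α z1) ⟨(h.1 _).2 hz.1, (h.2 _).2 hz.2⟩ with e | e | e | e
  · exact absurd (α.injective (e.trans (map_one α).symm)) (by decide)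
  · exact absurd (α.injective (e.trans (aut_z α).symm)) (by decide)
  · exact key0 hr hφ hα hn h e
  have := key0 hr hφ (x := x * φ t) (α := α * MulAut.conj t) (n := α t * n * t) (fun m => by
      simp only [MulAut.mul_apply, MulAut.conj_apply, hα, map_mul, map_inv]; group)
    (by rw [map_mul, map_mul, ← hn, hα]; group) (pres_of_U fun m hm => (h.1 _).2 (U_conj m hm t))
    (by rw [MulAut.mul_apply, MulAut.conj_apply, show t * z1 * t⁻¹ = z1 * z by decide, map_mul, e,
      aut_z]; decide)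
  exact (mul_mem_cancel_right (show φ t ∈ φ.range from ⟨t, rfl⟩)).1 this

theorem exists_sylow {G X : Type*} [Group G] [Finite X] (hX : Nat.card X = 8)
    (f : G →* Equiv.Perm X) (hc : Nat.card f.range = 128) :
    ∃ T : Sylow 2 (Equiv.Perm (Fin 8)), Nonempty (f.range ≃* (T : Subgroup (Equiv.Perm (Fin 8)))) := by
  let e : Equiv.Perm X ≃* Equiv.Perm (Fin 8) := (Finite.equivFinOfCardEq hX).permCongrHom
  refine ⟨Sylow.ofCard (f.range.map e.toMonoidHom) ?_, ⟨e.subgroupMap _⟩⟩
  rw [card_map_of_injective e.injective, hc, Nat.card_perm, Nat.card_eq_fintype_card,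
    Fintype.card_fin, show Nat.factorial 8 = 2 ^ 7 * 315 by decide,
    Nat.factorization_mul (by norm_num) (by norm_num), Finsupp.add_apply,
    Nat.Prime.factorization_pow Nat.prime_two, Nat.factorization_eq_zero_of_not_dvd (by norm_num)]
  simp

theorem model (T : Sylow 2 (Equiv.Perm (Fin 8))) :
    Nonempty (M ≃* (T : Subgroup (Equiv.Perm (Fin 8)))) := by
  have hi : Function.Injective (MulAction.toPermHom M (M ⧸ H)) := by
    rw [← MonoidHom.ker_eq_bot_iff, ← normalCore_eq_ker, eq_bot_iff]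
    exact fun m hm => core_H m hm
  obtain ⟨T', ⟨e⟩⟩ := exists_sylow (by
      have := H.index_mul_card
      rw [card_H, card_M] at this
      show H.index = 8
      omega) (MulAction.toPermHom M (M ⧸ H))
    (by rw [← Nat.card_congr (MonoidHom.ofInjective hi).toEquiv, card_M])
  exact ⟨((MonoidHom.ofInjective hi).trans e).trans (T'.equiv T)⟩

/-- Let S be a finite 2-group of sectional 2-rank at most 4 and P a proper subgroup isomorphic to the wreath product of the dihedral group of order 8 by a group of order 2 (equivalently, to a Sylow 2-subgroup of the symmetric group of degree 8; order 128). Then Z(S) = Z(P) has order 2, P has index 2 in its normalizer N_S(P), N_S(P)/Z(S) is again isomorphic to that wreath product, and every elementary abelian subgroup V of order 16 that is normal in P satisfies N_S(V) = P. -/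
theorem result {S : Type*} [Group S] [Finite S] (h2 : IsPGroup 2 S) (hr : Cfsg.SectionalPRankLE 2 4 S)
    (P : Subgroup S) (hPlt : P ≠ ⊤) (hP : ∃ T : Sylow 2 (Equiv.Perm (Fin 8)), Nonempty (↥P ≃* ↥(T : Subgroup (Equiv.Perm (Fin 8))))) :
    Subgroup.center S = (Subgroup.center ↥P).map P.subtype ∧ Nat.card ↥(Subgroup.center S) = 2 ∧
    P.relIndex (Subgroup.normalizer (P : Set S)) = 2 ∧
    (∃ (_ : ((Subgroup.center S).subgroupOf (Subgroup.normalizer (P : Set S))).Normal) (T : Sylow 2 (Equiv.Perm (Fin 8))),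
      Nonempty (↥(Subgroup.normalizer (P : Set S)) ⧸ (Subgroup.center S).subgroupOf (Subgroup.normalizer (P : Set S)) ≃*
        ↥(T : Subgroup (Equiv.Perm (Fin 8))))) ∧
    ∀ V : Subgroup S, V ≤ P → (∀ g ∈ P, ∀ v ∈ V, g * v * g⁻¹ ∈ V) → Cfsg.IsElementaryAbelian 2 V → Nat.card ↥V = 16 →
      Subgroup.normalizer (V : Set S) = P := by
  obtain ⟨T, ⟨eT⟩⟩ := hP
  obtain ⟨eM⟩ := model T
  let e : M ≃* P := eM.trans eT.symm
  let φ : M →* S := P.subtype.comp e.toMonoidHom
  have hφ : Function.Injective φ := P.subtype_injective.comp e.injective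
  have hR : φ.range = P := by
    rw [MonoidHom.range_comp, MonoidHom.range_eq_top.2 e.surjective, ← MonoidHom.range_eq_map,
      range_subtype]
  set N := normalizer (P : Set S) with hN
  let α : N →* MulAut M := (MulAut.congr e.symm).toMonoidHom.comp P.normalizerMonoidHom
  have hα : ∀ (x : N) m, φ (α x m) = x * φ m * (x : S)⁻¹ := fun x m => by
    simp [α, φ, MulAut.congr]
    rfl
  have hG : ∀ k, ∀ x : N, Pres (α x) → (x : S) ^ 2 ^ k ∈ P → (x : S) ∈ P := by
    intro k
    induction k with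
    | zero => intro x _ h; simpa using h
    | succ k ih =>
      intro x hx h
      obtain ⟨n, hn⟩ := hR.ge (ih (x * x) (pres_of_U fun m hm => by
        rw [map_mul]; exact (hx.1 _).2 ((hx.1 _).2 hm)) (by
        rwa [coe_mul, ← sq, ← pow_mul, ← pow_succ']))
      exact hR.le (key hr hφ (hα x) hn.symm hx)
  have hG' : ∀ x : N, Pres (α x) → (x : S) ∈ P := fun x hx => by
    obtain ⟨k, hk⟩ := h2 (x : S)
    exact hG k x hx (hk ▸ one_mem _)
  have hnil : ∀ R : Subgroup S, Group.IsNilpotent R := fun R => (h2.to_subgroup R).isNilpotent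
  have hV : ∀ A : Subgroup M, (∀ m ∈ A, ∀ g, g * m * g⁻¹ ∈ A) →
      (∀ β : MulAut M, (∀ m ∈ A, β m ∈ A) → Pres β) → normalizer (A.map φ : Set S) = P := by
    intro A h1 h3
    have hle : P ≤ normalizer (A.map φ : Set S) := by
      have : A.Normal := ⟨h1⟩
      rw [← hR, MonoidHom.range_eq_map, ← normalizer_eq_top A]
      exact le_normalizer_map φ
    by_contra hne
    obtain ⟨x, hx, hx'⟩ := SetLike.exists_of_lt
      (GT.CopAct.lt_inf_normalizer_of_isNilpotent (hnil _) (lt_of_le_of_ne hle (Ne.symm hne)))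
    refine hx' (hG' ⟨x, hx.2⟩ (h3 _ fun m hm => ?_))
    rw [← mem_map_iff_mem hφ, hα]
    exact (mem_normalizer_iff.1 hx.1 _).1 (mem_map_of_mem φ hm)
  have hU := hV U U_conj fun β => pres_of_U
  have hZP : center S ≤ P := hU ▸ center_le_normalizer _
  have hZ : ∀ g, g ∈ center S → g = 1 ∨ g = φ z := fun g hg => by
    obtain ⟨m, rfl⟩ := hR.ge (hZP hg)
    exact ((cen_iff m).1 fun a => hφ (by rw [map_mul, map_mul, mem_center_iff.1 hg])).imp
      (fun h => by rw [h, map_one]) fun h => by rw [h]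
  have hz1 : φ z ≠ 1 := fun h => (by decide : z ≠ 1) (hφ (h.trans (map_one φ).symm))
  have hzZ : φ z ∈ center S := by
    have : Nontrivial S := ⟨_, _, hz1⟩
    have := h2.center_nontrivial
    obtain ⟨g, hg⟩ := exists_ne (1 : center S)
    exact (hZ g g.2).resolve_left (fun h => hg (Subtype.ext h)) ▸ g.2
  have hcZ : Nat.card (center S) = 2 := (Nat.card_eq_two_iff' 1).2
    ⟨⟨_, hzZ⟩, fun h => hz1 (congrArg Subtype.val h), fun g hg =>
      Subtype.ext ((hZ g g.2).resolve_left fun h => hg (Subtype.ext h))⟩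
  have hidx : P.relIndex N = 2 := by
    obtain ⟨x, hx, hx'⟩ := SetLike.exists_of_lt
      (GT.CopAct.lt_inf_normalizer_of_isNilpotent (hnil ⊤) hPlt.lt_top)
    refine index_eq_two_iff'.2 ⟨⟨x, hx.2⟩, fun y => ?_⟩
    by_cases hy : (y : S) ∈ P
    · exact Or.inr ⟨hy, fun h => hx' ((mul_mem_cancel_right hy).1 h)⟩
    refine Or.inl ⟨mem_subgroupOf.2 (hG' _ (pres_of_U fun m hm => ?_)), hy⟩
    have s1 := (dich (α ⟨x, hx.2⟩)).resolve_left fun h => hx' (hG' _ h)
    have s2 := (dich (α y)).resolve_left fun h => hy (hG' _ h)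
    rw [map_mul]
    exact (s1.1 _).2 ((s2.2 _).2 hm)
  refine ⟨le_antisymm (fun g hg => ⟨⟨g, hZP hg⟩, mem_center_iff.2 fun a =>
    Subtype.ext (mem_center_iff.1 hg a), rfl⟩) ?_, hcZ, hidx, ?_, fun V hVP hn he hc => ?_⟩
  · rintro _ ⟨g, hg, rfl⟩
    obtain ⟨m, rfl⟩ := e.surjective g
    rcases (cen_iff m).1 fun a => e.injective (by
      rw [map_mul, map_mul, mem_center_iff.1 hg]) with rfl | rfl
    · rw [map_one, map_one]; exact one_mem _
    · exact hzZ
  · let ψ : N →* Equiv.Perm {m : M // m ∉ D ∧ m * m = 1} := MonoidHom.mk'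
      (fun x => Equiv.Perm.subtypePerm (α x).toEquiv fun m => ⟨fun h => ⟨fun h' => h.1 (aut_D _ h'),
        (α x).injective (by rw [map_mul, map_one]; exact h.2)⟩, fun h =>
        ⟨fun h' => h.1 (by simpa using aut_D (α x).symm h'), by
          show α x m * α x m = 1
          rw [← map_mul, h.2, map_one]⟩⟩) fun x y => Equiv.ext fun m => Subtype.ext (by
          show α (x * y) m = α x (α y m)
          rw [map_mul]; rfl)
    have hψ : ∀ x m, (ψ x m : M) = α x m := fun _ _ => rfl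
    have hk : (center S).subgroupOf N = ψ.ker := by
      ext x
      rw [mem_subgroupOf, MonoidHom.mem_ker]
      refine ⟨fun h => Equiv.ext fun m => Subtype.ext (hφ ?_), fun h => ?_⟩
      · rw [hψ, hα, ← mem_center_iff.1 h, mul_inv_cancel_right]; rfl
      have h1 : ∀ m, m ∉ D → m * m = 1 → α x m = m := fun m a b => by
        rw [← hψ x ⟨m, a, b⟩, h]; rfl
      have h3 : α x uu = uu := by
        rw [show uu = t * (t * uu) by decide, map_mul, h1 t (by decide) (by decide),
          h1 _ (by decide) (by decide)]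
      obtain ⟨m, hm⟩ := hR.ge (hG' x ((dich _).resolve_right fun s =>
        uu_W ((s.1 uu).1 (h3.symm ▸ uu_U))))
      rcases cen_X m fun y a b => hφ (by
        rw [map_mul, map_mul, hm, ← mul_inv_eq_iff_eq_mul, ← hα, h1 y a b]) with rfl | rfl
      · rw [← hm, map_one]; exact one_mem _
      · exact hm ▸ hzZ
    have hcN : Nat.card N = 256 := by
      have := (P.subgroupOf N).index_mul_card
      rw [Nat.card_congr (subgroupOfEquivOfLe le_normalizer).toEquiv, ← Nat.card_congr e.toEquiv,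
        card_M, show (P.subgroupOf N).index = 2 from hidx] at this
      exact this.symm
    obtain ⟨T', ⟨e'⟩⟩ := exists_sylow card_X ψ (by
      have := ψ.ker.index_mul_card
      rw [index_ker, ← hk, Nat.card_congr
        (subgroupOfEquivOfLe (hZP.trans le_normalizer)).toEquiv, hcZ, hcN] at this
      omega)
    exact ⟨inferInstance, T', ⟨(QuotientGroup.quotientMulEquivOfEq hk).trans
      ((QuotientGroup.quotientKerEquivRange ψ).trans e')⟩⟩
  · have hm : (V.comap φ).map φ = V := map_comap_eq_self (hR ▸ hVP)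
    rcases eq_or (V := V.comap φ) (fun g v hv => by
        rw [mem_comap, map_mul, map_mul, map_inv]; exact hn _ (hR.le ⟨g, rfl⟩) _ hv)
      ⟨⟨⟨fun a b => Subtype.ext (hφ (by
        simpa using congrArg Subtype.val (he.1.1.1 ⟨_, a.2⟩ ⟨_, b.2⟩)))⟩⟩,
        fun a ha => hφ (by rw [map_pow, he.2 _ ha, map_one])⟩
      (by rw [← card_map_of_injective hφ, hm, hc]) with h | h
    · rw [← hm, h]; exact hU
    · rw [← hm, h]; exact hV W W_conj fun β => pres_of_W

end Cfsg.Agent.S4402
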