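import Mathlib
import Cfsg.Statements.S4403
import Cfsg.Agent.GT.TransferAbelian
import Cfsg.Agent.GT.FStar
import Cfsg.Agent.GT.PGroupElemAb
import Cfsg.Agent.GT.Conj

set_option autoImplicit false
open Cfsg

namespace Cfsg.Agent.S4403

section pre
open Subgroup _root_.Cfsg.Agent.GT GT.PG GT.Tr

theorem hnc_or {K : Type*} [Group K] [Finite K] {p : ℕ} [Fact p.Prime] (P : Sylow p K)
    (hP : IsCyclic (P : Subgroup K)) {H : Subgroup K} (h : (P : Subgroup K) ≤ H) :
    HasNormalPComplement p H ∨ pResidual p H = ⊤ :=
  hasNormalPComplement_or_pResidual_eq_top (P.subtype h)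
    (isCyclic_of_surjective _ (subgroupOfEquivOfLe h).symm.surjective)

theorem centralizer_eq {K : Type*} [Group K] [Finite K] {p : ℕ} [hp : Fact p.Prime]
    (hO : pPrimeCore p K = ⊥) (P : Sylow p K) (hP : IsCyclic (P : Subgroup K)) (R : Subgroup K)
    [R.Normal] (hR : IsPGroup p R) (hR1 : R ≠ ⊥) : centralizer (R : Set K) = P := by
  have hRP : R ≤ P := (le_pCore hR).trans (pCore_le_sylow P)
  have hPC : (P : Subgroup K) ≤ centralizer (R : Set K) :=
    (le_centralizer (P : Subgroup K)).trans (centralizer_anti hRP)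
  rcases hnc_or P hP hPC with h | h
  · have h1 : (pResidual p (centralizer (R : Set K))).map (centralizer (R : Set K)).subtype ≤
        pPrimeCore p K := le_pPrimeCore_of_not_dvd hp.out (by
      rw [card_map_subtype]; exact h.not_dvd_card_pResidual)
    rw [hO, le_bot_iff, map_eq_bot_iff_of_injective _ (subtype_injective _),
      Tr.pResidual_eq_bot_iff] at h1
    exact P.is_maximal' h1 hPC
  · exfalso
    have h1 := inf_commutator_inf_centralizer_eq_bot (A := (P : Subgroup K))
      (L := centralizer (R : Set K)) inferInstance (coprime_card_sylow_relIndex P hPC)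
    refine hR1 (eq_bot_iff.2 (h1 ▸ le_inf (le_inf hRP fun x hx => ?_) (le_centralizer_iff.1 le_rfl)))
    have h2 := sylow_inf_pResidual_le_commutator (P.subtype hPC)
      (x := ⟨x, hPC (hRP hx)⟩) ⟨hRP hx, h ▸ mem_top _⟩
    have h3 := mem_map_of_mem (centralizer (R : Set K)).subtype h2
    rwa [_root_.commutator_def, map_commutator, ← MonoidHom.range_eq_map, range_subtype] at h3

end pre

/-- Let K be a finite group, p a prime dividing its order with O_{p'}(K) = 1 (no nontrivial normal subgroup of order prime to p), and P a cyclic Sylow p-subgroup of K. Then either P is normal and self-centralizing in K with K/P cyclic of order dividing p − 1 (so K is the semidirect product of P by a group of automorphisms of P of order dividing p − 1), or the generalized Fitting subgroup F*(K) is a non-abelian simple group and p does not divide the index of F*(K) in K. -/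
theorem result {K : Type*} [Group K] [Finite K] (p : ℕ) [Fact p.Prime] (hp : p ∣ Nat.card K) (hO : Cfsg.pPrimeCore p K = ⊥)
    (P : Sylow p K) (hP : IsCyclic ↥(P : Subgroup K)) :
    ((P : Subgroup K).Normal ∧ Subgroup.centralizer ((P : Subgroup K) : Set K) = (P : Subgroup K) ∧
      (∀ (_ : (P : Subgroup K).Normal), IsCyclic (K ⧸ (P : Subgroup K))) ∧ (P : Subgroup K).index ∣ p - 1) ∨
    (IsSimpleGroup ↥(Cfsg.generalizedFittingSubgroup K) ∧ ¬ IsMulCommutative ↥(Cfsg.generalizedFittingSubgroup K) ∧
      ¬ p ∣ (Cfsg.generalizedFittingSubgroup K).index) := by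
  have hp' : p.Prime := Fact.out
  by_cases h : pCore p K = ⊥
  · right
    have hF : fittingSubgroup K = ⊥ := by rw [GT.fitting_eq_pCore hp' hO, h]
    have : Nontrivial K := Finite.one_lt_card_iff_nontrivial.1
      (hp'.one_lt.trans_le (Nat.le_of_dvd Nat.card_pos hp))
    have hFs : generalizedFittingSubgroup K = layer K := by rw [GT.genFitting_eq, hF, sup_bot_eq]
    obtain ⟨L, hL⟩ := GT.layer_ne_bot_iff.1 (hFs ▸ GT.genFitting_ne_bot (G := K))
    have hd : ∀ M : Subgroup K, IsComponent M → p ∣ Nat.card M := by
      intro M hM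
      by_contra hc
      exact hM.ne_bot (eq_bot_iff.2 (hO ▸ GT.le_pPrimeCore_of_isSubnormal hM.isSubnormal
        (hp'.coprime_iff_not_dvd.2 hc).symm))
    have hu : ∀ M : Subgroup K, IsComponent M → M = L := by
      intro M hM
      by_contra hne
      obtain ⟨x, hx, hxo⟩ := GT.exists_mem_orderOf_eq_prime hp' (hd M hM)
      obtain ⟨y, hy, hyo⟩ := GT.exists_mem_orderOf_eq_prime hp' (hd L hL)
      have hE : IsElementaryAbelian p (Subgroup.zpowers x ⊔ Subgroup.zpowers y) :=
        (IsElementaryAbelian.zpowers (hxo ▸ pow_orderOf_eq_one x)).sup_zpowers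
          (hyo ▸ pow_orderOf_eq_one y) fun w hw =>
            hM.commute_of_ne hL hne (Subgroup.zpowers_le.2 hx hw) hy
      obtain ⟨Q, hQ⟩ := hE.isPGroup.exists_le_sylow
      have hQc : IsCyclic (Q : Subgroup K) := isCyclic_of_surjective _ (P.equiv Q).surjective
      have h1 : M ⊓ L ≤ ⊥ := hF ▸ (le_inf inf_le_left
        (inf_le_right.trans (hL.le_centralizer_of_ne hM (Ne.symm hne)))).trans
          hM.inf_centralizer_le_fitting
      rcases GT.Tr.eq_bot_or_eq_bot_of_isCyclic Q.2 hQc (le_sup_left.trans hQ)
        (le_sup_right.trans hQ) (eq_bot_iff.2 ((inf_le_inf (Subgroup.zpowers_le.2 hx)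
          (Subgroup.zpowers_le.2 hy)).trans h1)) with e | e
      · rw [Subgroup.zpowers_eq_bot.1 e, orderOf_one] at hxo; exact hp'.one_lt.ne hxo
      · rw [Subgroup.zpowers_eq_bot.1 e, orderOf_one] at hyo; exact hp'.one_lt.ne hyo
    have hLe : generalizedFittingSubgroup K = L :=
      hFs.trans (le_antisymm (GT.layer_le fun M hM => (hu M hM).le) hL.le_layer)
    have hLn : L.Normal := hLe ▸ inferInstance
    rw [hLe]
    have hs : IsSimpleGroup L := hL.isQuasisimple.isSimpleGroup (by
      rw [← Subgroup.map_eq_bot_iff_of_injective _ L.subtype_injective, GT.map_center_subtype,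
        eq_bot_iff, ← hF]
      exact hL.inf_centralizer_le_fitting)
    have hna : ¬ IsMulCommutative L := fun hc =>
      hL.not_le_centralizer (GT.PG.isMulCommutative_iff_le_centralizer.1 hc)
    refine ⟨hs, hna, ?_⟩
    suffices hPL : (P : Subgroup K) ≤ L from fun hc =>
      P.not_dvd_index (hc.trans (Subgroup.index_dvd_of_le hPL))
    rcases hnc_or P hP (le_sup_left : (P : Subgroup K) ≤ (P : Subgroup K) ⊔ L) with h1 | h1
    · have h2 := (h1.of_le le_sup_right).card_eq_of_isSimpleGroup (hd L hL)
      have := isCyclic_of_prime_card h2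
      exact absurd IsCyclic.isMulCommutative hna
    · obtain ⟨k, hk⟩ := GT.PG.relIndex_eq_pow_of_isPGroup P.2 L
      rw [← Subgroup.relIndex_sup_right] at hk
      have h2 := GT.Tr.pResidual_le_of_index hk
      rw [h1, top_le_iff, Subgroup.subgroupOf_eq_top] at h2
      exact le_sup_left.trans h2
  · left
    have hc : IsCyclic (pCore p K) := Subgroup.isCyclic_of_le (GT.pCore_le_sylow P)
    have hR := GT.PG.card_omegaOne_eq_of_isCyclic (GT.isPGroup_pCore p) h
    set R := omegaOne p (pCore p K)
    have hRp : IsPGroup p R := IsPGroup.of_card (hR.trans (pow_one p).symm)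
    have hC := centralizer_eq hO P hP R hRp fun e => by
      rw [e, Subgroup.card_bot] at hR; exact hp'.one_lt.ne hR
    have hn : (P : Subgroup K).Normal := hC ▸ inferInstance
    have hker : (MulAut.conjNormal : K →* MulAut R).ker = P := by
      rw [← hC]
      ext g
      rw [MonoidHom.mem_ker, MulEquiv.ext_iff, Subgroup.mem_centralizer_iff]
      constructor
      · intro hg x hx
        exact (mul_inv_eq_iff_eq_mul.1 (congrArg Subtype.val (hg ⟨x, hx⟩))).symm
      · intro hg x
        exact Subtype.ext (mul_inv_eq_iff_eq_mul.2 (hg x x.2).symm)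
    have hRc : IsCyclic R := isCyclic_of_prime_card hR
    have hA : IsCyclic (MulAut R) := by
      have e := IsCyclic.mulAutMulEquiv R
      rw [hR] at e
      exact isCyclic_of_surjective _ e.symm.surjective
    refine ⟨hn, centralizer_eq hO P hP P P.2 (P.ne_bot_of_dvd_card hp), fun _ => ?_, ?_⟩
    · exact isCyclic_of_injective (QuotientGroup.lift _ MulAut.conjNormal hker.ge)
        ((QuotientGroup.injective_lift_iff _ _ _).2 hker.symm)
    · have e := IsCyclic.card_mulAut R
      rw [hR, Nat.totient_prime hp'] at e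
      rw [← hker, Subgroup.index_ker, ← e]
      exact Subgroup.card_subgroup_dvd_card _

end Cfsg.Agent.S4403
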