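import Mathlib
import Cfsg.Statements.S4404
import Cfsg.Agent.GT.PGroupRank
import Cfsg.Agent.GT.Hall
import Cfsg.Agent.GT.Conj
import Cfsg.Agent.GT.CoprimeActThms
import Cfsg.Agent.FG.H93Elt
import Cfsg.Agent.FT.BG4_18
import Cfsg.Agent.FT.BG4_7
-- import your own Cfsg.Agent.* helpers here

set_option autoImplicit false
open Cfsg

namespace Cfsg.Agent.S4404

open Subgroup Cfsg.Agent.GT
open scoped commutatorElement Pointwise

section
variable {V : Type*} [CommGroup V]

def W (g : MulAut V) : Subgroup V := (MonoidHom.id V * g.toMonoidHom).range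

theorem mem_W {g : MulAut V} {w : V} : w ∈ W g ↔ ∃ v, v * g v = w := Iff.rfl

theorem mul_mem_W (g : MulAut V) (v : V) : v * g v ∈ W g := ⟨v, rfl⟩

theorem W_conj (g h : MulAut V) : W (h * g * h⁻¹) = (W g).map h.toMonoidHom := by
  ext w
  constructor
  · rintro ⟨v, rfl⟩
    exact ⟨_, mul_mem_W g (h⁻¹ v), by simp [MulAut.mul_apply]⟩
  · rintro ⟨_, ⟨v, rfl⟩, rfl⟩
    exact ⟨h v, by simp [MulAut.mul_apply]⟩

theorem card_W_conj (g h : MulAut V) : Nat.card (W (h * g * h⁻¹)) = Nat.card (W g) := by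
  rw [W_conj, card_map_of_injective h.injective]

theorem W_inv_of_comm {g h : MulAut V} (hc : h * g = g * h) {w : V} (hw : w ∈ W g) : h w ∈ W g := by
  have := W_conj g h
  rw [hc, mul_inv_cancel_right] at this
  rw [this]
  exact ⟨w, hw, rfl⟩

def St (hV : ∀ v : V, v * v = 1) (U : Subgroup V) : Subgroup (MulAut V) where
  carrier := {g : MulAut V | ∀ v, v * g v ∈ U}
  one_mem' := fun v => by rw [MulAut.one_apply, hV]; exact U.one_mem
  mul_mem' := fun {g h} hg hh v => by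
    have := U.mul_mem (hh v) (hg (h v))
    rwa [mul_assoc, ← mul_assoc (h v), hV, one_mul] at this
  inv_mem' := fun {g} hg v => by
    have := hg (g⁻¹ v)
    rwa [MulAut.apply_inv_self, mul_comm] at this

theorem mem_St {hV : ∀ v : V, v * v = 1} {U : Subgroup V} {g : MulAut V} :
    g ∈ St hV U ↔ W g ≤ U :=
  ⟨fun h _ ⟨v, hv⟩ => hv ▸ h v, fun h v => h (mul_mem_W g v)⟩

theorem St_inv {hV : ∀ v : V, v * v = 1} {U : Subgroup V} {g : MulAut V} (h : g ∈ St hV U) {u : V}
    (hu : u ∈ U) : g u ∈ U := by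
  have := U.mul_mem hu (h u)
  rwa [← mul_assoc, hV, one_mul] at this

theorem fix_W (hV : ∀ v : V, v * v = 1) {g : MulAut V} (hg : Odd (orderOf g)) {w : V}
    (hw : w ∈ W g) (h : g w = w) : w = 1 := by
  obtain ⟨v, rfl⟩ := mem_W.1 hw
  have h1 : (g * g) v = v := by
    rw [map_mul, mul_comm v] at h
    exact mul_left_cancel h
  have h2 : ∀ n : ℕ, ((g * g) ^ n) v = v := by
    intro n
    induction n with
    | zero => rfl
    | succ n ih => rw [pow_succ, MulAut.mul_apply, h1, ih]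
  obtain ⟨k, hk⟩ := hg
  have h3 : g = (g * g) ^ (k + 1) := by
    rw [← sq, ← pow_mul, show 2 * (k + 1) = orderOf g + 1 by omega, pow_succ, pow_orderOf_eq_one,
      one_mul]
  rw [h3, h2, hV]

theorem eq_one_of_fix (hV : ∀ v : V, v * v = 1) {g : MulAut V} (hg : Odd (orderOf g))
    {U : Subgroup V} (hW : W g ≤ U) (h : ∀ u ∈ U, g u = u) : g = 1 := by
  ext v
  have := fix_W hV hg (mul_mem_W g v) (h _ (hW (mul_mem_W g v)))
  rw [MulAut.one_apply]
  exact mul_left_cancel (this.trans (hV v).symm)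

theorem ar4 {n : ℕ} (h : n ∣ 4) : n = 1 ∨ n = 2 ∨ n = 4 := by
  have := Nat.le_of_dvd (by norm_num) h
  interval_cases n <;> simp_all

variable [Finite V]

theorem sub_W (hV : ∀ v : V, v * v = 1) {g : MulAut V} (hg : Odd (orderOf g))
    (h4 : Nat.card (W g) = 4) {U : Subgroup V} (hU : U ≤ W g) (hi : ∀ u ∈ U, g u ∈ U) :
    U = ⊥ ∨ U = W g := by
  rcases ar4 (h4 ▸ card_dvd_of_le hU) with h | h | h
  · exact Or.inl (card_eq_one.1 h)
  · exfalso
    obtain ⟨u, hu1, hu⟩ := (Nat.card_eq_two_iff' (1 : U)).1 h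
    apply hu1
    apply Subtype.ext
    apply fix_W hV hg (hU u.2)
    have := hu ⟨g u, hi _ u.2⟩ (fun h => hu1 (Subtype.ext (by
      have : g u = 1 := congrArg Subtype.val h
      exact (map_eq_one_iff g g.injective).1 this)))
    exact congrArg Subtype.val this
  · exact Or.inr (eq_of_le_of_card_ge hU (by rw [h, h4]))

theorem card_pow (hV : ∀ v : V, v * v = 1) (U : Subgroup V) : ∃ n, Nat.card U = 2 ^ n := by
  have : IsPGroup 2 U := fun u => ⟨1, Subtype.ext (by simpa [sq] using hV u)⟩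
  exact this.exists_card_eq

theorem card_aut (hV : ∀ v : V, v * v = 1) (U : Subgroup V) :
    (Nat.card U ≤ 16 → Nat.card (MulAut U) ∣ 20160) ∧ (Nat.card U ≤ 8 → Nat.card (MulAut U) ∣ 168) ∧
      (Nat.card U ≤ 4 → Nat.card (MulAut U) ∣ 6) := by
  obtain ⟨n, hn⟩ := card_pow hV U
  rw [PG.card_mulAut_of_elementary (p := 2) inferInstance
    (fun u => Subtype.ext (by simpa [sq] using hV u)) hn, hn]
  by_cases h : n ≤ 4
  · interval_cases n <;> decide +kernel
  · have : 2 ^ 5 ≤ 2 ^ n := Nat.pow_le_pow_right (by norm_num) (by omega)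
    refine ⟨fun h => ?_, fun h => ?_, fun h => ?_⟩ <;> omega

theorem fix_of_coprime {g : MulAut V} {U : Subgroup V} (hi : ∀ u ∈ U, g u ∈ U)
    (hc : (orderOf g).Coprime (Nat.card (MulAut U))) {u : V} (hu : u ∈ U) : g u = u := by
  have : Finite (MulAut V) := Finite.of_injective (fun f : MulAut V => (f : V → V))
    DFunLike.coe_injective
  have h := CopAct.actInv_zpowers.2 hi
  have h1 : (⊤ : Subgroup (zpowers g)) ≤ (CopAct.subHom _ U h).ker :=
    le_ker_of_coprime _ (by rwa [card_top, Nat.card_zpowers])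
  have h2 : CopAct.subHom _ U h ⟨g, mem_zpowers g⟩ = 1 := h1 (mem_top _)
  exact congrArg Subtype.val (congrArg (fun f : MulAut U => f ⟨u, hu⟩) h2)

theorem card_dvd_315 (hV : ∀ v : V, v * v = 1) {G : Subgroup (MulAut V)} (hG : Odd (Nat.card G))
    {U : Subgroup V} (hGU : G ≤ St hV U) (hU : Nat.card U ≤ 16) : Nat.card G ∣ 315 := by
  have hi : CopAct.ActInv G.subtype U := fun a u hu => St_inv (hGU a.2) hu
  have hinj : Function.Injective (CopAct.subHom _ U hi) := by
    rw [injective_iff_map_eq_one]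
    intro a ha
    apply Subtype.ext
    refine eq_one_of_fix hV (hG.of_dvd_nat ?_) (mem_St.1 (hGU a.2)) fun u hu => ?_
    · rw [orderOf_coe]; exact orderOf_dvd_natCard a
    · exact congrArg Subtype.val (congrArg (fun f : MulAut U => f ⟨u, hu⟩) ha)
  have h1 := (card_dvd_of_injective _ hinj).trans ((card_aut hV U).1 hU)
  exact (hG.coprime_two_right.pow_right 6).dvd_of_dvd_mul_left h1

omit [Finite V] in
theorem card_sup_le (A B : Subgroup V) :
    Nat.card (A ⊔ B : Subgroup V) * Nat.card (A ⊓ B : Subgroup V) = Nat.card A * Nat.card B :=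
  card_sup_mul_card_inf A B

omit [Finite V] in
theorem odd3 {g : MulAut V} (h : g ^ 3 = 1) : Odd (orderOf g) :=
  (by decide : Odd 3).of_dvd_nat (orderOf_dvd_of_pow_eq_one h)

theorem P3 (hV : ∀ v : V, v * v = 1) {R : Subgroup (MulAut V)} (hR : IsPGroup 3 R) {x g : MulAut V}
    (hx : x ∈ R) (hg : g ∈ R) (h3 : x ^ 3 = 1) (h4 : Nat.card (W x) = 4) :
    (∀ w ∈ W x, g w ∈ W x) ∨ ∀ w ∈ W x, (g * x * g⁻¹) w = w := by
  have : Fact (Nat.Prime 3) := ⟨Nat.prime_three⟩
  have : Finite (MulAut V) := Finite.of_injective (fun f : MulAut V => (f : V → V))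
    DFunLike.coe_injective
  set y := g * x * g⁻¹ with hy
  have hyR : y ∈ R := R.mul_mem (R.mul_mem hg hx) (R.inv_mem hg)
  have h4' : Nat.card (W y) = 4 := by rw [hy, card_W_conj, h4]
  have hle : closure {x, y} ≤ R := by
    rw [Subgroup.closure_le]; rintro _ (rfl | rfl) <;> assumption
  obtain ⟨n, hn⟩ := (hR.to_le hle).exists_card_eq
  have hd := card_dvd_315 hV (G := closure {x, y}) (U := W x ⊔ W y)
    (by rw [hn]; exact (by decide : Odd 3).pow) (by
      rw [Subgroup.closure_le]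
      rintro _ (rfl | rfl)
      · exact mem_St.2 le_sup_left
      · exact mem_St.2 le_sup_right) (by
      have := card_sup_le (W x) (W y)
      rw [h4, h4'] at this
      have h0 : 0 < Nat.card (W x ⊓ W y : Subgroup V) := Nat.card_pos
      nlinarith)
  have hn2 : n ≤ 2 := by
    by_contra h
    have : 3 ^ 3 ∣ 315 := (pow_dvd_pow 3 (by omega)).trans (hn ▸ hd)
    omega
  have hc : x * y = y * x := by
    have hcm : IsMulCommutative (closure ({x, y} : Set (MulAut V))) := by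
      interval_cases n
      · exact (isCyclic_of_card_dvd_prime (p := 3) (by rw [hn]; norm_num)).isMulCommutative
      · exact (isCyclic_of_card_dvd_prime (p := 3) (by rw [hn]; norm_num)).isMulCommutative
      · exact IsPGroup.isMulCommutative_of_card_eq_prime_sq hn
    exact congrArg Subtype.val (hcm.is_comm.comm ⟨x, Subgroup.subset_closure (by simp)⟩
      ⟨y, Subgroup.subset_closure (by simp)⟩)
  rcases sub_W hV (odd3 h3) h4 (U := W x ⊓ W y) inf_le_left
    (fun u hu => ⟨W_inv_of_comm rfl hu.1, W_inv_of_comm hc hu.2⟩) with h | h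
  · right
    intro w hw
    have h1 : w * y w ∈ W x ⊓ W y := ⟨mul_mem hw (W_inv_of_comm hc.symm hw), mul_mem_W y w⟩
    rw [h, mem_bot] at h1
    exact mul_left_cancel (h1.trans (hV w).symm)
  · left
    have h1 : W x = W y := eq_of_le_of_card_ge (inf_eq_left.1 h) (by rw [h4, h4'])
    intro w hw
    rw [h1, hy, W_conj]
    exact ⟨w, hw, rfl⟩

theorem part1 (hV : ∀ v : V, v * v = 1) {R : Subgroup (MulAut V)} (hR : IsPGroup 3 R)
    {x a : MulAut V} (hx : x ∈ R) (ha : a ∈ R) (h3 : x ^ 3 = 1) (h4 : Nat.card (W x) = 4)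
    (ha3 : a ^ 3 = 1) (hc : a * (x⁻¹ * a * x * a⁻¹) = (x⁻¹ * a * x * a⁻¹) * a) :
    ∀ w ∈ W x, a w ∈ W x := by
  rcases P3 hV hR hx ha h3 h4 with h | h
  · exact h
  rcases P3 hV hR hx (R.mul_mem ha ha) h3 h4 with h' | h'
  · intro w hw
    have : a = (a * a) * (a * a) := by
      calc a = a ^ 3 * a := by rw [ha3, one_mul]
        _ = _ := by rw [pow_three']; group
    rw [this, MulAut.mul_apply]
    exact h' _ (h' _ hw)
  exfalso
  set c := x⁻¹ * a * x * a⁻¹ with hcd
  have e1 : a * x * a⁻¹ = x * c := by rw [hcd]; group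
  have e2 : a * a * x * (a * a)⁻¹ = x * c * c := by
    calc a * a * x * (a * a)⁻¹ = a * (a * x * a⁻¹) * a⁻¹ := by group
      _ = a * (x * c) * a⁻¹ := by rw [e1]
      _ = (a * x * a⁻¹) * (a * c) * a⁻¹ := by group
      _ = x * c * c := by rw [hc, e1]; group
  rw [e1] at h
  rw [e2] at h'
  have : W x = ⊥ := by
    rw [eq_bot_iff]
    intro w hw
    have h1 : c w = w := by
      apply (x * c).injective
      rw [← MulAut.mul_apply, h' w hw, h w hw]
    have h2 := h w hw
    rw [MulAut.mul_apply, h1] at h2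
    exact fix_W hV (odd3 h3) hw h2
  rw [this, card_bot] at h4
  omega

theorem card_W7 (hV : ∀ v : V, v * v = 1) {d : MulAut V} (h7 : d ^ 7 = 1)
    (h16 : Nat.card (W d) ≤ 16) : Nat.card (W d) ≤ 8 := by
  have : Fact (Nat.Prime 7) := ⟨by norm_num⟩
  have : Finite (MulAut V) := Finite.of_injective (fun f : MulAut V => (f : V → V))
    DFunLike.coe_injective
  have hodd : Odd (orderOf d) := (by decide : Odd 7).of_dvd_nat (orderOf_dvd_of_pow_eq_one h7)
  have h := CopAct.actInv_zpowers.2 (fun u (hu : u ∈ W d) => W_inv_of_comm (h := d) rfl hu)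
  let inst : MulAction (zpowers d) (W d) := MulAction.compHom _ (CopAct.subHom _ (W d) h)
  have hp : IsPGroup 7 (zpowers d) := by
    apply IsPGroup.of_card_dvd_pow (n := 1)
    rw [Nat.card_zpowers, pow_one]; exact orderOf_dvd_of_pow_eq_one h7
  have h1 := hp.card_modEq_card_fixedPoints (W d)
  have h2 : Nat.card (MulAction.fixedPoints (zpowers d) (W d)) = 1 := by
    rw [Nat.card_eq_one_iff_exists]
    refine ⟨⟨1, fun g => map_one (CopAct.subHom _ (W d) h g)⟩, fun w => ?_⟩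
    apply Subtype.ext
    apply Subtype.ext
    exact fix_W hV hodd w.1.2 (congrArg Subtype.val (w.2 ⟨d, mem_zpowers d⟩))
  rw [h2] at h1
  obtain ⟨n, hn⟩ := card_pow hV (W d)
  rw [hn] at h16 h1 ⊢
  have h4 : n ≤ 4 := by
    by_contra h
    have : 2 ^ 5 ≤ 2 ^ n := Nat.pow_le_pow_right (by norm_num) (by omega)
    omega
  interval_cases n <;> first | omega | (revert h1; decide)

theorem ar35 {n : ℕ} (h : n ∣ 315) (h3 : n.Coprime 3) : n ∣ 35 :=
  (h3.pow_right 2).dvd_of_dvd_mul_left h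

theorem ar7 {n : ℕ} (h : n ∣ 35) (h5 : ¬ 5 ∣ n) : n ∣ 7 :=
  (((by norm_num : Nat.Prime 5).coprime_iff_not_dvd.2 h5).symm).dvd_of_dvd_mul_left h

theorem sylow5 {K : Type*} [Group K] [Finite K] (h : Nat.card K ∣ 35) (h5 : 5 ∣ Nat.card K) :
    ∃ P : Subgroup K, P.Characteristic ∧ Nat.card P = 5 := by
  have : Fact (Nat.Prime 5) := ⟨by norm_num⟩
  obtain ⟨P⟩ := (inferInstance : Nonempty (Sylow 5 K))
  obtain ⟨n, hn⟩ := P.isPGroup'.exists_card_eq
  have h1 := P.dvd_card_of_dvd_card h5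
  have h2 := (card_subgroup_dvd_card (P : Subgroup K)).trans h
  have hP : Nat.card P = 5 := by
    rw [hn] at h1 h2 ⊢
    rcases n with _ | _ | n
    · omega
    · rfl
    · have : 5 ^ 2 ∣ 35 := (pow_dvd_pow 5 (by omega)).trans h2
      omega
  have h3 : (P : Subgroup K).index ∣ 7 := by
    rw [← (P : Subgroup K).card_mul_index, hP] at h
    exact Nat.dvd_of_mul_dvd_mul_left (by norm_num) (h : 5 * _ ∣ 5 * 7)
  have h4 := P.card_dvd_index.trans h3
  have h6 := card_sylow_modEq_one 5 K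
  have h7 : Nat.card (Sylow 5 K) = 1 := by
    rcases (Nat.dvd_prime (by norm_num)).1 h4 with h | h
    · exact h
    · rw [h] at h6; exact absurd h6 (by decide)
  have : Subsingleton (Sylow 5 K) := (Nat.card_eq_one_iff_unique.1 h7).1
  exact ⟨P, P.characteristic_of_subsingleton, hP⟩

theorem P7 (hV : ∀ v : V, v * v = 1) {L : Subgroup (MulAut V)} (hL : Odd (Nat.card L))
    (hL3 : (Nat.card L).Coprime 3) {x : MulAut V} (hx : x ∈ normalizer (L : Set (MulAut V)))
    (h3 : x ^ 3 = 1) (h4 : Nat.card (W x) = 4) {e1 e2 : MulAut V} (he1 : e1 ∈ L) (he2 : e2 ∈ L)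
    (h16 : Nat.card (W x ⊔ W (e1 * x * e1⁻¹) ⊔ W (e2 * x * e2⁻¹) : Subgroup V) ≤ 16) :
    Nat.card (W x ⊔ W (e1 * x * e1⁻¹) ⊔ W (e2 * x * e2⁻¹) : Subgroup V) ≤ 8 := by
  have : Fact (Nat.Prime 7) := ⟨by norm_num⟩
  have : Fact (Nat.Prime 5) := ⟨by norm_num⟩
  have : Finite (MulAut V) := Finite.of_injective (fun f : MulAut V => (f : V → V))
    DFunLike.coe_injective
  set U := W x ⊔ W (e1 * x * e1⁻¹) ⊔ W (e2 * x * e2⁻¹) with hU
  let D : Set (MulAut V) := {x, e1 * x * e1⁻¹, e2 * x * e2⁻¹}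
  have hD : ∀ y ∈ D, y ^ 3 = 1 ∧ Nat.card (W y) = 4 ∧ y * x⁻¹ ∈ L ∧ W y ≤ U := by
    have k : ∀ e ∈ L, (e * x * e⁻¹) ^ 3 = 1 ∧ Nat.card (W (e * x * e⁻¹)) = 4 ∧
        e * x * e⁻¹ * x⁻¹ ∈ L := by
      intro e he
      refine ⟨by rw [conj_pow, h3]; group, by rw [card_W_conj, h4], ?_⟩
      have := L.mul_mem he ((mem_normalizer_iff.1 hx _).1 (L.inv_mem he))
      simpa [mul_assoc] using this
    rintro _ (rfl | rfl | rfl)
    · exact ⟨h3, h4, by simp, le_sup_left.trans le_sup_left⟩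
    · exact ⟨(k _ he1).1, (k _ he1).2.1, (k _ he1).2.2, le_sup_right.trans le_sup_left⟩
    · exact ⟨(k _ he2).1, (k _ he2).2.1, (k _ he2).2.2, le_sup_right⟩
  have hUle : ∀ U' : Subgroup V, (∀ y ∈ D, W y ≤ U') → U ≤ U' := fun U' h =>
    sup_le (sup_le (h _ (by simp [D])) (h _ (by simp [D]))) (h _ (by simp [D]))
  set G := closure D with hG
  have hxz : zpowers x ≤ normalizer (L : Set (MulAut V)) := zpowers_le.2 hx
  have hGle : G ≤ L ⊔ zpowers x := by
    rw [hG, Subgroup.closure_le]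
    intro y hy
    have := mul_mem (mem_sup_left (T := zpowers x) (hD y hy).2.2.1) (mem_sup_right (mem_zpowers x))
    simpa using this
  have hGN : G ≤ normalizer (L : Set (MulAut V)) := hGle.trans (sup_le le_normalizer hxz)
  have hGodd : Odd (Nat.card G) := by
    refine Odd.of_dvd_nat (hL.mul (odd3 h3)) ((card_dvd_of_le hGle).trans ?_)
    rw [← Nat.card_zpowers]; exact HT.card_sup_dvd hxz
  have hGU : G ≤ St hV U := by
    rw [hG, Subgroup.closure_le]
    exact fun y hy => mem_St.2 (hD y hy).2.2.2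
  have hodd : ∀ g ∈ G, Odd (orderOf g) := fun g hg =>
    hGodd.of_dvd_nat (G.orderOf_dvd_natCard hg)
  set L0 := L ⊓ G with hL0
  have hGL0 : G ≤ normalizer (L0 : Set (MulAut V)) := CopAct.le_normalizer_inf hGN le_normalizer
  have h35 : Nat.card L0 ∣ 35 := ar35 ((card_dvd_of_le inf_le_right).trans
    (card_dvd_315 hV hGodd hGU h16)) (hL3.coprime_dvd_left (card_dvd_of_le inf_le_left))
  have h5 : ¬ 5 ∣ Nat.card L0 := by
    intro h5
    obtain ⟨P, hPc, hP⟩ := sylow5 h35 h5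
    have hN := hGL0.trans (HT.normalizer_le_normalizer_map_of_characteristic L0 P)
    have hPc : Nat.card (P.map L0.subtype) = 5 := by rw [card_map_subtype, hP]
    have hPle : P.map L0.subtype ≤ G := (map_subtype_le _).trans inf_le_right
    generalize P.map L0.subtype = P' at hN hPc hPle
    have hcyc : IsCyclic P' := isCyclic_of_prime_card hPc
    obtain ⟨c, hc, hco⟩ := exists_mem_orderOf_eq_prime (H := P') (p := 5) (by norm_num)
      (by rw [hPc])
    have hfix : U ≤ CopAct.actFixed (zpowers c).subtype := by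
      apply hUle
      intro y hy u hu
      rw [CopAct.mem_actFixed_zpowers]
      have hyc := FG.H93.mem_centralizer_of_coprime_aut (hN (Subgroup.subset_closure hy)) (by
        rw [IsCyclic.card_mulAut, hPc]
        exact Nat.Coprime.coprime_dvd_left (orderOf_dvd_of_pow_eq_one (hD y hy).1) (by decide))
      refine fix_of_coprime (fun u hu => W_inv_of_comm (hyc c hc) hu) ?_ hu
      rw [hco]
      exact Nat.Coprime.coprime_dvd_right ((card_aut hV _).2.2 (hD y hy).2.1.le) (by decide)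
    have := eq_one_of_fix hV (hodd c (hPle hc)) (mem_St.1 (hGU (hPle hc)))
      fun u hu => CopAct.mem_actFixed_zpowers.1 (hfix hu)
    rw [this, orderOf_one] at hco
    omega
  have h7 := ar7 h35 h5
  have hcyc : IsCyclic L0 := isCyclic_of_card_dvd_prime h7
  obtain ⟨d, hd⟩ := (Subgroup.isCyclic_iff_exists_zpowers_eq_top _).1 hcyc
  have hdL : d ∈ L0 := hd ▸ mem_zpowers d
  have hpow : ∀ l ∈ L0, l ^ 7 = 1 := fun l hl =>
    orderOf_dvd_iff_pow_eq_one.1 ((L0.orderOf_dvd_natCard hl).trans h7)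
  have hL0W : L0 ≤ St hV (W d) := by rw [← hd, zpowers_le]; exact mem_St.2 le_rfl
  have hWinv : ∀ g ∈ G, ∀ u ∈ W d, g u ∈ W d := by
    intro g hg u hu
    have h1 : W (g * d * g⁻¹) ≤ W d := mem_St.1 (hL0W ((mem_normalizer_iff.1 (hGL0 hg) d).1 hdL))
    rw [W_conj] at h1
    exact h1 ⟨u, hu, rfl⟩
  have hWU : W d ≤ U := mem_St.1 (hGU hdL.2)
  by_cases hcase : ∃ y ∈ D, ∀ u ∈ W d, y u = u
  · obtain ⟨y, hy, hyf⟩ := hcase
    have hyG : y ∈ G := Subgroup.subset_closure hy
    have hm : y * d * y⁻¹ * d⁻¹ ∈ L0 :=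
      L0.mul_mem ((mem_normalizer_iff.1 (hGL0 hyG) d).1 hdL) (L0.inv_mem hdL)
    have h1 := eq_one_of_fix hV (hodd _ hm.2) (mem_St.1 (hL0W hm)) (by
      intro u hu
      have h1 := hWinv _ (G.inv_mem hdL.2) u hu
      have h2 : y⁻¹ (d⁻¹ u) = d⁻¹ u := by
        nth_rewrite 1 [← hyf _ h1]
        simp
      simp only [MulAut.mul_apply]
      rw [h2, MulAut.apply_inv_self, hyf u hu])
    have hc : Commute y d := by
      rw [mul_inv_eq_one, mul_inv_eq_iff_eq_mul] at h1
      exact h1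
    refine (card_le_of_le (hUle (W y) fun y' hy' => ?_)).trans (by rw [(hD y hy).2.1]; norm_num)
    have hl : y' * y⁻¹ ∈ L0 := by
      refine ⟨?_, G.mul_mem (Subgroup.subset_closure hy') (G.inv_mem hyG)⟩
      have := L.mul_mem (hD y' hy').2.2.1 (L.inv_mem (hD y hy).2.2.1)
      simpa [mul_assoc] using this
    have hl7 := hpow _ hl
    rw [← hd] at hl
    obtain ⟨k, hk⟩ := mem_zpowers_iff.1 hl
    have hc' : Commute (y' * y⁻¹) y := hk ▸ (hc.zpow_right k).symm
    have hl3 : (y' * y⁻¹) ^ 3 = 1 := by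
      have := hc'.mul_pow 3
      rwa [inv_mul_cancel_right, (hD y' hy').1, (hD y hy).1, mul_one, eq_comm] at this
    have : y' * y⁻¹ = 1 := by
      rw [show 7 = 3 * 2 + 1 from rfl, pow_succ, pow_mul, hl3, one_pow, one_mul] at hl7
      exact hl7
    rw [mul_inv_eq_one.1 this]
  · push Not at hcase
    refine (card_le_of_le (hUle (W d) fun y hy => ?_)).trans
      (card_W7 hV (hpow d hdL) ((card_le_of_le hWU).trans h16))
    have hyG : y ∈ G := Subgroup.subset_closure hy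
    obtain ⟨u, hu, hyu⟩ := hcase y hy
    rcases sub_W hV (odd3 (hD y hy).1) (hD y hy).2.1 (U := W y ⊓ W d) inf_le_left
      (fun u hu => ⟨W_inv_of_comm rfl hu.1, hWinv y hyG u hu.2⟩) with h | h
    · have h1 : u * y u ∈ W y ⊓ W d := ⟨mul_mem_W y u, mul_mem hu (hWinv y hyG u hu)⟩
      rw [h, mem_bot] at h1
      exact absurd (mul_left_cancel (h1.trans (hV u).symm)) hyu
    · exact inf_eq_left.1 h

theorem part2 (hV : ∀ v : V, v * v = 1) {L : Subgroup (MulAut V)} (hL : Odd (Nat.card L))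
    (hL3 : (Nat.card L).Coprime 3) {x : MulAut V} (hx : x ∈ normalizer (L : Set (MulAut V)))
    (h3 : x ^ 3 = 1) (h4 : Nat.card (W x) = 4) :
    ∃ U : Subgroup V, W x ≤ U ∧ Nat.card U ≤ 8 ∧ ∀ e ∈ L, ∀ u ∈ U, e u ∈ U := by
  have h8 : ∀ e ∈ L, Nat.card (W x ⊔ W (e * x * e⁻¹) : Subgroup V) ≤ 8 := by
    intro e he
    have := P7 hV hL hL3 hx h3 h4 he he
    rw [sup_assoc, sup_idem] at this
    apply this
    have := card_sup_le (W x) (W (e * x * e⁻¹))
    rw [h4, card_W_conj, h4] at this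
    have h0 : 0 < Nat.card (W x ⊓ W (e * x * e⁻¹) : Subgroup V) := Nat.card_pos
    nlinarith
  obtain ⟨e1, he1, hall⟩ : ∃ e1 ∈ L, ∀ e ∈ L, W (e * x * e⁻¹) ≤ W x ⊔ W (e1 * x * e1⁻¹) := by
    by_cases h : ∀ e ∈ L, W (e * x * e⁻¹) ≤ W x
    · exact ⟨1, L.one_mem, fun e he => (h e he).trans le_sup_left⟩
    push Not at h
    obtain ⟨e1, he1, h⟩ := h
    refine ⟨e1, he1, fun e he => ?_⟩
    have hlt : W x < W x ⊔ W (e1 * x * e1⁻¹) := left_lt_sup.2 h
    have c1 := card_lt_of_lt hlt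
    have c2 := card_dvd_of_le hlt.le
    have c3 := h8 e1 he1
    rw [h4] at c1 c2
    have c4 : Nat.card (W x ⊔ W (e1 * x * e1⁻¹) : Subgroup V) = 8 := by omega
    have c5 := card_sup_le (W x ⊔ W (e1 * x * e1⁻¹)) (W x ⊔ W (e * x * e⁻¹))
    have c6 := card_le_of_le (le_inf (le_sup_left : W x ≤ W x ⊔ W (e1 * x * e1⁻¹))
      (le_sup_left : W x ≤ W x ⊔ W (e * x * e⁻¹)))
    rw [← sup_assoc, sup_right_comm (W x) _ (W x), sup_idem, c4] at c5
    rw [h4] at c6
    have c7 := h8 e he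
    have c8 := P7 hV hL hL3 hx h3 h4 he1 he (by nlinarith)
    rw [eq_of_le_of_card_ge le_sup_left (c8.trans c4.ge)]
    exact le_sup_right
  refine ⟨_, le_sup_left, h8 e1 he1, fun e he u hu => ?_⟩
  have : (W x ⊔ W (e1 * x * e1⁻¹)).map e.toMonoidHom ≤ W x ⊔ W (e1 * x * e1⁻¹) := by
    rw [Subgroup.map_sup, ← W_conj, ← W_conj]
    refine sup_le (hall e he) ?_
    have := hall _ (L.mul_mem he he1)
    simpa [mul_assoc] using this
  exact this ⟨u, hu, rfl⟩

omit [Finite V] in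
theorem fin_step {S : Type*} [Group S] [Finite S] (φ : S →* MulAut V) {r : ℕ} [hr : Fact r.Prime]
    {F : Subgroup S} (hF : IsElementaryAbelian r F) (hF3 : Nat.card F = r ^ 3) {U : Subgroup V}
    (hi : ∀ f ∈ F, ∀ u ∈ U, φ f u ∈ U) (hr2 : ¬ r ^ 2 ∣ Nat.card (MulAut U)) {C : Subgroup S}
    (hC : ∀ f ∈ F, (∀ u ∈ U, φ f u = u) → f ∈ C) : ¬ IsCyclic (F ⊓ C : Subgroup S) := by
  have h : CopAct.ActInv (φ.comp F.subtype) U := fun a u hu => hi a a.2 u hu
  set ψ := CopAct.subHom _ U h with hψ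
  have hle : ψ.ker.map F.subtype ≤ F ⊓ C := by
    rintro _ ⟨a, ha, rfl⟩
    exact ⟨a.2, hC _ a.2 fun u hu =>
      congrArg Subtype.val (congrArg (fun f : MulAut U => f ⟨u, hu⟩) ha)⟩
  rw [(hF.mono inf_le_left).isCyclic_iff]
  intro hc
  have c1 := (card_le_of_le hle).trans hc
  rw [card_map_subtype] at c1
  have c2 := ψ.ker.card_mul_index
  rw [hF3, index_ker] at c2
  obtain ⟨k, hk, hk'⟩ := (Nat.dvd_prime_pow hr.out).1 (Dvd.intro_left _ c2)
  have c3 : k ≤ 1 := by
    by_contra hk1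
    exact hr2 ((pow_dvd_pow r (by omega)).trans (hk' ▸ card_subgroup_dvd_card ψ.range))
  have c4 : r ^ k ≤ r := by
    calc r ^ k ≤ r ^ 1 := Nat.pow_le_pow_right hr.out.pos c3
      _ = r := pow_one r
  rw [hk'] at c2
  have c5 : r ^ 3 ≤ r * r := c2 ▸ Nat.mul_le_mul c1 c4
  have := hr.out.one_lt
  nlinarith [Nat.mul_pos hr.out.pos hr.out.pos]

end

theorem ar168 {r n : ℕ} (hr : r.Prime) (h2 : r ≠ 2) (hn : n ∣ 168) : ¬ r ^ 2 ∣ n := by
  intro h
  have h1 := h.trans hn
  have h3 : r ∣ 168 := (dvd_pow_self r two_ne_zero).trans h1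
  have h4 : r ≤ 12 := by
    by_contra h4
    have := Nat.le_of_dvd (by norm_num) h1
    nlinarith
  interval_cases r <;> first | omega | (revert hr; norm_num)

open scoped IsMulCommutative in

/-- Let S be a finite solvable group and M a normal elementary abelian 2-subgroup of S. Suppose S contains an elementary abelian subgroup of order p³ for some odd prime p, and a cyclic 3-subgroup Q such that the cubes of the elements of Q centralize M and the commutator subgroup [Q, M] has order 4 (a four-group inside M). Then S contains an elementary abelian subgroup F of order r³, for some odd prime r, whose centralizer of [Q, M] in F — the subgroup C_F([Q, M]) — is not cyclic. -/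
theorem result {S : Type*} [Group S] [Finite S]
    [Group.IsSolvable S] (M : Subgroup S) [M.Normal] (hM : Cfsg.IsElementaryAbelian 2 M)
    (p : ℕ) (hp : p.Prime) (hp2 : p ≠ 2) (E : Subgroup S) (hE : Cfsg.IsElementaryAbelian p E) (hE3 : Nat.card ↥E = p ^ 3)
    (Q : Subgroup S) (hQc : IsCyclic ↥Q) (hQ3 : IsPGroup 3 ↥Q)
    (hQ1 : ∀ x ∈ Q, x ^ 3 ∈ Subgroup.centralizer (M : Set S)) (hQM : Nat.card ↥⁅Q, M⁆ = 4) :
    ∃ (r : ℕ) (F : Subgroup S), r.Prime ∧ r ≠ 2 ∧ Cfsg.IsElementaryAbelian r F ∧ Nat.card ↥F = r ^ 3 ∧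
      ¬ IsCyclic ↥(F ⊓ Subgroup.centralizer ((⁅Q, M⁆ : Subgroup S) : Set S)) := by
  have : Fact (Nat.Prime 3) := ⟨Nat.prime_three⟩
  have : Fact p.Prime := ⟨hp⟩
  have hMc : IsMulCommutative M := hM.1
  have hV : ∀ v : M, v * v = 1 := fun v => Subtype.ext (by simpa [sq] using hM.2 v v.2)
  let φ : S →* MulAut M := MulAut.conjNormal
  have hφ : ∀ (g : S) (v : M), (φ g v : S) = g * v * g⁻¹ := fun g v => rfl
  obtain ⟨x, rfl⟩ := (Subgroup.isCyclic_iff_exists_zpowers_eq_top _).1 hQc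
  have h3 : φ x ^ 3 = 1 := by
    ext v
    rw [← map_pow, hφ, ← hQ1 x (mem_zpowers x) v v.2]; simp
  have hW : ⁅zpowers x, M⁆ = (W (φ x)).map M.subtype := by
    apply le_antisymm
    · rw [commutator_le]
      intro q hq m hm
      have h1 : φ q ∈ St hV (W (φ x)) := by
        obtain ⟨k, rfl⟩ := mem_zpowers_iff.1 hq
        rw [map_zpow]
        exact zpow_mem (mem_St.2 le_rfl) k
      refine ⟨_, h1 ⟨m, hm⟩, ?_⟩
      have h2 : m⁻¹ = m := inv_eq_of_mul_eq_one_right (congrArg Subtype.val (hV ⟨m, hm⟩))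
      rw [mul_comm, commutatorElement_def, h2]
      rfl
    · rintro _ ⟨_, ⟨v, rfl⟩, rfl⟩
      have h2 : (v : S)⁻¹ = v := inv_eq_of_mul_eq_one_right (congrArg Subtype.val (hV v))
      have := commutator_mem_commutator (mem_zpowers x) v.2
      rw [commutatorElement_def, h2] at this
      change ((v * φ x v : M) : S) ∈ _
      rw [mul_comm]
      exact this
  have h4 : Nat.card (W (φ x)) = 4 := by rw [← hQM, hW, card_map_subtype]
  have hC : ∀ (U : Subgroup M), W (φ x) ≤ U → ∀ f : S, (∀ u ∈ U, φ f u = u) →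
      f ∈ centralizer ((⁅zpowers x, M⁆ : Subgroup S) : Set S) := by
    intro U hU f hf
    rw [hW, mem_centralizer_iff]
    rintro _ ⟨w, hw, rfl⟩
    have := congrArg Subtype.val (hf w (hU hw))
    rw [hφ, mul_inv_eq_iff_eq_mul] at this
    exact this.symm
  obtain ⟨H, hH, hQH⟩ := exists_isPiHall_ge (π := {2}ᶜ) (K := zpowers x)
    (isPiNum_of_isPGroup Nat.prime_three hQ3 (by simp))
  have hHodd : Odd (Nat.card H) := by
    rw [← Nat.not_even_iff_odd, even_iff_two_dvd]
    exact (isPiNum_compl_singleton_iff_not_dvd Nat.prime_two).1 hH.card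
  have hxH : x ∈ H := hQH (mem_zpowers x)
  by_cases hrk : PRankLE 3 2 H
  · obtain ⟨g, hg⟩ := hH.exists_conj_le (K := E) (isPiNum_of_isPGroup hp hE.isPGroup (by simpa))
    have hE' : IsElementaryAbelian p (MulAut.conj g • E) := hE.map _
    have hE3' : Nat.card ↥(MulAut.conj g • E) = p ^ 3 := by rw [HT.card_conj_smul, hE3]
    generalize MulAut.conj g • E = F at hg hE' hE3'
    have hp3 : p ≠ 3 := by
      rintro rfl
      have := hrk.card_le_of_le hg hE'
      omega
    have hL := FT.rank2_min_p_complement (p := 3) inferInstance hHodd hrk (Or.inr rfl)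
    set L := piCoreOf {3}ᶜ H with hLd
    have hHL : H ≤ normalizer (L : Set S) := le_normalizer_piCoreOf _
    have hFL : F ≤ L := by
      have : (L.subgroupOf H).Normal := (normal_subgroupOf_iff_le_normalizer hL.le).2 hHL
      have h1 : F.subgroupOf H ≤ L.subgroupOf H := IsPiNum.le_of_index (π := {3}ᶜ)
        ((isPiNum_of_isPGroup hp hE'.isPGroup (by simpa)).card_subgroupOf H)
        (isPiHallOf_iff.1 hL).2.2
      exact fun f hf => h1 (x := ⟨f, hg hf⟩) hf
    have hd := card_map_dvd L φ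
    obtain ⟨U, hU1, hU2, hU3⟩ := part2 hV (L := L.map φ)
      (hHodd.of_dvd_nat (hd.trans (card_dvd_of_le hL.le)))
      (((isPiNum_compl_singleton_iff Nat.prime_three).1
        (isPiHallOf_iff.1 hL).2.1).coprime_dvd_left hd)
      (map_le_normalizer_map hHL φ ⟨x, hxH, rfl⟩) h3 h4
    exact ⟨p, F, hp, hp2, hE', hE3', fin_step φ hE' hE3' (U := U)
      (fun f hf => hU3 _ ⟨f, hFL hf, rfl⟩) (ar168 hp hp2 ((card_aut hV U).2.1 hU2))
      fun f _ => hC U hU1 f⟩
  · obtain ⟨P, hP⟩ := (hQ3.comap_of_injective _ (subtype_injective H)).exists_le_sylow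
    set R : Subgroup S := (P : Subgroup H).map H.subtype with hR
    have hRp : IsPGroup 3 R := P.isPGroup'.map _
    have hxR : x ∈ R := ⟨⟨x, hxH⟩, hP (mem_zpowers x), rfl⟩
    have hrk' : ¬ PRankLE 3 2 R := fun h => hrk ((PG.pRankLE_sylow_iff P).1
      (h.of_mulEquiv ((P : Subgroup H).equivMapOfInjective _ (subtype_injective H)).symm))
    rw [FT.rank2_SCN3_empty hRp (hHodd.of_dvd_nat (card_dvd_of_le (map_subtype_le _)))] at hrk'
    push Not at hrk'
    obtain ⟨A, hA, hA3⟩ := hrk'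
    obtain ⟨F, hFA, hF, hF3⟩ := PG.not_pRankLE_subgroup_iff.1 hA3
    refine ⟨3, F, Nat.prime_three, by norm_num, hF, hF3, fin_step φ hF hF3 (U := W (φ x))
      (fun a ha => ?_) (ar168 Nat.prime_three (by norm_num) ((card_aut hV _).2.1 (by omega)))
      fun f _ => hC _ le_rfl f⟩
    refine part1 hV (hRp.map φ) ⟨x, hxR, rfl⟩ ⟨a, hA.1 (hFA ha), rfl⟩ h3 h4
      (by rw [← map_pow, hF.2 a ha, map_one]) ?_
    have h1 : x⁻¹ * a * x * a⁻¹ ∈ A := by
      refine A.mul_mem ?_ (A.inv_mem (hFA ha))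
      simpa using (mem_normalizer_iff.1 (hA.2.1 (R.inv_mem hxR)) a).1 (hFA ha)
    have h2 := congrArg (fun z : A => φ z.1) (hA.isMulCommutative.is_comm.comm ⟨a, hFA ha⟩ ⟨_, h1⟩)
    simpa using h2

end Cfsg.Agent.S4404
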