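import Mathlib
import Cfsg.Statements.S4405
import Cfsg.Agent.GT.Zipper
import Cfsg.Agent.GT.Fitting
import Cfsg.Agent.GT.Conj
import Cfsg.Agent.GT.PGroupFrattini
import Cfsg.Agent.Ch.Burnside
-- import your own Cfsg.Agent.* helpers here

set_option autoImplicit false
open Cfsg

namespace Cfsg.Agent.S4405

open Subgroup Cfsg.Agent.GT
open scoped commutatorElement


/-- Let G be a finite group of order 320 = 64·5 whose largest normal 2-subgroup H = O₂(G) equals the Fitting subgroup F(G) and is extraspecial of order 32 containing no elementary abelian subgroup of order 8 (so H is the central product of a quaternion group and a dihedral group of order 8). If T is an involution of G outside H whose centralizer in H contains an elementary abelian subgroup of order 4, then C_H(T) itself is elementary abelian of order 4. -/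
theorem result {G : Type*} [Group G] [Finite G]
    (hG : Nat.card G = 320) (hHF : Cfsg.pCore 2 G = Cfsg.fittingSubgroup G)
    (hex : Cfsg.IsExtraspecial 2 ↥(Cfsg.pCore 2 G)) (h32 : Nat.card ↥(Cfsg.pCore 2 G) = 32)
    (hminus : ∀ A : Subgroup G, A ≤ Cfsg.pCore 2 G → Cfsg.IsElementaryAbelian 2 A → Nat.card ↥A ≤ 4)
    (T : G) (hT : orderOf T = 2) (hTH : T ∉ Cfsg.pCore 2 G)
    (V : Subgroup G) (hV : V ≤ Cfsg.pCore 2 G ⊓ Subgroup.centralizer ({T} : Set G)) (hV4 : Nat.card ↥V = 4) (hVe : Cfsg.IsElementaryAbelian 2 V) :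
    Nat.card ↥(Cfsg.pCore 2 G ⊓ Subgroup.centralizer ({T} : Set G)) = 4 ∧
      Cfsg.IsElementaryAbelian 2 (Cfsg.pCore 2 G ⊓ Subgroup.centralizer ({T} : Set G)) := by
  set H := pCore 2 G with hH
  have hsol : Group.IsSolvable G :=
    Ch.burnside_isSolvable_of_card_eq (a := 6) (b := 1) Nat.prime_two Nat.prime_five
      (by rw [hG]; norm_num)
  obtain ⟨⟨-, hfr, hcm⟩, hZ2⟩ := hex
  set Z : Subgroup G := (center H).map H.subtype with hZ
  have hZn : Z.Normal := by
    rw [hZ]; infer_instance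
  have hZc : Nat.card Z = 2 := by rw [hZ, card_map_subtype, hZ2]
  have hZH : Z ≤ H := map_subtype_le _
  have hZ1 : ∀ z ∈ Z, z * z = 1 := by
    intro z hz
    have := pow_card_eq_one' (x := (⟨z, hz⟩ : Z))
    rw [hZc, pow_two] at this
    exact congrArg Subtype.val this
  have hZcen : ∀ z ∈ Z, ∀ g : G, g * z * g⁻¹ = z := by
    intro z hz g
    by_cases h1 : z = 1
    · simp [h1]
    · have hz' : g * z * g⁻¹ ∈ Z := hZn.conj_mem z hz g
      obtain ⟨x, -, hx⟩ := (Nat.card_eq_two_iff' (1 : Z)).1 hZc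
      have e1 := hx ⟨z, hz⟩ (fun h => h1 (congrArg Subtype.val h))
      have e2 := hx ⟨_, hz'⟩ (fun h => h1 (by
        have : g * z * g⁻¹ = 1 := congrArg Subtype.val h
        simpa using this))
      exact congrArg Subtype.val (e2.trans e1.symm)
  have hcomm : ∀ a ∈ H, ∀ b ∈ H, ⁅a, b⁆ ∈ Z := by
    intro a ha b hb
    refine ⟨⁅(⟨a, ha⟩ : H), ⟨b, hb⟩⁆, ?_, rfl⟩
    rw [← hcm]
    exact commutator_mem_commutator (mem_top _) (mem_top _)
  have hTT : T * T = 1 := by rw [← pow_two, ← hT, pow_orderOf_eq_one]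
  obtain ⟨f, hf1, hfo, hTf⟩ := exists_odd_inverted_of_not_mem_pCore hTT hTH
  have hf5 : orderOf f = 5 := by
    have h1 : orderOf f ∣ 2 ^ 6 * 5 := by
      have := orderOf_dvd_natCard f
      rwa [hG] at this
    have h2 : orderOf f ∣ 5 :=
      (Nat.Coprime.pow_right 6 (Nat.coprime_two_right.2 hfo)).dvd_of_dvd_mul_left h1
    rcases (Nat.dvd_prime Nat.prime_five).1 h2 with h | h
    · exact absurd (orderOf_eq_one_iff.1 h) hf1
    · exact h
  have hf5' : f ^ 5 = 1 := by rw [← hf5, pow_orderOf_eq_one]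
  have : Fact (Nat.Prime 5) := ⟨Nat.prime_five⟩
  have hCf : H ⊓ centralizer (zpowers f : Set G) = Z := by
    have hle : Z ≤ H ⊓ centralizer (zpowers f : Set G) := by
      refine le_inf hZH fun z hz g _ => ?_
      have := hZcen z hz g
      rwa [mul_inv_eq_iff_eq_mul] at this
    have hmod := card_modEq_card_inf_centralizer (p := 5) (L := H) (Q := zpowers f)
      (IsPGroup.of_card (n := 1) (by rw [Nat.card_zpowers, hf5, pow_one]))
      (by rw [normalizer_eq_top]; exact le_top)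
    have hdvd : Nat.card (H ⊓ centralizer (zpowers f : Set G) : Subgroup G) ∣ 2 ^ 5 := by
      have := card_dvd_of_le (inf_le_left : H ⊓ centralizer (zpowers f : Set G) ≤ H)
      rwa [h32] at this
    obtain ⟨k, hk, hk'⟩ := (Nat.dvd_prime_pow Nat.prime_two).1 hdvd
    rw [h32, hk'] at hmod
    have hk2 : k = 1 ∨ k = 5 := by
      interval_cases k <;> simp_all [Nat.ModEq]
    rcases hk2 with rfl | rfl
    · exact (eq_of_le_of_card_eq hle (by rw [hZc, hk', pow_one])).symm
    · exfalso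
      have heq : H ⊓ centralizer (zpowers f : Set G) = H :=
        eq_of_le_of_card_eq inf_le_left (by rw [hk', h32]; norm_num)
      have hfH : f ∈ H := by
        rw [hHF]
        apply centralizer_fitting_le
        rw [← hHF]
        intro h hh
        exact ((heq.ge hh).2 f (mem_zpowers f)).symm
      obtain ⟨k, hk⟩ := isPGroup_pCore 2 ⟨f, hfH⟩
      have hk' : f ^ 2 ^ k = 1 := congrArg Subtype.val hk
      have := orderOf_dvd_of_pow_eq_one hk'
      rw [hf5] at this
      exact absurd ((Nat.prime_dvd_prime_iff_eq Nat.prime_five Nat.prime_two).1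
        (Nat.prime_five.dvd_of_dvd_pow this)) (by decide)
  have hfix : ∀ n ∈ H, n⁻¹ * (f * n * f⁻¹) ∈ Z → n ∈ Z := by
    intro n hn hz
    rw [← hCf]
    refine mem_inf.2 ⟨hn, ?_⟩
    rw [zpowers_eq_closure, centralizer_closure, mem_centralizer_singleton_iff]
    set z := n⁻¹ * (f * n * f⁻¹) with hzd
    have e1 : f * n * f⁻¹ = n * z := by rw [hzd]; group
    have e2 : f * f * n * (f * f)⁻¹ = n := by
      calc f * f * n * (f * f)⁻¹ = f * (f * n * f⁻¹) * f⁻¹ := by group
        _ = f * (n * z) * f⁻¹ := by rw [e1]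
        _ = (f * n * f⁻¹) * (f * z * f⁻¹) := by group
        _ = n * (z * z) := by rw [hZcen z hz, e1, mul_assoc]
        _ = n := by rw [hZ1 z hz, mul_one]
    have hc : Commute (f * f) n := by
      rw [mul_inv_eq_iff_eq_mul] at e2
      exact e2
    have e3 : f = (f * f) ^ 3 := by
      calc f = f ^ 5 * f := by rw [hf5', one_mul]
        _ = (f * f) ^ 3 := by rw [← pow_two, ← pow_mul, ← pow_succ]
    have := hc.pow_left 3
    rw [← e3] at this
    exact this.symm
  have hHn : H.Normal := inferInstance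
  let φ := QuotientGroup.mk' Z
  have hφ : ∀ {x : G}, φ x = 1 ↔ x ∈ Z := fun {x} => QuotientGroup.eq_one_iff x
  have hφc : ∀ a ∈ H, ∀ b ∈ H, φ a * φ b = φ b * φ a := by
    intro a ha b hb
    rw [← commutatorElement_eq_one_iff_mul_comm, ← map_commutatorElement]
    exact hφ.2 (hcomm a ha b hb)
  have hsq : ∀ w ∈ H ⊓ centralizer ({T} : Set G), w ^ 2 = 1 := by
    intro w hw
    have hwH : w ∈ H := hw.1
    have hwT : T * w * T⁻¹ = w := by
      rw [mul_inv_eq_iff_eq_mul]
      exact (mem_centralizer_singleton_iff.1 hw.2).symm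
    set a1 := f * w * f⁻¹ with ha1
    set a2 := f * a1 * f⁻¹ with ha2
    set a3 := f * a2 * f⁻¹ with ha3
    set a4 := f * a3 * f⁻¹ with ha4
    have h1 : a1 ∈ H := hHn.conj_mem _ hwH f
    have h2 : a2 ∈ H := hHn.conj_mem _ h1 f
    have h3 : a3 ∈ H := hHn.conj_mem _ h2 f
    have h4 : a4 ∈ H := hHn.conj_mem _ h3 f
    have h5 : f * a4 * f⁻¹ = w := by
      calc f * a4 * f⁻¹ = f ^ 5 * w * (f ^ 5)⁻¹ := by
            rw [ha4, ha3, ha2, ha1]
            simp only [pow_succ, pow_zero, one_mul, mul_inv_rev, mul_assoc]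
        _ = w := by rw [hf5']; group
    have hN : w * (a1 * a2 * a3 * a4) ∈ Z := by
      have hm : a1 * a2 * a3 * a4 ∈ H := mul_mem (mul_mem (mul_mem h1 h2) h3) h4
      refine hfix _ (mul_mem hwH hm) ?_
      have e : f * (w * (a1 * a2 * a3 * a4)) * f⁻¹ = (a1 * a2 * a3 * a4) * w := by
        calc f * (w * (a1 * a2 * a3 * a4)) * f⁻¹ = (f * w * f⁻¹) * (f * a1 * f⁻¹) *
            (f * a2 * f⁻¹) * (f * a3 * f⁻¹) * (f * a4 * f⁻¹) := by group
          _ = _ := by rw [h5]
      rw [e, ← hφ, map_mul, map_inv, map_mul φ w, map_mul φ _ w, hφc w hwH _ hm, inv_mul_cancel]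
    have hT1 : T * a1 * T⁻¹ = a4 := by
      calc T * a1 * T⁻¹ = (T * f * T⁻¹) * (T * w * T⁻¹) * (T * f * T⁻¹)⁻¹ := by rw [ha1]; group
        _ = f⁻¹ * (f * a4 * f⁻¹) * f⁻¹⁻¹ := by rw [hTf, hwT, h5]
        _ = a4 := by group
    have hT2 : T * a2 * T⁻¹ = a3 := by
      calc T * a2 * T⁻¹ = (T * f * T⁻¹) * (T * a1 * T⁻¹) * (T * f * T⁻¹)⁻¹ := by rw [ha2]; group
        _ = f⁻¹ * (f * a3 * f⁻¹) * f⁻¹⁻¹ := by rw [hTf, hT1]
        _ = a3 := by group
    set u := a1 * a2 with hu
    have huH : u ∈ H := mul_mem h1 h2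
    have hTu : T * u * T⁻¹ = a4 * a3 := by
      rw [← hT1, ← hT2, hu]; group
    set y := u⁻¹ * (T * u * T⁻¹) with hy
    have hTy : T * y * T⁻¹ = y⁻¹ := by
      calc T * y * T⁻¹ = (T * u * T⁻¹)⁻¹ * ((T * T) * u * (T * T)⁻¹) := by rw [hy]; group
        _ = y⁻¹ := by rw [hTT, hy]; group
    have hu2 : φ u * φ u = 1 := by
      rw [← map_mul, hφ]
      refine ⟨(⟨u, huH⟩ : H) ^ 2, ?_, by simp [pow_two]⟩
      rw [← hfr]
      exact PG.pow_mem_frattini (isPGroup_pCore 2) _
    have hwy : w * y ∈ Z := by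
      rw [← hφ] at hN ⊢
      rw [← hN, hy, hTu]
      have : (φ u)⁻¹ = φ u := inv_eq_of_mul_eq_one_right hu2
      simp only [map_mul, map_inv, this]
      rw [hφc a4 h4 a3 h3, hu, map_mul]
      simp only [mul_assoc]
    have e1 : w * y⁻¹ = w * y := by
      calc w * y⁻¹ = (T * w * T⁻¹) * (T * y * T⁻¹) := by rw [hwT, hTy]
        _ = T * (w * y) * T⁻¹ := by group
        _ = w * y := hZcen _ hwy T
    have e2 : y * y = 1 := by
      have := mul_left_cancel e1
      calc y * y = y⁻¹ * y := by rw [this]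
        _ = 1 := inv_mul_cancel y
    have e3 := hZcen _ hwy y⁻¹
    calc w ^ 2 = (w * y) * (y⁻¹ * (w * y) * y⁻¹⁻¹) * (y * y)⁻¹ := by rw [pow_two]; group
      _ = 1 := by rw [e3, hZ1 _ hwy, e2]; group
  have hel : IsElementaryAbelian 2 (H ⊓ centralizer ({T} : Set G)) := by
    refine ⟨⟨⟨fun a b => Subtype.ext ?_⟩⟩, hsq⟩
    have ha := hsq _ a.2
    have hb := hsq _ b.2
    have hab := hsq _ (mul_mem a.2 b.2)
    rw [pow_two] at ha hb hab
    change (a : G) * b = b * a
    calc (a : G) * b = a * (a * b * (a * b)) * b := by rw [hab]; group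
      _ = (a * a) * b * a * (b * b) := by group
      _ = b * a := by rw [ha, hb]; group
  refine ⟨le_antisymm (hminus _ inf_le_left hel) ?_, hel⟩
  rw [← hV4]
  exact card_le_of_le hV

end Cfsg.Agent.S4405
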