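import Mathlib
import Cfsg.Statements.S4406
import Cfsg.Agent.FG.SylowNormal

set_option autoImplicit false
open Cfsg

namespace Cfsg.Agent.S4406

open Cfsg.Agent.FG.H96

theorem key : ∀ q u v : alternatingGroup (Fin 4), q ^ 3 = 1 → q ≠ 1 → u ^ 4 = 1 → v ^ 4 = 1 →
    u ≠ 1 → v ≠ 1 → u ≠ v →
    (q * u * q⁻¹ = v ∧ q * v * q⁻¹ = u * v) ∨ (q⁻¹ * u * q = v ∧ q⁻¹ * v * q = u * v) := by
  decide +kernel

theorem key2 : ∀ q : alternatingGroup (Fin 4), q ^ 9 = 1 → q ^ 3 = 1 := by decide +kernel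

theorem key3 : ∀ u v : alternatingGroup (Fin 4), u ^ 4 = 1 → v ^ 4 = 1 →
    u * u = 1 ∧ u * v = v * u := by decide +kernel

theorem cardA : Nat.card (alternatingGroup (Fin 4)) = 12 := by
  rw [Nat.card_eq_fintype_card]; decide +kernel

theorem exists_q (Q : Sylow 3 (↥(alternatingGroup (Fin 4)) × ↥(alternatingGroup (Fin 4))))
    (N : Subgroup (↥(alternatingGroup (Fin 4)) × ↥(alternatingGroup (Fin 4)))) [N.Normal]
    (hN : Nat.card N = 12) : ∃ x ∈ (Q : Subgroup _), x ∈ N ∧ x ≠ 1 ∧ x ^ 9 = 1 := by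
  have : Fact (Nat.Prime 3) := ⟨Nat.prime_three⟩
  obtain ⟨R, hR⟩ := exists_sylow_eq_subgroupOf Q N
  have h1 := R.ne_bot_of_dvd_card (by rw [hN]; norm_num)
  obtain ⟨⟨x, hx⟩, hx1⟩ := (Subgroup.ne_bot_iff_exists_ne_one).1 h1
  have hxQ : x.1 ∈ (Q : Subgroup _) := by rw [hR] at hx; exact hx
  refine ⟨x, hxQ, x.2, fun e => hx1 (Subtype.ext (Subtype.ext e)), ?_⟩
  have hc : Nat.card (Q : Subgroup (↥(alternatingGroup (Fin 4)) × ↥(alternatingGroup (Fin 4)))) = 9 := by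
    rw [Q.card_eq_multiplicity, Nat.card_prod, cardA]
    have : (12 * 12 : ℕ).factorization 3 = 2 := by
      rw [show (12 * 12 : ℕ) = 3 ^ 2 * 16 by norm_num,
        Nat.factorization_mul (by norm_num) (by norm_num), Nat.Prime.factorization_pow Nat.prime_three]
      simp [Nat.factorization_eq_zero_of_not_dvd (by norm_num : ¬ 3 ∣ 16)]
    rw [this]; rfl
  have := pow_card_eq_one' (x := (⟨x.1, hxQ⟩ : Q.1))
  rw [hc] at this
  exact congrArg Subtype.val this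


/-- In the direct product P = A₄ × A₄, let X be the Sylow 2-subgroup, X₁ and X₂ its intersections with the two direct factors, Q a Sylow 3-subgroup and Q₁, Q₂ its intersections with the two factors. Then every subgroup B of X of order 4 either meets X₁ or X₂ nontrivially, or is normalized by one of the two subgroups of Q of order 3 other than Q₁ and Q₂. -/
theorem result
    (X : Sylow 2 (↥(alternatingGroup (Fin 4)) × ↥(alternatingGroup (Fin 4))))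
    (Q : Sylow 3 (↥(alternatingGroup (Fin 4)) × ↥(alternatingGroup (Fin 4))))
    (B : Subgroup (↥(alternatingGroup (Fin 4)) × ↥(alternatingGroup (Fin 4)))) (hBX : B ≤ (X : Subgroup _)) (hB4 : Nat.card ↥B = 4) :
    B ⊓ ((X : Subgroup _) ⊓ Subgroup.prod ⊤ ⊥) ≠ ⊥ ∨ B ⊓ ((X : Subgroup _) ⊓ Subgroup.prod ⊥ ⊤) ≠ ⊥ ∨
      ∃ R : Subgroup (↥(alternatingGroup (Fin 4)) × ↥(alternatingGroup (Fin 4))), R ≤ (Q : Subgroup _) ∧ Nat.card ↥R = 3 ∧
        R ≠ (Q : Subgroup _) ⊓ Subgroup.prod ⊤ ⊥ ∧ R ≠ (Q : Subgroup _) ⊓ Subgroup.prod ⊥ ⊤ ∧ R ≤ Subgroup.normalizer (B : Set _) := by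
  classical
  by_contra hc
  push Not at hc
  obtain ⟨h1, h2, h3⟩ := hc
  have hB : ∀ b ∈ B, b ^ 4 = 1 := fun b hb => by
    have := pow_card_eq_one' (x := (⟨b, hb⟩ : B))
    rw [hB4] at this
    exact congrArg Subtype.val this
  have hf : ∀ b ∈ B, b ≠ 1 → b.1 ≠ 1 := fun b hb hb1 e => hb1 (by
    rw [← Subgroup.mem_bot, ← h2]
    exact ⟨hb, hBX hb, e, trivial⟩)
  have hs : ∀ b ∈ B, b ≠ 1 → b.2 ≠ 1 := fun b hb hb1 e => hb1 (by
    rw [← Subgroup.mem_bot, ← h1]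
    exact ⟨hb, hBX hb, trivial, e⟩)
  obtain ⟨x, hxQ, hx, hx1, hx9⟩ := exists_q Q (Subgroup.prod ⊤ ⊥) (by
    rw [Nat.card_congr (Subgroup.prodEquiv _ _).toEquiv, Nat.card_prod, Subgroup.card_top, Subgroup.card_bot,
      cardA])
  obtain ⟨y, hyQ, hy, hy1, hy9⟩ := exists_q Q (Subgroup.prod ⊥ ⊤) (by
    rw [Nat.card_congr (Subgroup.prodEquiv _ _).toEquiv, Nat.card_prod, Subgroup.card_top, Subgroup.card_bot,
      cardA])
  obtain ⟨q1, x2⟩ := x
  obtain ⟨y1, q2⟩ := y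
  obtain rfl : x2 = 1 := hx.2
  obtain rfl : y1 = 1 := hy.1
  have hq1 : q1 ≠ 1 := fun e => hx1 (by rw [e]; rfl)
  have hq2 : q2 ≠ 1 := fun e => hy1 (by rw [e]; rfl)
  have hq13 := key2 q1 (congrArg Prod.fst hx9)
  have hq23 := key2 q2 (congrArg Prod.snd hy9)
  -- two distinct nonidentity elements of `B`
  have := Fintype.ofFinite B
  obtain ⟨b1, b2, hb1, hb2, hb12⟩ : ∃ b1 b2 : B, b1 ≠ 1 ∧ b2 ≠ 1 ∧ b1 ≠ b2 := by
    have h4 : 2 < Fintype.card B := by rw [← Nat.card_eq_fintype_card, hB4]; norm_num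
    obtain ⟨a, b, c, hab, hac, hbc⟩ := Fintype.two_lt_card_iff.1 h4
    by_cases ha : a = 1
    · exact ⟨b, c, fun e => hab (by rw [ha, e]), fun e => hac (by rw [ha, e]), hbc⟩
    · by_cases hb : b = 1
      · exact ⟨a, c, ha, fun e => hbc (by rw [hb, e]), hac⟩
      · exact ⟨a, b, ha, hb, hab⟩
  have hsq : ∀ b c : B, b * b = 1 ∧ b * c = c * b := fun b c => by
    have e1 := key3 b.1.1 c.1.1 (congrArg Prod.fst (hB b b.2)) (congrArg Prod.fst (hB c c.2))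
    have e2 := key3 b.1.2 c.1.2 (congrArg Prod.snd (hB b b.2)) (congrArg Prod.snd (hB c c.2))
    exact ⟨Subtype.ext (Prod.ext e1.1 e2.1), Subtype.ext (Prod.ext e1.2 e2.2)⟩
  have hb3 : b1 * b2 ≠ 1 := fun e => hb12 (by
    rw [← (hsq b1 b1).1] at e; exact (mul_left_cancel e).symm)
  have hall : ∀ b : B, b = 1 ∨ b = b1 ∨ b = b2 ∨ b = b1 * b2 := by
    have hcard : ({1, b1, b2, b1 * b2} : Finset B).card = Fintype.card B := by
      rw [← Nat.card_eq_fintype_card, hB4, Finset.card_insert_of_notMem, Finset.card_insert_of_notMem,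
        Finset.card_pair]
      · simpa using hb1
      · simpa using ⟨hb12, hb2⟩
      · simpa using ⟨hb1.symm, hb2.symm, hb3.symm⟩
    intro b
    have := Finset.eq_univ_of_card _ hcard
    have hb : b ∈ ({1, b1, b2, b1 * b2} : Finset B) := this ▸ Finset.mem_univ b
    simpa using hb
  have hne : ∀ b : B, b ≠ 1 → b.1 ≠ 1 := fun b hb e => hb (Subtype.ext e)
  have hne1 : b1.1.1 ≠ b2.1.1 := fun e => hf _ (b1 * b2).2 (hne _ hb3) (by
    have := congrArg (fun z : B => z.1.1) (hsq b1 b1).1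
    simpa [← e] using this)
  have hne2 : b1.1.2 ≠ b2.1.2 := fun e => hs _ (b1 * b2).2 (hne _ hb3) (by
    have := congrArg (fun z : B => z.1.2) (hsq b1 b1).1
    simpa [← e] using this)
  obtain ⟨r1, hr1Q, hr1, hr13, hr1a, hr1b⟩ : ∃ r : alternatingGroup (Fin 4),
      (r, 1) ∈ Q.1 ∧ r ≠ 1 ∧ r ^ 3 = 1 ∧ r * b1.1.1 * r⁻¹ = b2.1.1 ∧
      r * b2.1.1 * r⁻¹ = b1.1.1 * b2.1.1 := by
    rcases key q1 b1.1.1 b2.1.1 hq13 hq1 (congrArg Prod.fst (hB b1 b1.2))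
      (congrArg Prod.fst (hB b2 b2.2)) (hf _ b1.2 (hne _ hb1)) (hf _ b2.2 (hne _ hb2)) hne1 with h | h
    · exact ⟨q1, hxQ, hq1, hq13, h⟩
    · exact ⟨q1⁻¹, by simpa using Q.1.inv_mem hxQ, by simpa using hq1,
        by rw [inv_pow, hq13, inv_one], by simpa using h⟩
  obtain ⟨r2, hr2Q, hr2, hr23, hr2a, hr2b⟩ : ∃ r : alternatingGroup (Fin 4),
      (1, r) ∈ Q.1 ∧ r ≠ 1 ∧ r ^ 3 = 1 ∧ r * b1.1.2 * r⁻¹ = b2.1.2 ∧
      r * b2.1.2 * r⁻¹ = b1.1.2 * b2.1.2 := by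
    rcases key q2 b1.1.2 b2.1.2 hq23 hq2 (congrArg Prod.snd (hB b1 b1.2))
      (congrArg Prod.snd (hB b2 b2.2)) (hs _ b1.2 (hne _ hb1)) (hs _ b2.2 (hne _ hb2)) hne2 with h | h
    · exact ⟨q2, hyQ, hq2, hq23, h⟩
    · exact ⟨q2⁻¹, by simpa using Q.1.inv_mem hyQ, by simpa using hq2,
        by rw [inv_pow, hq23, inv_one], by simpa using h⟩
  set r : ↥(alternatingGroup (Fin 4)) × ↥(alternatingGroup (Fin 4)) := (r1, r2) with hr
  have hrQ : r ∈ (Q : Subgroup _) := by simpa using Q.1.mul_mem hr1Q hr2Q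
  have e1 : r * b1 * r⁻¹ = b2 := Prod.ext hr1a hr2a
  have e2 : r * b2 * r⁻¹ = b1 * b2 := Prod.ext hr1b hr2b
  refine h3 (Subgroup.zpowers r) (by simpa using hrQ) ?_ ?_ ?_ ?_
  · rw [Nat.card_zpowers]
    have : Fact (Nat.Prime 3) := ⟨Nat.prime_three⟩
    exact orderOf_eq_prime (Prod.ext hr13 hr23) (fun e => hr1 (congrArg Prod.fst e))
  · intro e
    have : r ∈ (Q : Subgroup _) ⊓ Subgroup.prod ⊤ ⊥ := e ▸ Subgroup.mem_zpowers r
    exact hr2 this.2.2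
  · intro e
    have : r ∈ (Q : Subgroup _) ⊓ Subgroup.prod ⊥ ⊤ := e ▸ Subgroup.mem_zpowers r
    exact hr1 this.2.1
  · rw [Subgroup.zpowers_le]
    apply Subgroup.mem_normalizer_fintype
    intro b hb
    rcases hall ⟨b, hb⟩ with h | h | h | h <;> rw [show b = _ from congrArg Subtype.val h]
    · simp
    · rw [e1]; exact b2.2
    · rw [e2]; exact (b1 * b2).2
    · have : r * ↑(b1 * b2) * r⁻¹ = (r * b1 * r⁻¹) * (r * b2 * r⁻¹) := by
        rw [Subgroup.coe_mul]; group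
      rw [this, e1, e2]
      exact B.mul_mem b2.2 (b1 * b2).2

end Cfsg.Agent.S4406
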