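import Mathlib
import Cfsg.Statements.S4407
import Cfsg.Agent.GT.PGroupElemAb
-- import your own Cfsg.Agent.* helpers here

set_option autoImplicit false
open Cfsg

namespace Cfsg.Agent.S4407

open Subgroup Cfsg.Agent.GT

abbrev Z4 := ZMod 2 × ZMod 2 × ZMod 2 × ZMod 2

theorem cnt4 : Nat.card {c : Z4 // (c.1 + c.2.1, c.2.1, c.2.2.1, c.2.2.2) = c ∧
    (c.1 + c.2.1, c.2.1, c.2.2.1 + c.2.2.2, c.2.2.2) = c} = 4 := by
  rw [Nat.card_eq_fintype_card]; decide +kernel

theorem cnt2 : Nat.card {c : Z4 // (c.2.2.1 + c.2.2.2 + c.2.2.2, c.2.2.2, c.1, c.2.1) = c ∧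
    (c.1 + c.2.1, c.2.1, c.2.2.1 + c.2.2.2, c.2.2.2) = c} = 2 := by
  rw [Nat.card_eq_fintype_card]; decide +kernel

theorem z2 (c : ZMod 2) : c = 0 ∨ c = 1 := by revert c; decide

section
variable {S : Type*} [Group S] [Finite S] {M : Type*} [AddCommGroup M] [Module (ZMod 2) M]

theorem aa (m : M) : m + m = 0 := by
  rw [← two_smul (ZMod 2) m, show (2 : ZMod 2) = 0 from rfl, zero_smul]

theorem core (ρ : Representation (ZMod 2) S M)
    (hirr : ∀ N : Submodule (ZMod 2) M, (∀ s : S, ∀ m ∈ N, ρ s m ∈ N) → N = ⊥ ∨ N = ⊤)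
    {r s a b : S} (hra : r * a = b * r) (hrb : a * r * b = r) (hz : r * r * (r * r) = 1)
    (hsa : s * a = a * s) (hsb : s * b = b * b * s) (hs : s * s = 1) (hsr : s * r = r * (r * r) * s)
    (hab : a * b = b * a) (hb3 : b * b * b = 1)
    (hfix : ∀ m, ρ a m = m → ρ b m = m → m = 0)
    (hgen : ∀ H : Subgroup S, a ∈ H → b ∈ H → r ∈ H → s ∈ H → H = ⊤)
    {v0 : M} (hv0 : v0 ≠ 0) (hav0 : ρ a v0 = v0) :
    Nat.card M = 16 ∧ Nat.card {m : M // ρ s m = m ∧ ρ (r * r) m = m} = 4 ∧
      Nat.card {m : M // ρ (s * r) m = m ∧ ρ (r * r) m = m} = 2 := by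
  have mul : ∀ g h m, ρ (g * h) m = ρ g (ρ h m) := fun g h m => by rw [map_mul]; rfl
  have one : ∀ m, ρ 1 m = m := fun m => by rw [map_one]; rfl
  have inj : ∀ g m, ρ g m = 0 → m = 0 := fun g m h => by
    rw [← one m, ← inv_mul_cancel g, mul, h, map_zero]
  have hza : a * (r * r) * a = r * r := by
    calc a * (r * r) * a = a * r * (r * a) := by group
      _ = (a * r * b) * r := by rw [hra]; group
      _ = r * r := by rw [hrb]
  have hzb : r * r * b = b * b * (r * r) := by
    have h1 : b * (r * r) * b = r * r := by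
      calc b * (r * r) * b = (b * r) * r * b := by group
        _ = r * (a * r * b) := by rw [← hra]; group
        _ = r * r := by rw [hrb]
    calc r * r * b = (b * b * b) * (r * r) * b := by rw [hb3]; group
      _ = b * b * (b * (r * r) * b) := by group
      _ = b * b * (r * r) := by rw [h1]
  have hsz : s * (r * r) = r * r * s := by
    calc s * (r * r) = (s * r) * r := by group
      _ = r * (r * r) * s * r := by rw [hsr]
      _ = r * (r * r) * (s * r) := by group
      _ = (r * r * (r * r)) * (r * r * s) := by rw [hsr]; group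
      _ = r * r * s := by rw [hz, one_mul]
  obtain ⟨v1, hv1, hav1, hsv1⟩ : ∃ v1, v1 ≠ 0 ∧ ρ a v1 = v1 ∧ ρ s v1 = v1 := by
    by_cases h : ρ s v0 = v0
    · exact ⟨v0, hv0, hav0, h⟩
    · refine ⟨v0 + ρ s v0, fun h' => h ?_, ?_, ?_⟩
      · rw [← add_left_cancel_iff (a := v0), h', aa]
      · rw [map_add, hav0, ← mul, ← hsa, mul, hav0]
      · rw [map_add, ← mul, hs, one, add_comm]
  obtain ⟨v, hv, hav, hsv, hzv⟩ : ∃ v, v ≠ 0 ∧ ρ a v = v ∧ ρ s v = v ∧ ρ (r * r) v = v := by
    by_cases h : ρ (r * r) v1 = v1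
    · exact ⟨v1, hv1, hav1, hsv1, h⟩
    · refine ⟨v1 + ρ (r * r) v1, fun h' => h ?_, ?_, ?_, ?_⟩
      · rw [← add_left_cancel_iff (a := v1), h', aa]
      · rw [map_add, hav1]
        congr 1
        nth_rewrite 1 [← hav1]
        rw [← mul, ← mul, hza]
      · rw [map_add, ← mul, hsz, mul, hsv1]
      · rw [map_add, ← mul, hz, one, add_comm]
  set e2 := ρ b v with he2
  set e3 := ρ r v with he3
  set e4 := ρ r e2 with he4
  have a2 : ρ a e2 = e2 := by rw [he2, ← mul, hab, mul, hav]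
  have b2 : ρ b e2 = v + e2 := by
    have h3 : ρ b (ρ b e2) = v := by rw [he2, ← mul, ← mul, hb3, one]
    have := hfix (v + e2 + ρ b e2) (by
      rw [map_add, map_add, hav, a2, ← mul, hab, mul, a2]) (by
      rw [map_add, map_add, h3, ← he2]; abel)
    rw [← add_left_cancel_iff (a := v + e2), this, aa]
  have r3 : ρ r e3 = v := by rw [he3, ← mul, hzv]
  have r4 : ρ r e4 = v + e2 := by
    rw [he4, he2, ← mul, ← mul, hzb, mul, hzv, mul, ← he2, b2]
  have s2 : ρ s e2 = v + e2 := by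
    rw [he2, ← mul, hsb, mul, hsv, mul, ← he2, b2]
  have s3 : ρ s e3 = e3 := by
    rw [he3, ← mul, hsr, mul, hsv, mul, hzv]
  have z2' : ρ (r * r) e2 = v + e2 := by rw [mul, ← he4, r4]
  have s4 : ρ s e4 = e4 := by
    rw [he4, ← mul, hsr, mul, s2, mul, map_add, hzv, z2', ← add_assoc, aa, zero_add]
  have b3 : ρ b e3 = e3 := by rw [he3, ← mul, ← hra, mul, hav]
  have b4 : ρ b e4 = e4 := by rw [he4, ← mul, ← hra, mul, a2]
  have a4 : ρ a e4 = e3 := by rw [he4, he2, ← mul, ← mul, hrb]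
  have a3 : ρ a e3 = e3 + e4 := by
    have h1 : ρ a (ρ r (ρ b e2)) = e4 := by rw [← mul, ← mul, hrb]
    rw [b2, map_add, map_add, ← he3, ← he4, a4] at h1
    rw [← h1, add_comm (ρ a e3), ← add_assoc, aa, zero_add]
  let L : Z4 →ₗ[ZMod 2] M :=
    { toFun := fun c => c.1 • v + c.2.1 • e2 + c.2.2.1 • e3 + c.2.2.2 • e4
      map_add' := fun c d => by simp only [Prod.fst_add, Prod.snd_add, add_smul]; abel
      map_smul' := fun k c => by
        simp only [Prod.smul_fst, Prod.smul_snd, smul_eq_mul, mul_smul, smul_add, RingHom.id_apply] }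
  have hL : ∀ c, L c = c.1 • v + c.2.1 • e2 + c.2.2.1 • e3 + c.2.2.2 • e4 := fun c => rfl
  have Lr : ∀ c, ρ r (L c) = L (c.2.2.1 + c.2.2.2, c.2.2.2, c.1, c.2.1) := by
    intro c
    simp only [hL, map_add, map_smul, ← he3, ← he4, r3, r4, add_smul, smul_add]; abel
  have Ls : ∀ c, ρ s (L c) = L (c.1 + c.2.1, c.2.1, c.2.2.1, c.2.2.2) := by
    intro c
    simp only [hL, map_add, map_smul, hsv, s2, s3, s4, add_smul, smul_add]; abel
  have La : ∀ c, ρ a (L c) = L (c.1, c.2.1, c.2.2.1 + c.2.2.2, c.2.2.1) := by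
    intro c
    simp only [hL, map_add, map_smul, hav, a2, a3, a4, add_smul, smul_add]; abel
  have Lb : ∀ c, ρ b (L c) = L (c.2.1, c.1 + c.2.1, c.2.2.1, c.2.2.2) := by
    intro c
    simp only [hL, map_add, map_smul, ← he2, b2, b3, b4, add_smul, smul_add]; abel
  have ind : ∀ c d : ZMod 2, c • v + d • e2 = 0 → c = 0 ∧ d = 0 := by
    intro c d h
    rcases z2 c with rfl | rfl <;> rcases z2 d with rfl | rfl
    · exact ⟨rfl, rfl⟩
    · exact absurd (inj b v (by simpa using h)) hv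
    · exact absurd (by simpa using h) hv
    · exfalso
      apply hv
      apply hfix v hav
      rw [one_smul, one_smul] at h
      rw [← add_left_cancel_iff (a := v), ← he2, h, aa]
  have hinj : Function.Injective L := by
    rw [injective_iff_map_eq_zero]
    rintro ⟨c1, c2, c3, c4⟩ h
    have h' : c1 • v + c2 • e2 + (c3 • e3 + c4 • e4) = 0 := by
      rw [← h, hL]; abel
    have h1 : c1 • v + c2 • e2 = c3 • e3 + c4 • e4 := by
      rw [← add_right_cancel_iff (a := c3 • e3 + c4 • e4), h', aa]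
    have h0 : c1 • v + c2 • e2 = 0 := by
      apply hfix
      · rw [map_add, map_smul, map_smul, hav, a2]
      · rw [h1, map_add, map_smul, map_smul, b3, b4]
    have h2 : c3 • v + c4 • e2 = 0 := by
      apply inj r
      rw [map_add, map_smul, map_smul, ← he3, ← he4, ← h1, h0]
    obtain ⟨rfl, rfl⟩ := ind _ _ h0
    obtain ⟨rfl, rfl⟩ := ind _ _ h2
    rfl
  have hsurj : Function.Surjective L := by
    let H : Subgroup S :=
      { carrier := {g : S | ∀ m ∈ LinearMap.range L, ρ g m ∈ LinearMap.range L}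
        one_mem' := fun m hm => by rwa [one]
        mul_mem' := fun {g h} hg hh m hm => by rw [mul]; exact hg _ (hh _ hm)
        inv_mem' := fun {g} hg => by
          have hp : ∀ n : ℕ, ∀ m ∈ LinearMap.range L, ρ (g ^ n) m ∈ LinearMap.range L := by
            intro n
            induction n with
            | zero => intro m hm; rwa [pow_zero, one]
            | succ n ih => intro m hm; rw [pow_succ, mul]; exact ih _ (hg _ hm)
          have : g⁻¹ = g ^ (orderOf g - 1) := by
            apply inv_eq_of_mul_eq_one_left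
            rw [← pow_succ, Nat.sub_add_cancel (orderOf_pos g), pow_orderOf_eq_one]
          rw [this]
          exact hp _ }
    have hH := hgen H (by rintro _ ⟨c, rfl⟩; exact ⟨_, (La c).symm⟩)
      (by rintro _ ⟨c, rfl⟩; exact ⟨_, (Lb c).symm⟩) (by rintro _ ⟨c, rfl⟩; exact ⟨_, (Lr c).symm⟩)
      (by rintro _ ⟨c, rfl⟩; exact ⟨_, (Ls c).symm⟩)
    rcases hirr (LinearMap.range L) (fun g => (hH ▸ mem_top g : g ∈ H)) with h | h
    · exfalso
      apply hv
      have : v ∈ LinearMap.range L := ⟨(1, 0, 0, 0), by simp [hL]⟩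
      rwa [h] at this
    · exact LinearMap.range_eq_top.1 h
  let E := Equiv.ofBijective L ⟨hinj, hsurj⟩
  refine ⟨?_, ?_, ?_⟩
  · rw [← Nat.card_congr E]; simp
  · refine (Nat.card_congr (E.subtypeEquiv fun c => ?_)).symm.trans cnt4
    change _ ↔ ρ s (L c) = L c ∧ ρ (r * r) (L c) = L c
    rw [mul, Lr, Lr, Ls, hinj.eq_iff, hinj.eq_iff]
  · refine (Nat.card_congr (E.subtypeEquiv fun c => ?_)).symm.trans cnt2
    change _ ↔ ρ (s * r) (L c) = L c ∧ ρ (r * r) (L c) = L c
    rw [mul, mul, Lr, Lr, Ls, hinj.eq_iff, hinj.eq_iff]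

theorem core2 (A : Subgroup S) [hAn : A.Normal] (hA : Cfsg.IsElementaryAbelian 3 A)
    (hA9 : Nat.card A = 9) (ρ : Representation (ZMod 2) S M) (hfaith : Function.Injective ρ)
    (hirr : ∀ N : Submodule (ZMod 2) M, (∀ s : S, ∀ m ∈ N, ρ s m ∈ N) → N = ⊥ ∨ N = ⊤)
    {r s a : S} (hz : r * r * (r * r) = 1) (hs : s * s = 1) (hsr : s * r = r * (r * r) * s)
    (hinv : ∀ x ∈ A, r * r * x = x⁻¹ * (r * r))
    (hgen : ∀ H : Subgroup S, A ≤ H → r ∈ H → s ∈ H → H = ⊤)
    (ha : a ∈ A) (ha1 : a ≠ 1) (hsa : s * a = a * s) :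
    s * (r * a * r⁻¹) = (r * a * r⁻¹)⁻¹ * s ∧ a ≠ r * a * r⁻¹ ∧
    ((∃ v0, v0 ≠ 0 ∧ ρ a v0 = v0) →
      Nat.card M = 16 ∧ Nat.card {m : M // ρ s m = m ∧ ρ (r * r) m = m} = 4 ∧
        Nat.card {m : M // ρ (s * r) m = m ∧ ρ (r * r) m = m} = 2) := by
  have : Fact (Nat.Prime 3) := ⟨Nat.prime_three⟩
  have mul : ∀ g h m, ρ (g * h) m = ρ g (ρ h m) := fun g h m => by rw [map_mul]; rfl
  have one : ∀ m, ρ 1 m = m := fun m => by rw [map_one]; rfl
  set b := r * a * r⁻¹ with hb
  have hbA : b ∈ A := hAn.conj_mem a ha r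
  have h3 : ∀ x ∈ A, x * x * x = 1 := fun x hx => by rw [← hA.2 x hx, pow_three']
  have hri : r⁻¹ = r * (r * r) := by
    apply inv_eq_of_mul_eq_one_right; rw [← hz]; group
  have hsb : s * b = b⁻¹ * s := by
    have e1 : s * r⁻¹ = r * s := by
      calc s * r⁻¹ = r * (r⁻¹ * s) * r⁻¹ := by group
        _ = r * (s * r) * r⁻¹ := by rw [hsr, ← hri]
        _ = r * s := by group
    calc s * b = (s * r) * a * r⁻¹ := by rw [hb]; group
      _ = r * (r * r) * (s * a) * r⁻¹ := by rw [hsr]; group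
      _ = r * (r * r * a) * (s * r⁻¹) := by rw [hsa]; group
      _ = r * a⁻¹ * (r * (r * r)) * s := by rw [hinv a ha, e1]; group
      _ = b⁻¹ * s := by rw [← hri, hb]; group
  have hnot : b ∉ zpowers a := by
    intro h
    have h1 : s * b = b * s := by
      obtain ⟨n, hn⟩ := mem_zpowers_iff.1 h
      rw [← hn]
      exact (Commute.zpow_right hsa n)
    have h2 : b⁻¹ = b := mul_right_cancel (hsb.symm.trans h1)
    have h4 : b = 1 := by
      have := h3 b hbA
      nth_rewrite 1 [← h2] at this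
      simpa using this
    apply ha1
    have : a = r⁻¹ * b * r := by rw [hb]; group
    rw [this, h4]; group
  have hcl : A = zpowers a ⊔ zpowers b := by
    have hle : zpowers a ⊔ zpowers b ≤ A := sup_le (zpowers_le.2 ha) (zpowers_le.2 hbA)
    have hlt : zpowers a < zpowers a ⊔ zpowers b :=
      lt_of_le_of_ne le_sup_left fun h => hnot (h ▸ mem_sup_right (mem_zpowers b))
    have c1 : Nat.card (zpowers a) = 3 := by
      rw [Nat.card_zpowers]; exact hA.orderOf_eq ha ha1
    have c2 : Nat.card (zpowers a) < Nat.card (zpowers a ⊔ zpowers b : Subgroup S) :=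
      lt_of_le_of_ne (card_le_of_le hlt.le) fun h => hlt.ne (eq_of_le_of_card_ge hlt.le h.ge)
    have c3 := card_dvd_of_le hle
    rw [hA9] at c3
    have c4 : Nat.card (zpowers a ⊔ zpowers b : Subgroup S) = 9 := by
      have := Nat.le_of_dvd (by norm_num) c3
      rw [c1] at c2
      generalize Nat.card (zpowers a ⊔ zpowers b : Subgroup S) = n at *
      interval_cases n <;> simp_all
    exact (eq_of_le_of_card_ge hle (by rw [c4, hA9])).symm
  have hfix : ∀ m, ρ a m = m → ρ b m = m → m = 0 := by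
    intro m hma hmb
    let H : Subgroup S :=
      { carrier := {g : S | ρ g m = m}
        one_mem' := one m
        mul_mem' := fun {g h} hg hh => by
          change ρ (g * h) m = m
          rw [mul, hh, hg]
        inv_mem' := fun {g} hg => by
          change ρ g⁻¹ m = m
          have hg' : ρ g m = m := hg
          nth_rewrite 1 [← hg']
          rw [← mul, inv_mul_cancel, one] }
    have hAH : A ≤ H := by
      rw [hcl]; exact sup_le (zpowers_le.2 hma) (zpowers_le.2 hmb)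
    let N : Submodule (ZMod 2) M :=
      { carrier := {m : M | ∀ g ∈ A, ρ g m = m}
        zero_mem' := fun g _ => map_zero _
        add_mem' := fun {x y} hx hy g hg => by rw [map_add, hx g hg, hy g hg]
        smul_mem' := fun c x hx g hg => by rw [map_smul, hx g hg] }
    rcases hirr N (fun t x hx g hg => by
      have : g * t = t * (t⁻¹ * g * t⁻¹⁻¹) := by group
      rw [← mul, this, mul, hx _ (hAn.conj_mem g hg t⁻¹)]) with h | h
    · have : m ∈ N := fun g hg => hAH hg
      rwa [h] at this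
    · exfalso
      apply ha1
      apply hfaith
      ext x
      have : x ∈ N := h ▸ Submodule.mem_top
      rw [this a ha, one]
  refine ⟨hsb, fun h => hnot (h ▸ mem_zpowers a), ?_⟩
  rintro ⟨v0, hv0, hav0⟩
  refine core ρ hirr (b := b) (by rw [hb]; group) ?_ hz hsa ?_ hs hsr
    (hA.comm ha hbA) (h3 b hbA) hfix ?_ hv0 hav0
  · calc a * r * b = a * (r * r * a) * r⁻¹ := by rw [hb]; group
      _ = r := by rw [hinv a ha]; group
  · rw [hsb]
    congr 1
    apply inv_eq_of_mul_eq_one_right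
    rw [← h3 b hbA]; group
  · intro H h1 h2 h4 h5
    exact hgen H (by rw [hcl]; exact sup_le (zpowers_le.2 h1) (zpowers_le.2 h2)) h4 h5

omit [Finite S] in
theorem dich (ρ : Representation (ZMod 2) S M) [Nontrivial M] {a b r : S} (hb : b = r * a * r⁻¹)
    (hab : a * b = b * a) (ha3 : a * a * a = 1) (hrb : r * b = a⁻¹ * r) :
    (∃ v0, v0 ≠ 0 ∧ ρ a v0 = v0) ∨ (∃ v0, v0 ≠ 0 ∧ ρ (a * b⁻¹) v0 = v0) := by
  have mul : ∀ g h m, ρ (g * h) m = ρ g (ρ h m) := fun g h m => by rw [map_mul]; rfl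
  have one : ∀ m, ρ 1 m = m := fun m => by rw [map_one]; rfl
  have inj : ∀ g m, ρ g m = 0 → m = 0 := fun g m h => by
    rw [← one m, ← inv_mul_cancel g, mul, h, map_zero]
  by_contra hcon
  push Not at hcon
  obtain ⟨h1, h2⟩ := hcon
  have h1' : ∀ m, ρ a m = m → m = 0 := fun m h => by_contra fun hm => h1 m hm h
  have h2' : ∀ m, ρ (a * b⁻¹) m = m → m = 0 := fun m h => by_contra fun hm => h2 m hm h
  have hb3 : b * b * b = 1 := by
    calc b * b * b = r * (a * a * a) * r⁻¹ := by rw [hb]; group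
      _ = 1 := by rw [ha3]; group
  have h3 : ∀ m, ρ b m = m → m = 0 := by
    intro m hm
    apply inj r⁻¹
    apply h1'
    nth_rewrite 2 [← hm]
    rw [← mul, ← mul, hb]
    congr 2
    group
  have h4 : ∀ m, ρ (a * b) m = m → m = 0 := by
    intro m hm
    apply inj r
    apply h2'
    nth_rewrite 1 [← hm]
    rw [← mul, ← mul]
    congr 2
    calc a * b⁻¹ * r * (a * b) = a * b⁻¹ * (r * a * r⁻¹) * (r * b) := by group
      _ = r := by rw [← hb, hrb]; group
  have q : ∀ g : S, g * g * g = 1 → (∀ m, ρ g m = m → m = 0) → ∀ m, ρ g (ρ g m) = m + ρ g m := by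
    intro g hg hf m
    have := hf (m + ρ g m + ρ g (ρ g m)) (by
      rw [map_add, map_add, ← mul g g (ρ g m), ← mul (g * g), hg, one]; abel)
    rw [← add_left_cancel_iff (a := m + ρ g m), this, aa]
  obtain ⟨m, hm⟩ := exists_ne (0 : M)
  have e1 : ρ a m + ρ b (ρ b m) = 0 := by
    apply inj b
    apply h2'
    rw [← mul, inv_mul_cancel_right, map_add, map_add, q a ha3 h1', q b hb3 h3, map_add, map_add,
      q b hb3 h3, ← mul b a, ← hab, mul]
    have := aa (ρ a m)
    have := aa (ρ b m)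
    calc m + ρ a m + (ρ a m + ρ a (ρ b m)) = m + ρ a (ρ b m) + (ρ a m + ρ a m) := by abel
      _ = m + ρ a (ρ b m) + (ρ b m + ρ b m) := by rw [aa, aa]
      _ = _ := by abel
  apply hm
  apply h4
  have e2 : ρ a m = ρ b (ρ b m) := by
    rw [← add_right_cancel_iff (a := ρ b (ρ b m)), e1, aa]
  rw [hab, mul, e2, ← mul, ← mul, hb3, one]

end

open DihedralGroup in
def V (i : ZMod 4) : Subgroup (DihedralGroup 4) where
  carrier := {x | x = 1 ∨ x = r 2 ∨ x = sr i ∨ x = sr (i + 2)}
  one_mem' := Or.inl rfl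
  mul_mem' := by
    intro a b ha hb
    simp only [Set.mem_ofPred_eq] at *
    revert a b i
    decide +kernel
  inv_mem' := by
    intro a ha
    simp only [Set.mem_ofPred_eq] at *
    revert a i
    decide +kernel

open DihedralGroup in
theorem mem_V {i : ZMod 4} {x : DihedralGroup 4} :
    x ∈ V i ↔ x = 1 ∨ x = r 2 ∨ x = sr i ∨ x = sr (i + 2) := Iff.rfl

open DihedralGroup in
theorem card_V (i : ZMod 4) : Nat.card (V i) = 4 := by
  have : Nat.card (V i) =
      Nat.card {x : DihedralGroup 4 // x = 1 ∨ x = r 2 ∨ x = sr i ∨ x = sr (i + 2)} := rfl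
  rw [this, Nat.card_eq_fintype_card]
  clear this
  revert i
  decide +kernel

theorem sq_V (i : ZMod 4) : ∀ x ∈ V i, x ^ 2 = 1 := by
  simp only [mem_V]
  revert i
  decide +kernel

open DihedralGroup in
theorem fin_cls : ∀ F : Finset (DihedralGroup 4), F.card = 4 → (∀ x ∈ F, x * x = 1) →
    (∀ x ∈ F, ∀ y ∈ F, x * y ∈ F) → F = {1, r 2, sr 0, sr 2} ∨ F = {1, r 2, sr 1, sr 3} := by
  decide +kernel

theorem cls (B : Subgroup (DihedralGroup 4)) (h4 : Nat.card B = 4) (h2 : ∀ x ∈ B, x ^ 2 = 1) :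
    B = V 0 ∨ B = V 1 := by
  classical
  have hm : ∀ x, x ∈ Finset.univ.filter (· ∈ B) ↔ x ∈ B := by simp
  have := fin_cls (Finset.univ.filter (· ∈ B)) (by
    rw [Nat.card_eq_fintype_card, Fintype.card_subtype] at h4; exact h4)
    (fun x hx => by rw [← sq]; exact h2 x ((hm x).1 hx))
    (fun x hx y hy => (hm _).2 (B.mul_mem ((hm x).1 hx) ((hm y).1 hy)))
  rcases this with h | h
  · left; ext x; rw [← hm, h, mem_V]; simp
  · right; ext x; rw [← hm, h, mem_V]; simp; rfl

theorem ar1 {n : ℕ} (h : n ∣ 9) (h2 : n ≠ 9) : n ≤ 3 := by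
  have := Nat.le_of_dvd (by norm_num) h
  interval_cases n <;> simp_all

theorem ar2 : ∀ k : ZMod 3, k * k + 1 ≠ 0 := by decide +kernel

/-- Let S be a finite group with a normal elementary abelian subgroup A of order 9 that is self-centralizing (C_S(A) = A), and a dihedral subgroup X of order 8 with S = AX. Let M be a finite-dimensional module for S over the field with two elements that is faithful and irreducible. Then M has 16 elements, and X contains exactly one subgroup B of order 4 and exponent 2 whose fixed points on M form a subspace with exactly 2 elements (equivalently, M is free of rank one over the group algebra of B). -/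
theorem result {S : Type*} [Group S] [Finite S]
    (A : Subgroup S) [A.Normal] (hA : Cfsg.IsElementaryAbelian 3 A) (hA9 : Nat.card ↥A = 9)
    (hAC : Subgroup.centralizer (A : Set S) = A) (X : Subgroup S) (hX : Nonempty (↥X ≃* DihedralGroup 4)) (hAX : A ⊔ X = ⊤)
    {M : Type*} [AddCommGroup M] [Module (ZMod 2) M] [Finite M] (ρ : Representation (ZMod 2) S M)
    (hfaith : Function.Injective ρ)
    (hirr : ∀ N : Submodule (ZMod 2) M, (∀ s : S, ∀ m ∈ N, ρ s m ∈ N) → N = ⊥ ∨ N = ⊤) (hM : Nontrivial M) :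
    Nat.card M = 16 ∧
      ∃! B : Subgroup S, B ≤ X ∧ Nat.card ↥B = 4 ∧ (∀ b ∈ B, b ^ 2 = 1) ∧
        Nat.card {m : M // ∀ b ∈ B, ρ b m = m} = 2 := by
  classical
  have : Fact (Nat.Prime 3) := ⟨Nat.prime_three⟩
  have mul : ∀ g h m, ρ (g * h) m = ρ g (ρ h m) := fun g h m => by rw [map_mul]; rfl
  have one : ∀ m, ρ 1 m = m := fun m => by rw [map_one]; rfl
  obtain ⟨e⟩ := hX
  let φ : DihedralGroup 4 →* S := X.subtype.comp e.symm.toMonoidHom
  have hφ : Function.Injective φ := X.subtype_injective.comp e.symm.injective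
  have hφX : φ.range = X := by
    rw [MonoidHom.range_comp, MonoidHom.range_eq_top.2 e.symm.surjective, ← MonoidHom.range_eq_map,
      range_subtype]
  have hAn : A.Normal := inferInstance
  have h3 : ∀ x ∈ A, x * x * x = 1 := fun x hx => by rw [← hA.2 x hx, pow_three']
  have hinv1 : ∀ x ∈ A, x⁻¹ = x → x = 1 := by
    intro x hx h
    have := h3 x hx
    nth_rewrite 1 [← h] at this
    simpa using this
  have hfa : ∀ d, (∀ x ∈ A, φ d * x = x * φ d) → d = 1 := by
    intro d hd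
    have h1 : φ d ∈ A := by
      rw [← hAC, mem_centralizer_iff]
      exact fun x hx => (hd x hx).symm
    have h2 : d ^ 3 = 1 := hφ (by rw [map_pow, map_one]; exact hA.2 _ h1)
    revert h2
    generalize d = d
    revert d
    decide +kernel
  set r := φ (DihedralGroup.r 1) with hr
  set s := φ (DihedralGroup.sr 0) with hs0
  have hrr : r * r = φ (DihedralGroup.r 2) := by rw [hr, ← map_mul]; rfl
  have hsr1 : s * r = φ (DihedralGroup.sr 1) := by rw [hr, hs0, ← map_mul]; rfl
  have hz : r * r * (r * r) = 1 := by rw [hrr, ← map_mul, ← map_one φ]; rfl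
  have hs : s * s = 1 := by rw [hs0, ← map_mul, ← map_one φ]; rfl
  have hsr : s * r = r * (r * r) * s := by
    rw [hsr1, hrr, hr, hs0, ← map_mul, ← map_mul]; rfl
  have hinv : ∀ x ∈ A, r * r * x = x⁻¹ * (r * r) := by
    let D : Subgroup S :=
      { carrier := {x : S | x ∈ A ∧ r * r * x = x⁻¹ * (r * r)}
        one_mem' := ⟨A.one_mem, by simp⟩
        mul_mem' := fun {x y} hx hy => ⟨A.mul_mem hx.1 hy.1, by
          rw [← mul_assoc, hx.2, mul_assoc, hy.2, hA.comm hx.1 hy.1]; group⟩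
        inv_mem' := fun {x} hx => ⟨A.inv_mem hx.1, by
          calc r * r * x⁻¹ = x * (x⁻¹ * (r * r)) * x⁻¹ := by group
            _ = x * (r * r * x) * x⁻¹ := by rw [hx.2]
            _ = _ := by group⟩ }
    have hDA : D ≤ A := fun x hx => hx.1
    obtain ⟨x, hx, hx2⟩ : ∃ x ∈ A, r * r * x ≠ x * (r * r) := by
      by_contra h
      push Not at h
      have := hfa (DihedralGroup.r 2) (by rw [← hrr]; exact h)
      revert this; decide
    have hd : x⁻¹ * (r * r * x * (r * r)⁻¹) ∈ D := by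
      have hc := hAn.conj_mem x hx (r * r)
      refine ⟨A.mul_mem (A.inv_mem hx) hc, ?_⟩
      have hzi : (r * r)⁻¹ = r * r := inv_eq_of_mul_eq_one_right hz
      calc r * r * (x⁻¹ * (r * r * x * (r * r)⁻¹))
          = r * r * x⁻¹ * (r * r) * x * (r * r)⁻¹ := by group
        _ = r * r * x⁻¹ * (r * r)⁻¹ * x * (r * r) := by rw [hzi]
        _ = _ := by generalize r * r = z; group
    have hd1 : x⁻¹ * (r * r * x * (r * r)⁻¹) ≠ 1 := by
      intro h
      apply hx2
      have := inv_mul_eq_one.1 h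
      nth_rewrite 2 [this]
      group
    generalize x⁻¹ * (r * r * x * (r * r)⁻¹) = d at hd hd1
    by_cases hDA' : D = A
    · intro y hy
      have : y ∈ D := hDA' ▸ hy
      exact this.2
    exfalso
    have hle : zpowers d ≤ D := zpowers_le.2 hd
    have c1 : Nat.card (zpowers d) = 3 := by
      rw [Nat.card_zpowers]; exact hA.orderOf_eq hd.1 hd1
    have c2 : Nat.card D ≠ 9 := fun h => hDA' (eq_of_le_of_card_ge hDA (by rw [h, hA9]))
    have c3 := card_dvd_of_le hDA
    rw [hA9] at c3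
    have c4 : Nat.card D ≤ 3 := ar1 c3 c2
    have hD : zpowers d = D := eq_of_le_of_card_ge hle (by rw [c1]; exact c4)
    have hrd : r * d * r⁻¹ ∈ D := ⟨hAn.conj_mem d hd.1 r, by
      calc r * r * (r * d * r⁻¹) = r * (r * r * d) * r⁻¹ := by group
        _ = _ := by rw [hd.2]; group⟩
    rw [← hD] at hrd
    obtain ⟨n, hn⟩ := mem_zpowers_iff.1 hrd
    have e1 : r * r * d * (r * r)⁻¹ = d ^ (n * n) := by
      calc r * r * d * (r * r)⁻¹ = r * (r * d * r⁻¹) * r⁻¹ := by group
        _ = r * d ^ n * r⁻¹ := by rw [hn]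
        _ = (r * d * r⁻¹) ^ n := by rw [conj_zpow]
        _ = _ := by rw [← hn, zpow_mul]
    have e2 : d ^ (n * n + 1) = 1 := by
      rw [zpow_add, ← e1, hd.2]; group
    rw [← orderOf_dvd_iff_zpow_eq_one, hA.orderOf_eq hd.1 hd1] at e2
    have e3 : ((n * n + 1 : ℤ) : ZMod 3) = 0 := (ZMod.intCast_zmod_eq_zero_iff_dvd _ 3).2 e2
    push_cast at e3
    exact ar2 _ e3
  have hgen : ∀ H : Subgroup S, A ≤ H → r ∈ H → s ∈ H → H = ⊤ := by
    intro H h1 h2 h4
    rw [eq_top_iff, ← hAX, ← hφX]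
    refine sup_le h1 ?_
    rintro _ ⟨d, rfl⟩
    have key : ∀ d : DihedralGroup 4, ∃ i : Fin 4, d = DihedralGroup.r 1 ^ (i : ℕ) ∨
        d = DihedralGroup.sr 0 * DihedralGroup.r 1 ^ (i : ℕ) := by decide +kernel
    obtain ⟨i, h | h⟩ := key d
    · rw [h, map_pow]; exact H.pow_mem h2 _
    · rw [h, map_mul, map_pow]; exact H.mul_mem h4 (H.pow_mem h2 _)
  obtain ⟨a, ha, ha1, hsa⟩ : ∃ a ∈ A, a ≠ 1 ∧ s * a = a * s := by
    by_contra hcon
    push Not at hcon
    have hsi : s⁻¹ = s := inv_eq_of_mul_eq_one_right hs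
    have hsinv : ∀ x ∈ A, s * x = x⁻¹ * s := by
      intro x hx
      have hc := hAn.conj_mem x hx s
      have h1 : x * (s * x * s⁻¹) = 1 := by
        by_contra h
        apply hcon _ (A.mul_mem hx hc) h
        calc s * (x * (s * x * s⁻¹)) = (s * x * s) * x * s⁻¹ := by group
          _ = (s * x * s⁻¹) * x * s := by rw [hsi]
          _ = _ := by rw [← hA.comm hx hc]
      rw [← eq_inv_of_mul_eq_one_right h1]; group
    have := hfa (DihedralGroup.sr 2) (by
      intro x hx
      have e : φ (DihedralGroup.sr 2) = s * (r * r) := by rw [hrr, hs0, ← map_mul]; rfl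
      rw [e, mul_assoc, hinv x hx, ← mul_assoc, hsinv _ (A.inv_mem hx)]; group)
    revert this; decide
  obtain ⟨hsb, hab, hcase1⟩ := core2 A hA hA9 ρ hfaith hirr hz hs hsr hinv hgen ha ha1 hsa
  set b := r * a * r⁻¹ with hb
  have hbA : b ∈ A := hAn.conj_mem a ha r
  have hrb : r * b = a⁻¹ * r := by
    calc r * b = (r * r * a) * r⁻¹ := by rw [hb]; group
      _ = _ := by rw [hinv a ha]; group
  have hfixV : ∀ i : ZMod 4, Nat.card {m : M // ∀ g ∈ (V i).map φ, ρ g m = m} =
      Nat.card {m : M // ρ (φ (DihedralGroup.sr i)) m = m ∧ ρ (r * r) m = m} := by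
    intro i
    refine Nat.card_congr (Equiv.subtypeEquivRight fun m => ⟨fun h => ⟨h _ ⟨_, ?_, rfl⟩, ?_⟩, ?_⟩)
    · exact mem_V.2 (by simp)
    · rw [hrr]; exact h _ ⟨_, mem_V.2 (by simp), rfl⟩
    · rintro ⟨h1, h2⟩ _ ⟨d, hd, rfl⟩
      rcases mem_V.1 hd with rfl | rfl | rfl | rfl
      · rw [map_one, one]
      · rw [← hrr, h2]
      · exact h1
      · rw [← DihedralGroup.sr_mul_r, map_mul, mul, ← hrr, h2, h1]
  have hex : ∀ i : ZMod 4, (V i).map φ ≤ X ∧ Nat.card ((V i).map φ) = 4 ∧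
      ∀ g ∈ (V i).map φ, g ^ 2 = 1 := by
    intro i
    refine ⟨hφX ▸ map_le_range φ _, by rw [card_map_of_injective hφ, card_V], ?_⟩
    rintro _ ⟨d, hd, rfl⟩
    rw [← map_pow, sq_V i d hd, map_one]
  have hcls : ∀ B : Subgroup S, B ≤ X → Nat.card B = 4 → (∀ g ∈ B, g ^ 2 = 1) →
      B = (V 0).map φ ∨ B = (V 1).map φ := by
    intro B h1 h2 h4
    have hB : (B.comap φ).map φ = B := map_comap_eq_self (hφX ▸ h1)
    have := cls (B.comap φ) (by rw [← card_map_of_injective hφ, hB, h2])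
      (fun x hx => hφ (by rw [map_pow, map_one]; exact h4 _ hx))
    rcases this with h | h
    · left; rw [← h, hB]
    · right; rw [← h, hB]
  rcases dich ρ hb (hA.comm ha hbA) (h3 a ha) hrb with h | h
  · obtain ⟨c1, c2, c3⟩ := hcase1 h
    refine ⟨c1, (V 1).map φ, ⟨(hex 1).1, (hex 1).2.1, (hex 1).2.2, ?_⟩, ?_⟩
    · rw [hfixV, ← hsr1, c3]
    · rintro B ⟨h1, h2, h4, h5⟩
      rcases hcls B h1 h2 h4 with rfl | rfl
      · rw [hfixV, ← hs0, c2] at h5; omega
      · rfl
  · have hsi : s⁻¹ = s := inv_eq_of_mul_eq_one_right hs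
    obtain ⟨-, -, hcase2⟩ := core2 A hA hA9 ρ hfaith hirr (s := s * r) (a := a * b⁻¹) hz
      (by rw [hsr1, ← map_mul, ← map_one φ]; rfl)
      (by rw [← mul_assoc _ s r, ← hsr]) hinv
      (fun H h1 h2 h4 => hgen H h1 h2 (by simpa using H.mul_mem h4 (H.inv_mem h2)))
      (A.mul_mem ha (A.inv_mem hbA)) (fun h => hab (mul_inv_eq_one.1 h)) (by
        calc s * r * (a * b⁻¹) = s * (r * a * r⁻¹) * r * b⁻¹ := by group
          _ = b⁻¹ * s * (r * b⁻¹) := by rw [← hb, hsb]; group
          _ = b⁻¹ * s * (a * r) := by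
            rw [show r * b⁻¹ = a * (a⁻¹ * r) * b⁻¹ * b⁻¹ * b by group, ← hrb]
            calc b⁻¹ * s * (a * (r * b) * b⁻¹ * b⁻¹ * b) = b⁻¹ * s * (a * r) := by group
              _ = _ := rfl
          _ = b⁻¹ * (s * a) * r := by group
          _ = (b⁻¹ * a) * (s * r) := by rw [hsa]; group
          _ = _ := by rw [hA.comm (A.inv_mem hbA) ha])
    obtain ⟨c1, c2, c3⟩ := hcase2 h
    refine ⟨c1, (V 0).map φ, ⟨(hex 0).1, (hex 0).2.1, (hex 0).2.2, ?_⟩, ?_⟩
    · rw [hfixV, ← hs0]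
      refine (Nat.card_congr (Equiv.subtypeEquivRight fun m =>
        and_congr_left fun h => ?_)).trans c3
      rw [mul_assoc, mul, h]
    · rintro B ⟨h1, h2, h4, h5⟩
      rcases hcls B h1 h2 h4 with rfl | rfl
      · rfl
      · rw [hfixV, ← hsr1, c2] at h5; omega

end Cfsg.Agent.S4407
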