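import Mathlib
import Cfsg.Statements.S4408
import Cfsg.Agent.FG.DihLemma
import Cfsg.Agent.GT.Fitting

set_option autoImplicit false
open Cfsg

namespace Cfsg.Agent.S4408


/-- Let S be a finite solvable group whose Fitting subgroup F(S) has odd order, and let I be an elementary abelian 2-subgroup of S of order 2ⁿ with n ≥ 1. Then F(S) contains subgroups A₁, …, Aₙ of prime order, each normalized by I, pairwise commuting and generating a subgroup A of order |A₁|⋯|Aₙ| (their internal direct product), such that no non-identity element of I centralizes A. -/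
theorem result {S : Type*} [Group S] [Finite S]
    [Group.IsSolvable S] (hF : Odd (Nat.card ↥(Cfsg.fittingSubgroup S)))
    (I : Subgroup S) (hI : Cfsg.IsElementaryAbelian 2 I) (n : ℕ) (hn : 1 ≤ n) (hIn : Nat.card ↥I = 2 ^ n) :
    ∃ f : Fin n → Subgroup S, (∀ i, (Nat.card ↥(f i)).Prime) ∧ (∀ i, f i ≤ Cfsg.fittingSubgroup S) ∧
      (∀ i, I ≤ Subgroup.normalizer ((f i) : Set S)) ∧ (∀ i j, i ≠ j → ∀ a ∈ f i, ∀ b ∈ f j, a * b = b * a) ∧
      Nat.card ↥(⨆ i, f i) = ∏ i, Nat.card ↥(f i) ∧ I ⊓ Subgroup.centralizer ((⨆ i, f i : Subgroup S) : Set S) = ⊥ := by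
  have _ := hn
  obtain ⟨a, x, h1, h2, h3, h4, h5⟩ := FG.DL.dihedral_lemma (fittingSubgroup S) n I hI hIn
    inferInstance hF Subgroup.le_normalizer_of_normal (eq_bot_iff.2 fun c hc =>
      Subgroup.mem_bot.2 (FG.DL.eq_one_of_sq hF (GT.centralizer_fitting_le hc.2)
        (by rw [← pow_two]; exact hI.2 c hc.1)))
  refine ⟨fun i => Subgroup.zpowers (x i), fun i => by rw [Nat.card_zpowers]; exact (h1 i).2.2.1,
    fun i => Subgroup.zpowers_le.2 (h1 i).2.1, fun i => ?_, fun i j hij => ?_, ?_, h5⟩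
  · rw [← h3]
    refine iSup_le fun j => Subgroup.zpowers_le.2 ?_
    by_cases e : j = i
    · subst e
      refine Subgroup.mem_normalizer_fintype ?_
      rintro _ ⟨k, rfl⟩
      show a j * x j ^ k * (a j)⁻¹ ∈ Subgroup.zpowers (x j)
      rw [← conj_zpow, (h1 j).2.2.2]
      exact zpow_mem (inv_mem (Subgroup.mem_zpowers _)) k
    · refine Subgroup.centralizer_le_normalizer _ ?_
      rintro _ ⟨k, rfl⟩
      exact ((h2 j i e).1.zpow_right k).symm.eq
  · rintro _ ⟨k, rfl⟩ _ ⟨l, rfl⟩
    exact ((h2 i j hij).2.zpow_zpow k l).eq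
  · simpa only [Nat.card_zpowers] using h4

end Cfsg.Agent.S4408
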