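import Mathlib
import Cfsg.Statements.S4410
import Cfsg.Agent.GT.Fitting
-- import your own Cfsg.Agent.* helpers here

set_option autoImplicit false
open Cfsg

namespace Cfsg.Agent.S4410

open Subgroup Cfsg.Agent.GT
open scoped commutatorElement

section
variable {V : Type*} [AddCommGroup V] [Module (ZMod 2) V]

theorem add_self (v : V) : v + v = 0 := by
  rw [← two_smul (ZMod 2) v, show (2 : ZMod 2) = 0 from rfl, zero_smul]

/-- The elements `g` with `[V, g] ≤ W`. -/
def kSub (W : Submodule (ZMod 2) V) : Subgroup (V ≃ₗ[ZMod 2] V) where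
  carrier := {g | ∀ v, g v - v ∈ W}
  one_mem' := fun v => by simp
  mul_mem' := fun {g h} hg hh v => by
    have : (g * h) v - v = (g (h v) - h v) + (h v - v) := by simp
    rw [this]
    exact W.add_mem (hg _) (hh v)
  inv_mem' := fun {g} hg v => by
    have := W.neg_mem (hg (g⁻¹ v))
    simpa using this

theorem kSub_mono {W W' : Submodule (ZMod 2) V} (h : W ≤ W') : kSub W ≤ kSub W' :=
  fun _ hg v => h (hg v)

theorem conj_mem_kSub {W : Submodule (ZMod 2) V} {g : V ≃ₗ[ZMod 2] V} (hg : g ∈ kSub W)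
    (f : V ≃ₗ[ZMod 2] V) : f * g * f⁻¹ ∈ kSub (W.map (f : V →ₗ[ZMod 2] V)) := by
  intro v
  refine ⟨g (f⁻¹ v) - f⁻¹ v, hg _, ?_⟩
  simp

theorem card_dvd [Finite V] {W : Submodule (ZMod 2) V} (hW : Module.finrank (ZMod 2) W ≤ 3)
    {K : Subgroup (V ≃ₗ[ZMod 2] V)} (hK : K ≤ kSub W) (hodd : Odd (Nat.card K)) :
    Nat.card K ∣ 21 := by
  have hinv : ∀ g : K, ∀ w ∈ W, (g : V ≃ₗ[ZMod 2] V) w ∈ W := by
    intro g w hw
    have := W.add_mem (hK g.2 w) hw
    simpa using this
  let ψ : K →* Module.End (ZMod 2) W :=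
    { toFun := fun g => ((g : V ≃ₗ[ZMod 2] V) : V →ₗ[ZMod 2] V).restrict (hinv g)
      map_one' := by ext w; simp [LinearMap.restrict_apply]
      map_mul' := fun g h => by ext w; simp [LinearMap.restrict_apply] }
  have hinj : Function.Injective ψ.toHomUnits := by
    rw [injective_iff_map_eq_one]
    intro g hg
    have h1 : ∀ w ∈ W, (g : V ≃ₗ[ZMod 2] V) w = w := by
      intro w hw
      have h2 : ψ g = 1 := congrArg Units.val hg
      exact congrArg Subtype.val (LinearMap.congr_fun h2 ⟨w, hw⟩)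
    have h2 : g ^ 2 = 1 := by
      refine Subtype.ext (LinearEquiv.ext fun v => ?_)
      have h3 := h1 _ (hK g.2 v)
      rw [map_sub, sub_eq_iff_eq_add, sub_add_eq_add_sub, add_self, zero_sub] at h3
      change (g : V ≃ₗ[ZMod 2] V) ((g : V ≃ₗ[ZMod 2] V) v) = v
      rw [h3, neg_eq_iff_add_eq_zero, add_self]
    have h3 : orderOf g ∣ 2 := orderOf_dvd_of_pow_eq_one h2
    have h4 : orderOf g ∣ Nat.card K := orderOf_dvd_natCard g
    exact orderOf_eq_one_iff.1 (Nat.eq_one_of_dvd_coprimes (Nat.coprime_two_left.2 hodd) h3 h4)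
  have hdvd := card_dvd_of_injective _ hinj
  have hcard : Nat.card (Module.End (ZMod 2) W)ˣ ∣ 8 * 21 := by
    rw [← Nat.card_congr (Matrix.GeneralLinearGroup.toLin' (Module.finBasis (ZMod 2) W)).toEquiv,
      Matrix.card_GL_field, ZMod.card]
    generalize Module.finrank (ZMod 2) W = n at hW
    interval_cases n <;> decide
  exact (Nat.Coprime.pow_right 3 (Nat.coprime_two_right.2 hodd)).dvd_of_dvd_mul_left
    (hdvd.trans hcard)

end

theorem div21 (n : ℕ) (h : n ∣ 21) (h1 : n ≠ 1) (h2 : n ≠ 21) : n = 3 ∨ n = 7 := by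
  have h3 := Nat.le_of_dvd (by norm_num) h
  interval_cases n <;> simp_all

theorem nosq (n m : ℕ) (h : n = 3 ∨ n = 7) : ¬ n ∣ m * m + 1 := by
  intro hd
  rw [Nat.dvd_iff_mod_eq_zero, Nat.add_mod, Nat.mul_mod] at hd
  rcases h with rfl | rfl
  · have h1 : m % 3 < 3 := Nat.mod_lt _ (by norm_num)
    generalize m % 3 = r at *
    interval_cases r <;> simp_all
  · have h1 : m % 7 < 7 := Nat.mod_lt _ (by norm_num)
    generalize m % 7 = r at *
    interval_cases r <;> simp_all


/-- Let V be a finite-dimensional vector space over the field with two elements and S a solvable group of linear automorphisms of V with O₂(S) = 1. If P ∈ S has order 4 and (P − 1)³ = 0 on V, then the image of (P − 1)² has at least 4 elements; equivalently, in the decomposition of V into indecomposable modules for the cyclic group generated by P, at least two summands have dimension 3. -/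
theorem result
    {V : Type*} [AddCommGroup V] [Module (ZMod 2) V] [Finite V]
    (S : Subgroup (V ≃ₗ[ZMod 2] V)) (hS : Group.IsSolvable ↥S) (hO2 : Cfsg.pCore 2 ↥S = ⊥)
    (P : V ≃ₗ[ZMod 2] V) (hPS : P ∈ S) (hP4 : orderOf P = 4)
    (hcub : ((P : V →ₗ[ZMod 2] V) - LinearMap.id) ^ 3 = 0) :
    4 ≤ Nat.card ↥(LinearMap.range (((P : V →ₗ[ZMod 2] V) - LinearMap.id) ^ 2)) := by
  by_contra hlt
  have hfin : Finite (V ≃ₗ[ZMod 2] V) :=
    Finite.of_injective (fun g : V ≃ₗ[ZMod 2] V => (g : V → V)) DFunLike.coe_injective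
  set W0 := LinearMap.range (((P : V →ₗ[ZMod 2] V) - LinearMap.id) ^ 2) with hW0
  have hr : Module.finrank (ZMod 2) W0 ≤ 1 := by
    by_contra h
    apply hlt
    rw [Module.natCard_eq_pow_finrank (K := ZMod 2), Nat.card_zmod]
    calc 4 = 2 ^ 2 := rfl
      _ ≤ _ := Nat.pow_le_pow_right two_pos (by omega)
  have ht : P ^ 2 ∈ kSub W0 := by
    intro v
    refine ⟨v, ?_⟩
    have e : P (P v) - P v - (P v - v) = P (P v) - v - (P v + P v) + (v + v) := by abel
    simp only [pow_two, Module.End.mul_apply, LinearMap.sub_apply, LinearMap.id_apply,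
      LinearEquiv.coe_coe, map_sub, LinearEquiv.mul_apply]
    rw [e, add_self, add_self, sub_zero, add_zero]
  let Q : S := ⟨P, hPS⟩
  have hQ4 : orderOf Q = 4 := by rw [← hP4, ← orderOf_coe]
  set t := Q ^ 2 with htd
  have htt : t * t = 1 := by
    rw [htd, ← pow_add, show 2 + 2 = orderOf Q from hQ4.symm, pow_orderOf_eq_one]
  have ht1 : t ≠ 1 := fun h => absurd (hQ4 ▸ orderOf_dvd_of_pow_eq_one h) (by decide)
  have hQt : Q * t * Q⁻¹ = t := by rw [htd]; group
  obtain ⟨p, hp, f, hf, hx1⟩ : ∃ p : ℕ, p.Prime ∧ ∃ f ∈ pCore p S, t * (f * t * f⁻¹) ≠ 1 := by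
    by_contra hcon
    push Not at hcon
    have h1 : fittingSubgroup S ≤ centralizer ({t} : Set S) := by
      rw [fitting_le_iff]
      intro p hp f hf
      rw [mem_centralizer_singleton_iff]
      calc f * t = (t * t) * f * t := by rw [htt, one_mul]
        _ = t * (t * (f * t * f⁻¹)) * f := by group
        _ = t * f := by rw [hcon p hp f hf, mul_one]
    have h2 : t ∈ fittingSubgroup S := by
      apply centralizer_fitting_le
      intro f hf
      exact mem_centralizer_singleton_iff.1 (h1 hf)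
    have h3 : zpowers t ≤ pCore 2 S := by
      refine le_pCore_of_le_fitting (IsPGroup.of_card (n := 1) ?_) (zpowers_le.2 h2)
      rw [Nat.card_zpowers, orderOf_eq_prime (by rw [pow_two, htt]) ht1, pow_one]
    rw [hO2] at h3
    exact ht1 (h3 (mem_zpowers t))
  have : Fact p.Prime := ⟨hp⟩
  have hti : t⁻¹ = t := inv_eq_of_mul_eq_one_right htt
  set x := t * (f * t * f⁻¹) with hxd
  have hxO : x ∈ pCore p S := by
    have : x = (t * f * t⁻¹) * f⁻¹ := by rw [hxd, hti]; group
    rw [this]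
    exact mul_mem (Normal.conj_mem inferInstance f hf t) (inv_mem hf)
  have hp2 : p ≠ 2 := by
    rintro rfl
    rw [hO2] at hxO
    exact hx1 hxO
  have htx : t * x * t⁻¹ = x⁻¹ := by
    calc t * x * t⁻¹ = (t * t) * f * t * f⁻¹ * t⁻¹ := by rw [hxd]; group
      _ = f * t⁻¹ * f⁻¹ * t⁻¹ := by rw [htt, one_mul, hti]
      _ = x⁻¹ := by rw [hxd]; group
  set y := Q * x * Q⁻¹ with hyd
  have hy : y = t * ((Q * f) * t * (Q * f)⁻¹) := by
    calc y = (Q * t * Q⁻¹) * ((Q * f) * t * (Q * f)⁻¹) := by rw [hyd, hxd]; group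
      _ = _ := by rw [hQt]
  have hyO : y ∈ pCore p S := Normal.conj_mem inferInstance x hxO Q
  let W := W0 ⊔ W0.map ((f : V ≃ₗ[ZMod 2] V) : V →ₗ[ZMod 2] V) ⊔
    W0.map (((Q * f : S) : V ≃ₗ[ZMod 2] V) : V →ₗ[ZMod 2] V)
  have hW : Module.finrank (ZMod 2) W ≤ 3 := by
    have h1 := Submodule.finrank_map_le ((f : V ≃ₗ[ZMod 2] V) : V →ₗ[ZMod 2] V) W0
    have h2 := Submodule.finrank_map_le (((Q * f : S) : V ≃ₗ[ZMod 2] V) : V →ₗ[ZMod 2] V) W0
    have h3 := Submodule.finrank_add_le_finrank_add_finrank W0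
      (W0.map ((f : V ≃ₗ[ZMod 2] V) : V →ₗ[ZMod 2] V))
    have h4 := Submodule.finrank_add_le_finrank_add_finrank
      (W0 ⊔ W0.map ((f : V ≃ₗ[ZMod 2] V) : V →ₗ[ZMod 2] V))
      (W0.map (((Q * f : S) : V ≃ₗ[ZMod 2] V) : V →ₗ[ZMod 2] V))
    change Module.finrank (ZMod 2) ↥(W0 ⊔ W0.map ((f : V ≃ₗ[ZMod 2] V) : V →ₗ[ZMod 2] V) ⊔
      W0.map (((Q * f : S) : V ≃ₗ[ZMod 2] V) : V →ₗ[ZMod 2] V)) ≤ 3
    omega
  have ht' : (t : V ≃ₗ[ZMod 2] V) ∈ kSub W0 := ht
  have htW : (t : V ≃ₗ[ZMod 2] V) ∈ kSub W := kSub_mono (le_sup_left.trans le_sup_left) ht'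
  let K := zpowers x ⊔ zpowers y
  have hKO : K ≤ pCore p S := sup_le (zpowers_le.2 hxO) (zpowers_le.2 hyO)
  have hKW : K.map S.subtype ≤ kSub W := by
    rw [map_le_iff_le_comap]
    refine sup_le (zpowers_le.2 ?_) (zpowers_le.2 ?_)
    · exact mul_mem htW (kSub_mono (le_sup_right.trans le_sup_left) (conj_mem_kSub ht' _))
    · rw [hy]
      exact mul_mem htW (kSub_mono le_sup_right (conj_mem_kSub ht' _))
  obtain ⟨k, hk⟩ := ((isPGroup_pCore p).to_le hKO).exists_card_eq
  have hodd : Odd (Nat.card K) := by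
    rw [hk]
    exact (hp.odd_of_ne_two hp2).pow
  have h21 := card_dvd hW hKW (by rwa [card_map_subtype])
  rw [card_map_subtype] at h21
  have hxK : zpowers x ≤ K := le_sup_left
  have hox : orderOf x ∣ Nat.card K := by
    rw [← Nat.card_zpowers]
    exact card_dvd_of_le hxK
  have hox1 : orderOf x ≠ 1 := fun h => hx1 (orderOf_eq_one_iff.1 h)
  have hK37 : Nat.card K = 3 ∨ Nat.card K = 7 := by
    have h1 : Nat.card K ≠ 1 := fun h => hox1 (Nat.dvd_one.1 (h ▸ hox))
    have h2 : Nat.card K ≠ 21 := by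
      intro h
      have a1 : 3 ∣ p ^ k := by rw [← hk, h]; decide
      have a2 : 7 ∣ p ^ k := by rw [← hk, h]; decide
      have b1 := (Nat.prime_dvd_prime_iff_eq Nat.prime_three hp).1 (Nat.prime_three.dvd_of_dvd_pow a1)
      have b2 := (Nat.prime_dvd_prime_iff_eq (by norm_num) hp).1
        ((by norm_num : Nat.Prime 7).dvd_of_dvd_pow a2)
      omega
    exact div21 _ h21 h1 h2
  have hprime : (Nat.card K).Prime := by
    rcases hK37 with h | h <;> rw [h] <;> norm_num
  have hox' : orderOf x = Nat.card K := ((Nat.dvd_prime hprime).1 hox).resolve_left hox1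
  have hKx : zpowers x = K := eq_of_le_of_card_eq hxK (by rw [Nat.card_zpowers, hox'])
  have hyx : y ∈ zpowers x := hKx ▸ mem_sup_right (mem_zpowers y)
  obtain ⟨m, hm⟩ := (mem_powers_iff_mem_zpowers).2 hyx
  have hm' : x ^ m = Q * x * Q⁻¹ := hm
  have e : x ^ (m * m + 1) = 1 := by
    have : x ^ (m * m) = x⁻¹ := by
      calc x ^ (m * m) = (x ^ m) ^ m := pow_mul _ _ _
        _ = Q * x ^ m * Q⁻¹ := by rw [hm', conj_pow, hm']
        _ = t * x * t⁻¹ := by rw [hm', htd, pow_two]; group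
        _ = x⁻¹ := htx
    rw [pow_succ, this, inv_mul_cancel]
  have hd := orderOf_dvd_of_pow_eq_one e
  rw [hox'] at hd
  exact nosq _ m hK37 hd

end Cfsg.Agent.S4410
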