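import Mathlib
import Cfsg.Statements.S4411
import Cfsg.Agent.GT.PConstrained
import Cfsg.Agent.GT.Factorized
import Cfsg.Agent.GT.HallTools
import Cfsg.Agent.GT.Hall
import Cfsg.Agent.GT.CoprimeSylow
import Cfsg.Agent.GT.CoprimeComm
import Cfsg.Agent.GT.Thompson
import Cfsg.Agent.GT.MinNormal
import Cfsg.Agent.S0618
-- import your own Cfsg.Agent.* helpers here

set_option autoImplicit false
open Cfsg

namespace Cfsg.Agent.S4411

open Subgroup Cfsg.Agent.GT
open scoped commutatorElement Pointwise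

universe u

theorem hall_pq {p q : ℕ} [hp : Fact p.Prime] [hq : Fact q.Prime] (hpq : p ≠ q)
    (Y : Type u) [Group Y] [Finite Y] : IsPSolvable p Y → q ∣ Nat.card Y →
      ∃ L : Subgroup Y, (∀ r : ℕ, r.Prime → r ∣ Nat.card L → r = p ∨ r = q) ∧ q ∣ Nat.card L ∧
        ¬ p ∣ L.index := by
  refine card_induction (P := fun Y _ _ => IsPSolvable p Y → q ∣ Nat.card Y →
      ∃ L : Subgroup Y, (∀ r : ℕ, r.Prime → r ∣ Nat.card L → r = p ∨ r = q) ∧ q ∣ Nat.card L ∧
        ¬ p ∣ L.index) ?_ Y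
  intro Y _ _ ih hs hqY
  have : Nontrivial Y := by
    rw [← Finite.one_lt_card_iff_nontrivial]
    exact lt_of_lt_of_le hq.out.one_lt (Nat.le_of_dvd Nat.card_pos hqY)
  have step : ∀ (N : Subgroup Y) [N.Normal], N ≠ ⊥ → ¬ q ∣ Nat.card N →
      ∃ L : Subgroup Y, N ≤ L ∧ (∀ r : ℕ, r.Prime → r ∣ N.relIndex L → r = p ∨ r = q) ∧
        q ∣ N.relIndex L ∧ ¬ p ∣ L.index := by
    intro N _ hN hqN
    obtain ⟨L, h1, h2, h3⟩ := ih (Y ⧸ N) (HT.card_quotient_lt N hN) (hs.quotient N) (by
      rw [← N.card_mul_index, index_eq_card] at hqY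
      exact (hq.out.dvd_mul.1 hqY).resolve_left hqN)
    have hle : N ≤ L.comap (QuotientGroup.mk' N) := by
      intro x hx
      rw [mem_comap, QuotientGroup.mk'_apply, (QuotientGroup.eq_one_iff x).2 hx]
      exact one_mem _
    have hc : N.relIndex (L.comap (QuotientGroup.mk' N)) = Nat.card L := by
      rw [← relIndex_map_mk' (N := N) le_rfl, map_comap_eq_self_of_surjective
        (QuotientGroup.mk'_surjective N), QuotientGroup.map_mk'_self, relIndex_bot_left]
    refine ⟨L.comap (QuotientGroup.mk' N), hle, by rwa [hc], by rwa [hc], ?_⟩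
    rwa [index_comap_of_surjective _ (QuotientGroup.mk'_surjective N)]
  rcases hs.pCore_ne_bot_or with h | h
  · obtain ⟨n, hn⟩ := (isPGroup_pCore (p := p) (G := Y)).exists_card_eq
    obtain ⟨L, h0, h1, h2, h3⟩ := step _ h (by
      rw [hn]
      exact fun h => hpq ((Nat.prime_dvd_prime_iff_eq hq.out hp.out).1
        (hq.out.dvd_of_dvd_pow h)).symm)
    refine ⟨L, fun r hr hrL => ?_, ?_, h3⟩
    · rw [← HT.card_mul_relIndex h0, hn] at hrL
      rcases hr.dvd_mul.1 hrL with h | h
      · exact Or.inl ((Nat.prime_dvd_prime_iff_eq hr hp.out).1 (hr.dvd_of_dvd_pow h))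
      · exact h1 r hr h
    · rw [← HT.card_mul_relIndex h0]; exact h2.mul_left _
  by_cases hqN : q ∣ Nat.card (pPrimeCore p Y)
  · obtain ⟨P⟩ := (inferInstance : Nonempty (Sylow p Y))
    obtain ⟨n, hn⟩ := P.isPGroup'.exists_card_eq
    have : Group.IsNilpotent P := P.isPGroup'.isNilpotent
    obtain ⟨Q, hQ⟩ := CopAct.exists_invariant_sylow (A := (P : Subgroup Y)) (K := pPrimeCore p Y)
      le_normalizer_of_normal (by
        rw [hn]; exact (coprime_card_pPrimeCore p).symm.pow_left n) (Or.inl inferInstance) q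
    obtain ⟨m, hm⟩ := Q.isPGroup'.exists_card_eq
    have hcQ : Nat.card ((Q : Subgroup (pPrimeCore p Y)).map (pPrimeCore p Y).subtype) = q ^ m := by
      rw [card_map_of_injective (subtype_injective _), hm]
    refine ⟨(Q : Subgroup (pPrimeCore p Y)).map (pPrimeCore p Y).subtype ⊔ P, fun r hr hrL => ?_,
      ?_, fun h => P.not_dvd_index (h.trans (index_dvd_of_le le_sup_right))⟩
    · have := hrL.trans (HT.card_sup_dvd hQ)
      rw [hcQ, hn] at this
      rcases hr.dvd_mul.1 this with h | h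
      · exact Or.inr ((Nat.prime_dvd_prime_iff_eq hr hq.out).1 (hr.dvd_of_dvd_pow h))
      · exact Or.inl ((Nat.prime_dvd_prime_iff_eq hr hp.out).1 (hr.dvd_of_dvd_pow h))
    · refine Dvd.dvd.trans ?_ (card_dvd_of_le le_sup_left)
      rw [card_map_of_injective (subtype_injective _)]
      exact Q.dvd_card_of_dvd_card hqN
  · obtain ⟨L, h0, h1, h2, h3⟩ := step _ h hqN
    have hpN := not_dvd_card_pPrimeCore (G := Y) hp.out
    have hcop : (Nat.card ((pPrimeCore p Y).subgroupOf L)).Coprime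
        ((pPrimeCore p Y).subgroupOf L).index := by
      rw [HT.card_subgroupOf_of_le h0]
      apply Nat.coprime_of_dvd
      intro r hr ha hb
      rcases h1 r hr hb with rfl | rfl
      · exact hpN ha
      · exact hqN ha
    obtain ⟨K, hK⟩ := exists_right_complement'_of_coprime hcop
    have hc : Nat.card (K.map L.subtype) = (pPrimeCore p Y).relIndex L := by
      rw [card_map_of_injective (subtype_injective _), ← hK.symm.index_eq_card]; rfl
    refine ⟨K.map L.subtype, by rwa [hc], by rwa [hc], ?_⟩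
    rw [index_map_subtype, hK.index_eq_card, HT.card_subgroupOf_of_le h0]
    exact Nat.Prime.not_dvd_mul hp.out hpN h3

theorem key0 {p q : ℕ} [hp : Fact p.Prime] [hq : Fact q.Prime] (hpq : p ≠ q)
    (h23 : ¬ ((p = 2 ∧ q = 3) ∨ (p = 3 ∧ q = 2))) {Y : Type u} [Group Y] [Finite Y]
    (hs : IsPSolvable p Y) (hO : pPrimeCore p Y = ⊥) (hqY : q ∣ Nat.card Y) (P : Sylow p Y) :
    ∃ y : Y, orderOf y = q ∧ (y ∈ normalizer (thJ p (P : Subgroup Y) : Set Y) ∨
      y ∈ centralizer (omegaOne p ((P : Subgroup Y) ⊓ centralizer ((P : Subgroup Y) : Set Y)) :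
        Set Y)) := by
  obtain ⟨L, h1, h2, hPL⟩ : ∃ L : Subgroup Y, (∀ r : ℕ, r.Prime → r ∣ Nat.card L → r = p ∨ r = q) ∧
      q ∣ Nat.card L ∧ (P : Subgroup Y) ≤ L := by
    obtain ⟨L, h1, h2, h3⟩ := hall_pq hpq Y hs hqY
    obtain ⟨Q, hQL, hQ, hQi⟩ := HT.exists_sylow_le p L
    obtain ⟨g, -, hg⟩ := HT.exists_conj_le_of_isPGroup (L := ⊤) (P := P) le_top P.isPGroup' hQ (by
      rw [relIndex_top_right, ← relIndex_mul_index hQL]
      exact Nat.Prime.not_dvd_mul hp.out hQi h3)
    refine ⟨MulAut.conj g⁻¹ • L, by rwa [HT.card_conj_smul], by rwa [HT.card_conj_smul], ?_⟩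
    rw [← HT.conj_inv_smul_conj_smul g (P : Subgroup Y)]
    exact HT.conj_smul_mono _ (hg.trans hQL)
  have hOL : pPrimeCore p L = ⊥ := pPrimeCore_eq_bot_of_charP
    (charP_of_pCore_le (hs.centralizer_pCore_le hO) ((pCore_le_sylow P).trans hPL))
  have hfac : IsThompsonFactorizable p L := by
    by_contra hnf
    obtain ⟨hp23, E, -, -, -, hn, ⟨e⟩⟩ := S0618.result (hs.subgroup L) hOL hnf
    have hd : p * (p ^ 2 - 1) ∣ Nat.card L := by
      rw [← Loc.FF.card_sl2_zmod, ← Nat.card_congr e.toEquiv]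
      exact (card_quotient_dvd_card _).trans (card_subgroup_dvd_card E)
    have h6 : 6 ∣ Nat.card L := by
      rcases hp23 with rfl | rfl
      · exact hd
      · exact Dvd.dvd.trans (by norm_num) hd
    have a := h1 2 Nat.prime_two (Dvd.dvd.trans (by norm_num) h6)
    have b := h1 3 Nat.prime_three (Dvd.dvd.trans (by norm_num) h6)
    omega
  let S : Sylow p L := P.subtype hPL
  have hSm : (S : Subgroup L).map L.subtype = P := by
    rw [Sylow.coe_subtype, subgroupOf_map_subtype, inf_eq_left.2 hPL]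
  have hk := th_inf_ker_of_injective L.subtype (subtype_injective L) (S : Subgroup L)
  have hprod : Fac.IsProd ⊤ (centralizer (omegaOne p ((S : Subgroup L) ⊓
      centralizer ((S : Subgroup L) : Set L)) : Set L)) (normalizer (thJ p (S : Subgroup L) : Set L)) := by
    rw [Fac.isProd_top_iff]
    intro g
    obtain ⟨x, hx, c, hc, n, hn, rfl⟩ := hfac S g
    rw [hOL, mem_bot] at hx
    rw [thompsonSubgroupOf_eq] at hn
    exact ⟨c, hc, n, hn, by rw [hx, one_mul]⟩
  have hd := hprod.card_dvd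
  rw [card_top] at hd
  rcases hq.out.dvd_mul.1 (h2.trans hd) with h | h
  · obtain ⟨y, hy⟩ := exists_prime_orderOf_dvd_card' q h
    refine ⟨y.1.1, by rw [orderOf_coe, orderOf_coe, hy], Or.inr ?_⟩
    rw [← hSm, th_center_map _ hk le_rfl, th_omegaOne_map p _ hk inf_le_left]
    exact map_le_centralizer_map le_rfl L.subtype ⟨y.1, y.2, rfl⟩
  · obtain ⟨y, hy⟩ := exists_prime_orderOf_dvd_card' q h
    refine ⟨y.1.1, by rw [orderOf_coe, orderOf_coe, hy], Or.inl ?_⟩
    rw [← hSm, thJ_map _ hk]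
    exact map_le_normalizer_map le_rfl L.subtype ⟨y.1, y.2, rfl⟩

def QE {G : Type*} [Group G] (q : ℕ) (y : G) : Prop := ∃ k : ℕ, y ^ q ^ k = 1

def Fm {G : Type*} [Group G] (p q : ℕ) (H : Subgroup G) : Prop :=
  IsPGroup p H ∧ ∃ y ∈ normalizer (H : Set G), QE q y ∧ y ∉ centralizer (H : Set G)

def Hyp (p : ℕ) (G : Type*) [Group G] : Prop :=
  ∀ H : Subgroup G, IsPGroup p H → IsPSolvable p (normalizer (H : Set G) ⧸
    (centralizer (H : Set G)).subgroupOf (normalizer (H : Set G)))

theorem exists_qe {G : Type*} [Group G] [Finite G] (q : ℕ) [hq : Fact q.Prime] (n : G) :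
    ∃ b : ℕ, b.Coprime q ∧ QE q (n ^ b) := by
  obtain ⟨k, b, hb, h⟩ := Nat.exists_eq_pow_mul_and_not_dvd (orderOf_pos n).ne' q hq.out.ne_one
  refine ⟨b, ((Nat.Prime.coprime_iff_not_dvd hq.out).2 hb).symm, k, ?_⟩
  rw [← pow_mul, mul_comm, ← h, pow_orderOf_eq_one]

theorem mem_of_pows {G : Type*} [Group G] {K : Subgroup G} {z : G} {a b : ℕ} (h : a.Coprime b)
    (ha : z ^ a ∈ K) (hb : z ^ b ∈ K) : z ∈ K := by
  have := Nat.gcd_eq_gcd_ab a b
  rw [h.gcd_eq_one] at this
  have e : z = (z ^ a) ^ a.gcdA b * (z ^ b) ^ a.gcdB b := by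
    rw [← zpow_natCast, ← zpow_natCast, ← zpow_mul, ← zpow_mul, ← zpow_add, ← this]; simp
  rw [e]
  exact K.mul_mem (K.zpow_mem ha _) (K.zpow_mem hb _)

theorem QE.map {G G' : Type*} [Group G] [Group G'] {q : ℕ} {y : G} (h : QE q y) (f : G →* G') :
    QE q (f y) := by
  obtain ⟨k, hk⟩ := h
  exact ⟨k, by rw [← map_pow, hk, map_one]⟩

theorem Fm.map {G G' : Type*} [Group G] [Group G'] {p q : ℕ} {H : Subgroup G} (h : Fm p q H)
    {f : G →* G'} (hf : Function.Injective f) : Fm p q (H.map f) := by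
  obtain ⟨h1, y, hy, hq, hc⟩ := h
  refine ⟨h1.map f, f y, map_le_normalizer_map le_rfl f ⟨y, hy, rfl⟩, hq.map f, fun h => hc ?_⟩
  rw [mem_centralizer_iff] at h ⊢
  intro x hx
  apply hf
  rw [map_mul, map_mul]
  exact h _ ⟨x, hx, rfl⟩

/-- lifting along a homomorphism -/
theorem Fm.lift {G G' : Type*} [Group G] [Finite G] [Group G'] {p q : ℕ} [Fact q.Prime]
    {H : Subgroup G} (hH : IsPGroup p H) (f : G →* G') {n : G} (hn : n ∈ normalizer (H : Set G))
    (hq : QE q (f n)) (hc : f n ∉ centralizer ((H.map f : Subgroup G') : Set G')) :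
    ∃ b : ℕ, QE q (n ^ b) ∧ n ^ b ∉ centralizer (H : Set G) ∧ Fm p q H := by
  obtain ⟨b, hb, hqe⟩ := exists_qe q n
  have hnc : n ^ b ∉ centralizer (H : Set G) := by
    intro h
    obtain ⟨k, hk⟩ := hq
    refine hc (mem_of_pows (hb.pow_right k) ?_ (by rw [hk]; exact one_mem _))
    rw [← map_pow]
    exact map_le_centralizer_map le_rfl f ⟨_, h, rfl⟩
  exact ⟨b, hqe, hnc, hH, n ^ b, pow_mem hn b, hqe, hnc⟩

def autHom {G G' : Type*} [Group G] [Group G'] (f : G →* G') (H : Subgroup G) :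
    (normalizer (H : Set G) ⧸ (centralizer (H : Set G)).subgroupOf (normalizer (H : Set G))) →*
    (normalizer ((H.map f : Subgroup G') : Set G') ⧸
      (centralizer ((H.map f : Subgroup G') : Set G')).subgroupOf
        (normalizer ((H.map f : Subgroup G') : Set G'))) :=
  QuotientGroup.map _ _ ((f.comp (normalizer (H : Set G)).subtype).codRestrict _
    fun x => map_le_normalizer_map le_rfl f ⟨x.1, x.2, rfl⟩)
    fun x hx => map_le_centralizer_map le_rfl f ⟨x.1, hx, rfl⟩

theorem Hyp.subgroup {G : Type*} [Group G] [Finite G] {p : ℕ} [Fact p.Prime] (h : Hyp p G)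
    (M : Subgroup G) : Hyp p M := by
  intro H hH
  refine (h _ (hH.map M.subtype)).of_injective (f := autHom M.subtype H) ?_
  rw [injective_iff_map_eq_one]
  intro x hx
  obtain ⟨x, rfl⟩ := QuotientGroup.mk_surjective x
  have hx' := (QuotientGroup.eq_one_iff _).1 hx
  rw [QuotientGroup.eq_one_iff, mem_subgroupOf, mem_centralizer_iff]
  intro y hy
  exact Subtype.ext (hx' _ ⟨y, hy, rfl⟩)

theorem Hyp.quotient {G : Type*} [Group G] [Finite G] {p : ℕ} [Fact p.Prime] (h : Hyp p G)
    (Z : Subgroup G) [Z.Normal] (hZ : IsPGroup p Z) : Hyp p (G ⧸ Z) := by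
  intro H hH
  have hs := QuotientGroup.mk'_surjective Z
  have hH' : IsPGroup p (H.comap (QuotientGroup.mk' Z)) :=
    hH.comap_of_ker_isPGroup _ (by rwa [QuotientGroup.ker_mk'])
  rw [← map_comap_eq_self_of_surjective hs H]
  refine (h _ hH').of_surjective (f := autHom (QuotientGroup.mk' Z) _) ?_
  intro x
  obtain ⟨⟨x, hx⟩, rfl⟩ := QuotientGroup.mk_surjective x
  obtain ⟨x, rfl⟩ := hs x
  have hx' : x ∈ normalizer ((H.comap (QuotientGroup.mk' Z) : Subgroup G) : Set G) := by
    rw [map_comap_eq_self_of_surjective hs H] at hx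
    exact le_normalizer_comap _ hx
  exact ⟨QuotientGroup.mk ⟨x, hx'⟩, rfl⟩

theorem fm_iff {G : Type*} [Group G] [Finite G] {p q : ℕ} [hq : Fact q.Prime] {H : Subgroup G}
    (hH : IsPGroup p H) : Fm p q H ↔
      q ∣ ((centralizer (H : Set G)).subgroupOf (normalizer (H : Set G))).index := by
  rw [index_eq_card]
  constructor
  · rintro ⟨-, y, hy, ⟨k, hk⟩, hc⟩
    let z : normalizer (H : Set G) ⧸ (centralizer (H : Set G)).subgroupOf (normalizer (H : Set G)) :=
      QuotientGroup.mk ⟨y, hy⟩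
    have h1 : z ^ q ^ k = 1 := by
      rw [← QuotientGroup.mk_pow, QuotientGroup.eq_one_iff, mem_subgroupOf]
      simp [hk]
    have h2 : z ≠ 1 := by
      rw [Ne, QuotientGroup.eq_one_iff, mem_subgroupOf]; exact hc
    obtain ⟨j, -, hj⟩ := (Nat.dvd_prime_pow hq.out).1 (orderOf_dvd_of_pow_eq_one h1)
    have hj0 : j ≠ 0 := by
      rintro rfl
      exact h2 (orderOf_eq_one_iff.1 hj)
    exact (dvd_pow_self q hj0).trans (hj ▸ orderOf_dvd_natCard z)
  · intro h
    obtain ⟨z, hz⟩ := exists_prime_orderOf_dvd_card' q h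
    obtain ⟨n, rfl⟩ := QuotientGroup.mk_surjective z
    obtain ⟨b, hb, hqe⟩ := exists_qe q n.1
    refine ⟨hH, n.1 ^ b, pow_mem n.2 b, hqe, fun hc => ?_⟩
    have h1 : n.1 ^ q ∈ centralizer (H : Set G) := by
      have := pow_orderOf_eq_one (QuotientGroup.mk n : normalizer (H : Set G) ⧸
        (centralizer (H : Set G)).subgroupOf (normalizer (H : Set G)))
      rw [hz, ← QuotientGroup.mk_pow, QuotientGroup.eq_one_iff, mem_subgroupOf] at this
      exact this
    have h2 := mem_of_pows hb hc h1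
    have h3 : (QuotientGroup.mk n : normalizer (H : Set G) ⧸
        (centralizer (H : Set G)).subgroupOf (normalizer (H : Set G))) = 1 := by
      rw [QuotientGroup.eq_one_iff, mem_subgroupOf]; exact h2
    rw [h3, orderOf_one] at hz
    exact hq.out.one_lt.ne hz

theorem key1 {p q : ℕ} [hp : Fact p.Prime] [hq : Fact q.Prime] (hpq : p ≠ q)
    (h23 : ¬ ((p = 2 ∧ q = 3) ∨ (p = 3 ∧ q = 2))) {N : Type u} [Group N] [Finite N]
    (hs : IsPSolvable p N) (hqN : q ∣ (pPrimeCore p N).index) (P : Sylow p N) :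
    Fm p q (thJ p (P : Subgroup N)) ∨ ∃ T ≤ (P : Subgroup N), ∃ y ∈ normalizer (T : Set N),
      QE q y ∧ y ∉ centralizer (T : Set N) ∧
      y ∈ centralizer (omegaOne p ((P : Subgroup N) ⊓ centralizer ((P : Subgroup N) : Set N)) :
        Set N) := by
  let f := QuotientGroup.mk' (pPrimeCore p N)
  have hf : Function.Surjective f := QuotientGroup.mk'_surjective _
  have hker : (Nat.card f.ker).Coprime p := coprime_card_ker_mk'_pPrimeCore
  have hk : (P : Subgroup N) ⊓ f.ker = ⊥ := by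
    rw [QuotientGroup.ker_mk', inf_comm]; exact pPrimeCore_inf_eq_bot P.isPGroup'
  obtain ⟨y, hy, hyN⟩ := key0 hpq h23 (hs.quotient (pPrimeCore p N))
    pPrimeCore_quotient_pPrimeCore (by rwa [← index_eq_card]) (P.mapSurjective hf)
  rw [Sylow.coe_mapSurjective, th_center_map _ hk le_rfl, th_omegaOne_map p _ hk inf_le_left,
    thJ_map _ hk] at hyN
  have hqe : QE q y := ⟨1, by rw [pow_one, ← hy, pow_orderOf_eq_one]⟩
  have hZJ : omegaOne p ((P : Subgroup N) ⊓ centralizer ((P : Subgroup N) : Set N)) ≤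
      thJ p (P : Subgroup N) := by
    intro x hx
    rw [th_mem_omegaOne_iff (th_center_comm _)] at hx
    exact thZ_le_thJ _ _ (mem_thZ_of_mem_center hx.1.1 hx.1.2 hx.2)
  by_cases hc : y ∈ centralizer (((omegaOne p ((P : Subgroup N) ⊓
      centralizer ((P : Subgroup N) : Set N))).map f : Subgroup _) : Set (N ⧸ pPrimeCore p N))
  · right
    have hch := hs.charP_quotient
    have hTP : pCore p (N ⧸ pPrimeCore p N) ≤ (P : Subgroup N).map f :=
      pCore_le_sylow (P.mapSurjective hf)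
    set T : Subgroup N := (P : Subgroup N) ⊓ (pCore p (N ⧸ pPrimeCore p N)).comap f with hT
    have hTm : T.map f = pCore p (N ⧸ pPrimeCore p N) := by
      rw [hT, inf_comm]; exact th_map_comap_inf f hTP
    have hTp : IsPGroup p T := P.isPGroup'.to_le inf_le_left
    have hyT : y ∈ (normalizer (T : Set N)).map f := by
      rw [map_normalizer_of_coprime_ker hf hker hTp, hTm, normalizer_eq_top]; trivial
    obtain ⟨n, hn, rfl⟩ := hyT
    have hnc : f n ∉ centralizer ((T.map f : Subgroup _) : Set (N ⧸ pPrimeCore p N)) := by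
      rw [hTm]
      intro h
      obtain ⟨k, hk⟩ := isPGroup_pCore (p := p) ⟨_, hch h⟩
      have h1 : f n ^ p ^ k = 1 := congrArg Subtype.val hk
      have h2 := orderOf_dvd_of_pow_eq_one h1
      rw [hy] at h2
      exact hpq ((Nat.prime_dvd_prime_iff_eq hq.out hp.out).1 (hq.out.dvd_of_dvd_pow h2)).symm
    obtain ⟨b, h1, h2, -⟩ := Fm.lift (q := q) hTp f hn hqe hnc
    refine ⟨T, inf_le_left, n ^ b, pow_mem hn b, h1, h2, pow_mem ?_ b⟩
    rw [mem_centralizer_iff]
    intro z hz
    have hz' := th_omegaOne_le p _ hz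
    have hzT : z ∈ T := by
      refine ⟨hz'.1, hch ?_⟩
      rw [mem_centralizer_iff]
      intro w hw
      obtain ⟨w, hw', rfl⟩ := hTP hw
      rw [← map_mul, ← map_mul, hz'.2 w hw']
    have h3 : n * z * n⁻¹ ∈ T := (mem_normalizer_iff.1 hn z).1 hzT
    have h4 : n * z * n⁻¹ = z := by
      apply th_eq_of_map_eq f hk h3.1 hz'.1
      rw [map_mul, map_mul, map_inv, ← hc _ ⟨z, hz, rfl⟩]; group
    rw [← mul_inv_eq_iff_eq_mul.1 h4]
  · left
    have hJp : IsPGroup p (thJ p (P : Subgroup N)) := P.isPGroup'.to_le (thJ_le _ _)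
    rcases hyN with h | h
    · rw [← map_normalizer_of_coprime_ker hf hker hJp] at h
      obtain ⟨n, hn, rfl⟩ := h
      obtain ⟨-, -, -, h⟩ := Fm.lift (q := q) hJp f hn hqe
        fun h => hc (centralizer_le (map_mono hZJ) h)
      exact h
    · exact absurd h hc

theorem card_le_of_le {G : Type*} [Group G] [Finite G] {p : ℕ} [hp : Fact p.Prime]
    {Q A : Subgroup G} (hQ : IsPGroup p Q) (h : Q ≤ A) :
    Nat.card Q ≤ p ^ (Nat.card A).factorization p := by
  obtain ⟨n, hn⟩ := hQ.exists_card_eq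
  rw [hn]
  apply Nat.pow_le_pow_right hp.out.pos
  rw [← hp.out.pow_dvd_iff_le_factorization Nat.card_pos.ne', ← hn]
  exact card_dvd_of_le h

theorem cent_solv {p q : ℕ} [hp : Fact p.Prime] [hq : Fact q.Prime] {N : Type*} [Group N] [Finite N]
    {H : Subgroup N} [H.Normal] (hH : IsPGroup p H) {x : N} (hxq : QE q x)
    (hxC : x ∉ centralizer (H : Set N))
    (hmax : ∀ (K : Subgroup N) (Q : Sylow p N), Fm p q K →
      (Q : Subgroup N) ≤ normalizer (K : Set N) → Nat.card K ≤ Nat.card H) :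
    IsPSolvable p (centralizer (H : Set N)) := by
  set C := centralizer (H : Set N) with hC
  obtain ⟨S⟩ := (inferInstance : Nonempty (Sylow p C))
  obtain ⟨Q, hQ⟩ := S.exists_comap_subtype_eq
  set R : Subgroup N := (S : Subgroup C).map C.subtype with hR
  have hRQ : R = (Q : Subgroup N) ⊓ C := by
    rw [hR, ← hQ]; exact subgroupOf_map_subtype _ _
  have hRp : IsPGroup p R := S.isPGroup'.map _
  have hfr := S.normalizer_sup_eq_top
  rw [← hR] at hfr
  obtain ⟨n, hn, c, hc, rfl⟩ := (mem_sup_of_normal_right).1 (hfr ▸ mem_top x)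
  obtain ⟨b, hb, hqe⟩ := exists_qe q n
  have hnC : n ^ b ∉ C := by
    intro h
    obtain ⟨k, hk⟩ := hxq
    have h1 : n ^ q ^ k ∈ C := by
      rw [← QuotientGroup.eq_one_iff, QuotientGroup.mk_pow]
      have : (QuotientGroup.mk n : N ⧸ C) = QuotientGroup.mk (n * c) := by
        rw [QuotientGroup.mk_mul, (QuotientGroup.eq_one_iff c).2 hc, mul_one]
      rw [this, ← QuotientGroup.mk_pow, hk, QuotientGroup.mk_one]
    exact hxC (C.mul_mem (mem_of_pows (hb.pow_right k) h h1) hc)
  have hK : Fm p q (H ⊔ R) := ⟨hH.to_sup_of_normal_left hRp, n ^ b,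
    CopAct.le_normalizer_sup (A := normalizer (R : Set N)) le_normalizer_of_normal le_rfl
      (pow_mem hn b), hqe, fun h => hnC (centralizer_le (SetLike.coe_subset_coe.2 le_sup_left) h)⟩
  have hle := hmax _ Q hK (CopAct.le_normalizer_sup le_normalizer_of_normal (by
    rw [hRQ]; exact CopAct.le_normalizer_inf le_normalizer le_normalizer_of_normal))
  have hRH : R ≤ H := by
    rw [eq_of_le_of_card_ge le_sup_left hle]; exact le_sup_right
  have hSn : (S : Subgroup C).Normal := ⟨fun s hs g => by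
    have : (g : N) * s * (g : N)⁻¹ = s := by
      rw [← g.2 s (hRH ⟨s, hs, rfl⟩)]; group
    rw [show g * s * g⁻¹ = s from Subtype.ext this]; exact hs⟩
  exact IsPSolvable.extension (S : Subgroup C) (isPSolvable_of_isPGroup S.isPGroup')
    (isPSolvable_of_not_dvd (by rw [← index_eq_card]; exact S.not_dvd_index))

theorem main {p q : ℕ} [hp : Fact p.Prime] [hq : Fact q.Prime] (hpq : p ≠ q)
    (h23 : ¬ ((p = 2 ∧ q = 3) ∨ (p = 3 ∧ q = 2))) (G : Type u) [Group G] [Finite G] :
    Hyp p G → (∃ H : Subgroup G, Fm p q H) → ∀ P : Sylow p G,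
      ∃ K ≤ (P : Subgroup G), (P : Subgroup G) ≤ normalizer (K : Set G) ∧ Fm p q K := by
  refine card_induction (P := fun G _ _ => Hyp p G → (∃ H : Subgroup G, Fm p q H) → ∀ P : Sylow p G,
      ∃ K ≤ (P : Subgroup G), (P : Subgroup G) ≤ normalizer (K : Set G) ∧ Fm p q K) ?_ G
  intro G _ _ ih hyp hex P
  let v : Subgroup G → ℕ := fun H => (Nat.card (normalizer (H : Set G))).factorization p
  obtain ⟨H0, hH0, hmax0⟩ := Set.exists_max_image {H : Subgroup G | Fm p q H} v (Set.toFinite _) hex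
  obtain ⟨H, ⟨hH, hHv⟩, hmax1⟩ := Set.exists_max_image {H : Subgroup G | Fm p q H ∧ v H = v H0}
    (fun H => Nat.card H) (Set.toFinite _) ⟨H0, hH0, rfl⟩
  set N := normalizer (H : Set G) with hN
  have hHN : H ≤ N := le_normalizer
  obtain ⟨S⟩ := (inferInstance : Nonempty (Sylow p N))
  set P0 : Subgroup G := (S : Subgroup N).map N.subtype with hP0
  have hP0p : IsPGroup p P0 := S.isPGroup'.map _
  have hP0N : P0 ≤ N := map_subtype_le _
  have hP0c : Nat.card P0 = p ^ v H := by
    rw [hP0, card_map_of_injective (subtype_injective _), S.card_eq_multiplicity]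
  have hHn : (H.subgroupOf N).Normal := normal_in_normalizer
  have hHp : IsPGroup p (H.subgroupOf N) := hH.1.comap_of_injective _ (subtype_injective N)
  have hHP0 : H ≤ P0 := by
    intro x hx
    exact ⟨⟨x, hHN hx⟩, (le_pCore hHp).trans (pCore_le_sylow S) hx, rfl⟩
  have hbig : ∀ K Q : Subgroup G, Fm p q K → IsPGroup p Q → Q ≤ normalizer (K : Set G) →
      Nat.card Q ≤ Nat.card P0 := by
    intro K Q hK hQ hQK
    rw [hP0c, hHv]
    exact (card_le_of_le hQ hQK).trans (Nat.pow_le_pow_right hp.out.pos (hmax0 K hK))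
  have hbig2 : ∀ K Q : Subgroup G, Fm p q K → IsPGroup p Q → Nat.card Q = p ^ v H →
      Q ≤ normalizer (K : Set G) → Nat.card K ≤ Nat.card H := by
    intro K Q hK hQ hQc hPK
    refine hmax1 K ⟨hK, le_antisymm (hmax0 K hK) ?_⟩
    have := card_le_of_le hQ hPK
    rw [hQc, hHv] at this
    exact (Nat.pow_le_pow_iff_right hp.out.one_lt).1 this
  obtain ⟨R, hR⟩ := hP0p.exists_le_sylow
  rcases hR.eq_or_lt with hR | hR
  · obtain ⟨g, rfl⟩ := MulAction.exists_smul_eq G R P
    rw [Sylow.coe_subgroup_smul, ← hR, HT.conj_smul_eq_map]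
    exact ⟨H.map (MulAut.conj g).toMonoidHom, map_mono hHP0, map_le_normalizer_map hP0N _,
      hH.map (MulAut.conj g).injective⟩
  have hlt := CopAct.lt_inf_normalizer_of_isNilpotent R.isPGroup'.isNilpotent hR
  set P1 : Subgroup G := (R : Subgroup G) ⊓ normalizer (P0 : Set G) with hP1
  have hP1p : IsPGroup p P1 := R.isPGroup'.to_le inf_le_left
  have hP1c := HT.card_lt_of_lt hlt
  obtain ⟨-, x, hxN, hxq, hxC⟩ := id hH
  set C := centralizer (H : Set G) with hC
  have hNC : N ≤ normalizer (C : Set G) := th_normalizer_le_normalizer_centralizer H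
  have hCN : C ≤ N := centralizer_le_normalizer _
  -- `C` is `p`-solvable
  have hCs : IsPSolvable p (C.subgroupOf N) := by
    have hCe : C.subgroupOf N = centralizer ((H.subgroupOf N : Subgroup N) : Set N) := by
      ext w
      rw [mem_subgroupOf, hC, mem_centralizer_iff, mem_centralizer_iff]
      exact ⟨fun h z hz => Subtype.ext (h _ hz), fun h z hz =>
        congrArg Subtype.val (h ⟨z, hHN hz⟩ hz)⟩
    rw [hCe]
    refine cent_solv (q := q) hHp (x := ⟨x, hxN⟩) (by
      obtain ⟨k, hk⟩ := hxq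
      exact ⟨k, Subtype.ext hk⟩) (by rw [← hCe]; exact hxC) ?_
    intro K Q hK hQK
    rw [HT.card_subgroupOf_of_le hHN, ← card_map_of_injective (subtype_injective N)]
    refine hbig2 _ ((Q : Subgroup N).map N.subtype) (hK.map (subtype_injective N))
      (Q.isPGroup'.map _) ?_ (map_le_normalizer_map hQK _)
    rw [card_map_of_injective (subtype_injective _), Q.card_eq_multiplicity]
  have hNs : IsPSolvable p N := IsPSolvable.extension (C.subgroupOf N) hCs (hyp H hH.1)
  have hqN : q ∣ (pPrimeCore p N).index := by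
    refine ((fm_iff hH.1).1 hH).trans (index_dvd_of_le ?_)
    intro z hz
    rw [mem_subgroupOf, mem_centralizer_iff]
    intro w hw
    exact congrArg Subtype.val (pPrimeCore_le_centralizer hHp hz ⟨w, hHN hw⟩ hw)
  have hk := th_inf_ker_of_injective N.subtype (subtype_injective N) (S : Subgroup N)
  rcases key1 hpq h23 hNs hqN S with h | ⟨T, hT, y, hyN, hyq, hyC, hyZ⟩
  · have h' := h.map (subtype_injective N)
    rw [← thJ_map _ hk, ← hP0] at h'
    exact absurd (hbig _ P1 h' hP1p (inf_le_right.trans (normalizer_le_normalizer_thJ p P0)))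
      (by omega)
  have hyZ' := map_le_centralizer_map le_rfl N.subtype ⟨y, hyZ, rfl⟩
  rw [← th_omegaOne_map p _ hk inf_le_left, ← th_center_map _ hk le_rfl, ← hP0] at hyZ'
  set Z := omegaOne p (P0 ⊓ centralizer (P0 : Set G)) with hZ
  have hZP : Z ≤ P0 ⊓ centralizer (P0 : Set G) := th_omegaOne_le p _
  have hTF : Fm p q (T.map N.subtype) :=
    Fm.map ⟨S.isPGroup'.to_le hT, y, hyN, hyq, hyC⟩ (subtype_injective N)
  have hyN' := map_le_normalizer_map le_rfl N.subtype ⟨y, hyN, rfl⟩
  have hyC' : N.subtype y ∉ centralizer ((T.map N.subtype : Subgroup G) : Set G) := by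
    intro h
    apply hyC
    rw [mem_centralizer_iff]
    intro w hw
    exact Subtype.ext (h _ ⟨w, hw, rfl⟩)
  have hTP : T.map N.subtype ≤ P0 := map_mono hT
  have hyq' := hyq.map N.subtype
  generalize T.map N.subtype = T' at hTF hyN' hyC' hTP
  generalize N.subtype y = y' at hyZ' hyN' hyC' hyq'
  have hPZ : normalizer (P0 : Set G) ≤ normalizer (Z : Set G) := by
    refine le_trans ?_ (th_normalizer_le_normalizer_omegaOne p _)
    exact CopAct.le_normalizer_inf le_rfl (th_normalizer_le_normalizer_centralizer P0)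
  set M := normalizer (Z : Set G) with hM
  by_cases hMt : M = ⊤
  · have hZn : Z.Normal := normalizer_eq_top_iff.1 hMt
    have hZp : IsPGroup p Z := hP0p.to_le (hZP.trans inf_le_left)
    have hH1 : P0 ≠ ⊥ := by
      intro h
      apply hxC
      rw [mem_centralizer_iff]
      intro w hw
      have : w = 1 := mem_bot.1 (h ▸ hHP0 hw)
      rw [this]; simp
    have hZ1 : Z ≠ ⊥ := by
      obtain ⟨z, hz1, hz2, hz3, hz4⟩ := th_exists_center_order hP0p hH1
      intro h
      have : z ∈ Z := th_mem_omegaOne (mem_inf.2 ⟨hz1, hz2⟩) hz4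
      exact hz3 (mem_bot.1 (h ▸ this))
    let f := QuotientGroup.mk' Z
    have hf : Function.Surjective f := QuotientGroup.mk'_surjective _
    obtain ⟨K, hKP, hPK, hK⟩ := ih (G ⧸ Z) (HT.card_quotient_lt Z hZ1) (hyp.quotient Z hZp)
      ⟨T'.map f, hTF.1.map f, f y', map_le_normalizer_map le_rfl f ⟨y', hyN', rfl⟩, hyq'.map f,
        fun h => hyC' (by
        rw [mem_centralizer_iff]
        intro t ht
        have h1 : y' * t * y'⁻¹ * t⁻¹ ∈ Z := by
          rw [← QuotientGroup.ker_mk' Z]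
          change f _ = 1
          rw [map_mul, map_mul, map_mul, map_inv, map_inv, ← h _ ⟨t, ht, rfl⟩]
          group
        set z := y' * t * y'⁻¹ * t⁻¹ with hz
        have h2 : ∀ n : ℕ, y' ^ n * t = z ^ n * t * y' ^ n := by
          intro n
          induction n with
          | zero => simp
          | succ n ih =>
            have hc : y' * z ^ n = z ^ n * y' := (hyZ' _ (Z.pow_mem h1 n)).symm
            calc y' ^ (n + 1) * t = y' * (y' ^ n * t) := by group
              _ = (y' * z ^ n) * t * y' ^ n := by rw [ih]; group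
              _ = z ^ n * (y' * t * y'⁻¹ * t⁻¹) * t * y' ^ (n + 1) := by rw [hc]; group
              _ = _ := by rw [← hz]; group
        obtain ⟨k, hk⟩ := hyq'
        have h3 := h2 (q ^ k)
        rw [hk, one_mul, mul_one, right_eq_mul] at h3
        obtain ⟨j, hj⟩ := hZp ⟨z, h1⟩
        have h4 : z ^ p ^ j = 1 := congrArg Subtype.val hj
        have h5 : z ∈ (⊥ : Subgroup G) := mem_of_pows
          (((Nat.coprime_primes hp.out hq.out).2 hpq).pow j k) h4 h3
        have h6 : y' * t * y'⁻¹ * t⁻¹ = 1 := h5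
        rw [mul_inv_eq_one, mul_inv_eq_iff_eq_mul] at h6
        exact h6.symm)⟩ (P.mapSurjective hf)
    rw [Sylow.coe_mapSurjective] at hKP hPK
    have hZP' : Z ≤ P := (le_pCore hZp).trans (pCore_le_sylow P)
    refine ⟨K.comap f, ?_, ?_, ?_⟩
    · refine (comap_mono hKP).trans ?_
      rw [comap_map_eq, QuotientGroup.ker_mk', sup_eq_left.2 hZP']
    · exact (le_comap_map f _).trans ((comap_mono hPK).trans (le_normalizer_comap f))
    · obtain ⟨h1, w, hw, hwq, hwc⟩ := hK
      obtain ⟨n, rfl⟩ := hf w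
      obtain ⟨-, -, -, h⟩ := Fm.lift (q := q)
        (h1.comap_of_ker_isPGroup f (by rwa [QuotientGroup.ker_mk'])) f
        (le_normalizer_comap f hw) hwq (by rwa [map_comap_eq_self_of_surjective hf])
      exact h
  · exfalso
    have hP1M : P1 ≤ M := inf_le_right.trans hPZ
    have hTM : T' ≤ M := hTP.trans (le_normalizer.trans hPZ)
    have hyM : y' ∈ M := centralizer_le_normalizer _ hyZ'
    obtain ⟨P', hP'⟩ := (hP1p.comap_of_injective _ (subtype_injective M)).exists_le_sylow
    obtain ⟨K, -, hPK, hK⟩ := ih M (HT.card_lt_of_ne_top hMt) (hyp.subgroup M)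
      ⟨T'.subgroupOf M, hTF.1.comap_of_injective _ (subtype_injective M), ⟨y', hyM⟩,
        le_normalizer_comap M.subtype hyN', (by
          obtain ⟨k, hk⟩ := hyq'
          exact ⟨k, Subtype.ext hk⟩), fun h => hyC' (by
          rw [mem_centralizer_iff]
          intro t ht
          exact congrArg Subtype.val (h ⟨t, hTM ht⟩ ht))⟩ P'
    have := hbig _ P1 (hK.map (subtype_injective M)) hP1p (by
      intro w hw
      exact map_le_normalizer_map hPK M.subtype ⟨⟨w, hP1M hw⟩, hP' hw, rfl⟩)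
    omega

/-- Let p and q be distinct primes with {p, q} ≠ {2, 3}, and let G be a finite group such that for every p-subgroup H of G the automizer N_G(H)/C_G(H) is p-solvable. If q divides the order of N_G(H)/C_G(H) for some p-subgroup H, then a Sylow p-subgroup of G has a normal subgroup K (normal in the Sylow subgroup) such that q divides the order of N_G(K)/C_G(K). -/
theorem result {G : Type*} [Group G] [Finite G]
    (p q : ℕ) [Fact p.Prime] [Fact q.Prime] (hpq : p ≠ q) (h23 : ¬ ((p = 2 ∧ q = 3) ∨ (p = 3 ∧ q = 2)))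
    (hsol : ∀ H : Subgroup G, IsPGroup p ↥H →
      Cfsg.IsPSolvable p (↥(Subgroup.normalizer (H : Set G)) ⧸ (Subgroup.centralizer (H : Set G)).subgroupOf (Subgroup.normalizer (H : Set G))))
    (H : Subgroup G) (hH : IsPGroup p ↥H)
    (hq : q ∣ ((Subgroup.centralizer (H : Set G)).subgroupOf (Subgroup.normalizer (H : Set G))).index)
    (Gp : Sylow p G) :
    ∃ K : Subgroup G, K ≤ (Gp : Subgroup G) ∧ (Gp : Subgroup G) ≤ Subgroup.normalizer (K : Set G) ∧
      q ∣ ((Subgroup.centralizer (K : Set G)).subgroupOf (Subgroup.normalizer (K : Set G))).index := by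
  obtain ⟨K, h1, h2, h3⟩ := main hpq h23 G hsol ⟨H, (fm_iff hH).2 hq⟩ Gp
  exact ⟨K, h1, h2, (fm_iff h3.1).1 h3⟩

end Cfsg.Agent.S4411
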