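import Mathlib
import Cfsg.Statements.S4412
import Cfsg.Agent.GT.TransferAbelian
import Cfsg.Agent.GT.PGroupElemAb
-- import your own Cfsg.Agent.* helpers here

set_option autoImplicit false
open Cfsg

namespace Cfsg.Agent.S4412

open Subgroup Cfsg.Agent.GT

section
variable {P : Type*} [Group P] [Finite P]

theorem sq_inj (hodd : Odd (Nat.card P)) {y z : P} (h : y * y = z * z) : y = z := by
  have hc : (Nat.card P).Coprime 2 := Nat.coprime_two_right.2 hodd
  apply (powCoprime hc).injective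
  simpa [powCoprime, sq] using h

theorem sq_surj (hodd : Odd (Nat.card P)) (x : P) : ∃ y : P, y * y = x := by
  have hc : (Nat.card P).Coprime 2 := Nat.coprime_two_right.2 hodd
  obtain ⟨y, hy⟩ := (powCoprime hc).surjective x
  exact ⟨y, by simpa [powCoprime, sq] using hy⟩

theorem eq_one_of_inv (hodd : Odd (Nat.card P)) {x : P} (h : x⁻¹ = x) : x = 1 := by
  apply sq_inj hodd
  nth_rewrite 1 [← h]
  simp

/-- an eigen element with at least the signs of a given element -/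
theorem exists_eigen (hodd : Odd (Nat.card P)) {I : Subgroup (MulAut P)}
    (hc : ∀ s ∈ I, ∀ t ∈ I, ∀ x, s (t x) = t (s x)) (h2 : ∀ s ∈ I, ∀ x, s (s x) = x)
    {x : P} (hx : x ≠ 1) :
    ∃ y : P, y ≠ 1 ∧ (∀ s ∈ I, s y = y ∨ s y = y⁻¹) ∧ (∀ s ∈ I, s x = x → s y = y) ∧
      (∀ s ∈ I, s x = x⁻¹ → s y = y⁻¹) := by
  classical
  have : Finite (MulAut P) := Finite.of_injective (fun f : MulAut P => (f : P → P))
    DFunLike.coe_injective
  let S : Set P := {y | y ≠ 1 ∧ (∀ s ∈ I, s x = x → s y = y) ∧ (∀ s ∈ I, s x = x⁻¹ → s y = y⁻¹)}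
  let f : P → ℕ := fun y => Set.ncard {s : MulAut P | s ∈ I ∧ (s y = y ∨ s y = y⁻¹)}
  obtain ⟨y, hyS, hmax⟩ := Set.exists_max_image S f (Set.toFinite S)
    ⟨x, hx, fun _ _ h => h, fun _ _ h => h⟩
  refine ⟨y, hyS.1, ?_, hyS.2.1, hyS.2.2⟩
  by_contra hcon
  push Not at hcon
  obtain ⟨s, hs, hs1, hs2⟩ := hcon
  obtain ⟨r, hr⟩ := sq_surj hodd (y⁻¹ * s y)
  have hfix : ∀ u ∈ I, u y = y → u (y * r) = y * r := by
    intro u hu huy
    have : u r = r := by
      apply sq_inj hodd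
      rw [← map_mul, hr, map_mul, map_inv, hc u hu s hs, huy]
    rw [map_mul, huy, this]
  have hinv : ∀ u ∈ I, u y = y⁻¹ → u (y * r) = (y * r)⁻¹ := by
    intro u hu huy
    have : u r = y * r⁻¹ * y⁻¹ := by
      apply sq_inj hodd
      rw [← map_mul, hr, map_mul, map_inv, hc u hu s hs, huy, map_inv, inv_inv]
      have : y * r⁻¹ * y⁻¹ * (y * r⁻¹ * y⁻¹) = y * (r * r)⁻¹ * y⁻¹ := by group
      rw [this, hr]; group
    rw [map_mul, huy, this]; group
  have hsm : s (y * r) = y * r := by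
    have : s r = r⁻¹ := by
      apply sq_inj hodd
      rw [← map_mul, hr, map_mul, map_inv, h2 s hs]
      have : r⁻¹ * r⁻¹ = (r * r)⁻¹ := by group
      rw [this, hr]; group
    rw [map_mul, this]
    have : s y = y * (r * r) := by rw [hr]; group
    rw [this]; group
  have hm1 : y * r ≠ 1 := by
    intro h
    apply hs2
    have h1 : r = y⁻¹ := eq_inv_of_mul_eq_one_right h
    have : s y = y * (r * r) := by rw [hr]; group
    rw [this, h1]; group
  have hmS : y * r ∈ S := ⟨hm1, fun u hu h => hfix u hu (hyS.2.1 u hu h),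
    fun u hu h => hinv u hu (hyS.2.2 u hu h)⟩
  have hle := hmax _ hmS
  have hlt : f y < f (y * r) := by
    apply Set.ncard_lt_ncard _ (Set.toFinite _)
    refine ⟨fun u hu => ⟨hu.1, hu.2.imp (hfix u hu.1) (hinv u hu.1)⟩, fun h => ?_⟩
    rcases (h ⟨hs, Or.inl hsm⟩).2 with h | h
    · exact hs1 h
    · exact hs2 h
  omega

theorem exists_eigen_inv (hodd : Odd (Nat.card P)) {I : Subgroup (MulAut P)}
    (hc : ∀ s ∈ I, ∀ t ∈ I, ∀ x, s (t x) = t (s x)) (h2 : ∀ s ∈ I, ∀ x, s (s x) = x)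
    {t : MulAut P} (ht : t ∈ I) (ht1 : t ≠ 1) :
    ∃ y : P, y ≠ 1 ∧ (∀ s ∈ I, s y = y ∨ s y = y⁻¹) ∧ t y = y⁻¹ := by
  obtain ⟨x, hx⟩ : ∃ x, t x ≠ x := by
    by_contra h
    push Not at h
    exact ht1 (MulEquiv.ext h)
  have h1 : x⁻¹ * t x ≠ 1 := fun h => hx (inv_mul_eq_one.1 h).symm
  obtain ⟨y, hy1, hy, -, hy2⟩ := exists_eigen hodd hc h2 h1
  refine ⟨y, hy1, hy, hy2 t ht ?_⟩
  rw [map_mul, map_inv, h2 t ht]; group

omit [Finite P] in
theorem pigeon {I : Subgroup (MulAut P)} (hI8 : Nat.card I = 8) {x y : P}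
    (hx : ∀ s ∈ I, s x = x ∨ s x = x⁻¹) (hy : ∀ s ∈ I, s y = y ∨ s y = y⁻¹) :
    ∃ t ∈ I, t ≠ 1 ∧ t x = x ∧ t y = y := by
  classical
  have : Finite I := Nat.finite_of_card_ne_zero (by rw [hI8]; norm_num)
  have := Fintype.ofFinite I
  obtain ⟨a, b, hab, h⟩ := Fintype.exists_ne_map_eq_of_card_lt
    (fun s : I => (decide (s.1 x = x), decide (s.1 y = y)))
    (by rw [← Nat.card_eq_fintype_card (α := I), hI8]; simp)
  simp only [Prod.mk.injEq, decide_eq_decide] at h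
  have key : ∀ z : P, (∀ s ∈ I, s z = z ∨ s z = z⁻¹) → (a.1 z = z ↔ b.1 z = z) →
      (a.1⁻¹ * b.1) z = z := by
    intro z hz h
    have : b.1 z = a.1 z := by
      by_cases ha : a.1 z = z
      · rw [ha, h.1 ha]
      · have hb : ¬ b.1 z = z := fun hb => ha (h.2 hb)
        rw [(hz _ a.2).resolve_left ha, (hz _ b.2).resolve_left hb]
    rw [MulAut.mul_apply, this]; simp
  refine ⟨a.1⁻¹ * b.1, I.mul_mem (I.inv_mem a.2) b.2, fun h => hab ?_, key x hx h.1, key y hy h.2⟩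
  exact Subtype.ext (inv_mul_eq_one.1 h)

theorem inv_of_cyc {p : ℕ} [Fact p.Prime] (hP : IsPGroup p P) (hodd : Odd (Nat.card P))
    {T U : MulAut P} (hc : ∀ x, U (T x) = T (U x)) (h2 : ∀ x, T (T x) = x) {g : P}
    (hg : ∀ x, U x = x ↔ x ∈ zpowers g) {x : P} (hx1 : x ≠ 1) (hxU : U x = x) (hxT : T x = x⁻¹)
    {z : P} (hz : U z = z) : T z = z⁻¹ := by
  have hTz : T z ∈ zpowers g := (hg _).1 (by rw [hc, hz])
  have hzg := (hg _).1 hz
  have hcomm : z * T z = T z * z := by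
    obtain ⟨i, hi⟩ := mem_zpowers_iff.1 hTz
    obtain ⟨j, hj⟩ := mem_zpowers_iff.1 hzg
    rw [← hi, ← hj]
    exact (Commute.refl g).zpow_zpow j i
  have hfix : T (z * T z) = z * T z := by rw [map_mul, h2, hcomm]
  have := Tr.eq_bot_or_eq_bot_of_isCyclic (p := p) (P := zpowers g) (A := zpowers (z * T z))
    (B := zpowers x) (hP.to_subgroup _) inferInstance
    (by rw [zpowers_le]; exact mul_mem hzg hTz) (by rw [zpowers_le]; exact (hg _).1 hxU) (by
      rw [eq_bot_iff]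
      rintro w ⟨h1, h2⟩
      obtain ⟨i, rfl⟩ := mem_zpowers_iff.1 h1
      obtain ⟨j, hj⟩ := mem_zpowers_iff.1 h2
      rw [mem_bot]
      apply eq_one_of_inv hodd
      have e1 : T ((z * T z) ^ i) = (z * T z) ^ i := by rw [map_zpow, hfix]
      have e2 : T ((z * T z) ^ i) = ((z * T z) ^ i)⁻¹ := by
        rw [← hj, map_zpow, hxT, inv_zpow]
      rw [← e2, e1])
  rcases this with h | h
  · rw [zpowers_eq_bot] at h
    exact eq_inv_of_mul_eq_one_right h
  · rw [zpowers_eq_bot] at h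
    exact absurd h hx1

theorem not_cyc {p : ℕ} [Fact p.Prime] (hP : IsPGroup p P) (hodd : Odd (Nat.card P))
    {T U : MulAut P} (hc : ∀ x, U (T x) = T (U x)) (h2 : ∀ x, T (T x) = x)
    {x z : P} (hx1 : x ≠ 1) (hz1 : z ≠ 1) (hxU : U x = x) (hz : U z = z) (hxT : T x = x⁻¹)
    (hzT : T z = z) : ¬ ∃ g : P, ∀ x : P, (U x = x ↔ x ∈ zpowers g) := by
  rintro ⟨g, hg⟩
  have := inv_of_cyc hP hodd hc h2 hg hx1 hxU hxT hz
  exact hz1 (eq_one_of_inv hodd (by rw [← this, hzT]))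

theorem exists_basis (hodd : Odd (Nat.card P)) {I : Subgroup (MulAut P)} (hI8 : Nat.card I = 8)
    (hc : ∀ s ∈ I, ∀ t ∈ I, ∀ x, s (t x) = t (s x)) (h2 : ∀ s ∈ I, ∀ x, s (s x) = x) :
    ∃ (x y z : P) (A B C : MulAut P), x ≠ 1 ∧ y ≠ 1 ∧ z ≠ 1 ∧ A ∈ I ∧ B ∈ I ∧ C ∈ I ∧
      A x = x⁻¹ ∧ A y = y ∧ A z = z ∧ B x = x ∧ B y = y⁻¹ ∧ B z = z ∧
      C x = x ∧ C y = y ∧ C z = z⁻¹ := by
  obtain ⟨a, ha, ha1, -, -⟩ := pigeon hI8 (x := 1) (y := 1) (fun s _ => Or.inl (map_one s))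
    (fun s _ => Or.inl (map_one s))
  obtain ⟨x, hx1, hx, hax⟩ := exists_eigen_inv hodd hc h2 ha ha1
  obtain ⟨b, hb, hb1, hbx, -⟩ := pigeon hI8 hx hx
  obtain ⟨y, hy1, hy, hby⟩ := exists_eigen_inv hodd hc h2 hb hb1
  obtain ⟨c, hcI, hc1, hcx, hcy⟩ := pigeon hI8 hx hy
  obtain ⟨z, hz1, hz, hcz⟩ := exists_eigen_inv hodd hc h2 hcI hc1
  obtain ⟨B, hB, hBx, hBy, hBz⟩ : ∃ B ∈ I, B x = x ∧ B y = y⁻¹ ∧ B z = z := by
    rcases hz b hb with h | h
    · exact ⟨b, hb, hbx, hby, h⟩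
    · refine ⟨b * c, I.mul_mem hb hcI, ?_, ?_, ?_⟩ <;>
        simp [MulAut.mul_apply, hcx, hcy, hcz, hbx, hby, h]
  obtain ⟨A', hA', hA'x, hA'y⟩ : ∃ A ∈ I, A x = x⁻¹ ∧ A y = y := by
    rcases hy a ha with h | h
    · exact ⟨a, ha, hax, h⟩
    · refine ⟨a * b, I.mul_mem ha hb, ?_, ?_⟩ <;>
        simp [MulAut.mul_apply, hax, hbx, hby, h]
  obtain ⟨A, hA, hAx, hAy, hAz⟩ : ∃ A ∈ I, A x = x⁻¹ ∧ A y = y ∧ A z = z := by
    rcases hz A' hA' with h | h
    · exact ⟨A', hA', hA'x, hA'y, h⟩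
    · refine ⟨A' * c, I.mul_mem hA' hcI, ?_, ?_, ?_⟩ <;>
        simp [MulAut.mul_apply, hcx, hcy, hcz, hA'x, hA'y, h]
  exact ⟨x, y, z, A, B, c, hx1, hy1, hz1, hA, hB, hcI, hAx, hAy, hAz, hBx, hBy, hBz, hcx, hcy, hcz⟩

theorem enum (hodd : Odd (Nat.card P)) {I : Subgroup (MulAut P)} (hI8 : Nat.card I = 8)
    {x y z : P} {A B C : MulAut P} (hx : x ≠ 1) (hy : y ≠ 1) (hz : z ≠ 1) (hA : A ∈ I) (hB : B ∈ I)
    (hC : C ∈ I) (hAx : A x = x⁻¹) (hAy : A y = y) (hAz : A z = z) (hBx : B x = x)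
    (hBy : B y = y⁻¹) (hBz : B z = z) (hCx : C x = x) (hCy : C y = y) (hCz : C z = z⁻¹) :
    ∀ s ∈ I, s = 1 ∨ s = A ∨ s = B ∨ s = C ∨ s = B * C ∨ s = A * C ∨ s = A * B ∨ s = A * B * C := by
  have hx' : x⁻¹ ≠ x := fun h => hx (eq_one_of_inv hodd h)
  have hy' : y⁻¹ ≠ y := fun h => hy (eq_one_of_inv hodd h)
  have hz' : z⁻¹ ≠ z := fun h => hz (eq_one_of_inv hodd h)
  have : Finite I := Nat.finite_of_card_ne_zero (by rw [hI8]; norm_num)
  let g : Bool × Bool × Bool → I := fun v =>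
    ⟨(cond v.1 A 1) * (cond v.2.1 B 1) * (cond v.2.2 C 1),
      I.mul_mem (I.mul_mem (by cases v.1 <;> simp [hA]) (by cases v.2.1 <;> simp [hB]))
        (by cases v.2.2 <;> simp [hC])⟩
  have ex : ∀ v, (g v).1 x = cond v.1 x⁻¹ x := by
    rintro ⟨a, b, c⟩
    cases a <;> cases b <;> cases c <;> simp [g, MulAut.mul_apply, hAx, hBx, hCx]
  have ey : ∀ v, (g v).1 y = cond v.2.1 y⁻¹ y := by
    rintro ⟨a, b, c⟩
    cases a <;> cases b <;> cases c <;> simp [g, MulAut.mul_apply, hAy, hBy, hCy]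
  have ez : ∀ v, (g v).1 z = cond v.2.2 z⁻¹ z := by
    rintro ⟨a, b, c⟩
    cases a <;> cases b <;> cases c <;> simp [g, MulAut.mul_apply, hAz, hBz, hCz]
  have key : ∀ (w : P), w⁻¹ ≠ w → ∀ a b : Bool, cond a w⁻¹ w = cond b w⁻¹ w → a = b := by
    intro w hw a b h
    cases a <;> cases b
    · rfl
    · exact absurd h.symm hw
    · exact absurd h hw
    · rfl
  have hinj : Function.Injective g := by
    rintro ⟨a, b, c⟩ ⟨a', b', c'⟩ h
    have e1 := key x hx' a a' (by rw [← ex (a, b, c), ← ex (a', b', c'), h])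
    have e2 := key y hy' b b' (by rw [← ey (a, b, c), ← ey (a', b', c'), h])
    have e3 := key z hz' c c' (by rw [← ez (a, b, c), ← ez (a', b', c'), h])
    rw [e1, e2, e3]
  have hbij := hinj.bijective_of_nat_card_le (by rw [hI8]; simp)
  intro s hs
  obtain ⟨⟨a, b, c⟩, h⟩ := hbij.2 ⟨s, hs⟩
  have h' : s = (cond a A 1) * (cond b B 1) * (cond c C 1) := (congrArg Subtype.val h).symm
  rw [h']
  cases a <;> cases b <;> cases c <;> simp

end

theorem not_two_gen {P : Type*} [CommGroup P] [Finite P] {p : ℕ} [hp : Fact p.Prime]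
    (hP : IsPGroup p P) (hodd : Odd (Nat.card P)) {x y z : P} {A B : MulAut P}
    (hx : x ≠ 1) (hy : y ≠ 1) (hz : z ≠ 1) (hAx : A x = x⁻¹) (hAy : A y = y) (hAz : A z = z)
    (hBy : B y = y⁻¹) (hBz : B z = z) : ¬ ∃ a b : P, closure {a, b} = ⊤ := by
  rintro ⟨a, b, hab⟩
  have red : ∀ w : P, w ≠ 1 → ∃ n : ℤ, orderOf (w ^ n) = p := by
    intro w hw
    have hne : zpowers w ≠ ⊥ := by rwa [Ne, zpowers_eq_bot]
    obtain ⟨k, hk⟩ := (hP.to_subgroup (zpowers w)).exists_card_eq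
    have hk0 : k ≠ 0 := by
      rintro rfl
      exact hne (card_eq_one.1 (by simpa using hk))
    obtain ⟨u, hu⟩ := exists_prime_orderOf_dvd_card' (G := zpowers w) p
      (by rw [hk]; exact dvd_pow_self p hk0)
    obtain ⟨n, hn⟩ := mem_zpowers_iff.1 u.2
    exact ⟨n, by rw [hn, orderOf_coe, hu]⟩
  obtain ⟨i, hi⟩ := red x hx
  obtain ⟨j, hj⟩ := red y hy
  obtain ⟨k, hk⟩ := red z hz
  let φ : P →* P := powMonoidHom p
  have hk1 : ∀ w : P, orderOf w = p → ∀ u ∈ zpowers w, u ^ p = 1 := by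
    intro w hw u hu
    obtain ⟨n, rfl⟩ := mem_zpowers_iff.1 hu
    rw [← zpow_natCast, ← zpow_mul, mul_comm, zpow_mul, zpow_natCast, ← hw, pow_orderOf_eq_one,
      one_zpow]
  have sgn : ∀ (T : MulAut P) (w : P) (n : ℤ) (u : P), u ∈ zpowers (w ^ n) →
      (T w = w → T u = u) ∧ (T w = w⁻¹ → T u = u⁻¹) := by
    intro T w n u hu
    obtain ⟨m, rfl⟩ := mem_zpowers_iff.1 hu
    constructor
    · intro h; rw [map_zpow, map_zpow, h]
    · intro h; rw [map_zpow, map_zpow, h, inv_zpow, inv_zpow]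
  let f : zpowers (x ^ i) × zpowers (y ^ j) × zpowers (z ^ k) → φ.ker := fun v =>
    ⟨v.1.1 * v.2.1.1 * v.2.2.1, by
      rw [MonoidHom.mem_ker]
      change (_ : P) ^ p = 1
      rw [mul_pow, mul_pow, hk1 _ hi _ v.1.2, hk1 _ hj _ v.2.1.2, hk1 _ hk _ v.2.2.2]; simp⟩
  have hf : Function.Injective f := by
    rintro ⟨⟨u, hu⟩, ⟨v, hv⟩, ⟨w, hw⟩⟩ ⟨⟨u', hu'⟩, ⟨v', hv'⟩, ⟨w', hw'⟩⟩ h
    have h0 : u * v * w = u' * v' * w' := congrArg Subtype.val h
    have h1 := congrArg A h0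
    rw [map_mul, map_mul, map_mul, map_mul, (sgn A x i u hu).2 hAx, (sgn A x i u' hu').2 hAx,
      (sgn A y j v hv).1 hAy, (sgn A y j v' hv').1 hAy, (sgn A z k w hw).1 hAz,
      (sgn A z k w' hw').1 hAz] at h1
    have e1 : u = u' := by
      apply sq_inj hodd
      have : u * u = (u * v * w) * (u⁻¹ * v * w)⁻¹ := by group
      rw [this, h0, h1]; group
    subst e1
    have h2 : v * w = v' * w' := by
      rw [mul_assoc, mul_assoc] at h0
      exact mul_left_cancel h0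
    have h3 := congrArg B h2
    rw [map_mul, map_mul, (sgn B y j v hv).2 hBy, (sgn B y j v' hv').2 hBy,
      (sgn B z k w hw).1 hBz, (sgn B z k w' hw').1 hBz] at h3
    have e2 : v = v' := by
      apply sq_inj hodd
      have : v * v = (v * w) * (v⁻¹ * w)⁻¹ := by group
      rw [this, h2, h3]; group
    subst e2
    have e3 : w = w' := mul_left_cancel h2
    subst e3
    rfl
  have hlow := Nat.card_le_card_of_injective f hf
  rw [Nat.card_prod, Nat.card_prod, Nat.card_zpowers, Nat.card_zpowers, Nat.card_zpowers, hi, hj,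
    hk] at hlow
  have hidx : Nat.card φ.ker = φ.range.index := by
    have e1 := φ.ker.card_mul_index
    have e2 := φ.range.card_mul_index
    rw [index_ker] at e1
    have hpos : 0 < Nat.card φ.range := Nat.card_pos
    apply Nat.eq_of_mul_eq_mul_right hpos
    rw [e1, mul_comm, e2]
  let π := QuotientGroup.mk' φ.range
  have hq : ∀ w : P, orderOf (π w) ≤ p := by
    intro w
    apply orderOf_le_of_pow_eq_one hp.out.pos
    rw [← map_pow]
    exact (QuotientGroup.eq_one_iff _).2 ⟨w, rfl⟩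
  let f' : zpowers (π a) × zpowers (π b) → P ⧸ φ.range := fun v => v.1.1 * v.2.1
  have hf' : Function.Surjective f' := by
    intro w
    obtain ⟨w, rfl⟩ := QuotientGroup.mk'_surjective _ w
    have : w ∈ closure ({a, b} : Set P) := hab ▸ mem_top w
    obtain ⟨m, n, rfl⟩ := mem_closure_pair.1 this
    exact ⟨(⟨π a ^ m, zpow_mem (mem_zpowers _) m⟩, ⟨π b ^ n, zpow_mem (mem_zpowers _) n⟩), by
      simp [f', π]⟩
  have hup := Nat.card_le_card_of_surjective f' hf'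
  rw [Nat.card_prod, Nat.card_zpowers, Nat.card_zpowers] at hup
  have : Nat.card (P ⧸ φ.range) ≤ p * p := hup.trans (Nat.mul_le_mul (hq a) (hq b))
  rw [hidx, index_eq_card] at hlow
  have h1 := hp.out.one_lt
  have hpp : 0 < p * p := by positivity
  nlinarith

/-- Let p be an odd prime, P a finite p-group and I an elementary abelian subgroup of order 8 of Aut(P). Call T ∈ I, T ≠ 1, broad when its fixed-point subgroup C_P(T) is not cyclic. Suppose I has a proper subgroup I₀ containing no broad element such that the product of any two broad elements lies in I₀. Then P is abelian of rank exactly 3 (generated by three elements but not by two), there are exactly three broad elements and they generate I, and I₀ is exactly the set of products of two broad elements. -/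
theorem result
    {P : Type*} [Group P] [Finite P] (p : ℕ) (hp : p.Prime) (hp2 : p ≠ 2) (hP : IsPGroup p P)
    (I : Subgroup (MulAut P)) (hI : Cfsg.IsElementaryAbelian 2 I) (hI8 : Nat.card ↥I = 8)
    (I₀ : Subgroup (MulAut P)) (hI₀ : I₀ < I)
    (hdisj : ∀ T ∈ I₀, T ≠ 1 → ∃ g : P, ∀ x : P, (T x = x ↔ x ∈ Subgroup.zpowers g))
    (hprod : ∀ T ∈ I, ∀ T' ∈ I, T ≠ 1 → T' ≠ 1 → (¬ ∃ g : P, ∀ x : P, (T x = x ↔ x ∈ Subgroup.zpowers g)) →
      (¬ ∃ g : P, ∀ x : P, (T' x = x ↔ x ∈ Subgroup.zpowers g)) → T * T' ∈ I₀) :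
    IsMulCommutative P ∧ (∃ a b c : P, Subgroup.closure {a, b, c} = ⊤) ∧ (¬ ∃ a b : P, Subgroup.closure {a, b} = ⊤) ∧
      Nat.card {T : MulAut P // T ∈ I ∧ T ≠ 1 ∧ ¬ ∃ g : P, ∀ x : P, (T x = x ↔ x ∈ Subgroup.zpowers g)} = 3 ∧
      Subgroup.closure {T : MulAut P | T ∈ I ∧ T ≠ 1 ∧ ¬ ∃ g : P, ∀ x : P, (T x = x ↔ x ∈ Subgroup.zpowers g)} = I ∧
      (I₀ : Set (MulAut P)) = {S : MulAut P | ∃ T T' : MulAut P, T ∈ I ∧ T' ∈ I ∧ T ≠ 1 ∧ T' ≠ 1 ∧
        (¬ ∃ g : P, ∀ x : P, (T x = x ↔ x ∈ Subgroup.zpowers g)) ∧ (¬ ∃ g : P, ∀ x : P, (T' x = x ↔ x ∈ Subgroup.zpowers g)) ∧ S = T * T'} := by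
  classical
  have : Fact p.Prime := ⟨hp⟩
  have hodd : Odd (Nat.card P) := by
    obtain ⟨n, hn⟩ := hP.exists_card_eq
    rw [hn]
    exact (hp.odd_of_ne_two hp2).pow
  have hcm : ∀ s ∈ I, ∀ t ∈ I, s * t = t * s := fun s hs t ht =>
    congrArg Subtype.val (hI.1.is_comm.comm (⟨s, hs⟩ : I) ⟨t, ht⟩)
  have hc : ∀ s ∈ I, ∀ t ∈ I, ∀ x, s (t x) = t (s x) := by
    intro s hs t ht x
    rw [← MulAut.mul_apply, hcm s hs t ht, MulAut.mul_apply]
  have h2' : ∀ s ∈ I, s * s = 1 := fun s hs => by rw [← sq]; exact hI.2 s hs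
  have h2 : ∀ s ∈ I, ∀ x, s (s x) = x := by
    intro s hs x
    rw [← MulAut.mul_apply, h2' s hs]; rfl
  obtain ⟨x, y, z, A, B, C, hx, hy, hz, hA, hB, hC, hAx, hAy, hAz, hBx, hBy, hBz, hCx, hCy, hCz⟩ :=
    exists_basis hodd hI8 hc h2
  have hen := enum hodd hI8 hx hy hz hA hB hC hAx hAy hAz hBx hBy hBz hCx hCy hCz
  have hx' : x⁻¹ ≠ x := fun h => hx (eq_one_of_inv hodd h)
  have hy' : y⁻¹ ≠ y := fun h => hy (eq_one_of_inv hodd h)
  have hz' : z⁻¹ ≠ z := fun h => hz (eq_one_of_inv hodd h)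
  have hA1 : A ≠ 1 := fun h => hx' (by rw [← hAx, h]; rfl)
  have hB1 : B ≠ 1 := fun h => hy' (by rw [← hBy, h]; rfl)
  have hC1 : C ≠ 1 := fun h => hz' (by rw [← hCz, h]; rfl)
  have hAB : A ≠ B := fun h => hx' (by rw [← hAx, h, hBx])
  have hAC : A ≠ C := fun h => hx' (by rw [← hAx, h, hCx])
  have hBC : B ≠ C := fun h => hy' (by rw [← hBy, h, hCy])
  have bA := not_cyc hP hodd (hc A hA B hB) (h2 B hB) hy hz hAy hAz hBy hBz
  have bB := not_cyc hP hodd (hc B hB A hA) (h2 A hA) hx hz hBx hBz hAx hAz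
  have bC := not_cyc hP hodd (hc C hC A hA) (h2 A hA) hx hy hCx hCy hAx hAy
  have hU := hprod B hB C hC hB1 hC1 bB bC
  have hV := hprod A hA C hC hA1 hC1 bA bC
  have hW := hprod A hA B hB hA1 hB1 bA bB
  have hU1 : B * C ≠ 1 := fun h => hy' (by
    have := congrArg (fun f : MulAut P => f y) h
    simpa [MulAut.mul_apply, hCy, hBy] using this)
  have hV1 : A * C ≠ 1 := fun h => hx' (by
    have := congrArg (fun f : MulAut P => f x) h
    simpa [MulAut.mul_apply, hCx, hAx] using this)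
  have hW1 : A * B ≠ 1 := fun h => hx' (by
    have := congrArg (fun f : MulAut P => f x) h
    simpa [MulAut.mul_apply, hBx, hAx] using this)
  obtain ⟨g1, hg1⟩ := hdisj _ hU hU1
  obtain ⟨g2, hg2⟩ := hdisj _ hV hV1
  obtain ⟨g3, hg3⟩ := hdisj _ hW hW1
  have hT : A * B * C ∈ I := I.mul_mem (I.mul_mem hA hB) hC
  have hUI : B * C ∈ I := I.mul_mem hB hC
  have hVI : A * C ∈ I := I.mul_mem hA hC
  have hWI : A * B ∈ I := I.mul_mem hA hB
  have hUV : ∀ w, (A * B) w = (B * C) ((A * C) w) := by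
    intro w
    simp only [MulAut.mul_apply]
    rw [hc C hC A hA, h2 C hC, hc A hA B hB]
  have hfpf : MonoidHom.FixedPointFree (A * B * C) := by
    intro w hw
    by_contra hw1
    obtain ⟨v, hv1, hv, hvf, -⟩ := exists_eigen hodd hc h2 hw1
    have hTv := hvf _ hT hw
    have hfin : (A * B * C) v = v⁻¹ → False := fun h =>
      hv1 (eq_one_of_inv hodd (by rw [← h, hTv]))
    rcases hv _ hUI with h1 | h1
    · exact hfin (inv_of_cyc hP hodd (hc _ hUI _ hT) (h2 _ hT) hg1 hx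
        (by simp [MulAut.mul_apply, hBx, hCx]) (by simp [MulAut.mul_apply, hAx, hBx, hCx]) h1)
    rcases hv _ hVI with h3 | h3
    · exact hfin (inv_of_cyc hP hodd (hc _ hVI _ hT) (h2 _ hT) hg2 hy
        (by simp [MulAut.mul_apply, hAy, hCy]) (by simp [MulAut.mul_apply, hAy, hBy, hCy]) h3)
    exact hfin (inv_of_cyc hP hodd (hc _ hWI _ hT) (h2 _ hT) hg3 hz
        (by simp [MulAut.mul_apply, hAz, hBz]) (by simp [MulAut.mul_apply, hAz, hBz, hCz])
        (by rw [hUV, h3, map_inv, h1, inv_inv]))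
  have hcomm : ∀ a b : P, a * b = b * a := fun a b =>
    hfpf.commute_all_of_involutive (h2 _ hT) a b
  have nbT : ∃ g : P, ∀ x : P, ((A * B * C) x = x ↔ x ∈ zpowers g) :=
    ⟨1, fun w => ⟨fun h => by rw [hfpf w h]; exact one_mem _, fun h => by
      rw [zpowers_one_eq_bot, mem_bot] at h; rw [h, map_one]⟩⟩
  have hbroad : ∀ T : MulAut P, (T ∈ I ∧ T ≠ 1 ∧ ¬ ∃ g : P, ∀ x : P, (T x = x ↔ x ∈ zpowers g)) ↔
      T ∈ ({A, B, C} : Set (MulAut P)) := by
    intro T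
    constructor
    · rintro ⟨h1, h3, h4⟩
      rcases hen T h1 with rfl | rfl | rfl | rfl | rfl | rfl | rfl | rfl
      · exact absurd rfl h3
      · simp
      · simp
      · simp
      · exact absurd ⟨g1, hg1⟩ h4
      · exact absurd ⟨g2, hg2⟩ h4
      · exact absurd ⟨g3, hg3⟩ h4
      · exact absurd nbT h4
    · rintro (rfl | rfl | rfl)
      · exact ⟨hA, hA1, bA⟩
      · exact ⟨hB, hB1, bB⟩
      · exact ⟨hC, hC1, bC⟩
  refine ⟨⟨⟨hcomm⟩⟩, ⟨g1, g2, g3, ?_⟩, ?_, ?_, ?_, ?_⟩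
  · letI : CommGroup P := { (inferInstance : Group P) with mul_comm := hcomm }
    rw [eq_top_iff]
    intro w _
    obtain ⟨v, rfl⟩ := sq_surj hodd w
    have m1 : ∀ u, (B * C) u = u → u ∈ closure ({g1, g2, g3} : Set P) := fun u hu =>
      (zpowers_le.2 (Subgroup.subset_closure (by simp))) ((hg1 u).1 hu)
    have m2 : ∀ u, (A * C) u = u → u ∈ closure ({g1, g2, g3} : Set P) := fun u hu =>
      (zpowers_le.2 (Subgroup.subset_closure (by simp))) ((hg2 u).1 hu)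
    have m3 : ∀ u, (A * B) u = u → u ∈ closure ({g1, g2, g3} : Set P) := fun u hu =>
      (zpowers_le.2 (Subgroup.subset_closure (by simp))) ((hg3 u).1 hu)
    have e : v * v = (v * (B * C) v) * (v * (A * C) v) * (v * (A * B) v) *
        (v * (B * C) v * ((A * C) v * (A * B) v))⁻¹ := by
      generalize (B * C) v = a
      generalize (A * C) v = b
      generalize (A * B) v = c
      rw [eq_mul_inv_iff_mul_eq]
      simp only [mul_assoc, mul_left_comm, mul_comm]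
    rw [e]
    refine mul_mem (mul_mem (mul_mem (m1 _ ?_) (m2 _ ?_)) (m3 _ ?_)) (inv_mem (m1 _ ?_))
    · rw [map_mul, h2 _ hUI, mul_comm]
    · rw [map_mul, h2 _ hVI, mul_comm]
    · rw [map_mul, h2 _ hWI, mul_comm]
    · rw [map_mul, map_mul, map_mul, h2 _ hUI, ← hUV v, hUV v, h2 _ hUI, mul_comm v,
        mul_comm ((A * C) v)]
  · letI : CommGroup P := { (inferInstance : Group P) with mul_comm := hcomm }
    exact not_two_gen hP hodd hx hy hz hAx hAy hAz hBy hBz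
  · have : Nat.card {T : MulAut P // T ∈ I ∧ T ≠ 1 ∧ ¬ ∃ g : P, ∀ x : P, (T x = x ↔ x ∈ zpowers g)}
        = Nat.card ({A, B, C} : Set (MulAut P)) :=
      Nat.card_congr (Equiv.subtypeEquivRight hbroad)
    rw [this, Nat.card_coe_set_eq, Set.ncard_eq_three]
    exact ⟨A, B, C, hAB, hAC, hBC, rfl⟩
  · have : {T : MulAut P | T ∈ I ∧ T ≠ 1 ∧ ¬ ∃ g : P, ∀ x : P, (T x = x ↔ x ∈ zpowers g)} =
        ({A, B, C} : Set (MulAut P)) := Set.ext hbroad
    rw [this]
    apply le_antisymm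
    · rw [Subgroup.closure_le]
      rintro T (rfl | rfl | rfl) <;> assumption
    · intro s hs
      have a1 : A ∈ closure ({A, B, C} : Set (MulAut P)) := Subgroup.subset_closure (by simp)
      have a2 : B ∈ closure ({A, B, C} : Set (MulAut P)) := Subgroup.subset_closure (by simp)
      have a3 : C ∈ closure ({A, B, C} : Set (MulAut P)) := Subgroup.subset_closure (by simp)
      rcases hen s hs with rfl | rfl | rfl | rfl | rfl | rfl | rfl | rfl
      · exact one_mem _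
      · exact a1
      · exact a2
      · exact a3
      · exact mul_mem a2 a3
      · exact mul_mem a1 a3
      · exact mul_mem a1 a2
      · exact mul_mem (mul_mem a1 a2) a3
  · ext S
    constructor
    · intro hS
      have hS' : S ∈ I₀ := hS
      rcases hen S (hI₀.le hS') with rfl | rfl | rfl | rfl | rfl | rfl | rfl | rfl
      · exact ⟨A, A, hA, hA, hA1, hA1, bA, bA, (h2' A hA).symm⟩
      · exact absurd (hdisj _ hS' hA1) bA
      · exact absurd (hdisj _ hS' hB1) bB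
      · exact absurd (hdisj _ hS' hC1) bC
      · exact ⟨B, C, hB, hC, hB1, hC1, bB, bC, rfl⟩
      · exact ⟨A, C, hA, hC, hA1, hC1, bA, bC, rfl⟩
      · exact ⟨A, B, hA, hB, hA1, hB1, bA, bB, rfl⟩
      · have : A ∈ I₀ := by
          have := I₀.mul_mem hS' (I₀.inv_mem hU)
          rwa [mul_assoc A B C, mul_inv_cancel_right] at this
        exact absurd (hdisj _ this hA1) bA
    · rintro ⟨T, T', h1, h3, h4, h5, h6, h7, rfl⟩
      exact hprod T h1 T' h3 h4 h5 h6 h7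

end Cfsg.Agent.S4412
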