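import Mathlib
import Cfsg.Statements.S4413
import Cfsg.Agent.S0824
import Cfsg.Agent.S0288
import Cfsg.Agent.Cl.QuadExtra

set_option autoImplicit false
open Cfsg

namespace Cfsg.Agent.S4413

open Cfsg.Agent.Cl


/-- Let P be an extraspecial 2-group of order 32 with no elementary abelian subgroup of order 8 (the central product of a dihedral and a quaternion group of order 8). Then the inner automorphism group of P has order 16 and the outer automorphism group Aut(P)/Inn(P) is isomorphic to the symmetric group of degree 5; in particular Aut(P) has order 1920. -/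
theorem result {P : Type*} [Group P] [Finite P]
    (hex : Cfsg.IsExtraspecial 2 P) (h32 : Nat.card P = 32)
    (hminus : ∀ A : Subgroup P, Cfsg.IsElementaryAbelian 2 A → Nat.card ↥A ≤ 4)
    [(MulAut.conj : P →* MulAut P).range.Normal] :
    Nat.card ↥(MulAut.conj : P →* MulAut P).range = 16 ∧ Nat.card (MulAut P) = 1920 ∧
      Nonempty ((MulAut P ⧸ (MulAut.conj : P →* MulAut P).range) ≃* Equiv.Perm (Fin 5)) := by
  obtain ⟨M⟩ := quad_quadES_minus hex (n := 2) h32 (by
    rintro ⟨A, hA, hc⟩
    have := hminus A hA
    omega)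
  have hnd := quad_minus_nondeg (m := 2 - 1) (F := ZMod 2) (a := 1) (b := 1) (by decide)
  obtain ⟨Φ, hsurj, hker, -⟩ := M.exists_autHom hnd
  obtain ⟨e⟩ := S0824.result (ZMod.card 2)
  let ε := (((QuotientGroup.quotientMulEquivOfEq hker.symm).trans
      (QuotientGroup.quotientKerEquivOfSurjective Φ hsurj)).trans (omatEquiv _).symm).trans e
  have h1 : Nat.card ↥(MulAut.conj : P →* MulAut P).range = 16 := by
    have h := (MulAut.conj : P →* MulAut P).ker.card_eq_card_quotient_mul_card_subgroup
    have hc : (MulAut.conj : P →* MulAut P).ker = Subgroup.center P := by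
      ext a
      rw [MonoidHom.mem_ker, Subgroup.mem_center_iff, MulEquiv.ext_iff]
      exact forall_congr' fun b => mul_inv_eq_iff_eq_mul.trans eq_comm
    rw [Nat.card_congr (QuotientGroup.quotientKerEquivRange _).toEquiv, hc, hex.2, h32] at h
    omega
  refine ⟨h1, ?_, ⟨ε⟩⟩
  rw [(Inn P).card_eq_card_quotient_mul_card_subgroup, Nat.card_congr ε.toEquiv, h1, Nat.card_perm,
    Nat.card_fin]
  rfl

end Cfsg.Agent.S4413
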