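import Mathlib
import Cfsg.Statements.S4414
import Cfsg.Agent.GT.TwoLenExp
import Cfsg.Agent.Perm.PermModule
import Cfsg.Agent.Perm.Witt
-- import your own Cfsg.Agent.* helpers here

set_option autoImplicit false
open Cfsg

namespace Cfsg.Agent.S4414

open Subgroup GT Module
open scoped commutatorElement TensorProduct

section
variable {K G V : Type*} [Field K] [Group G] [AddCommGroup V] [Module K V]

/-- The conjugation action on the linear characters of a normal subgroup. -/
def act (K : Type*) [Field K] (A : Subgroup G) [A.Normal] : MulAction G (A →* K) where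
  smul g l := l.comp (MulAut.conjNormal g⁻¹).toMonoidHom
  one_smul l := MonoidHom.ext fun a => congrArg l (Subtype.ext (by simp))
  mul_smul g h l := MonoidHom.ext fun a => congrArg l (Subtype.ext (by simp [mul_assoc]))

theorem key [CharP K 2] [Finite G] (ρ : Representation K G V) (A T : Subgroup G) [A.Normal]
    (hA : (Nat.card A : K) ≠ 0) (hT : IsPGroup 2 T) {x : G} {q : ℕ}
    (hq : q.Prime) (hq2 : q ≠ 2) (hx : orderOf x = q) (hAx : ⁅A, zpowers x⁆ = A)
    (F : Submodule K V) [FiniteDimensional K F] (hF : ∀ v, v ∈ F ↔ ∀ s ∈ T, ρ s v = v)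
    {l₀ : A →* K} (hl₀ : l₀ ≠ 1) {v₀ : V} (hv₀ : v₀ ≠ 0) (h₀ : ∀ a : A, ρ a v₀ = l₀ a • v₀) :
    2 ≤ finrank K F ∧ ((∀ v ∈ F, ρ x v ∈ F) → 3 ≤ finrank K F) := by
  classical
  have := Fintype.ofFinite A
  letI := act K A
  have hs : ∀ (g : G) (l : A →* K) (a : A), (g • l) a = l (MulAut.conjNormal g⁻¹ a) :=
    fun _ _ _ => rfl
  have hfin : ∀ l : A →* K, Finite (MulAction.orbit T l) := fun l => Set.finite_range _
  let e : (A →* K) → End K V := fun l => ∑ a : A, l a⁻¹ • ρ a
  have e1 : ∀ (g : G) l v, e (g • l) (ρ g v) = ρ g (e l v) := fun g l v => by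
    simp only [e, LinearMap.sum_apply, LinearMap.smul_apply, map_sum, map_smul]
    rw [← Equiv.sum_comp (MulAut.conjNormal g).toEquiv]
    refine Finset.sum_congr rfl fun a _ => ?_
    rw [hs, ← End.mul_apply, ← End.mul_apply, ← map_mul, ← map_mul]
    congr 2
    · exact Subtype.ext (by simp [mul_assoc])
    · simp
  let W : (A →* K) → Submodule K V := fun l => ⨅ a : A, End.eigenspace (ρ a) (l a)
  have hW : ∀ l v, v ∈ W l ↔ ∀ a : A, ρ a v = l a • v := fun l v => by
    simp [W, End.mem_eigenspace_iff]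
  have e2 : ∀ l, ∀ v ∈ W l, e l v = (Nat.card A : K) • v := fun l v hv => by
    simp only [e, LinearMap.sum_apply, LinearMap.smul_apply, (hW l v).1 hv, smul_smul, ← map_mul,
      inv_mul_cancel, map_one, one_smul]
    simp [Nat.cast_smul_eq_nsmul]
  have e3 : ∀ l m, l ≠ m → ∀ v ∈ W m, e l v = 0 := fun l m h v hv => by
    have h1 := sum_hom_units_eq_zero (G := A)
      { toFun := fun a => l a⁻¹ * m a
        map_one' := by simp
        map_mul' := fun a b => by rw [mul_inv_rev, map_mul, map_mul]; ring } fun h1 => h (MonoidHom.ext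
      fun a => by
        have h2 : l a⁻¹ * m a = 1 := DFunLike.congr_fun h1 a
        rw [← mul_one (l a), ← h2, ← mul_assoc, ← map_mul, mul_inv_cancel, map_one, one_mul])
    simp only [e, LinearMap.sum_apply, LinearMap.smul_apply, (hW m v).1 hv, smul_smul]
    rw [← Finset.sum_smul]
    exact smul_eq_zero_of_left h1 v
  have e4 : ∀ (g : G) l, ∀ v ∈ W l, ρ g v ∈ W (g • l) := fun g l v hv => (hW _ _).2 fun a => by
    rw [hs, ← map_smul, ← (hW l v).1 hv, ← End.mul_apply, ← End.mul_apply, ← map_mul, ← map_mul]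
    simp [mul_assoc]
  have e5 : ∀ (g : G) l, l ≠ 1 ∧ W l ≠ ⊥ → g • l ≠ 1 ∧ W (g • l) ≠ ⊥ := fun g l h =>
    ⟨fun h1 => h.1 (by rw [← inv_smul_smul g l, h1]; rfl), fun h1 => h.2 (eq_bot_iff.2 fun v hv => by
      have h2 := congrArg (ρ g⁻¹) ((Submodule.mem_bot K).1 (h1.le (e4 g l v hv)))
      rwa [← End.mul_apply, ← map_mul, inv_mul_cancel, map_one, map_zero] at h2)⟩
  have e6 : ∀ l, W l ≠ ⊥ → ∃ w ∈ F, ∀ m, e m w ≠ 0 ↔ m ∈ MulAction.orbit T l := fun l hl => by
    obtain ⟨w, hw, hw0, h1⟩ := Perm.exists_fixed_ne_zero_of_isPGroup hT (ρ.comp T.subtype)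
      (⨆ s : T, W (s • l)) (fun h => hl (eq_bot_iff.2 (h ▸ le_iSup_of_le 1 (by rw [one_smul]))))
      fun g v hv => (iSup_le fun s => fun v hv => Submodule.mem_iSup_of_mem
        (p := fun s : T => W (s • l)) (g * s) (by rw [mul_smul]; exact e4 g _ v hv) :
          _ ≤ Submodule.comap (ρ g) (⨆ s : T, W (s • l))) hv
    have h2 : ∀ m, m ∉ MulAction.orbit T l → e m w = 0 := fun m hm =>
      (iSup_le fun s v hv => e3 m _ (fun h => hm ⟨s, h.symm⟩) v hv : _ ≤ LinearMap.ker (e m)) hw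
    refine ⟨w, (hF w).2 fun s hs => h1 ⟨s, hs⟩, fun m => ⟨fun h => by_contra fun h' => h (h2 m h'),
      fun hm h => hw0 ?_⟩⟩
    have := Fintype.ofFinite (MulAction.orbit T l)
    have h3 : (∑ n : MulAction.orbit T l, e n) w = (Nat.card A : K) • w := by
      refine (iSup_le fun s v hv => ?_ : _ ≤ LinearMap.eqLocus
        (∑ n : MulAction.orbit T l, e n) ((Nat.card A : K) • (1 : End K V))) hw
      have h4 := Finset.sum_eq_single (s := Finset.univ) (f := fun n : MulAction.orbit T l => e n v)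
        ⟨s • l, s, rfl⟩ (fun n _ hn => e3 _ _ (fun h => hn (Subtype.ext h)) v hv)
        (fun h => absurd (Finset.mem_univ _) h)
      rw [LinearMap.mem_eqLocus, LinearMap.sum_apply, h4]
      exact e2 _ v hv
    rw [LinearMap.sum_apply, Finset.sum_eq_zero fun n _ => ?_] at h3
    · exact (smul_eq_zero.1 h3.symm).resolve_left hA
    · obtain ⟨s, hs⟩ := (MulAction.orbit_eq_iff.2 hm).ge n.2
      rw [← hs, ← h1 s]
      exact (e1 s m w).trans (by rw [h, map_zero])
  have := Fact.mk hq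
  have e7 : ∀ l : A →* K, l ≠ 1 → ∀ y ∈ zpowers x, y ≠ 1 →
      ¬ ∀ m ∈ MulAction.orbit T l, y • m ∈ MulAction.orbit T l := fun l hl y hy hy1 h => by
    have h1 : zpowers y = zpowers x := (Subgroup.eq_of_le_of_card_ge (zpowers_le.2 hy) (by
      rw [Nat.card_zpowers, Nat.card_zpowers, hx]
      exact ((Nat.dvd_prime hq).1 (hx ▸ orderOf_dvd_of_mem_zpowers hy)).elim
        (fun h => absurd (orderOf_eq_one_iff.1 h) hy1) fun h => h.ge))
    obtain ⟨k, hk⟩ := hT.card_orbit l
    obtain ⟨m, ⟨s, rfl⟩, hm⟩ := Perm.exists_fixed_of_pow hq (k := 1) (g := y)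
      (by rw [pow_one, ← hx]; exact orderOf_dvd_iff_pow_eq_one.1 (orderOf_dvd_of_mem_zpowers hy))
      _ (Set.toFinite _) h (by
        rw [← Nat.card_coe_set_eq, hk]
        exact fun h => hq2 ((Nat.prime_dvd_prime_iff_eq hq Nat.prime_two).1 (hq.dvd_of_dvd_pow h)))
    have h2 : zpowers y ≤ MulAction.stabilizer G ((s : G) • l) := zpowers_le.2 hm
    have h3 : A ≤ ((s : G) • l).toHomUnits.ker.map A.subtype := by
      refine hAx.ge.trans (commutator_le.2 fun a ha b hb => ?_)
      have h4 := DFunLike.congr_fun (h2 (h1.ge (inv_mem hb))) ⟨a, ha⟩⁻¹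
      refine ⟨⟨a, ha⟩ * MulAut.conjNormal b ⟨a, ha⟩⁻¹, Units.ext ?_,
        by simp [commutatorElement_def, mul_assoc]⟩
      rw [hs, inv_inv] at h4
      rw [MonoidHom.coe_toHomUnits, map_mul, h4, ← map_mul, mul_inv_cancel, map_one, Units.val_one]
    refine hl ?_
    rw [← inv_smul_smul (s : G) l, show (s : G) • l = 1 from MonoidHom.ext fun a => by
      obtain ⟨b, hb, h⟩ := h3 a.2
      exact Subtype.ext h ▸ congrArg Units.val hb]
    rfl
  have e8 : ∀ {n : ℕ} (w : Fin n → V) (m : Fin n → A →* K), (∀ i, w i ∈ F) →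
      (∀ i, e (m i) (w i) ≠ 0) → (∀ i j, i ≠ j → e (m i) (w j) = 0) → n ≤ finrank K F :=
    fun w m h1 h2 h3 => by
      have : LinearIndependent K fun i => (⟨w i, h1 i⟩ : F) :=
        Fintype.linearIndependent_iff.2 fun c hc i => by
          have h4 := congrArg (fun v : F => e (m i) v) hc
          simp only [Submodule.coe_sum, map_sum, Submodule.coe_smul, map_smul, ZeroMemClass.coe_zero,
            map_zero] at h4
          rw [Finset.sum_eq_single i (fun j _ hj => by rw [h3 i j hj.symm, smul_zero])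
            (by simp)] at h4
          exact (smul_eq_zero.1 h4).resolve_right (h2 i)
      simpa using this.fintype_card_le_finrank
  obtain ⟨l, hl, hmin⟩ := exists_minimalFor_of_wellFoundedLT (fun l => l ≠ 1 ∧ W l ≠ ⊥)
    (fun l => (MulAction.orbit T l).ncard)
    ⟨l₀, hl₀, (Submodule.ne_bot_iff _).2 ⟨v₀, (hW _ _).2 h₀, hv₀⟩⟩
  obtain ⟨w, hwF, hw⟩ := e6 l hl.2
  have hx1 : x ≠ 1 := fun h => hq.one_lt.ne' (by rw [← hx, h, orderOf_one])
  refine ⟨?_, fun hinv => ?_⟩
  · have h1 := e7 l hl.1 x (mem_zpowers x) hx1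
    push Not at h1
    obtain ⟨_, ⟨s, rfl⟩, hm⟩ := h1
    obtain ⟨w', hwF', hw'⟩ := e6 _ (e5 x _ (e5 s l hl)).2
    refine e8 ![w, w'] ![l, x • (s : G) • l] (by simp [hwF, hwF'])
      (Fin.forall_fin_two.2 ⟨(hw _).2 (MulAction.mem_orbit_self _),
        (hw' _).2 (MulAction.mem_orbit_self _)⟩)
      (Fin.forall_fin_two.2 ⟨Fin.forall_fin_two.2 ⟨fun h => absurd rfl h, fun _ => by_contra fun h =>
        hm (MulAction.mem_orbit_symm.1 ((hw' _).1 h))⟩,
        Fin.forall_fin_two.2 ⟨fun _ => by_contra fun h => hm ((hw _).1 h), fun h => absurd rfl h⟩⟩)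
  have h1 : ∀ i : ℕ, ρ (x ^ i) w ∈ F := fun i => by
    induction i with
    | zero => simpa using hwF
    | succ i ih => rw [pow_succ', map_mul]; exact hinv _ ih
  have h2 : ∀ (g : G) m, e m (ρ g w) ≠ 0 ↔ g⁻¹ • m ∈ MulAction.orbit T l := fun g m => by
    rw [← hw, ← smul_inv_smul g m, e1, inv_smul_smul]
    refine not_congr ⟨fun h => ?_, fun h => by rw [h, map_zero]⟩
    have h3 := congrArg (ρ g⁻¹) h
    rwa [← End.mul_apply, ← map_mul, inv_mul_cancel, map_one, map_zero] at h3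
  have h3 : ∀ (i : ℕ) m, (x ^ i)⁻¹ • m ∈ MulAction.orbit T l →
      MulAction.orbit T m = (x ^ i • ·) '' MulAction.orbit T l := fun i m hm => by
    refine Set.eq_of_subset_of_ncard_le ?_ ?_ ((Set.toFinite _).image _)
    · rintro _ ⟨s, rfl⟩
      refine ⟨_, (h2 (x ^ i) _).1 fun h => (h2 _ _).2 hm ?_, smul_inv_smul _ _⟩
      have h4 := e1 s m (ρ (x ^ i) w)
      rw [(hF _).1 (h1 i) s s.2] at h4
      have h5 := congrArg (ρ (s : G)⁻¹) (h4.symm.trans h)
      rwa [← End.mul_apply, ← map_mul, inv_mul_cancel, map_one, map_zero] at h5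
    · obtain ⟨s, hs⟩ := hm
      rw [Set.ncard_image_of_injective _ (MulAction.injective _)]
      refine le_of_not_gt fun h => (hmin ?_ h.le).not_gt h
      rw [← smul_inv_smul (x ^ i) m, ← hs]
      exact e5 _ _ (e5 s l hl)
  refine e8 (fun i : Fin 3 => ρ (x ^ (i : ℕ)) w) (fun i => x ^ (i : ℕ) • l) (fun i => h1 i)
    (fun i => (h2 _ _).2 (by rw [inv_smul_smul]; exact MulAction.mem_orbit_self _))
    fun i j hij => by_contra fun h => ?_
  have h4 := (h3 j _ ((h2 _ _).1 h)).symm.trans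
    (h3 i _ (by rw [inv_smul_smul]; exact MulAction.mem_orbit_self _))
  refine e7 l hl.1 ((x ^ (j : ℕ))⁻¹ * x ^ (i : ℕ)) (mul_mem (inv_mem (npow_mem_zpowers x _))
    (npow_mem_zpowers x _)) (fun h5 => hij (Fin.ext (pow_injOn_Iio_orderOf ?_ ?_
      (inv_mul_eq_one.1 h5).symm))) fun m hm => ?_
  · have := hq.two_le
    exact i.2.trans_le (by omega)
  · have := hq.two_le
    exact j.2.trans_le (by omega)
  · obtain ⟨n, hn, h6⟩ := h4.ge ⟨m, hm, rfl⟩
    rwa [mul_smul, ← show x ^ (j : ℕ) • n = x ^ (i : ℕ) • m from h6, inv_smul_smul]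

end


/-- Let S be a finite solvable group whose order is divisible only by the primes 2, p, q (p, q distinct odd primes), with a Sylow system S₂, S_p, S_q (pairwise permutable Sylow subgroups) such that: S_p is a minimal normal subgroup of S of order p or p²; S_q has order q and [S_p, S_q] = S_p; and O₂(S) = 1. Let E be an irreducible module for S over the field with two elements on which S_p acts faithfully, and E₀ the subspace of fixed points of S₂. Then either E₀ has at least 8 elements, or E₀ has exactly 4 elements and S_q does not leave E₀ invariant. -/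
theorem result {S : Type*} [Group S] [Finite S]
    [Group.IsSolvable S] (p q : ℕ) (hp : p.Prime) (hq : q.Prime) (hp2 : p ≠ 2) (hq2 : q ≠ 2) (hpq : p ≠ q)
    (hπ : ∀ r : ℕ, r.Prime → r ∣ Nat.card S → r = 2 ∨ r = p ∨ r = q)
    (S₂ : Sylow 2 S) (Sp : Sylow p S) (Sq : Sylow q S)
    (h2q : Nat.card ↥((S₂ : Subgroup S) ⊔ (Sq : Subgroup S)) = Nat.card ↥S₂ * Nat.card ↥Sq)
    (h2p : Nat.card ↥((S₂ : Subgroup S) ⊔ (Sp : Subgroup S)) = Nat.card ↥S₂ * Nat.card ↥Sp)
    (hpq' : Nat.card ↥((Sp : Subgroup S) ⊔ (Sq : Subgroup S)) = Nat.card ↥Sp * Nat.card ↥Sq)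
    (hSpN : (Sp : Subgroup S).Normal) (hSpmin : ∀ N : Subgroup S, N.Normal → N ≤ (Sp : Subgroup S) → N = ⊥ ∨ N = (Sp : Subgroup S))
    (hSpcard : Nat.card ↥Sp = p ∨ Nat.card ↥Sp = p ^ 2)
    (hSq : Nat.card ↥Sq = q) (hcomm : ⁅(Sp : Subgroup S), (Sq : Subgroup S)⁆ = (Sp : Subgroup S))
    (hO2 : Cfsg.pCore 2 S = ⊥)
    {E : Type*} [AddCommGroup E] [Module (ZMod 2) E] [Finite E] (ρ : Representation (ZMod 2) S E) (hE : Nontrivial E)
    (hirr : ∀ N : Submodule (ZMod 2) E, (∀ s : S, ∀ m ∈ N, ρ s m ∈ N) → N = ⊥ ∨ N = ⊤)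
    (hfaith : ∀ x ∈ (Sp : Subgroup S), ρ x = 1 → x = 1) :
    8 ≤ Nat.card {v : E // ∀ s ∈ (S₂ : Subgroup S), ρ s v = v} ∨
      (Nat.card {v : E // ∀ s ∈ (S₂ : Subgroup S), ρ s v = v} = 4 ∧
        ∃ x ∈ (Sq : Subgroup S), ∃ v : E, (∀ s ∈ (S₂ : Subgroup S), ρ s v = v) ∧ ¬ ∀ s ∈ (S₂ : Subgroup S), ρ s (ρ x v) = ρ x v) := by
  classical
  have := Fact.mk hp
  have := Fact.mk hq
  let K := AlgebraicClosure (ZMod 2)
  have hab : IsMulCommutative (Sp : Subgroup S) := by
    rcases hSpcard with h | h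
    · have := isCyclic_of_prime_card h
      infer_instance
    · exact IsPGroup.isMulCommutative_of_card_eq_prime_sq h
  have hA0 : (Sp : Subgroup S) ≠ ⊥ := fun h => by
    have h1 : Nat.card Sp = 1 := by
      change Nat.card (Sp : Subgroup S) = 1
      rw [h, card_bot]
    exact hSpcard.elim (fun h => hp.one_lt.ne (h1.symm.trans h))
      fun h => (Nat.one_lt_pow two_ne_zero hp.one_lt).ne (h1.symm.trans h)
  have hc : (Nat.card (Sp : Subgroup S) : K) ≠ 0 := TL.card_ne_zero hp2 Sp.2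
  obtain ⟨a, ha, ha1⟩ := (Subgroup.bot_or_exists_ne_one _).resolve_left hA0
  obtain ⟨U, hU, hτ, m, hm⟩ := exists_irrRep_ne_one hc
    ((repBaseChange K ρ).comp (Sp : Subgroup S).subtype) (m₀ := ⟨a, ha⟩)
    fun h => ha1 (hfaith a ha ((repBaseChange_eq_one_iff K ρ).1 h))
  have := hτ.nontrivial
  obtain ⟨u, hu⟩ := exists_ne (0 : U)
  choose c hcc using fun b : (Sp : Subgroup S) =>
    mem_scalarSub.1 (hτ.mem_scalarSub_of_comm (m := b) fun g => hab.is_comm.comm b g)
  have hinj : Function.Injective fun c : K => c • (1 : End K U) := fun a b h =>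
    smul_left_injective K hu (LinearMap.congr_fun h u)
  let l : (Sp : Subgroup S) →* K :=
    { toFun := c
      map_one' := hinj ((hcc 1).symm.trans (by rw [map_one]; exact (one_smul _ _).symm))
      map_mul' := fun a b => hinj ((hcc _).symm.trans (by
        rw [map_mul, hcc, hcc, smul_mul_smul_comm, one_mul])) }
  obtain ⟨x, hx⟩ := (isCyclic_of_prime_card hSq).exists_generator
  have hx' : zpowers (x : S) = (Sq : Subgroup S) := le_antisymm (zpowers_le.2 x.2) fun y hy => by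
    obtain ⟨k, hk⟩ := hx ⟨y, hy⟩
    exact ⟨k, congrArg Subtype.val hk⟩
  let E₀ := Representation.invariants (ρ.comp (S₂ : Subgroup S).subtype)
  have hE₀ : ∀ v, v ∈ E₀ ↔ ∀ s ∈ (S₂ : Subgroup S), ρ s v = v := fun v =>
    ⟨fun h s hs => h ⟨s, hs⟩, fun h s => h s s.2⟩
  let F := LinearMap.ker (E₀.mkQ.baseChange K)
  have hlift : ∀ {X : Type _} [AddCommGroup X] [Module (ZMod 2) X] (f : E →ₗ[ZMod 2] X),
      E₀ ≤ LinearMap.ker f → ∀ v ∈ F, f.baseChange K v = 0 := fun f hf v hv => by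
    rw [← E₀.liftQ_mkQ f hf, LinearMap.baseChange_comp, LinearMap.comp_apply,
      LinearMap.mem_ker.1 hv, map_zero]
  have hF : ∀ v, v ∈ F ↔ ∀ s ∈ (S₂ : Subgroup S), repBaseChange K ρ s v = v := fun v => by
    refine ⟨fun h s hs => ?_, fun h => ?_⟩
    · have := hlift (ρ s - 1) (fun w hw => LinearMap.mem_ker.2
        (sub_eq_zero.2 ((hE₀ w).1 hw s hs))) v h
      rwa [LinearMap.baseChange_sub, LinearMap.baseChange_one, LinearMap.sub_apply,
        sub_eq_zero] at this
    · have := Fintype.ofFinite (S₂ : Subgroup S)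
      let Φ : E →ₗ[ZMod 2] (↥(S₂ : Subgroup S) → E) := LinearMap.pi fun s => ρ s - 1
      obtain ⟨r, hr⟩ := (E₀.liftQ Φ fun w hw => funext fun s =>
        sub_eq_zero.2 (hw s)).exists_leftInverse_of_injective
          (Submodule.ker_liftQ_eq_bot _ _ _ fun w hw s => sub_eq_zero.1 (congrFun hw s))
      have h1 : E₀.mkQ = ∑ s : (S₂ : Subgroup S),
          (r ∘ₗ LinearMap.single (ZMod 2) (fun _ => E) s) ∘ₗ (ρ s - 1) := LinearMap.ext fun w => by
        refine (LinearMap.congr_fun hr (E₀.mkQ w)).symm.trans ?_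
        simp only [LinearMap.sum_apply, LinearMap.comp_apply, ← map_sum]
        exact congrArg r (Finset.univ_sum_single (Φ w)).symm
      rw [LinearMap.mem_ker, h1, ← LinearMap.baseChangeHom_apply, map_sum, LinearMap.sum_apply]
      refine Finset.sum_eq_zero fun s _ => ?_
      rw [LinearMap.baseChangeHom_apply, LinearMap.baseChange_comp, LinearMap.comp_apply,
        LinearMap.baseChange_sub, LinearMap.baseChange_one, LinearMap.sub_apply]
      exact (congrArg _ (sub_eq_zero.2 (h s s.2))).trans (map_zero _)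
  have hdim : finrank K F = finrank (ZMod 2) E₀ := by
    have h1 := (E₀.mkQ.baseChange K).finrank_range_add_finrank_ker
    rw [LinearMap.range_eq_top.2 (LinearMap.baseChange_surjective K E₀.mkQ_surjective), finrank_top,
      Module.finrank_baseChange, Module.finrank_baseChange] at h1
    have h2 := E₀.finrank_quotient_add_finrank
    change _ + finrank K F = _ at h1
    omega
  obtain ⟨h1, h2⟩ := key (repBaseChange K ρ) Sp S₂ hc S₂.2 hq hq2 (x := x)
    (by rw [← Nat.card_zpowers, hx']; exact hSq) (by rw [hx', hcomm]) F hF (l₀ := l)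
    (fun h => hm ((hcc m).trans (by rw [show c m = 1 from DFunLike.congr_fun h m, one_smul])))
    (v₀ := u) (fun h => hu (Subtype.ext h))
    fun a => congrArg Subtype.val (LinearMap.congr_fun (hcc a) u)
  have hcard : Nat.card {v : E // ∀ s ∈ (S₂ : Subgroup S), ρ s v = v} = 2 ^ finrank K F := by
    rw [hdim, ← Nat.card_congr (Equiv.subtypeEquivRight hE₀), natCard_eq_pow_finrank (K := ZMod 2),
      Nat.card_zmod]
  rw [hcard]
  by_cases h3 : 3 ≤ finrank K F
  · exact Or.inl (Nat.pow_le_pow_right two_pos h3)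
  refine Or.inr ⟨by rw [show finrank K F = 2 by omega]; rfl, x, x.2, ?_⟩
  by_contra h4
  push Not at h4
  refine h3 (h2 fun v hv => ?_)
  have := hlift (E₀.mkQ ∘ₗ ρ x) (fun w hw => (Submodule.Quotient.mk_eq_zero _).2
    ((hE₀ _).2 (h4 w ((hE₀ w).1 hw)))) v hv
  rwa [LinearMap.baseChange_comp] at this

end Cfsg.Agent.S4414
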