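import Mathlib
import Cfsg.Statements.S4415
import Cfsg.Agent.NS.CubB
import Cfsg.Agent.NS.CubD
import Cfsg.Agent.GT.PConstrained
import Cfsg.Agent.GT.CoprimeFixed

set_option autoImplicit false
open Cfsg

namespace Cfsg.Agent.S4415

/-- Let S be a finite solvable group acting faithfully on a finite-dimensional space E over the field with three elements, with O₃(S) = 1. Let B ≤ S have order 3 and suppose: E = E₀ ⊕ E₁ with B fixing E₁ pointwise, E₀ B-invariant of order 27 and indecomposable under B (a generator of B has a single Jordan block on E₀); B normalizes but does not centralize some subgroup Q of S that is elementary abelian of order 4; and B is the centre of a Sylow 3-subgroup of S. Put R = [O_{3'}(S), B]. Then R is elementary abelian of order 4 or extraspecial of order 32 containing an elementary abelian subgroup of order 8 (a central product of two quaternion groups), and E is the direct sum of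 a subspace fixed pointwise by R and an RB-invariant subspace on which the subgroup RB acts faithfully and irreducibly. -/
theorem result {S : Type*} [Group S] [Finite S]
    [Group.IsSolvable S] {E : Type*} [AddCommGroup E] [Module (ZMod 3) E] [Finite E] (ρ : Representation (ZMod 3) S E)
    (hfaith : Function.Injective ρ) (hO3 : Cfsg.pCore 3 S = ⊥)
    (B : Subgroup S) (hB : Nat.card ↥B = 3) (b : S) (hb : Subgroup.zpowers b = B)
    (E₀ E₁ : Submodule (ZMod 3) E) (hE01 : E₀ ⊓ E₁ = ⊥) (hE01' : E₀ ⊔ E₁ = ⊤)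
    (hE1 : ∀ v ∈ E₁, ρ b v = v) (hE0inv : ∀ v ∈ E₀, ρ b v ∈ E₀) (hE0 : Nat.card ↥E₀ = 27)
    (hind : ∃ v ∈ E₀, ρ b (ρ b v - v) - (ρ b v - v) ≠ 0)
    (Q : Subgroup S) (hQ : Cfsg.IsElementaryAbelian 2 Q) (hQ4 : Nat.card ↥Q = 4)
    (hBQ : B ≤ Subgroup.normalizer (Q : Set S)) (hBQ' : ¬ B ≤ Subgroup.centralizer (Q : Set S))
    (P : Sylow 3 S) (hBZ : (Subgroup.center ↥(P : Subgroup S)).map (P : Subgroup S).subtype = B) :
    ((Cfsg.IsElementaryAbelian 2 ⁅Cfsg.pPrimeCore 3 S, B⁆ ∧ Nat.card ↥⁅Cfsg.pPrimeCore 3 S, B⁆ = 4) ∨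
      (Cfsg.IsExtraspecial 2 ↥⁅Cfsg.pPrimeCore 3 S, B⁆ ∧ Nat.card ↥⁅Cfsg.pPrimeCore 3 S, B⁆ = 32 ∧
        ∃ A : Subgroup S, A ≤ ⁅Cfsg.pPrimeCore 3 S, B⁆ ∧ Cfsg.IsElementaryAbelian 2 A ∧ Nat.card ↥A = 8)) ∧
    ∃ F₀ F₁ : Submodule (ZMod 3) E, F₀ ⊓ F₁ = ⊥ ∧ F₀ ⊔ F₁ = ⊤ ∧
      (∀ r ∈ ⁅Cfsg.pPrimeCore 3 S, B⁆, ∀ v ∈ F₁, ρ r v = v) ∧ (∀ r ∈ ⁅Cfsg.pPrimeCore 3 S, B⁆ ⊔ B, ∀ v ∈ F₀, ρ r v ∈ F₀) ∧
      (∀ r ∈ ⁅Cfsg.pPrimeCore 3 S, B⁆ ⊔ B, (∀ v ∈ F₀, ρ r v = v) → r = 1) ∧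
      (∀ N : Submodule (ZMod 3) E, N ≤ F₀ → (∀ r ∈ ⁅Cfsg.pPrimeCore 3 S, B⁆ ⊔ B, ∀ v ∈ N, ρ r v ∈ N) → N = ⊥ ∨ N = F₀) := by
  subst hb
  haveI : Module.Finite (ZMod 3) E := Module.Finite.of_finite
  haveI : Fact (Nat.Prime 3) := ⟨Nat.prime_three⟩
  have hb3 : b * b * b = 1 := by
    have := pow_orderOf_eq_one b
    rw [← Nat.card_zpowers, hB, pow_succ, pow_two] at this
    exact this
  have hr : Module.finrank (ZMod 3) (LinearMap.range (ρ b - 1)) ≤ 2 := by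
    have h3 : Module.finrank (ZMod 3) E₀ = 3 := by
      have := Module.natCard_eq_pow_finrank (K := ZMod 3) (V := E₀)
      rw [hE0, Nat.card_zmod] at this
      exact (Nat.pow_right_injective (by norm_num : 2 ≤ 3) (show 3 ^ 3 = _ from this)).symm
    let f : E₀ →ₗ[ZMod 3] E := (ρ b - 1).domRestrict E₀
    have hf : LinearMap.range (ρ b - 1) ≤ LinearMap.range f := by
      rintro _ ⟨v, rfl⟩
      obtain ⟨x, hx, y, hy, rfl⟩ := Submodule.mem_sup.1 (hE01'.ge (Submodule.mem_top (x := v)))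
      refine ⟨⟨x, hx⟩, ?_⟩
      simp [f, hE1 y hy]
    obtain ⟨v, hv, hv0⟩ := hind
    have hv1 : ρ b v - v ∈ E₀ := sub_mem (hE0inv v hv) hv
    have hv2 : ρ b (ρ b v - v) - (ρ b v - v) ∈ E₀ := sub_mem (hE0inv _ hv1) hv1
    have hk : 0 < Module.finrank (ZMod 3) (LinearMap.ker f) := by
      rw [Module.finrank_pos_iff_exists_ne_zero]
      refine ⟨⟨⟨_, hv2⟩, ?_⟩, fun e => hv0 (congrArg (fun x => x.1.1) e)⟩
      change ρ b (ρ b (ρ b v - v) - (ρ b v - v)) - (ρ b (ρ b v - v) - (ρ b v - v)) = 0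
      have e3 : ρ b (ρ b (ρ b v)) = v := by
        rw [NS.Cub.app_app, NS.Cub.app_app, hb3, NS.Cub.app_one]
      simp only [map_sub, e3]
      linear_combination (norm := abel) NS.Cub.three (ρ b v) - NS.Cub.three (ρ b (ρ b v))
    have := LinearMap.finrank_range_add_finrank_ker f
    have := Submodule.finrank_mono hf
    omega
  obtain ⟨y, hy, hyb⟩ : ∃ y ∈ Q, b * y * b⁻¹ ≠ y := by
    by_contra H
    push Not at H
    exact hBQ' (Subgroup.zpowers_le.2 fun y hy => (mul_inv_eq_iff_eq_mul.1 (H y hy)).symm)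
  obtain ⟨q1, q2, q3, m1, m2, m3, g⟩ := NS.Cub.exists_rot hb3 (A := Q)
    (fun x hx y hy => congrArg Subtype.val (hQ.1.is_comm.comm ⟨x, hx⟩ ⟨y, hy⟩))
    (fun x hx => (Subgroup.mem_normalizer_iff.1 (hBQ (Subgroup.mem_zpowers b)) x).1 hx)
    (fun x hx => ⟨1, by simpa using hQ.2 x hx⟩) hy hyb
  obtain ⟨u1, u2, u3, h⟩ := NS.Cub.exists_trip hfaith g hr
  have hbO : b ∈ pPrimePCore 3 S := by
    refine (GT.isPConstrained_of_isSolvable inferInstance).centralizer_sylow_le P fun x hx => ?_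
    obtain ⟨c, hc, e⟩ := hBZ.ge (Subgroup.mem_zpowers b)
    rw [← e]
    exact congrArg Subtype.val (Subgroup.mem_center_iff.1 hc ⟨x, hx⟩)
  set K := pPrimeCore 3 S with hK
  have memK : ∀ {q1 q2 q3 : S}, NS.Cub.Rot b q1 q2 q3 → q3 ∈ K := by
    intro q1 q2 q3 g
    have h1 : q3 ∈ pPrimePCore 3 S := by
      rw [← g.comm_b, commutatorElement_def, mul_assoc, mul_assoc, ← mul_assoc q1]
      exact mul_mem hbO (Subgroup.Normal.conj_mem inferInstance _ (inv_mem hbO) q1)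
    obtain ⟨k, hk⟩ := GT.isPGroup_pCore (G := S ⧸ K) 3 ⟨_, h1⟩
    have hk' : (QuotientGroup.mk' K q3) ^ 3 ^ k = 1 := congrArg Subtype.val hk
    have h2 : (QuotientGroup.mk' K q3) ^ 2 = 1 := by rw [← map_pow, pow_two, g.s3, map_one]
    have := orderOf_eq_one_iff.1 (Nat.eq_one_of_dvd_coprimes
      (Nat.Coprime.pow_left k (by norm_num : Nat.Coprime 3 2))
      (orderOf_dvd_of_pow_eq_one hk') (orderOf_dvd_of_pow_eq_one h2))
    exact (QuotientGroup.eq_one_iff q3).1 this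
  have memR : ∀ {q1 q2 q3 : S}, NS.Cub.Rot b q1 q2 q3 → q3 ∈ ⁅K, Subgroup.zpowers b⁆ := by
    intro q1 q2 q3 g
    rw [Subgroup.commutator_comm, ← g.comm_b]
    exact Subgroup.commutator_mem_commutator (Subgroup.mem_zpowers b) (memK g.rot)
  have hK3 : (Nat.card K).Coprime 3 := GT.coprime_card_pPrimeCore 3
  have hbK : Subgroup.zpowers b ≤ Subgroup.normalizer (K : Set S) :=
    Subgroup.le_normalizer_of_normal
  have hQ2 : IsPGroup 2 Q := IsPGroup.of_card (n := 2) hQ4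
  have hR2 := h.isPGroup_two hfaith (K := K) (Q := Q ⊓ K) inferInstance hK3 hB hbK inf_le_right
    (hQ2.to_le inf_le_left) (GT.CopAct.le_normalizer_inf hBQ hbK) ⟨m1, memK g.rot⟩
    ⟨m2, memK g.rot.rot⟩
  have hRb : Subgroup.zpowers b ≤ Subgroup.normalizer
      ((⁅K, Subgroup.zpowers b⁆ : Subgroup S) : Set S) :=
    GT.CopAct.le_normalizer_commutator hbK Subgroup.le_normalizer
  have H : NS.Cub.Sett ρ ⁅K, Subgroup.zpowers b⁆ b := ⟨hfaith,
    hK3.coprime_dvd_left (Subgroup.card_dvd_of_le (GT.CopAct.commutator_le_of_le_normalizer hbK)),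
    hRb (Subgroup.mem_zpowers b), GT.CopAct.commutator_commutator_eq hbK (hB ▸ hK3.symm)⟩
  have r1 := memR g.rot
  have r2 := memR g.rot.rot
  refine ⟨H.structure hR2 hr h r1 r2, NS.Cub.F0 ρ _, NS.Cub.F1 ρ _, NS.Cub.F0_inf_F1 H.cop,
    NS.Cub.F0_sup_F1 H.cop, fun r hr v hv => hv r hr,
    fun r hr v hv => NS.Cub.F0_inv (sup_le Subgroup.le_normalizer hRb hr) hv,
    fun r hr h0 => H.faithful h r1 r2 hr h0, fun N hN hinv => H.irred h r1 r2 hN
      (fun r hr => hinv r (Subgroup.mem_sup_left hr))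
      (hinv b (Subgroup.mem_sup_right (Subgroup.mem_zpowers b)))⟩

end Cfsg.Agent.S4415
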