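import Mathlib
import Cfsg.Statements.S4420

set_option autoImplicit false
open Cfsg

namespace Cfsg.Agent.S4420

theorem inv_of_sq {H : Type*} [Group H] {x : H} (h : x ^ 2 = 1) : x⁻¹ = x := by
  rw [inv_eq_iff_mul_eq_one, ← pow_two, h]

theorem inverts {H : Type*} [Group H] (A : Subgroup H) (hD : ∀ x : H, x ∉ A → x ^ 2 = 1)
    {x a : H} (hx : x ∉ A) (ha : a ∈ A) : x * a * x⁻¹ = a⁻¹ := by
  have h1 : x * a ∉ A := fun h => hx (by simpa using A.mul_mem h (A.inv_mem ha))
  have h2 := inv_of_sq (hD _ h1)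
  have h3 := inv_of_sq (hD _ hx)
  rw [mul_inv_rev, h3] at h2
  rw [← h2]; group

theorem comm_of_inverts {H : Type*} [Group H] (A : Subgroup H) {x : H}
    (h : ∀ a ∈ A, x * a * x⁻¹ = a⁻¹) : IsMulCommutative A := by
  refine ⟨⟨fun a b => Subtype.ext ?_⟩⟩
  have h1 := h _ (A.mul_mem a.2 b.2)
  have h2 : x * (a * b) * x⁻¹ = (x * a * x⁻¹) * (x * b * x⁻¹) := by group
  rw [h2, h a a.2, h b b.2, ← mul_inv_rev, inv_inj] at h1
  exact h1.symm


/-- Structure of groups in which every element outside some proper subgroup has square 1. Let H be a finite group with a proper subgroup A such that every element outside A has square 1. Then H has an abelian normal subgroup B of index 2 such that every element outside B is an involution inverting every element of B; and if H is not an elementary abelian 2-group, B is the only abelian normal subgroup of index 2 with this property. -/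
theorem result {H : Type*} [Group H] [Finite H] (A : Subgroup H) (hA : A ≠ ⊤) (hD : ∀ x : H, x ∉ A → x ^ 2 = 1) :
    ∃ B : Subgroup H, B.Normal ∧ IsMulCommutative ↥B ∧ B.index = 2 ∧
      (∀ x : H, x ∉ B → x ^ 2 = 1 ∧ ∀ b ∈ B, x * b * x⁻¹ = b⁻¹) ∧
      (¬ (IsMulCommutative H ∧ ∀ x : H, x ^ 2 = 1) →
        ∀ B' : Subgroup H, B'.Normal → IsMulCommutative ↥B' → B'.index = 2 →
          (∀ x : H, x ∉ B' → x ^ 2 = 1 ∧ ∀ b ∈ B', x * b * x⁻¹ = b⁻¹) → B' = B) := by
  classical
  -- take a maximal subgroup above `A`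
  obtain ⟨B, hB, hAB⟩ := (eq_top_or_exists_le_coatom A).resolve_left hA
  have hD' : ∀ x : H, x ∉ B → x ^ 2 = 1 := fun x hx => hD x fun h => hx (hAB h)
  obtain ⟨t, ht⟩ : ∃ t : H, t ∉ B := by
    by_contra h
    push Not at h
    exact hB.1 ((Subgroup.eq_top_iff' B).2 h)
  have hinv : ∀ x : H, x ∉ B → ∀ b ∈ B, x * b * x⁻¹ = b⁻¹ := fun x hx b hb => inverts B hD' hx hb
  have hcomm := comm_of_inverts B (hinv t ht)
  have hN : B.Normal := by
    refine ⟨fun b hb g => ?_⟩
    by_cases hg : g ∈ B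
    · exact B.mul_mem (B.mul_mem hg hb) (B.inv_mem hg)
    · rw [hinv g hg b hb]; exact B.inv_mem hb
  have hidx : B.index = 2 := by
    rw [Subgroup.index_eq_two_iff]
    refine ⟨t, fun x => ?_⟩
    have htop : B ⊔ Subgroup.zpowers t = ⊤ := by
      apply hB.2
      refine lt_of_le_of_ne le_sup_left fun e => ht ?_
      rw [e]; exact Subgroup.mem_sup_right (Subgroup.mem_zpowers t)
    have hx : x ∈ ((B ⊔ Subgroup.zpowers t : Subgroup H) : Set H) := by rw [htop]; trivial
    rw [Subgroup.normal_mul] at hx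
    obtain ⟨b, hb, _, ⟨i, rfl⟩, rfl⟩ := hx
    have ht2 : t ^ (2 : ℤ) = 1 := by exact_mod_cast hD' t ht
    have hcases : t ^ i = 1 ∨ t ^ i = t := by
      rcases Int.even_or_odd' i with ⟨k, rfl | rfl⟩
      · left; rw [zpow_mul, ht2, one_zpow]
      · right; rw [zpow_add, zpow_mul, ht2, one_zpow, one_mul, zpow_one]
    have htt : t * t = 1 := by rw [← pow_two, hD' t ht]
    simp only
    rcases hcases with e | e <;> rw [e]
    · right
      refine ⟨by simpa using hb, fun h => ht ?_⟩
      simpa using B.mul_mem (B.inv_mem hb) h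
    · left
      refine ⟨by simpa [mul_assoc, htt] using hb, fun h => ht ?_⟩
      simpa using B.mul_mem (B.inv_mem hb) h
  refine ⟨B, hN, hcomm, hidx, fun x hx => ⟨hD' x hx, hinv x hx⟩, ?_⟩
  intro hne B' hN' hcomm' hidx' hB'
  by_contra hBB
  apply hne
  -- every element outside `B ⊓ B'` has square one
  have hsq : ∀ x : H, x ∉ B ⊓ B' → x ^ 2 = 1 := by
    intro x hx
    by_cases h : x ∈ B
    · exact (hB' x fun h' => hx ⟨h, h'⟩).1
    · exact hD' x h
  have hnle : ¬ B ≤ B' := by
    intro hle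
    have := Subgroup.relIndex_mul_index hle
    rw [hidx, hidx'] at this
    exact hBB (le_antisymm (Subgroup.relIndex_eq_one.1 (by omega)) hle)
  obtain ⟨u, huB, huB'⟩ := SetLike.not_le_iff_exists.1 hnle
  have hall : ∀ x : H, x ^ 2 = 1 := by
    intro x
    by_cases hx : x ∈ B ⊓ B'
    · have h1 := (hB' u huB').2 x hx.2
      have h2 : u * x = x * u := congrArg Subtype.val (hcomm.is_comm.comm (⟨u, huB⟩ : B) ⟨x, hx.1⟩)
      rw [h2, mul_inv_cancel_right] at h1
      rw [pow_two]
      nth_rewrite 1 [h1]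
      exact inv_mul_cancel x
    · exact hsq x hx
  refine ⟨⟨⟨fun a b => ?_⟩⟩, hall⟩
  have := inv_of_sq (hall (a * b))
  rw [mul_inv_rev, inv_of_sq (hall a), inv_of_sq (hall b)] at this
  exact this.symm

end Cfsg.Agent.S4420
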