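import Mathlib
import Cfsg.Statements.S4444
import Cfsg.Agent.Ch.GlaubPGroup

set_option autoImplicit false
open Cfsg

namespace Cfsg.Agent.S4444

/-- The Glauberman correspondence for a p-group of operators. Inside a finite group Γ let S normalise G with the orders of G and S coprime, S a p-group, and let C = G ⊓ C(S) be the fixed points. Call an irreducible character χ of G S-invariant when χ(s g s⁻¹) = χ(g) for s ∈ S, g ∈ G. Then: (i) for every S-invariant χ there is exactly one irreducible character β of C whose multiplicity [χ_C, β] in the restriction of χ is not divisible by p; (ii) that multiplicity is ≡ 1 or ≡ −1 (mod p); (iii) distinct S-invariant χ give distinct β; (iv) every irreducible character of C arises in this way. So χ ↦ β is a bijection from the S-invariant irreducible characters of G onto the irreducible characters of C. -/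
theorem result {Γ : Type*} [Group Γ] [Fintype Γ] (G S : Subgroup Γ) [Fintype G] (hnorm : ∀ s ∈ S, ∀ g ∈ G, s * g * s⁻¹ ∈ G) (hcop : (Nat.card G).Coprime (Nat.card S)) (p : ℕ) (hp : p.Prime) (hS : IsPGroup p S) (C : Subgroup Γ) [Fintype C] (hC : C = G ⊓ Subgroup.centralizer (S : Set Γ)) (hCG : C ≤ G) : (∀ χ : Cfsg.IrrCharacter G, (∀ s ∈ S, ∀ g g' : G, (g' : Γ) = s * g * s⁻¹ → (χ : G → ℂ) g' = (χ : G → ℂ) g) → ∃! β : Cfsg.IrrCharacter C, ∃ m : ℕ, Cfsg.classInner (fun c : C => (χ : G → ℂ) ⟨c, hCG c.2⟩) (β : C → ℂ) = (m : ℂ) ∧ ¬ p ∣ m) ∧ (∀ χ : Cfsg.IrrCharacter G, (∀ s ∈ S, ∀ g g' : G, (g' : Γ) = s * g * s⁻¹ → (χ : G → ℂ) g' = (χ : G → ℂ) g) → ∀ β : Cfsg.IrrCharacter C, ∀ m : ℕ, Cfsg.classInner (fun c : C => (χ : G → ℂ) ⟨c, hCG c.2⟩) (β : C → ℂ) = (m : ℂ) → ¬ p ∣ m → ((m : ℤ) ≡ 1 [ZMOD p] ∨ (m : ℤ) ≡ -1 [ZMOD p])) ∧ (∀ χ χ' : Cfsg.IrrCharacter G, (∀ s ∈ S,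 ∀ g g' : G, (g' : Γ) = s * g * s⁻¹ → (χ : G → ℂ) g' = (χ : G → ℂ) g) → (∀ s ∈ S, ∀ g g' : G, (g' : Γ) = s * g * s⁻¹ → (χ' : G → ℂ) g' = (χ' : G → ℂ) g) → ∀ β : Cfsg.IrrCharacter C, ∀ m m' : ℕ, Cfsg.classInner (fun c : C => (χ : G → ℂ) ⟨c, hCG c.2⟩) (β : C → ℂ) = (m : ℂ) → ¬ p ∣ m → Cfsg.classInner (fun c : C => (χ' : G → ℂ) ⟨c, hCG c.2⟩) (β : C → ℂ) = (m' : ℂ) → ¬ p ∣ m' → χ = χ') ∧ (∀ β : Cfsg.IrrCharacter C, ∃ χ : Cfsg.IrrCharacter G, (∀ s ∈ S, ∀ g g' : G, (g' : Γ) = s * g * s⁻¹ → (χ : G → ℂ) g' = (χ : G → ℂ) g) ∧ ∃ m : ℕ, Cfsg.classInner (fun c : C => (χ : G → ℂ) ⟨c, hCG c.2⟩) (β : C → ℂ) = (m : ℂ) ∧ ¬ p ∣ m) := by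
  have H := Ch.Glb.corr_pGroup hp hS (fun t ht => Subgroup.mem_normalizer_fintype (hnorm t ht)) hcop
    hC hCG
  have key : ∀ χ : IrrCharacter G, Ch.Glb.Inv S (χ : G → ℂ) → ∀ (β : IrrCharacter C) (m : ℕ),
      classInner (fun c : C => (χ : G → ℂ) ⟨c, hCG c.2⟩) (β : C → ℂ) = (m : ℂ) → ¬ p ∣ m →
      Ch.Glb.Rel p (Subgroup.inclusion hCG) (χ : G → ℂ) (β : C → ℂ) := by
    intro χ hinv β m hm hpm
    obtain ⟨γ, hγ, h⟩ := H.ex _ χ.2 hinv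
    by_cases hne : γ = β
    · exact hne ▸ h
    · exact absurd (h.dvd_of_ne hγ β.2 hne hm) hpm
  refine ⟨fun χ hinv => ?_, fun χ hinv β m hm hpm => ?_,
    fun χ χ' hinv hinv' β m m' hm hpm hm' hpm' => ?_, fun β => ?_⟩
  · obtain ⟨β, hβ, h⟩ := H.ex _ χ.2 hinv
    obtain ⟨m, hm⟩ := (χ.2.isCharacter.comp (Subgroup.inclusion hCG)).exists_nat_classInner
      hβ.isCharacter
    refine ⟨⟨β, hβ⟩, ⟨m, hm, h.not_dvd hp hβ hm⟩, ?_⟩
    rintro γ ⟨m', hm', hpm'⟩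
    exact Subtype.ext ((key χ hinv γ m' hm' hpm').unique hp χ.2.isCharacter γ.2 hβ h)
  · exact (key χ hinv β m hm hpm).modEq β.2 hm
  · exact Subtype.ext (H.inj _ _ _ χ.2 χ'.2 β.2 hinv hinv' (key χ hinv β m hm hpm)
      (key χ' hinv' β m' hm' hpm'))
  · obtain ⟨χ, hχ, hinv, h⟩ := H.surj _ β.2
    obtain ⟨m, hm⟩ := (hχ.isCharacter.comp (Subgroup.inclusion hCG)).exists_nat_classInner
      β.2.isCharacter
    exact ⟨⟨χ, hχ⟩, hinv, m, hm, h.not_dvd hp β.2 hm⟩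

end Cfsg.Agent.S4444
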