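import Mathlib
import Cfsg.Statements.S4450
import Cfsg.Agent.Ch.CoprimeChar2
import Cfsg.Agent.Ch.TripleRel
import Cfsg.Agent.GT.Hall

set_option autoImplicit false
open Cfsg

namespace Cfsg.Agent.S4450

open Cfsg.Agent.Ch Cfsg.Agent.Ch.Glb Cfsg.Agent.GT in
theorem exists_normal_hall {Q : Type*} [Group Q] [Finite Q] {Z H : Subgroup Q} [hH : H.Normal]
    (hZ : Z ≤ Subgroup.center Q) (hZH : Z ≤ H) (hcop : H.index.Coprime (Z.relIndex H)) :
    ∃ K : Subgroup Q, K.Normal ∧ K ⊔ Z = H ∧ (Nat.card K).Coprime K.index := by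
  have hc : IsMulCommutative Z := ⟨⟨fun a b =>
    Subtype.ext (Subgroup.mem_center_iff.1 (hZ b.2) a)⟩⟩
  obtain ⟨A, hA⟩ := exists_isPiHallOf {p | p ∣ Z.relIndex H}ᶜ (M := Z)
    (Group.isSolvable_of_comm fun a b => hc.1.1 a b)
  have hn : ∀ {B C : Subgroup Q}, B ≤ Z → B ≤ Subgroup.normalizer (C : Set Q) := fun h =>
    h.trans (hZ.trans (Subgroup.center_le_normalizer _))
  have hAn : H ≤ Subgroup.normalizer (A : Set Q) := Subgroup.le_normalizer_iff.2 fun g _ a ha => by
    rwa [Subgroup.mem_center_iff.1 (hZ (hA.le ha)) g, mul_inv_cancel_right]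
  have h1 : IsPiNum {p | p ∣ Z.relIndex H} (A.relIndex H) := by
    rw [← Subgroup.relIndex_mul_relIndex A Z H hA.le hZH]
    have := hA.relIndex
    rw [compl_compl] at this
    exact this.mul (isPiNum_setOf_dvd _)
  obtain ⟨K, hKH, h2, h3, h4⟩ := exists_complement_of_coprime_relIndex (hA.le.trans hZH) hAn
    (h1.coprime hA.card).symm
  have h5 : K.relIndex H = Nat.card A := by
    have h6 := card_mul_relIndex_eq hKH
    rw [h4, ← card_mul_relIndex_eq (hA.le.trans hZH), mul_comm (Nat.card A)] at h6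
    exact mul_left_cancel₀ Subgroup.index_ne_zero_of_finite h6
  have hK : IsPiHall {p | p ∣ Z.relIndex H} K := isPiHall_iff.2 ⟨h4 ▸ h1, by
    rw [← Subgroup.relIndex_mul_index hKH, h5]
    exact hA.card.mul (isPiNum_compl_setOf_dvd_iff.2 hcop)⟩
  have hHK : H ≤ Subgroup.normalizer (K : Set Q) := h2 ▸ sup_le (hn hA.le) Subgroup.le_normalizer
  refine ⟨K, ⟨fun x hx g => ?_⟩, le_antisymm (sup_le hKH hZH) ?_, hK.coprime⟩
  · refine hK.le_of_normalizes (K := Subgroup.zpowers (g * x * g⁻¹)) ?_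
      (Subgroup.zpowers_le_of_mem (hHK (hH.conj_mem x (hKH hx) g))) (Subgroup.mem_zpowers _)
    rw [Nat.card_zpowers, ← MulAut.conj_apply, MulEquiv.orderOf_eq]
    exact hK.card.orderOf_mem hx
  · rw [← h2, sup_comm]
    exact sup_le_sup_left hA.le _

theorem isSolvable_quotient_of_central {Q : Type*} [Group Q] {Z H K : Subgroup Q} [H.Normal]
    [K.Normal] (hZ : Z ≤ Subgroup.center Q) (h : K ⊔ Z = H) (hs : Group.IsSolvable (Q ⧸ H)) :
    Group.IsSolvable (Q ⧸ K) := by
  have hKH : K ≤ H := h ▸ le_sup_left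
  let f : Q ⧸ K →* Q ⧸ H := QuotientGroup.map K H (MonoidHom.id Q) hKH
  have : Group.IsSolvable (Subgroup.center (Q ⧸ K)) :=
    Group.isSolvable_of_comm fun a b => Subtype.ext (Subgroup.mem_center_iff.1 b.2 a)
  refine Group.isSolvable_of_ker_le_range (Subgroup.center (Q ⧸ K)).subtype f fun x hx => ?_
  obtain ⟨x, rfl⟩ := QuotientGroup.mk_surjective x
  have h1 : x ∈ K ⊔ Z := h ▸ (QuotientGroup.eq_one_iff x).1 hx
  obtain ⟨k, hk, z, hz, rfl⟩ := Subgroup.mem_sup_of_normal_left.1 h1
  rw [Subgroup.range_subtype, Subgroup.mem_center_iff]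
  intro y
  obtain ⟨y, rfl⟩ := QuotientGroup.mk_surjective y
  rw [QuotientGroup.mk_mul, (QuotientGroup.eq_one_iff k).2 hk, one_mul, ← QuotientGroup.mk_mul,
    ← QuotientGroup.mk_mul, Subgroup.mem_center_iff.1 (hZ hz)]

/-- Let N ≤ G be normal subgroups of the finite group Γ with the index of G in Γ coprime to the index of N in G, and Γ/G or G/N solvable. Then for every irreducible character ϑ of N invariant under conjugation by Γ, the induced character ϑ^G has an irreducible constituent invariant under conjugation by Γ. -/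
theorem result {Γ : Type*} [Group Γ] [Fintype Γ] (G N : Subgroup Γ) [hG : G.Normal] [hN : N.Normal] [Fintype G] [Fintype N] (hNG : N ≤ G) (hcop : (G.index).Coprime (N.relIndex G)) (hsolv : Group.IsSolvable (Γ ⧸ G) ∨ Group.IsSolvable (G ⧸ N.subgroupOf G)) (θ : Cfsg.IrrCharacter N) (hinv : ∀ (x : Γ) (n : N), (θ : N → ℂ) ⟨x * n * x⁻¹, hN.conj_mem n n.2 x⟩ = (θ : N → ℂ) n) : ∃ χ : Cfsg.IrrCharacter G, Cfsg.classInner (fun n : N => (χ : G → ℂ) ⟨n, hNG n.2⟩) (θ : N → ℂ) ≠ 0 ∧ ∀ (x : Γ) (g : G), (χ : G → ℂ) ⟨x * g * x⁻¹, hG.conj_mem g g.2 x⟩ = (χ : G → ℂ) g := by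
  have key : ∃ χ : G → ℂ, IsIrrCharacter G χ ∧
      classInner (fun n : N => χ ⟨n, hNG n.2⟩) (θ : N → ℂ) ≠ 0 ∧ Ch.Glb.Inv ⊤ χ := by
    have hθ : Ch.Glb.Inv ⊤ (θ : N → ℂ) := fun s _ g g' h => by
      rw [← hinv s g]; exact congrArg _ (Subtype.ext h)
    rcases hsolv with hs | hs
    · obtain ⟨T⟩ := Ch.nonempty_tripleCover θ.2 hinv
      obtain ⟨K, hK, h1, h2⟩ := exists_normal_hall T.Z_le_center (T.Z_le_up G)
        (by rwa [T.index_up hNG, T.relIndex_Z_up hNG])
      obtain ⟨S, hS⟩ := Subgroup.exists_right_complement'_of_coprime h2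
      have hs1 : Group.IsSolvable (T.Q ⧸ T.up G) := by
        let f : T.Γ ⧸ G.comap T.π →* Γ ⧸ G := QuotientGroup.map _ _ T.π le_rfl
        have hf : Function.Injective f := by
          rw [injective_iff_map_eq_one]
          intro x hx
          obtain ⟨x, rfl⟩ := QuotientGroup.mk_surjective x
          exact (QuotientGroup.eq_one_iff x).2 ((QuotientGroup.eq_one_iff (T.π x)).1 hx)
        have := Group.isSolvable_of_isSolvable_injective hf
        let g : T.Γ ⧸ G.comap T.π →* T.Q ⧸ T.up G :=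
          QuotientGroup.map _ _ T.q fun t ht => T.mem_up_of ht
        refine Group.isSolvable_of_surjective (f := g) fun x => ?_
        obtain ⟨x, rfl⟩ := QuotientGroup.mk_surjective x
        obtain ⟨x, rfl⟩ := T.q_surj x
        exact ⟨x, rfl⟩
      have hs2 := GT.isSolvable_of_isComplement' hS
        (isSolvable_quotient_of_central T.Z_le_center h1 hs1)
      have := Fintype.ofFinite (T.Z ⊓ K : Subgroup T.Q)
      have hn : ∀ R : Subgroup T.Q, R ≤ Subgroup.centralizer (T.Z ⊓ K : Subgroup T.Q) :=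
        fun R => Subgroup.le_centralizer_iff.1
          (inf_le_left.trans (T.Z_le_center.trans (Subgroup.center_le_centralizer _)))
      obtain ⟨β, hβ, h3, h4⟩ := Ch.exists_inv_over_of_solvable_action (S := S)
        (inf_le_right : T.Z ⊓ K ≤ K) ((hn K).trans (Subgroup.centralizer_le_normalizer _))
        Subgroup.le_normalizer_of_normal ((hn S).trans (Subgroup.centralizer_le_normalizer _))
        (by rwa [← hS.symm.index_eq_card]) hs2
        (Ch.linIrr (T.mu.comp (Subgroup.inclusion inf_le_left))).2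
        (Ch.Glb.inv_of_le_centralizer _ (hn S))
      have h5 : T.down K = G := by rw [← T.down_sup_Z, h1, T.down_up hNG]
      obtain ⟨χ, h6, h7, h8⟩ := Ch.TripleCover.exists_cor_down θ.2 h5 hNG hβ
        ((Ch.TripleCover.over_iff hβ).2 h3)
      refine ⟨χ, h6, h8, ?_⟩
      have h9 := h7.inv_down h5 (R := ⊤) Subgroup.le_normalizer_of_normal (by
        rw [← hS.sup_eq_top]
        exact Ch.Glb.Inv.sup Subgroup.le_normalizer Subgroup.le_normalizer_of_normal
          (Ch.Glb.inv_self hβ.isClassFunction) h4)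
      rwa [← T.up_top, T.down_up le_top] at h9
    · have h1 : Nat.card (G.map (QuotientGroup.mk' N)) = N.relIndex G :=
        GT.card_map_mk'_eq_relIndex ..
      have h2 : (G.map (QuotientGroup.mk' N)).index = G.index := by
        rw [Subgroup.index_map, QuotientGroup.ker_mk', sup_eq_left.2 hNG, QuotientGroup.range_mk',
          Subgroup.index_top, mul_one]
      obtain ⟨S, hS⟩ := Subgroup.exists_right_complement'_of_coprime
        (N := G.map (QuotientGroup.mk' N)) (by rw [h1, h2]; exact hcop.symm)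
      have h3 : N.relIndex (S.comap (QuotientGroup.mk' N)) = G.index := by
        rw [← GT.card_map_mk'_eq_relIndex, Subgroup.map_comap_eq_self_of_surjective
          (QuotientGroup.mk'_surjective N), ← hS.symm.index_eq_card, h2]
      obtain ⟨χ, h4, h5, h6⟩ := Ch.exists_inv_over_of_solvable_quotient
        (S := S.comap (QuotientGroup.mk' N)) hNG Subgroup.le_normalizer_of_normal
        Subgroup.le_normalizer_of_normal Subgroup.le_normalizer_of_normal
        (by rw [h3]; exact hcop.symm) hs θ.2 (hθ.mono le_top)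
      refine ⟨χ, h4, h5, ?_⟩
      have h7 : G ⊔ S.comap (QuotientGroup.mk' N) = ⊤ := by
        have := congrArg (Subgroup.comap (QuotientGroup.mk' N)) hS.sup_eq_top
        rwa [← Subgroup.comap_sup_eq _ _ _ (QuotientGroup.mk'_surjective N), Subgroup.comap_map_eq,
          QuotientGroup.ker_mk', sup_eq_left.2 hNG, Subgroup.comap_top] at this
      rw [← h7]
      exact Ch.Glb.Inv.sup Subgroup.le_normalizer Subgroup.le_normalizer_of_normal
        (Ch.Glb.inv_self h4.isClassFunction) h6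
  obtain ⟨χ, h1, h2, h3⟩ := key
  exact ⟨⟨χ, h1⟩, h2, fun x g => h3 x trivial g _ rfl⟩

end Cfsg.Agent.S4450
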