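import Cfsg.Statements.S4455
import Cfsg.Agent.S4591
import Cfsg.Agent.S0887
-- import your own Cfsg.Agent.* helpers here

set_option autoImplicit false
open Cfsg

namespace Cfsg.Agent.S4455

/-- Fix a prime p and a finite group G. Let s be the sum of χ(1)² over the irreducible characters χ of G whose degree is not divisible by p and whose determinantal order o(χ) is not divisible by p. Then the order of O^p(G), the subgroup generated by the elements of order prime to p, is congruent to s modulo p. -/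
theorem result {G : Type*} [Group G] [Finite G] (p : ℕ) (hp : p.Prime) : (Nat.card (Cfsg.pResidual p G) : ℤ) ≡ (∑ᶠ χ ∈ {χ : Cfsg.IrrCharacter G | ¬ p ∣ Cfsg.charDegree (χ : G → ℂ) ∧ ¬ p ∣ Cfsg.detOrder (χ : G → ℂ)}, (Cfsg.charDegree (χ : G → ℂ) : ℤ) ^ 2) [ZMOD p] := by
  classical
  have := Fact.mk hp
  have := Fintype.ofFinite G
  obtain ⟨P⟩ : Nonempty (Sylow p G) := inferInstance
  set N := pResidual p G with hNres
  have : N.Characteristic := GT.pResidual_characteristic
  obtain ⟨a, ha⟩ : ∃ a, N.index = p ^ a := GT.exists_index_pResidual (G := G) hp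
  have hcop : ∀ m, ¬ p ∣ m → N.index.Coprime m := fun m hm =>
    ha ▸ Nat.Coprime.pow_left _ ((Nat.Prime.coprime_iff_not_dvd hp).mpr hm)
  have h1 := S4591.sum_modEq (N := N) P.isPGroup' (fun θ => charDegree (θ : N → ℂ) ^ 2) (by
    intro x θ φ h
    rw [Ch.charDegree_congr (ψ := (θ : N → ℂ)) (by rw [h, Ch.conjChar_apply_one])])
  rw [Ch.sum_sq_charDegree, ← Finset.sum_filter_add_sum_filter_not _
    (fun θ : IrrCharacter N => p ∣ charDegree (θ : N → ℂ))] at h1
  have h2 := h1.trans (Nat.ModEq.add_right _ ((Nat.modEq_zero_iff_dvd).mpr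
    (Finset.dvd_sum fun θ hθ => dvd_pow (Finset.mem_filter.mp hθ).2 two_ne_zero)))
  rw [zero_add] at h2
  have hres : ∀ χ : IrrCharacter G, ¬ p ∣ charDegree (χ : G → ℂ) →
      IsIrrCharacter N fun n : N => (χ : G → ℂ) n := by
    intro χ hd
    obtain ⟨θ, hθ, hne⟩ := Ch.exists_irr_under N χ.2
    obtain ⟨⟨e, he⟩, h2⟩ := S0887.result N _ χ.2 θ hθ hne _ _ χ.2.coe_charDegree.symm
      hθ.coe_charDegree.symm
    rw [he, Nat.mul_div_cancel_left _ hθ.charDegree_pos, ha] at h2
    obtain ⟨i, -, hi⟩ := (Nat.dvd_prime_pow hp).mp h2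
    have he1 : e = 1 := by
      rcases i with _ | i
      · exact hi
      · exact absurd (he ▸ Dvd.dvd.mul_left (hi ▸ dvd_pow_self _ (Nat.succ_ne_zero _)) _) hd
    rw [he1, mul_one] at he
    rwa [(χ.2.isCharacter.restrict N).eq_irr_of_apply_one hθ hne (by
        rw [← hθ.coe_charDegree, ← he, χ.2.coe_charDegree]; rfl)]
  rw [finsum_mem_eq_finite_toFinset_sum _ (Set.toFinite _)]
  have h3 := Int.natCast_modEq_iff.mpr h2
  refine h3.trans (Eq.mpr (congrArg (· ≡ _ [ZMOD p]) ?_) (Int.ModEq.refl _))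
  push_cast
  symm
  refine Finset.sum_bij (fun χ hχ => ⟨_, hres χ ((Set.Finite.mem_toFinset _).mp hχ).1⟩) ?_ ?_ ?_ ?_
  · intro χ hχ
    simp only [Finset.mem_filter, Finset.mem_univ, true_and]
    exact ⟨fun x _ => Ch.conjChar_res χ.2.isCharacter.isClassFunction x,
      ((Set.Finite.mem_toFinset _).mp hχ).1⟩
  · intro χ hχ ψ hψ h
    have hχ' := (Set.Finite.mem_toFinset _).mp hχ
    have hψ' := (Set.Finite.mem_toFinset _).mp hψ
    exact Subtype.ext (Ch.eq_of_extends_of_coprime_detOrder (hres ψ hψ'.1) (hcop _ hψ'.1)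
      ψ.2.isCharacter χ.2.isCharacter (fun _ => rfl) (congrFun (congrArg Subtype.val h))
      (hcop _ hψ'.2) (hcop _ hχ'.2))
  · intro θ hθ
    simp only [Finset.mem_filter, Finset.mem_univ, true_and] at hθ
    obtain ⟨χ, hχ, hext, hdet, -⟩ := Blk.PF.exists_canonical hp hNres θ.2 (by
      rw [← Ch.inertia_eq_top_iff, eq_top_iff, ← GT.pResidual_sup_sylow (p := p) P]
      exact sup_le (Ch.le_inertia θ.2.isCharacter.isClassFunction) fun x hx =>
        Ch.mem_inertia'.mpr (hθ.1 x hx)) hθ.2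
    refine ⟨⟨χ, hχ⟩, (Set.Finite.mem_toFinset _).mpr ⟨?_, hdet⟩, Subtype.ext (funext hext)⟩
    rw [Ch.charDegree_of_extends hext]
    exact hθ.2
  · intro χ _
    rfl

end Cfsg.Agent.S4455
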