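import Mathlib
import Cfsg.Statements.S4494
import Cfsg.Agent.Blk.Contrib2

set_option autoImplicit false
open Cfsg

namespace Cfsg.Agent.S4494

open Cfsg.Agent.Ch Cfsg.Agent.Blk.Om

/-- The Brauer–Feit bound. Let B be a p-block of the finite group G (relative to a maximal ideal M of the algebraic integers containing p) and let d be its defect. Then the number k(B) of irreducible characters in B satisfies k(B) ≤ p^(2d)/4 + 1, stated here as 4·k(B) ≤ p^(2d) + 4. -/
theorem result {G : Type*} [Group G] [Finite G] (p : ℕ) [Fact p.Prime] (M : Ideal Cfsg.AlgInt) (hM : Cfsg.IsPModular p M) (B : Set (Cfsg.IrrCharacter G)) (hB : Cfsg.IsPBlock M B) : 4 * Nat.card B ≤ p ^ (2 * Cfsg.blockDefect p B) + 4 := by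
  classical
  have hp : p.Prime := Fact.out
  haveI := hM.isMaximal
  haveI := Fintype.ofFinite G
  obtain ⟨χ, hχ, h0⟩ := exists_height_zero (p := p) (block_nonempty hB)
  choose a ha using exists_int_pow_defect_mul_contr hp hχ
  have hp0 : (p : ℂ) ^ blockDefect p B ≠ 0 := pow_ne_zero _ (Nat.cast_ne_zero.2 hp.ne_zero)
  have hsum : ∑ η, a η ^ 2 = (p : ℤ) ^ blockDefect p B * a χ := by
    have h := contr_self_eq_sum_sq (p := p) χ
    have : ((∑ η, a η ^ 2 : ℤ) : ℂ) = ((p : ℤ) ^ blockDefect p B * a χ : ℤ) := by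
      push_cast
      simp only [← ha, mul_pow]
      rw [← Finset.mul_sum, ← h]
      ring
    exact_mod_cast this
  have hne : ∀ η ∈ B, 1 ≤ a η ^ 2 := by
    intro η hη
    have : a η ≠ 0 := by
      intro h
      have h1 := ha η
      rw [h, Int.cast_zero] at h1
      exact mul_ne_zero hp0 (contr_ne_zero_of_height_zero hM hB hχ hη h0) h1
    exact Int.add_one_le_of_lt (by positivity : 0 < a η ^ 2)
  have hcard : Nat.card B = (Finset.univ.filter (· ∈ B)).card := by
    rw [Nat.card_eq_fintype_card, Fintype.card_subtype]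
  have h1 : (((Finset.univ.filter (· ∈ B)).erase χ).card : ℤ) ≤
      ∑ η ∈ Finset.univ.erase χ, a η ^ 2 := by
    rw [Finset.card_eq_sum_ones]
    push_cast
    refine (Finset.sum_le_sum fun η hη => hne η ?_).trans
      (Finset.sum_le_sum_of_subset_of_nonneg (Finset.erase_subset_erase _ (Finset.subset_univ _))
        fun _ _ _ => by positivity)
    simpa using Finset.mem_of_mem_erase hη
  have h2 := Finset.add_sum_erase Finset.univ (fun η => a η ^ 2) (Finset.mem_univ χ)
  have h3 := Finset.card_erase_add_one (s := Finset.univ.filter (· ∈ B)) (a := χ) (by simpa)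
  have h4 : (4 * Nat.card B : ℤ) ≤ (p : ℤ) ^ (2 * blockDefect p B) + 4 := by
    rw [hcard, ← h3, mul_comm 2, pow_mul]
    push_cast
    nlinarith [sq_nonneg ((p : ℤ) ^ blockDefect p B - 2 * a χ)]
  exact_mod_cast h4

end Cfsg.Agent.S4494
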