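import Mathlib
import Cfsg.Statements.S4483
import Cfsg.Agent.Blk.PB0
import Cfsg.Agent.S4494

set_option autoImplicit false
open Cfsg

namespace Cfsg.Agent.S4483

/-- Let G be a finite group of order 2^n·g₀ with g₀ odd, and M a maximal ideal of the algebraic integers containing 2. Every real-valued irreducible character of G of odd degree lies in the principal 2-block; consequently G has at most 2^(2n) real-valued irreducible characters of odd degree. -/
theorem result {G : Type*} [Group G] [Finite G] (M : Ideal Cfsg.AlgInt) (hM : Cfsg.IsPModular 2 M) : (∀ χ : Cfsg.IrrCharacter G, (∀ g : G, ((χ : G → ℂ) g).im = 0) → Odd (Cfsg.charDegree (χ : G → ℂ)) → χ ∈ Cfsg.principalBlock M G) ∧ Nat.card {χ : Cfsg.IrrCharacter G // (∀ g : G, ((χ : G → ℂ) g).im = 0) ∧ Odd (Cfsg.charDegree (χ : G → ℂ))} ≤ 2 ^ (2 * (Nat.card G).factorization 2) := by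
  have h1 : ∀ χ : Cfsg.IrrCharacter G, (∀ g : G, ((χ : G → ℂ) g).im = 0) →
      Odd (Cfsg.charDegree (χ : G → ℂ)) → χ ∈ Cfsg.principalBlock M G := by
    intro χ hr hodd
    have := hM.isMaximal
    refine Blk.P0.mem_of_odd_degree hM (Nat.two_dvd_ne_zero.mpr (Nat.odd_iff.mp hodd))
      (Blk.Om.sameBlock_refl _) fun y _ => ?_
    rw [χ.isCharacter.apply_inv, Complex.conj_eq_iff_im.mpr (hr y)]
  refine ⟨h1, ?_⟩
  have h2 := S4494.result 2 M hM _ (Blk.PB.isPBlock (G := G) hM)
  have h3 : Nat.card {χ : Cfsg.IrrCharacter G // (∀ g : G, ((χ : G → ℂ) g).im = 0) ∧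
      Odd (Cfsg.charDegree (χ : G → ℂ))} ≤ Nat.card (Cfsg.principalBlock M G) :=
    Nat.card_le_card_of_injective (fun χ => ⟨χ.1, h1 χ.1 χ.2.1 χ.2.2⟩)
      fun a b e => Subtype.ext (by simpa using e)
  have h4 : 2 ^ (2 * Cfsg.blockDefect 2 (Cfsg.principalBlock M G)) ≤
      2 ^ (2 * (Nat.card G).factorization 2) :=
    Nat.pow_le_pow_right two_pos (Nat.mul_le_mul_left 2 (Nat.sub_le _ _))
  have h5 : 0 < 2 ^ (2 * (Nat.card G).factorization 2) := by positivity
  omega

end Cfsg.Agent.S4483
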