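import Cfsg.Statements.S4517
import Cfsg.Agent.Blk.PB0
-- import your own Cfsg.Agent.* helpers here

set_option autoImplicit false
open Cfsg

namespace Cfsg.Agent.S4517

/-- Let G be a finite group, M a maximal ideal of the algebraic integers containing 2, and k a natural number coprime to the order of G with g ^ k = g⁻¹ for every element g of odd order (so that g ↦ g ^ k induces a field automorphism of the character values inverting the roots of unity of odd order). If B is a 2-block of full defect (its defect equals the exponent of 2 in the order of G) that is stable under χ ↦ χ ∘ (· ^ k), then B is the principal 2-block. -/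
theorem result {G : Type*} [Group G] [Finite G] (M : Ideal Cfsg.AlgInt) (hM : Cfsg.IsPModular 2 M) (k : ℕ) (hk : Nat.Coprime k (Nat.card G)) (hk₂ : ∀ g : G, Odd (orderOf g) → g ^ k = g⁻¹) (B : Set (Cfsg.IrrCharacter G)) (hB : Cfsg.IsPBlock M B) (hdef : Cfsg.blockDefect 2 B = (Nat.card G).factorization 2) (hstab : ∀ χ ∈ B, ∃ ψ ∈ B, ∀ g : G, (ψ : G → ℂ) g = (χ : G → ℂ) (g ^ k)) : B = Cfsg.principalBlock M G := by
  have := hM.isMaximal
  obtain ⟨χ, hχ, hodd⟩ : ∃ χ ∈ B, ¬ 2 ∣ charDegree (χ : G → ℂ) := by
    obtain ⟨χ, hχ, h⟩ := Nat.sInf_mem (hB.nonempty.image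
      fun χ : IrrCharacter G => (charDegree (χ : G → ℂ)).factorization 2)
    refine ⟨χ, hχ, fun hd => ?_⟩
    have h1 := (Nat.prime_two.dvd_iff_one_le_factorization χ.2.charDegree_pos.ne').mp hd
    have h2 := (Nat.prime_two.dvd_iff_one_le_factorization Nat.card_pos.ne').mp
      (hd.trans χ.2.charDegree_dvd_card)
    unfold blockDefect at hdef
    simp only at h
    omega
  obtain ⟨ψ, hψ, h⟩ := hstab χ hχ
  exact hB.eq_of_mem Blk.isPBlock_principalBlock hχ (Blk.P0.mem_of_odd_degree hM hodd
    (hB.sameBlock hχ hψ) fun y hy => by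
      rw [h, hk₂ y (Nat.not_even_iff_odd.mp fun he => hy he.two_dvd)])

end Cfsg.Agent.S4517
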