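import Cfsg.Statements.S4518
import Cfsg.Agent.Deg.GalFix
-- import your own Cfsg.Agent.* helpers here

set_option autoImplicit false
open Cfsg

namespace Cfsg.Agent.S4518

open Cfsg.Agent.Ch Cfsg.Agent.Deg
open scoped ComplexConjugate

/-- Let N be a normal subgroup of the finite group G whose index is not divisible by the prime p, and let k be coprime to the order of G with k ^ (p ^ e) ≡ 1 modulo the order of G for some e (so g ↦ g ^ k induces a field automorphism of p-power order on character values). If an irreducible character χ of G satisfies χ (g ^ k) = χ g for all g, then every irreducible constituent θ of the restriction of χ to N satisfies θ (n ^ k) = θ n for all n. -/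
theorem result {G : Type*} [Group G] [Fintype G] (p : ℕ) [Fact p.Prime] (N : Subgroup G) [N.Normal] [Fintype N] (hidx : ¬ p ∣ N.index) (k e : ℕ) (hk : Nat.Coprime k (Nat.card G)) (hke : k ^ (p ^ e) ≡ 1 [MOD Nat.card G]) (χ : Cfsg.IrrCharacter G) (hχ : ∀ g : G, (χ : G → ℂ) (g ^ k) = (χ : G → ℂ) g) (θ : Cfsg.IrrCharacter N) (hθ : Cfsg.classInner (fun n : N => (χ : G → ℂ) n) (θ : N → ℂ) ≠ 0) : ∀ n : N, (θ : N → ℂ) (n ^ k) = (θ : N → ℂ) n := by
  have hkN : k.Coprime (Nat.card N) := hk.coprime_dvd_right (Subgroup.card_subgroup_dvd_card N)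
  let f : Function.End (conjugates (θ : N → ℂ)) := fun φ => ⟨fun n => φ.1 (n ^ k), by
    have h1 := isIrrCharacter_of_mem_conjugates θ.2 φ.2
    refine mem_conjugates_of_under χ.2 θ.2 (h1.comp_pow_of_coprime hkN) hθ ?_
    have h2 : (fun n : N => (χ : G → ℂ) n) = fun n : N => (fun m : N => (χ : G → ℂ) m) (n ^ k) :=
      funext fun n => (hχ n).symm
    rw [h2, classInner_comp_pow hkN (fun m : N => (χ : G → ℂ) m), classInner_res_of_mem_conjugates χ.2.isClassFunction φ.2]
    exact hθ⟩
  have hf : ∀ m φ n, ((f ^ m) φ).1 n = φ.1 (n ^ k ^ m) := fun m => by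
    induction m with
    | zero => intro φ n; rw [pow_zero, pow_zero, pow_one]; rfl
    | succ m IH =>
      intro φ n
      rw [pow_succ']
      change ((f ^ m) φ).1 (n ^ k) = _
      rw [IH, ← pow_mul, pow_succ']
  have hf1 : f ^ p ^ e = 1 := funext fun φ => Subtype.ext (funext fun n => by
    rw [hf, pow_eq_pow_iff_modEq.2 (hke.of_dvd ((orderOf_dvd_natCard n).trans
      (Subgroup.card_subgroup_dvd_card N))), pow_one]; rfl)
  classical
  have h1 := Equiv.Perm.card_fixedPoints_modEq hf1
  rw [Fintype.card_coe, card_conjugates] at h1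
  have h2 : Fintype.card f.fixedPoints ≠ 0 := fun h => hidx (((Nat.modEq_zero_iff_dvd).1
    (h ▸ h1)).trans (Subgroup.index_dvd_of_le (le_inertia θ.2.isClassFunction)))
  obtain ⟨⟨φ, hφ⟩⟩ := Fintype.card_pos_iff.1 (Nat.pos_of_ne_zero h2)
  obtain ⟨g, hg⟩ := mem_conjugates.1 (mem_conjugates_comm.1 φ.2)
  intro n
  rw [hg, conjChar_pow]
  exact congrArg (fun ψ => conjChar g ψ n) (congrArg Subtype.val hφ)

end Cfsg.Agent.S4518
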