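import Cfsg.Statements.S4520
import Cfsg.Agent.Blk.PB0
import Cfsg.Agent.Ch.RealChar
import Cfsg.Agent.S0965
-- import your own Cfsg.Agent.* helpers here

set_option autoImplicit false
open Cfsg

namespace Cfsg.Agent.S4520

/-- Let N be a normal subgroup of odd index in the finite group G, M a maximal ideal of the algebraic integers containing 2, and k coprime to the order of G with k ^ (2 ^ e) ≡ 1 modulo the order of G for some e and g ^ k = g⁻¹ for every element g of odd order. Let θ be an irreducible character of N and χ an irreducible character of G over θ, both unchanged by composing with g ↦ g ^ k. Then χ lies in the principal 2-block of G if and only if θ lies in the principal 2-block of N. -/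
theorem result {G : Type*} [Group G] [Fintype G] (M : Ideal Cfsg.AlgInt) (hM : Cfsg.IsPModular 2 M) (N : Subgroup G) [N.Normal] [Fintype N] (hidx : Odd N.index) (k e : ℕ) (hk : Nat.Coprime k (Nat.card G)) (hke : k ^ (2 ^ e) ≡ 1 [MOD Nat.card G]) (hk₂ : ∀ g : G, Odd (orderOf g) → g ^ k = g⁻¹) (θ : Cfsg.IrrCharacter N) (hθ : ∀ n : N, (θ : N → ℂ) (n ^ k) = (θ : N → ℂ) n) (χ : Cfsg.IrrCharacter G) (hχ : ∀ g : G, (χ : G → ℂ) (g ^ k) = (χ : G → ℂ) g) (hover : Cfsg.classInner (fun n : N => (χ : G → ℂ) n) (θ : N → ℂ) ≠ 0) : χ ∈ Cfsg.principalBlock M G ↔ θ ∈ Cfsg.principalBlock M N := by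
  have := hM.isMaximal
  refine ⟨fun h => Blk.P0.mem_of_over hM h hover, fun h => ?_⟩
  refine Blk.P0.mem_of_inv_two hM χ (fun y hy => ?_) fun y hy h1 hc => ?_
  · congr 1
    unfold centralChar
    rw [Blk.P0.index_centralizer_inv, ← hk₂ y (Nat.not_even_iff_odd.mp fun he => hy he.two_dvd), hχ]
  · have hyN : y ∈ N := Ch.RC.mem_of_isConj_inv hidx (one_mem N) (by rwa [one_mul])
    have hcov : ∀ {B : Set (IrrCharacter G)}, IsPBlock M B →
        Blk.Om.Covers N.subtype B (principalBlock M N) → ∀ ψ ∈ B,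
        MemLocalIdeal M (centralChar (ψ : G → ℂ) y - inducedCentralChar N (θ : N → ℂ) y) :=
      fun hB hc ψ hψ => (S0965.result 2 M hM N _ hB _ Blk.isPBlock_principalBlock).mp
        (Blk.Om.covers_subtype_iff.mp hc) ψ hψ θ h ⟨y, hyN⟩
    have h2 := hcov (Blk.isPBlock_blockOf χ)
      (Blk.Om.covers_subtype_iff.mpr ⟨χ, Blk.mem_blockOf_self χ, θ, h, hover⟩) χ
      (Blk.mem_blockOf_self χ)
    have h3 := hcov Blk.isPBlock_principalBlock
      (Blk.Om.covers_subtype_iff.mpr ⟨Ch.irrOne G, Blk.irrOne_mem_principalBlock, Ch.irrOne N,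
        Blk.irrOne_mem_principalBlock, by
          rw [Ch.coe_irrOne, Ch.coe_irrOne, Ch.classInner_one_one]; exact one_ne_zero⟩) _
      Blk.irrOne_mem_principalBlock
    rw [Blk.red_eq_of_sub_mem (Blk.memLocalRing_centralChar _ y) (h2.trans h3.symm)]
    exact Blk.P0.red_centralChar_eq_zero hM _ (by rw [Ch.coe_irrOne, Ch.charDegree_one]; simp)
      (Blk.P0.even_index_of_isConj_inv (Blk.P0.inv_ne_of_odd h1 hy) hc)

end Cfsg.Agent.S4520
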