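import Cfsg.Statements.S4521
import Cfsg.Agent.Blk.PB0
import Cfsg.Agent.Ch.Linear
-- import your own Cfsg.Agent.* helpers here

set_option autoImplicit false
open Cfsg

namespace Cfsg.Agent.S4521

theorem mem_prod_iff {A B : Type*} [Group A] [Group B] [Finite A] [Finite B] {p : ℕ}
    {M : Ideal AlgInt} (hM : IsPModular p M) (φ : IrrCharacter A) (ψ : IrrCharacter B) :
    Ch.irrProd (φ, ψ) ∈ principalBlock M (A × B) ↔
      φ ∈ principalBlock M A ∧ ψ ∈ principalBlock M B := by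
  have := Fintype.ofFinite A
  have := Fintype.ofFinite B
  rw [Blk.PB.mem_principal_iff_sum hM, Blk.PB.mem_principal_iff_sum hM,
    Blk.PB.mem_principal_iff_sum hM, ← mul_ne_zero_iff, Finset.sum_mul_sum, Fintype.sum_prod_type]
  refine Iff.of_eq (congrArg (· ≠ 0) (Finset.sum_congr rfl fun a _ => Finset.sum_congr rfl
    fun b _ => ?_))
  simp only [Blk.pRegularPart_apply, Prod.orderOf, hM.prime.dvd_lcm, Ch.irrProd_apply]
  by_cases ha : p ∣ orderOf a <;> by_cases hb : p ∣ orderOf b <;> simp [ha, hb]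


/-- Let the finite group G be generated by subgroups U₁ and U₂ that commute elementwise and whose intersection is a p-group, and let M be a maximal ideal of the algebraic integers containing the prime p. If the irreducible character χ of G has the irreducible constituents ψ₁ on U₁ and ψ₂ on U₂, then χ lies in the principal block of G if and only if ψ₁ and ψ₂ lie in the principal blocks of U₁ and U₂. -/
theorem result {G : Type*} [Group G] [Fintype G] (p : ℕ) [Fact p.Prime] (M : Ideal Cfsg.AlgInt) (hM : Cfsg.IsPModular p M) (U₁ U₂ : Subgroup G) [Fintype U₁] [Fintype U₂] (hcomm : ∀ u ∈ U₁, ∀ v ∈ U₂, u * v = v * u) (hgen : U₁ ⊔ U₂ = ⊤) (hZ : IsPGroup p ↥(U₁ ⊓ U₂)) (χ : Cfsg.IrrCharacter G) (ψ₁ : Cfsg.IrrCharacter U₁) (ψ₂ : Cfsg.IrrCharacter U₂) (h₁ : Cfsg.classInner (fun u : U₁ => (χ : G → ℂ) u) (ψ₁ : U₁ → ℂ) ≠ 0) (h₂ : Cfsg.classInner (fun u : U₂ => (χ : G → ℂ) u) (ψ₂ : U₂ → ℂ) ≠ 0) : χ ∈ Cfsg.principalBlock M G ↔ (ψ₁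 ∈ Cfsg.principalBlock M U₁ ∧ ψ₂ ∈ Cfsg.principalBlock M U₂) := by
  obtain ⟨φ, ψ, hφ, hψ, h⟩ := Ch.exists_irr_mul_of_commute U₁ U₂ hcomm hgen χ.2
  have e1 : φ = ψ₁ := by
    refine hφ.eq_of_classInner_ne_zero ψ₁.2 fun h0 => h₁ ?_
    have : (fun u : U₁ => (χ : G → ℂ) u) = ψ 1 • φ := by
      funext u; have := h u 1; simpa [mul_comm] using this
    rw [this, Ch.classInner_smul_left, h0, mul_zero]
  have e2 : ψ = ψ₂ := by
    refine hψ.eq_of_classInner_ne_zero ψ₂.2 fun h0 => h₂ ?_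
    have : (fun u : U₂ => (χ : G → ℂ) u) = φ 1 • ψ := by
      funext u; have := h 1 u; simpa using this
    rw [this, Ch.classInner_smul_left, h0, mul_zero]
  subst e1 e2
  let f : U₁ × U₂ →* G := U₁.subtype.noncommCoprod U₂.subtype fun a b => hcomm a a.2 b b.2
  have hf : ∀ x : U₁ × U₂, f x = x.1 * x.2 := fun x => rfl
  have hsurj : Function.Surjective f := by
    rw [← MonoidHom.range_eq_top, eq_top_iff, ← hgen]
    exact sup_le (fun a ha => ⟨(⟨a, ha⟩, 1), by simp [hf]⟩) fun a ha => ⟨(1, ⟨a, ha⟩), by simp [hf]⟩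
  have hker : ∀ x ∈ f.ker, (x.1 : G) = (x.2 : G)⁻¹ := fun x hx =>
    eq_inv_of_mul_eq_one_left hx
  rw [← Blk.PB.mem_principal_comp_iff hM f hsurj (χ := Ch.irrProd (ψ₁, ψ₂)) ?_ ?_
    (fun x => by rw [Ch.irrProd_apply, hf, h]), mem_prod_iff hM]
  · intro x hx
    rw [Subgroup.mem_center_iff]
    intro y
    refine Prod.ext (Subtype.ext ?_) (Subtype.ext ?_)
    · simp only [Prod.fst_mul, Subgroup.coe_mul, hker x hx]
      exact hcomm _ y.1.2 _ (inv_mem x.2.2)
    · simp only [Prod.snd_mul, Subgroup.coe_mul]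
      rw [← inv_inv (x.2 : G), ← hker x hx]
      exact (hcomm _ (inv_mem x.1.2) _ y.2.2).symm
  · rintro ⟨x, hx⟩
    obtain ⟨k, hk⟩ := hZ ⟨x.1, Subgroup.mem_inf.mpr ⟨x.1.2, by rw [hker x hx]; exact U₂.inv_mem x.2.2⟩⟩
    have hk' : (x.1 : G) ^ p ^ k = 1 := congrArg Subtype.val hk
    refine ⟨k, Subtype.ext (Prod.ext (Subtype.ext hk') (Subtype.ext ?_))⟩
    rw [hker x hx, inv_pow, inv_eq_one] at hk'
    exact hk'

end Cfsg.Agent.S4521
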