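import Mathlib
import Cfsg.Statements.S4534
import Cfsg.Agent.SnCh.Local

set_option autoImplicit false
open Cfsg

namespace Cfsg.Agent.S4534

open SnCh Blk

/-- Let B be a p-block of a finite symmetric group (relative to a maximal ideal M of the algebraic integers containing p) with a nontrivial defect group D all of whose sections have p-rank at most s. Then the p-regular rank of B is less than p ^ s. -/
theorem result (n : ℕ) (p : ℕ) [Fact p.Prime] (M : Ideal Cfsg.AlgInt) (hM : Cfsg.IsPModular p M) (B : Set (Cfsg.IrrCharacter (Equiv.Perm (Fin n)))) (hB : Cfsg.IsPBlock M B) (D : Subgroup (Equiv.Perm (Fin n))) (hD : Cfsg.IsDefectGroup p M B D) (hD1 : D ≠ ⊥) (s : ℕ) (hs : Cfsg.SectionalPRankLE p s D) : Cfsg.blockRank p B < p ^ s := by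
  have := hM.isMaximal
  obtain ⟨χ, hχ⟩ := hB.nonempty
  obtain ⟨β, h⟩ := exists_lab le_rfl χ
  obtain ⟨w, hw⟩ := exists_wt hM.prime.pos h.val
  obtain ⟨h1, ι, h2⟩ := defect_eq_wr (J := Fin w) hM hB le_rfl hχ h (by simpa) hD default
  have h3 := card_wr_bot_le ι (by simp) hs (f := MonoidHom.id _)
    (by simpa [h2] using Sym.wr_mono bot_le)
  refine (blockRank_le_Kw hM hB le_rfl hχ h hw).trans_lt
    (((finrank_Kw_lt hM.prime.two_le h.val w).1 (Nat.pos_of_ne_zero ?_)).trans_le (by simpa using h3))
  rintro rfl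
  exact hD1 (Subgroup.card_eq_one.1 (by simpa [h1] using hD.card_eq_pow_blockDefect hM hB))

end Cfsg.Agent.S4534
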