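import Mathlib
import Cfsg.Statements.S4698
import Cfsg.Agent.Blk.KWQuot

set_option autoImplicit false
open Cfsg

namespace Cfsg.Agent.S4698

theorem exists_two_gen {P : Type*} [Group P] [Finite P] {p d : ℕ} [hp : Fact p.Prime]
    (hP : Nat.card P = p ^ d) (hd : d ≤ 2) :
    ∃ x y : P, Commute x y ∧ Subgroup.zpowers x ⊔ Subgroup.zpowers y = ⊤ := by
  by_cases hc : IsCyclic P
  · obtain ⟨x, hx⟩ := IsCyclic.exists_zpow_surjective (G := P)
    exact ⟨x, x, rfl, by rw [sup_idem, eq_top_iff]; exact fun y _ => hx y⟩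
  have h2 : d = 2 := by
    by_contra h
    refine hc (isCyclic_of_card_dvd_prime (p := p) ?_)
    rw [hP]
    simpa using pow_dvd_pow p (show d ≤ 1 by omega)
  subst h2
  have := IsPGroup.isMulCommutative_of_card_eq_prime_sq hP
  obtain ⟨x, hx⟩ := exists_prime_orderOf_dvd_card' (G := P) p (hP ▸ dvd_pow_self p two_ne_zero)
  obtain ⟨y, hy⟩ : ∃ y, y ∉ Subgroup.zpowers x := by
    by_contra! h
    exact hc ⟨x, h⟩
  refine ⟨x, y, mul_comm' x y, Subgroup.eq_top_of_card_eq _ ?_⟩
  have h1 := Subgroup.card_subgroup_dvd_card (Subgroup.zpowers x ⊔ Subgroup.zpowers y)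
  rw [hP, Nat.dvd_prime_pow hp.out] at h1
  obtain ⟨k, hk, h1⟩ := h1
  have h3 : ¬ Nat.card (Subgroup.zpowers x ⊔ Subgroup.zpowers y : Subgroup P) ≤
      Nat.card (Subgroup.zpowers x) := fun h => hy (by
    rw [Subgroup.eq_of_le_of_card_ge le_sup_left h]
    exact Subgroup.mem_sup_right (Subgroup.mem_zpowers y))
  rw [h1, Nat.card_zpowers, hx, not_le] at h3
  have h4 : 1 < k := by
    by_contra h
    exact absurd h3 (not_lt.2 (by simpa using Nat.pow_le_pow_right hp.out.pos (not_lt.1 h)))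
  rw [h1, hP, show k = 2 by omega]

open Cfsg.Agent.Blk in
theorem le_of_le_two {G : Type*} [Group G] [Finite G] {p : ℕ} [Fact p.Prime]
    {M : Ideal Cfsg.AlgInt} (hM : Cfsg.IsPModular p M) {B : Set (Cfsg.IrrCharacter G)}
    (hB : Cfsg.IsPBlock M B) (hd : Cfsg.blockDefect p B ≤ 2) :
    Nat.card B ≤ p ^ Cfsg.blockDefect p B := by
  have := hM.isMaximal
  have := Fintype.ofFinite G
  obtain ⟨D, hD⟩ := hB.exists_isDefectGroup p
  obtain ⟨x, y, hxy, h⟩ := exists_two_gen (hD.card_eq_pow_blockDefect hM hB) hd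
  refine card_le_of_two_gen hM hB hD (x := x) (y := y) (hxy.map D.subtype) ?_
  have h1 := congrArg (Subgroup.map D.subtype) h
  rwa [Subgroup.map_sup, MonoidHom.map_zpowers, MonoidHom.map_zpowers, ← MonoidHom.range_eq_map,
    Subgroup.range_subtype, eq_comm] at h1

universe u in
open Cfsg.Agent.Blk in
theorem le_of_two_le {p : ℕ} [hp : Fact p.Prime] {M : Ideal Cfsg.AlgInt}
    (hM : Cfsg.IsPModular p M) (d : ℕ) : ∀ {G : Type u} [Group G] [Finite G]
      {B : Set (Cfsg.IrrCharacter G)}, Cfsg.IsPBlock M B → Cfsg.blockDefect p B = d + 2 →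
        Nat.card B ≤ p ^ (2 * d + 2) := by
  classical
  have := hM.isMaximal
  induction d with
  | zero => exact fun hB hd => (le_of_le_two hM hB hd.le).trans_eq (by rw [hd])
  | succ d ih =>
    intro G _ _ B hB hd
    have := Fintype.ofFinite G
    by_cases h : ∀ χ ∈ B, blockHeight p B (χ : G → ℂ) = 0
    · obtain ⟨D, hD⟩ := hB.exists_isDefectGroup p
      have hc := hD.card_eq_pow_blockDefect hM hB
      have : Nontrivial D := Finite.one_lt_card_iff_nontrivial.1 (by
        rw [hc, hd]; exact Nat.one_lt_pow (by omega) hp.out.one_lt)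
      have := hD.isPGroup.center_nontrivial
      obtain ⟨k, hk⟩ := IsPGroup.iff_card.1 (hD.isPGroup.to_subgroup (Subgroup.center D))
      obtain ⟨x, hx⟩ := exists_prime_orderOf_dvd_card' (G := Subgroup.center D) p (by
        rw [hk]
        refine dvd_pow_self p fun h0 => ?_
        rw [h0, pow_zero] at hk
        exact Finite.one_lt_card.ne' hk)
      obtain ⟨C, _, u, b, hn, hu, hDC, h1, h2, hb, hZ, hφ⟩ := exists_isSub_quot hM hB hD
        (x.1.2) fun d hd => congrArg Subtype.val (Subgroup.mem_center_iff.1 x.2 ⟨d, hd⟩)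
      have h3 := hφ.card_ker_mul_pow_blockDefect hM h1.ind.1
      rw [QuotientGroup.ker_mk', Nat.card_zpowers, ← Subgroup.orderOf_coe, hu,
        Subgroup.orderOf_coe, Subgroup.orderOf_coe, hx, h2, hd, ← pow_succ',
        Nat.pow_right_inj hp.out.one_lt] at h3
      have h4 := (blockRank_le_card (p := p) _).trans
        (ih (hφ.isPBlock_preimage hM h1.ind.1) (by omega))
      rw [hφ.blockRank_preimage hM h1.ind.1.isBlockUnion] at h4
      have h5 := h1.card_height_zero_sq_le.trans (Nat.mul_le_mul_left _ h4)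
      rw [Finset.filter_congr (q := (· ∈ B)) fun χ _ => and_iff_left_of_imp (h χ), h2, hd,
        ← pow_add, show 2 * (d + 1 + 2) + (2 * d + 2) = (2 * (d + 1) + 2) * 2 by ring, pow_mul,
        Nat.pow_le_pow_iff_left two_ne_zero] at h5
      rwa [Nat.card_eq_fintype_card, Fintype.card_subtype]
    · push Not at h
      obtain ⟨χ, hχ, h0⟩ := h
      have h1 := two_mul_card_le_of_height_pos hM hB hχ h0
      rw [hd, show 2 * (d + 1 + 2) - 2 = 2 * (d + 1) + 2 by omega] at h1
      omega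

/-- Let p be a prime, M a maximal ideal of the algebraic integers containing p, and B a p-block of defect d of the finite group G, containing k irreducible characters. Then k ≤ p^d when d ≤ 2, and k ≤ p^(2d − 2) when d ≥ 3. -/
theorem result {G : Type*} [Group G] [Finite G] (p : ℕ) [Fact p.Prime] (M : Ideal Cfsg.AlgInt) (hM : Cfsg.IsPModular p M) (B : Set (Cfsg.IrrCharacter G)) (hB : Cfsg.IsPBlock M B) (d : ℕ) (hd : Cfsg.blockDefect p B = d) : (d ≤ 2 → Nat.card B ≤ p ^ d) ∧ (3 ≤ d → Nat.card B ≤ p ^ (2 * d - 2)) := by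
  subst hd
  refine ⟨le_of_le_two hM hB, fun h => ?_⟩
  obtain ⟨d, hd⟩ : ∃ d, Cfsg.blockDefect p B = d + 2 := ⟨_, (Nat.sub_add_cancel (by omega)).symm⟩
  rw [hd, show 2 * (d + 2) - 2 = 2 * d + 2 by omega]
  exact le_of_two_le hM d hB hd

end Cfsg.Agent.S4698
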