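import Mathlib
import Cfsg.Statements.S4535
import Cfsg.Agent.SnCh.Alt
import Cfsg.Agent.S4698
import Cfsg.Agent.S4733

set_option autoImplicit false
open Cfsg

namespace Cfsg.Agent.S4535

open SnCh Blk Cfsg.Agent.Sym

/-- Let B be a p-block of a finite alternating group (relative to a maximal ideal M of the algebraic integers containing p) with a nontrivial defect group D all of whose sections have p-rank at most s. Then the p-regular rank of B is less than p ^ s. -/
theorem result (n : ℕ) (p : ℕ) [Fact p.Prime] (M : Ideal Cfsg.AlgInt) (hM : Cfsg.IsPModular p M) (B : Set (Cfsg.IrrCharacter (alternatingGroup (Fin n)))) (hB : Cfsg.IsPBlock M B) (D : Subgroup (alternatingGroup (Fin n))) (hD : Cfsg.IsDefectGroup p M B D) (hD1 : D ≠ ⊥) (s : ℕ) (hs : Cfsg.SectionalPRankLE p s D) : Cfsg.blockRank p B < p ^ s := by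
  classical
  have := hM.isMaximal
  have hp := hM.prime
  have hd := hD.card_eq_pow_blockDefect hM hB
  have h0 : blockDefect p B ≠ 0 := fun e => hD1 (Subgroup.card_eq_one.1 (by simpa [e] using hd))
  have : Nontrivial (Fin n) := by
    by_contra! e
    exact hD1 (Subsingleton.elim _ _)
  have small : blockDefect p B ≤ 2 → blockDefect p B ≤ s → blockRank p B < p ^ s := fun h1 h2 => by
    obtain ⟨h3, -, h4⟩ := S4733.result p M hM B hB
    exact (lt_of_le_of_ne h3 (Ne.symm (h4.not.1 h0))).trans_le
      ((S4698.le_of_le_two hM hB h1).trans (Nat.pow_le_pow_right hp.pos h2))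
  obtain ⟨C, χ, β, w, P, hC, hc, hχ, h, hw, hP, e⟩ := exists_cover hM hB hD le_rfl
  obtain ⟨h1, ι, rfl⟩ := defect_eq_wr (J := Fin w) hM hC le_rfl hχ h (by simpa) hP default
  have h2 := blockRank_le_Kw hM hC le_rfl hχ h hw
  have h3 := (finrank_Kw_lt hp.two_le h.val w).2
  have h4 := blockRank_le_two_mul hM alternatingGroup.index_eq_two hC hB hc
  have h5 := hP.card_eq_pow_blockDefect hM hC
  rw [← Subgroup.card_subtype, ← e] at hd
  rw [h1, Fintype.card_fin] at h5
  rcases eq_or_ne p 2 with rfl | h6
  · have h7 := two_mul_le_of_sect hM hC hχ h hw hP e hs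
    rcases w with _ | w
    · have := Subgroup.card_le_of_le (inf_le_left (a := wr ι (default : Sylow 2 _).1)
        (b := alternatingGroup (Fin n)))
      rw [hd, h5, Nat.pow_le_pow_iff_right one_lt_two] at this
      simp_all
    have h8 := two_mul_card_inf_alternatingGroup (wr_not_le ι (default : Sylow 2 _).1)
    rw [hd, h5, ← pow_succ', Nat.pow_right_inj one_lt_two] at h8
    rcases w with _ | _ | w
    · simp_all
    · have : (Nat.factorial 2).factorization 2 = 1 := Nat.prime_two.factorization_self
      exact small (by simp only [zero_add, Nat.reduceAdd] at h8; omega)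
        (by simp only [zero_add, Nat.reduceAdd] at h8; omega)
    replace h3 := h3 (by omega)
    rcases Nat.even_or_odd' w with ⟨k, rfl | rfl⟩
    · have h9 := blockRank_le_of_res (p := 2) (b := B) (B := C) fun θ hθ => by
        obtain ⟨ψ, hψ, h9⟩ := Cov.exists_over_of_covers hC hB hc hθ
        obtain ⟨γ, h'⟩ := exists_lab le_rfl ψ
        refine ⟨ψ, hψ, res_eq_of_ne h9 (xx_notMem ι ⟨k + 1, by simp; ring⟩) (h'.xx_ne ι ?_)⟩
        simpa using (h.wt_eq two_pos h' (cnt_eq_of_mem hM hC le_rfl hχ hψ h h')).trans hw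
      have := Nat.pow_le_pow_right two_pos (show 2 * k + 1 + 1 ≤ s by omega)
      omega
    · have := Nat.pow_le_pow_right two_pos (show 2 * k + 1 + 1 + 1 + 1 ≤ s by omega)
      omega
  rw [inf_eq_left.2 (le_alternatingGroup_of_isPGroup h6 (isPGroup_wr ι (Sylow.isPGroup' _)))]
    at e hd
  have h7 := card_wr_bot_le ι (by simp) hs (e ▸ wr_mono bot_le)
  simp only [ZMod.card, Nat.card_eq_fintype_card, Fintype.card_fin] at h7
  by_cases h8 : 3 ≤ w
  · have := h3 h8
    omega
  have h9 : w.factorial.factorization p = 0 := Nat.factorization_eq_zero_of_not_dvd fun e => by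
    have := hp.dvd_factorial.1 e
    have := hp.two_le
    omega
  rw [h5, Nat.pow_right_inj hp.one_lt] at hd
  rw [Nat.pow_le_pow_iff_right hp.one_lt] at h7
  exact small (by omega) (by omega)

end Cfsg.Agent.S4535
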