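import Mathlib
import Cfsg.Statements.S4540
import Cfsg.Agent.Blk.SubBound

set_option autoImplicit false
open Cfsg

namespace Cfsg.Agent.S4540

/-- Let B be a 2-block of the finite group G (relative to a maximal ideal M of the algebraic integers containing 2) of defect d with defect group D. Let z be an element of D commuting with every element of D, and let b be a block of the centralizer C of z with defect group D that induces B (a major subsection (z, b)). If b has 2-regular rank at most three, then 3·k(B) ≤ 3·k₀(B) + 2·Σ 2 ^ h(χ), where k(B) is the number of members of B, k₀(B) the number of members of height zero, and the sum runs over the members χ of B of positive height h(χ); this bound is at most 3·2 ^ d, so in particular B contains at most 2 ^ d irreducible characters. -/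
theorem result {G : Type*} [Group G] [Finite G] (M : Ideal Cfsg.AlgInt) (hM : Cfsg.IsPModular 2 M) (B : Set (Cfsg.IrrCharacter G)) (hB : Cfsg.IsPBlock M B) (D : Subgroup G) (hD : Cfsg.IsDefectGroup 2 M B D) (z : G) (hzD : z ∈ D) (hzc : ∀ d ∈ D, d * z = z * d) (b : Set (Cfsg.IrrCharacter ↥(Subgroup.centralizer ({z} : Set G)))) (hb : Cfsg.IsInducedBlock M (Subgroup.centralizer ({z} : Set G)) b B) (hbD : Cfsg.IsDefectGroup 2 M b (D.subgroupOf (Subgroup.centralizer ({z} : Set G)))) (hl : Cfsg.blockRank 2 b ≤ 3) : 3 * Nat.card B ≤ 3 * Nat.card {χ : Cfsg.IrrCharacter G // χ ∈ B ∧ Cfsg.blockHeight 2 B (χ : G → ℂ) = 0} + 2 * (∑ᶠ χ ∈ {χ : Cfsg.IrrCharacter G | χ ∈ B ∧ 1 ≤ Cfsg.blockHeight 2 B (χ : G → ℂ)}, 2 ^ Cfsg.blockHeight 2 B (χ : G → ℂ)) ∧ 3 * Nat.card {χ : Cfsg.IrrCharacter G // χ ∈ B ∧ Cfsg.blockHeight 2 B (χ : G → ℂ) = 0} + 2 * (∑ᶠ χ ∈ {χ : Cfsg.IrrCharacter G | χ ∈ B ∧ 1 ≤ Cfsg.blockHeight 2 B (χ : G → ℂ)}, 2 ^ Cfsg.blockHeight 2 B (χ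 : G → ℂ)) ≤ 3 * 2 ^ Cfsg.blockDefect 2 B := by
  classical
  have := hM.isMaximal
  have := Fintype.ofFinite G
  have h1 := (Agent.Blk.isSub_centralizer hM (IsPGroup.iff_orderOf.1 hD.isPGroup ⟨z, hzD⟩ |>.imp
    fun k hk => by rwa [← Subgroup.orderOf_coe] at hk) hb).two_bound_of_rank
      (Agent.Blk.blockDefect_eq_of_subgroupOf hM hb.1 hB hD (fun d hd =>
        (Agent.Blk.mem_centralizer_singleton_iff' z d).2 (hzc d hd)) hbD) hl
  have h2 : 3 * Nat.card {χ : Cfsg.IrrCharacter G // χ ∈ B ∧ Cfsg.blockHeight 2 B (χ : G → ℂ) = 0} +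
      2 * (∑ᶠ χ ∈ {χ : Cfsg.IrrCharacter G | χ ∈ B ∧ 1 ≤ Cfsg.blockHeight 2 B (χ : G → ℂ)},
        2 ^ Cfsg.blockHeight 2 B (χ : G → ℂ)) = ∑ χ with χ ∈ B,
          (if blockHeight 2 B (χ : G → ℂ) = 0 then 3 else 2 * 2 ^ blockHeight 2 B (χ : G → ℂ)) := by
    rw [Agent.Blk.natCard_eq_card_filter, Agent.Blk.finsum_mem_irr, Finset.card_filter,
      Finset.sum_filter, Finset.mul_sum, Finset.mul_sum, ← Finset.sum_add_distrib]
    refine Finset.sum_congr rfl fun χ _ => ?_
    by_cases h3 : χ ∈ B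
    · by_cases h4 : blockHeight 2 B (χ : G → ℂ) = 0
      · simp [h3, h4]
      · simp [h3, h4, Nat.one_le_iff_ne_zero]
    · simp [h3]
  rw [h2]
  refine ⟨?_, h1⟩
  rw [Agent.Blk.natCard_eq_card_filter (· ∈ B), mul_comm, ← smul_eq_mul]
  refine Finset.card_nsmul_le_sum _ _ _ fun χ _ => ?_
  split_ifs with h3
  · rfl
  · have := Nat.pow_le_pow_right two_pos (Nat.one_le_iff_ne_zero.2 h3)
    omega

end Cfsg.Agent.S4540
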