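import Mathlib
import Cfsg.Statements.S4541
import Cfsg.Agent.Blk.SubBound

set_option autoImplicit false
open Cfsg

namespace Cfsg.Agent.S4541

/-- Let B be a 2-block of the finite group G (relative to a maximal ideal M of the algebraic integers containing 2), u a 2-element, and b a block of the centralizer of u inducing B (a subsection (u, b)), of defect q and 2-regular rank l; write s for the integer square root of l and k₀(B) for the number of members of B of height zero. If s is odd then k₀(B) ≤ s·2 ^ q, and otherwise (s + 1)·k₀(B) ≤ l·2 ^ q; in particular k₀(B) ≤ 2 ^ q when l ≤ 3. -/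
theorem result {G : Type*} [Group G] [Finite G] (M : Ideal Cfsg.AlgInt) (hM : Cfsg.IsPModular 2 M) (B : Set (Cfsg.IrrCharacter G)) (hB : Cfsg.IsPBlock M B) (u : G) (hu : ∃ j : ℕ, orderOf u = 2 ^ j) (b : Set (Cfsg.IrrCharacter ↥(Subgroup.centralizer ({u} : Set G)))) (hb : Cfsg.IsInducedBlock M (Subgroup.centralizer ({u} : Set G)) b B) : (Odd (Nat.sqrt (Cfsg.blockRank 2 b)) → Nat.card {χ : Cfsg.IrrCharacter G // χ ∈ B ∧ Cfsg.blockHeight 2 B (χ : G → ℂ) = 0} ≤ Nat.sqrt (Cfsg.blockRank 2 b) * 2 ^ Cfsg.blockDefect 2 b) ∧ (¬ Odd (Nat.sqrt (Cfsg.blockRank 2 b)) → (Nat.sqrt (Cfsg.blockRank 2 b) + 1) * Nat.card {χ : Cfsg.IrrCharacter G // χ ∈ B ∧ Cfsg.blockHeight 2 B (χ : G → ℂ) = 0} ≤ Cfsg.blockRank 2 b * 2 ^ Cfsg.blockDefect 2 b) ∧ (Cfsg.blockRank 2 b ≤ 3 → Nat.card {χ : Cfsg.IrrCharacter G // χ ∈ B ∧ Cfsg.blockHeight 2 B (χ : G → ℂ) = 0} ≤ 2 ^ Cfsg.blockDefect 2 b) := by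
  classical
  have := hM.isMaximal
  have := Fintype.ofFinite G
  obtain ⟨m, hm, h1, h2⟩ := (Agent.Blk.isSub_centralizer hM hu hb).exists_odd_bound
  rw [← Agent.Blk.natCard_eq_card_filter] at h1 h2
  have hl := Agent.Blk.blockRank_pos (p := 2) Nat.prime_two hb.1.nonempty
  generalize Nat.card {χ : Cfsg.IrrCharacter G // χ ∈ B ∧ Cfsg.blockHeight 2 B (χ : G → ℂ) = 0} = k
    at *
  generalize Cfsg.blockRank 2 b = l at *
  generalize 2 ^ Cfsg.blockDefect 2 b = q at *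
  have h3 := Nat.sqrt_le l
  have h4 := Nat.lt_succ_sqrt l
  have h5 : Odd l.sqrt → k ≤ l.sqrt * q := fun h => by
    rcases le_or_gt m l.sqrt with h6 | h6
    · nlinarith
    · have h7 : l.sqrt + 2 ≤ m := by
        obtain ⟨a, ha⟩ := h
        obtain ⟨c, hc⟩ := hm
        omega
      have h8 : l ≤ l.sqrt * (l.sqrt + 2) := by simp only [Nat.succ_eq_add_one] at h4; nlinarith
      refine Nat.le_of_mul_le_mul_right (c := l.sqrt + 2) ?_ (by omega)
      calc k * (l.sqrt + 2) ≤ k * m := Nat.mul_le_mul_left _ h7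
        _ ≤ q * (l.sqrt * (l.sqrt + 2)) := h2.trans (Nat.mul_le_mul_left _ h8)
        _ = _ := by ring
  refine ⟨h5, fun h => ?_, fun h => ?_⟩
  · rcases le_or_gt m l.sqrt with h6 | h6
    · have h7 : m + 1 ≤ l.sqrt := lt_of_le_of_ne h6 fun e => h (e ▸ hm)
      calc (l.sqrt + 1) * k ≤ (l.sqrt + 1) * (q * m) := Nat.mul_le_mul_left _ h1
        _ = (l.sqrt + 1) * m * q := by ring
        _ ≤ l * q := Nat.mul_le_mul_right _ (by nlinarith)
    · nlinarith
  · have h6 : l.sqrt = 1 := (Nat.eq_sqrt.2 ⟨by omega, by omega⟩).symm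
    simpa [h6] using h5

end Cfsg.Agent.S4541
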