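import Cfsg.Statements.S4550
import Cfsg.Agent.Blk.PowFix
-- import your own Cfsg.Agent.* helpers here

set_option autoImplicit false
open Cfsg

namespace Cfsg.Agent.S4550

/-- Let G be a finite group of even order and M a maximal ideal of the algebraic integers containing 2. Let k be a natural number with g ^ k = g ^ 3 for every 2-element g and g ^ k = g for every element g of odd order (such k exist); an irreducible character χ is unchanged by g ↦ g ^ k exactly when it is fixed by the field automorphism that cubes the 2-power roots of unity and fixes the roots of unity of odd order. Then the number of members χ of the principal 2-block of odd degree with χ (g ^ k) = χ g for all g is even. -/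
theorem result {G : Type*} [Group G] [Finite G] (M : Ideal Cfsg.AlgInt) (hM : Cfsg.IsPModular 2 M) (hev : Even (Nat.card G)) (k : ℕ) (hk₁ : ∀ g : G, (∃ j : ℕ, orderOf g = 2 ^ j) → g ^ k = g ^ 3) (hk₂ : ∀ g : G, Odd (orderOf g) → g ^ k = g) : Even (Nat.card {χ : Cfsg.IrrCharacter G // χ ∈ Cfsg.principalBlock M G ∧ Odd (Cfsg.charDegree (χ : G → ℂ)) ∧ ∀ g : G, (χ : G → ℂ) (g ^ k) = (χ : G → ℂ) g}) := by
  classical
  have hp : Nat.Prime 2 := Nat.prime_two
  have hK : Blk.PF.PowK 2 k G :=
    ⟨hk₁, fun g hg => hk₂ g (Nat.odd_iff.mpr (by omega))⟩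
  have hcop := hK.coprime hp
  have h1 := hK.card_modEq hp
    (fun χ => χ ∈ principalBlock M G ∧ Odd (charDegree (χ : G → ℂ))) (by
      rintro χ ψ ⟨h, h'⟩ hψ
      refine ⟨(Blk.P0.mem_iff_of_pow hM hcop hψ).mpr h, ?_⟩
      rwa [Ch.charDegree_congr (ψ := (χ : G → ℂ)) (by rw [hψ, one_pow])])
  have h2 := Blk.PF.dvd_sum_degree_sq hM (G := G) hev.two_dvd
  rw [← even_iff_two_dvd, Finset.even_sum_iff_even_card_odd] at h2
  have h3 : Nat.card {χ : IrrCharacter G // χ ∈ principalBlock M G ∧ Odd (charDegree (χ : G → ℂ))} =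
      ((Blk.PB.pb M G).filter fun χ : IrrCharacter G => Odd (charDegree (χ : G → ℂ) ^ 2)).card := by
    rw [← Nat.card_eq_finsetCard]
    refine Nat.card_congr (Equiv.subtypeEquivRight fun χ => ?_)
    simp [Blk.PB.mem_pb, Nat.odd_pow_iff]
  rw [h3] at h1
  simp only [and_assoc] at h1
  rw [even_iff_two_dvd] at h2 ⊢
  exact (h1.dvd_iff dvd_rfl).mp h2

end Cfsg.Agent.S4550
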