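import Cfsg.Statements.S4549
import Cfsg.Agent.Blk.PowFix
import Cfsg.Agent.S4550
import Cfsg.Agent.Deg.Basic
import Cfsg.Agent.Ch.RealChar3
import Cfsg.Agent.GT.TransferPNilp
-- import your own Cfsg.Agent.* helpers here

set_option autoImplicit false
open Cfsg

namespace Cfsg.Agent.S4549

/-- Let G be a finite group and M a maximal ideal of the algebraic integers containing 2. Let k be a natural number with g ^ k = g ^ 3 for every 2-element g and g ^ k = g for every element g of odd order (such k exist); an irreducible character χ is unchanged by g ↦ g ^ k exactly when it is fixed by the field automorphism that cubes the 2-power roots of unity and fixes the roots of unity of odd order. Then G has a normal 2-complement if and only if every member χ of the principal 2-block of odd degree with χ (g ^ k) = χ g for all g has degree one. -/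
theorem result {G : Type*} [Group G] [Finite G] (M : Ideal Cfsg.AlgInt) (hM : Cfsg.IsPModular 2 M) (k : ℕ) (hk₁ : ∀ g : G, (∃ j : ℕ, orderOf g = 2 ^ j) → g ^ k = g ^ 3) (hk₂ : ∀ g : G, Odd (orderOf g) → g ^ k = g) : Cfsg.HasNormalPComplement 2 G ↔ ∀ χ ∈ Cfsg.principalBlock M G, Odd (Cfsg.charDegree (χ : G → ℂ)) → (∀ g : G, (χ : G → ℂ) (g ^ k) = (χ : G → ℂ) g) → Cfsg.charDegree (χ : G → ℂ) = 1 := by
  classical
  have hp : Nat.Prime 2 := Nat.prime_two
  have hK : Blk.PF.PowK 2 k G :=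
    ⟨hk₁, fun g hg => hk₂ g (Nat.odd_iff.mpr (by omega))⟩
  have hcop := hK.coprime hp
  obtain ⟨a, ha⟩ := GT.exists_index_pResidual (G := G) hp
  constructor
  · intro hnc χ hχ hodd _
    have h1 := (Deg.charDegree_dvd_index_charKer χ.2).trans (Subgroup.index_dvd_of_le
      ((Blk.PB.mem_principal_iff_of_nc hM hnc χ).mp hχ))
    rw [ha] at h1
    obtain ⟨i, -, hi⟩ := (Nat.dvd_prime_pow hp).mp h1
    rw [hi] at hodd ⊢
    rcases i with _ | i
    · rfl
    · exact absurd hodd (by simp [pow_succ])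
  intro h
  rw [GT.Tr.hasNormalPComplement_iff_not_dvd_card_pResidual]
  intro hev
  set N := pResidual 2 G with hNdef
  have : N.Characteristic := GT.pResidual_characteristic
  obtain ⟨P⟩ : Nonempty (Sylow 2 G) := inferInstance
  have hKN := hK.subgroup N
  have h1 := S4550.result (G := N) M hM (even_iff_two_dvd.mpr hev) k hKN.pel
    (fun g hg => hKN.reg g (by rw [← even_iff_two_dvd]; exact Nat.not_even_iff_odd.mpr hg))
  have h2 := Blk.PF.card_conj_fixed_modEq (N := N) P.isPGroup'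
    (fun θ => θ ∈ principalBlock M N ∧ Odd (charDegree (θ : N → ℂ)) ∧
      ∀ g : N, (θ : N → ℂ) (g ^ k) = (θ : N → ℂ) g) (by
      rintro x - θ φ ⟨h1, h2, h3⟩ hφ
      refine ⟨(Blk.P0.mem_conjChar_iff hM x hφ).mpr h1, ?_, fun g => ?_⟩
      · rwa [Ch.charDegree_congr (ψ := (θ : N → ℂ)) (by rw [hφ, Ch.conjChar_apply_one])]
      · rw [hφ, Ch.conjChar_eq_comp]
        simp only [map_pow, h3])
  have h3 := (h2.dvd_iff dvd_rfl).mp h1.two_dvd
  set Y : Finset (IrrCharacter N) := Finset.univ.filter fun θ =>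
    (θ ∈ principalBlock M N ∧ Odd (charDegree (θ : N → ℂ)) ∧
      ∀ g : N, (θ : N → ℂ) (g ^ k) = (θ : N → ℂ) g) ∧
      ∀ x ∈ (P : Subgroup G), Ch.conjChar x (θ : N → ℂ) = θ with hY
  rw [Nat.card_eq_fintype_card, Fintype.card_subtype, ← hY] at h3
  have hone : Ch.irrOne N ∈ Y := by
    rw [hY, Finset.mem_filter]
    refine ⟨Finset.mem_univ _, ⟨Blk.PB.mem_pb.mp (Blk.PB.one_mem_pb hM), ?_, fun _ => rfl⟩,
      fun x _ => rfl⟩
    change Odd (charDegree fun _ : N => (1 : ℂ))
    rw [Ch.charDegree_one]; exact odd_one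
  let σ : IrrCharacter N → IrrCharacter N := fun θ =>
    ⟨fun g => starRingEnd ℂ ((θ : N → ℂ) g), θ.2.complexConj⟩
  have hσσ : ∀ θ, σ (σ θ) = θ := fun θ => Subtype.ext (funext fun g => by simp [σ])
  have hσ1 : σ (Ch.irrOne N) = Ch.irrOne N := Subtype.ext (funext fun g => map_one _)
  obtain ⟨θ, hθ, hθσ, -⟩ := Ch.RC.exists_fixed_odd (Y.erase (Ch.irrOne N)) σ hσσ (by
    intro θ hθ
    rw [Finset.mem_erase, hY, Finset.mem_filter] at hθ ⊢
    obtain ⟨hne, -, ⟨h1, h2, h3⟩, h4⟩ := hθ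
    refine ⟨fun h => hne (by rw [← hσσ θ, h, hσ1]), Finset.mem_univ _,
      ⟨(Blk.P0.mem_iff_of_galois hM (starRingEnd ℂ) fun _ => rfl).mpr h1, ?_, fun g => ?_⟩,
      fun x hx => ?_⟩
    · rwa [Ch.charDegree_congr (ψ := (θ : N → ℂ)) θ.2.isCharacter.conj_apply_one]
    · exact congrArg (starRingEnd ℂ) (h3 g)
    · change Ch.conjChar x (fun g => starRingEnd ℂ ((θ : N → ℂ) g)) = _
      rw [Ch.conjChar_star, h4 x hx]) (fun _ => 1) (fun _ => rfl) (by
    rw [Finset.sum_const, smul_eq_mul, mul_one, Finset.card_erase_of_mem hone]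
    have := Finset.card_pos.mpr ⟨_, hone⟩
    rw [Nat.odd_iff]; omega)
  rw [Finset.mem_erase, hY, Finset.mem_filter] at hθ
  obtain ⟨hne, -, ⟨hB, hodd, hfix⟩, hinv⟩ := hθ
  have hinv' : ∀ g : G, Ch.conjChar g (θ : N → ℂ) = θ := by
    rw [← Ch.inertia_eq_top_iff, eq_top_iff, ← GT.pResidual_sup_sylow (p := 2) P]
    exact sup_le (Ch.le_inertia θ.2.isCharacter.isClassFunction) fun x hx =>
      Ch.mem_inertia'.mpr (hinv x hx)
  obtain ⟨χ, hχ, hext, -, hχk⟩ := Blk.PF.exists_canonical hp hNdef θ.2 hinv'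
    (by rw [← even_iff_two_dvd]; exact Nat.not_even_iff_odd.mpr hodd)
  have hdeg := Ch.charDegree_of_extends hext
  have h4 := h ⟨χ, hχ⟩ ((Blk.P0.mem_iff_of_extends hM ⟨a, ha⟩ (χ := ⟨χ, hχ⟩) hext).mpr hB)
    (hdeg ▸ hodd) (hχk k hcop hfix)
  obtain ⟨f, hf⟩ := θ.2.isCharacter.exists_monoidHom_of_apply_one
    (θ.2.isCharacter.charDegree_eq_one_iff.mp (hdeg ▸ h4))
  have h5 := Ch.degT_not_dvd_orderOf_hom hp (G := N) GT.pResidual_pResidual f
  have h6 : f ^ 2 = 1 := by
    ext g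
    have := congrFun (congrArg (fun x : IrrCharacter N => (x : N → ℂ)) hθσ) g
    simp only [σ, hf] at this
    have h7 := Ch.monoidHom_units_mul_conj f g
    rw [this] at h7
    simpa [sq] using h7
  have h7 : f = 1 := by
    rcases (Nat.dvd_prime hp).mp (orderOf_dvd_of_pow_eq_one h6) with h | h
    · exact orderOf_eq_one_iff.mp h
    · exact absurd (by rw [h]) h5
  exact hne (Subtype.ext (by rw [hf, h7]; rfl))

end Cfsg.Agent.S4549
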