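import Cfsg.Statements.S4553
import Cfsg.Agent.Blk.PowFix
import Cfsg.Agent.S0887
import Cfsg.Agent.Ch.AbelianQuot
-- import your own Cfsg.Agent.* helpers here

set_option autoImplicit false
open Cfsg

namespace Cfsg.Agent.S4553

theorem card_lin {G : Type*} [Group G] [Finite G] {p : ℕ} (hp : p.Prime) (N : Subgroup G)
    [N.Normal] (hcyc : IsCyclic (G ⧸ N)) (hpa : p ∣ N.index) :
    Nat.card {f : G →* ℂˣ // (∀ n ∈ N, f n = 1) ∧ f ^ p = 1} = p := by
  let : CommGroup (G ⧸ N) := IsCyclic.commGroup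
  obtain ⟨e⟩ := CommGroup.monoidHom_mulEquiv_of_hasEnoughRootsOfUnity (G ⧸ N) ℂ
  have : IsCyclic (G ⧸ N →* ℂˣ) := isCyclic_of_surjective e.symm e.symm.surjective
  have h1 := IsCyclic.card_powMonoidHom_ker (G := G ⧸ N →* ℂˣ) p
  rw [Nat.card_congr e.toEquiv, ← Subgroup.index, Nat.gcd_eq_right hpa] at h1
  refine Eq.trans ?_ h1
  symm
  refine Nat.card_congr (Equiv.ofBijective (fun f => ⟨f.1.comp (QuotientGroup.mk' N), fun n hn => ?_,
    MonoidHom.ext fun g => ?_⟩) ⟨fun f f' h => ?_, fun f => ?_⟩)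
  · simp [(QuotientGroup.eq_one_iff n).mpr hn]
  · exact DFunLike.congr_fun (MonoidHom.mem_ker.mp f.2) (g : G ⧸ N)
  · refine Subtype.ext (MonoidHom.ext fun x => ?_)
    induction x using QuotientGroup.induction_on with
    | H g => exact DFunLike.congr_fun (congrArg Subtype.val h) g
  · refine ⟨⟨QuotientGroup.lift N f.1 f.2.1, MonoidHom.mem_ker.mpr (MonoidHom.ext fun x => ?_)⟩,
      Subtype.ext (MonoidHom.ext fun g => rfl)⟩
    induction x using QuotientGroup.induction_on with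
    | H g => exact DFunLike.congr_fun f.2.2 g


/-- Let G be a finite group, p a prime, P a Sylow p-subgroup, N the p-residual of G (the subgroup generated by the elements of order prime to p, the smallest normal subgroup with G/N a p-group), and M a maximal ideal of the algebraic integers containing p; suppose G/N is cyclic and nontrivial. Let k be a natural number with g ^ k = g ^ (1 + p) for every p-element g and g ^ k = g for every element g of order prime to p (so that χ (g ^ k) is the image of χ g under the field automorphism that raises p-power roots of unity to the power 1 + p and fixes the roots of unity of order prime to p). Then the number of members χ of the principal block of G of degree prime to p with χ (g ^ k) = χ g for all g equals p times the number of members θ of the principal block of N of degree prime to p that are invariant under conjugation by P and satisfy θ (n ^ k) = θ n for all n. -/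
theorem result {G : Type*} [Group G] [Finite G] (p : ℕ) [Fact p.Prime] (M : Ideal Cfsg.AlgInt) (hM : Cfsg.IsPModular p M) (P : Sylow p G) (N : Subgroup G) [hN : N.Normal] (hNres : N = Cfsg.pResidual p G) (hcyc : IsCyclic (G ⧸ N)) (hnt : N ≠ ⊤) (k : ℕ) (hk₁ : ∀ g : G, (∃ j : ℕ, orderOf g = p ^ j) → g ^ k = g ^ (1 + p)) (hk₂ : ∀ g : G, Nat.Coprime (orderOf g) p → g ^ k = g) : Nat.card {χ : Cfsg.IrrCharacter G // χ ∈ Cfsg.principalBlock M G ∧ ¬ p ∣ Cfsg.charDegree (χ : G → ℂ) ∧ ∀ g : G, (χ : G → ℂ) (g ^ k) = (χ : G → ℂ) g} = p * Nat.card {θ : Cfsg.IrrCharacter ↥N // θ ∈ Cfsg.principalBlock M ↥N ∧ ¬ p ∣ Cfsg.charDegree (θ : ↥N → ℂ) ∧ (∀ x ∈ (P : Subgroup G), ∀ n : ↥N, (θ : ↥N → ℂ) ⟨x * n * x⁻¹, hN.conj_mem n n.2 x⟩ = (θ : ↥N → ℂ) n) ∧ ∀ n : ↥N, (θ : ↥N → ℂ) (n ^ k) = (θ : ↥N → ℂ) n} := by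
  classical
  have hp : p.Prime := Fact.out
  have hK : Blk.PF.PowK p k G :=
    ⟨hk₁, fun g hg => hk₂ g ((Nat.Prime.coprime_iff_not_dvd hp).mpr hg).symm⟩
  have hcop := hK.coprime hp
  obtain ⟨a, ha⟩ : ∃ a, N.index = p ^ a := hNres ▸ GT.exists_index_pResidual (G := G) hp
  have hpa : p ∣ N.index := by
    rcases a with _ | a
    · exact absurd (Subgroup.index_eq_one.mp ha) hnt
    · rw [ha]; exact dvd_pow_self _ (Nat.succ_ne_zero _)
  have hreg : ∀ v : G, ¬ p ∣ orderOf v → v ∈ N := fun v hv =>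
    hNres ▸ GT.mem_pResidual ((Nat.Prime.coprime_iff_not_dvd hp).mpr hv).symm
  have hlam : ∀ f : G →* ℂˣ, (∀ n ∈ N, f n = 1) → (f ^ p = 1 ↔ ∀ g, f (g ^ k) = f g) := by
    intro f hf
    constructor
    · intro h g
      obtain ⟨u, v, -, -, rfl, huv, hu, hv⟩ := Ch.exists_p_parts hp g
      have : f u ^ p = 1 := DFunLike.congr_fun h u
      rw [huv.mul_pow, hK.pel u hu, hK.reg v hv, map_mul, map_mul, pow_add, pow_one, map_mul,
        map_pow, this, mul_one]
    · intro h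
      refine MonoidHom.ext fun g => ?_
      obtain ⟨u, v, -, -, rfl, huv, hu, hv⟩ := Ch.exists_p_parts hp g
      have := h u
      rw [hK.pel u hu, pow_add, pow_one, map_mul, mul_eq_left, map_pow] at this
      rw [MonoidHom.pow_apply, map_mul, hf v (hreg v hv), mul_one, this, MonoidHom.one_apply]
  have hinv : ∀ θ : IrrCharacter N, (∀ x ∈ (P : Subgroup G), ∀ n : N,
      (θ : N → ℂ) ⟨x * n * x⁻¹, hN.conj_mem n n.2 x⟩ = (θ : N → ℂ) n) →
      ∀ g : G, Ch.conjChar g (θ : N → ℂ) = θ := by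
    intro θ h
    rw [← Ch.inertia_eq_top_iff, eq_top_iff, ← GT.pResidual_sup_sylow (p := p) P, ← hNres]
    exact sup_le (Ch.le_inertia θ.2.isCharacter.isClassFunction) fun x hx =>
      Ch.mem_inertia.mpr (h x hx)
  refine Eq.trans ?_ (congrArg (· * _) (card_lin hp N hcyc hpa))
  rw [← Nat.card_prod]
  set B := {θ : IrrCharacter ↥N // θ ∈ principalBlock M ↥N ∧ ¬ p ∣ charDegree (θ : ↥N → ℂ) ∧ (∀ x ∈ (P : Subgroup G), ∀ n : ↥N, (θ : ↥N → ℂ) ⟨x * n * x⁻¹, hN.conj_mem n n.2 x⟩ = (θ : ↥N → ℂ) n) ∧ ∀ n : ↥N, (θ : ↥N → ℂ) (n ^ k) = (θ : ↥N → ℂ) n}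
  have hcan : ∀ θ : B, ∃ χ : G → ℂ, IsIrrCharacter G χ ∧ (∀ n : N, χ n = (θ.1 : N → ℂ) n) ∧
      ∀ g, χ (g ^ k) = χ g := fun θ => by
    obtain ⟨χ, h1, h2, -, h3⟩ := Blk.PF.exists_canonical hp hNres θ.1.2 (hinv θ.1 θ.2.2.2.1)
      θ.2.2.1
    exact ⟨χ, h1, h2, h3 k hcop θ.2.2.2.2⟩
  choose c hc hce hck using hcan
  have := Fintype.ofFinite G
  have hcN : ∀ θ : B, IsIrrCharacter N fun n : N => c θ n := fun θ => by
    rw [show (fun n : N => c θ n) = θ.1 from funext (hce θ)]; exact θ.1.2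
  symm
  refine Nat.card_congr (Equiv.ofBijective (fun x => ⟨⟨fun g => x.1.1 g * c x.2 g,
    (hc x.2).monoidHom_mul x.1.1⟩, ?_, ?_, ?_⟩) ⟨?_, ?_⟩)
  · refine (Blk.P0.mem_iff_of_extends hM ⟨a, ha⟩ (θ := x.2.1) fun n => ?_).mpr x.2.2.1
    simp [x.1.2.1 n n.2, hce]
  · rw [Ch.charDegree_congr (ψ := (x.2.1 : N → ℂ)) (by simpa using hce x.2 1)]
    exact x.2.2.2.1
  · intro g
    simp only
    rw [hck, (hlam _ x.1.2.1).mp x.1.2.2]
  · rintro ⟨f, θ⟩ ⟨f', θ'⟩ h
    have h1 : ∀ g, (f.1 g : ℂ) * c θ g = f'.1 g * c θ' g := fun g =>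
      congrFun (congrArg (fun x => ((Subtype.val x : IrrCharacter G) : G → ℂ)) h) g
    have h2 : θ = θ' := Subtype.ext (Subtype.ext (funext fun n => by
      simpa [f.2.1 n n.2, f'.2.1 n n.2, hce] using h1 n))
    subst h2
    refine Prod.ext (Subtype.ext (MonoidHom.ext fun g => ?_)) rfl
    obtain ⟨n, hn, hne⟩ := Ch.exists_coset_ne_zero (hc θ).isCharacter (hcN θ) g
    have := mul_right_cancel₀ hne (h1 (n * g))
    rw [map_mul, map_mul, f.2.1 n hn, f'.2.1 n hn, one_mul, one_mul] at this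
    exact Units.ext this
  · rintro ⟨χ, hB, hd, hχk⟩
    obtain ⟨θ, hθ, hne⟩ := Ch.exists_irr_under N χ.2
    obtain ⟨⟨e, he⟩, h2⟩ := S0887.result N _ χ.2 θ hθ hne _ _ χ.2.coe_charDegree.symm
      hθ.coe_charDegree.symm
    rw [he, Nat.mul_div_cancel_left _ hθ.charDegree_pos, ha] at h2
    obtain ⟨i, -, hi⟩ := (Nat.dvd_prime_pow hp).mp h2
    have he1 : e = 1 := by
      rcases i with _ | i
      · exact hi
      · exact absurd (he ▸ Dvd.dvd.mul_left (hi ▸ dvd_pow_self _ (Nat.succ_ne_zero _)) _) hd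
    rw [he1, mul_one] at he
    have hres : (fun n : N => (χ : G → ℂ) n) = θ :=
      (χ.2.isCharacter.restrict N).eq_irr_of_apply_one hθ hne (by
        rw [← hθ.coe_charDegree, ← he, χ.2.coe_charDegree]; rfl)
    have hres' : ∀ n : N, (χ : G → ℂ) n = θ n := congrFun hres
    let θ' : B := ⟨⟨θ, hθ⟩, (Blk.P0.mem_iff_of_extends hM ⟨a, ha⟩ (θ := ⟨θ, hθ⟩) hres').mp hB,
      he ▸ hd, fun x _ n => Ch.invariant_of_extends χ.2.isCharacter.isClassFunction hres' x n,
      fun n => by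
        change θ (n ^ k) = θ n
        rw [← hres', ← hres', Subgroup.coe_pow, hχk]⟩
    obtain ⟨f, hf, hχf⟩ := Ch.exists_hom_mul_of_extends hθ (hc θ').isCharacter χ.2.isCharacter
      (hce θ') hres'
    refine ⟨(⟨f, hf, (hlam f hf).mpr fun g => ?_⟩, θ'), Subtype.ext (Subtype.ext hχf.symm)⟩
    obtain ⟨n, hn, hne⟩ := Ch.exists_coset_ne_zero (hc θ').isCharacter (hcN θ') g
    have h3 := hχk (n * g)
    rw [hχf] at h3
    simp only [hck] at h3
    have h4 := Units.ext (mul_right_cancel₀ hne h3)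
    rwa [map_pow, map_mul, hf n hn, one_mul, ← map_pow] at h4

end Cfsg.Agent.S4553
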