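import Mathlib
import Cfsg.Statements.S4548
import Cfsg.Agent.SgF.Key
import Cfsg.Agent.S4549
import Cfsg.Agent.S4553
import Cfsg.Agent.GT.TransferAbelian
import Cfsg.Agent.GT.PGroupChain

set_option autoImplicit false
open Cfsg

namespace Cfsg.Agent.S4548

open Cfsg.Agent.Blk Cfsg.Agent.SgF

theorem card_of_nc {G : Type*} [Group G] [Finite G] {M : Ideal AlgInt} (hM : IsPModular 2 M) {k : ℕ}
    (hK : PF.PowK 2 k G) (hnc : HasNormalPComplement 2 G) :
    Nat.card {f : G →* ℂˣ // (∀ n ∈ pResidual 2 G, f n = 1) ∧ f ^ 2 = 1} = (fx M G k).card := by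
  have hp := Nat.prime_two
  have hreg : ∀ v : G, ¬ 2 ∣ orderOf v → v ∈ pResidual 2 G := fun v hv =>
    GT.mem_pResidual ((Nat.Prime.coprime_iff_not_dvd hp).mpr hv).symm
  have hlam : ∀ f : G →* ℂˣ, (∀ n ∈ pResidual 2 G, f n = 1) → (f ^ 2 = 1 ↔ ∀ g, f (g ^ k) = f g) := by
    intro f hf
    constructor
    · intro h g
      obtain ⟨u, v, -, -, rfl, huv, hu, hv⟩ := Ch.exists_p_parts hp g
      have : f u ^ 2 = 1 := DFunLike.congr_fun h u
      rw [huv.mul_pow, hK.pel u hu, hK.reg v hv, map_mul, map_mul, pow_add, pow_one, map_mul,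
        map_pow, this, mul_one]
    · intro h
      refine MonoidHom.ext fun g => ?_
      obtain ⟨u, v, -, -, rfl, huv, hu, hv⟩ := Ch.exists_p_parts hp g
      have := h u
      rw [hK.pel u hu, pow_add, pow_one, map_mul, mul_eq_left, map_pow] at this
      rw [MonoidHom.pow_apply, map_mul, hf v (hreg v hv), mul_one, this, MonoidHom.one_apply]
  rw [← Nat.card_eq_finsetCard]
  refine Nat.card_congr (Equiv.ofBijective (fun f => ⟨⟨fun g => (f.1 g : ℂ),
    Ch.isIrrCharacter_monoidHom_units f.1⟩, mem_fx.2 ⟨?_, ?_, fun g => ?_⟩⟩) ⟨fun f f' h => ?_, ?_⟩)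
  · refine (PB.mem_principal_iff_of_nc hM hnc _).2 fun n hn => Ch.mem_charKer'.2 fun h => ?_
    simp [f.2.1 n hn]
  · simp [charDegree]
  · exact congrArg Units.val ((hlam _ f.2.1).1 f.2.2 g)
  · refine Subtype.ext (MonoidHom.ext fun g => Units.ext ?_)
    exact congrFun (congrArg (fun x => ((Subtype.val x : IrrCharacter G) : G → ℂ)) h) g
  · rintro ⟨χ, hχ⟩
    obtain ⟨hB, hd, hf⟩ := mem_fx.1 hχ
    have h1 := (S4549.result M hM k hK.pel (fun g hg => hK.reg g (by
      rw [← even_iff_two_dvd]; exact Nat.not_even_iff_odd.mpr hg))).1 hnc χ hB hd hf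
    obtain ⟨f, hf'⟩ := χ.2.isCharacter.exists_monoidHom_of_apply_one
      (χ.2.isCharacter.charDegree_eq_one_iff.mp h1)
    have h2 : ∀ n ∈ pResidual 2 G, f n = 1 := fun n hn => by
      have := Ch.apply_eq_of_mem_charKer ((PB.mem_principal_iff_of_nc hM hnc χ).1 hB hn)
      rw [hf'] at this
      exact Units.ext (by simpa using this)
    refine ⟨⟨f, h2, (hlam f h2).2 fun g => Units.ext ?_⟩, Subtype.ext (Subtype.ext hf'.symm)⟩
    have := hf g
    rwa [hf'] at this

open Classical in
/-- The sign character of a subgroup of index two. -/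
noncomputable def sgn {G : Type*} [Group G] (K : Subgroup G) (h : K.index = 2) : G →* ℂˣ :=
  MonoidHom.mk' (fun g => if g ∈ K then 1 else -1) fun a b => by
    rw [Subgroup.mul_mem_iff_of_index_two h]
    by_cases ha : a ∈ K <;> by_cases hb : b ∈ K <;> simp [ha, hb]

theorem sgn_eq_one {G : Type*} [Group G] {K : Subgroup G} (h : K.index = 2) {g : G} :
    sgn K h g = 1 ↔ g ∈ K := by
  classical
  change (if g ∈ K then (1 : ℂˣ) else -1) = 1 ↔ _
  split_ifs with hg
  · simp [hg]
  · simp only [hg, iff_false]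
    intro e
    have := congrArg Units.val e
    norm_num at this

theorem sgn_sq {G : Type*} [Group G] {K : Subgroup G} (h : K.index = 2) : sgn K h ^ 2 = 1 := by
  ext g
  rw [MonoidHom.pow_apply, ← map_pow, (sgn_eq_one h).2 (by rw [sq]; exact Subgroup.mul_self_mem_of_index_two h g)]
  rfl

theorem cyclic_of_card {G : Type*} [Group G] [Finite G] (N : Subgroup G) [N.Normal]
    (hp : IsPGroup 2 (G ⧸ N)) (h : Nat.card {f : G →* ℂˣ // (∀ n ∈ N, f n = 1) ∧ f ^ 2 = 1} = 2) :
    IsCyclic (G ⧸ N) := by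
  obtain ⟨f, hf, hu⟩ := (Nat.card_eq_two_iff' ⟨1, fun _ _ => rfl, by ext; simp⟩).1 h
  obtain ⟨x, hx⟩ : ∃ x, f.1 x ≠ 1 := by
    by_contra e
    push Not at e
    exact hf (Subtype.ext (MonoidHom.ext e))
  refine ⟨⟨(x : G ⧸ N), fun y => ?_⟩⟩
  by_contra hy
  obtain ⟨K, hK, hi⟩ := GT.PG.exists_index_eq_prime_of_ne_top hp (H := Subgroup.zpowers (x : G ⧸ N))
    fun e => hy (show y ∈ Subgroup.zpowers (x : G ⧸ N) from e ▸ Subgroup.mem_top y)
  have hi' : (K.comap (QuotientGroup.mk' N)).index = 2 := by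
    rw [Subgroup.index_comap_of_surjective _ (QuotientGroup.mk'_surjective N), hi]
  have e := hu ⟨sgn _ hi', fun n hn => (sgn_eq_one hi').2 (by
    rw [Subgroup.mem_comap, QuotientGroup.mk'_apply, (QuotientGroup.eq_one_iff n).2 hn]
    exact one_mem _), sgn_sq hi'⟩ fun e => by
      have : K.comap (QuotientGroup.mk' N) = ⊤ := eq_top_iff.2 fun g _ =>
        (sgn_eq_one hi').1 (DFunLike.congr_fun (congrArg Subtype.val e) g)
      rw [this, Subgroup.index_top] at hi'
      omega
  apply hx
  rw [← e]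
  exact (sgn_eq_one hi').2 (hK (Subgroup.mem_zpowers _))

/-- Let G be a finite group of even order with Sylow 2-subgroup P and M a maximal ideal of the algebraic integers containing 2. Let k be a natural number with g ^ k = g ^ 3 for every 2-element g and g ^ k = g for every element g of odd order (such k exist); an irreducible character χ is unchanged by g ↦ g ^ k exactly when it is fixed by the field automorphism that cubes the 2-power roots of unity and fixes the roots of unity of odd order. Then P is cyclic if and only if exactly two members χ of the principal 2-block of odd degree satisfy χ (g ^ k) = χ g for all g. -/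
theorem result {G : Type*} [Group G] [Finite G] (M : Ideal Cfsg.AlgInt) (hM : Cfsg.IsPModular 2 M) (hev : Even (Nat.card G)) (P : Sylow 2 G) (k : ℕ) (hk₁ : ∀ g : G, (∃ j : ℕ, orderOf g = 2 ^ j) → g ^ k = g ^ 3) (hk₂ : ∀ g : G, Odd (orderOf g) → g ^ k = g) : IsCyclic P ↔ Nat.card {χ : Cfsg.IrrCharacter G // χ ∈ Cfsg.principalBlock M G ∧ Odd (Cfsg.charDegree (χ : G → ℂ)) ∧ ∀ g : G, (χ : G → ℂ) (g ^ k) = (χ : G → ℂ) g} = 2 := by
  classical
  have := hM.isMaximal
  have hK : PF.PowK 2 k G := ⟨hk₁, fun g hg => hk₂ g (Nat.odd_iff.mpr (by omega))⟩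
  have : (pResidual 2 G).Characteristic := GT.pResidual_characteristic
  rw [card_fx]
  have iso : HasNormalPComplement 2 G → Nonempty (G ⧸ pResidual 2 G ≃* P) := fun hnc =>
    ⟨(hnc.isComplement'_pResidual P).symm.QuotientMulEquiv⟩
  constructor
  · intro hc
    have hnc := GT.Tr.hasNormalPComplement_two_of_isCyclic P hc
    obtain ⟨e⟩ := iso hnc
    rw [← card_of_nc hM hK hnc]
    refine S4553.card_lin Nat.prime_two _ (isCyclic_of_surjective e.symm e.symm.surjective) ?_
    rw [Subgroup.index, Nat.card_congr e.toEquiv]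
    exact P.dvd_card_of_dvd_card hev.two_dvd
  intro h
  have hnc : HasNormalPComplement 2 G := by
    refine (S4549.result M hM k hk₁ hk₂).2 fun χ h1 h2 h3 => ?_
    have hχ : χ ∈ fx M G k := mem_fx.2 ⟨h1, h2, h3⟩
    by_cases e : χ = Ch.irrOne G
    · rw [e]; exact Ch.charDegree_one
    have e2 : fx M G k = {Ch.irrOne G, χ} := by
      refine (Finset.eq_of_subset_of_card_le ?_ ?_).symm
      · intro ψ hψ
        rcases Finset.mem_insert.1 hψ with rfl | hψ
        · exact one_mem_fx hM
        · rw [Finset.mem_singleton.1 hψ]; exact hχ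
      · rw [h, Finset.card_pair (Ne.symm e)]
    by_contra hd
    obtain ⟨g, hg⟩ := χ.2.exists_apply_eq_zero (by have := χ.2.charDegree_pos; omega)
    have := sum_fx hM hev hK g
    rw [e2, Finset.sum_pair (Ne.symm e), hg, red_zero, add_zero] at this
    exact one_ne_zero (red_one.symm.trans this)
  obtain ⟨e⟩ := iso hnc
  rw [← card_of_nc hM hK hnc] at h
  have := cyclic_of_card _ (P.isPGroup'.of_equiv e.symm) h
  exact isCyclic_of_surjective e e.surjective

end Cfsg.Agent.S4548
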