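import Cfsg.Statements.S4551
import Cfsg.Agent.Blk.AlperinDade
import Cfsg.Agent.Ch.RealChar
-- import your own Cfsg.Agent.* helpers here

set_option autoImplicit false
open Cfsg

namespace Cfsg.Agent.S4551

/-- Let N be a normal subgroup of the finite group G of index prime to p, P a Sylow p-subgroup of G with G = N·C_G(P), and M a maximal ideal of the algebraic integers containing p. Then restriction to N is a bijection from the principal p-block of G onto the principal p-block of N: every member of the principal block of G restricts to a member of the principal block of N, and every member of the principal block of N is the restriction of exactly one member of the principal block of G. -/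
theorem result {G : Type*} [Group G] [Finite G] (p : ℕ) [Fact p.Prime] (M : Ideal Cfsg.AlgInt) (hM : Cfsg.IsPModular p M) (N : Subgroup G) [N.Normal] (hidx : ¬ p ∣ N.index) (P : Sylow p G) (hsup : N ⊔ Subgroup.centralizer ((P : Subgroup G) : Set G) = ⊤) : (∀ χ ∈ Cfsg.principalBlock M G, ∃ θ ∈ Cfsg.principalBlock M ↥N, ∀ n : N, (χ : G → ℂ) n = (θ : N → ℂ) n) ∧ ∀ θ ∈ Cfsg.principalBlock M ↥N, ∃! χ : Cfsg.IrrCharacter G, χ ∈ Cfsg.principalBlock M G ∧ ∀ n : N, (χ : G → ℂ) n = (θ : N → ℂ) n := by
  have := Fintype.ofFinite N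
  have hPN : (P : Subgroup G) ≤ N := by
    obtain ⟨g, hg⟩ := Ch.RC.exists_conj_mem_of_not_dvd_index P.isPGroup' hidx
    intro x hx
    simpa [mul_assoc] using ‹N.Normal›.conj_mem _ (hg x hx) g⁻¹
  have key := fun θ (hθ : θ ∈ principalBlock M N) =>
    Blk.AD.exists_extends hM hidx P.not_dvd_index hPN hsup hθ
  refine ⟨fun χ hχ => ?_, fun θ hθ => ?_⟩
  · obtain ⟨θ, hθ, hne⟩ := Ch.exists_irr_under N χ.2
    have hB := Blk.P0.mem_of_over hM hχ (θ := ⟨θ, hθ⟩) hne
    obtain ⟨ψ, -, h1, h2⟩ := key _ hB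
    exact ⟨_, hB, by rw [h2 χ hχ hne]; exact h1⟩
  · obtain ⟨χ, h0, h1, h2⟩ := key θ hθ
    refine ⟨χ, ⟨h0, h1⟩, fun ψ hψ => h2 ψ hψ.1 ?_⟩
    rw [show (fun n : N => (ψ : G → ℂ) n) = θ from funext hψ.2, θ.2.classInner_self]
    exact one_ne_zero

end Cfsg.Agent.S4551
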