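import Cfsg.Statements.S4552
import Cfsg.Agent.Blk.AbDef
import Cfsg.Agent.Blk.Homocyclic
import Cfsg.Agent.Inv.TwoAut
import Cfsg.Agent.S4639

set_option autoImplicit false
open Cfsg

namespace Cfsg.Agent.S4552

set_option linter.unusedVariables false
set_option linter.style.haveILetI false
open Cfsg.Agent.Blk Cfsg.Agent.Blk.Mod Cfsg.Agent.Blk.PD Cfsg.Agent.GT Cfsg.Agent.Ch

/-- An automorphism of odd order of an abelian `2`-group fixing the involutions is trivial. -/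
theorem aut_fix {X : Type*} [Group X] (hc : ∀ a b : X, a * b = b * a) {σ : MulAut X}
    (hσ : Odd (orderOf σ)) (h : ∀ t : X, t * t = 1 → σ t = t) (k : ℕ) (x : X)
    (hk : x ^ 2 ^ k = 1) : σ x = x := by
  induction k generalizing x with
  | zero => rw [pow_zero, pow_one] at hk; rw [hk, map_one]
  | succ k ih =>
    have h1 : σ (x * x) = x * x := ih _ (by rwa [← pow_two, ← pow_mul, ← pow_succ'])
    have h2 : x⁻¹ * σ x * (x⁻¹ * σ x) = 1 := by
      calc x⁻¹ * σ x * (x⁻¹ * σ x) = x⁻¹ * (σ x * x⁻¹) * σ x := by group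
        _ = (x * x)⁻¹ * σ (x * x) := by rw [hc (σ x), map_mul]; group
        _ = 1 := by rw [h1, inv_mul_cancel]
    exact Inv.Fz.fix_of_eq_mul_fixed hσ (c := x⁻¹ * σ x) (by group) (h _ h2) (k := 1)
      (by rw [pow_one, pow_two, h2])

theorem aut_eq_one {G : Type*} [Group G] {P : Subgroup G} (hP : IsPGroup 2 P) (h : Q8.AD P)
    {σ : MulAut P} (hσ : Odd (orderOf σ)) {v : P} (hv : v ≠ 1) (h1 : σ v = v) : σ = 1 := by
  have hc : ∀ a b : P, a * b = b * a := fun a b => Subtype.ext (h.comm _ a.2 _ b.2).eq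
  obtain ⟨z, hz2, hz⟩ : ∃ z : P, orderOf z = 2 ∧ σ z = z := by
    obtain ⟨k, hk⟩ := IsPGroup.iff_orderOf.1 hP v
    obtain _ | k := k
    · exact absurd (orderOf_eq_one_iff.1 hk) hv
    refine ⟨v ^ 2 ^ k, ?_, by rw [map_pow, h1]⟩
    rw [orderOf_pow_of_dvd (by positivity) (hk ▸ pow_dvd_pow 2 k.le_succ), hk, pow_succ,
      Nat.mul_div_cancel_left _ (by positivity)]
  refine MulEquiv.ext fun x => ?_
  obtain ⟨k, hk⟩ := hP x
  refine aut_fix hc hσ (fun t ht => ?_) k x hk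
  by_cases ht1 : t = 1
  · rw [ht1, map_one]
  by_cases htz : z = t
  · rw [← htz, hz]
  have ht2 : orderOf t = 2 := orderOf_eq_prime (by rw [pow_two, ht]) ht1
  rcases h.invol_cases z.2 (by rwa [Subgroup.orderOf_coe]) t.2 (by rwa [Subgroup.orderOf_coe])
    (fun h => htz (Subtype.ext h)) (σ t).2 (by rwa [Subgroup.orderOf_coe, σ.orderOf_eq])
    with h2 | h2 | h2
  · exact absurd (σ.injective (hz.trans (Subtype.ext h2).symm)) htz
  · exact Subtype.ext h2
  · refine Inv.Fz.fix_of_eq_mul_fixed hσ (c := z) ?_ hz (k := 1) ?_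
    · rw [hc]; exact Subtype.ext h2
    · rw [pow_one, ← hz2, pow_orderOf_eq_one]

theorem card_le_three {G : Type*} [Group G] [Finite G] {P : Subgroup G} (hP : IsPGroup 2 P)
    (h : Q8.AD P) (A : Subgroup (MulAut P)) (hA : Odd (Nat.card A)) : Nat.card A ≤ 3 := by
  obtain ⟨z, hz, hz2⟩ := h.exists_invol
  rw [← h.three, ← Nat.card_coe_set_eq]
  refine Nat.card_le_card_of_injective (fun σ : A => ⟨(σ.1 ⟨z, hz⟩ : P), Subtype.property _, by
    rw [Subgroup.orderOf_coe, MulEquiv.orderOf_eq, ← Subgroup.orderOf_coe, hz2]⟩) fun σ τ e => ?_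
  have e1 : σ.1 ⟨z, hz⟩ = τ.1 ⟨z, hz⟩ := Subtype.ext (congrArg Subtype.val e :)
  rw [← inv_mul_eq_one]
  refine Subtype.ext (aut_eq_one hP h (hA.of_dvd_nat (Subgroup.orderOf_dvd_natCard _ (σ⁻¹ * τ).2))
    (v := ⟨z, hz⟩) (fun h1 => ?_) ?_)
  · rw [show z = 1 from congrArg Subtype.val h1, orderOf_one] at hz2
    omega
  · change σ.1.symm (τ.1 _) = _
    rw [← e1, MulEquiv.symm_apply_apply]

/-- Let B be a 2-block of the finite group G (relative to a maximal ideal M of the algebraic integers containing 2) whose defect group D is the direct product of two cyclic groups of the same order 2 ^ m, m ≥ 2. Then either B has 2-regular rank one and exactly 4 ^ m irreducible characters, or B has 2-regular rank three and exactly (4 ^ m + 8) / 3 irreducible characters. -/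
theorem result {G : Type*} [Group G] [Finite G] (M : Ideal Cfsg.AlgInt) (hM : Cfsg.IsPModular 2 M) (B : Set (Cfsg.IrrCharacter G)) (hB : Cfsg.IsPBlock M B) (D : Subgroup G) (hD : Cfsg.IsDefectGroup 2 M B D) (m : ℕ) (hm : 2 ≤ m) (hiso : Nonempty (D ≃* Multiplicative (ZMod (2 ^ m) × ZMod (2 ^ m)))) : (Cfsg.blockRank 2 B = 1 ∧ Nat.card B = 4 ^ m) ∨ (Cfsg.blockRank 2 B = 3 ∧ 3 * Nat.card B = 4 ^ m + 8) := by
  haveI := hM.isMaximal; haveI := hM.charP
  haveI := Fintype.ofFinite G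
  obtain ⟨j⟩ := hiso
  have hP := hD.isPGroup
  have had := Q8.ad_of_homocyclic D m (by omega) j
  have hab : ∀ x ∈ D, ∀ y ∈ D, x * y = y * x := fun x hx y hy => (had.comm x hx y hy).eq
  obtain ⟨e', hmax⟩ := (hD.isDef hM hB).exists_isMaxPair (NIn.refl ⊤) hB.isPrim_ZA_top
  obtain ⟨c, hc, rfl⟩ := exists_eq_epsIn hmax.pair
  have hind := (isInducedBlock_centralizer_iff hM hP).2 ⟨hB, hc, hmax.eq⟩
  have h := (Ab.absOf hM hD hab hind).2
  have hodd : Odd (Nat.card (Ab.iq D (epsIn M _ c))) := by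
    have := h.not_dvd_card_iq
    rwa [← even_iff_two_dvd, Nat.not_even_iff_odd] at this
  have h3 := card_le_three hP had _ hodd
  have hcard : Nat.card D = 4 ^ m := by
    rw [Nat.card_congr j.toEquiv, Nat.card_congr Multiplicative.toAdd, Nat.card_prod,
      Nat.card_zmod, ← mul_pow]; rfl
  have hcen : ∀ t : G, ∀ σ : MulAut D, (∀ x : D, ((σ x : D) : G) = t * x * t⁻¹) → σ = 1 →
      t ∈ ℭ[D] := fun t σ h2 h3 x hx => by
    have := h2 ⟨x, hx⟩
    rw [h3] at this
    exact eq_mul_inv_iff_mul_eq.1 this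
  have hE : Nat.card (Ab.iq D (epsIn M _ c)) = 1 ∨ Nat.card (Ab.iq D (epsIn M _ c)) = 3 := by
    obtain ⟨k, hk⟩ := hodd
    omega
  have hcyc : IsCyclic (Ab.iq D (epsIn M _ c)) := by
    rcases hE with h1 | h1
    · haveI := (Nat.card_eq_one_iff_unique.1 h1).1
      infer_instance
    · haveI : Fact (Nat.Prime 3) := ⟨Nat.prime_three⟩
      exact isCyclic_of_prime_card h1
  have key := (S4639.result 2 M hM B hB D hD (fun h1 => by
      rw [h1, Subgroup.card_bot] at hcard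
      exact absurd hcard (Nat.one_lt_pow (by omega) (by norm_num)).ne) hab c hind
    (pstab ⊤ D (epsIn M _ c)) (fun g => ?_) _ h.card_iq.symm (fun g hg t ht => ?_)
    (fun g hg x hx hx1 hgx => ?_)).2.2.2 h3
  · have h4 : 4 ^ m % 3 = 1 := by rw [Nat.pow_mod]; simp
    have h5 : 0 < 4 ^ m := by positivity
    rw [hcard] at key
    rcases hE with h1 | h1 <;> rw [h1] at key <;> omega
  · exact mem_pstab_top_iff hc
  · obtain ⟨σ, hσ, h1⟩ := Ab.exists_mem_iq hg
    obtain ⟨τ, hτ, h2⟩ := Ab.exists_mem_iq ht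
    have h4 : σ * τ = τ * σ := congrArg Subtype.val
      (mul_comm' (⟨σ, hσ⟩ : Ab.iq D (epsIn M _ c)) ⟨τ, hτ⟩)
    have inv : ∀ (s : G) (ρ : MulAut D), (∀ x : D, ((ρ x : D) : G) = s * x * s⁻¹) →
        ∀ x : D, ((ρ⁻¹ x : D) : G) = s⁻¹ * x * s := fun s ρ h x => by
      have := h (ρ⁻¹ x)
      rw [MulAut.apply_inv_self] at this
      rw [this]; group
    refine hcen _ (σ * τ * σ⁻¹ * τ⁻¹) (fun x => ?_) (by rw [h4]; group)
    rw [MulAut.mul_apply, MulAut.mul_apply, MulAut.mul_apply, h1, h2, inv g σ h1, inv t τ h2]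
    group
  · obtain ⟨σ, hσ, h1⟩ := Ab.exists_mem_iq hg
    exact hcen g σ h1 (aut_eq_one hP had (hodd.of_dvd_nat (Subgroup.orderOf_dvd_natCard _ hσ))
      (v := ⟨x, hx⟩) (fun h => hx1 (congrArg Subtype.val h)) (Subtype.ext ((h1 _).trans hgx)))

end Cfsg.Agent.S4552
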