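import Cfsg.Statements.S4560
import Cfsg.Agent.Sym.CharTwo
import Cfsg.Agent.Sym.Order

set_option autoImplicit false
open Cfsg

namespace Cfsg.Agent.S4560
open Cfsg.Agent.Sym Equiv Equiv.Perm MulAction in
theorem ext_pair {n : ℕ} (hn : 7 ≤ n) (x : alternatingGroup (Fin n))
    (h : chi2 (Perm (Fin n)) (Fin n) x = 0 ∨ chi11 (Perm (Fin n)) (Fin n) x = 0) :
    ∃ χ : IrrCharacter (alternatingGroup (Fin n)), (χ : alternatingGroup (Fin n) → ℂ) x = 0 ∧
      ∃ ψ : IrrCharacter (Perm (Fin n)), ∀ x : alternatingGroup (Fin n),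
        (ψ : Perm (Fin n) → ℂ) x = (χ : alternatingGroup (Fin n) → ℂ) x := by
  have h4 : 4 ≤ Fintype.card (Fin n) := by simp; omega
  have hA : IsMultiplyPretransitive (alternatingGroup (Fin n)) (Fin n) 4 :=
    haveI := alternatingGroup.isMultiplyPretransitive (Fin n)
    isMultiplyPretransitive_of_le (n := Nat.card (Fin n) - 2) (by simp; omega) (by simp)
  have hS := Equiv.Perm.isMultiplyPretransitive (Fin n) 4
  rcases h with h | h
  · exact ⟨⟨_, isIrrCharacter_chi2 hA h4⟩, h, ⟨_, isIrrCharacter_chi2 hS h4⟩, fun _ => rfl⟩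
  · exact ⟨⟨_, isIrrCharacter_chi11 hA h4⟩, h, ⟨_, isIrrCharacter_chi11 hS h4⟩, fun _ => rfl⟩

open Cfsg.Agent.Sym Equiv Equiv.Perm MulAction in
theorem exists_elt {n : ℕ} (m : Multiset ℕ) (h1 : m.sum ≤ n) (h2 : n ≤ m.sum + 3)
    (h3 : ∀ a ∈ m, 3 ≤ a) (h4 : Even (m.sum + m.card)) :
    ∃ x : alternatingGroup (Fin n), orderOf x = m.lcm ∧
      (chi2 (Perm (Fin n)) (Fin n) x = 0 ∨ chi11 (Perm (Fin n)) (Fin n) x = 0) := by
  obtain ⟨g, rfl⟩ := (exists_with_cycleType_iff (Fin n)).2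
    ⟨by simpa using h1, fun a ha => (h3 a ha).trans' (by omega)⟩
  refine ⟨⟨g, mem_alternatingGroup_iff_even.2 h4⟩, by
    rw [← Subgroup.orderOf_coe, lcm_cycleType], ?_⟩
  have ht : twoS (Fin n) g = ∅ := by
    rw [Finset.eq_empty_iff_forall_notMem]
    intro x hx
    obtain ⟨hx1, hx2⟩ := mem_twoS.1 hx
    simp only [Perm.smul_def] at hx1 hx2
    have hc := isCycle_cycleOf g hx1
    have hm : (g.cycleOf x).support.card ∈ g.cycleType := by
      rw [cycleType_def]
      exact Multiset.mem_map.2 ⟨_, cycleOf_mem_cycleFactorsFinset_iff.2 (mem_support.2 hx1), rfl⟩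
    have hp : g.cycleOf x ^ 2 = 1 := by
      rw [hc.pow_eq_one_iff' (x := x) (by rwa [cycleOf_apply_self]), cycleOf_pow_apply_self,
        pow_two]
      exact hx2
    have := Nat.le_of_dvd two_pos (orderOf_dvd_of_pow_eq_one hp)
    rw [hc.orderOf] at this
    have := h3 _ hm
    omega
  have hf : (fixS (Fin n) g).card + g.cycleType.sum = n := by
    have : fixS (Fin n) g = g.supportᶜ := by
      ext x; simp [mem_fixS]
    rw [this, sum_cycleType, add_comm, Finset.card_add_card_compl, Fintype.card_fin]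
  simp only [chi2, chi11, ht, Finset.card_empty]
  obtain h | h | h | h : (fixS (Fin n) g).card = 0 ∨ (fixS (Fin n) g).card = 1 ∨
    (fixS (Fin n) g).card = 2 ∨ (fixS (Fin n) g).card = 3 := by omega
  all_goals simp [h]

open Cfsg.Agent.Sym Equiv Equiv.Perm MulAction in
theorem exists_two {n : ℕ} (hn : 7 ≤ n) :
    ∃ x : alternatingGroup (Fin n), (∃ j : ℕ, orderOf x = 2 ^ j) ∧
      (chi2 (Perm (Fin n)) (Fin n) x = 0 ∨ chi11 (Perm (Fin n)) (Fin n) x = 0) := by
  have key : ∀ k : ℕ, k ∣ 8 → ∃ j, k = 2 ^ j := fun k hk => by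
    obtain ⟨j, -, hj⟩ := (Nat.dvd_prime_pow Nat.prime_two (m := 3)).1 hk
    exact ⟨j, hj⟩
  rcases hn.eq_or_lt with rfl | hn
  · refine ⟨⟨swap 0 1 * (swap 2 3 * swap 3 4 * swap 4 5), mem_alternatingGroup.2 (by decide)⟩,
      key _ (orderOf_dvd_of_pow_eq_one (Subtype.ext (by decide +kernel))), Or.inl ?_⟩
    have h1 : (fixS (Fin 7) (swap 0 1 * (swap 2 3 * swap 3 4 * swap 4 5) : Perm (Fin 7))).card =
      1 := by decide
    have h2 : (twoS (Fin 7) (swap 0 1 * (swap 2 3 * swap 3 4 * swap 4 5) : Perm (Fin 7))).card =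
      2 := by decide
    simp only [chi2, h1, h2]
    norm_num
  · obtain ⟨k, hk⟩ : ∃ k, n / 4 = k + 2 := ⟨n / 4 - 2, by omega⟩
    rcases Nat.even_or_odd k with h | h
    · obtain ⟨x, hx, h0⟩ := exists_elt (n := n) (Multiset.replicate (k + 2) 4)
        (by simp; omega) (by simp; omega) (by simp +contextual [Multiset.mem_replicate])
        (by simp; grind)
      refine ⟨x, key _ ?_, h0⟩
      rw [hx, Multiset.lcm_dvd]
      simp +contextual [Multiset.mem_replicate]
    · obtain ⟨x, hx, h0⟩ := exists_elt (n := n) (8 ::ₘ Multiset.replicate k 4)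
        (by simp; omega) (by simp; omega) (by simp +contextual [Multiset.mem_replicate])
        (by simp; grind)
      refine ⟨x, key _ ?_, h0⟩
      rw [hx, Multiset.lcm_dvd]
      simp +contextual [Multiset.mem_replicate]

open Cfsg.Agent.Sym Equiv Equiv.Perm MulAction in
theorem exists_three {n : ℕ} (hn : 7 ≤ n) :
    ∃ x : alternatingGroup (Fin n), orderOf x = 3 ∧
      (chi2 (Perm (Fin n)) (Fin n) x = 0 ∨ chi11 (Perm (Fin n)) (Fin n) x = 0) := by
  obtain ⟨k, hk⟩ : ∃ k, n / 3 = k + 1 := ⟨n / 3 - 1, by omega⟩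
  obtain ⟨x, hx, h0⟩ := exists_elt (n := n) (Multiset.replicate (k + 1) 3)
    (by simp; omega) (by simp; omega) (by simp +contextual [Multiset.mem_replicate])
    (by simp; grind)
  refine ⟨x, ?_, h0⟩
  rw [hx]
  refine Nat.dvd_antisymm ?_ (Multiset.dvd_lcm (by simp [Multiset.mem_replicate]))
  rw [Multiset.lcm_dvd]
  simp +contextual [Multiset.mem_replicate]


/-- For n ≥ 7 the alternating group on n letters has an irreducible character that vanishes at some 2-element and is the restriction of an irreducible character of the symmetric group, and an irreducible character that vanishes at some element of order 3 and is the restriction of an irreducible character of the symmetric group. -/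
theorem result (n : ℕ) (hn : 7 ≤ n) : (∃ χ : Cfsg.IrrCharacter (alternatingGroup (Fin n)), (∃ x : alternatingGroup (Fin n), (∃ j : ℕ, orderOf x = 2 ^ j) ∧ (χ : alternatingGroup (Fin n) → ℂ) x = 0) ∧ ∃ ψ : Cfsg.IrrCharacter (Equiv.Perm (Fin n)), ∀ x : alternatingGroup (Fin n), (ψ : Equiv.Perm (Fin n) → ℂ) x = (χ : alternatingGroup (Fin n) → ℂ) x) ∧ (∃ χ : Cfsg.IrrCharacter (alternatingGroup (Fin n)), (∃ y : alternatingGroup (Fin n), orderOf y = 3 ∧ (χ : alternatingGroup (Fin n) → ℂ) y = 0) ∧ ∃ ψ : Cfsg.IrrCharacter (Equiv.Perm (Fin n)), ∀ x : alternatingGroup (Fin n), (ψ : Equiv.Perm (Fin n) → ℂ) x = (χ : alternatingGroup (Fin n) → ℂ) x) := by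
  constructor
  · obtain ⟨x, hx, h0⟩ := exists_two hn
    obtain ⟨χ, h1, h2⟩ := ext_pair hn x h0
    exact ⟨χ, ⟨x, hx, h1⟩, h2⟩
  · obtain ⟨x, hx, h0⟩ := exists_three hn
    obtain ⟨χ, h1, h2⟩ := ext_pair hn x h0
    exact ⟨χ, ⟨x, hx, h1⟩, h2⟩

end Cfsg.Agent.S4560
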