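import Mathlib
import Cfsg.Statements.S4561
import Cfsg.Agent.Ch.Induction
import Cfsg.Agent.Ch.Quotient
import Cfsg.Agent.Ch.Linear
import Cfsg.Agent.Ch.AbelianQuot
import Cfsg.Agent.GT.HallTools

set_option autoImplicit false
universe u
open Cfsg

namespace Cfsg.Agent.S4561

open Function

/-- The data carried through the induction. -/
def Good (G : Type u) [Group G] : Prop :=
  ∃ (H X : Type u) (_ : Group H) (_ : Finite H) (_ : Group X) (ρ : H →* X) (f : G →* X)
    (χ : H → ℂ) (d : ℕ), Surjective ρ ∧ Injective f ∧ IsCharacter H χ ∧ d ^ 2 = Nat.card X ∧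
    (∀ p : ℕ, p.Prime → p ∣ d → p ∣ Nat.card G) ∧ χ 1 = d ∧ (∀ h, ρ h ≠ 1 → χ h = 0) ∧
    (∀ m : ℕ, (∀ p : ℕ, p.Prime → p ∣ Nat.card G → p ∣ m) → ∀ h, ρ h = 1 → χ h ^ m = d ^ m) ∧
    ∀ p : ℕ, p.Prime → p ∣ Nat.card G → ∃ (h : H) (ζ : ℂ), ρ h = 1 ∧ χ h = d * ζ ∧ ζ ≠ 1 ∧
      ζ ^ p = 1

theorem good_of_subsingleton (G : Type u) [Group G] [Subsingleton G] : Good G := by
  have h1 : Nat.card G = 1 := Nat.card_of_subsingleton 1
  refine ⟨G, G, inferInstance, inferInstance, inferInstance, MonoidHom.id G, MonoidHom.id G,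
    fun _ => 1, 1, surjective_id, injective_id, IsCharacter.one, by simp [h1], by simp [h1],
    by simp, fun h hh => (hh (Subsingleton.elim _ _)).elim, by simp, fun p hp h => ?_⟩
  rw [h1] at h
  exact (hp.one_lt.ne' (Nat.dvd_one.1 h)).elim

section
variable {H X Q : Type u} [Group H] [Group X] [CommGroup Q] [Fintype Q]

/-- the projection of the wreath product. -/
def rho (ρ : H →* X) : (H × Q) ≀ᵣ Q →* (X ≀ᵣ Q) × Q where
  toFun w := (⟨fun i => ρ (w.left i).1, w.right⟩, ∏ i, (w.left i).2)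
  map_one' := by ext <;> simp
  map_mul' a b := by
    ext
    · simp
    · simp
    · simp only [RegularWreathProduct.mul_left, Pi.mul_apply, Prod.snd_mul,
        Finset.prod_mul_distrib]
      congr 1
      exact Fintype.prod_equiv (Equiv.mulLeft a.right⁻¹) _ _ fun _ => rfl

theorem rho_eq_one {ρ : H →* X} {w : (H × Q) ≀ᵣ Q} : rho ρ w = 1 ↔
    (∀ i, ρ (w.left i).1 = 1) ∧ w.right = 1 ∧ ∏ i, (w.left i).2 = 1 := by
  simp only [rho, MonoidHom.coe_mk, OneHom.coe_mk, Prod.mk_eq_one, RegularWreathProduct.ext_iff,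
    funext_iff, and_assoc]
  rfl

theorem rho_surjective {ρ : H →* X} (h : Surjective ρ) : Surjective (rho (Q := Q) ρ) := by
  classical
  rintro ⟨⟨x, s⟩, t⟩
  choose y hy using fun i => h (x i)
  refine ⟨⟨fun i => (y i, Pi.mulSingle (M := fun _ => Q) 1 t i), s⟩, ?_⟩
  ext <;> simp [rho, hy]

/-- coordinate of the base group. -/
def coord (i : Q) : (RegularWreathProduct.rightHom : (H × Q) ≀ᵣ Q →* Q).ker →* H × Q where
  toFun w := w.1.left i
  map_one' := rfl
  map_mul' a b := by
    have : a.1.right = 1 := a.2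
    simp [this]

/-- the character of the base group. -/
def theta (χ : H → ℂ) (β : Q →* Q →* ℂˣ) (w : (H × Q) ≀ᵣ Q) : ℂ :=
  ∏ i, χ (w.left i).1 * β i (w.left i).2

theorem isCharacter_theta {χ : H → ℂ} (hχ : IsCharacter H χ) (β : Q →* Q →* ℂˣ) :
    IsCharacter (RegularWreathProduct.rightHom : (H × Q) ≀ᵣ Q →* Q).ker
      fun w => theta χ β w := by
  have := IsCharacter.prod (s := Finset.univ) fun (i : Q) _ =>
    (Ch.isCharacter_prod hχ (Ch.isCharacter_monoidHom_units (β i))).comp (coord i)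
  convert this using 1
  funext w
  simp [theta, coord]

theorem theta_conj {χ : H → ℂ} (hχ : IsClassFunction H χ) (β : Q →* Q →* ℂˣ)
    {w : (H × Q) ≀ᵣ Q} (hw : w.right = 1) (x : (H × Q) ≀ᵣ Q) :
    theta χ β (x * w * x⁻¹) = theta χ β w * β x.right (∏ i, (w.left i).2) := by
  have h1 : ∀ i, (x * w * x⁻¹).left i = x.left i * w.left (x.right⁻¹ * i) * (x.left i)⁻¹ := by
    intro i
    simp [hw]
  simp only [theta, h1, Prod.fst_mul, Prod.fst_inv, hχ.conj_eq, Prod.snd_mul, Prod.snd_inv,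
    mul_inv_cancel_comm, map_prod, Units.coe_prod, ← Finset.prod_mul_distrib]
  symm
  refine Fintype.prod_equiv (Equiv.mulLeft x.right) _ _ fun i => ?_
  simp [mul_assoc, mul_comm, mul_left_comm]

theorem ind_apply [Fintype ((H × Q) ≀ᵣ Q)] {χ : H → ℂ} (hχ : IsClassFunction H χ)
    (β : Q →* Q →* ℂˣ) {w : (H × Q) ≀ᵣ Q} (hw : w.right = 1) :
    indFun (RegularWreathProduct.rightHom : (H × Q) ≀ᵣ Q →* Q).ker (fun w => theta χ β w) w =
      (Nat.card (RegularWreathProduct.rightHom : (H × Q) ≀ᵣ Q →* Q).ker : ℂ)⁻¹ *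
        (theta χ β w * ∑ x : (H × Q) ≀ᵣ Q,
          (((β.flip (∏ i, (w.left i).2)).comp RegularWreathProduct.rightHom x : ℂˣ) : ℂ)) := by
  have := Ch.indFun_normal_coe (RegularWreathProduct.rightHom : (H × Q) ≀ᵣ Q →* Q).ker
    (fun w => theta χ β w) ⟨w, hw⟩
  simp only [theta_conj hχ β hw] at this
  rw [this, Finset.mul_sum, Finset.mul_sum, Finset.mul_sum]
  rfl

end

/-- The Kaloujnine-Krasner embedding. -/
theorem exists_embedding {G Q X : Type u} [Group G] [Group Q] [Group X] (π : G →* Q)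
    (hπ : Surjective π) (f : π.ker →* X) (hf : Injective f) :
    ∃ F : G →* X ≀ᵣ Q, Injective F := by
  choose t ht using hπ
  have hm : ∀ (g : G) (x : Q), (t x)⁻¹ * g * t ((π g)⁻¹ * x) ∈ π.ker := fun g x => by
    simp [MonoidHom.mem_ker, ht]
  refine ⟨MonoidHom.mk' (fun g => ⟨fun x => f ⟨_, hm g x⟩, π g⟩) fun a b => ?_, ?_⟩
  · ext x
    · simp only [RegularWreathProduct.mul_left, Pi.mul_apply, ← map_mul]
      congr 1
      ext
      simp [mul_assoc]
    · simp
  · rw [injective_iff_map_eq_one]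
    intro g hg
    have h1 : π g = 1 := congrArg RegularWreathProduct.right hg
    have h2 : f ⟨_, hm g 1⟩ = 1 := congrFun (congrArg RegularWreathProduct.left hg) 1
    have h3 := congrArg Subtype.val ((injective_iff_map_eq_one f).1 hf _ h2)
    simpa [h1, mul_assoc, inv_mul_eq_one] using h3

theorem good_step {G Q : Type u} [Group G] [Finite G] [CommGroup Q] (π : G →* Q)
    (hπ : Surjective π) (hp : (Nat.card Q).Prime) (h : Good π.ker) : Good G := by
  classical
  obtain ⟨H, X, _, _, _, ρ, f, χ, d, hρ, hf, hχ, hd, hpd, h1, h0, hm, hζ⟩ := h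
  have : Finite Q := Finite.of_surjective π hπ
  have := Fintype.ofFinite Q
  have := Fintype.ofFinite ((H × Q) ≀ᵣ Q)
  obtain ⟨F, hF⟩ := exists_embedding π hπ f hf
  obtain ⟨e⟩ := CommGroup.monoidHom_mulEquiv_of_hasEnoughRootsOfUnity Q ℂ
  set β : Q →* Q →* ℂˣ := e.symm.toMonoidHom with hβ
  have hnd : ∀ s : Q, s ≠ 1 → ∃ q, β q s ≠ 1 := fun s hs => by
    obtain ⟨g, hg⟩ := Ch.exists_monoidHom_units_ne_one_of_comm mul_comm hs
    exact ⟨e g, by simpa [hβ] using hg⟩
  have hcard : Nat.card G = Nat.card π.ker * Nat.card Q := by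
    rw [← π.ker.card_mul_index, Subgroup.index_ker, MonoidHom.range_eq_top.2 hπ, Subgroup.card_top]
  set B := (RegularWreathProduct.rightHom : (H × Q) ≀ᵣ Q →* Q).ker with hB
  set χ' := indFun B (fun w => theta χ β w) with hχ'
  have hval : ∀ w : (H × Q) ≀ᵣ Q, w.right = 1 → ∏ i, (w.left i).2 = 1 →
      χ' w = Nat.card Q * theta χ β w := by
    intro w hw hs
    have h2 : Nat.card B * Nat.card Q = Fintype.card ((H × Q) ≀ᵣ Q) := by
      rw [← Nat.card_eq_fintype_card, ← B.card_mul_index, Subgroup.index_ker,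
        MonoidHom.range_eq_top.2 fun q => ⟨RegularWreathProduct.inl q, rfl⟩, Subgroup.card_top]
    rw [hχ', ind_apply hχ.isClassFunction β hw, hs]
    simp only [map_one, MonoidHom.one_comp, MonoidHom.one_apply, Units.val_one, Finset.sum_const,
      Finset.card_univ, nsmul_eq_mul, mul_one, ← h2, Nat.cast_mul]
    have := Ch.natCard_ne_zero B
    rw [← hB]
    field_simp
  have hβp : ∀ i u, ((β i u : ℂˣ) : ℂ) ^ Nat.card Q = 1 := fun i u =>
    Ch.monoidHom_units_pow_card (β i) u
  have hQ : Fintype.card Q = Nat.card Q := Nat.card_eq_fintype_card.symm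
  refine ⟨(H × Q) ≀ᵣ Q, (X ≀ᵣ Q) × Q, inferInstance, inferInstance, inferInstance, rho ρ,
    (MonoidHom.inl _ _).comp F, χ', Nat.card Q * d ^ Nat.card Q, rho_surjective hρ,
    fun a b hab => hF (congrArg Prod.fst hab), Ch.isCharacter_indFun _ (isCharacter_theta hχ β),
    ?_, ?_, ?_, ?_, ?_, ?_⟩
  · rw [Nat.card_prod, RegularWreathProduct.card, ← hd]
    ring
  · intro r hr h
    rw [hcard]
    rcases (Nat.Prime.dvd_mul hr).1 h with h | h
    · exact h.mul_left _
    · exact (hpd r hr (hr.dvd_of_dvd_pow h)).mul_right _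
  · rw [hval 1 rfl (by simp)]
    simp [theta, h1]
  · intro w hw
    by_cases hw1 : w.right = 1
    · by_cases hs : ∏ i, (w.left i).2 = 1
      · rw [hval w hw1 hs]
        refine mul_eq_zero_of_right _ ?_
        obtain ⟨i, hi⟩ : ∃ i, ρ (w.left i).1 ≠ 1 := by
          by_contra hcon
          push Not at hcon
          exact hw (rho_eq_one.2 ⟨hcon, hw1, hs⟩)
        exact Finset.prod_eq_zero (Finset.mem_univ i) (by rw [h0 _ hi, zero_mul])
      · rw [hχ', ind_apply hχ.isClassFunction β hw1, Ch.sum_monoidHom_units_eq_zero, mul_zero,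
          mul_zero]
        obtain ⟨q, hq⟩ := hnd _ hs
        intro h
        exact hq (DFunLike.congr_fun h (RegularWreathProduct.inl q))
    · exact Ch.indFun_normal_of_not_mem B _ hw1
  · intro m hmm w hw
    obtain ⟨h2, h3, h4⟩ := rho_eq_one.1 hw
    have h5 := hm m fun r hr h => hmm r hr (hcard ▸ h.mul_right _)
    obtain ⟨k, hk⟩ := hmm _ hp (hcard ▸ dvd_mul_left _ _)
    rw [hval w h3 h4, mul_pow, theta, ← Finset.prod_pow,
      Finset.prod_congr rfl (g := fun _ => (d : ℂ) ^ m) fun i _ => by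
        rw [mul_pow, h5 _ (h2 i), hk, pow_mul (β i _ : ℂ), hβp, one_pow, mul_one]]
    simp only [Finset.prod_const, Finset.card_univ, hQ]
    push_cast
    ring
  · intro r hr h
    rw [hcard] at h
    rcases (Nat.Prime.dvd_mul hr).1 h with h | h
    · obtain ⟨y, ζ, hy, hyζ, hζ1, hζr⟩ := hζ r hr h
      have h2 : ∀ i, (Pi.mulSingle (M := fun _ : Q => H × Q) 1 (y, 1) i).2 = 1 := by
        intro i
        by_cases hi : i = 1 <;> simp [hi]
      refine ⟨⟨Pi.mulSingle 1 (y, 1), 1⟩, ζ, rho_eq_one.2 ⟨fun i => ?_, rfl, by simp [h2]⟩, ?_,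
        hζ1, hζr⟩
      · by_cases hi : i = 1 <;> simp [hi, hy]
      · rw [hval _ rfl (by simp [h2]), theta]
        simp only [h2, map_one, Units.val_one, mul_one]
        rw [Finset.prod_congr rfl (g := fun i : Q => (d : ℂ) * if i = 1 then ζ else 1)
          fun i _ => by by_cases hi : i = 1 <;> simp [hi, hyζ, h1]]
        rw [Finset.prod_mul_distrib]
        simp [mul_assoc]
    · obtain rfl := (Nat.prime_dvd_prime_iff_eq hr hp).1 h
      have : Nontrivial Q := Finite.one_lt_card_iff_nontrivial.1 hp.one_lt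
      obtain ⟨s, hs⟩ := exists_ne (1 : Q)
      obtain ⟨q, hq⟩ := hnd s hs
      set u : Q → Q := Pi.mulSingle q s * Pi.mulSingle 1 s⁻¹ with hu
      have h2 : ∏ i, u i = 1 := by simp [hu, Finset.prod_mul_distrib]
      refine ⟨⟨fun i => (1, u i), 1⟩, β q s, rho_eq_one.2 ⟨fun i => by simp, rfl, h2⟩, ?_,
        fun h => hq (Units.ext h), hβp q s⟩
      rw [hval _ rfl h2, theta]
      have h3 : ∏ i, β i (u i) = β q s := by
        simp only [hu, Pi.mul_apply, map_mul, Finset.prod_mul_distrib]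
        rw [Finset.prod_eq_single q (fun i _ hi => by simp [hi]) (by simp),
          Finset.prod_eq_single 1 (fun i _ hi => by simp [hi]) (by simp)]
        simp
      simp only [h1, Finset.prod_mul_distrib, Finset.prod_const, Finset.card_univ, hQ,
        ← Units.coe_prod, h3]
      push_cast
      ring

theorem good (n : ℕ) : ∀ (G : Type u) [Group G] [Finite G], Group.IsSolvable G →
    Nat.card G = n → Good G := by
  induction n using Nat.strong_induction_on with
  | _ n ih =>
  intro G _ _ hs hn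
  rcases subsingleton_or_nontrivial G with h | h
  · exact good_of_subsingleton G
  obtain ⟨M, hM, hp⟩ := GT.HT.exists_normal_index_prime G
  have := Fact.mk hp
  have hc : IsCyclic (G ⧸ M) := isCyclic_of_prime_card (p := M.index) rfl
  let := hc.commGroup
  refine good_step (Q := G ⧸ M) (QuotientGroup.mk' M) (QuotientGroup.mk'_surjective M) hp
    (ih _ ?_ _ inferInstance rfl)
  rw [← hn, QuotientGroup.ker_mk', ← M.card_mul_index]
  exact lt_mul_of_one_lt_right Nat.card_pos hp.one_lt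

/-- For every finite solvable group G there is a finite group H with a faithful irreducible character χ whose degree squared equals the index of the centre Z(H) (so χ is fully ramified over the centre), such that G is isomorphic to a subgroup of H/Z(H), the primes dividing the orders of H, of Z(H) and of G are the same, and the order of Z(H) is squarefree. -/
theorem result {G : Type u} [Group G] [Finite G] (hsolv : Group.IsSolvable G) : ∃ (H : Type u) (_ : Group H) (_ : Finite H) (χ : Cfsg.IrrCharacter H), (∀ h : H, (χ : H → ℂ) h = (χ : H → ℂ) 1 → h = 1) ∧ (Cfsg.charDegree (χ : H → ℂ)) ^ 2 = (Subgroup.center H).index ∧ (∃ f : G →* H ⧸ Subgroup.center H, Function.Injective f) ∧ (∀ p : ℕ, p.Prime → ((p ∣ Nat.card H ↔ p ∣ Nat.card G) ∧ (p ∣ Nat.card (Subgroup.center H) ↔ p ∣ Nat.card G))) ∧ Squarefree (Nat.card (Subgroup.center H)) := by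
  classical
  obtain ⟨H, X, _, _, _, ρ, f, χ, d, hρ, hf, hχ, hd, hpd, h1, h0, hm, hζ⟩ := good _ G hsolv rfl
  have : Finite X := Finite.of_surjective ρ hρ
  have hd0 : (d : ℂ) ≠ 0 := by
    rintro h
    rw [Nat.cast_eq_zero.1 h] at hd
    exact Nat.card_pos.ne hd
  have hN := hχ.charKer_normal
  have hle : Ch.charKer χ ≤ ρ.ker := fun x hx => by
    by_contra h
    exact hd0 (h1.symm.trans ((Ch.apply_eq_of_mem_charKer hx).symm.trans (h0 x h)))
  set H' := H ⧸ Ch.charKer χ
  have := Fintype.ofFinite H'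
  set ρ' : H' →* X := QuotientGroup.lift _ ρ hle with hρ'
  set χ' : H' → ℂ := Ch.deflate (QuotientGroup.mk' _) χ with hχ'
  have hχc : IsCharacter H' χ' := hχ.deflate (QuotientGroup.mk'_surjective _)
    (QuotientGroup.ker_mk' _).le
  have hv : ∀ x : H, χ' x = χ x := fun x => Ch.deflate_mk le_rfl x
  have hρs : Function.Surjective ρ' := fun x => by
    obtain ⟨y, rfl⟩ := hρ x
    exact ⟨y, rfl⟩
  have h1' : χ' 1 = d := (hv 1).trans h1
  have hdeg : charDegree χ' = d := Ch.charDegree_of_apply_one h1'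
  have h0' : ∀ h, h ∉ ρ'.ker → χ' h = 0 := fun h hh => by
    obtain ⟨x, rfl⟩ := QuotientGroup.mk_surjective h
    exact (hv x).trans (h0 x hh)
  set m := UniqueFactorizationMonoid.radical (Nat.card G) with hmdef
  have hm0 : m ≠ 0 := UniqueFactorizationMonoid.radical_ne_zero
  have hmiff : ∀ p : ℕ, p.Prime → (p ∣ m ↔ p ∣ Nat.card G) := fun p hp =>
    UniqueFactorizationMonoid.dvd_radical_iff_of_irreducible hp Nat.card_pos.ne'
  have hm' : ∀ h, h ∈ ρ'.ker → χ' h ^ m = d ^ m := fun h hh => by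
    obtain ⟨x, rfl⟩ := QuotientGroup.mk_surjective h
    rw [hv]
    exact hm m (fun p hp => (hmiff p hp).2) x hh
  have hnorm : ∀ h, h ∈ ρ'.ker → ‖χ' h‖ = d := fun h hh => by
    have := congrArg norm (hm' h hh)
    rw [norm_pow, norm_pow, Complex.norm_natCast] at this
    exact (pow_left_inj₀ (norm_nonneg _) (Nat.cast_nonneg _) hm0).1 this
  have hidx : ρ'.ker.index = d ^ 2 := by
    rw [Subgroup.index_ker, MonoidHom.range_eq_top.2 hρs, Subgroup.card_top, hd]
  have hirr : IsIrrCharacter H' χ' := by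
    refine hχc.isIrr_of_classInner_self ?_
    have h2 := Ch.index_mul_classInner_of_vanish ρ'.ker h0' χ'
    rw [Ch.classInner_self_eq (fun h : ρ'.ker => χ' h), hidx] at h2
    simp only [fun h : ρ'.ker => hnorm h h.2, Finset.sum_const, Finset.card_univ,
      ← Nat.card_eq_fintype_card, nsmul_eq_mul] at h2
    rw [← mul_assoc, inv_mul_cancel₀ (by exact_mod_cast Nat.card_pos.ne'), one_mul] at h2
    push_cast at h2
    exact mul_left_cancel₀ (pow_ne_zero 2 hd0) (h2.trans (mul_one _).symm)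
  have hfaith : ∀ h : H', χ' h = χ' 1 → h = 1 := fun h hh => by
    obtain ⟨x, rfl⟩ := QuotientGroup.mk_surjective h
    exact (QuotientGroup.eq_one_iff x).2 (hχ.mem_charKer.2 ((hv x).symm.trans (hh.trans (hv 1))))
  have hker : Ch.charKer χ' = ⊥ := hχc.charKer_eq_bot_iff.2 hfaith
  have hcen : Subgroup.center H' = ρ'.ker := by
    rw [← hirr.charCenter_eq_center hker]
    ext h
    rw [hχc.mem_charCenter, hdeg]
    refine ⟨fun hh => ?_, hnorm h⟩
    by_contra hn
    rw [h0' h hn, norm_zero] at hh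
    exact hd0 (by exact_mod_cast hh.symm)
  obtain ⟨lam, hlam, hlk⟩ := hirr.exists_center_hom
  rw [hker, Subgroup.bot_subgroupOf] at hlk
  have hli := (MonoidHom.ker_eq_bot_iff lam).1 hlk
  have hlv : ∀ z : Subgroup.center H', χ' z = d * lam z := fun z => by
    simpa [h1', mul_comm] using hlam z 1
  have hcyc := hirr.isCyclic_center hker
  have hdvd : Nat.card (Subgroup.center H') ∣ m := by
    rw [← IsCyclic.exponent_eq_card]
    refine Monoid.exponent_dvd_of_forall_pow_eq_one fun z => hli ?_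
    have h2 := hm' z (hcen ▸ z.2)
    rw [hlv, mul_pow] at h2
    rw [map_pow, map_one]
    ext
    exact mul_left_cancel₀ (pow_ne_zero m hd0) (by simpa using h2)
  have hZ : ∀ p : ℕ, p.Prime → (p ∣ Nat.card (Subgroup.center H') ↔ p ∣ Nat.card G) := by
    refine fun p hp => ⟨fun h => (hmiff p hp).1 (h.trans hdvd), fun h => ?_⟩
    obtain ⟨x, ζ, hx, hxζ, hζ1, hζp⟩ := hζ p hp h
    have hxz : (x : H') ∈ Subgroup.center H' := hcen ▸ hx
    have h2 : (lam ⟨x, hxz⟩ : ℂ) = ζ :=
      mul_left_cancel₀ hd0 ((hlv ⟨x, hxz⟩).symm.trans ((hv x).trans hxζ))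
    have := Fact.mk hp
    have h3 : orderOf (lam ⟨x, hxz⟩) = p :=
      orderOf_eq_prime (Units.ext (by simpa [h2] using hζp)) fun h => hζ1 (by simp [← h2, h])
    rw [orderOf_injective lam hli] at h3
    exact h3 ▸ orderOf_dvd_natCard _
  refine ⟨H', inferInstance, inferInstance, ⟨χ', hirr⟩, hfaith, by rw [hcen, hidx, ← hdeg], ?_,
    fun p hp => ⟨?_, hZ p hp⟩, UniqueFactorizationMonoid.squarefree_radical.squarefree_of_dvd hdvd⟩
  · let e := (QuotientGroup.quotientMulEquivOfEq hcen).trans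
      (QuotientGroup.quotientKerEquivOfSurjective ρ' hρs)
    exact ⟨e.symm.toMonoidHom.comp f, e.symm.injective.comp hf⟩
  · rw [← (Subgroup.center H').card_mul_index, hp.dvd_mul, hZ p hp, hcen, hidx]
    exact ⟨fun h => h.elim id fun h => hpd p hp (hp.dvd_of_dvd_pow h), Or.inl⟩

end Cfsg.Agent.S4561
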