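import Mathlib
import Cfsg.Statements.S4565
import Cfsg.Agent.Ch.NearRegular
import Cfsg.Agent.Ch.CliffordRel
import Cfsg.Agent.Ch.GlaubBase

set_option autoImplicit false
open Cfsg

namespace Cfsg.Agent.S4565

/-- Let χ be an irreducible character of the finite group H that is fully ramified over the normal subgroup Z: the restriction of χ to Z is e times an irreducible character of Z with e ^ 2 equal to the index of Z. If Z ≠ H, then H/Z has no cyclic subgroup that is its own centralizer. -/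
theorem result {H : Type*} [Group H] [Finite H] (Z : Subgroup H) [Z.Normal] (χ : Cfsg.IrrCharacter H) (hfr : ∃ (θ : Cfsg.IrrCharacter ↥Z) (e : ℕ), e ^ 2 = Z.index ∧ ∀ z : ↥Z, (χ : H → ℂ) z = (e : ℂ) * (θ : ↥Z → ℂ) z) (hZ : Z ≠ ⊤) (C : Subgroup (H ⧸ Z)) (hC : IsCyclic C) : Subgroup.centralizer (C : Set (H ⧸ Z)) ≠ C := by
  classical
  intro hcent
  obtain ⟨θ, e, he, hr⟩ := hfr
  have := Fintype.ofFinite H
  have := Fintype.ofFinite Z
  obtain ⟨⟨cb, hcb⟩, hgen⟩ := hC.exists_generator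
  obtain ⟨c, rfl⟩ := QuotientGroup.mk_surjective cb
  set D := C.comap (QuotientGroup.mk' Z) with hD
  have := Fintype.ofFinite D
  have hZD : Z ≤ D := fun z hz => by
    rw [hD, Subgroup.mem_comap, QuotientGroup.mk'_apply, (QuotientGroup.eq_one_iff z).2 hz]
    exact C.one_mem
  have hcD : c ∈ D := hcb
  have hgen' : ∀ q ∈ C, ∃ k : ℤ, (c : H ⧸ Z) ^ k = q := fun q hq => by
    obtain ⟨k, hk⟩ := hgen ⟨q, hq⟩
    exact ⟨k, by simpa using congrArg Subtype.val hk⟩
  have hcen : ∀ q : H ⧸ Z, q ∈ C ↔ q * c * q⁻¹ = c := by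
    intro q
    rw [← hcent, Subgroup.mem_centralizer_iff, mul_inv_eq_iff_eq_mul]
    refine ⟨fun h => (h _ hcb).symm, fun h r hr => ?_⟩
    obtain ⟨k, rfl⟩ := hgen' r hr
    exact ((Commute.zpow_right h k).eq).symm
  have hcZ : c ∉ Z := by
    intro hc
    refine hZ (eq_top_iff.2 fun y _ => ?_)
    have h1 : (c : H ⧸ Z) = 1 := (QuotientGroup.eq_one_iff c).2 hc
    obtain ⟨k, hk⟩ := hgen' y ((hcen _).2 (by simp [h1]))
    rw [h1, one_zpow] at hk
    exact (QuotientGroup.eq_one_iff y).1 hk.symm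
  have hcD' : IsCyclic (D ⧸ Z.subgroupOf D) := by
    refine ⟨⟨((⟨c, hcD⟩ : D) : D ⧸ Z.subgroupOf D), fun q => ?_⟩⟩
    obtain ⟨y, rfl⟩ := QuotientGroup.mk_surjective q
    obtain ⟨k, hk⟩ := hgen' _ y.2
    refine ⟨k, ?_⟩
    simp only
    rw [← QuotientGroup.mk_zpow, QuotientGroup.eq, Subgroup.mem_subgroupOf]
    exact QuotientGroup.eq.1 (by simpa using hk)
  have hT : Ch.inertia Z (θ : Z → ℂ) = ⊤ :=
    Ch.inertia_eq_top_iff.2 (Ch.fr_invariant χ.isClassFunction he hr)
  obtain ⟨θh, hθh, hθe⟩ := Ch.extends_of_isCyclic (N := Z.subgroupOf D)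
    (Ch.isIrrCharacter_subgroupOf hZD θ.2)
    fun g => congrFun (Ch.subOf_invariant (K := D) (θ := (θ : Z → ℂ)) (hT ▸ le_top) g)
  have hθirr : IsIrrCharacter (Z.subgroupOf D) fun n => θh n := by
    rw [funext hθe]
    exact Ch.isIrrCharacter_subgroupOf hZD θ.2
  set c' : D := ⟨c, hcD⟩ with hc'
  set f : D → ℂ := fun d => if ((d : H) : H ⧸ Z) = c then θh d else 0 with hf
  have hF : indFun D f = 0 := by
    refine (Ch.indFun_isClassFunction D f).eq_zero_of_classInner fun ξ => ?_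
    rw [Ch.classInner_indFun_left D f ξ.isClassFunction, Ch.classInner_def]
    refine mul_eq_zero_of_right _ ?_
    have h1 : ∑ d : D, f d * (starRingEnd ℂ) ((ξ : H → ℂ) d) =
        ∑ n : Z.subgroupOf D, θh (n * c') * (starRingEnd ℂ) ((ξ : H → ℂ) ((n * c' : D) : H)) := by
      symm
      refine Finset.sum_of_injOn (fun n : Z.subgroupOf D => (n : D) * c') ?_
        (fun _ _ => Finset.mem_univ _) ?_ ?_
      · intro a _ b _ hab
        exact Subtype.ext (mul_right_cancel hab)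
      · intro d _ hd
        have h2 : ((d : H) : H ⧸ Z) ≠ c := by
          intro h
          refine hd ⟨⟨d * c'⁻¹, ?_⟩, by simp, by simp⟩
          rw [Subgroup.mem_subgroupOf, ← QuotientGroup.eq_one_iff]
          simp [hc', h]
        simp [hf, h2]
      · intro n _
        have h2 : (((n : D) : H) : H ⧸ Z) = 1 := (QuotientGroup.eq_one_iff _).2 n.2
        simp [hf, hc', h2]
    rw [h1]
    by_cases hξ : classInner (fun n : Z => (ξ : H → ℂ) n) θ = 0
    · refine Ch.Glb.sum_coset_mul_conj_of_ne (Z.subgroupOf D) hθh.isCharacter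
        (ξ.isCharacter.restrict D) ?_ c'
      rw [Ch.classInner_eq_zero_comm, funext hθe]
      exact (Ch.classInner_res_subgroupOf hZD (fun d : D => (ξ : H → ℂ) d) θ).trans hξ
    · refine Finset.sum_eq_zero fun n _ => ?_
      rw [Ch.fr_unique χ.2 θ.2 he hr ξ.2 hξ, Ch.fr_vanish χ.2 θ.2 he hr, map_zero, mul_zero]
      intro h
      exact hcZ (by simpa [hc'] using Z.mul_mem (Z.inv_mem n.2) h)
  obtain ⟨n, hn, hne⟩ := Ch.exists_coset_ne_zero hθh.isCharacter hθirr c'
  refine hne ?_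
  have h1 := congrFun hF ((n * c' : D) : H)
  have hy : (((n * c' : D) : H) : H ⧸ Z) = c := by
    have h2 : ((n : H) : H ⧸ Z) = 1 := (QuotientGroup.eq_one_iff _).2 hn
    simp [hc', h2]
  rw [Ch.indFun_apply', Ch.sum_split_subgroup D, Finset.sum_eq_zero (s := Finset.filter _ _),
    add_zero, Finset.sum_congr rfl (g := fun _ => θh (n * c'))] at h1
  · simpa [Ch.natCard_ne_zero, Fintype.card_ne_zero] using h1
  · intro d _
    have h2 : (((d * (n * c') * d⁻¹ : D) : H) : H ⧸ Z) = c := by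
      rw [Subgroup.coe_mul, Subgroup.coe_mul, Subgroup.coe_inv, QuotientGroup.mk_mul,
        QuotientGroup.mk_mul, hy, QuotientGroup.mk_inv]
      exact (hcen _).1 d.2
    refine (Ch.extendByZero_coe D f (d * (n * c') * d⁻¹)).trans ?_
    simp only [hf, h2, if_true]
    exact hθh.isClassFunction.conj_eq _ _
  · intro x hx
    have hxD : x ∉ D := (Finset.mem_filter.1 hx).2
    rw [Ch.extendByZero_eq_dite]
    split_ifs with h
    · have h2 : ((x * ((n * c' : D) : H) * x⁻¹ : H) : H ⧸ Z) ≠ c := by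
        rw [QuotientGroup.mk_mul, QuotientGroup.mk_mul, hy, QuotientGroup.mk_inv]
        exact fun h => hxD ((hcen _).2 h)
      simp only [hf, h2, if_false]
    · rfl

end Cfsg.Agent.S4565
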