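import Mathlib
import Cfsg.Statements.S4566
import Cfsg.Agent.Ch.Clifford
import Cfsg.Agent.Ch.Kernel

set_option autoImplicit false
open Cfsg

namespace Cfsg.Agent.S4566

/-- Let N be a central subgroup of the finite group G, ψ a faithful irreducible (hence degree-one) character of N, and χ an irreducible character of G whose restriction to N contains ψ. If g ∈ G and some x ∈ G has commutator x⁻¹ g⁻¹ x g in N but different from 1, then χ g = 0. -/
theorem result {G : Type*} [Group G] [Fintype G] (N : Subgroup G) [Fintype N] (hN : N ≤ Subgroup.center G) (ψ : Cfsg.IrrCharacter ↥N) (hfaith : ∀ n : ↥N, (ψ : ↥N → ℂ) n = (ψ : ↥N → ℂ) 1 → n = 1) (χ : Cfsg.IrrCharacter G) (hover : Cfsg.classInner (fun n : ↥N => (χ : G → ℂ) n) (ψ : ↥N → ℂ) ≠ 0) (g x : G) (hcomm : x⁻¹ * g⁻¹ * x * g ∈ N) (hne : x⁻¹ * g⁻¹ * x * g ≠ 1) : (χ : G → ℂ) g = 0 := by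
  have : N.Normal := ⟨fun n hn y => by
    rw [(Subgroup.mem_center_iff.1 (hN hn) y), mul_inv_cancel_right]; exact hn⟩
  have hinv : ∀ y : G, Ch.conjChar y (ψ : N → ℂ) = ψ := fun y =>
    Ch.conjChar_of_mem_centralizer _ fun n hn => (Subgroup.mem_center_iff.1 (hN hn) y).symm
  have h1 := Ch.res_eq_smul_of_invariant χ.2 ψ.2 hinv hover
  have h2 : (χ : G → ℂ) (x⁻¹ * g⁻¹ * x * g) ≠ (χ : G → ℂ) 1 := by
    intro h
    have e1 := congrFun h1 ⟨_, hcomm⟩
    have e2 := congrFun h1 1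
    simp only [Pi.smul_apply, smul_eq_mul, OneMemClass.coe_one] at e1 e2
    rw [h, e2] at e1
    exact hne (congrArg Subtype.val (hfaith _ (mul_left_cancel₀ hover e1).symm))
  have h3 := χ.2.apply_mul_of_mem_center (hN hcomm) g⁻¹
  rw [mul_inv_cancel_right, χ.2.isClassFunction.conj_eq'] at h3
  have h4 : (χ : G → ℂ) g⁻¹ = 0 := by
    by_contra h
    exact h2 (mul_right_cancel₀ h h3).symm
  rw [χ.2.isCharacter.apply_inv] at h4
  simpa using h4

end Cfsg.Agent.S4566
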