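import Cfsg.Statements.S4574
import Cfsg.Agent.Ch.Galois
import Cfsg.Agent.Ch.Kernel
import Cfsg.Agent.Ch.Orthogonality
-- import your own Cfsg.Agent.* helpers here

set_option autoImplicit false
open Cfsg

namespace Cfsg.Agent.S4574

/-- Let χ be an irreducible character of the finite group G, of degree d, and let Z(χ) be the set of elements g with |χ g| = d (the centre of χ). Then χ vanishes on at least (d ^ 2 - 1) · |Z(χ)| elements of G, with equality when every value |χ g| is 0, 1 or d. -/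
theorem result {G : Type*} [Group G] [Fintype G] [DecidableEq G] (χ : G → ℂ) (hχ : Cfsg.IsIrrCharacter G χ) : (Cfsg.charDegree χ ^ 2 - 1) * (Finset.univ.filter (fun g : G => ‖χ g‖ = (Cfsg.charDegree χ : ℝ))).card ≤ (Finset.univ.filter (fun g : G => χ g = 0)).card ∧ ((∀ g : G, ‖χ g‖ = 0 ∨ ‖χ g‖ = 1 ∨ ‖χ g‖ = (Cfsg.charDegree χ : ℝ)) → (Cfsg.charDegree χ ^ 2 - 1) * (Finset.univ.filter (fun g : G => ‖χ g‖ = (Cfsg.charDegree χ : ℝ))).card = (Finset.univ.filter (fun g : G => χ g = 0)).card) := by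
  classical
  have hc := hχ.isCharacter
  set Z := Finset.univ.filter (fun g : G => ‖χ g‖ = (charDegree χ : ℝ)) with hZ
  set O := Finset.univ.filter (fun g : G => χ g = 0) with hO
  set S := Finset.univ.filter (fun g : G => χ g ≠ 0 ∧ ‖χ g‖ ≠ (charDegree χ : ℝ)) with hS
  have hpos := hχ.charDegree_pos
  have hsplit : ∀ F : G → ℝ, ∑ g, F g = ∑ g ∈ Z, F g + ∑ g ∈ O, F g + ∑ g ∈ S, F g := by
    intro F
    simp only [hZ, hO, hS, Finset.sum_filter, ← Finset.sum_add_distrib]
    refine Finset.sum_congr rfl fun g _ => ?_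
    by_cases h1 : χ g = 0
    · have : (0 : ℝ) ≠ charDegree χ := by positivity
      simp [h1, this]
    · by_cases h2 : ‖χ g‖ = (charDegree χ : ℝ) <;> simp [h1, h2]
  have h1 := hsplit fun _ => 1
  have h2 := hsplit fun g => ‖χ g‖ ^ 2
  rw [hχ.sum_norm_sq, Finset.sum_congr rfl fun g (hg : g ∈ Z) => by rw [(Finset.mem_filter.mp hg).2],
    Finset.sum_eq_zero (s := O) fun g hg => by rw [(Finset.mem_filter.mp hg).2]; simp] at h2
  simp only [Finset.sum_const, Finset.card_univ, nsmul_eq_mul, mul_one,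
    ← Nat.card_eq_fintype_card] at h1 h2
  have hcen : ∀ g, ‖χ g‖ = (charDegree χ : ℝ) ↔ g ∈ Ch.charCenter χ := fun g =>
    hc.mem_charCenter.symm
  have h3 := (hc.isGeneralizedCharacter.card_le_sum_norm_sq S (by
    intro g hg k hk
    have hk' : k.Coprime (orderOf g) := hk.coprime_dvd_right (orderOf_dvd_natCard g)
    simp only [hS, Finset.mem_filter, Finset.mem_univ, true_and, Ne, hcen] at hg ⊢
    refine ⟨fun h => hg.1 ((hc.isGeneralizedCharacter.apply_pow_eq_zero_iff hk').mp h),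
      fun h => hg.2 ?_⟩
    obtain ⟨m, hm⟩ := exists_pow_eq_self_of_coprime hk'
    exact hm ▸ Subgroup.pow_mem _ h m) fun g hg => (Finset.mem_filter.mp hg).2.1).1
  have hcast : (((charDegree χ ^ 2 - 1) * Z.card : ℕ) : ℝ) = (charDegree χ ^ 2 - 1) * Z.card := by
    rw [Nat.cast_mul, Nat.cast_sub (Nat.one_le_pow _ _ hpos)]; push_cast; ring
  refine ⟨?_, fun h => ?_⟩
  · rw [← Nat.cast_le (α := ℝ), hcast]
    linarith
  · rw [Finset.sum_congr rfl fun g (hg : g ∈ S) => show ‖χ g‖ ^ 2 = 1 by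
      obtain ⟨-, h4, h5⟩ := Finset.mem_filter.mp hg
      rcases h g with h | h | h
      · exact absurd (norm_eq_zero.mp h) h4
      · rw [h, one_pow]
      · exact absurd h h5] at h2
    simp only [Finset.sum_const, nsmul_eq_mul, mul_one] at h2
    rw [← Nat.cast_inj (R := ℝ), hcast]
    linarith

end Cfsg.Agent.S4574
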