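import Mathlib
import Cfsg.Statements.S4575
import Cfsg.Agent.Blk.SubBound

set_option autoImplicit false
open Cfsg

namespace Cfsg.Agent.S4575

/-- Let B be a 2-block of the finite group G (relative to a maximal ideal M of the algebraic integers containing 2) of defect d with defect group D. Let z be an element of D commuting with every element of D, and let b be a block of the centralizer of z with defect group D that induces B (a major subsection (z, b)). If the number of irreducible characters in B exceeds the 2-regular rank of b by at most three, then B contains at most 2 ^ d irreducible characters. -/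
theorem result {G : Type*} [Group G] [Finite G] (M : Ideal Cfsg.AlgInt) (hM : Cfsg.IsPModular 2 M) (B : Set (Cfsg.IrrCharacter G)) (hB : Cfsg.IsPBlock M B) (D : Subgroup G) (hD : Cfsg.IsDefectGroup 2 M B D) (z : G) (hzD : z ∈ D) (hzc : ∀ d ∈ D, d * z = z * d) (b : Set (Cfsg.IrrCharacter ↥(Subgroup.centralizer ({z} : Set G)))) (hb : Cfsg.IsInducedBlock M (Subgroup.centralizer ({z} : Set G)) b B) (hbD : Cfsg.IsDefectGroup 2 M b (D.subgroupOf (Subgroup.centralizer ({z} : Set G)))) (h : Nat.card B ≤ Cfsg.blockRank 2 b + 3) : Nat.card B ≤ 2 ^ Cfsg.blockDefect 2 B := by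
  classical
  have := hM.isMaximal
  have := Fintype.ofFinite G
  by_cases h0 : Cfsg.blockDefect 2 B = 0
  · obtain ⟨χ, hχ⟩ := hB.nonempty
    rw [h0, (hB.blockDefect_eq_zero_iff_singleton hM hχ).1 h0]
    simp
  have h1 := (Agent.Blk.isSub_centralizer hM (IsPGroup.iff_orderOf.1 hD.isPGroup ⟨z, hzD⟩ |>.imp
    fun k hk => by rwa [← Subgroup.orderOf_coe] at hk) hb).two_bound_of_corank
      (Agent.Blk.blockDefect_eq_of_subgroupOf hM hb.1 hB hD (fun d hd =>
        (Agent.Blk.mem_centralizer_singleton_iff' z d).2 (hzc d hd)) hbD) h0 h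
  refine Nat.le_of_mul_le_mul_left (le_trans ?_ h1) three_pos
  rw [Agent.Blk.natCard_eq_card_filter (· ∈ B), mul_comm, ← smul_eq_mul]
  refine Finset.card_nsmul_le_sum _ _ _ fun χ _ => ?_
  split_ifs with h3
  · rfl
  · have := Nat.pow_le_pow_right two_pos (Nat.one_le_iff_ne_zero.2 h3)
    omega

end Cfsg.Agent.S4575
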