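import Cfsg.Statements.S4580
import Cfsg.Agent.Blk.PB0
import Cfsg.Agent.Ch.Extension
-- import your own Cfsg.Agent.* helpers here

set_option autoImplicit false
open Cfsg

namespace Cfsg.Agent.S4580

/-- Let N be a normal subgroup of the finite group G, M a maximal ideal of the algebraic integers containing 2, and θ a real-valued irreducible character of N of odd degree that extends to G (some irreducible character of G restricts to θ). Then θ has an extension to G lying in the principal 2-block of G. -/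
theorem result {G : Type*} [Group G] [Finite G] (N : Subgroup G) [N.Normal] (M : Ideal Cfsg.AlgInt) (hM : Cfsg.IsPModular 2 M) (θ : Cfsg.IrrCharacter N) (hreal : ∀ n : N, ((θ : N → ℂ) n).im = 0) (hodd : Odd (Cfsg.charDegree (θ : N → ℂ))) (hext : ∃ η : Cfsg.IrrCharacter G, ∀ n : N, (η : G → ℂ) n = (θ : N → ℂ) n) :
    ∃ η : Cfsg.IrrCharacter G, (∀ n : N, (η : G → ℂ) n = (θ : N → ℂ) n) ∧ η ∈ Cfsg.principalBlock M G := by
  have := hM.isMaximal
  obtain ⟨η, hη⟩ := hext
  obtain ⟨lam, hlam, h⟩ := Ch.exists_hom_mul_of_extends θ.2 η.2.isCharacter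
    η.2.isCharacter.complexConj hη (fun n => by
      rw [hη]; exact Complex.conj_eq_iff_im.mpr (hreal n))
  obtain ⟨a, m, hm, hG⟩ := Nat.exists_eq_two_pow_mul_odd (Nat.card_pos (α := G)).ne'
  obtain ⟨j, hj⟩ := hm
  refine ⟨⟨_, η.2.monoidHom_mul (lam ^ (j + 1))⟩, fun n => by simp [hlam n n.2, hη], ?_⟩
  refine Blk.P0.mem_of_odd_degree hM ?_ (SameBlock.refl _) fun y hy => ?_
  · rw [Ch.charDegree_congr (ψ := (θ : N → ℂ)) (by simpa using hη 1)]
    exact fun h => (Nat.not_even_iff_odd.mpr hodd) (even_iff_two_dvd.mpr h)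
  · have h1 : orderOf y ∣ m := by
      have h2 : (orderOf y).Coprime (2 ^ a) :=
        ((Nat.Prime.coprime_iff_not_dvd Nat.prime_two).mpr hy).symm.pow_right a
      exact h2.dvd_of_dvd_mul_left (hG ▸ orderOf_dvd_natCard y)
    have h2 : lam y ^ (2 * j + 1) = 1 := by
      rw [← map_pow, ← hj, orderOf_dvd_iff_pow_eq_one.mp h1, map_one]
    have h3 : lam y ^ (j + 1) = (lam y ^ (j + 1))⁻¹ * lam y := by
      rw [eq_inv_mul_iff_mul_eq, ← pow_add, show j + 1 + (j + 1) = 2 * j + 1 + 1 by ring, pow_succ,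
        h2, one_mul]
    simp only [MonoidHom.pow_apply, map_inv, inv_pow]
    rw [η.2.isCharacter.apply_inv, congrFun h y, ← mul_assoc, ← Units.val_mul, ← h3]

end Cfsg.Agent.S4580
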