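import Cfsg.Statements.S4582
import Cfsg.Agent.GT.TransferEval
-- import your own Cfsg.Agent.* helpers here

set_option autoImplicit false
open Cfsg

namespace Cfsg.Agent.S4582

theorem core {G : Type*} [Group G] [Finite G] (N : Subgroup G) [hN : N.Normal] {P : Subgroup G}
    (hP2 : IsPGroup 2 P) (hidx : ¬ 2 ∣ P.index) (hsup : N ⊔ P = ⊤)
    (hP : ∀ x ∈ P, x ^ 2 ∈ N ⊔ ⁅P, P⁆) (hQ : ∀ x ∈ P, x ∈ N → x ^ 2 ∈ ⁅P, P⁆)
    (hodd : Odd (Nat.card (Abelianization N))) : ∀ x ∈ P, x ^ 2 ∈ ⁅P, P⁆ := by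
  classical
  intro x hx
  let φ : P →* Abelianization P := Abelianization.of
  have hA : IsPGroup 2 (Abelianization P) := hP2.of_surjective φ QuotientGroup.mk_surjective
  have hA' : ∀ (a : Abelianization P) (m : ℕ), ¬ 2 ∣ m → a ^ m = 1 → a = 1 := by
    intro a m hm ha
    obtain ⟨k, hk⟩ := hA a
    exact (pow_eq_one_iff_of_coprime (Nat.Coprime.pow_right k
      ((Nat.Prime.coprime_iff_not_dvd Nat.prime_two).mpr hm).symm)).mp ⟨ha, hk⟩
  have hφ : ∀ y : P, φ y = 1 ↔ (y : G) ∈ ⁅P, P⁆ := fun y => by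
    rw [← Subgroup.map_subtype_commutator, ← MonoidHom.mem_ker, Abelianization.ker_of]
    exact (Subgroup.mem_map_iff_mem P.subtype_injective).symm
  have h1 : ∀ g, (φ ^ 2).transfer g = φ.transfer g ^ 2 := fun g => by
    have := Fintype.ofFinite (Quotient (MulAction.orbitRel (Subgroup.zpowers g) (G ⧸ P)))
    simp only [MonoidHom.transfer_eq_prod_quotient_orbitRel_zpowers_quot, MonoidHom.pow_apply,
      Finset.prod_pow]
  have h2 : N ⊔ ⁅P, P⁆ ≤ φ.transfer.ker := by
    refine sup_le (fun n hn => hA' _ _ (Nat.two_dvd_ne_zero.mpr (Nat.odd_iff.mp hodd)) ?_)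
      ((Subgroup.commutator_mono le_top le_top).trans (Abelianization.commutator_subset_ker _))
    have := congrArg (Abelianization.lift (φ.transfer.comp N.subtype))
      (pow_card_eq_one' (x := Abelianization.of (⟨n, hn⟩ : N)))
    rwa [map_pow, map_one] at this
  have h3 : ∀ y : P, (y : G) ∈ N → (φ ^ 2) y = 1 := fun y hy => by
    rw [MonoidHom.pow_apply, ← map_pow, hφ]
    exact hQ y y.2 hy
  have h4 := GT.Tr.transfer_eq_pow_of_conj (φ ^ 2) ⟨x, hx⟩ (by
    intro k t hk
    obtain ⟨n, hn, u, hu, rfl⟩ := Subgroup.mem_sup_of_normal_left.mp (hsup ▸ Subgroup.mem_top t)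
    have h5 := h3 ((⟨x, hx⟩ ^ k)⁻¹ * (⟨u, hu⟩ * ⟨_, hk⟩ * ⟨u, hu⟩⁻¹)) (by
      have := N.mul_mem (hN.conj_mem _ (N.inv_mem hn) (x ^ k)⁻¹) hn
      convert this using 1
      simp only [Subgroup.coe_mul, InvMemClass.coe_inv, SubmonoidClass.coe_pow]
      group)
    rw [map_mul, map_inv, inv_mul_eq_one, map_mul, map_mul, map_inv, mul_inv_cancel_comm,
      map_pow] at h5
    exact h5.symm)
  rw [h1, ← map_pow, h2 (hP x hx)] at h4
  have h5 := hA' _ _ hidx h4.symm
  rwa [MonoidHom.pow_apply, ← map_pow, hφ] at h5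


/-- Let N be a normal subgroup of the finite group G, P a Sylow 2-subgroup of G and Q = P ∩ N. Suppose that P/QP' and Q/Q' are elementary abelian (every square of an element of P lies in the subgroup generated by Q and the derived subgroup of P, and every square of an element of Q lies in the derived subgroup of Q), and that the commutator factor group N/N' has odd order. Then P/P' is elementary abelian. -/
theorem result {G : Type*} [Group G] [Finite G] (N : Subgroup G) [N.Normal] (P : Sylow 2 G)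
    (hP : ∀ x ∈ (P : Subgroup G), x ^ 2 ∈ ((P : Subgroup G) ⊓ N) ⊔ ⁅(P : Subgroup G), (P : Subgroup G)⁆)
    (hQ : ∀ x ∈ (P : Subgroup G) ⊓ N, x ^ 2 ∈ ⁅(P : Subgroup G) ⊓ N, (P : Subgroup G) ⊓ N⁆)
    (hodd : Odd (Nat.card (Abelianization N))) :
    ∀ x ∈ (P : Subgroup G), x ^ 2 ∈ ⁅(P : Subgroup G), (P : Subgroup G)⁆ := by
  intro x hx
  set H := N ⊔ (P : Subgroup G) with hH
  have hPH : (P : Subgroup G) ≤ H := le_sup_right
  have hmap : ∀ y : H, (y : G) ∈ ⁅(P : Subgroup G), (P : Subgroup G)⁆ ↔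
      y ∈ ⁅(P : Subgroup G).subgroupOf H, (P : Subgroup G).subgroupOf H⁆ := by
    intro y
    rw [← Subgroup.mem_map_iff_mem H.subtype_injective, Subgroup.map_commutator,
      Subgroup.map_subgroupOf_eq_of_le hPH]
    rfl
  refine (hmap (⟨x, hPH hx⟩ ^ 2)).mpr (core (N.subgroupOf H)
    (P := (P : Subgroup G).subgroupOf H) (P.isPGroup'.comap_of_injective _
    H.subtype_injective) (fun h => P.not_dvd_index (h.trans
      (Subgroup.relIndex_dvd_index_of_le hPH))) ?_ (fun y hy => ?_) (fun y hy hy' => ?_) ?_ _ hx)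
  · rw [← Subgroup.subgroupOf_sup le_sup_left le_sup_right, Subgroup.subgroupOf_self]
  · rw [← Subgroup.mem_map_iff_mem H.subtype_injective, Subgroup.map_sup, Subgroup.map_commutator,
      Subgroup.map_subgroupOf_eq_of_le hPH, Subgroup.map_subgroupOf_eq_of_le le_sup_left]
    exact (sup_le_sup_right inf_le_right _ : (P : Subgroup G) ⊓ N ⊔ _ ≤ N ⊔ _) (hP y hy)
  · exact (hmap _).mp (Subgroup.commutator_mono inf_le_left inf_le_left (hQ y ⟨hy, hy'⟩))
  · rwa [Nat.card_congr (Subgroup.subgroupOfEquivOfLe (le_sup_left : N ≤ H)).abelianizationCongr.toEquiv]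

end Cfsg.Agent.S4582
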