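import Cfsg.Statements.S4583
import Cfsg.Agent.Blk.AlperinDade
import Cfsg.Agent.Blk.ModBrauer
import Cfsg.Agent.Ch.Extension
-- import your own Cfsg.Agent.* helpers here

set_option autoImplicit false
open Cfsg

namespace Cfsg.Agent.S4583

/-- `P C_G(P) ≤ L`, `p ∤ |G : L|`: a `p'`-degree member of `B₀(L)` lies under a `p'`-degree member
of `B₀(G)`. -/
theorem exists_over {G : Type*} [Group G] [Finite G] {p : ℕ} [hp : Fact p.Prime] {M : Ideal AlgInt}
    (hM : IsPModular p M) {P L : Subgroup G} [Fintype L] (hP : IsPGroup p P) (hPL : P ≤ L)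
    (hCL : Subgroup.centralizer (P : Set G) ≤ L) (hL : ¬ p ∣ L.index) {ζ : IrrCharacter L}
    (hζ : ζ ∈ principalBlock M L) (hd : ¬ p ∣ charDegree (ζ : L → ℂ)) :
    ∃ χ : IrrCharacter G, χ ∈ principalBlock M G ∧ ¬ p ∣ charDegree (χ : G → ℂ) ∧
      classInner (fun n : L => (χ : G → ℂ) n) ζ ≠ 0 := by
  classical
  have := hM.isMaximal
  have := hM.charP
  have := Fintype.ofFinite G
  set E := Blk.setIdem (principalBlock M G) with hE
  have hEc : E ∈ Blk.Ctr ℂ G := Blk.setIdem_mem_ctr _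
  have hEl : E ∈ Blk.locAlg M G := (Blk.PB.isPBlock hM).setIdem_mem
  have hz := Blk.restrictTo_mem_ctr L hEc
  have hl := Blk.restrictTo_mem_locAlg L hEl
  have hone : ∀ g, (Ch.irrOne G : G → ℂ) g = 1 := fun _ => rfl
  have h1 : ∑ g, Blk.red M (E.coeff g) = 1 := by
    have := Blk.omega_setIdem_of_mem (Blk.PB.mem_pb.mp (Blk.PB.one_mem_pb (G := G) hM))
    rw [Blk.omega_apply] at this
    simp only [hone, mul_one, div_one] at this
    rw [← Blk.red_sum fun g _ => Blk.mem_locAlg.mp hEl g, this, Blk.red_one]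
  have h2 : ∑ h : L, Blk.red M (E.coeff h) = 1 := by
    rw [← h1, Blk.Mod.sum_eq_sum_centralizer hP (fun g => Blk.red M (E.coeff g))
      (fun x => by simp) (fun u _ x => by rw [Blk.mem_ctr_iff.mp hEc]),
      ← Finset.sum_subtype (Finset.univ.filter (· ∈ L)) (by simp) fun g => Blk.red M (E.coeff g),
      Finset.sum_filter, Blk.Mod.sum_eq_sum_centralizer hP _ (fun x => by simp) (fun u hu x => by
        rw [Blk.mem_ctr_iff.mp hEc]
        simp only [L.mul_mem_cancel_right (L.inv_mem (hPL hu)), L.mul_mem_cancel_left (hPL hu)])]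
    exact Finset.sum_congr rfl fun x hx => if_pos (hCL (Finset.mem_filter.mp hx).2)
  have h3 : Blk.red M (Blk.omega ζ (Blk.restrictTo L E)) = 1 := by
    have h1 := SameBlock.omega_sub hζ (Ch.irrOne L).2.isCharacter.isClassFunction
      ζ.2.isCharacter.isClassFunction hz hl
    rw [Blk.red_eq_of_sub_mem (Blk.omega_mem (Ch.irrOne L) hz hl) h1.symm, ← h2,
      ← Blk.red_sum fun g _ => Blk.mem_locAlg.mp hEl _, Blk.omega_apply]
    have hone : ∀ g, (Ch.irrOne L : L → ℂ) g = 1 := fun _ => rfl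
    simp only [hone, mul_one, div_one, Blk.coeff_restrictTo]
  choose a ha using fun χ : IrrCharacter G =>
    ζ.2.isCharacter.exists_nat_classInner (χ.2.isCharacter.restrict L)
  have h4 : ((∑ χ ∈ Blk.PB.pb M G, charDegree (χ : G → ℂ) * a χ : ℕ) : ℂ) =
      (L.index * charDegree (ζ : L → ℂ) : ℕ) * Blk.omega ζ (Blk.restrictTo L E) := by
    rw [Nat.cast_mul, mul_assoc, ζ.2.coe_charDegree, ← Blk.charLin_eq_mul_omega, Blk.charLin_apply]
    simp only [Blk.coeff_restrictTo, hE, Blk.coeff_setIdem, Blk.blockCoeff_eq_sum, mul_assoc,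
      ← Finset.mul_sum, Finset.sum_mul]
    rw [Finset.sum_comm, ← mul_assoc, Finset.mul_sum]
    push_cast
    refine Finset.sum_congr (by ext; simp [Blk.PB.mem_pb]) fun χ _ => ?_
    rw [← ha, χ.2.coe_charDegree, classInner, ← Finset.mul_sum, ← L.card_mul_index]
    have : (Nat.card L : ℂ) ≠ 0 := Nat.cast_ne_zero.mpr Nat.card_pos.ne'
    have : (L.index : ℂ) ≠ 0 := Nat.cast_ne_zero.mpr Subgroup.index_ne_zero_of_finite
    push_cast
    simp only [mul_comm ((ζ : L → ℂ) _)]
    field_simp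
  have h5 := congrArg (Blk.red M) h4
  rw [Blk.red_mul (MemLocalRing.natCast _) (Blk.omega_mem ζ hz hl), h3, mul_one, Blk.red_natCast,
    Blk.red_natCast] at h5
  by_contra hne
  push Not at hne
  have h6 : p ∣ ∑ χ ∈ Blk.PB.pb M G, charDegree (χ : G → ℂ) * a χ := by
    refine Finset.dvd_sum fun χ hχ => ?_
    by_cases h : p ∣ charDegree (χ : G → ℂ)
    · exact h.mul_right _
    · have := hne χ (Blk.PB.mem_pb.mp hχ) h
      rw [(χ.2.isCharacter.restrict L).classInner_comm ζ.2.isCharacter, ha, Nat.cast_eq_zero] at this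
      simp [this]
  rw [← hM.natCast_res_eq_zero_iff, h5, hM.natCast_res_eq_zero_iff] at h6
  exact (hp.out.dvd_mul.mp h6).elim hL hd


/-- Let N be a normal subgroup of the finite group G, p a prime, M a maximal ideal of the algebraic integers containing p, and P a Sylow p-subgroup of G. Let θ be an irreducible character of N of degree prime to p lying in the principal p-block of N, and suppose θ extends to the subgroup NP (some irreducible character of NP restricts to θ). Then some irreducible character χ of G of degree prime to p in the principal p-block of G lies over θ (θ is a constituent of the restriction of χ to N). -/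
theorem result {G : Type*} [Group G] [Finite G] (N : Subgroup G) [N.Normal] (p : ℕ) [Fact p.Prime] (M : Ideal Cfsg.AlgInt) (hM : Cfsg.IsPModular p M) (P : Sylow p G)
    (θ : Cfsg.IrrCharacter N) (hθ : θ ∈ Cfsg.principalBlock M N) (hdeg : ¬ p ∣ Cfsg.charDegree (θ : N → ℂ))
    (hext : ∃ η : Cfsg.IrrCharacter ↥(N ⊔ (P : Subgroup G)), ∀ n : N, (η : ↥(N ⊔ (P : Subgroup G)) → ℂ) (Subgroup.inclusion le_sup_left n) = (θ : N → ℂ) n) :
    ∃ χ : Cfsg.IrrCharacter G, χ ∈ Cfsg.principalBlock M G ∧ ¬ p ∣ Cfsg.charDegree (χ : G → ℂ) ∧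
      haveI := Fintype.ofFinite N; Cfsg.classInner (fun n : N => (χ : G → ℂ) n) (θ : N → ℂ) ≠ 0 := by
  classical
  have := Fintype.ofFinite G
  have hp : p.Prime := Fact.out
  set H := N ⊔ (P : Subgroup G) with hH
  obtain ⟨η, hη⟩ : ∃ η : IrrCharacter H, ∀ n : N,
    (η : H → ℂ) (Subgroup.inclusion le_sup_left n) = (θ : N → ℂ) n := hext
  set C := Subgroup.centralizer ((P : Subgroup G) : Set G) with hC
  have hηB : η ∈ principalBlock M H := by
    let θ' : IrrCharacter (N.subgroupOf H) := ⟨_, Ch.isIrrCharacter_subgroupOf le_sup_left θ.2⟩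
    refine (Blk.P0.mem_iff_of_extends hM (N := N.subgroupOf H) ?_ (θ := θ')
      fun n => hη ⟨n, n.2⟩).mpr ?_
    · obtain ⟨a, ha⟩ := P.isPGroup'.exists_card_eq
      have h1 : (N.subgroupOf H).index ∣ p ^ a := by
        rw [← Subgroup.relIndex, Subgroup.relIndex_sup_left, ← ha]
        exact Subgroup.relIndex_dvd_card _ _
      obtain ⟨i, -, hi⟩ := (Nat.dvd_prime_pow hp).mp h1
      exact ⟨i, hi⟩
    · exact (Blk.P0.mem_iff_of_mulEquiv hM (Subgroup.subgroupOfEquivOfLe (le_sup_left : N ≤ H))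
        fun _ => rfl).mpr hθ
  have hHn : (H.subgroupOf (H ⊔ C)).Normal := by
    rw [Subgroup.normal_subgroupOf_iff_le_normalizer le_sup_left]
    refine sup_le Subgroup.le_normalizer (le_trans ?_ (Subgroup.normalizer_inf_normalizer_le_normalizer_sup _ _))
    exact le_inf (by rw [Subgroup.normalizer_eq_top (H := N)]; exact le_top)
      (Subgroup.centralizer_le_normalizer _)
  have hPL : (P : Subgroup G) ≤ H ⊔ C := le_sup_right.trans le_sup_left
  have hPi : ¬ p ∣ ((P : Subgroup G).subgroupOf (H ⊔ C)).index := fun h =>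
    P.not_dvd_index (h.trans (Subgroup.relIndex_dvd_index_of_le hPL))
  have hPH : (P : Subgroup G).subgroupOf (H ⊔ C) ≤ H.subgroupOf (H ⊔ C) :=
    Subgroup.subgroupOf_mono _ le_sup_right
  let η' : IrrCharacter (H.subgroupOf (H ⊔ C)) := ⟨_, Ch.isIrrCharacter_subgroupOf le_sup_left η.2⟩
  obtain ⟨ζ, hζ, hζe, -⟩ := Blk.AD.exists_extends hM (N := H.subgroupOf (H ⊔ C))
    (fun h => hPi (h.trans (Subgroup.index_dvd_of_le hPH))) hPi hPH (by
      rw [eq_top_iff, ← Subgroup.subgroupOf_self (H ⊔ C),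
        Subgroup.subgroupOf_sup le_sup_left le_sup_right]
      refine sup_le_sup_left (fun x hx => Subgroup.mem_centralizer_iff.mpr fun y hy => ?_) _
      exact Subtype.ext (Subgroup.mem_centralizer_iff.mp hx y hy)) (θ := η')
    ((Blk.P0.mem_iff_of_mulEquiv hM (Subgroup.subgroupOfEquivOfLe (le_sup_left : H ≤ H ⊔ C))
        fun _ => rfl).mpr hηB)
  have hNL : N ≤ H ⊔ C := le_sup_left.trans le_sup_left
  have hζθ : ∀ n : N, (ζ : ↥(H ⊔ C) → ℂ) ⟨n, hNL n.2⟩ = (θ : N → ℂ) n := fun n =>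
    (hζe ⟨⟨n, hNL n.2⟩, Subgroup.mem_sup_left n.2⟩).trans (hη n)
  obtain ⟨χ, h1, h2, h3⟩ := exists_over hM P.isPGroup' hPL le_sup_right
    (fun h => P.not_dvd_index (h.trans (Subgroup.index_dvd_of_le hPL))) hζ
    (by rwa [Ch.charDegree_congr (ψ := (θ : N → ℂ)) (hζθ 1)])
  refine ⟨χ, h1, h2, ?_⟩
  let := Fintype.ofFinite N
  refine Ch.classInner_res_ne_zero_trans hNL χ.2.isCharacter ζ.2 θ.2.isCharacter h3 ?_
  rw [show (fun n : N => (ζ : ↥(H ⊔ C) → ℂ) ⟨n, hNL n.2⟩) = θ from funext hζθ, θ.2.classInner_self]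
  exact one_ne_zero

end Cfsg.Agent.S4583
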