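import Mathlib
import Cfsg.Statements.S4585
import Cfsg.Agent.S4584

set_option autoImplicit false
open Cfsg

namespace Cfsg.Agent.S4585

/-- Let p be a prime and P a group of order p^4. Then P' has index p^2 in P if and only if P has maximal nilpotency class, that is, nilpotency class exactly 3. -/
theorem result {P : Type*} [Group P] [Finite P] (p : ℕ) [Fact p.Prime] (hP : Nat.card P = p ^ 4) :
    (commutator P).index = p ^ 2 ↔ Group.nilpotencyClass P = 3 := by
  have hp : p.Prime := Fact.out
  have hPg : IsPGroup p P := IsPGroup.of_card hP
  have hnil : Group.IsNilpotent P := hPg.isNilpotent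
  have hp1 := hp.one_lt
  obtain ⟨k, hk, hZ, hZi⟩ := S4584.card_eq_pow hP (Subgroup.center P)
  obtain ⟨j, hj, hD, hDi⟩ := S4584.card_eq_pow hP (commutator P)
  have cls2 : Group.nilpotencyClass P ≤ 2 ↔ commutator P ≤ Subgroup.center P := by
    rw [← Subgroup.lowerCentralSeries_eq_bot_iff_nilpotencyClass_le,
      Subgroup.lowerCentralSeries_succ, Subgroup.top_lowerCentralSeries_one,
      Subgroup.commutator_eq_bot_iff_le_centralizer, Subgroup.coe_top, Subgroup.centralizer_univ]
  have hcyc : ∀ K : Subgroup P, ∀ [K.Normal], K ≤ Subgroup.center P → K.index ∣ p →
      commutator P = ⊥ := by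
    intro K _ hK hi
    have : IsCyclic (P ⧸ K) := isCyclic_of_card_dvd_prime (p := p) hi
    rw [commutator_eq_bot_iff_center_eq_top, Subgroup.eq_top_iff']
    intro x
    rw [Subgroup.mem_center_iff]
    intro g
    exact commutative_of_cyclic_center_quotient (QuotientGroup.mk' K) (by simpa using hK) g x
  constructor
  · intro h
    have hj2 : j = 2 := by
      rw [hDi] at h
      have := Nat.pow_right_injective hp.two_le h
      omega
    subst hj2
    apply le_antisymm
    · rw [← Subgroup.lowerCentralSeries_eq_bot_iff_nilpotencyClass_le,
        Subgroup.lowerCentralSeries_succ, Subgroup.commutator_eq_bot_iff_le_centralizer,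
        Subgroup.coe_top, Subgroup.centralizer_univ]
      set L := (⊤ : Subgroup P).lowerCentralSeries 2 with hL
      have hLD : L ≤ commutator P := by
        rw [← Subgroup.top_lowerCentralSeries_one]
        exact Subgroup.lowerCentralSeries_antitone _ (by norm_num)
      have hne : L ≠ commutator P := by
        intro e
        have hall : ∀ n, (⊤ : Subgroup P).lowerCentralSeries (n + 1) = commutator P := by
          intro n
          induction n with
          | zero => exact Subgroup.top_lowerCentralSeries_one
          | succ n ih =>
            rw [Subgroup.lowerCentralSeries_succ, ih, ← Subgroup.top_lowerCentralSeries_one,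
              ← Subgroup.lowerCentralSeries_succ, ← hL, e, Subgroup.top_lowerCentralSeries_one]
        have h1 := hall (Group.nilpotencyClass P)
        rw [Subgroup.lowerCentralSeries_eq_bot_iff_nilpotencyClass_le.mpr (Nat.le_succ _)] at h1
        rw [← h1, Subgroup.card_bot] at hD
        exact (Nat.one_lt_pow two_ne_zero hp1).ne hD
      obtain ⟨i, hi, hLc, -⟩ := S4584.card_eq_pow hP L
      have hlt := S4584.card_lt_of_lt (lt_of_le_of_ne hLD hne)
      rw [hLc, hD] at hlt
      have hi2 := (Nat.pow_lt_pow_iff_right hp1).mp hlt
      interval_cases i
      · rw [Subgroup.card_eq_one.mp (by simpa using hLc : Nat.card L = 1)]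
        exact bot_le
      · exact S4584.le_center_of_card_prime hPg L (by simpa using hLc)
    · by_contra hc
      have hle := cls2.mp (by omega)
      have h1 := Subgroup.card_le_of_le hle
      rw [hD, hZ] at h1
      have hk2 := (Nat.pow_le_pow_iff_right hp1).mp h1
      by_cases hk3 : k = 2
      · subst hk3
        have := (S4584.result p hP).mpr hZi
        rw [hD] at this
        have := Nat.pow_right_injective hp.two_le (this.trans (pow_one p).symm)
        omega
      · have := hcyc (Subgroup.center P) le_rfl (by
          rw [hZi]
          calc p ^ (4 - k) ∣ p ^ 1 := pow_dvd_pow _ (by omega)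
            _ = p := pow_one p)
        rw [this, Subgroup.card_bot] at hD
        exact (Nat.one_lt_pow two_ne_zero hp1).ne hD
  · intro h
    have hnle : ¬ commutator P ≤ Subgroup.center P := fun e => by
      have := cls2.mpr e
      omega
    have hj0 : j ≠ 0 := by
      rintro rfl
      apply hnle
      rw [Subgroup.card_eq_one.mp (by simpa using hD : Nat.card (commutator P) = 1)]
      exact bot_le
    have hj1 : j ≠ 1 := by
      rintro rfl
      exact hnle (S4584.le_center_of_card_prime hPg _ (by simpa using hD))
    have hj3 : j ≤ 2 := by
      by_contra hc
      -- `P / P'` is cyclic, hence so is `P / [P', P]` modulo its centre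
      set L : Subgroup P := ⁅commutator P, ⊤⁆ with hL
      have hQ : IsCyclic (P ⧸ commutator P) := by
        apply isCyclic_of_card_dvd_prime (p := p)
        rw [← Subgroup.index_eq_card, hDi]
        calc p ^ (4 - j) ∣ p ^ 1 := pow_dvd_pow _ (by omega)
          _ = p := pow_one p
      have hLD : L ≤ commutator P := Subgroup.commutator_le_left _ _
      let f : P ⧸ L →* P ⧸ commutator P := QuotientGroup.map L (commutator P) (MonoidHom.id P) hLD
      have hcomm : ∀ a b : P ⧸ L, a * b = b * a := by
        refine commutative_of_cyclic_center_quotient f ?_
        intro a ha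
        obtain ⟨a, rfl⟩ := QuotientGroup.mk_surjective a
        have ha' : a ∈ commutator P := (QuotientGroup.eq_one_iff a).mp ha
        rw [Subgroup.mem_center_iff]
        intro g
        obtain ⟨g, rfl⟩ := QuotientGroup.mk_surjective g
        rw [← QuotientGroup.mk_mul, ← QuotientGroup.mk_mul, QuotientGroup.eq]
        have := Subgroup.commutator_mem_commutator ((commutator P).inv_mem ha')
          (Subgroup.mem_top g⁻¹)
        simpa [commutatorElement_def, mul_assoc] using this
      have hDL : commutator P ≤ L := by
        rw [commutator_def, Subgroup.commutator_le]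
        intro a _ b _
        rw [← QuotientGroup.eq_one_iff]
        change QuotientGroup.mk' L _ = 1
        rw [map_commutatorElement, commutatorElement_eq_one_iff_mul_comm]
        exact hcomm _ _
      have e : L = commutator P := le_antisymm hLD hDL
      have hall : ∀ n, (⊤ : Subgroup P).lowerCentralSeries (n + 1) = commutator P := by
        intro n
        induction n with
        | zero => exact Subgroup.top_lowerCentralSeries_one
        | succ n ih => rw [Subgroup.lowerCentralSeries_succ, ih, ← hL, e]
      have h1 := hall (Group.nilpotencyClass P)
      rw [Subgroup.lowerCentralSeries_eq_bot_iff_nilpotencyClass_le.mpr (Nat.le_succ _)] at h1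
      apply hnle
      rw [← h1]
      exact bot_le
    rw [hDi]
    congr 1
    omega

end Cfsg.Agent.S4585
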