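import Cfsg.Statements.S4588
import Cfsg.Agent.Blk.CycQuot
import Cfsg.Agent.Blk.PB0
import Cfsg.Agent.GT.TransferFrobenius
-- import your own Cfsg.Agent.* helpers here

set_option autoImplicit false
open Cfsg

namespace Cfsg.Agent.S4588

open Cfsg.Agent.Ch Cfsg.Agent.Blk Cfsg.Agent.Blk.PB

theorem le_factorization {G : Type*} [Group G] [Finite G] {p : ℕ} [hp : Fact p.Prime] {x : G}
    {k : ℕ} (hk : orderOf x = p ^ k) :
    k ≤ (Nat.card (Subgroup.centralizer ({x} : Set G))).factorization p := by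
  rw [← hp.out.pow_dvd_iff_le_factorization Nat.card_pos.ne', ← hk]
  exact Subgroup.orderOf_dvd_natCard _ (Subgroup.mem_centralizer_singleton_iff.2 rfl)

open Classical in
theorem card_le_of_eq {G : Type*} [Group G] [Finite G] {p : ℕ} [hp : Fact p.Prime]
    {M : Ideal AlgInt} (hM : IsPModular p M) {x : G} {k : ℕ} (hk : orderOf x = p ^ k)
    (hc : (Nat.card (Subgroup.centralizer ({x} : Set G))).factorization p = k) (h2 : k ≤ 2) :
    ((pb M G).filter fun χ : IrrCharacter G => (χ : G → ℂ) x ≠ 0).card ≤ p ^ 2 := by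
  set C := Subgroup.centralizer ({x} : Set G) with hCdef
  have hC : ∀ g, g ∈ C ↔ g * x = x * g := fun g => Subgroup.mem_centralizer_singleton_iff
  set z : C := ⟨x, (hC x).2 rfl⟩ with hzdef
  have hz : z ∈ Subgroup.center C :=
    Subgroup.mem_center_iff.2 fun g => Subtype.ext ((hC g).1 g.2)
  have hoz : orderOf z = p ^ k := by rw [← Subgroup.orderOf_coe]; exact hk
  have hnc : HasNormalPComplement p C :=
    GT.Tr.hasNormalPComplement_of_sylow_le_center
      (Sylow.ofCard (Subgroup.zpowers z) (by rw [Nat.card_zpowers, hoz, hc]))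
      ((Subgroup.zpowers_le).2 hz)
  have h1 := sum_mul_inv_of_nc hM ⟨k, hk⟩ hC hnc
  rw [hc] at h1
  have h3 : ∑ χ ∈ pb M G, ‖(χ : G → ℂ) x‖ ^ 2 = (p ^ k : ℕ) := by
    simp only [fun χ : IrrCharacter G => χ.2.isCharacter.apply_inv x, Complex.mul_conj'] at h1
    exact_mod_cast h1
  have h4 := (galois_card_le_sum_irr_norm_sq
    ((pb M G).filter fun χ : IrrCharacter G => (χ : G → ℂ) x ≠ 0) (fun χ hχ σ => by
      obtain ⟨h1, h2⟩ := Finset.mem_filter.1 hχ
      refine Finset.mem_filter.2 ⟨mem_pb.2 ((P0.mem_iff_of_galois hM (σ : ℂ →+* ℂ)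
        (ψ := galoisIrr G σ χ) fun _ => rfl).2 (mem_pb.1 h1)), ?_⟩
      rw [coe_galoisIrr]
      simpa using h2) x fun χ hχ => (Finset.mem_filter.1 hχ).2).1
  have h5 := h4.trans ((Finset.sum_le_sum_of_subset_of_nonneg (Finset.filter_subset _ _)
    fun _ _ _ => by positivity).trans h3.le)
  exact (Nat.cast_le.1 h5).trans (Nat.pow_le_pow_right hp.out.pos h2)


/-- Let G be a finite group, p a prime and M a maximal ideal of the algebraic integers containing p. If some p-element x of G (possibly x = 1) has centralizer whose order has p-part at most p², then the principal p-block of G contains at most p² irreducible characters of degree prime to p. -/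
theorem result {G : Type*} [Group G] [Finite G] (p : ℕ) [Fact p.Prime] (M : Ideal Cfsg.AlgInt) (hM : Cfsg.IsPModular p M)
    (hx : ∃ x : G, (∃ k : ℕ, orderOf x = p ^ k) ∧ (Nat.card (Subgroup.centralizer ({x} : Set G))).factorization p ≤ 2) :
    Nat.card {χ : Cfsg.IrrCharacter G // χ ∈ Cfsg.principalBlock M G ∧ ¬ p ∣ Cfsg.charDegree (χ : G → ℂ)} ≤ p ^ 2 := by
  classical
  have hp : p.Prime := Fact.out
  have key : ∀ x : G, (∃ k : ℕ, orderOf x = p ^ k) →
      ((pb M G).filter fun χ : IrrCharacter G => (χ : G → ℂ) x ≠ 0).card ≤ p ^ 2 →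
      Nat.card {χ : IrrCharacter G // χ ∈ principalBlock M G ∧ ¬ p ∣ charDegree (χ : G → ℂ)} ≤
        p ^ 2 := fun x ⟨k, hk⟩ h => by
    refine le_trans ?_ h
    rw [Nat.card_eq_fintype_card, Fintype.card_subtype]
    refine Finset.card_le_card fun χ hχ => ?_
    obtain ⟨h1, h2⟩ := (Finset.mem_filter.1 hχ).2
    exact Finset.mem_filter.2 ⟨mem_pb.2 h1, χ.2.isCharacter.apply_ne_zero_of_not_dvd hp
      (a := k) (by rw [← hk, pow_orderOf_eq_one]) h2⟩
  have key1 : ∀ x : G, orderOf x = p →
      (Nat.card (Subgroup.centralizer ({x} : Set G))).factorization p ≤ 2 →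
      ((pb M G).filter fun χ : IrrCharacter G => (χ : G → ℂ) x ≠ 0).card ≤ p ^ 2 :=
    fun x hx hc => by
      rcases hc.eq_or_lt with h | h
      · exact Blk.CyQ.card_le_of_orderOf hM hx h
      · have := le_factorization (k := 1) (by rw [hx, pow_one])
        exact card_le_of_eq hM (k := 1) (by rw [hx, pow_one]) (by omega) one_le_two
  obtain ⟨x, ⟨k, hk⟩, hc⟩ := hx
  have hle := le_factorization hk
  rcases hle.eq_or_lt with h | h
  · exact key x ⟨k, hk⟩ (card_le_of_eq hM hk h.symm (by omega))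
  · rcases k with _ | _ | k
    · have hx1 : x = 1 := orderOf_eq_one_iff.1 hk
      have hC : Subgroup.centralizer ({x} : Set G) = ⊤ :=
        eq_top_iff.2 fun g _ => Subgroup.mem_centralizer_singleton_iff.2 (by simp [hx1])
      rw [hC, Subgroup.card_top] at hc h
      obtain ⟨y, hy⟩ := exists_prime_orderOf_dvd_card' (G := G) p
        ((hp.dvd_iff_one_le_factorization Nat.card_pos.ne').2 h)
      refine key y ⟨1, by rw [hy, pow_one]⟩ (key1 y hy (le_trans ?_ hc))
      exact (Nat.factorization_le_iff_dvd Nat.card_pos.ne' Nat.card_pos.ne').2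
        (Subgroup.card_subgroup_dvd_card _) p
    · exact key x ⟨_, hk⟩ (key1 x (by simpa using hk) hc)
    · omega

end Cfsg.Agent.S4588
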