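import Mathlib
import Cfsg.Statements.S4602
import Cfsg.Agent.GT.PSolvable
import Cfsg.Agent.GT.HallTools
import Cfsg.Agent.FG.SylowNormal

set_option autoImplicit false
open Cfsg Cfsg.Agent.GT

namespace Cfsg.Agent.S4602

theorem inf_eq_bot_of_ne {G : Type*} [Group G] [Finite G] {p q : ℕ} [Fact p.Prime] [Fact q.Prime]
    (hpq : p ≠ q) {A B : Subgroup G} (hA : IsPGroup p A) (hB : IsPGroup q B) : A ⊓ B = ⊥ :=
  disjoint_iff.mp (IsPGroup.disjoint_of_ne p q hpq A B hA hB)

/-- Let G be a finite p-solvable group and q a prime different from p. Some Sylow p-subgroup of G normalizes some Sylow q-subgroup of G if and only if q does not divide the order of G/O_{p'}(G), the quotient by the largest normal subgroup of order prime to p. -/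
theorem result {G : Type*} [Group G] [Finite G] (p q : ℕ) [Fact p.Prime] [Fact q.Prime] (hpq : p ≠ q) (hsolv : Cfsg.IsPSolvable p G) :
    (∃ (P : Sylow p G) (Q : Sylow q G), (P : Subgroup G) ≤ Subgroup.normalizer ((Q : Subgroup G) : Set G)) ↔ ¬ q ∣ (Cfsg.pPrimeCore p G).index := by
  have : (pPrimeCore p G).Characteristic := pPrimeCore_characteristic
  set K := pPrimeCore p G with hK
  constructor
  · rintro ⟨P, Q, hPQ⟩
    have hf : Function.Surjective (QuotientGroup.mk' K) := QuotientGroup.mk'_surjective K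
    set P' := P.mapSurjective hf
    set Q' := Q.mapSurjective hf
    have h1 : (P' : Subgroup (G ⧸ K)) ≤ Subgroup.normalizer ((Q' : Subgroup (G ⧸ K)) : Set (G ⧸ K)) := by
      have := Subgroup.le_normalizer_map (H := (Q : Subgroup G)) (QuotientGroup.mk' K)
      exact (Subgroup.map_mono hPQ).trans this
    have hO : pCore p (G ⧸ K) ≤ P' := pCore_le_sylow P'
    have : (pCore p (G ⧸ K)).Normal := inferInstance
    have hbot : (Q' : Subgroup (G ⧸ K)) ⊓ pCore p (G ⧸ K) = ⊥ :=
      inf_eq_bot_of_ne hpq.symm Q'.isPGroup' (isPGroup_pCore p)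
    have h2 : (Q' : Subgroup (G ⧸ K)) ≤ Subgroup.centralizer (pCore p (G ⧸ K) : Set (G ⧸ K)) := by
      refine le_centralizer_of_le_normalizer ?_ (hO.trans h1) hbot
      rw [Subgroup.normalizer_eq_top]; exact le_top
    have h3 := h2.trans ((hsolv.quotient K).centralizer_pCore_le pPrimeCore_quotient_pPrimeCore)
    have h4 : (Q' : Subgroup (G ⧸ K)) = ⊥ := by
      rw [← hbot]; exact (inf_of_le_left h3).symm
    have h5 := Q'.not_dvd_index
    rw [h4, Subgroup.index_bot] at h5
    exact h5
  · intro hq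
    obtain ⟨Q⟩ : Nonempty (Sylow q G) := inferInstance
    have hQK : (Q : Subgroup G) ≤ K := by
      apply le_of_coprime_card_index
      obtain ⟨n, hn⟩ := IsPGroup.iff_card.mp Q.isPGroup'
      rw [hn]
      exact Nat.Coprime.pow_left _ ((Nat.Prime.coprime_iff_not_dvd Fact.out).mpr hq)
    have hF := Q.normalizer_sup_eq_top' hQK
    have hd : (Subgroup.normalizer ((Q : Subgroup G) : Set G)).relIndex
        (K ⊔ Subgroup.normalizer ((Q : Subgroup G) : Set G)) ∣ Nat.card K :=
      HT.relIndex_sup_dvd_card (by rw [Subgroup.normalizer_eq_top (H := K)]; exact le_top)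
    have hF' : K ⊔ Subgroup.normalizer ((Q : Subgroup G) : Set G) = ⊤ := by
      rw [sup_comm]; exact hF
    rw [hF', Subgroup.relIndex_top_right] at hd
    have hp : ¬ p ∣ (Subgroup.normalizer ((Q : Subgroup G) : Set G)).index := fun h =>
      not_dvd_card_pPrimeCore (G := G) (Fact.out : p.Prime) (h.trans hd)
    obtain ⟨P, -, hP⟩ := FG.H96.exists_sylow_le_of_not_dvd_index hp (R := ⊥) IsPGroup.of_bot bot_le
    exact ⟨P, Q, hP⟩

end Cfsg.Agent.S4602
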