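import Mathlib
import Cfsg.Statements.S4604
import Cfsg.Agent.Ch.BrauerCongr

set_option autoImplicit false
open Cfsg

namespace Cfsg.Agent.S4604

/-- Let G be a finite group, p a prime and p^a the p-part of the order of G. Let x, y ∈ G and let x′, y′ be their p-regular parts: x′ has order prime to p, commutes with x·x′⁻¹, and x·x′⁻¹ has p-power order (likewise for y). Then x′ and y′ are conjugate in G if and only if for every irreducible character χ of G the algebraic integer χ(x)^(p^a) − χ(y)^(p^a) is p times an algebraic integer. -/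
theorem result {G : Type*} [Group G] [Finite G] (p : ℕ) [Fact p.Prime] (x y x' y' : G)
    (hx : (∃ k : ℕ, orderOf (x * x'⁻¹) = p ^ k) ∧ Commute (x * x'⁻¹) x' ∧ ¬ p ∣ orderOf x')
    (hy : (∃ k : ℕ, orderOf (y * y'⁻¹) = p ^ k) ∧ Commute (y * y'⁻¹) y' ∧ ¬ p ∣ orderOf y') :
    IsConj x' y' ↔ ∀ χ : Cfsg.IrrCharacter G, ∃ γ : Cfsg.AlgInt,
      (χ : G → ℂ) x ^ (p ^ (Nat.card G).factorization p) - (χ : G → ℂ) y ^ (p ^ (Nat.card G).factorization p) = (p : ℂ) * (γ : ℂ) := by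
  have hp : p.Prime := Fact.out
  set a := (Nat.card G).factorization p with ha
  constructor
  · intro h χ
    have key : ∀ z z' : G, (∃ k : ℕ, orderOf (z * z'⁻¹) = p ^ k) → Commute (z * z'⁻¹) z' →
        z ^ p ^ a = z' ^ p ^ a := by
      rintro z z' ⟨k, hk⟩ hc
      have h1 : p ^ k ∣ p ^ a := pow_dvd_pow p
        ((hp.pow_dvd_iff_le_factorization Nat.card_pos.ne').mp (hk ▸ orderOf_dvd_natCard _))
      have h2 : (z * z'⁻¹) ^ p ^ a = 1 := orderOf_dvd_iff_pow_eq_one.mp (hk ▸ h1)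
      calc z ^ p ^ a = (z * z'⁻¹ * z') ^ p ^ a := by rw [inv_mul_cancel_right]
        _ = z' ^ p ^ a := by rw [hc.mul_pow, h2, one_mul]
    obtain ⟨γ, hγ⟩ := Ch.exists_apply_pow_prime_pow_eq hp χ.isCharacter x a
    obtain ⟨δ, hδ⟩ := Ch.exists_apply_pow_prime_pow_eq hp χ.isCharacter y a
    refine ⟨γ - δ, ?_⟩
    rw [hγ, hδ, key x x' hx.1 hx.2.1, key y y' hy.1 hy.2.1,
      χ.isClassFunction.eq_of_isConj (h.pow (p ^ a))]
    push_cast
    ring
  · intro h
    obtain ⟨M, hM⟩ := Blk.exists_isPModular hp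
    have := hM.isMaximal
    have := hM.charP
    rw [Ch.isConj_iff_forall_memLocalIdeal hM hx.2.1 hx.1 hx.2.2 hy.2.1 hy.1 hy.2.2]
    intro χ
    obtain ⟨γ, hγ⟩ := h χ
    have h1 : MemLocalRing M ((χ : G → ℂ) x) := .of_isIntegral (χ.isCharacter.isIntegral x)
    have h2 : MemLocalRing M ((χ : G → ℂ) y) := .of_isIntegral (χ.isCharacter.isIntegral y)
    rw [inv_mul_cancel_right, inv_mul_cancel_right, ← Blk.red_eq_red_iff h1 h2]
    have h3 : MemLocalIdeal M ((χ : G → ℂ) x ^ p ^ a - (χ : G → ℂ) y ^ p ^ a) := by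
      rw [hγ]
      exact hM.memLocalIdeal_p.mul_right (MemLocalRing.algInt γ)
    rw [← Blk.red_eq_red_iff (h1.pow _) (h2.pow _), Blk.red_pow h1, Blk.red_pow h2,
      ← sub_eq_zero, ← sub_pow_char_pow] at h3
    exact sub_eq_zero.mp (pow_eq_zero_iff (pow_pos hp.pos a).ne' |>.mp h3)

end Cfsg.Agent.S4604
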