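import Mathlib
import Cfsg.Statements.S4607
import Cfsg.Agent.S4648
import Cfsg.Agent.S4733

set_option autoImplicit false
open Cfsg

namespace Cfsg.Agent.S4607

open Cfsg.Agent.Ch

/-- Let G be a finite group, p a prime, M a maximal ideal of the algebraic integers containing p, and B a p-block of G with defect group D. Then B contains exactly two irreducible characters if and only if D has order 2. -/
theorem result {G : Type*} [Group G] [Finite G] (p : ℕ) [Fact p.Prime] (M : Ideal Cfsg.AlgInt) (hM : Cfsg.IsPModular p M) (B : Set (Cfsg.IrrCharacter G)) (hB : Cfsg.IsPBlock M B) (D : Subgroup G) (hD : Cfsg.IsDefectGroup p M B D) : Nat.card B = 2 ↔ Nat.card D = 2 := by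
  haveI := hM.isMaximal
  haveI := Fintype.ofFinite G
  obtain ⟨h1, h2, h3⟩ := S4733.result p M hM B hB
  have h4 := Blk.blockRank_pos (Fact.out : p.Prime) hB.nonempty
  constructor
  · intro hk
    have h5 : blockDefect p B ≠ 0 := fun h => by have := (h2.1 h).1; omega
    have h6 : blockRank p B = 1 := by have := mt h3.2 h5; omega
    rw [← hk]
    exact (S4648.result p M hM B hB D hD (fun h => h5 ((hD.eq_bot_iff hM hB).1 h)) h6
      (by omega)).2.1
  · intro hD2
    haveI := isCyclic_of_prime_card hD2
    haveI := Fintype.ofFinite D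
    obtain ⟨e, h⟩ := Blk.Ab.exists_absOf hM hB hD fun x hx y hy => congrArg Subtype.val
      (IsCyclic.isMulCommutative.is_comm.comm (⟨x, hx⟩ : D) ⟨y, hy⟩)
    obtain ⟨h5, h6⟩ := h.card_eq_of_free h.free_of_isCyclic
    rw [hD2, Nat.dvd_one] at h5
    rw [h6, hD2, h5, h.rank_eq_one_of_le (h.le_cen_iff.2 h5)]

end Cfsg.Agent.S4607
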