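import Mathlib
import Cfsg.Statements.S4610
import Cfsg.Agent.Blk.SecInd
import Cfsg.Agent.Blk.PBColumn2
import Cfsg.Agent.Blk.Star2
import Cfsg.Agent.GT.PPrimeCore

set_option autoImplicit false
open Cfsg

namespace Cfsg.Agent.S4610

open Cfsg.Agent.Blk in
open Classical in
/-- If the `p'`-part of `#G` divides the size of every fibre of the `p`-part map over a
`p`-element, then `G = P × O_{p'}(G)`. -/
theorem of_dvd {G : Type*} [Group G] [Fintype G] {p : ℕ} [hp : Fact p.Prime] (P : Sylow p G)
    (h : ∀ u : G, (P : Subgroup G).index ∣ (Finset.univ.filter fun g : G => pp p g = u).card) :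
    (P : Subgroup G).Normal ∧ (P : Subgroup G) ⊔ pPrimeCore p G = ⊤ := by
  set r : G → ℕ := fun u => (Finset.univ.filter fun g : G => pp p g = u).card with hr
  set m := (P : Subgroup G).index with hm
  have hsum : ∑ u, r u = Fintype.card G := by
    rw [← Finset.card_univ, Finset.card_eq_sum_card_fiberwise (f := pp p) (t := Finset.univ)
      (fun _ _ => Finset.mem_coe.2 (Finset.mem_univ _))]
  have hpos : ∀ u : G, IsPGroup p (Subgroup.zpowers u) → m ≤ r u := fun u hu =>
    Nat.le_of_dvd (Finset.card_pos.2 ⟨u, by simp [pp_self hu]⟩) (h u)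
  have hP : ∀ u ∈ (P : Subgroup G), IsPGroup p (Subgroup.zpowers u) := fun u hu =>
    P.isPGroup'.to_le ((Subgroup.zpowers_le).2 hu)
  set T := Finset.univ.filter fun u : G => u ∈ (P : Subgroup G) with hT
  have hTc : T.card * m = Fintype.card G := by
    rw [← Nat.card_eq_fintype_card, ← (P : Subgroup G).card_mul_index, Nat.card_eq_fintype_card,
      Fintype.card_subtype]
  have hsplit := Finset.sum_filter_add_sum_filter_not Finset.univ
    (fun u : G => u ∈ (P : Subgroup G)) r
  have hle : ∑ _u ∈ T, m ≤ ∑ u ∈ T, r u :=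
    Finset.sum_le_sum fun u hu => hpos u (hP u (Finset.mem_filter.1 hu).2)
  have hTm : ∑ _u ∈ T, m = Fintype.card G := by rw [Finset.sum_const, smul_eq_mul, hTc]
  have h0 : ∑ u ∈ Finset.univ.filter (fun u : G => ¬ u ∈ (P : Subgroup G)), r u = 0 := by
    rw [← hT] at hsplit
    omega
  have heq : ∑ _u ∈ T, m = ∑ u ∈ T, r u := by
    rw [← hT] at hsplit
    omega
  have hm0 : 0 < m := Nat.pos_of_ne_zero (P : Subgroup G).index_ne_zero_of_finite
  have hmem : ∀ u : G, IsPGroup p (Subgroup.zpowers u) → u ∈ (P : Subgroup G) := by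
    intro u hu
    by_contra hn
    have h1 := (Finset.sum_eq_zero_iff.1 h0) u (by simp [hn])
    have h2 := hpos u hu
    omega
  have hN : (P : Subgroup G).Normal := by
    refine ⟨fun u hu g => hmem _ ?_⟩
    have h1 := (hP u hu).map (MulAut.conj g).toMonoidHom
    rwa [MonoidHom.map_zpowers] at h1
  refine ⟨hN, ?_⟩
  have hr1 : r 1 = m :=
    ((Finset.sum_eq_sum_iff_of_le fun u hu => hpos u (hP u (Finset.mem_filter.1 hu).2)).1 heq 1
      (by simp [hT])).symm
  obtain ⟨K, hK⟩ := Subgroup.exists_right_complement'_of_coprime (N := (P : Subgroup G))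
    P.card_coprime_index
  have hKc : Nat.card K = m := hK.symm.index_eq_card.symm
  have hKp : ¬ p ∣ Nat.card K := hKc ▸ P.not_dvd_index
  have hsub : (Finset.univ.filter fun g : G => g ∈ K) ⊆
      Finset.univ.filter fun g : G => pp p g = 1 := by
    intro g hg
    simp only [Finset.mem_filter, Finset.mem_univ, true_and] at hg ⊢
    exact pp_eq_one_iff.2 fun hd => hKp (hd.trans (Subgroup.orderOf_dvd_natCard K hg))
  have hKe := Finset.eq_of_subset_of_card_le hsub (by
    rw [← Fintype.card_subtype (fun g : G => g ∈ K), ← Nat.card_eq_fintype_card, hKc]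
    exact hr1.le)
  have hKm : ∀ g : G, g ∈ K ↔ ¬ p ∣ orderOf g := by
    intro g
    have := Finset.ext_iff.1 hKe g
    simpa [pp_eq_one_iff] using this
  have hKN : K.Normal := by
    refine ⟨fun u hu g => (hKm _).2 ?_⟩
    have : orderOf (g * u * g⁻¹) = orderOf u := (MulAut.conj g).orderOf_eq u
    rw [this]
    exact (hKm u).1 hu
  rw [eq_top_iff, ← hK.sup_eq_top]
  exact sup_le_sup_left (GT.le_pPrimeCore_of_not_dvd hp.out hKp) _

/-- Let G be a finite group and p a prime dividing its order; fix for every prime r a maximal ideal M r of the algebraic integers containing r. Then, for every prime q ≠ p dividing the order of G, the principal p-block and the principal q-block of G have only the principal character in common, if and only if a Sylow p-subgroup P of G is normal and G is generated by P and its largest normal subgroup of order prime to p (that is, G is the direct product of P and that subgroup). -/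
theorem result {G : Type*} [Group G] [Finite G] (p : ℕ) [Fact p.Prime] (hp : p ∣ Nat.card G) (M : ℕ → Ideal Cfsg.AlgInt) (hM : ∀ r : ℕ, r.Prime → Cfsg.IsPModular r (M r)) (P : Sylow p G) :
    (∀ q : ℕ, q.Prime → q ≠ p → q ∣ Nat.card G →
        ∀ χ : Cfsg.IrrCharacter G, χ ∈ Cfsg.principalBlock (M p) G → χ ∈ Cfsg.principalBlock (M q) G → (χ : G → ℂ) = fun _ => 1) ↔
      ((P : Subgroup G).Normal ∧ (P : Subgroup G) ⊔ Cfsg.pPrimeCore p G = ⊤) := by
  classical
  have hpp : p.Prime := Fact.out
  have := Fintype.ofFinite G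
  constructor
  · intro H
    refine of_dvd P fun u => (Nat.dvd_iff_prime_pow_dvd_dvd _ _).2 fun q k hq hk => ?_
    rcases k with _ | k
    · simp
    have hqm : q ∣ (P : Subgroup G).index := (dvd_pow_self q (Nat.succ_ne_zero k)).trans hk
    have hqp : q ≠ p := fun h => P.not_dvd_index (h ▸ hqm)
    exact Blk.SecInd.pow_dvd_card (hM p hpp) (hM q hq)
      (H q hq hqp (hqm.trans (P : Subgroup G).index_dvd_card)) u
      (hk.trans (P : Subgroup G).index_dvd_card)
  · rintro ⟨hN, htop⟩ q hq hqp - χ h1 h2
    refine χ.2.eq_one_of_charKer_eq_top ?_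
    rw [eq_top_iff, ← htop]
    refine sup_le (Blk.PC.le_charKer_of_not_dvd (hM q hq) ?_ h2)
      (Blk.PC.pPrimeCore_le_charKer (hM p hpp) h1)
    obtain ⟨k, hk⟩ := P.isPGroup'.exists_card_eq
    rw [hk]
    exact fun h => hqp ((Nat.prime_dvd_prime_iff_eq hq hpp).1 (hq.dvd_of_dvd_pow h))

end Cfsg.Agent.S4610
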