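import Cfsg.Statements.S4611
import Cfsg.Agent.Blk.PB0
import Cfsg.Agent.S0915
import Cfsg.Agent.S0938
import Cfsg.Agent.GT.PSolvable
-- import your own Cfsg.Agent.* helpers here

set_option autoImplicit false
open Cfsg

namespace Cfsg.Agent.S4611

/-- Let G be a finite solvable group and π a nonempty set of primes, each dividing the order of G; fix for each p in π a maximal ideal M p of the algebraic integers containing p. Then the only irreducible character lying in the principal p-block for every p in π is the principal character if and only if G is generated by the subgroups O_{p'}(G), p in π (the largest normal subgroups of order prime to p). -/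
theorem result {G : Type*} [Group G] [Finite G] [Group.IsSolvable G] (π : Set ℕ) (hπ : ∀ p ∈ π, p.Prime ∧ p ∣ Nat.card G) (hne : π.Nonempty) (M : ℕ → Ideal Cfsg.AlgInt) (hM : ∀ p ∈ π, Cfsg.IsPModular p (M p)) :
    (∀ χ : Cfsg.IrrCharacter G, (∀ p ∈ π, χ ∈ Cfsg.principalBlock (M p) G) → (χ : G → ℂ) = fun _ => 1) ↔
      ⨆ p ∈ π, Cfsg.pPrimeCore p G = ⊤ := by
  have key : ∀ p ∈ π, ∀ χ : IrrCharacter G,
      χ ∈ principalBlock (M p) G ↔ pPrimeCore p G ≤ Ch.charKer (χ : G → ℂ) := by
    intro p hp χ
    have := Fact.mk (hπ p hp).1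
    have := (hM p hp).isMaximal
    have : (pPrimeCore p G).Characteristic := GT.pPrimeCore_characteristic
    have hnd := GT.not_dvd_card_pPrimeCore (G := G) (hπ p hp).1
    constructor
    · intro h
      exact Blk.Om.le_charKer_of_sameBlock (χ := Ch.irrOne G) (hM p hp) hnd
        (by rw [Ch.coe_irrOne, Ch.charKer_one]; exact le_top) h
    · intro h
      obtain ⟨ψ, hψ, h⟩ := χ.2.exists_quotient _ (χ.2.isCharacter.le_charKer_iff.mp h)
      refine (Blk.P0.mem_comp_iff_of_not_dvd (hM p hp) (QuotientGroup.mk' (pPrimeCore p G))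
        (QuotientGroup.mk'_surjective _) (by rwa [QuotientGroup.ker_mk']) (ψ := ⟨ψ, hψ⟩)
        (congrFun h)).mpr ?_
      exact S0915.result p (M p) (hM p hp) (GT.isPSolvable_of_isSolvable inferInstance)
        GT.pPrimeCore_quotient_pPrimeCore (Ch.irrOne _) ⟨ψ, hψ⟩
  have hn : (⨆ p ∈ π, pPrimeCore p G).Normal := by
    have : ∀ p, (pPrimeCore p G).Characteristic := fun p => GT.pPrimeCore_characteristic
    infer_instance
  constructor
  · intro h
    by_contra hne
    obtain ⟨χ, h1, h2⟩ := Ch.exists_irr_ne_one_le_charKer _ hne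
    exact h2 (h χ fun p hp => (key p hp χ).mpr ((le_biSup _ hp).trans h1))
  · intro h χ hχ
    apply χ.2.eq_one_of_charKer_eq_top
    rw [eq_top_iff, ← h]
    exact iSup₂_le fun p hp => (key p hp χ).mp (hχ p hp)

end Cfsg.Agent.S4611
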