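import Mathlib
import Cfsg.Statements.S4620
import Cfsg.Agent.GT.PPrimeCore
import Cfsg.Agent.GT.HallTools
import Cfsg.Agent.GT.Subnormal

set_option autoImplicit false
open scoped Pointwise
open Cfsg

namespace Cfsg.Agent.S4620

open Cfsg.Agent.GT

theorem ti_all {H : Type*} [Group H] [Finite H] {p : ℕ} [Fact p.Prime] (P : Sylow p H)
    (hTI : ∀ g : H, g ∉ Subgroup.normalizer ((P : Subgroup H) : Set H) →
      (P : Subgroup H) ⊓ (MulAut.conj g • (P : Subgroup H)) = ⊥) (R : Sylow p H) {a g : H}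
    (ha : a ≠ 1) (haR : a ∈ (R : Subgroup H)) (hg : g * a * g⁻¹ ∈ (R : Subgroup H)) :
    g ∈ Subgroup.normalizer ((R : Subgroup H) : Set H) := by
  obtain ⟨x, rfl⟩ := MulAction.exists_smul_eq H P R
  rw [Sylow.coe_subgroup_smul] at haR hg ⊢
  rw [HT.normalizer_conj_smul, HT.mem_conj_smul]
  rw [HT.mem_conj_smul] at haR hg
  by_contra hc
  have h := hTI _ hc
  have h1 : x⁻¹ * (g * a * g⁻¹) * x ∈
      (P : Subgroup H) ⊓ (MulAut.conj (x⁻¹ * g * x) • (P : Subgroup H)) := by
    refine Subgroup.mem_inf.mpr ⟨hg, ?_⟩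
    rw [HT.mem_conj_smul]
    convert haR using 1
    group
  rw [h, Subgroup.mem_bot] at h1
  apply ha
  have : a = g⁻¹ * x * (x⁻¹ * (g * a * g⁻¹) * x) * x⁻¹ * g := by group
  rw [this, h1]; group

theorem not_commute {H : Type*} [Group H] [Finite H] {p : ℕ} [hp : Fact p.Prime]
    (hOp : Cfsg.pCore p H = ⊥) (hOp' : Cfsg.pPrimeCore p H = ⊥) (P : Sylow p H)
    (hTI : ∀ g : H, g ∉ Subgroup.normalizer ((P : Subgroup H) : Set H) →
      (P : Subgroup H) ⊓ (MulAut.conj g • (P : Subgroup H)) = ⊥)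
    {A B : Subgroup H} (hA : A.IsSubnormal) (hB : B.IsSubnormal) (hA1 : A ≠ ⊥) (hB1 : B ≠ ⊥)
    (hAB : B ≤ Subgroup.centralizer (A : Set H)) : False := by
  have dvd : ∀ {A : Subgroup H}, A.IsSubnormal → A ≠ ⊥ → ∃ a ∈ A, orderOf a = p := by
    intro A hA hA1
    have : p ∣ Nat.card A := by
      by_contra hc
      have := le_pPrimeCore_of_isSubnormal (p := p) hA
        ((Nat.Prime.coprime_iff_not_dvd hp.out).mpr hc).symm
      rw [hOp', le_bot_iff] at this
      exact hA1 this
    obtain ⟨a, ha⟩ := exists_prime_orderOf_dvd_card' p this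
    exact ⟨a, a.2, by rw [Subgroup.orderOf_coe, ha]⟩
  have pg : ∀ {a : H}, orderOf a = p → IsPGroup p (Subgroup.zpowers a) := by
    intro a ha
    exact IsPGroup.of_card (n := 1) (by rw [Nat.card_zpowers, ha, pow_one])
  obtain ⟨a, haA, ha⟩ := dvd hA hA1
  obtain ⟨b, hbB, hb⟩ := dvd hB hB1
  obtain ⟨R, hR⟩ := (pg ha).exists_le_sylow
  have ha1 : a ≠ 1 := by
    rintro rfl
    rw [orderOf_one] at ha
    exact hp.out.one_lt.ne ha
  have hBN : B ≤ Subgroup.normalizer ((R : Subgroup H) : Set H) := by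
    intro g hg
    refine ti_all P hTI R ha1 (hR (Subgroup.mem_zpowers a)) ?_
    have := (hAB hg) a haA
    rw [← this, mul_inv_cancel_right]
    exact hR (Subgroup.mem_zpowers a)
  have hbR : b ∈ (R : Subgroup H) := by
    have h1 := (pg hb).inf_normalizer_sylow R
    have h2 : b ∈ Subgroup.zpowers b ⊓ Subgroup.normalizer ((R : Subgroup H) : Set H) :=
      ⟨Subgroup.mem_zpowers b, hBN hbB⟩
    exact (h1 ▸ h2).2
  have hsub : ((R : Subgroup H) ⊓ B).IsSubnormal := by
    refine SubnormalIn.isSubnormal (K := B) (SubnormalIn.of_le_normalizer inf_le_right ?_) hB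
    intro g hg
    rw [Subgroup.mem_normalizer_iff]
    intro x
    have h1 := Subgroup.mem_normalizer_iff.mp (hBN hg) x
    have h2 := Subgroup.mem_normalizer_iff.mp (B.le_normalizer hg) x
    simp only [Subgroup.mem_inf] at h1 h2 ⊢
    rw [h1, h2]
  have := le_pCore_of_isSubnormal (p := p) hsub R.isPGroup'.to_inf_left
  rw [hOp, le_bot_iff] at this
  have hb1 : b ∈ (R : Subgroup H) ⊓ B := ⟨hbR, hbB⟩
  rw [this, Subgroup.mem_bot] at hb1
  rw [hb1, orderOf_one] at hb
  exact hp.out.one_lt.ne hb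

theorem exists_min {H : Type*} [Group H] [Finite H] (L : Subgroup H) (hL : L ≠ ⊥) (X : Subgroup H)
    (hLX : X ≤ Subgroup.normalizer (L : Set H)) :
    ∃ S : Subgroup H, S ≤ L ∧ S ≠ ⊥ ∧ X ≤ Subgroup.normalizer (S : Set H) ∧
      ∀ T : Subgroup H, T ≤ S → X ≤ Subgroup.normalizer (T : Set H) → T = ⊥ ∨ T = S := by
  obtain ⟨S, hS, hmin⟩ := (wellFounded_lt (α := Subgroup H)).has_min
    {S | S ≤ L ∧ S ≠ ⊥ ∧ X ≤ Subgroup.normalizer (S : Set H)} ⟨L, le_rfl, hL, hLX⟩
  refine ⟨S, hS.1, hS.2.1, hS.2.2, fun T hT hX => ?_⟩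
  by_contra hc
  push Not at hc
  exact hmin T ⟨hT.trans hS.1, hc.1, hX⟩ (lt_of_le_of_ne hT hc.2)

theorem CopAct_le {H : Type*} [Group H] {A X Y : Subgroup H}
    (hX : A ≤ Subgroup.normalizer (X : Set H)) (hY : A ≤ Subgroup.normalizer (Y : Set H)) :
    A ≤ Subgroup.normalizer ((X ⊓ Y : Subgroup H) : Set H) := by
  intro g hg
  rw [Subgroup.mem_normalizer_iff]
  intro x
  have h1 := Subgroup.mem_normalizer_iff.mp (hX hg) x
  have h2 := Subgroup.mem_normalizer_iff.mp (hY hg) x
  simp only [Subgroup.mem_inf] at h1 h2 ⊢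
  rw [h1, h2]


/-- Let H be a finite group with no nontrivial normal p-subgroup and no nontrivial normal subgroup of order prime to p, whose Sylow p-subgroup P is nontrivial and a trivial-intersection set (P meets its conjugates by elements outside N_H(P) trivially). Then H has a unique minimal normal subgroup N; N is non-abelian simple with trivial centralizer in H (so H embeds in Aut(N)), and a Sylow p-subgroup of N is again a nontrivial trivial-intersection set in N. -/
theorem result {H : Type*} [Group H] [Finite H] (p : ℕ) [Fact p.Prime] (hOp : Cfsg.pCore p H = ⊥) (hOp' : Cfsg.pPrimeCore p H = ⊥) (P : Sylow p H) (hP1 : (P : Subgroup H) ≠ ⊥)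
    (hTI : ∀ g : H, g ∉ Subgroup.normalizer ((P : Subgroup H) : Set H) → (P : Subgroup H) ⊓ (MulAut.conj g • (P : Subgroup H)) = ⊥) :
    ∃ N : Subgroup H, N.Normal ∧ N ≠ ⊥ ∧ (∀ K : Subgroup H, K.Normal → K ≠ ⊥ → N ≤ K) ∧
      IsSimpleGroup N ∧ ¬ IsMulCommutative N ∧ Subgroup.centralizer (N : Set H) = ⊥ ∧
      ∀ Q : Sylow p N, (Q : Subgroup N) ≠ ⊥ ∧
        ∀ n : N, n ∉ Subgroup.normalizer ((Q : Subgroup N) : Set N) → (Q : Subgroup N) ⊓ (MulAut.conj n • (Q : Subgroup N)) = ⊥ := by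
  have hp : p.Prime := Fact.out
  have htop : (⊤ : Subgroup H) ≠ ⊥ := fun e => hP1 (le_bot_iff.mp (e ▸ le_top))
  obtain ⟨N, -, hN1, hNn, hNmin⟩ := exists_min (⊤ : Subgroup H) htop ⊤
    (by rw [Subgroup.normalizer_eq_top])
  have hN : N.Normal := Subgroup.normalizer_eq_top_iff.mp (top_le_iff.mp hNn)
  have nc := @not_commute H _ _ p _ hOp hOp' P hTI
  obtain ⟨S, hSN, hS1, hSn, hSmin⟩ := exists_min N hN1 N N.le_normalizer
  have hSsub : S.IsSubnormal :=
    SubnormalIn.isSubnormal (SubnormalIn.of_le_normalizer hSN hSn) hN.isSubnormal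
  have hSnormal : S.Normal := by
    refine ⟨fun s hs g => ?_⟩
    have hT : MulAut.conj g⁻¹ • S ≤ N :=
      HT.conj_smul_le_of_mem_normalizer hSN (hNn (Subgroup.mem_top _))
    have hTn : N ≤ Subgroup.normalizer ((MulAut.conj g⁻¹ • S : Subgroup H) : Set H) := by
      rw [HT.normalizer_conj_smul]
      intro n hn
      rw [HT.mem_conj_smul]
      exact hSn (by simpa using hN.conj_mem n hn g)
    rcases hSmin (S ⊓ MulAut.conj g⁻¹ • S) inf_le_left (CopAct_le hSn hTn) with h | h
    · exfalso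
      refine nc hSsub (SubnormalIn.isSubnormal (SubnormalIn.of_le_normalizer hT hTn)
        hN.isSubnormal) hS1 ?_ ?_
      · intro e
        apply hS1
        rw [← Subgroup.card_eq_one, ← HT.card_conj_smul g⁻¹ S, e, Subgroup.card_bot]
      · exact le_centralizer_of_le_normalizer (hT.trans hSn) (hSN.trans hTn) (by rw [inf_comm, h])
    · have : s ∈ MulAut.conj g⁻¹ • S := (Subgroup.mem_inf.mp (h.ge hs)).2
      rw [HT.mem_conj_smul] at this
      simpa using this
  have hSeq : S = N :=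
    (hNmin S hSN (by rw [Subgroup.normalizer_eq_top])).resolve_left hS1
  subst hSeq
  have hC : Subgroup.centralizer (S : Set H) = ⊥ := by
    by_contra hc
    exact nc hSsub (Subgroup.Normal.isSubnormal inferInstance) hS1 hc le_rfl
  refine ⟨S, hN, hN1, fun K hK hK1 => ?_, ?_, ?_, hC, fun Q => ⟨?_, ?_⟩⟩
  · rcases hNmin (S ⊓ K) inf_le_left (by rw [Subgroup.normalizer_eq_top]) with h | h
    · exact (nc hSsub hK.isSubnormal hS1 hK1
        (le_centralizer_of_inf_eq_bot (by rw [inf_comm, h]))).elim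
    · rw [← h]; exact inf_le_right
  · have : Nontrivial S := (Subgroup.nontrivial_iff_ne_bot S).mpr hS1
    refine ⟨fun T hT => ?_⟩
    rcases hSmin (T.map S.subtype) (Subgroup.map_subtype_le T)
      (le_normalizer_map_subtype S T) with h | h
    · left
      exact (Subgroup.map_eq_bot_iff_of_injective T S.subtype_injective).mp h
    · right
      apply Subgroup.map_injective S.subtype_injective
      rw [h, ← MonoidHom.range_eq_map, Subgroup.range_subtype]
  · intro hc
    apply hS1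
    rw [eq_bot_iff, ← hC]
    intro a ha b hb
    exact congrArg Subtype.val (hc.is_comm.comm (⟨b, hb⟩ : S) ⟨a, ha⟩)
  · intro e
    have h1 := Q.not_dvd_index
    rw [e, Subgroup.index_bot] at h1
    have := le_pPrimeCore_of_isSubnormal (p := p) hSsub
      ((Nat.Prime.coprime_iff_not_dvd hp).mpr h1).symm
    rw [hOp', le_bot_iff] at this
    exact hS1 this
  · intro n hn
    by_contra hc
    apply hn
    obtain ⟨R, hR⟩ := (Q.isPGroup'.map S.subtype).exists_le_sylow
    have hQR : (Q : Subgroup S) = (R : Subgroup H).subgroupOf S := by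
      refine (Q.is_maximal' (R.isPGroup'.comap_subtype) ?_).symm
      exact Subgroup.map_le_iff_le_comap.mp hR
    obtain ⟨a, ha, ha1⟩ := (Subgroup.bot_or_exists_ne_one _).resolve_left hc
    obtain ⟨ha2, ha3⟩ := Subgroup.mem_inf.mp ha
    rw [HT.mem_conj_smul, hQR] at ha3
    rw [hQR] at ha2
    have h1 : ((n : H))⁻¹ ∈ Subgroup.normalizer ((R : Subgroup H) : Set H) :=
      ti_all P hTI R (a := a) (fun e => ha1 (Subtype.ext e)) ha2 (by rw [inv_inv]; exact ha3)
    have h2 := Subgroup.inv_mem _ h1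
    rw [inv_inv] at h2
    rw [Subgroup.mem_normalizer_iff]
    intro x
    rw [hQR]
    exact Subgroup.mem_normalizer_iff.mp h2 x

end Cfsg.Agent.S4620
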