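import Cfsg.Statements.S4623
import Cfsg.Agent.Sym.SylowTwo
import Cfsg.Agent.Ch.CentralExt

set_option autoImplicit false
open Cfsg

namespace Cfsg.Agent.S4623

theorem pow_mem {G : Type*} [Group G] {p : ℕ} {x : G} (y z : G) (h : x = y * z)
    (hy : y ^ p ∈ commutator G) (hz : z ^ p = 1) : x ^ p ∈ commutator G := by
  rw [← Abelianization.ker_of, MonoidHom.mem_ker] at hy ⊢
  rw [h, map_pow, map_mul, mul_pow, ← map_pow, ← map_pow, hy, hz, map_one, one_mul]

theorem base_pow {α β : Type*} {p : ℕ} (ι : β × ZMod p ↪ α) (v : β → ZMod p) :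
    Sym.wrEmb ι 1 v ^ p = 1 := by
  rw [Sym.wrEmb_one_pow, ← Sym.wrEmb_one ι]
  congr 1
  ext i
  simp

theorem aux (p : ℕ) [hp : Fact p.Prime] (n : ℕ) (P : Sylow p (Equiv.Perm (Fin n))) :
    ∀ x : (P : Subgroup (Equiv.Perm (Fin n))),
      x ^ p ∈ commutator (P : Subgroup (Equiv.Perm (Fin n))) := by
  induction n using Nat.strong_induction_on with
  | _ n ih =>
    rcases Nat.eq_zero_or_pos n with rfl | hn
    · intro x
      rw [Subsingleton.elim (x ^ p) 1]; exact one_mem _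
    obtain ⟨S⟩ : Nonempty (Sylow p (Equiv.Perm (Fin (n / p)))) := inferInstance
    obtain ⟨ι, h⟩ := Sym.exists_eq_wr (by simp) P S
    rw [h]
    rintro ⟨_, σ, hσ, v, rfl⟩
    let φ : (S : Subgroup (Equiv.Perm (Fin (n / p)))) →*
        Sym.wr ι (S : Subgroup (Equiv.Perm (Fin (n / p)))) :=
      ((Sym.wrTop ι).comp (Subgroup.subtype _)).codRestrict _ fun x => Sym.wrEmb_mem_wr.2 x.2
    refine pow_mem (φ ⟨σ, hσ⟩) ⟨_, Sym.wrEmb_mem_wr.2 (one_mem _)⟩
      (Subtype.ext (Sym.wrEmb_eq_mul ι σ v)) ?_ (Subtype.ext (base_pow ι v))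
    rw [← map_pow]
    exact Ch.map_mem_commutator φ (ih _ (Nat.div_lt_self hn hp.out.one_lt) S _)

/-- For every prime p and every n, a Sylow p-subgroup P of the symmetric group on n letters has P/P' elementary abelian (the p-th power of every element of P lies in the derived subgroup of P), and the same holds for a Sylow p-subgroup of the alternating group on n letters. -/
theorem result (p : ℕ) [Fact p.Prime] (n : ℕ) (P : Sylow p (Equiv.Perm (Fin n))) (Q : Sylow p (alternatingGroup (Fin n))) :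
    (∀ x : (P : Subgroup (Equiv.Perm (Fin n))), x ^ p ∈ commutator (P : Subgroup (Equiv.Perm (Fin n)))) ∧
    (∀ x : (Q : Subgroup (alternatingGroup (Fin n))), x ^ p ∈ commutator (Q : Subgroup (alternatingGroup (Fin n)))) := by
  refine ⟨aux p n P, ?_⟩
  obtain ⟨R, hR⟩ := Sym.exists_sylow_subgroupOf_eq Q
  by_cases hp : p = 2
  · subst hp
    obtain ⟨S⟩ : Nonempty (Sylow 2 (Equiv.Perm (Fin (n / 2)))) := inferInstance
    obtain ⟨ι, h⟩ := Sym.exists_eq_wr (by simp) R S
    rw [← hR, h]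
    rintro ⟨⟨y, h1⟩, σ, hσ, v, h0⟩
    obtain rfl : y = Sym.wrEmb ι σ v := h0
    let φ : (S : Subgroup (Equiv.Perm (Fin (n / 2)))) →*
        (Sym.wr ι (S : Subgroup (Equiv.Perm (Fin (n / 2))))).subgroupOf (alternatingGroup (Fin n)) :=
      (((Sym.wrTop ι).comp (Subgroup.subtype _)).codRestrict _
        fun x => Sym.wrTop_mem_alternatingGroup ι x).codRestrict _
        fun x => Sym.wrEmb_mem_wr.2 x.2
    have h2 : Sym.wrEmb ι 1 v ∈ alternatingGroup (Fin n) := by
      rw [Sym.wrEmb_eq_mul] at h1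
      exact (Subgroup.mul_mem_cancel_left _ (Sym.wrTop_mem_alternatingGroup ι σ)).1 h1
    refine pow_mem (φ ⟨σ, hσ⟩) ⟨⟨_, h2⟩, Sym.wrEmb_mem_wr.2 (one_mem _)⟩ ?_ ?_ ?_
    · exact Subtype.ext (Subtype.ext (Sym.wrEmb_eq_mul ι σ v))
    · rw [← map_pow]
      exact Ch.map_mem_commutator φ (aux 2 _ S _)
    · exact Subtype.ext (Subtype.ext (base_pow ι v))
  · have hle := Sym.le_alternatingGroup_of_isPGroup hp R.isPGroup'
    rw [← hR]
    intro x
    obtain ⟨x, rfl⟩ := (Subgroup.subgroupOfEquivOfLe hle).symm.surjective x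
    rw [← map_pow]
    exact Ch.map_mem_commutator (Subgroup.subgroupOfEquivOfLe hle).symm.toMonoidHom (aux p n R x)

end Cfsg.Agent.S4623
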