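import Mathlib
import Cfsg.Statements.S4624
import Cfsg.Agent.Cl.SpSylow
-- import your own Cfsg.Agent.* helpers here

set_option autoImplicit false
open Cfsg

namespace Cfsg.Agent.S4624

/-- Let F be a finite field of odd order and n ≥ 1. A Sylow 2-subgroup P of the symplectic group Sp_{2n}(F) has P/P' elementary abelian: the square of every element of P lies in the derived subgroup of P. -/
theorem result {F : Type*} [Field F] [Fintype F] (hF : Odd (Fintype.card F)) (n : ℕ) (hn : 1 ≤ n) (P : Sylow 2 (Matrix.symplecticGroup (Fin n) F)) :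
    ∀ x : (P : Subgroup (Matrix.symplecticGroup (Fin n) F)), x ^ 2 ∈ commutator (P : Subgroup (Matrix.symplecticGroup (Fin n) F)) := by
--PROOF--
  obtain ⟨T⟩ : Nonempty (Sylow 2 (Equiv.Perm (Fin n))) := inferInstance
  obtain ⟨k, hk, ⟨e⟩⟩ := Cl.sp_sylow_two_wr_std (by rwa [Nat.card_eq_fintype_card]) n T P
  exact Cl.wr_pow_mem_commutator_of_surjective e.toMonoidHom e.surjective
    (Cl.wr_pow_mem_commutator (Cl.quat_sq_mem_commutator (Nat.even_pow.2 ⟨even_two, by omega⟩))
      (Cl.wr_sylow_perm_sq_mem_commutator T))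

end Cfsg.Agent.S4624
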