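import Cfsg.Statements.S4630
import Cfsg.Agent.Cl.Syl2O
-- import your own Cfsg.Agent.* helpers here

set_option autoImplicit false
open Cfsg

namespace Cfsg.Agent.S4630

open Cfsg.Agent.Cl

/-- Let F be a finite field of odd order and m ≥ 1 with m even or m ≥ 4. For the commutator subgroup Ω of the isometry group of the plus-type quadratic form Σ_{i<m} x_i y_i in dimension 2m over F, a Sylow 2-subgroup P of Ω has P/P' elementary abelian: the square of every element of P lies in the derived subgroup of P. -/
theorem result {F : Type*} [Field F] [Fintype F] (hF : Odd (Fintype.card F)) (m : ℕ) (hm : 1 ≤ m) (hm' : Even m ∨ 4 ≤ m) (P : Sylow 2 (Cfsg.Omega F (Cfsg.quadFormPlus m F))) : ∀ x : (P : Subgroup (Cfsg.Omega F (Cfsg.quadFormPlus m F))), x ^ 2 ∈ commutator (P : Subgroup (Cfsg.Omega F (Cfsg.quadFormPlus m F))) := by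
  obtain ⟨m, rfl⟩ : ∃ k, m = k + 1 := ⟨m - 1, by omega⟩
  refine S2W.omega_even (quad_two_ne_zero_of_odd hF) quad_plus_nondeg o_finrank_plus
    (Pi.basisFun F _) ?_ (omatEquiv (quad_plus (m + 1) F)) P
  rcases hm' with h | h
  · right
    refine ⟨by obtain ⟨k, hk⟩ := h; omega, ?_⟩
    have := quad_disc_plus (F := F) (m + 1)
    rw [h.neg_one_pow] at this
    have h' : quad_disc (⇑(quad_plus (m + 1) F)) ⇑(Pi.basisFun F _) = 1 := by
      rw [← this]
      congr 1
      funext i
      simp
    rw [h']
    exact IsSquare.one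
  · left; omega

end Cfsg.Agent.S4630
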