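import Cfsg.Statements.S4632
import Cfsg.Agent.Cl.Syl2SO
import Cfsg.Agent.Oct.Invol
-- import your own Cfsg.Agent.* helpers here

set_option autoImplicit false
open Cfsg

namespace Cfsg.Agent.S4632

open Cfsg.Agent.Cl Cfsg.Agent.Oct

/-- Let F be a finite field of odd order and G₂(F) the automorphism group of the split octonion algebra over F (realized on F⁸ with the Zorn vector-matrix multiplication). A Sylow 2-subgroup P of G₂(F) has P/P' elementary abelian: the square of every element of P lies in the derived subgroup of P. -/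
theorem result {F : Type*} [Field F] [Fintype F] (hF : Odd (Fintype.card F)) (P : Sylow 2 (Cfsg.Lie.G2 F)) : ∀ x : (P : Subgroup (Cfsg.Lie.G2 F)), x ^ 2 ∈ commutator (P : Subgroup (Cfsg.Lie.G2 F)) := by
  have h2 := quad_two_ne_zero_of_odd hF
  let φ := g2Equiv F
  let P' : Sylow 2 (zorn F).Aut := P.mapSurjective (f := φ.toMonoidHom) φ.surjective
  have : Finite (zorn F).Aut := Finite.of_equiv _ φ.toEquiv
  obtain ⟨ψ⟩ := wr_nonempty_sylow_equiv φ.symm P' P
  refine wr_pow_mem_commutator_of_surjective ψ.toMonoidHom ψ.surjective ?_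
  by_cases hP : (P' : Subgroup (zorn F).Aut) = ⊥
  · intro x
    have : x = 1 := Subtype.ext (Subgroup.mem_bot.1 (hP.le x.2))
    rw [this, one_pow]
    exact Subgroup.one_mem _
  have : Nontrivial (P' : Subgroup (zorn F).Aut) := (Subgroup.nontrivial_iff_ne_bot _).2 hP
  have hZ := P'.isPGroup'.center_nontrivial
  obtain ⟨n, hn0, hn⟩ := (P'.isPGroup'.to_subgroup (Subgroup.center _)).nontrivial_iff_card.1 hZ
  obtain ⟨z, hz⟩ := exists_prime_orderOf_dvd_card' 
    (G := Subgroup.center (P' : Subgroup (zorn F).Aut)) 2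
    (by rw [hn]; exact dvd_pow_self 2 hn0.ne')
  have hz2 : z.1.1 * z.1.1 = 1 := by
    have := pow_orderOf_eq_one z
    rw [hz, pow_two] at this
    exact congrArg (fun w : Subgroup.center (P' : Subgroup (zorn F).Aut) => w.1.1) this
  have hz1 : z.1.1 ≠ 1 := fun h => by
    have : z = 1 := Subtype.ext (Subtype.ext h)
    rw [this, orderOf_one] at hz
    norm_num at hz
  obtain ⟨H, _, _, _, N, hN, h4, hsq, ρ, hρ, hr⟩ :=
    exists_centralizer_hom (A := zorn F) h2 (by simp) hz2 hz1
  have hle : (P' : Subgroup (zorn F).Aut) ≤ Subgroup.centralizer {z.1.1} := by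
    rintro x hx _ rfl
    exact congrArg Subtype.val (Subgroup.mem_center_iff.1 z.2 ⟨x, hx⟩).symm
  exact wr_pow_mem_commutator_of_surjective (Subgroup.subgroupOfEquivOfLe hle).toMonoidHom
    (Subgroup.subgroupOfEquivOfLe hle).surjective
    (S2W.so_four h2 hN h4 _ hsq ρ hρ hr (P'.subtype hle))

end Cfsg.Agent.S4632
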