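import Mathlib
import Cfsg.Statements.S4741
import Cfsg.Agent.Blk.DefZeroInv

set_option autoImplicit false
open Cfsg

namespace Cfsg.Agent.S4741

set_option linter.unusedVariables false

open Cfsg.Agent.Blk Cfsg.Agent.Ch Cfsg.Agent.Inv


/-- Let p be a prime, M a maximal ideal of the algebraic integers containing p, and D a subgroup of the finite group G. Let x₁, …, x_r be pairwise non-conjugate elements of G such that D is a Sylow p-subgroup of the centralizer of each xᵢ, and such that for any conjugates g of some xᵢ and h of some xⱼ the element g h⁻¹ is never a non-identity p-element. Then there are r distinct p-blocks B₁, …, B_r of G, each having D as a defect group, such that for every choice of characters χᵢ ∈ Bᵢ of height zero the determinant of the r × r matrix (χᵢ(xⱼ)) does not lie in the local ideal at M. -/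
theorem result {G : Type*} [Group G] [Finite G] (p : ℕ) [Fact p.Prime] (M : Ideal Cfsg.AlgInt) (hM : Cfsg.IsPModular p M) (D : Subgroup G) {r : ℕ} (x : Fin r → G) (hx : ∀ i j : Fin r, IsConj (x i) (x j) → i = j) (hD : ∀ i : Fin r, ∃ S : Sylow p ↥(Subgroup.centralizer ({x i} : Set G)), (S : Subgroup ↥(Subgroup.centralizer ({x i} : Set G))).map (Subgroup.centralizer ({x i} : Set G)).subtype = D) (hsep : ∀ i j : Fin r, ∀ g h : G, IsConj (x i) g → IsConj (x j) h → ∀ k : ℕ, 0 < k → orderOf (g * h⁻¹) ≠ p ^ k) : ∃ B : Fin r → Set (Cfsg.IrrCharacter G), Function.Injective B ∧ (∀ i : Fin r, Cfsg.IsPBlock M (B i) ∧ Cfsg.IsDefectGroup p M (B i) D) ∧ ∀ χ : Fin r → Cfsg.IrrCharacter G, (∀ i : Fin r, χ i ∈ B i ∧ Cfsg.blockHeight p (B i) (χ i : G → ℂ) = 0) → ¬ Cfsg.MemLocalIdeal M (Matrix.det (Matrix.of fun i j : Fin r => (χ i : G → ℂ) (x j))) := by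
  classical
  let _ := Fintype.ofFinite G
  have hp : p.Prime := Fact.out
  have := hM.isMaximal
  have hD' : ∀ i, IsClassDefect p (x i) D := fun i => by
    obtain ⟨S, hS⟩ := hD i
    exact ⟨S, hS.symm⟩
  obtain ⟨P⟩ : Nonempty (Sylow p G) := inferInstance
  obtain ⟨m, hm⟩ := exists_mult_sep (P : Subgroup G)
  have hR : ∀ (χ : IrrCharacter G) (g : G), MemLocalRing M ((χ : G → ℂ) g) := fun χ g =>
    MemLocalRing.of_isIntegral (χ.2.isCharacter.isIntegral g)
  have hW : ∀ (χ : IrrCharacter G) (g : G), MemLocalRing M (centralChar (χ : G → ℂ) g) :=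
    fun χ g => MemLocalRing.of_isIntegral (χ.2.isIntegral_centralChar g)
  have key : ∀ i j, ∑ χ : IrrCharacter G,
      (m χ : ℂ) * centralChar (χ : G → ℂ) (x j) * (χ : G → ℂ) (x i)⁻¹ =
      if i = j then ((P : Subgroup G).index : ℂ) else 0 := by
    intro i j
    rw [hm (x i) (x j) (fun h a hc ha => by
      obtain ⟨k, hk⟩ := IsPGroup.iff_orderOf.1 P.isPGroup' ⟨_, ha⟩
      rw [Subgroup.orderOf_mk, Om.orderOf_conj_eq] at hk
      rcases Nat.eq_zero_or_pos k with rfl | hk0
      · exact mul_inv_eq_one.1 (orderOf_eq_one_iff.1 (by simpa using hk))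
      · exact absurd hk (hsep j i h (x i) hc (IsConj.refl _) k hk0))]
    split_ifs with hij
    · rw [hij, classInd_of_isConj (IsConj.refl _), one_mul]
    · rw [classInd_of_not_isConj (fun h => hij (hx _ _ h).symm), zero_mul]
  let A : Matrix (Fin r) (IrrCharacter G) (Res M) :=
    fun i χ => red M ((m χ : ℂ) * (χ : G → ℂ) (x i)⁻¹)
  let L : Matrix (IrrCharacter G) (Fin r) (Res M) :=
    fun χ j => red M (centralChar (χ : G → ℂ) (x j))
  have hAL : A * L = Matrix.diagonal fun _ => ((P : Subgroup G).index : Res M) := by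
    ext i j
    have := congrArg (red M) (key i j)
    rw [red_sum (fun χ _ => ((MemLocalRing.natCast _).mul (hW χ _)).mul (hR χ _))] at this
    rw [Matrix.mul_apply, Matrix.diagonal_apply]
    have e : ∑ χ, A i χ * L χ j = ∑ χ : IrrCharacter G,
        red M ((m χ : ℂ) * centralChar (χ : G → ℂ) (x j) * (χ : G → ℂ) (x i)⁻¹) := by
      refine Finset.sum_congr rfl fun χ _ => ?_
      rw [mul_right_comm, red_mul ((MemLocalRing.natCast _).mul (hR _ _)) (hW _ _)]
    rw [e, this]
    split_ifs with hij
    · rw [red_natCast]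
    · exact red_zero
  obtain ⟨f, -, hA, hL⟩ := exists_injective_det_ne_zero A L (by
    rw [hAL, Matrix.det_diagonal, Finset.prod_ne_zero_iff]
    intro j _
    rw [Ne, hM.natCast_res_eq_zero_iff]
    exact P.not_dvd_index)
  have hB : ∀ i, IsPBlock M (blockOf M (f i : G → ℂ)) := fun i => isPBlock_blockOf (f i)
  have hrow : ∀ i (ψ : IrrCharacter G), ψ ∈ blockOf M (f i : G → ℂ) →
      ∀ j, red M (centralChar (ψ : G → ℂ) (x j)) = L (f i) j := fun i ψ hψ j =>
    (sameBlock_iff_red.1 hψ (x j)).symm
  -- the common exponent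
  obtain ⟨n, hn⟩ : ∃ n, ∀ j, (Subgroup.centralizer ({x j} : Set G)).index.factorization p = n ∧
      n + (Nat.card D).factorization p = (Nat.card G).factorization p := by
    refine ⟨(Nat.card G).factorization p - (Nat.card D).factorization p, fun j => ?_⟩
    have e1 := factorization_card_add_index p (Subgroup.centralizer ({x j} : Set G))
    have e2 := (hD' j).card_eq
    rw [e2, hp.factorization_pow, Finsupp.single_eq_same]
    omega
  have hj0 : ∀ i, ∃ j, L (f i) j ≠ 0 := by
    intro i
    by_contra h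
    push Not at h
    exact hL (Matrix.det_eq_zero_of_row_eq_zero i h)
  have hge : ∀ i (ψ : IrrCharacter G), ψ ∈ blockOf M (f i : G → ℂ) →
      n ≤ (charDegree (ψ : G → ℂ)).factorization p := by
    intro i ψ hψ
    obtain ⟨j, hj⟩ := hj0 i
    rw [← hrow i ψ hψ j] at hj
    rw [← (hn j).1]
    exact factorization_index_le_of_centralChar hM ψ.2 (red_ne_zero_iff.1 hj).2
  have hle : ∀ i, (charDegree (f i : G → ℂ)).factorization p ≤ n := by
    intro i
    have h1 : ¬ MemLocalIdeal M ((f i : G → ℂ) (x i)⁻¹) := fun h =>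
      hA i (MemLocalIdeal.red_eq_zero (MemLocalIdeal.mul_left (MemLocalRing.natCast _) h))
    have h2 := factorization_degree_le_of_apply hM (f i).2 h1
    have h3 : Subgroup.centralizer ({(x i)⁻¹} : Set G) = Subgroup.centralizer {x i} := by
      ext g
      simp only [Subgroup.mem_centralizer_singleton_iff]
      exact Commute.inv_right_iff
    rw [h3, (hn i).1] at h2
    exact h2
  have hmin : ∀ i, Om.minVal p (blockOf M (f i : G → ℂ)) = n := fun i =>
    Om.minVal_eq_of (mem_blockOf_self (f i))
      (le_antisymm (hle i) (hge i _ (mem_blockOf_self (f i)))) (hge i)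
  refine ⟨fun i => blockOf M (f i : G → ℂ), fun i j hij => ?_, fun i => ⟨hB i, ?_⟩,
    fun χ hχ => ?_⟩
  · by_contra hne
    refine hL (Matrix.det_zero_of_row_eq hne ?_)
    ext c
    have h1 : f i ∈ blockOf M (f j : G → ℂ) := by
      have := mem_blockOf_self (M := M) (f i)
      simp only at hij
      rwa [hij] at this
    exact hrow j (f i) h1 c
  · obtain ⟨g, hg⟩ := (hB i).exists_isDefectClass
    obtain ⟨D0, hD0⟩ := exists_isClassDefect p g
    have hdef := hg.isDefectGroup hD0
    obtain ⟨j, hj⟩ := hj0 i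
    obtain ⟨y, hy⟩ := hdef.exists_conj_le_of_lam hM (hB i) (mem_blockOf_self (f i)) (h := x j)
      (by rw [lam_classSum (f i).2.isClassFunction]; exact hj) (hD' j)
    have h1 := (factorization_index_le_of_centralChar hM (f i).2
      (hg.2.2 _ (mem_blockOf_self (f i)))).trans (hle i)
    have h2 := factorization_card_add_index p (Subgroup.centralizer ({g} : Set G))
    have h3 := (hn j).2
    have h4 := (hD' j).card_eq
    have h5 : Nat.card D ≤ Nat.card (D0.map (MulAut.conj y).toMonoidHom) := by
      rw [Subgroup.card_map_of_injective (MulAut.conj y).injective, hD0.card_eq]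
      rw [h4, hp.factorization_pow, Finsupp.single_eq_same] at h3
      rw [h4]
      exact Nat.pow_le_pow_right hp.pos (by omega)
    rw [← Subgroup.eq_of_le_of_card_ge hy h5]
    exact hdef.conj y
  · have hdet : MemLocalRing M (Matrix.det (Matrix.of fun i j : Fin r => (χ i : G → ℂ) (x j))) ∧
        red M (Matrix.det (Matrix.of fun i j : Fin r => (χ i : G → ℂ) (x j))) =
        Matrix.det (Matrix.of fun i j : Fin r => red M ((χ i : G → ℂ) (x j))) := by
      let N : Matrix (Fin r) (Fin r) (locRing M) := fun i j => ⟨(χ i : G → ℂ) (x j), hR _ _⟩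
      have e1 : Matrix.det (Matrix.of fun i j : Fin r => (χ i : G → ℂ) (x j)) =
          ((N.det : locRing M) : ℂ) := by
        have := (locRing M).subtype.map_det N
        exact this.symm
      rw [e1]
      refine ⟨N.det.2, ?_⟩
      rw [red_coe, (resHom M).map_det]
      congr 1
      ext i j
      exact (red_coe (N i j)).symm
    rw [← red_eq_zero_iff hdet.1, hdet.2]
    have hpn : ((p ^ n : ℕ) : ℂ) ≠ 0 := Nat.cast_ne_zero.2 (pow_ne_zero _ hp.ne_zero)
    have hfp : (p ^ n).factorization p = n := by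
      rw [hp.factorization_pow, Finsupp.single_eq_same]
    have hdeg : ∀ i, (charDegree (χ i : G → ℂ)).factorization p = n := fun i => by
      rw [(Om.blockHeight_eq_zero_iff (hχ i).1).1 (hχ i).2, hmin]
    have hu : ∀ i, red M ((charDegree (χ i : G → ℂ) : ℂ) / (p ^ n : ℕ)) ≠ 0 := fun i => by
      rw [red_ne_zero_iff, hM.natCast_div_memLocalRing_iff (χ i).2.charDegree_pos.ne'
        (pow_ne_zero _ hp.ne_zero), hM.natCast_div_memLocalIdeal_iff (χ i).2.charDegree_pos.ne'
        (pow_ne_zero _ hp.ne_zero), hfp, hdeg]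
      simp
    have hv : ∀ j, red M (((p ^ n : ℕ) : ℂ) /
        (Subgroup.centralizer ({x j} : Set G)).index) ≠ 0 := fun j => by
      rw [red_ne_zero_iff, hM.natCast_div_memLocalRing_iff (pow_ne_zero _ hp.ne_zero)
        Subgroup.index_ne_zero_of_finite, hM.natCast_div_memLocalIdeal_iff
        (pow_ne_zero _ hp.ne_zero) Subgroup.index_ne_zero_of_finite, hfp, (hn j).1]
      simp
    have e : (Matrix.of fun i j : Fin r => red M ((χ i : G → ℂ) (x j))) =
        Matrix.of fun i j : Fin r => red M ((charDegree (χ i : G → ℂ) : ℂ) / (p ^ n : ℕ)) *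
          (Matrix.of fun i j : Fin r => red M (((p ^ n : ℕ) : ℂ) /
            (Subgroup.centralizer ({x j} : Set G)).index) * L.submatrix f id i j) i j := by
      ext i j
      simp only [Matrix.of_apply, Matrix.submatrix_apply, id]
      rw [← hrow i (χ i) (hχ i).1 j, ← red_mul (red_ne_zero_iff.1 (hv j)).1 (hW _ _),
        ← red_mul (red_ne_zero_iff.1 (hu i)).1 ((red_ne_zero_iff.1 (hv j)).1.mul (hW _ _))]
      congr 1
      have h0 : ((Subgroup.centralizer ({x j} : Set G)).index : ℂ) ≠ 0 :=
        Nat.cast_ne_zero.2 Subgroup.index_ne_zero_of_finite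
      have h2 := (χ i).2.apply_one_ne_zero
      rw [centralChar, (χ i).2.coe_charDegree]
      field_simp
    rw [e, Matrix.det_mul_column, Matrix.det_mul_row]
    exact mul_ne_zero (Finset.prod_ne_zero_iff.2 fun i _ => hu i)
      (mul_ne_zero (Finset.prod_ne_zero_iff.2 fun j _ => hv j) hL)

end Cfsg.Agent.S4741
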