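import Mathlib
import Cfsg.Statements.S4742
import Cfsg.Agent.Blk.DefZeroInv

set_option autoImplicit false
open Cfsg

namespace Cfsg.Agent.S4742

set_option linter.unusedVariables false

open Cfsg.Agent.Blk Cfsg.Agent.Ch Cfsg.Agent.Inv


/-- Let p ≠ q be primes dividing the order of the finite group G, and suppose the centralizer of every non-identity p-element of G has order prime to q. Then either G has an irreducible character of p-defect zero, or for every non-identity q-element z of G there are conjugates g, h of z such that g h⁻¹ is a non-identity p-element. -/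
theorem result {G : Type*} [Group G] [Finite G] (p q : ℕ) [Fact p.Prime] [Fact q.Prime] (hppq : p ≠ q) (hpG : p ∣ Nat.card G) (hqG : q ∣ Nat.card G) (hC : ∀ g : G, g ≠ 1 → (∃ k : ℕ, orderOf g = p ^ k) → ¬ q ∣ Nat.card ↥(Subgroup.centralizer ({g} : Set G))) : (∃ χ : Cfsg.IrrCharacter G, (Cfsg.charDegree (χ : G → ℂ)).factorization p = (Nat.card G).factorization p) ∨ ∀ z : G, z ≠ 1 → (∃ k : ℕ, orderOf z = q ^ k) → ∃ g h : G, IsConj z g ∧ IsConj z h ∧ g * h⁻¹ ≠ 1 ∧ ∃ k : ℕ, orderOf (g * h⁻¹) = p ^ k := by
  by_cases hno : ∃ χ : IrrCharacter G,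
      (charDegree (χ : G → ℂ)).factorization p = (Nat.card G).factorization p
  · exact Or.inl hno
  refine Or.inr fun z hz ⟨k, hk⟩ => ?_
  obtain ⟨m, hm⟩ := exists_pow_orderOf_eq_of_pelt hz hk
  have h1 := not_dvd_card_centralizer_of_no_commute (no_commute_of_centralizer hC) hm
  have h2 : ¬ p ∣ Nat.card (Subgroup.centralizer ({z} : Set G)) := fun h => h1 (h.trans
    (Subgroup.card_dvd_of_le fun a ha => Subgroup.mem_centralizer_singleton_iff.2
      (Commute.pow_right (Subgroup.mem_centralizer_singleton_iff.1 ha) m)))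
  obtain ⟨h, hc, hne, hk⟩ := exists_pelt_of_no_defect_zero (Fact.out : p.Prime) hno h2
  exact ⟨h, z, hc, IsConj.refl z, hne, hk⟩

end Cfsg.Agent.S4742
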