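import Mathlib
import Cfsg.Statements.S4743
import Cfsg.Agent.Blk.DefZeroInv
import Cfsg.Agent.GT.PSolvable
import Cfsg.Agent.GT.PPrimeCore

set_option autoImplicit false
open Cfsg

namespace Cfsg.Agent.S4743

set_option linter.unusedVariables false

open Cfsg.Agent.Blk Cfsg.Agent.Ch Cfsg.Agent.Inv Cfsg.Agent.GT

theorem defect_zero_of_normal {G : Type*} [Group G] [Finite G] {p q : ℕ} [hp : Fact p.Prime]
    [hq : Fact q.Prime]
    (hC : ∀ s u : G, orderOf s = q → orderOf u = p → ¬ Commute s u) (N : Subgroup G)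
    [hN : N.Normal] (h1 : q ∣ Nat.card N) (h2 : ¬ p ∣ Nat.card N) :
    ∃ χ : IrrCharacter G,
      (charDegree (χ : G → ℂ)).factorization p = (Nat.card G).factorization p := by
  by_contra hno
  obtain ⟨z, hzN, hz⟩ := SE.exists_mem_orderOf_eq h1
  obtain ⟨h, hc, hne, k, hk⟩ := exists_pelt_of_no_defect_zero hp.out hno
    (not_dvd_card_centralizer_of_no_commute hC hz)
  obtain ⟨c, rfl⟩ := isConj_iff.1 hc
  obtain ⟨m, hm⟩ := exists_pow_orderOf_eq_of_pelt hne hk
  exact h2 (SE.dvd_card_of_mem (pow_mem (mul_mem (hN.conj_mem z hzN c) (inv_mem hzN)) m)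
    (by rw [hm]))

theorem aux {G : Type*} [Group G] [Finite G] {p q : ℕ} [hp : Fact p.Prime]
    [hq : Fact q.Prime] (hpq : p ≠ q) (hpG : p ∣ Nat.card G)
    (hC : ∀ s u : G, orderOf s = q → orderOf u = p → ¬ Commute s u) (hs : IsPSolvable p G) :
    (∃ χ : IrrCharacter G,
      (charDegree (χ : G → ℂ)).factorization p = (Nat.card G).factorization p) ∨
    (∃ χ : IrrCharacter G,
      (charDegree (χ : G → ℂ)).factorization q = (Nat.card G).factorization q) := by
  by_cases h : q ∣ Nat.card (pPrimeCore p G)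
  · exact Or.inl (defect_zero_of_normal hC _ h (not_dvd_card_pPrimeCore hp.out))
  right
  have hC' : ∀ s u : G, orderOf s = p → orderOf u = q → ¬ Commute s u :=
    fun s u hs hu h => hC u s hu hs h.symm
  have hnt : Nontrivial (G ⧸ pPrimeCore p G) := by
    rw [QuotientGroup.nontrivial_iff]
    intro e
    apply not_dvd_card_pPrimeCore (G := G) hp.out
    rw [e, Subgroup.card_top]; exact hpG
  have hne : pCore p (G ⧸ pPrimeCore p G) ≠ ⊥ :=
    ((hs.quotient _).pCore_ne_bot_or).resolve_right (not_not.2 pPrimeCore_quotient_pPrimeCore)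
  have hP : IsPGroup p (pCore p (G ⧸ pPrimeCore p G)) := isPGroup_pCore p
  refine defect_zero_of_normal hC' (pPrimePCore p G) ?_ ?_
  · rw [card_pPrimePCore]
    exact (SE.dvd_card_of_pgroup hP hne).mul_right _
  · rw [card_pPrimePCore, hq.out.dvd_mul]
    rintro (h' | h')
    · obtain ⟨k, hk⟩ := IsPGroup.iff_card.1 hP
      rw [hk] at h'
      exact hpq ((Nat.prime_dvd_prime_iff_eq hq.out hp.out).1 (hq.out.dvd_of_dvd_pow h')).symm
    · exact h h'


/-- Let p ≠ q be primes dividing the order of the finite group G, suppose the centralizer of every non-identity p-element has order prime to q, and suppose G is p-solvable or q-solvable. Then G has an irreducible character of p-defect zero or an irreducible character of q-defect zero. -/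
theorem result {G : Type*} [Group G] [Finite G] (p q : ℕ) [Fact p.Prime] [Fact q.Prime] (hppq : p ≠ q) (hpG : p ∣ Nat.card G) (hqG : q ∣ Nat.card G) (hC : ∀ g : G, g ≠ 1 → (∃ k : ℕ, orderOf g = p ^ k) → ¬ q ∣ Nat.card ↥(Subgroup.centralizer ({g} : Set G))) (hsolv : Cfsg.IsPSolvable p G ∨ Cfsg.IsPSolvable q G) : (∃ χ : Cfsg.IrrCharacter G, (Cfsg.charDegree (χ : G → ℂ)).factorization p = (Nat.card G).factorization p) ∨ (∃ χ : Cfsg.IrrCharacter G, (Cfsg.charDegree (χ : G → ℂ)).factorization q = (Nat.card G).factorization q) := by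
  have hC' := no_commute_of_centralizer hC
  rcases hsolv with h | h
  · exact aux hppq hpG hC' h
  · exact (aux hppq.symm hqG (fun s u hs hu h => hC' u s hu hs h.symm) h).symm

end Cfsg.Agent.S4743
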