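import Mathlib
import Cfsg.Statements.S4746
import Cfsg.Agent.Blk.DefZeroInv

set_option autoImplicit false
open Cfsg

namespace Cfsg.Agent.S4746

set_option linter.unusedVariables false

open Cfsg.Agent.Blk Cfsg.Agent.Ch Cfsg.Agent.Inv


/-- Let p be an odd prime and G a finite group of even order divisible by p in which the centralizer of every non-identity p-element has odd order. Then G has an irreducible character of p-defect zero or an irreducible character of even degree. -/
theorem result {G : Type*} [Group G] [Finite G] (p : ℕ) [Fact p.Prime] (hp2 : p ≠ 2) (hpG : p ∣ Nat.card G) (h2G : 2 ∣ Nat.card G) (hC : ∀ g : G, g ≠ 1 → (∃ k : ℕ, orderOf g = p ^ k) → Odd (Nat.card ↥(Subgroup.centralizer ({g} : Set G)))) : (∃ χ : Cfsg.IrrCharacter G, (Cfsg.charDegree (χ : G → ℂ)).factorization p = (Nat.card G).factorization p) ∨ ∃ χ : Cfsg.IrrCharacter G, Even (Cfsg.charDegree (χ : G → ℂ)) := by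
  by_cases hno : ∃ χ : IrrCharacter G,
      (charDegree (χ : G → ℂ)).factorization p = (Nat.card G).factorization p
  · exact Or.inl hno
  have hC' := no_commute_of_centralizer (q := 2) fun g h1 h2 h3 =>
    (Nat.not_even_iff_odd.2 (hC g h1 h2)) (even_iff_two_dvd.2 h3)
  obtain ⟨t, ht⟩ := exists_involution_of_even (even_iff_two_dvd.2 h2G)
  obtain ⟨P, hP, hinv⟩ := exists_sylow_inverted_of_no_defect_zero hC' hno ht
  obtain ⟨u, hu⟩ := (Subgroup.ne_bot_iff_exists_ne_one).1 hP
  obtain ⟨k, hk⟩ := IsPGroup.iff_orderOf.1 P.isPGroup' u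
  rw [← Subgroup.orderOf_coe] at hk
  have hu1 : (u : G) ≠ 1 := fun e => hu (Subtype.ext e)
  exact Or.inr (exists_even_degree_of_real hu1 (isConj_iff.2 ⟨t, hinv u u.2⟩)
    (hC u hu1 ⟨k, hk⟩))

end Cfsg.Agent.S4746
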