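import Mathlib
import Cfsg.Statements.S4748
import Cfsg.Agent.Blk.TIDegree
import Cfsg.Agent.Ch.Kernel
import Cfsg.Agent.GT.PSolvable
import Cfsg.Agent.GT.PPrimeCore

set_option autoImplicit false
open scoped Pointwise
open Cfsg

namespace Cfsg.Agent.S4748

open Cfsg.Agent.Ch

/-- Let G be a finite p-solvable group whose Sylow p-subgroup P meets each conjugate g P g⁻¹ with g outside N_G(P) trivially, and let χ be a faithful character of G (χ g = χ 1 only for g = 1) whose degree d satisfies d² ≤ |P|. Then P is normal in G. -/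
theorem result {G : Type*} [Group G] [Finite G] (p : ℕ) [Fact p.Prime] (hsolv : Cfsg.IsPSolvable p G) (P : Sylow p G) (hTI : ∀ g : G, g ∉ Subgroup.normalizer ((P : Subgroup G) : Set G) → (P : Subgroup G) ⊓ (MulAut.conj g • (P : Subgroup G)) = ⊥) (χ : G → ℂ) (hχ : Cfsg.IsCharacter G χ) (hfaith : ∀ g : G, χ g = χ 1 → g = 1) (hdeg : Cfsg.charDegree χ ^ 2 ≤ Nat.card ↥(P : Subgroup G)) : (P : Subgroup G).Normal := by
  classical
  have hp : p.Prime := Fact.out
  have hTI' := Blk.TID.ti_of_inf_eq_bot hTI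
  by_contra hn
  rw [← Subgroup.normalizer_eq_top_iff, Subgroup.eq_top_iff'] at hn
  push Not at hn
  obtain ⟨g₀, hg₀⟩ := hn
  have hO : pCore p G = ⊥ := by
    rw [eq_bot_iff]
    intro x hx
    refine hTI' g₀ hg₀ x (GT.pCore_le_sylow P hx) (GT.pCore_le_sylow P ?_)
    simpa using (inferInstance : (pCore p G).Normal).conj_mem x hx g₀⁻¹
  have hP : (P : Subgroup G) ≠ ⊥ := by
    intro h
    apply hg₀
    rw [h, (Subgroup.normalizer_eq_top_iff (H := (⊥ : Subgroup G))).2 inferInstance]
    trivial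
  haveI : Nontrivial (P : Subgroup G) := (Subgroup.nontrivial_iff_ne_bot _).2 hP
  haveI := P.isPGroup'.center_nontrivial
  obtain ⟨⟨⟨z, hzP⟩, hzc⟩, hz1⟩ := exists_ne (1 : Subgroup.center (P : Subgroup G))
  have hz1' : z ≠ 1 := fun h => hz1 (Subtype.ext (Subtype.ext h))
  have hzc' : ∀ u ∈ (P : Subgroup G), u * z = z * u := fun u hu =>
    congrArg Subtype.val (Subgroup.mem_center_iff.1 hzc ⟨u, hu⟩)
  have hQP : pPrimeCore p G ⊓ (P : Subgroup G) = ⊥ := by
    obtain ⟨k, hk⟩ := P.isPGroup'.exists_card_eq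
    exact Subgroup.inf_eq_bot_of_coprime (by
      rw [hk]; exact (GT.coprime_card_pPrimeCore p).pow_right _)
  let L : Subgroup G := pPrimeCore p G ⊔ P
  have hPL : (P : Subgroup G) ≤ L := le_sup_right
  let z' : L := ⟨z, hPL hzP⟩
  let H : Subgroup L := Subgroup.centralizer {z'}
  have hNH : Subgroup.normalizer ((P.subtype hPL : Subgroup L) : Set L) ≤ H := by
    intro n hn
    rw [Subgroup.mem_centralizer_singleton_iff]
    obtain ⟨n, hnL⟩ := n
    have h1 : n ∈ ((pPrimeCore p G ⊔ (P : Subgroup G) : Subgroup G) : Set G) := hnL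
    rw [Subgroup.normal_mul] at h1
    obtain ⟨q, hq, u, hu, rfl⟩ := h1
    have h2 : q * u * z * (q * u)⁻¹ ∈ (P : Subgroup G) :=
      (Subgroup.mem_normalizer_iff.1 hn z').1 hzP
    have h3 : q * u * z * (q * u)⁻¹ = q * z * q⁻¹ := by
      rw [mul_assoc q, hzc' u hu]; group
    rw [h3] at h2
    have h4 : q * z * q⁻¹ * z⁻¹ ∈ pPrimeCore p G ⊓ (P : Subgroup G) := by
      refine Subgroup.mem_inf.2 ⟨?_, mul_mem h2 (inv_mem hzP)⟩
      have := mul_mem hq ((inferInstance : (pPrimeCore p G).Normal).conj_mem _ (inv_mem hq) z)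
      simpa [mul_assoc] using this
    rw [hQP, Subgroup.mem_bot] at h4
    apply Subtype.ext
    change q * u * z = z * (q * u)
    rw [mul_assoc, hzc' u hu, ← mul_assoc, ← mul_assoc]
    congr 1
    rw [mul_inv_eq_one, mul_inv_eq_iff_eq_mul] at h4
    exact h4
  have hfree := Blk.TID.free_of_ti (P.subtype hPL) (fun g hg x hx hx' => by
    refine Subtype.ext (hTI' g (fun hg' => hg ?_) x hx hx')
    rw [Subgroup.mem_normalizer_iff] at hg' ⊢
    exact fun y => hg' y) hNH
  haveI := Fintype.ofFinite G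
  have hcard : Nat.card (P.subtype hPL : Subgroup L) = Nat.card (P : Subgroup G) :=
    Nat.card_congr (Subgroup.subgroupOfEquivOfLe hPL).toEquiv
  have hker : ∀ g : L, z' * g * z'⁻¹ * g⁻¹ ∈ charKer (fun x : L => χ x) := by
    intro g
    rw [(hχ.restrict L).mem_charKer_iff_forall_constituent]
    intro φ hφ hne
    have hd := (hχ.restrict L).charDegree_irr_le hφ hne
    rw [charDegree_restrict] at hd
    have h1 := Blk.TID.classInner_restrict_eq (P.subtype hPL).isPGroup'
      (Subgroup.le_normalizer.trans hNH) hfree hφ.isCharacter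
      (hcard ▸ (Nat.pow_le_pow_left hd 2).trans hdeg)
    rw [hφ.classInner_self] at h1
    have h2 := (hφ.isCharacter.restrict H).isIrr_of_classInner_self h1.symm
    have h3 := h2.norm_apply_of_mem_center
      (z := ⟨z', Subgroup.mem_centralizer_singleton_iff.2 rfl⟩) (by
        rw [Subgroup.mem_center_iff]
        intro y
        exact Subtype.ext (Subgroup.mem_centralizer_singleton_iff.1 y.2))
    rw [charDegree_restrict] at h3
    exact hφ.isCharacter.commutator_mem_charKer (hφ.isCharacter.mem_charCenter.2 h3) g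
  have hzQ : z ∈ pPrimeCore p G := by
    apply hsolv.centralizer_pPrimeCore_le hO
    rw [Subgroup.mem_centralizer_iff]
    intro q hq
    have h0 := apply_eq_of_mem_charKer (hker ⟨q, Subgroup.mem_sup_left hq⟩)
    have h1 : z * q * z⁻¹ * q⁻¹ = 1 := hfaith _ h0
    rw [mul_inv_eq_one, mul_inv_eq_iff_eq_mul] at h1
    exact h1.symm
  have : z ∈ pPrimeCore p G ⊓ (P : Subgroup G) := ⟨hzQ, hzP⟩
  rw [hQP, Subgroup.mem_bot] at this
  exact hz1' this

end Cfsg.Agent.S4748
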