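import Mathlib
import Cfsg.Statements.S4752
import Cfsg.Agent.Blk.E27G
import Cfsg.Agent.Blk.PSolvPB
import Cfsg.Agent.S4646
import Cfsg.Agent.S4691

set_option autoImplicit false
open Cfsg

namespace Cfsg.Agent.S4752

open Cfsg.Agent.Blk Cfsg.Agent.Blk.PB Cfsg.Agent.Blk.E27 Subgroup

set_option linter.style.haveILetI false

/-- Let G be a finite group whose Sylow 3-subgroup P is extraspecial of order 27 and exponent 3, with N_G(P) ≤ C_G(Z(P)), and let M be a maximal ideal of the algebraic integers containing 3, B the principal 3-block of G, k its number of irreducible characters, k₀ the number of those of height zero, l its 3-regular rank (number of irreducible Brauer characters), and e the index of P·C_G(P) in N_G(P) (the order of the inertial quotient). Then e = 1 gives (k, k₀, l) = (11, 9, 1); e = 2 gives (10, 6, 2); e = 4 gives (14, 6, 4); e = 8 gives (16, 6, 5). -/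
theorem result {G : Type*} [Group G] [Finite G] (P : Sylow 3 G) (hE : Cfsg.IsExtraspecial 3 ↥(P : Subgroup G)) (h27 : Nat.card ↥(P : Subgroup G) = 27) (hexp : ∀ x ∈ (P : Subgroup G), x ^ 3 = 1) (hNC : ∀ g ∈ Subgroup.normalizer ((P : Subgroup G) : Set G), ∀ z ∈ (P : Subgroup G), (∀ y ∈ (P : Subgroup G), z * y = y * z) → g * z = z * g) (M : Ideal Cfsg.AlgInt) (hM : Cfsg.IsPModular 3 M) (k k₀ l e : ℕ) (hk : Nat.card ↥(Cfsg.principalBlock M G) = k) (hk₀ : Nat.card {χ : Cfsg.IrrCharacter G // χ ∈ Cfsg.principalBlock M G ∧ Cfsg.blockHeight 3 (Cfsg.principalBlock M G) (χ : G → ℂ) = 0} = k₀) (hl : Cfsg.blockRank 3 (Cfsg.principalBlock M G) = l) (he : ((P : Subgroup G) ⊔ Subgroup.centralizer ((P : Subgroup G) : Set G)).relIndex (Subgroup.normalizer ((P : Subgroup G) : Set G)) = e) : (e = 1 → k = 11 ∧ k₀ = 9 ∧ l = 1) ∧ (e = 2 → k = 10 ∧ k₀ = 6 ∧ l = 2) ∧ (e = 4 → k = 14 ∧ k₀ = 6 ∧ l = 4) ∧ (e = 8 → k = 16 ∧ k₀ = 6 ∧ l = 5) := by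
  classical
  haveI := Fintype.ofFinite G
  obtain ⟨z, h⟩ := exists_hy P hE h27 hexp hNC
  obtain ⟨r, u, h1, h2, h3, h4, h5⟩ := h.exists_ld
  rw [he] at h4 h5
  have rk : ∀ {K : Subgroup G}, HasNormalPComplement 3 K →
      blockRank 3 (principalBlock M K) = 1 := fun {K} e =>
    haveI := Fintype.ofFinite K
    (S4646.result 3 M hM).1 ((S4691.result 3 M hM).1 e)
  have hl' := fun i => rk (h1.nc i).1
  have e0 : k₀ = ((pb M G).filter fun χ => ¬ 3 ∣ charDegree χ.1).card := by
    rw [← hk₀, ← Fintype.card_coe, ← Nat.card_eq_fintype_card]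
    exact Nat.card_congr (Equiv.subtypeEquivRight fun χ => by
      rw [Finset.mem_filter, mem_pb, Om.blockHeight_principal_eq_zero_iff hM])
  rw [natCard_principalBlock] at hk
  have key : 2 ∣ e → k₀ = 6 ∧ k + 2 * r = 18 ∧ l + r = 6 := fun h6 => by
    haveI : Nonempty (Fin r) := ⟨⟨0, Nat.pos_of_ne_zero fun e' => by simp [e'] at h4⟩⟩
    have := main hM h1 ⟨h2, mem_center_iff.2 fun g => Subtype.ext
      (mem_centralizer_singleton_iff.1 g.2), h3, h5 h6⟩
      (fun e' => P.not_dvd_index (e'.trans (index_dvd_of_le h.le_cen))) hl'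
    rwa [← e0, hk, hl, Fintype.card_fin] at this
  refine ⟨fun e1 => ?_, fun e1 => ?_, fun e1 => ?_, fun e1 => ?_⟩
  · have hn := h.nc_of_one (he.trans e1)
    have l1 := (S4646.result 3 M hM).1 ((S4691.result 3 M hM).1 hn)
    have k1 := h1.card_eq hM hl'
    rw [l1, rk (hn.subgroup _), Fintype.card_fin] at k1
    have k2 : (pb M G).card = 11 := by subst e1; omega
    refine ⟨hk ▸ k2, e0.trans (card_of_sq (fun χ _ => χ.2.charDegree_pos) ?_ k2), hl ▸ l1⟩
    have := sum_degree_mul_of_nc hM hn (y := 1) (by simp)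
    rw [← P.card_eq_multiplicity, h27] at this
    simp only [← fun χ : IrrCharacter G => χ.2.coe_charDegree] at this
    exact_mod_cast this
  all_goals
    subst e1
    have := key (by norm_num)
    omega

end Cfsg.Agent.S4752
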