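import Mathlib
import Cfsg.Statements.S4755
import Cfsg.Agent.Ch.ClassMult
import Cfsg.Agent.Ch.Linear

set_option autoImplicit false
open Cfsg

namespace Cfsg.Agent.S4755

open Cfsg.Agent.Ch
open scoped commutatorElement

/-- Let x, y be non-identity elements of the finite group G such that χ(x' y') = χ(x') χ(y') for all conjugates x' of x, y' of y and every irreducible character χ. Then the conjugacy class of x y is the set of all products of a conjugate of x with a conjugate of y; every irreducible character of degree greater than 1 vanishes at x y; and the conjugacy class of x y is the coset of the commutator subgroup containing x y. -/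
theorem result {G : Type*} [Group G] [Finite G] (x y : G) (hx : x ≠ 1) (hy : y ≠ 1) (h : ∀ (a b : G) (χ : Cfsg.IrrCharacter G), (χ : G → ℂ) (a * x * a⁻¹ * (b * y * b⁻¹)) = (χ : G → ℂ) (a * x * a⁻¹) * (χ : G → ℂ) (b * y * b⁻¹)) : (∀ z : G, IsConj (x * y) z ↔ ∃ a b : G, z = a * x * a⁻¹ * (b * y * b⁻¹)) ∧ (∀ χ : Cfsg.IrrCharacter G, (χ : G → ℂ) 1 ≠ 1 → (χ : G → ℂ) (x * y) = 0) ∧ (∀ z : G, IsConj (x * y) z ↔ (x * y)⁻¹ * z ∈ commutator G) := by
  classical
  haveI := Fintype.ofFinite G
  have hc : ∀ (a b : G) (χ : IrrCharacter G),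
      (χ : G → ℂ) (a * x * a⁻¹ * (b * y * b⁻¹)) = (χ : G → ℂ) x * (χ : G → ℂ) y := by
    intro a b χ
    rw [h, χ.isClassFunction.conj_eq, χ.isClassFunction.conj_eq]
  have hxy : ∀ χ : IrrCharacter G, (χ : G → ℂ) (x * y) = (χ : G → ℂ) x * (χ : G → ℂ) y := by
    intro χ
    simpa using hc 1 1 χ
  have hvan : ∀ χ : IrrCharacter G, (χ : G → ℂ) 1 ≠ 1 → (χ : G → ℂ) (x * y) = 0 := by
    intro χ hχ
    have h1 := χ.2.apply_one_ne_zero
    have h2 := classMult_sum_conj_mul χ.2 x y
    have h3 : ∑ a : G, (χ : G → ℂ) (a * x * a⁻¹ * y) =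
        Nat.card G * ((χ : G → ℂ) x * (χ : G → ℂ) y) := by
      rw [Finset.sum_congr rfl fun a _ => (by simpa using hc a 1 χ :
        (χ : G → ℂ) (a * x * a⁻¹ * y) = (χ : G → ℂ) x * (χ : G → ℂ) y)]
      simp [Nat.card_eq_fintype_card]
    rw [h3] at h2
    have hG := natCard_ne_zero G
    rw [hxy]
    have h4 : ((χ : G → ℂ) 1 - 1) * ((χ : G → ℂ) x * (χ : G → ℂ) y) = 0 := by
      field_simp at h2
      linear_combination h2
    exact (mul_eq_zero.1 h4).resolve_left (sub_ne_zero.2 hχ)
  refine ⟨fun z => ⟨fun hz => ?_, ?_⟩, hvan, fun z => ⟨fun hz => ?_, fun hz => ?_⟩⟩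
  · obtain ⟨c, rfl⟩ := isConj_iff.1 hz
    exact ⟨c, c, by group⟩
  · rintro ⟨a, b, rfl⟩
    rw [isConj_iff_forall_irr]
    intro χ
    rw [hc, hxy]
  · obtain ⟨c, rfl⟩ := isConj_iff.1 hz
    have : (x * y)⁻¹ * (c * (x * y) * c⁻¹) = ⁅(x * y)⁻¹, c⁆ := by
      rw [commutatorElement_def]; group
    rw [this]
    exact Subgroup.commutator_mem_commutator (Subgroup.mem_top _) (Subgroup.mem_top _)
  · by_contra hne
    have h0 := column_orthogonality_of_not_isConj (fun hh : IsConj z (x * y) => hne hh.symm)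
    have hterm : ∀ χ : IrrCharacter G, (χ : G → ℂ) z * (starRingEnd ℂ) ((χ : G → ℂ) (x * y)) =
        if (χ : G → ℂ) 1 = 1 then 1 else 0 := by
      intro χ
      split_ifs with h1
      · have hk := χ.isCharacter.commutator_le_charKer_of_apply_one h1 hz
        have hz' : (χ : G → ℂ) z = (χ : G → ℂ) (x * y) := by
          have := χ.isClassFunction.apply_mul_of_mem_charKer hk (x * y)
          rwa [mul_inv_cancel_left] at this
        rw [hz', Complex.mul_conj, Complex.normSq_eq_norm_sq,
          χ.isCharacter.norm_eq_one_of_apply_one h1]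
        simp
      · rw [hvan χ h1]; simp
    rw [Finset.sum_congr rfl fun χ _ => hterm χ, Finset.sum_boole, Nat.cast_eq_zero,
      Finset.card_eq_zero] at h0
    have : irrOne G ∈ (Finset.univ.filter fun χ : IrrCharacter G => (χ : G → ℂ) 1 = 1) := by
      simp
    rw [h0] at this
    simp at this

end Cfsg.Agent.S4755
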