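import Mathlib
import Cfsg.Statements.S4756
import Cfsg.Agent.S4755
import Cfsg.Agent.Ch.FrobeniusGroup
import Cfsg.Agent.Ch.Quotient
import Cfsg.Agent.GT.CoprimeGen
import Cfsg.Agent.GT.CoprimeFixed
import Cfsg.Agent.GT.CoprimeAbelian
import Cfsg.Agent.GT.SchurZassenhaus

set_option autoImplicit false
open Cfsg

namespace Cfsg.Agent.S4756

open Cfsg.Agent.Ch

open Cfsg.Agent.GT.CopAct
open scoped commutatorElement

theorem exists_ne {G : Type*} [Group G] [Finite G] {p : ℕ} [Fact p.Prime] {K : Subgroup G}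
    (h : ¬ IsPGroup p K) : ∃ g ∈ K, (orderOf g).Prime ∧ orderOf g ≠ p := by
  by_contra hc
  push Not at hc
  apply h
  rw [IsPGroup.iff_card]
  refine ⟨_, Nat.eq_prime_pow_of_unique_prime_dvd Nat.card_pos.ne' fun {q} hq hd => ?_⟩
  haveI := Fact.mk hq
  obtain ⟨g, hg⟩ := exists_prime_orderOf_dvd_card' q hd
  rw [← Subgroup.orderOf_coe] at hg
  exact hg ▸ hc g g.2 (hg ▸ hq)

theorem eq_of_mem {G : Type*} [Group G] {p q a : ℕ} (hp : p.Prime) (hq : q.Prime)
    {K : Subgroup G} (hK : IsPGroup p K) {x : G} (hx : x ∈ K) (h1 : x ≠ 1)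
    (h : orderOf x = q ^ a) : q = p := by
  haveI := Fact.mk hp
  obtain ⟨k, hk⟩ := IsPGroup.iff_orderOf.1 hK ⟨x, hx⟩
  rw [← Subgroup.orderOf_coe, h] at hk
  have ha : a ≠ 0 := by
    rintro rfl
    exact h1 (orderOf_eq_one_iff.1 (by simpa using h))
  exact (Nat.prime_dvd_prime_iff_eq hq hp).1 (hq.dvd_of_dvd_pow (hk ▸ dvd_pow_self q ha))

/-- For a finite group G the following are equivalent. (1) χ(x y) = χ(x) χ(y) for every irreducible character χ and all non-identity elements x, y of prime power orders for two different primes. (2) G is a p-group for some prime p, or G is abelian, or for some prime p: G = A P with P a normal Sylow p-subgroup and A a nontrivial cyclic subgroup of order prime to p such that, with C = C_P(A) and D = [A, P], one has P = C D, C abelian, D normal in G, C ∩ D = 1, and A acts fixed-point-freely on D (no non-identity element of A centralizes a non-identity element of D). -/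
theorem result {G : Type*} [Group G] [Finite G] : (∀ (x y : G) (χ : Cfsg.IrrCharacter G), x ≠ 1 → y ≠ 1 → (∃ p q a b : ℕ, p.Prime ∧ q.Prime ∧ p ≠ q ∧ orderOf x = p ^ a ∧ orderOf y = q ^ b) → (χ : G → ℂ) (x * y) = (χ : G → ℂ) x * (χ : G → ℂ) y) ↔ ((∃ p : ℕ, p.Prime ∧ IsPGroup p G) ∨ IsMulCommutative G ∨ ∃ (p : ℕ) (_ : Fact p.Prime) (P : Sylow p G) (A : Subgroup G), (P : Subgroup G).Normal ∧ IsCyclic ↥A ∧ A ≠ ⊥ ∧ (Nat.card ↥A).Coprime p ∧ A ⊔ (P : Subgroup G) = ⊤ ∧ IsMulCommutative ↥((P : Subgroup G) ⊓ Subgroup.centralizer (A : Set G)) ∧ (⁅A, (P : Subgroup G)⁆).Normal ∧ ((P : Subgroup G) ⊓ Subgroup.centralizer (A : Set G)) ⊔ ⁅A, (P : Subgroup G)⁆ = (P : Subgroup G) ∧ ((P : Subgroup G) ⊓ Subgroup.centralizer (A : Set G)) ⊓ ⁅A, (P : Subgroup G)⁆ = ⊥ ∧ ∀ a ∈ A, a ≠ 1 → ∀ d ∈ ⁅A, (P : Subgroup G)⁆, a * d = d * a → d = 1) := by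
  classical
  constructor
  · intro h
    by_cases hpg : ∃ p : ℕ, p.Prime ∧ IsPGroup p G
    · exact Or.inl hpg
    by_cases hab : IsMulCommutative G
    · exact Or.inr (Or.inl hab)
    refine Or.inr (Or.inr ?_)
    have key : ∀ x y : G, (orderOf x).Prime → (orderOf y).Prime → orderOf x ≠ orderOf y →
        ∀ z, IsConj (x * y) z ↔ (x * y)⁻¹ * z ∈ commutator G := by
      intro x y hx hy hxy
      have hx1 : x ≠ 1 := fun h => hx.ne_one (by simp [h])
      have hy1 : y ≠ 1 := fun h => hy.ne_one (by simp [h])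
      refine (S4755.result x y hx1 hy1 fun a b χ => h _ _ χ (by simpa using hx1)
        (by simpa using hy1) ⟨_, _, 1, 1, hx, hy, hxy, ?_, ?_⟩).2.2
      · rw [pow_one]; exact (SemiconjBy.orderOf_eq a (by simp [SemiconjBy])).symm
      · rw [pow_one]; exact (SemiconjBy.orderOf_eq b (by simp [SemiconjBy])).symm
    have hK : commutator G ≠ ⊥ := by
      intro h0
      refine hab ⟨⟨fun a b => ?_⟩⟩
      rw [← commutatorElement_eq_one_iff_mul_comm, ← Subgroup.mem_bot, ← h0]
      exact Subgroup.commutator_mem_commutator (Subgroup.mem_top _) (Subgroup.mem_top _)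
    obtain ⟨x, hxK, hp⟩ := exists_prime_orderOf_mem hK
    generalize hpx : orderOf x = p at hp
    haveI := Fact.mk hp
    have hKp : IsPGroup p (commutator G) := by
      by_contra hc
      obtain ⟨y, hy, hq, hne⟩ := exists_ne hc
      have h1 := (key x y (hpx ▸ hp) hq (hpx ▸ hne.symm) 1).2 (by
        rw [mul_one]; exact inv_mem (mul_mem hxK hy))
      rw [isConj_one_left, mul_eq_one_iff_eq_inv] at h1
      exact hne (by rw [← hpx, h1, orderOf_inv])
    obtain ⟨P⟩ : Nonempty (Sylow p G) := inferInstance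
    have hKP : commutator G ≤ P := hKp.le_sylow_of_normal P
    haveI hPn : (P : Subgroup G).Normal := ⟨fun n hn g => by
      have := mul_mem (hKP (Subgroup.commutator_mem_commutator (Subgroup.mem_top g)
        (Subgroup.mem_top n))) hn
      simpa [commutatorElement_def] using this⟩
    obtain ⟨A, hA⟩ := Subgroup.exists_right_complement'_of_coprime P.card_coprime_index
    have hAp : (Nat.card A).Coprime p := by
      rw [← hA.symm.index_eq_card, Nat.coprime_comm, hp.coprime_iff_not_dvd]
      exact P.not_dvd_index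
    have hAP : (Nat.card A).Coprime (Nat.card (P : Subgroup G)) := by
      obtain ⟨k, hk⟩ := P.isPGroup'.exists_card_eq
      rw [hk]; exact hAp.pow_right _
    have hfpf : ∀ a ∈ A, a ≠ 1 → ∀ k ∈ commutator G, a * k = k * a → k = 1 := by
      intro a ha ha1 k hk hak
      obtain ⟨y, hy, hq⟩ := exists_prime_orderOf_mem (H := Subgroup.zpowers a) (by simpa using ha1)
      have hyA : y ∈ A := (Subgroup.zpowers_le.2 ha) hy
      have hne : p ≠ orderOf y := by
        intro h0
        have := Subgroup.orderOf_dvd_natCard _ hyA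
        rw [← h0] at this
        exact (hp.coprime_iff_not_dvd.1 hAp.symm) this
      have hyk : Commute y k := by
        obtain ⟨n, rfl⟩ := hy
        exact Commute.zpow_left hak n
      have h1 : (x * y)⁻¹ * y ∈ commutator G := by
        simpa using (inferInstance : (commutator G).Normal).conj_mem _ (inv_mem hxK) y⁻¹
      have h2 := (key x y (hpx ▸ hp) hq (hpx ▸ hne) y).2 h1
      have h3 := (key x y (hpx ▸ hp) hq (hpx ▸ hne) (y * k)).2 (by
        rw [← mul_assoc]; exact mul_mem h1 hk)
      obtain ⟨c, hc⟩ := isConj_iff.1 (h2.symm.trans h3)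
      have h4 : (y * k) ^ orderOf y = 1 := by rw [← hc, conj_pow, pow_orderOf_eq_one]; simp
      rw [hyk.mul_pow, pow_orderOf_eq_one, one_mul] at h4
      by_contra hk1
      have h5 := (Nat.dvd_prime hq).1 (orderOf_dvd_of_pow_eq_one h4)
      have h6 := h5.resolve_left (by simpa using hk1)
      exact hne (eq_of_mem hp hq hKp hk hk1 (a := 1) (by rw [h6, pow_one])).symm
    have hA1 : A ≠ ⊥ := by
      rintro rfl
      have := hA.sup_eq_top
      rw [sup_bot_eq] at this
      exact hpg ⟨p, hp, (this ▸ P.isPGroup' : IsPGroup p (⊤ : Subgroup G)).of_equiv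
        Subgroup.topEquiv⟩
    have hAc : IsMulCommutative A := ⟨⟨fun a b => Subtype.ext (by
      change (a : G) * b = b * a
      rw [← commutatorElement_eq_one_iff_mul_comm]
      exact eq_one_of_coprime hAP (Subgroup.commutator_le_self A
        (Subgroup.commutator_mem_commutator a.2 b.2))
        (hKP (Subgroup.commutator_mem_commutator (Subgroup.mem_top _) (Subgroup.mem_top _))))⟩⟩
    have hDK : ⁅A, (P : Subgroup G)⁆ ≤ commutator G := Subgroup.commutator_mono le_top le_top
    have hCK : ∀ k ∈ commutator G, k ∈ Subgroup.centralizer (A : Set G) → k = 1 := by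
      intro k hk hkc
      obtain ⟨⟨a, ha⟩, ha1⟩ := Subgroup.ne_bot_iff_exists_ne_one.1 hA1
      exact hfpf a ha (fun h => ha1 (Subtype.ext h)) k hk (hkc a ha)
    refine ⟨p, inferInstance, P, A, hPn, ?_, hA1, hAp, hA.symm.sup_eq_top, ?_, ?_, ?_, ?_,
      fun a ha ha1 d hd => hfpf a ha ha1 d (hDK hd)⟩
    · by_contra hc
      obtain ⟨a, ha, ha1, hne⟩ := exists_inf_centralizer_ne_bot hAc hc
        (K := commutator G) Subgroup.le_normalizer_of_normal (coprime_mono hAP le_rfl hKP) hK
      refine hne (eq_bot_iff.2 fun k hk => ?_)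
      exact hfpf a ha ha1 k hk.1 (Subgroup.mem_centralizer_singleton_iff.1 hk.2).symm
    · refine ⟨⟨fun a b => Subtype.ext ?_⟩⟩
      change (a : G) * b = b * a
      rw [← commutatorElement_eq_one_iff_mul_comm]
      exact hCK _ (Subgroup.commutator_mem_commutator (Subgroup.mem_top _) (Subgroup.mem_top _))
        (Subgroup.commutator_le_self _ (Subgroup.commutator_mem_commutator a.2.2 b.2.2))
    · rw [← Subgroup.normalizer_eq_top_iff, eq_top_iff, ← hA.symm.sup_eq_top]
      exact sup_le (Subgroup.normalizer_commutator_ge_left _ _)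
        (Subgroup.normalizer_commutator_ge_right _ _)
    · rw [sup_comm, Subgroup.commutator_comm]
      haveI := P.isPGroup'.isNilpotent
      exact commutator_sup_centralizer Subgroup.le_normalizer_of_normal hAP (Or.inr inferInstance)
    · exact eq_bot_iff.2 fun k hk => hCK k (hDK hk.2) hk.1.2
  · rintro (⟨r, hr, hG⟩ | hab | ⟨r, hr, P, A, hPn, hAc, hA1, hAp, hAP, hC, hDn, hCD, -, hfpf⟩)
      x y χ hx hy ⟨p, q, a, b, hp, hq, hpq, hxp, hyq⟩
    · have hG' : IsPGroup r (⊤ : Subgroup G) := hG.to_subgroup _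
      exact absurd ((eq_of_mem hr hp hG' trivial hx hxp).trans
        (eq_of_mem hr hq hG' trivial hy hyq).symm) hpq
    · exact χ.isCharacter.map_mul_of_apply_one
        (χ.2.apply_one_eq_one_of_comm hab.is_comm.comm) x y
    generalize hD : ⁅A, (P : Subgroup G)⁆ = D at hDn hCD hfpf
    have hDP : D ≤ P := hCD ▸ le_sup_right
    have hdec : ∀ g : G, ∃ d ∈ D, ∃ a ∈ A,
        ∃ c ∈ (P : Subgroup G) ⊓ Subgroup.centralizer (A : Set G), g = d * (c * a) := by
      intro g
      obtain ⟨u, hu, a, ha, rfl⟩ := exists_mul_eq_of_sup_eq_top (N := (P : Subgroup G))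
        (sup_comm A _ ▸ hAP) g
      rw [← hCD, sup_comm] at hu
      obtain ⟨d, hd, c, hc, rfl⟩ :=
        (mem_sup_iff_of_le_normalizer Subgroup.le_normalizer_of_normal).1 hu
      exact ⟨d, hd, a, ha, c, hc, mul_assoc _ _ _⟩
    by_cases hk : D ≤ charKer (χ : G → ℂ)
    · refine χ.isCharacter.map_mul_of_apply_one
        (χ.2.apply_one_eq_one_iff_commutator_le.2 (le_trans ?_ hk)) x y
      rw [← QuotientGroup.ker_mk' D]
      letI : CommGroup (G ⧸ D) := ⟨fun g h => by
        obtain ⟨g, rfl⟩ := QuotientGroup.mk_surjective g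
        obtain ⟨h, rfl⟩ := QuotientGroup.mk_surjective h
        obtain ⟨d, hd, a, ha, c, hc, rfl⟩ := hdec g
        obtain ⟨d', hd', a', ha', c', hc', rfl⟩ := hdec h
        rw [QuotientGroup.mk_mul D d, QuotientGroup.mk_mul D d',
          (QuotientGroup.eq_one_iff d).2 hd, (QuotientGroup.eq_one_iff d').2 hd', one_mul, one_mul,
          ← QuotientGroup.mk_mul, ← QuotientGroup.mk_mul]
        congr 1
        have e1 : c * c' = c' * c := congrArg Subtype.val (hC.is_comm.comm ⟨c, hc⟩ ⟨c', hc'⟩)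
        have e2 : a * a' = a' * a := by
          letI := IsCyclic.commGroup (α := A)
          exact congrArg Subtype.val (mul_comm (⟨a, ha⟩ : A) ⟨a', ha'⟩)
        have e3 : a * c' = c' * a := hc'.2 a ha
        have e4 : a' * c = c * a' := hc.2 a' ha'
        calc c * a * (c' * a') = c * (a * c') * a' := by group
          _ = c * c' * (a * a') := by rw [e3]; group
          _ = c' * (c * a') * a := by rw [e1, e2]; group
          _ = c' * a' * (c * a) := by rw [← e4]; group⟩
      exact Abelianization.commutator_subset_ker _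
    have hvan : ∀ g, g ∉ (P : Subgroup G) → (χ : G → ℂ) g = 0 := by
      intro g hg
      obtain ⟨d, hd, a, ha, c, hc, rfl⟩ := hdec g
      have ha1 : a ≠ 1 := by
        rintro rfl
        exact hg (by simpa using mul_mem (hDP hd) hc.1)
      have hfp : ∀ k ∈ D, c * a * k = k * (c * a) → k = 1 := by
        intro k hk hck
        obtain ⟨n, hn⟩ := P.isPGroup' ⟨c, hc.1⟩
        have hn' : c ^ r ^ n = 1 := congrArg Subtype.val hn
        have hca : Commute c a := (hc.2 a ha).symm
        have h1 := Commute.pow_left hck (r ^ n)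
        rw [hca.mul_pow, hn', one_mul] at h1
        refine hfpf _ (pow_mem ha _) (fun h0 => ha1 ?_) k hk h1
        have h2 := (hAp.pow_right n).coprime_dvd_left (Subgroup.orderOf_dvd_natCard _ ha)
        exact orderOf_eq_one_iff.1 (h2.eq_one_of_dvd (orderOf_dvd_of_pow_eq_one h0))
      have hall : ∀ k ∈ D, (χ : G → ℂ) (k * (c * a)) = (χ : G → ℂ) (c * a) := by
        intro k hk
        obtain ⟨u, -, hu⟩ := exists_conj_eq_mul_of_fpf hfp hk
        rw [← hu, χ.isClassFunction.conj_eq]
      haveI := Fintype.ofFinite D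
      have h0 := χ.2.sum_normal_eq_zero D hk (c * a)
      rw [Finset.sum_congr rfl fun (k : D) _ => hall k k.2, Finset.sum_const, Finset.card_univ,
        nsmul_eq_mul, mul_eq_zero] at h0
      rw [hall d hd]
      exact h0.resolve_left (Nat.cast_ne_zero.2 Fintype.card_ne_zero)
    have hnot : ¬ (x ∈ (P : Subgroup G) ∧ y ∈ (P : Subgroup G)) := fun h =>
      hpq ((eq_of_mem hr.out hp P.isPGroup' h.1 hx hxp).trans
        (eq_of_mem hr.out hq P.isPGroup' h.2 hy hyq).symm)
    have hxy : x * y ∉ (P : Subgroup G) := by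
      intro h
      have h1 : (x : G ⧸ (P : Subgroup G)) = (y : G ⧸ (P : Subgroup G))⁻¹ := by
        rw [← mul_eq_one_iff_eq_inv, ← QuotientGroup.mk_mul, QuotientGroup.eq_one_iff]
        exact h
      have h2 : orderOf (x : G ⧸ (P : Subgroup G)) ∣ p ^ a :=
        hxp ▸ orderOf_map_dvd (QuotientGroup.mk' _) x
      have h3 : orderOf (x : G ⧸ (P : Subgroup G)) ∣ q ^ b := by
        rw [h1, orderOf_inv]
        exact hyq ▸ orderOf_map_dvd (QuotientGroup.mk' _) y
      have h4 := Nat.eq_one_of_dvd_coprimes (Nat.coprime_pow_primes a b hp hq hpq) h2 h3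
      rw [orderOf_eq_one_iff, QuotientGroup.eq_one_iff] at h4
      exact hnot ⟨h4, by simpa using mul_mem (inv_mem h4) h⟩
    rw [hvan _ hxy]
    by_cases h : x ∈ (P : Subgroup G)
    · rw [hvan y fun h' => hnot ⟨h, h'⟩, mul_zero]
    · rw [hvan x h, zero_mul]

end Cfsg.Agent.S4756
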