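import Mathlib
import Cfsg.Statements.S4757
import Cfsg.Agent.Ch.Linear
import Cfsg.Agent.Ch.Kernel
import Cfsg.Agent.GT.PPrimeCore

set_option autoImplicit false
open Cfsg

namespace Cfsg.Agent.S4757

open Cfsg.Agent.Ch

/-- A normal subgroup meeting the centralizer of an involution trivially has odd order. -/
theorem odd_card_of_fixed {G : Type*} [Group G] [Finite G] {u : G} (hu : u * u = 1)
    (K : Subgroup G) [hK : K.Normal] (h : ∀ k ∈ K, u * k = k * u → k = 1) : Odd (Nat.card K) := by
  classical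
  haveI := Fintype.ofFinite K
  let f : Function.End K := fun k => ⟨u * k * u⁻¹, hK.conj_mem k k.2 u⟩
  have hf : f ^ 2 ^ 1 = 1 := by
    funext k
    apply Subtype.ext
    change u * (u * k * u⁻¹) * u⁻¹ = k
    have : u⁻¹ = u := inv_eq_of_mul_eq_one_right hu
    rw [this, ← mul_assoc, ← mul_assoc, hu, one_mul, mul_assoc, hu, mul_one]
  have h1 := Equiv.Perm.card_fixedPoints_modEq hf
  have h2 : Fintype.card f.fixedPoints = 1 := by
    rw [Fintype.card_eq_one_iff]
    refine ⟨⟨1, Subtype.ext (by simp [f])⟩, ?_⟩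
    rintro ⟨k, hk⟩
    refine Subtype.ext (Subtype.ext (h k k.2 ?_))
    have : u * k * u⁻¹ = k := congrArg Subtype.val hk
    rwa [mul_inv_eq_iff_eq_mul] at this
  rw [h2] at h1
  rw [Nat.card_eq_fintype_card, Nat.odd_iff]
  exact h1

/-- Let u ≠ 1 be an element of the finite group G and c a complex number such that every non-principal irreducible character χ satisfies χ(1) − χ(u) = c or χ(u) = 0. Then the following are equivalent: (a) u has order 2, G is generated by u together with O(G), the largest normal subgroup of G of odd order, and the centralizer of u is {1, u}; (b) G is not perfect; (c) c = 2. -/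
theorem result {G : Type*} [Group G] [Finite G] (u : G) (hu : u ≠ 1) (c : ℂ) (hyp : ∀ χ : Cfsg.IrrCharacter G, (χ : G → ℂ) ≠ (fun _ => (1 : ℂ)) → ((χ : G → ℂ) 1 - (χ : G → ℂ) u = c ∨ (χ : G → ℂ) u = 0)) : ((orderOf u = 2 ∧ Subgroup.zpowers u ⊔ Cfsg.oddCore G = ⊤ ∧ Subgroup.centralizer ({u} : Set G) = Subgroup.zpowers u) ↔ commutator G ≠ ⊤) ∧ (commutator G ≠ ⊤ ↔ c = 2) := by
  classical
  have horth := sum_degree_mul_apply_of_ne hu
  have hne : ∀ χ : IrrCharacter G, χ ≠ irrOne G → (χ : G → ℂ) ≠ fun _ => 1 :=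
    fun χ h h' => h (Subtype.ext h')
  have hc0 : c ≠ 0 := by
    intro h0
    have h1 := congrArg Complex.re horth
    rw [Complex.re_sum, Complex.zero_re] at h1
    have h2 : ∀ χ : IrrCharacter G, 0 ≤ ((χ : G → ℂ) 1 * (χ : G → ℂ) u).re := by
      intro χ
      by_cases h : χ = irrOne G
      · simp [h]
      rcases hyp χ (hne χ h) with h' | h'
      · rw [h0, sub_eq_zero] at h'
        rw [← h', ← χ.2.coe_charDegree, ← Nat.cast_mul, Complex.natCast_re]
        positivity
      · simp [h']
    have := (Finset.sum_eq_zero_iff_of_nonneg fun χ _ => h2 χ).1 h1 (irrOne G) (Finset.mem_univ _)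
    simp at this
  have hlin : ∀ f : G →* ℂˣ, f ≠ 1 → 1 - (f u : ℂ) = c := by
    intro f hf
    have := hyp (linIrr f) (hne _ fun h => hf (linIrr_injective (h.trans linIrr_one.symm)))
    simpa using this
  have hbc : commutator G ≠ ⊤ → c = 2 := by
    intro h
    rw [Ne, Subgroup.eq_top_iff'] at h
    push Not at h
    obtain ⟨g, hg⟩ := h
    obtain ⟨f, hf⟩ := exists_monoidHom_units_ne_one hg
    have hf1 : f ≠ 1 := fun h => hf (by simp [h])
    have h1 := hlin f hf1
    have h2 := hlin f⁻¹ fun h => hf (by simpa using DFunLike.congr_fun h g)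
    have h3 : (f u : ℂ) * (f⁻¹ u : ℂˣ) = 1 := by simp
    have h4 : ((f⁻¹ u : ℂˣ) : ℂ) = f u := by linear_combination h1 - h2
    rw [h4] at h3
    have h5 : (f u : ℂ) ≠ 1 := fun h => hc0 (by rw [← h1, h, sub_self])
    have h6 : (f u : ℂ) = -1 := (mul_self_eq_one_iff.1 h3).resolve_left h5
    rw [← h1, h6]; norm_num
  -- the integer terms
  have hterm : c = 2 → ∀ χ : IrrCharacter G, χ ≠ irrOne G → (χ : G → ℂ) 1 ≠ 1 →
      0 ≤ ((χ : G → ℂ) 1 * (χ : G → ℂ) u).re ∧
        (((χ : G → ℂ) 1 * (χ : G → ℂ) u).re = 0 → (χ : G → ℂ) u = 0) := by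
    intro h2 χ h h1
    rcases hyp χ (hne χ h) with h' | h'
    · obtain ⟨k, hk⟩ := Nat.exists_eq_add_of_le (χ.2.two_le_charDegree h1)
      have e1 : (χ : G → ℂ) 1 = ((2 + k : ℕ) : ℂ) := by rw [← hk, χ.2.coe_charDegree]
      have e2 : (χ : G → ℂ) u = (k : ℕ) := by
        rw [e1, h2] at h'
        push_cast at h'
        linear_combination -h'
      rw [e1, e2, ← Nat.cast_mul, Complex.natCast_re]
      refine ⟨by positivity, fun h0 => ?_⟩
      have : (2 + k) * k = 0 := by exact_mod_cast h0
      have : k = 0 := by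
        rcases Nat.mul_eq_zero.1 this with h | h <;> omega
      simp [this]
    · simp [h']
  have hcb : c = 2 → commutator G ≠ ⊤ := by
    intro h2 htop
    have h1 := congrArg Complex.re horth
    rw [Complex.re_sum, Complex.zero_re] at h1
    have h3 : ∀ χ : IrrCharacter G, 0 ≤ ((χ : G → ℂ) 1 * (χ : G → ℂ) u).re := by
      intro χ
      by_cases h : χ = irrOne G
      · simp [h]
      exact (hterm h2 χ h fun h' => hne χ h (χ.2.eq_one_of_commutator_eq_top h' htop)).1
    have := (Finset.sum_eq_zero_iff_of_nonneg fun χ _ => h3 χ).1 h1 (irrOne G) (Finset.mem_univ _)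
    simp at this
  refine ⟨⟨?_, fun h => ?_⟩, hbc, hcb⟩
  · rintro ⟨h1, h2, -⟩ htop
    have h3 : commutator G ≤ oddCore G := by
      rw [← QuotientGroup.ker_mk' (oddCore G)]
      haveI : IsCyclic (G ⧸ oddCore G) := by
        refine ⟨⟨(u : G ⧸ oddCore G), fun y => ?_⟩⟩
        obtain ⟨y, rfl⟩ := QuotientGroup.mk_surjective y
        have hy : y ∈ ((Subgroup.zpowers u ⊔ oddCore G : Subgroup G) : Set G) := by
          rw [h2]; trivial
        rw [Subgroup.mul_normal] at hy
        obtain ⟨_, ⟨n, rfl⟩, k, hk, rfl⟩ := hy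
        refine ⟨n, ?_⟩
        simp [(QuotientGroup.eq_one_iff k).2 hk]
      letI := IsCyclic.commGroup (α := G ⧸ oddCore G)
      exact Abelianization.commutator_subset_ker _
    have h4 : u ∈ oddCore G := h3 (htop ▸ Subgroup.mem_top u)
    have h5 := Subgroup.orderOf_dvd_natCard _ h4
    rw [h1] at h5
    exact (Nat.not_even_iff_odd.2 GT.odd_card_oddCore) (even_iff_two_dvd.2 h5)
  · have h2 := hbc h
    have hm : ∀ f : G →* ℂˣ, f ≠ 1 → (f u : ℂ) = -1 := fun f hf => by
      have := hlin f hf
      rw [h2] at this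
      linear_combination -this
    have hmul : ∀ f f' : G →* ℂˣ, f ≠ 1 → f' ≠ 1 → f * f' = 1 := by
      intro f f' hf hf'
      by_contra hcon
      have := hm _ hcon
      rw [MonoidHom.mul_apply, Units.val_mul, hm f hf, hm f' hf'] at this
      norm_num at this
    rw [Ne, Subgroup.eq_top_iff'] at h
    push Not at h
    obtain ⟨g, hg⟩ := h
    obtain ⟨f, hf⟩ := exists_monoidHom_units_ne_one hg
    have hf1 : f ≠ 1 := fun h => hf (by simp [h])
    have hfne : linIrr f ≠ irrOne G := fun h => hf1 (linIrr_injective (h.trans linIrr_one.symm))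
    have hrest : ∀ χ : IrrCharacter G, χ ≠ irrOne G → χ ≠ linIrr f → (χ : G → ℂ) 1 ≠ 1 := by
      intro χ h1 h2 h3
      obtain ⟨f', rfl⟩ := mem_range_linIrr_iff.2 h3
      have hf' : f' ≠ 1 := fun h => h1 (by rw [h, linIrr_one])
      exact h2 (congrArg linIrr (mul_left_cancel ((hmul f f' hf1 hf').trans (hmul f f hf1 hf1).symm)))
    have hsplit : ∀ F : IrrCharacter G → ℝ, ∑ χ, F χ = F (irrOne G) + (F (linIrr f) +
        ∑ χ ∈ (Finset.univ.erase (irrOne G)).erase (linIrr f), F χ) := by
      intro F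
      rw [Finset.add_sum_erase _ _ (Finset.mem_erase.2 ⟨hfne, Finset.mem_univ _⟩),
        Finset.add_sum_erase _ _ (Finset.mem_univ _)]
    have hvan : ∀ χ ∈ (Finset.univ.erase (irrOne G)).erase (linIrr f), (χ : G → ℂ) u = 0 := by
      have h1 := congrArg Complex.re horth
      rw [Complex.re_sum, Complex.zero_re, hsplit] at h1
      simp only [coe_irrOne, mul_one, Complex.one_re, linIrr_apply, map_one, Units.val_one,
        one_mul, hm f hf1, Complex.neg_re, add_neg_cancel_left] at h1
      have h3 : ∀ χ ∈ (Finset.univ.erase (irrOne G)).erase (linIrr f), _ := fun χ hχ => by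
        simp only [Finset.mem_erase, Finset.mem_univ, and_true] at hχ
        exact hterm h2 χ hχ.2 (hrest χ hχ.2 hχ.1)
      intro χ hχ
      exact (h3 χ hχ).2 ((Finset.sum_eq_zero_iff_of_nonneg fun χ hχ => (h3 χ hχ).1).1 h1 χ hχ)
    have hC : Nat.card (Subgroup.centralizer ({u} : Set G)) = 2 := by
      have h1 := sum_irr_norm_sq u
      rw [hsplit, Finset.sum_eq_zero fun χ hχ => by rw [hvan χ hχ]; simp] at h1
      simp only [coe_irrOne, norm_one, one_pow, linIrr_apply, hm f hf1, norm_neg, add_zero] at h1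
      exact_mod_cast (by rw [← h1]; norm_num : (Nat.card (Subgroup.centralizer ({u} : Set G)) : ℝ) = 2)
    have hle : Subgroup.zpowers u ≤ Subgroup.centralizer ({u} : Set G) := by
      rw [Subgroup.zpowers_le, Subgroup.mem_centralizer_singleton_iff]
    have ho : orderOf u = 2 := by
      have h1 := Subgroup.card_dvd_of_le hle
      rw [hC, Nat.card_zpowers] at h1
      exact ((Nat.dvd_prime Nat.prime_two).1 h1).resolve_left (by simpa using hu)
    have heq : Subgroup.centralizer ({u} : Set G) = Subgroup.zpowers u :=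
      (Subgroup.eq_of_le_of_card_ge hle (by rw [hC, Nat.card_zpowers, ho])).symm
    have huu : u * u = 1 := by rw [← sq, ← ho, pow_orderOf_eq_one]
    refine ⟨ho, ?_, heq⟩
    have hodd : f.ker ≤ oddCore G := by
      refine GT.le_oddCore (odd_card_of_fixed huu f.ker fun k hk hk' => ?_)
      have h1 : k ∈ Subgroup.zpowers u := by
        rw [← heq, Subgroup.mem_centralizer_singleton_iff]; exact hk'.symm
      rw [mem_zpowers_iff_mem_range_orderOf, ho] at h1
      simp only [Finset.mem_image, Finset.mem_range] at h1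
      obtain ⟨i, hi, rfl⟩ := h1
      interval_cases i
      · simp
      · exfalso
        have h3 := hm f hf1
        rw [pow_one, MonoidHom.mem_ker] at hk
        rw [hk] at h3
        norm_num at h3
    rw [Subgroup.eq_top_iff']
    intro x
    have h3 : (f x : ℂ) * f x = 1 := by
      have := DFunLike.congr_fun (hmul f f hf1 hf1) x
      rw [MonoidHom.mul_apply, MonoidHom.one_apply] at this
      rw [← Units.val_mul, this, Units.val_one]
    rcases mul_self_eq_one_iff.1 h3 with h4 | h4
    · exact Subgroup.mem_sup_right (hodd (Units.ext h4))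
    · have : u * x ∈ f.ker := by
        apply Units.ext
        rw [map_mul, Units.val_mul, hm f hf1, h4]; norm_num
      have h5 := Subgroup.mul_mem_sup (Subgroup.mem_zpowers u) (hodd this)
      rwa [← mul_assoc, huu, one_mul] at h5

end Cfsg.Agent.S4757
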