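import Cfsg.Statements.S4762
import Cfsg.Agent.Deg.PGrp
import Cfsg.Agent.GT.Fitting
-- import your own Cfsg.Agent.* helpers here

set_option autoImplicit false
open Cfsg

namespace Cfsg.Agent.S4762

open Cfsg.Agent.Ch Cfsg.Agent.Deg
open scoped ComplexConjugate commutatorElement

theorem isPGroup_of_unique {G : Type*} [Group G] [Finite G] [Group.IsNilpotent G] (p : ℕ) [hp : Fact p.Prime]
    (h : Nat.card {χ : Cfsg.IrrCharacter G // p ∣ Cfsg.charDegree (χ : G → ℂ)} = 1) : IsPGroup p G := by
  obtain ⟨hsub, ⟨⟨χ, hχ⟩⟩⟩ := Nat.card_eq_one_iff_unique.1 h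
  have htop := GT.pCore_sup_pPrimeCore (G := G) p
  have hbot := GT.pCore_inf_pPrimeCore (G := G) (p := p)
  have hcomm : ∀ a ∈ pCore p G, ∀ b ∈ pPrimeCore p G, a * b = b * a := fun a ha b hb =>
    Subgroup.commute_of_normal_of_disjoint _ _ inferInstance inferInstance (disjoint_iff.2 hbot) a b ha hb
  obtain ⟨φ, ψ, hφ, hψ, e⟩ := exists_irr_mul_of_commute _ _ hcomm htop χ.2
  have hdeg : ∀ {θ : G → ℂ} {ψ : pPrimeCore p G → ℂ}, IsIrrCharacter G θ → IsIrrCharacter _ ψ →
      (∀ (a : pCore p G) (b : pPrimeCore p G), θ (a * b) = φ a * ψ b) →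
      charDegree θ = charDegree φ * charDegree ψ := by
    intro θ ψ hθ hψ e
    have := e 1 1
    simp only [OneMemClass.coe_one, mul_one] at this
    rw [← hθ.coe_charDegree, ← hφ.coe_charDegree, ← hψ.coe_charDegree] at this
    exact_mod_cast this
  have hpφ : p ∣ charDegree φ := by
    rw [hdeg χ.2 hψ e] at hχ
    refine (Nat.Coprime.dvd_mul_right ?_).1 hχ
    exact ((GT.coprime_card_pPrimeCore (G := G) p).coprime_dvd_left hψ.charDegree_dvd_card).symm
  have hall : ∀ θ : pPrimeCore p G → ℂ, IsIrrCharacter _ θ → θ = ψ := by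
    intro θ hθ
    obtain ⟨η, hη, e'⟩ := exists_irr_of_isComplement_commute _ _ hcomm htop hφ hθ (by
      intro a b hab
      have ha : (a : G) ∈ pCore p G ⊓ pPrimeCore p G :=
        ⟨a.2, by rw [eq_inv_of_mul_eq_one_left hab]; exact Subgroup.inv_mem _ b.2⟩
      rw [hbot, Subgroup.mem_bot] at ha
      rw [ha, one_mul] at hab
      rw [show a = 1 from Subtype.ext ha, show b = 1 from Subtype.ext hab])
    have : (⟨⟨η, hη⟩, by rw [hdeg hη hθ e']; exact hpφ.mul_right _⟩ :
      {χ : Cfsg.IrrCharacter G // p ∣ Cfsg.charDegree (χ : G → ℂ)}) = ⟨χ, hχ⟩ := hsub.elim _ _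
    have h2 : η = χ.1 := congrArg (fun x => x.1.1) this
    funext b
    have h3 := e' 1 b
    rw [h2, e] at h3
    exact (mul_left_cancel₀ hφ.apply_one_ne_zero h3).symm
  have hB : pPrimeCore p G = ⊥ := by
    rw [eq_bot_iff]
    intro b hb
    have : (⟨b, hb⟩ : pPrimeCore p G) = 1 := eq_one_of_forall_irr fun θ => by
      rw [hall θ.1 θ.2, ← hall _ IsIrrCharacter.one]
    exact congrArg Subtype.val this
  rw [hB, sup_bot_eq] at htop
  have := GT.isPGroup_pCore p (G := G)
  rw [htop] at this
  exact this.of_surjective (Subgroup.subtype ⊤) fun g => ⟨⟨g, trivial⟩, rfl⟩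

theorem card_eq {G : Type*} [Group G] [Finite G] (p : ℕ) [hp : Fact p.Prime] (hG : IsPGroup p G) :
    Nat.card {χ : Cfsg.IrrCharacter G // p ∣ Cfsg.charDegree (χ : G → ℂ)} =
      (Finset.univ.filter fun χ : IrrCharacter G => charDegree χ.1 ≠ 1).card := by
  classical
  rw [Nat.card_eq_fintype_card, Fintype.card_subtype]
  congr 1
  ext χ
  simp only [Finset.mem_filter, Finset.mem_univ, true_and]
  obtain ⟨a, ha⟩ := exists_charDegree_eq_pow hG χ.2
  rw [ha]
  cases a with
  | zero => simp [hp.out.one_lt.ne']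
  | succ a => simp [dvd_pow_self, hp.out.one_lt.ne']

/-- Let p be a prime and G a finite nilpotent group. Then G has exactly one irreducible complex character of degree divisible by p if and only if p = 2 and G is an extraspecial 2-group. -/
theorem result {G : Type*} [Group G] [Finite G] [Group.IsNilpotent G] (p : ℕ) [Fact p.Prime] : Nat.card {χ : Cfsg.IrrCharacter G // p ∣ Cfsg.charDegree (χ : G → ℂ)} = 1 ↔ (p = 2 ∧ Cfsg.IsExtraspecial 2 G) := by
  have hp : p.Prime := Fact.out
  have hsum := index_add_sum_nonlinear (G := G)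
  constructor
  · intro h
    have hG := isPGroup_of_unique p h
    rw [card_eq p hG, Finset.card_eq_one] at h
    obtain ⟨χ, hχ⟩ := h
    have hχ1 : charDegree χ.1 ≠ 1 := by
      have : χ ∈ (Finset.univ.filter fun χ : IrrCharacter G => charDegree χ.1 ≠ 1) := by
        rw [hχ]; exact Finset.mem_singleton_self _
      exact (Finset.mem_filter.1 this).2
    rw [hχ, Finset.sum_singleton, ← (commutator G).index_mul_card] at hsum
    obtain ⟨a, ha⟩ := exists_charDegree_eq_pow hG χ.2
    obtain ⟨b, hb⟩ := GT.PG.card_eq_pow_of_isPGroup (hG.to_subgroup (commutator G))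
    have hi : 0 < (commutator G).index := Nat.pos_of_ne_zero Subgroup.index_ne_zero_of_finite
    have hb0 : b ≠ 0 := by
      rintro rfl
      rw [hb, pow_zero, mul_one] at hsum
      have := χ.2.charDegree_pos
      nlinarith
    have h1 : charDegree χ.1 ^ 2 = (commutator G).index * (p ^ b - 1) := by
      rw [Nat.mul_sub, ← hb, ← hsum]; simp
    have h2 : p ^ b - 1 ∣ p ^ (a * 2) := by
      rw [pow_mul, ← ha, h1]; exact Dvd.intro_left _ rfl
    have h3 : (p ^ b - 1).Coprime p := by
      have h4 : 1 ≤ p ^ b := Nat.one_le_pow _ _ hp.pos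
      have : (p ^ b - 1).Coprime (p ^ b) := by
        obtain ⟨c, hc⟩ := Nat.exists_eq_add_of_le h4
        rw [hc, Nat.add_sub_cancel_left]; simp
      exact this.coprime_dvd_right (dvd_pow_self p hb0)
    have h4 : p ^ b - 1 = 1 := Nat.Coprime.eq_one_of_dvd (h3.pow_right _) h2
    have h5 : p ^ b = 2 := by omega
    have hp2 : p = 2 := (Nat.prime_dvd_prime_iff_eq hp Nat.prime_two).1 (h5 ▸ dvd_pow_self p hb0)
    subst hp2
    rw [h5] at hb
    refine ⟨rfl, ?_⟩
    have hZ := GT.PG.le_center_of_normal_card_prime hG _ hb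
    have h6 := χ.2.charDegree_sq_le_index_center
    rw [h1, h4, mul_one] at h6
    have h7 : commutator G = Subgroup.center G := by
      refine GT.PG.eq_of_le_of_card_le hZ ?_
      have e1 := (commutator G).index_mul_card
      have e2 := (Subgroup.center G).index_mul_card
      by_contra hlt
      push Not at hlt
      have := Nat.mul_lt_mul_of_le_of_lt h6 hlt (Nat.pos_of_ne_zero Subgroup.index_ne_zero_of_finite)
      omega
    refine ⟨⟨hG, le_antisymm ?_ ?_, h7⟩, h7 ▸ hb⟩
    · refine GT.PG.frattini_le hp hZ fun y => Subgroup.mem_center_iff.2 fun g => ?_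
      have c1 : ⁅y, g⁆ ∈ commutator G :=
        Subgroup.commutator_mem_commutator (Subgroup.mem_top _) (Subgroup.mem_top _)
      have c2 : ⁅y, g⁆ ^ 2 = 1 := by
        have := pow_card_eq_one' (x := (⟨_, c1⟩ : commutator G))
        rw [hb] at this
        exact congrArg Subtype.val this
      rw [← commutatorElement_pow_left_of_center (hZ c1), commutatorElement_eq_one_iff_mul_comm] at c2
      exact c2.symm
    · rw [← h7]
      exact ((GT.PG.frattini_le_iff hG).1 le_rfl).1
  · rintro ⟨rfl, ⟨hG, -, h7⟩, hb⟩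
    rw [card_eq 2 hG]
    rw [← h7] at hb
    have h1 : ∀ χ ∈ (Finset.univ.filter fun χ : IrrCharacter G => charDegree χ.1 ≠ 1),
        charDegree χ.1 ^ 2 = (commutator G).index := by
      intro χ hχ
      rw [sq_charDegree_eq_index_center χ.2 h7.le (inf_eq_bot_of_card_prime hp hb fun hh =>
        (Finset.mem_filter.1 hχ).2 ((charDegree_eq_one_iff_commutator_le χ.2).2 hh)), h7]
    rw [Finset.sum_congr rfl h1, Finset.sum_const, smul_eq_mul, ← (commutator G).index_mul_card, hb] at hsum
    have hi : 0 < (commutator G).index := Nat.pos_of_ne_zero Subgroup.index_ne_zero_of_finite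
    refine Nat.eq_of_mul_eq_mul_right hi ?_
    omega

end Cfsg.Agent.S4762
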