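import Mathlib
import Cfsg.Statements.S4765
import Cfsg.Agent.Cl.CharPSL2

set_option autoImplicit false
open Cfsg

namespace Cfsg.Agent.S4765

open Cfsg.Agent.Cl.GL2 Cfsg.Agent.Ch Cfsg.Agent.Cl.CT


/-- Let F be a finite field of characteristic p with at least 4 elements. Then PSL(2,F) has exactly one irreducible complex character of degree divisible by p, and its degree is the order of F. -/
theorem result (p : ℕ) [Fact p.Prime] (F : Type*) [Field F] [Fintype F] [CharP F p] (hF : 4 ≤ Fintype.card F) : Nat.card {χ : Cfsg.IrrCharacter (Matrix.ProjectiveSpecialLinearGroup (Fin 2) F) // p ∣ Cfsg.charDegree (χ : Matrix.ProjectiveSpecialLinearGroup (Fin 2) F → ℂ)} = 1 ∧ ∀ χ : Cfsg.IrrCharacter (Matrix.ProjectiveSpecialLinearGroup (Fin 2) F), p ∣ Cfsg.charDegree (χ : Matrix.ProjectiveSpecialLinearGroup (Fin 2) F → ℂ) → Cfsg.charDegree (χ : Matrix.ProjectiveSpecialLinearGroup (Fin 2) F → ℂ) = Fintype.card F := by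
  classical
  have hp : p.Prime := Fact.out
  have hq : p ∣ Fintype.card F := by
    rw [← CharP.cast_eq_zero_iff F p]; exact FiniteField.cast_card_eq_zero F
  have key : ∀ χ : IrrCharacter (Matrix.ProjectiveSpecialLinearGroup (Fin 2) F),
      p ∣ charDegree (χ : Matrix.ProjectiveSpecialLinearGroup (Fin 2) F → ℂ) →
      charDegree (χ : Matrix.ProjectiveSpecialLinearGroup (Fin 2) F → ℂ) = Fintype.card F := by
    intro χ h
    have h1 := charDegree_SL2_cases χ.2.comp_mk
    rw [show (charDegree fun g : Matrix.SpecialLinearGroup (Fin 2) F => χ.1 g) = charDegree χ.1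
      from rfl] at h1
    have h2 : ∀ d, p ∣ d → d ≠ Fintype.card F + 1 ∧ d + 1 ≠ Fintype.card F := fun d hd =>
      ⟨fun h3 => hp.one_lt.ne' (Nat.dvd_one.mp ((Nat.dvd_add_right hq).mp (h3 ▸ hd))),
        fun h3 => hp.one_lt.ne' (Nat.dvd_one.mp ((Nat.dvd_add_right hd).mp (h3 ▸ hq)))⟩
    rcases h1 with h1 | h1 | h1 | h1 | ⟨-, h1 | h1⟩
    · exact absurd (Nat.dvd_one.mp (h1 ▸ h)) hp.one_lt.ne'
    · exact h1
    · exact absurd h1 (h2 _ h).1
    · exact absurd h1 (h2 _ h).2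
    · exact absurd h1 (h2 _ (h.mul_left 2)).1
    · exact absurd h1 (h2 _ (h.mul_left 2)).2
  refine ⟨?_, key⟩
  obtain ⟨ψ, h1, h2⟩ := exists_psl_irr (F := F) isIrr_stS (stS_neg 1)
  rw [Nat.card_eq_one_iff_unique]
  have h3 : ∀ χ : IrrCharacter (Matrix.ProjectiveSpecialLinearGroup (Fin 2) F),
      p ∣ charDegree (χ : Matrix.ProjectiveSpecialLinearGroup (Fin 2) F → ℂ) → χ.1 = ψ := by
    intro χ h
    refine comp_injective_of_surjective (QuotientGroup.mk'_surjective _) ?_
    refine Eq.trans (eq_stS_of_deg χ.2.comp_mk ?_) h2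
    rw [← key χ h]; exact χ.2.coe_charDegree.symm
  refine ⟨⟨fun a b => Subtype.ext (Subtype.ext ((h3 _ a.2).trans (h3 _ b.2).symm))⟩,
    ⟨⟨⟨ψ, h1⟩, ?_⟩⟩⟩
  have : charDegree ψ = Fintype.card F :=
    charDegree_of_apply_one ((congrFun h2 1).symm.trans stS_one)
  exact this ▸ hq

end Cfsg.Agent.S4765
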