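import Cfsg.Statements.S4768
import Cfsg.Agent.Deg.Ito2
-- import your own Cfsg.Agent.* helpers here

set_option autoImplicit false
open Cfsg

namespace Cfsg.Agent.S4768

open Cfsg.Agent.Ch Cfsg.Agent.Deg
open scoped ComplexConjugate

universe u

theorem derived_le {G : Type*} [Group G] [Finite G] {p : ℕ} [Fact p.Prime] (N : Subgroup G) [N.Normal]
    (P : Sylow p G) {m : ℕ}
    (h : derivedSeries ↥(P.mapSurjective (QuotientGroup.mk'_surjective N) : Subgroup (G ⧸ N)) m = ⊥) :
    derivedSeries ↥(P : Subgroup G) m ≤ N.subgroupOf P := by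
  intro x hx
  let f : (P : Subgroup G) →* (P.mapSurjective (QuotientGroup.mk'_surjective N) : Subgroup (G ⧸ N)) :=
    ((QuotientGroup.mk' N).comp (P : Subgroup G).subtype).codRestrict _ fun y => ⟨y, y.2, rfl⟩
  have := map_derivedSeries_le_derivedSeries f m (Subgroup.mem_map_of_mem f hx)
  rw [h, Subgroup.mem_bot] at this
  exact (QuotientGroup.eq_one_iff (x : G)).1 (congrArg Subtype.val this)

theorem succ_eq_bot {H : Type*} [Group H] {m : ℕ} {A : Subgroup H} (h : derivedSeries H m ≤ A)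
    (hA : ∀ a ∈ A, ∀ b ∈ A, a * b = b * a) : derivedSeries H (m + 1) = ⊥ := by
  rw [derivedSeries_succ, Subgroup.commutator_eq_bot_iff_le_centralizer]
  exact fun a ha b hb => hA b (h hb) a (h ha)

theorem eq_bot_of_le {H : Type*} [Group H] {m n : ℕ} (h : derivedSeries H m = ⊥) (hmn : m ≤ n) :
    derivedSeries H n = ⊥ :=
  eq_bot_iff.2 (h ▸ derivedSeries_antitone H hmn)

theorem aux (p : ℕ) [hp : Fact p.Prime] (G : Type u) [Group G] [Finite G] : IsPSolvable p G →
    ∀ P : Sylow p G, derivedSeries ↥(P : Subgroup G) (Nat.card {χ : Cfsg.IrrCharacter G // p ∣ Cfsg.charDegree (χ : G → ℂ)} + 1) = ⊥ := by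
  refine GT.subgroup_quotient_induction (P := fun G _ _ => IsPSolvable p G →
    ∀ P : Sylow p G, derivedSeries ↥(P : Subgroup G) (Nat.card {χ : Cfsg.IrrCharacter G // p ∣ Cfsg.charDegree (χ : G → ℂ)} + 1) = ⊥) ?_ G
  intro G _ _ _ ih hG P
  classical
  have := Fintype.ofFinite G
  rcases subsingleton_or_nontrivial G with hs | hs
  · exact Subsingleton.elim _ _
  obtain ⟨N, hN⟩ := GT.exists_isMinNormal G
  have := hN.normal
  have h1 := derived_le N P (ih N hN.ne_bot (hG.quotient N) (P.mapSurjective (QuotientGroup.mk'_surjective N)))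
  rw [card_quotient_irr N (p ∣ ·)] at h1
  have hle : Nat.card {χ : IrrCharacter G // N ≤ charKer χ.1 ∧ p ∣ charDegree χ.1} ≤
      Nat.card {χ : Cfsg.IrrCharacter G // p ∣ Cfsg.charDegree (χ : G → ℂ)} :=
    Set.ncard_le_ncard (s := {χ : IrrCharacter G | N ≤ charKer χ.1 ∧ p ∣ charDegree χ.1})
      (t := {χ : IrrCharacter G | p ∣ charDegree χ.1}) (fun x hx => hx.2)
  rcases hG.isPGroup_or_coprime_of_minimal (fun K hK hle => hN.eq_bot_or_eq hle) with hNp | hNp
  swap
  · obtain ⟨m, hm⟩ := P.isPGroup'.exists_card_eq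
    rw [Subgroup.subgroupOf_eq_bot.2 (Subgroup.disjoint_of_coprime_natCard (hm ▸ hNp.pow_right m)),
      le_bot_iff] at h1
    exact eq_bot_of_le h1 (by omega)
  have hE := hN.elementary_of_isPGroup hp.out hNp
  have hA : ∀ a ∈ N.subgroupOf P, ∀ b ∈ N.subgroupOf P, a * b = b * a := fun a ha b hb =>
    Subtype.ext (GT.PG.isMulCommutative_iff_forall.1 hE.1 _ ha _ hb)
  by_cases hex : ∃ χ, IsIrrCharacter G χ ∧ ¬ N ≤ charKer χ ∧ p ∣ charDegree χ
  · obtain ⟨χ, hχ, hk, hd⟩ := hex
    have hlt : Nat.card {χ : IrrCharacter G // N ≤ charKer χ.1 ∧ p ∣ charDegree χ.1} <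
        Nat.card {χ : Cfsg.IrrCharacter G // p ∣ Cfsg.charDegree (χ : G → ℂ)} := by
      refine Set.ncard_lt_ncard (s := {χ : IrrCharacter G | N ≤ charKer χ.1 ∧ p ∣ charDegree χ.1})
        (t := {χ : IrrCharacter G | p ∣ charDegree χ.1}) ⟨fun x hx => hx.2, fun hh => ?_⟩
      exact hk (hh (a := ⟨χ, hχ⟩) hd).1
    exact eq_bot_of_le (succ_eq_bot h1 hA) (by omega)
  push Not at hex
  by_cases h0 : Nat.card {χ : Cfsg.IrrCharacter G // p ∣ Cfsg.charDegree (χ : G → ℂ)} = 0
  · have hc := ito_comm hG (fun χ hχ hd => by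
      rw [Nat.card_eq_zero] at h0
      rcases h0 with h0 | h0
      · exact h0.elim ⟨⟨χ, hχ⟩, hd⟩
      · exact not_finite {χ : Cfsg.IrrCharacter G // p ∣ Cfsg.charDegree (χ : G → ℂ)}) P
    exact eq_bot_of_le (succ_eq_bot (m := 0) (A := ⊤) le_top fun a _ b _ => hc a b) (by omega)
  · obtain ⟨θ, hθ, hθ1⟩ := exists_irr_ne_one hN.ne_bot
    have h2 := commutator_sylow_le hG hNp hθ (hθ.apply_one_eq_one_of_comm fun a b =>
      Subtype.ext (GT.PG.isMulCommutative_iff_forall.1 hE.1 _ a.2 _ b.2))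
      (fun χ hχ ho => hex χ hχ fun hk => hθ1 (eq_one_of_le_charKer_of_over hχ.isCharacter hθ ho hk)) P
    have h3 : derivedSeries ↥(P : Subgroup G) 1 ≤ N.subgroupOf P := by
      rw [derivedSeries_one, commutator_def, Subgroup.commutator_le]
      exact fun a _ b _ => h2 a a.2 b b.2
    exact eq_bot_of_le (succ_eq_bot h3 hA) (by omega)

/-- Let p be a prime, G a finite p-solvable group and P a Sylow p-subgroup of G. If n is the number of irreducible complex characters of G whose degree is divisible by p, then the (n+1)-st term of the derived series of P is trivial. (The p-solvable case has a direct inductive proof.) -/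
theorem result {G : Type*} [Group G] [Finite G] (p : ℕ) [Fact p.Prime] (hG : Cfsg.IsPSolvable p G) (P : Sylow p G) : derivedSeries ↥(P : Subgroup G) (Nat.card {χ : Cfsg.IrrCharacter G // p ∣ Cfsg.charDegree (χ : G → ℂ)} + 1) = ⊥ := by
  exact aux p G hG P

end Cfsg.Agent.S4768
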