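import Mathlib
import Cfsg.Statements.S4774
import Cfsg.Agent.Cl.CharPSL2

set_option autoImplicit false
open Cfsg

namespace Cfsg.Agent.S4774

open Cfsg.Agent.Cl.GL2 Cfsg.Agent.Ch Cfsg.Agent.Cl.CT


/-- Let F be a finite field of odd characteristic t with q > 5 elements and let S be isomorphic to PSL(2,F) or to SL(2,F). Then the vertices of the character degree graph of S are the primes dividing q(q²−1); the prime t is adjacent to no vertex; two distinct primes dividing q² − 1 are adjacent exactly when one of them is 2, or both divide q + 1, or both divide q − 1. -/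
theorem result (F : Type*) [Field F] [Fintype F] (t : ℕ) [Fact t.Prime] [CharP F t] (ht : t ≠ 2) (q : ℕ) (hq : Fintype.card F = q) (h5 : 5 < q) {S : Type*} [Group S] [Finite S] (hS : Nonempty (S ≃* Matrix.ProjectiveSpecialLinearGroup (Fin 2) F) ∨ Nonempty (S ≃* Matrix.SpecialLinearGroup (Fin 2) F)) : Cfsg.degreePrimes S = {r : ℕ | r.Prime ∧ r ∣ q * (q ^ 2 - 1)} ∧ ∀ r s : ℕ, (Cfsg.degreeGraph S).Adj r s ↔ (r ≠ s ∧ r.Prime ∧ s.Prime ∧ r ∣ q ^ 2 - 1 ∧ s ∣ q ^ 2 - 1 ∧ (r = 2 ∨ s = 2 ∨ (r ∣ q + 1 ∧ s ∣ q + 1) ∨ (r ∣ q - 1 ∧ s ∣ q - 1))) := by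
  subst hq
  refine ⟨degreePrimes_of_psl_or_sl hS (Or.inr h5), fun r s => ?_⟩
  rw [degreeGraph_adj_of_psl_or_sl hS (Or.inr h5)]
  refine and_congr_right fun hrs => and_congr_right fun hr => and_congr_right fun hs => ?_
  have h1 := FiniteField.odd_card_of_char_ne_two (F := F) (by rw [ringChar.eq F t]; exact ht)
  have h2 : 2 ∣ Fintype.card F + 1 := by omega
  have h3 : 2 ∣ Fintype.card F - 1 := by omega
  have h4 : Fintype.card F ^ 2 - 1 = (Fintype.card F + 1) * (Fintype.card F - 1) := by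
    rw [← Nat.sq_sub_sq, one_pow]
  rw [h4, hr.dvd_mul, hs.dvd_mul]
  constructor
  · tauto
  · rintro ⟨h5, h6, rfl | rfl | h | h⟩ <;> tauto

end Cfsg.Agent.S4774
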