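import Cfsg.Statements.S4780
import Cfsg.Agent.ND.Glue
import Cfsg.Agent.ND.Prime
import Cfsg.Agent.NE3.Main

set_option autoImplicit false
open Cfsg

namespace Cfsg.Agent.S4780

/-- Let G be a finite solvable group in which no irreducible complex character degree a with 1 < a divides a larger irreducible character degree. Then G has at most four distinct irreducible character degrees and the third derived subgroup of G is trivial. -/
theorem result {G : Type*} [Group G] [Finite G] [Group.IsSolvable G] (hnd : ∀ a ∈ Cfsg.charDegrees G, ∀ b ∈ Cfsg.charDegrees G, 1 < a → a < b → ¬ a ∣ b) : Nat.card ↥(Cfsg.charDegrees G) ≤ 4 ∧ derivedSeries G 3 = ⊥ := by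
  have hd := Cfsg.Agent.ND.glue_nd hnd
  exact Cfsg.Agent.ND.glue hd
    (fun p P C hp hN hP hC hc hPC => by
      have := Fact.mk hp
      exact Cfsg.Agent.NE3.main P C hP hC hc hPC hd)
    fun N K _ _ hF hn => Cfsg.Agent.ND.prime hd hF hn

end Cfsg.Agent.S4780
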