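import Mathlib
import Cfsg.Statements.S4782
import Cfsg.Agent.Ch.Burnside
import Cfsg.Agent.Ch.DegKernel
import Cfsg.Agent.Blk.Cover
import Cfsg.Agent.Blk.Fong

set_option autoImplicit false
open Cfsg

namespace Cfsg.Agent.S4782

open Cfsg.Agent.Ch

universe u

theorem prime_card {G : Type*} [Group G] [Finite G] [IsSimpleGroup G] {p q : ℕ} (hp : p.Prime)
    (hq : q.Prime) (hd : q ∣ Nat.card G) (h : ∀ r ∈ degreePrimes G, r = p ∨ r = q) :
    (Nat.card G).Prime := by
  have := Fact.mk hq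
  obtain ⟨P⟩ : Nonempty (Sylow q G) := inferInstance
  have hP : Nontrivial P := (Subgroup.nontrivial_iff_ne_bot _).2 (P.ne_bot_of_dvd_card hd)
  have := P.isPGroup'.center_nontrivial
  obtain ⟨z, hz⟩ := exists_ne (1 : Subgroup.center P)
  have hle : (P : Subgroup G) ≤ Subgroup.centralizer {((z : P) : G)} := fun x hx => by
    rw [Subgroup.mem_centralizer_singleton_iff]
    exact congrArg Subtype.val (Subgroup.mem_center_iff.1 z.2 ⟨x, hx⟩)
  have hdvd := Subgroup.index_dvd_of_le hle
  have hz1 : ((z : P) : G) ≠ 1 := fun h => hz (Subtype.ext (Subtype.ext h))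
  obtain ⟨χ, h1, h2, h3⟩ := burnside_exists_irr_not_dvd_apply_ne_zero hp hz1
  refine burnside_prime_card_of_mem_center hz1 (χ.isCharacter.charCenter_le_center
    (χ.2.charKer_eq_bot_of_simple fun h => h1 (Subtype.ext h))
    ((χ.2.eq_zero_or_mem_charCenter_of_coprime ?_).resolve_left h3))
  refine Nat.coprime_of_dvd fun r hr h4 h5 => ?_
  rcases h r ⟨hr, _, ⟨χ, rfl⟩, h4⟩ with rfl | rfl
  · exact h2 h4
  · exact P.not_dvd_index (h5.trans hdvd)

theorem aux {p q : ℕ} (hp : p.Prime) (hq : q.Prime) (n : ℕ) :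
    ∀ (G : Type u) [Group G] [Finite G], Nat.card G = n →
      (∀ r ∈ degreePrimes G, r = p ∨ r = q) → Group.IsSolvable G := by
  induction n using Nat.strong_induction_on with
  | _ n ih =>
  intro G _ _ hn hG
  rcases subsingleton_or_nontrivial G with hs | hs
  · infer_instance
  by_cases hsimple : IsSimpleGroup G
  · have hprime : (Nat.card G).Prime := by
      by_cases hqG : q ∣ Nat.card G
      · exact prime_card hp hq hqG hG
      · obtain ⟨r, hr, hd⟩ := Nat.exists_prime_and_dvd (Finite.one_lt_card (α := G)).ne'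
        refine prime_card hp hr hd fun s hs => Or.inl ((hG s hs).resolve_right ?_)
        rintro rfl
        obtain ⟨-, _, ⟨χ, rfl⟩, h⟩ := hs
        exact hqG (h.trans χ.2.charDegree_dvd_card)
    have := Fact.mk hprime
    have := isCyclic_of_prime_card (α := G) rfl
    exact Group.isSolvable_of_comm fun a b => (IsCyclic.isMulCommutative.is_comm.comm a b)
  · have : ∃ N : Subgroup G, N.Normal ∧ N ≠ ⊥ ∧ N ≠ ⊤ := by
      by_contra H
      push Not at H
      exact hsimple ⟨fun N hN => or_iff_not_imp_left.2 (H N hN)⟩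
    obtain ⟨N, hN, h0, h1⟩ := this
    have hc := N.card_mul_index
    have h2 : 1 < Nat.card N := N.one_lt_card_iff_ne_bot.2 h0
    have h3 : 1 < N.index := Subgroup.one_lt_index_of_ne_top h1
    have s1 : Group.IsSolvable N := ih _ (by rw [← hn, ← hc]; nlinarith) N rfl (by
      rintro r ⟨hr, _, ⟨θ, rfl⟩, hd⟩
      obtain ⟨χ, hχ⟩ := Blk.Om.exists_over_subtype N θ
      obtain ⟨e, -, he⟩ := hχ.exists_degree_eq_mul χ.2 θ.2
      exact hG r ⟨hr, _, ⟨χ, rfl⟩, hd.trans (Dvd.intro_left _ he.symm)⟩)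
    have s2 : Group.IsSolvable (G ⧸ N) :=
      ih (Nat.card (G ⧸ N)) (by rw [← hn, ← hc, ← N.index_eq_card]; nlinarith) (G ⧸ N) rfl
        fun r ⟨hr, d, hd, h⟩ => hG r ⟨hr, d, degK_charDegrees_quotient_subset N hd, h⟩
    exact Group.isSolvable_of_ker_le_range N.subtype (QuotientGroup.mk' N) (by simp)

/-- If the finite group G is not solvable, then at least three distinct primes each divide some irreducible complex character degree of G. -/
theorem result {G : Type*} [Group G] [Finite G] (hG : ¬ Group.IsSolvable G) : ∃ p q r : ℕ, p ≠ q ∧ q ≠ r ∧ p ≠ r ∧ p ∈ Cfsg.degreePrimes G ∧ q ∈ Cfsg.degreePrimes G ∧ r ∈ Cfsg.degreePrimes G := by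
  by_contra H
  push Not at H
  by_cases h1 : ∃ p, p ∈ degreePrimes G
  · obtain ⟨p, hp⟩ := h1
    by_cases h2 : ∃ q ∈ degreePrimes G, q ≠ p
    · obtain ⟨q, hq, hqp⟩ := h2
      refine hG (aux hp.1 hq.1 _ G rfl fun r hr => ?_)
      by_contra! h
      exact H p q r hqp.symm h.2.symm h.1.symm hp hq hr
    · push Not at h2
      exact hG (aux hp.1 hp.1 _ G rfl fun r hr => Or.inl (h2 r hr))
  · exact hG (aux Nat.prime_two Nat.prime_two _ G rfl fun r hr => (h1 ⟨r, hr⟩).elim)

end Cfsg.Agent.S4782
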