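import Cfsg.Statements.S4784
import Cfsg.Agent.Ch.FrobeniusSchur
import Cfsg.Agent.Ch.Induction
import Cfsg.Agent.Ch.Quotient
import Cfsg.Agent.Deg.Basic
-- import your own Cfsg.Agent.* helpers here

set_option autoImplicit false
open Cfsg

namespace Cfsg.Agent.S4784

open Cfsg.Agent.Ch Cfsg.Agent.Deg
open scoped ComplexConjugate

open Classical in
theorem ind_one_apply {G : Type*} [Group G] [Fintype G] (H : Subgroup G) (g : G) :
    indFun H (fun _ : H => (1 : ℂ)) g =
      (Nat.card H : ℂ)⁻¹ * ((Finset.univ.filter (fun x : G => x * g * x⁻¹ ∈ H)).card : ℕ) := by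
  rw [indFun_apply']
  congr 1
  rw [Finset.card_filter]
  push_cast
  refine Finset.sum_congr rfl fun x _ => ?_
  by_cases h : x * g * x⁻¹ ∈ H
  · rw [extendByZero_of_mem _ _ h, if_pos h]
  · rw [extendByZero_of_not_mem _ _ h, if_neg h]

theorem one_lt_fs {G : Type*} [Group G] [Fintype G] (H : Subgroup G)
    (h : ¬ Odd H.normalCore.index) : 1 < (fsInd (indFun H (fun _ : H => (1 : ℂ)))).re := by
  classical
  have h2 : 2 ∣ Nat.card (G ⧸ H.normalCore) := by
    rw [Nat.not_odd_iff_even] at h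
    exact h.two_dvd
  obtain ⟨q, hq⟩ := exists_prime_orderOf_dvd_card' (G := G ⧸ H.normalCore) 2 h2
  obtain ⟨g0, rfl⟩ := QuotientGroup.mk_surjective q
  have hg1 : g0 ∉ H.normalCore := by
    intro hh
    rw [(QuotientGroup.eq_one_iff g0).2 hh, orderOf_one] at hq
    exact absurd hq (by norm_num)
  have hg2 : g0 * g0 ∈ H.normalCore := by
    rw [← QuotientGroup.eq_one_iff, QuotientGroup.mk_mul, ← pow_two, ← hq, pow_orderOf_eq_one]
  set f : G → ℕ := fun g => (Finset.univ.filter (fun x : G => x * g * x⁻¹ ∈ H)).card with hf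
  have hsub : ∀ g : G, (Finset.univ.filter (fun x : G => x * g * x⁻¹ ∈ H)) ⊆
      (Finset.univ.filter (fun x : G => x * (g * g) * x⁻¹ ∈ H)) := by
    intro g x hx
    rw [Finset.mem_filter] at hx ⊢
    refine ⟨hx.1, ?_⟩
    have := H.mul_mem hx.2 hx.2
    simpa [mul_assoc] using this
  have hlt : ∑ g, f g < ∑ g, f (g * g) := by
    refine Finset.sum_lt_sum (fun g _ => Finset.card_le_card (hsub g)) ⟨g0, Finset.mem_univ _, ?_⟩
    refine Finset.card_lt_card ⟨hsub g0, fun hc => hg1 fun x => ?_⟩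
    have : x ∈ (Finset.univ.filter (fun x : G => x * (g0 * g0) * x⁻¹ ∈ H)) :=
      Finset.mem_filter.2 ⟨Finset.mem_univ _, hg2 x⟩
    exact (Finset.mem_filter.1 (hc this)).2
  have h1 : classInner (indFun H (fun _ : H => (1 : ℂ))) (fun _ => 1) = 1 := by
    rw [classInner_indFun_left H _ (IsClassFunction.const 1)]
    exact classInner_one_one
  rw [classInner_one_right] at h1
  rw [fsInd_def]
  simp only [ind_one_apply, ← Finset.mul_sum] at h1 ⊢
  have e1 : (∑ g : G, ((Finset.univ.filter (fun x : G => x * g * x⁻¹ ∈ H)).card : ℂ)) = ((∑ g, f g : ℕ) : ℂ) := by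
    push_cast; rfl
  have e2 : (∑ g : G, ((Finset.univ.filter (fun x : G => x * (g * g) * x⁻¹ ∈ H)).card : ℂ)) = ((∑ g, f (g * g) : ℕ) : ℂ) := by
    push_cast; rfl
  rw [e1] at h1
  rw [e2]
  have hG : (0 : ℝ) < Nat.card G := by exact_mod_cast Nat.card_pos
  have hH : (0 : ℝ) < Nat.card H := by exact_mod_cast Nat.card_pos
  have h1' : (Nat.card G : ℝ)⁻¹ * ((Nat.card H : ℝ)⁻¹ * ((∑ g, f g : ℕ) : ℝ)) = 1 := by
    apply Complex.ofReal_injective
    push_cast at h1 ⊢
    exact h1
  have h3 : ((Nat.card G : ℂ)⁻¹ * ((Nat.card H : ℂ)⁻¹ * ((∑ g, f (g * g) : ℕ) : ℂ))) =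
      (((Nat.card G : ℝ)⁻¹ * ((Nat.card H : ℝ)⁻¹ * ((∑ g, f (g * g) : ℕ) : ℝ)) : ℝ) : ℂ) := by
    push_cast; rfl
  rw [h3, Complex.ofReal_re, ← h1']
  have : ((∑ g, f g : ℕ) : ℝ) < ((∑ g, f (g * g) : ℕ) : ℝ) := by exact_mod_cast hlt
  gcongr

theorem fsInd_sum {G : Type*} [Group G] [Fintype G] (m : IrrCharacter G → ℕ) :
    fsInd (∑ φ : IrrCharacter G, m φ • (φ : G → ℂ)) = ∑ φ : IrrCharacter G, (m φ : ℂ) * fsInd (φ : G → ℂ) := by
  simp only [fsInd_def, Finset.sum_apply, nsmul_eq_mul, Finset.mul_sum]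
  rw [Finset.sum_comm]
  refine Finset.sum_congr rfl fun φ _ => Finset.sum_congr rfl fun g _ => by
    simp only [Pi.mul_apply, Pi.natCast_apply]; ring

/-- Let H be a subgroup of the finite group G and consider the permutation character of G on the cosets of H (the function induced from the principal character of H). Then exactly one irreducible constituent of it is real-valued with Frobenius–Schur indicator +1 (namely the principal character) if and only if the normal core of H has odd index in G. -/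
theorem result {G : Type*} [Group G] [Fintype G] (H : Subgroup G) : Nat.card {χ : Cfsg.IrrCharacter G // Cfsg.classInner (Cfsg.indFun H (fun _ : H => (1 : ℂ))) (χ : G → ℂ) ≠ 0 ∧ (∀ g : G, (starRingEnd ℂ) ((χ : G → ℂ) g) = (χ : G → ℂ) g) ∧ (Nat.card G : ℂ)⁻¹ * ∑ g : G, (χ : G → ℂ) (g * g) = 1} = 1 ↔ Odd H.normalCore.index := by
  classical
  have hπ : IsCharacter G (indFun H (fun _ : H => (1 : ℂ))) := isCharacter_indFun H IsCharacter.one
  have h1 : classInner (indFun H (fun _ : H => (1 : ℂ))) (fun _ => 1) = 1 := by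
    rw [classInner_indFun_left H _ (IsClassFunction.const 1)]
    exact classInner_one_one
  have hone : Cfsg.classInner (Cfsg.indFun H (fun _ : H => (1 : ℂ))) (irrOne G : G → ℂ) ≠ 0 ∧ (∀ g : G, (starRingEnd ℂ) ((irrOne G : G → ℂ) g) = (irrOne G : G → ℂ) g) ∧ (Nat.card G : ℂ)⁻¹ * ∑ g : G, (irrOne G : G → ℂ) (g * g) = 1 := by
    refine ⟨?_, fun g => by simp, ?_⟩
    · rw [coe_irrOne, h1]; exact one_ne_zero
    · exact fsInd_one (G := G)
  constructor
  · intro hc
    by_contra hodd
    have hlt := one_lt_fs H hodd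
    obtain ⟨m, hm, hsum⟩ := hπ.exists_mult
    rw [hsum, fsInd_sum, Complex.re_sum] at hlt
    have hsub := (Nat.card_eq_one_iff_unique.1 hc).1
    have hle : ∀ φ : IrrCharacter G, ((m φ : ℂ) * fsInd (φ : G → ℂ)).re ≤ if φ = irrOne G then 1 else 0 := by
      intro φ
      split_ifs with hφ
      · subst hφ
        have := hm (irrOne G)
        rw [coe_irrOne, h1] at this
        rw [← this, coe_irrOne, fsInd_one]; simp
      · by_cases hm0 : m φ = 0
        · simp [hm0]
        rcases fsInd_trichotomy φ.2 with h | h | h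
        · rw [h]; simp
        · exfalso
          apply hφ
          have hr := (fsInd_ne_zero_iff φ.2).1 (by rw [h]; exact one_ne_zero)
          have hP : Cfsg.classInner (Cfsg.indFun H (fun _ : H => (1 : ℂ))) (φ : G → ℂ) ≠ 0 ∧ (∀ g : G, (starRingEnd ℂ) ((φ : G → ℂ) g) = (φ : G → ℂ) g) ∧ (Nat.card G : ℂ)⁻¹ * ∑ g : G, (φ : G → ℂ) (g * g) = 1 := by
            refine ⟨?_, fun g => Complex.conj_eq_iff_im.2 (hr g), h⟩
            rw [hm]; exact_mod_cast hm0
          exact congrArg Subtype.val (hsub.elim ⟨φ, hP⟩ ⟨irrOne G, hone⟩)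
        · rw [h]; simp
    have := Finset.sum_le_sum (s := Finset.univ) fun φ _ => hle φ
    rw [Finset.sum_ite_eq'] at this
    simp only [Finset.mem_univ, if_true] at this
    linarith
  · intro hodd
    rw [Nat.card_eq_one_iff_exists]
    refine ⟨⟨irrOne G, hone⟩, fun ⟨χ, hχ, hr, _⟩ => Subtype.ext (Subtype.ext ?_)⟩
    have hk : H.normalCore ≤ charKer (χ : G → ℂ) := by
      refine le_trans ?_ (hπ.charKer_le_of_constituent χ.2 hχ)
      rw [hπ.le_charKer_iff]
      intro n hn
      rw [ind_one_apply, ind_one_apply]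
      congr 3
      ext x
      simp only [mul_one, mul_inv_cancel, H.one_mem, Finset.mem_filter, Finset.mem_univ, true_and, iff_true]
      exact hn x
    obtain ⟨ψ, hψ, he⟩ := χ.2.exists_quotient H.normalCore (χ.isCharacter.le_charKer_iff.1 hk)
    have hψr : ∀ q, (ψ q).im = 0 := by
      intro q
      obtain ⟨g, rfl⟩ := QuotientGroup.mk_surjective q
      have := Complex.conj_eq_iff_im.1 (hr g)
      rwa [he] at this
    have := Fintype.ofFinite (G ⧸ H.normalCore)
    have := eq_one_of_real_of_odd hodd hψ hψr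
    show (χ : G → ℂ) = fun _ => 1
    rw [he, this]

end Cfsg.Agent.S4784
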