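import Cfsg.Statements.S4796
import Cfsg.Agent.Deg.Codeg
import Cfsg.Agent.GT.FrobeniusBasic
-- import your own Cfsg.Agent.* helpers here

set_option autoImplicit false
open Cfsg

namespace Cfsg.Agent.S4796

open Cfsg.Agent.Ch Cfsg.Agent.Deg
open scoped ComplexConjugate

/-- Let G be a finite group with a faithful irreducible complex character χ whose codegree #G / χ(1) is a prime p (for a faithful character the kernel is trivial, so the codegree is #G / χ(1)). Then either G is cyclic of order p, or G is a Frobenius group whose Frobenius kernel has order p: some proper non-trivial subgroup H satisfies H ∩ gHg⁻¹ = 1 for every element g outside H, and the set of elements lying in no conjugate of H, together with the identity, has exactly p elements. -/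
theorem result {G : Type*} [Group G] [Finite G] (χ : Cfsg.IrrCharacter G) (hfaith : ∀ g : G, (χ : G → ℂ) g = (χ : G → ℂ) 1 → g = 1) (p : ℕ) (hp : p.Prime) (hcod : Nat.card G = p * Cfsg.charDegree (χ : G → ℂ)) : (IsCyclic G ∧ Nat.card G = p) ∨ ∃ H : Subgroup G, Cfsg.IsFrobeniusComplement H ∧ Nat.card ↥(Cfsg.frobeniusKernel H) = p := by
  obtain ⟨P, hn, hP, hi, hlt, hC⟩ := exists_normal_of_prime_codeg χ.2 hfaith hp hcod
  have := Fact.mk hp
  by_cases h1 : charDegree (χ : G → ℂ) = 1
  · left
    rw [h1, mul_one] at hcod
    exact ⟨isCyclic_of_prime_card hcod, hcod⟩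
  · right
    have hcop : (Nat.card P).Coprime P.index := by
      rw [hP, hi]
      exact (hp.coprime_iff_not_dvd).2 fun h =>
        absurd (Nat.le_of_dvd χ.2.charDegree_pos h) (not_le.2 hlt)
    obtain ⟨H, hH⟩ := Subgroup.exists_right_complement'_of_coprime hcop
    have hP1 : P ≠ ⊥ := by
      rintro rfl
      rw [Subgroup.card_bot] at hP
      exact hp.one_lt.ne hP
    have hH1 : H ≠ ⊥ := by
      rintro rfl
      have := hH.symm.index_eq_card
      rw [Subgroup.card_bot, hi] at this
      exact h1 this
    have hF : IsFrobeniusComplement H := by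
      refine GT.Frob.isFrobeniusComplement_of_fpf hH hP1 hH1 fun h hh hh1 => ?_
      by_contra hne
      have hle : P ⊓ Subgroup.centralizer {h} ≤ P := inf_le_left
      have hc : Nat.card (P ⊓ Subgroup.centralizer {h} : Subgroup G) = p := by
        have := Subgroup.card_dvd_of_le hle
        rw [hP] at this
        refine ((Nat.dvd_prime hp).1 this).resolve_left fun h1 => hne ?_
        exact Subgroup.card_eq_one.1 h1
      have he := GT.eq_of_le_of_card_eq hle (hc.trans hP.symm)
      have hhP : h ∈ P := hC fun x hx => by
        have : x ∈ Subgroup.centralizer {h} := (he.ge hx).2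
        exact ((Subgroup.mem_centralizer_singleton_iff).1 this)
      exact hh1 (Subgroup.disjoint_def.1 hH.disjoint hhP hh)
    refine ⟨H, hF, ?_⟩
    rw [hF.card_kernel, hH.index_eq_card, hP]

end Cfsg.Agent.S4796
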