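import Cfsg.Statements.S4797
import Cfsg.Agent.Deg.Codeg
import Cfsg.Agent.GT.Frattini
-- import your own Cfsg.Agent.* helpers here

set_option autoImplicit false
open Cfsg

namespace Cfsg.Agent.S4797

open Cfsg.Agent.Ch Cfsg.Agent.Deg
open scoped ComplexConjugate

/-- The codegree of an irreducible complex character χ of a finite group G is [G : ker χ] / χ(1), where ker χ is the set of elements at which χ takes the value χ(1). A non-trivial finite group is perfect if and only if no irreducible complex character of it has prime codegree. -/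
theorem result {G : Type*} [Group G] [Finite G] [Nontrivial G] : commutator G = ⊤ ↔ ∀ χ : Cfsg.IrrCharacter G, ¬ ((Nat.card G / (Nat.card {g : G // (χ : G → ℂ) g = (χ : G → ℂ) 1} * Cfsg.charDegree (χ : G → ℂ)))).Prime := by
  constructor
  · intro hG χ hp
    have hn := χ.isCharacter.charKer_normal
    obtain ⟨ψ, hψ, hker, he⟩ := χ.2.exists_faithful_quotient (charKer (χ : G → ℂ)) rfl
    have hc : codeg (χ : G → ℂ) = codeg ψ := by
      conv_lhs => rw [he]
      exact codeg_comp_surjective hψ (QuotientGroup.mk' _) (QuotientGroup.mk'_surjective _)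
    change (codeg (χ : G → ℂ)).Prime at hp
    rw [hc] at hp
    obtain ⟨P, hPn, hP, hi, hlt, hC⟩ := exists_normal_of_prime_codeg hψ
      (hψ.isCharacter.charKer_eq_bot_iff.1 hker) hp (codeg_mul_of_faithful hψ hker).symm
    have := Fact.mk hp
    have : IsCyclic P := isCyclic_of_prime_card hP
    have h1 := (GT.SS.commutator_le_centralizer_of_isCyclic P).trans hC
    have h2 : commutator (G ⧸ charKer (χ : G → ℂ)) = ⊤ := by
      have := map_commutator_eq G (QuotientGroup.mk' (charKer (χ : G → ℂ)))
      rw [hG, MonoidHom.range_eq_top_of_surjective _ (QuotientGroup.mk'_surjective _),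
        Subgroup.map_top_of_surjective _ (QuotientGroup.mk'_surjective _)] at this
      exact this.symm
    rw [h2, top_le_iff] at h1
    have h3 : ∀ a b : G ⧸ charKer (χ : G → ℂ), a * b = b * a := by
      intro a b
      subst h1
      have := IsCyclic.commGroup (α := (⊤ : Subgroup (G ⧸ charKer (χ : G → ℂ))))
      obtain ⟨g, hg⟩ := IsCyclic.exists_generator (α := (⊤ : Subgroup (G ⧸ charKer (χ : G → ℂ))))
      obtain ⟨m, hm⟩ := hg ⟨a, trivial⟩
      obtain ⟨n, hn⟩ := hg ⟨b, trivial⟩
      have ha : a = (g : G ⧸ charKer (χ : G → ℂ)) ^ m := by simpa using congrArg Subtype.val hm.symm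
      have hb : b = (g : G ⧸ charKer (χ : G → ℂ)) ^ n := by simpa using congrArg Subtype.val hn.symm
      rw [ha, hb, zpow_mul_comm]
    have h4 : commutator (G ⧸ charKer (χ : G → ℂ)) = ⊥ := by
      rw [commutator_def, Subgroup.commutator_eq_bot_iff_le_centralizer]
      exact fun a _ b _ => h3 b a
    rw [h2] at h4
    rw [h1, h4, Subgroup.card_bot] at hP
    exact hp.one_lt.ne hP
  · intro h
    by_contra hG
    obtain ⟨M, hM, hle⟩ := GT.exists_isCoatom_ge hG
    have hMn : M.Normal := Subgroup.Normal.of_commutator_le _ hle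
    obtain ⟨χ, hχ, hne⟩ := exists_irr_ne_one_le_charKer M hM.1
    have hk : charKer (χ : G → ℂ) = M := by
      rcases hM.le_iff.1 hχ with h1 | h1
      · exact absurd (χ.2.eq_one_of_charKer_eq_top h1) hne
      · exact h1
    have hd : charDegree (χ : G → ℂ) = 1 :=
      χ.isCharacter.charDegree_eq_one_iff.2 (χ.2.apply_one_eq_one_iff_commutator_le.2 (hle.trans hχ))
    have h2 := codeg_mul_charDegree χ.2
    rw [hd, mul_one, hk] at h2
    apply h χ
    change (codeg (χ : G → ℂ)).Prime
    rw [h2]
    exact GT.index_prime_of_isCoatom_of_normal hM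

end Cfsg.Agent.S4797
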