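import Cfsg.Statements.S4801
import Cfsg.Agent.Deg.Basic
-- import your own Cfsg.Agent.* helpers here

set_option autoImplicit false
open Cfsg

namespace Cfsg.Agent.S4801

open Cfsg.Agent.Ch Cfsg.Agent.Deg
open scoped ComplexConjugate

/-- The codegree of an irreducible complex character χ of a finite group G is [G : ker χ] / χ(1), where ker χ is the set of elements at which χ takes the value χ(1). Let S be a finite simple group and G a finite group such that every codegree of an irreducible character of S is a codegree of an irreducible character of G. Then the order of S divides the order of G. -/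
theorem result {S : Type*} [Group S] [Finite S] (hS : IsSimpleGroup S) {G : Type*} [Group G] [Finite G] (hsub : ∀ χ : Cfsg.IrrCharacter S, ∃ ψ : Cfsg.IrrCharacter G, (Nat.card S / (Nat.card {g : S // (χ : S → ℂ) g = (χ : S → ℂ) 1} * Cfsg.charDegree (χ : S → ℂ))) = (Nat.card G / (Nat.card {g : G // (ψ : G → ℂ) g = (ψ : G → ℂ) 1} * Cfsg.charDegree (ψ : G → ℂ)))) : Nat.card S ∣ Nat.card G := by
  classical
  have h1 : ∀ χ ∈ Finset.univ.erase (irrOne S),
      Nat.card S ∣ Nat.card G * charDegree (χ : S → ℂ) ^ 2 := by
    intro χ hχ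
    obtain ⟨ψ, hψ⟩ := hsub χ
    have hne : (χ : S → ℂ) ≠ fun _ => 1 := fun h =>
      (Finset.ne_of_mem_erase hχ) (Subtype.ext h)
    have h2 := codeg_mul_of_faithful χ.2 (χ.2.charKer_eq_bot_of_simple hne)
    have h3 : codeg (χ : S → ℂ) ∣ Nat.card G := by
      have := codeg_dvd_card ψ.2
      unfold codeg at this ⊢
      rwa [hψ]
    rw [← h2, pow_two, ← mul_assoc]
    exact (Nat.mul_dvd_mul_right h3 _).mul_right _
  have h2 := Finset.dvd_sum h1
  have h3 := sum_sq_charDegree (G := S)
  rw [← Finset.add_sum_erase _ _ (Finset.mem_univ (irrOne S)), coe_irrOne, charDegree_one,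
    one_pow] at h3
  rw [← Finset.mul_sum] at h2
  have h4 : Nat.card S ∣ Nat.card G * (1 + ∑ χ ∈ Finset.univ.erase (irrOne S),
      charDegree (χ : S → ℂ) ^ 2) := by rw [h3]; exact Dvd.intro_left _ rfl
  rw [mul_add, mul_one] at h4
  exact (Nat.dvd_add_left h2).1 h4

end Cfsg.Agent.S4801
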