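import Cfsg.Statements.S4802
import Cfsg.Agent.Deg.Basic
-- import your own Cfsg.Agent.* helpers here

set_option autoImplicit false
open Cfsg

namespace Cfsg.Agent.S4802

open Cfsg.Agent.Ch Cfsg.Agent.Deg
open scoped ComplexConjugate

/-- Let N < M be normal subgroups of the finite group G and g ∈ M ∖ N. Then the conjugacy class of g is exactly M ∖ N if and only if every irreducible complex character of G whose kernel contains N takes the same value at all elements of M ∖ N, and every irreducible complex character of G whose kernel does not contain N vanishes at g. -/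
theorem result {G : Type*} [Group G] [Finite G] (N M : Subgroup G) [N.Normal] [M.Normal] (hNM : N < M) (g : G) (hgM : g ∈ M) (hgN : g ∉ N) : {h : G | IsConj g h} = (M : Set G) \ (N : Set G) ↔ ((∀ χ : Cfsg.IrrCharacter G, (∀ x ∈ N, (χ : G → ℂ) x = (χ : G → ℂ) 1) → ∀ x ∈ M, x ∉ N → ∀ y ∈ M, y ∉ N → (χ : G → ℂ) x = (χ : G → ℂ) y) ∧ (∀ χ : Cfsg.IrrCharacter G, (∃ x ∈ N, (χ : G → ℂ) x ≠ (χ : G → ℂ) 1) → (χ : G → ℂ) g = 0)) := by
  classical
  have := Fintype.ofFinite G
  constructor
  · intro hcl
    have hmem : ∀ x ∈ M, x ∉ N → IsConj g x := fun x hx hxN => by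
      have : x ∈ {h : G | IsConj g h} := by rw [hcl]; exact ⟨hx, hxN⟩
      exact this
    refine ⟨fun χ _ x hx hxN y hy hyN => ?_, fun χ hχ => ?_⟩
    · rw [← χ.isClassFunction.eq_of_isConj (hmem x hx hxN),
        ← χ.isClassFunction.eq_of_isConj (hmem y hy hyN)]
    · have hN : ¬ N ≤ charKer (χ : G → ℂ) := by
        intro hle
        obtain ⟨x, hx, hne⟩ := hχ
        exact hne (apply_eq_of_mem_charKer (hle hx))
      have h0 := χ.2.sum_normal_eq_zero N hN g
      have h1 : ∀ n : N, (χ : G → ℂ) (n * g) = (χ : G → ℂ) g := fun n => by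
        refine (χ.isClassFunction.eq_of_isConj (hmem _ (M.mul_mem (hNM.le n.2) hgM) ?_)).symm
        intro h
        exact hgN ((N.mul_mem_cancel_left n.2).1 h)
      simp only [h1, Finset.sum_const, Finset.card_univ, nsmul_eq_mul] at h0
      have hc : (Fintype.card N : ℂ) ≠ 0 := by exact_mod_cast Fintype.card_ne_zero
      exact (mul_eq_zero.1 h0).resolve_left hc
  · rintro ⟨h1, h2⟩
    ext y
    constructor
    · intro hy
      obtain ⟨c, rfl⟩ := isConj_iff.1 hy
      refine ⟨‹M.Normal›.conj_mem g hgM c, fun h => hgN ?_⟩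
      have := ‹N.Normal›.conj_mem _ h c⁻¹
      simpa [mul_assoc] using this
    · rintro ⟨hyM, hyN⟩
      by_contra hc
      have h3 := column_orthogonality_of_not_isConj (g := g) (h := y) hc
      have h4 : ∀ χ : IrrCharacter G, (χ : G → ℂ) g * conj ((χ : G → ℂ) y) =
          (χ : G → ℂ) g * conj ((χ : G → ℂ) g) := by
        intro χ
        by_cases hk : ∀ x ∈ N, (χ : G → ℂ) x = (χ : G → ℂ) 1
        · rw [h1 χ hk y hyM hyN g hgM hgN]
        · push Not at hk
          rw [h2 χ hk]; simp
      simp only [h4] at h3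
      rw [column_orthogonality_self] at h3
      exact natCard_ne_zero _ h3

end Cfsg.Agent.S4802
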