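import Cfsg.Statements.S4808
import Cfsg.Agent.Deg.Basic
import Cfsg.Agent.GT.PiGroups
-- import your own Cfsg.Agent.* helpers here

set_option autoImplicit false
open Cfsg

namespace Cfsg.Agent.S4808

open Cfsg.Agent.Ch Cfsg.Agent.Deg
open scoped ComplexConjugate

/-- The codegree of an irreducible complex character χ of a finite group G is [G : ker χ] / χ(1), where ker χ is the set of elements at which χ takes the value χ(1). A prime divides the order of G if and only if it divides the codegree of some irreducible complex character of G. -/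
theorem result {G : Type*} [Group G] [Finite G] (p : ℕ) (hp : p.Prime) : p ∣ Nat.card G ↔ ∃ χ : Cfsg.IrrCharacter G, p ∣ (Nat.card G / (Nat.card {g : G // (χ : G → ℂ) g = (χ : G → ℂ) 1} * Cfsg.charDegree (χ : G → ℂ))) := by
  classical
  refine ⟨fun hpG => ?_, fun ⟨χ, hχ⟩ => hχ.trans (codeg_dvd_card χ.2)⟩
  by_contra hcon
  push Not at hcon
  have := Fact.mk hp
  obtain ⟨P⟩ : Nonempty (Sylow p G) := inferInstance
  set K := Subgroup.normalClosure ((P : Subgroup G) : Set G) with hK
  have h1 : ∀ χ : IrrCharacter G, ¬ K ≤ charKer (χ : G → ℂ) → p ∣ charDegree (χ : G → ℂ) := by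
    intro χ hχ
    have hn := χ.isCharacter.charKer_normal
    have h2 : p ∣ (charKer (χ : G → ℂ)).index := by
      by_contra h3
      apply hχ
      refine Subgroup.normalClosure_le_normal ?_
      refine GT.le_of_coprime_card_index (H := (P : Subgroup G)) ?_
      exact GT.coprime_card_of_isPGroup hp P.isPGroup' ((Nat.coprime_comm.1 ((hp.coprime_iff_not_dvd).2 h3)))
    rw [← codeg_mul_charDegree χ.2] at h2
    exact (hp.dvd_mul.1 h2).resolve_left (hcon χ)
  have h2 := sum_sq_charDegree (G := G)
  rw [← Finset.sum_filter_add_sum_filter_not Finset.univ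
    (fun χ : IrrCharacter G => K ≤ charKer χ.1), sum_irr_le_charKer_sq] at h2
  have h3 : p ∣ ∑ χ : IrrCharacter G with ¬ K ≤ charKer χ.1, charDegree (χ : G → ℂ) ^ 2 :=
    Finset.dvd_sum fun χ hχ => (h1 χ (Finset.mem_filter.1 hχ).2).trans (dvd_pow_self _ two_ne_zero)
  have h4 : p ∣ K.index := (Nat.dvd_add_left h3).1 (h2 ▸ hpG)
  exact P.not_dvd_index (h4.trans (Subgroup.index_dvd_of_le Subgroup.le_normalClosure))

end Cfsg.Agent.S4808
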