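import Mathlib
import Cfsg.Statements.S4813
import Cfsg.Agent.Ch.Deg12D
import Cfsg.Agent.Deg.Basic
import Cfsg.Agent.S4466

set_option autoImplicit false
open Cfsg

namespace Cfsg.Agent.S4813

open Cfsg.Agent.Ch

theorem card_le_three {S : Set ℕ} (a b c : ℕ) (h : ∀ d ∈ S, d = a ∨ d = b ∨ d = c) :
    Nat.card S ≤ 3 := by
  have h1 : S ⊆ ({a, b, c} : Set ℕ) := fun d hd => by simpa using h d hd
  have h2 := Set.ncard_le_ncard h1 (Set.toFinite _)
  have h3 : ({a, b, c} : Set ℕ).ncard ≤ 3 := by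
    refine (Set.ncard_insert_le _ _).trans ?_
    have := Set.ncard_insert_le b ({c} : Set ℕ)
    rw [Set.ncard_singleton] at this
    omega
  exact h2.trans h3

theorem res_irr {G : Type*} [Group G] [Finite G] (N : Subgroup G) [N.Normal] {ψ : G → ℂ}
    (hψ : IsIrrCharacter G ψ) (hc : N.index.Coprime (charDegree ψ)) :
    IsIrrCharacter N (fun n => ψ n) := by
  have := Fintype.ofFinite N
  obtain ⟨φ, hφ, hne⟩ := exists_irr_under N hψ
  obtain ⟨e, he, h3⟩ := exists_degree_eq_mul hφ hψ hne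
  obtain rfl : e = 1 := Nat.eq_one_of_dvd_coprimes hc he ⟨charDegree φ, by
    rw [← hψ.coe_charDegree, ← hφ.coe_charDegree] at h3
    exact_mod_cast h3⟩
  have h4 := (hψ.isCharacter.restrict _).eq_irr_of_apply_one hφ hne (by simpa using h3)
  exact h4 ▸ hφ

/-- If every irreducible complex character of the finite group G of degree greater than one has prime degree, then G has at most three distinct irreducible character degrees. -/
theorem result {G : Type*} [Group G] [Finite G] (hprime : ∀ d ∈ Cfsg.charDegrees G, d = 1 ∨ d.Prime) : Nat.card ↥(Cfsg.charDegrees G) ≤ 3 := by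
  have hp : ∀ χ, IsIrrCharacter G χ → charDegree χ ≠ 1 → (charDegree χ).Prime := fun χ hχ h1 =>
    (hprime _ (Deg.mem_charDegrees.2 ⟨χ, hχ, rfl⟩)).resolve_left h1
  have hmul : ∀ χ, IsIrrCharacter G χ → ∀ a b : ℕ, a ≠ 1 → b ≠ 1 → charDegree χ ≠ a * b := by
    intro χ hχ a b ha hb h
    by_cases h1 : charDegree χ = 1
    · exact ha (Nat.eq_one_of_mul_eq_one_right (h ▸ h1))
    · exact Nat.not_prime_mul ha hb (h ▸ hp χ hχ h1)
  have hsolv : Group.IsSolvable G := S4466.result fun χ h1 => hp χ χ.2 h1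
  by_cases h1 : commutator G ≤ ⁅commutator G, ⊤⁆
  · by_cases h2 : commutator G ≤ ⁅commutator G, commutator G⁆
    · have h3 : commutator G = ⊥ := by
        by_contra h3
        exact (Group.IsSolvable.commutator_lt_of_ne_bot h3).not_ge h2
      refine card_le_three 1 1 1 fun d hd => ?_
      obtain ⟨χ, hχ, rfl⟩ := Deg.mem_charDegrees.1 hd
      have := (Deg.charDegree_eq_one_iff_commutator_le hχ).2 (h3 ▸ bot_le)
      exact Or.inl this
    · obtain ⟨N, K, hN, hK, -, hF⟩ := deg12_exists_frobSec h1 h2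
      obtain ⟨θ, hθ, hθN⟩ := hF.exists_charDegree_eq
      have hf1 : N.index ≠ 1 := mt Subgroup.index_eq_one.1 hF.ne_top
      have hfp : N.index.Prime := hθN ▸ hp θ hθ (hθN ▸ hf1)
      have hk1 : K.relIndex N ≠ 1 := fun h => hF.lt.not_ge (Subgroup.relIndex_eq_one.1 h)
      refine card_le_three 1 N.index (K.relIndex N).minFac fun d hd => ?_
      obtain ⟨χ, hχ, rfl⟩ := Deg.mem_charDegrees.1 hd
      by_cases h3 : charDegree χ = 1
      · exact Or.inl h3
      by_cases h4 : charDegree χ = N.index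
      · exact Or.inr (Or.inl h4)
      have hq := hp χ hχ h3
      have hres := res_irr N hχ ((Nat.coprime_primes hfp hq).2 (Ne.symm h4))
      have hdeg : charDegree (fun n : N => χ n) = charDegree χ := rfl
      rcases hF.exists_or_dvd hres with ⟨ξ, hξ, h5⟩ | h5
      · exact absurd h5 (hmul ξ hξ _ _ hf1 (hdeg ▸ h3))
      · rw [hdeg] at h5
        have h6 := (Nat.minFac_prime hk1).dvd_of_dvd_pow ((Nat.minFac_dvd _).trans h5)
        exact Or.inr (Or.inr ((Nat.prime_dvd_prime_iff_eq (Nat.minFac_prime hk1) hq).1 h6).symm)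
  · obtain ⟨θ, hθ, hθ1, -, h0⟩ := deg12_exists_vanish h1
    have := hθ.isCharacter.charCenter_normal
    refine card_le_three 1 (charDegree θ) 1 fun d hd => ?_
    obtain ⟨χ, hχ, rfl⟩ := Deg.mem_charDegrees.1 hd
    by_cases h3 : charDegree χ = 1
    · exact Or.inl h3
    by_cases h4 : charDegree χ = charDegree θ
    · exact Or.inr (Or.inl h4)
    have hres := res_irr (charCenter θ) hχ (by
      rw [← Deg.sq_charDegree_eq_index hθ _ le_rfl h0]
      exact ((Nat.coprime_primes (hp θ hθ hθ1) (hp χ hχ h3)).2 (Ne.symm h4)).pow_left 2)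
    exact absurd (hθ.isCharacter.charDegree_mul hχ.isCharacter)
      (hmul _ (deg12_mul_irr_of_vanish hθ le_rfl h0 hχ.isCharacter hres) _ _ hθ1 h3)

end Cfsg.Agent.S4813
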