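import Cfsg.Statements.S4814
import Cfsg.Agent.Deg.Basic
-- import your own Cfsg.Agent.* helpers here

set_option autoImplicit false
open Cfsg

namespace Cfsg.Agent.S4814

open Cfsg.Agent.Ch Cfsg.Agent.Deg
open scoped ComplexConjugate

/-- Let G be a finite group such that the sum, over the irreducible complex characters χ of G, of 1/χ(1)² is less than 2. Then every element of G is a product of two commutators. -/
theorem result {G : Type*} [Group G] [Finite G]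
    (h : ∑ᶠ χ : Cfsg.IrrCharacter G, 1 / ‖(χ : G → ℂ) 1‖ ^ 2 < (2 : ℝ)) (g : G) :
    ∃ a b c d : G, (a * b * a⁻¹ * b⁻¹) * (c * d * c⁻¹ * d⁻¹) = g := by
  classical
  have := Fintype.ofFinite G
  by_contra hc
  push Not at hc
  have h1 : ∑ x : (G × G) × G × G, regChar G (x.2.1 * x.2.2 * x.2.1⁻¹ * x.2.2⁻¹ *
      (g⁻¹ * (x.1.1 * x.1.2 * x.1.1⁻¹ * x.1.2⁻¹))) = 0 := by
    refine Finset.sum_eq_zero fun ⟨⟨a, b⟩, c, d⟩ _ => regChar_of_ne fun h1 => ?_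
    apply hc a b c d
    simp only at h1
    calc a * b * a⁻¹ * b⁻¹ * (c * d * c⁻¹ * d⁻¹)
        = (a * b * a⁻¹ * b⁻¹) * (c * d * c⁻¹ * d⁻¹ * (g⁻¹ * (a * b * a⁻¹ * b⁻¹))) *
          (a * b * a⁻¹ * b⁻¹)⁻¹ * g := by group
      _ = g := by rw [h1]; group
  rw [sum_regChar_eq] at h1
  have h2 : ∀ χ : IrrCharacter G, (χ : G → ℂ) 1 * ∑ x : (G × G) × G × G, (χ : G → ℂ)
      (x.2.1 * x.2.2 * x.2.1⁻¹ * x.2.2⁻¹ * (g⁻¹ * (x.1.1 * x.1.2 * x.1.1⁻¹ * x.1.2⁻¹))) =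
      (Nat.card G : ℂ) ^ 4 * ((χ : G → ℂ) g⁻¹ / (χ : G → ℂ) 1 ^ 3) := by
    intro χ
    simp only [Fintype.sum_prod_type, sum_commutator_mul χ.2, χ.isClassFunction.mul_comm g⁻¹]
    simp only [div_eq_mul_inv, ← Finset.sum_mul, ← Finset.mul_sum, sum_commutator_mul χ.2]
    field_simp [χ.2.apply_one_ne_zero]
  simp only [h2, ← Finset.mul_sum] at h1
  have h3 := (mul_eq_zero.1 h1).resolve_left (pow_ne_zero _ (natCard_ne_zero G))
  rw [finsum_irr] at h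
  rw [← Finset.add_sum_erase _ _ (Finset.mem_univ (irrOne G))] at h h3
  simp only [coe_irrOne, one_pow, div_one, norm_one] at h h3
  have h4 : ‖∑ χ ∈ Finset.univ.erase (irrOne G), ((χ : G → ℂ) g⁻¹ / (χ : G → ℂ) 1 ^ 3)‖ = 1 := by
    rw [eq_neg_of_add_eq_zero_right h3]; simp
  have h5 := norm_sum_le_of_le (Finset.univ.erase (irrOne G))
    (f := fun χ : IrrCharacter G => (χ : G → ℂ) g⁻¹ / (χ : G → ℂ) 1 ^ 3)
    (n := fun χ => 1 / ‖(χ : G → ℂ) 1‖ ^ 2) (fun χ _ => by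
      have hp : 0 < ‖(χ : G → ℂ) 1‖ := norm_pos_iff.2 χ.2.apply_one_ne_zero
      rw [norm_div, norm_pow, div_le_div_iff₀ (by positivity) (by positivity)]
      have := χ.isCharacter.norm_le_norm_one g⁻¹
      nlinarith [pow_pos hp 2])
  linarith

end Cfsg.Agent.S4814
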