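import Mathlib
import Cfsg.Statements.S4823
import Cfsg.Agent.KZ.Lan
import Cfsg.Agent.Blk.PB0
import Cfsg.Agent.Blk.Contrib2

set_option autoImplicit false
universe u
open Cfsg

namespace Cfsg.Agent.S4823

theorem prod_int {G : Type*} [Group G] [Finite G] {p : ℕ} {M : Ideal AlgInt} (hM : IsPModular p M) (g : G) (t : ℤ) :
    ∃ n : ℤ, (n : ℂ) = ∏ χ ∈ Blk.PB.pb M G, ((t : ℂ) - (χ : G → ℂ) g) := by
  have h0 : ∀ g, ∏ χ ∈ Blk.PB.pb M G, ((t : ℂ) - (χ : G → ℂ) g) =
      (∏ χ ∈ Blk.PB.pb M G, ((t : ℂ) • (1 : G → ℂ) - (χ : G → ℂ))) g := fun g => by simp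
  rw [h0]
  refine (IsGeneralizedCharacter.prod fun χ _ => (IsGeneralizedCharacter.one'.intCast_smul t).sub
    χ.isGeneralizedCharacter).exists_int_of_apply_pow_eq fun k hk => ?_
  simp only [← h0]
  let τ : IrrCharacter G → IrrCharacter G := fun χ => ⟨fun g => χ.1 (g ^ k), χ.2.comp_pow_of_coprime hk⟩
  have inj : Function.Injective τ := fun χ ψ e => Subtype.ext (funext fun y => by
    obtain ⟨x, rfl⟩ := (powCoprime hk.symm).surjective y
    exact congrFun (congrArg Subtype.val e) x)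
  have mem : ∀ χ ∈ Blk.PB.pb M G, τ χ ∈ Blk.PB.pb M G := fun χ h =>
    Blk.PB.mem_pb.2 ((Blk.P0.mem_iff_of_pow hM hk fun _ => rfl).2 (Blk.PB.mem_pb.1 h))
  exact Finset.prod_bij (fun χ _ => τ χ) mem (fun _ _ _ _ e => inj e) (fun b hb => by
    obtain ⟨a, ha, e⟩ := Finset.surj_on_of_inj_on_of_card_le (fun χ _ => τ χ) mem (fun _ _ _ _ e => inj e) le_rfl b hb
    exact ⟨a, ha, e.symm⟩) fun _ _ => rfl

/-- For every prime p and every natural number k there is a bound N such that, for every finite group G and every maximal ideal M of the algebraic integers containing p, if the principal p-block of G has at most k irreducible characters then the p-part of the order of G (the order of a defect group of the principal block) is at most p ^ N. -/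
theorem result (p : ℕ) [Fact p.Prime] (k : ℕ) : ∃ N : ℕ, ∀ (G : Type u) [Group G] [Finite G] (M : Ideal Cfsg.AlgInt), Cfsg.IsPModular p M → Nat.card (Cfsg.principalBlock M G) ≤ k → (Nat.card G).factorization p ≤ N := by
  classical
  have hp : p.Prime := Fact.out
  choose Q hQ H using Agent.KZ.lan_ratio.{u}
  obtain ⟨N, hN⟩ := ((((Set.finite_Iic k).biUnion fun n _ => Set.finite_iUnion (hQ n)).preimage
    (Rat.cast_injective (α := ℂ)).injOn).image Rat.den).bddAbove
  refine ⟨N, fun G _ _ M hM hk => ?_⟩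
  have := Fintype.ofFinite G
  have h0 : (Fintype.card G : ℂ) ≠ 0 := Nat.cast_ne_zero.2 Fintype.card_ne_zero
  let ε := (Agent.Blk.PB.pb M G).equivFin
  let o := ε ⟨_, Agent.Blk.PB.one_mem_pb hM⟩
  have ho : ((ε.symm o).1 : G → ℂ) = fun _ => 1 := by simp [o]
  have hi : ∀ i j, ∑ g, ((ε.symm i).1 : G → ℂ) g * starRingEnd ℂ (((ε.symm j).1 : G → ℂ) g) =
      Fintype.card G * if i = j then 1 else 0 := fun i j => by
    have := Agent.Ch.classInner_irr (ε.symm i).1 (ε.symm j).1
    rw [classInner, Nat.card_eq_fintype_card, inv_mul_eq_iff_eq_mul₀ h0] at this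
    simpa [Subtype.ext_iff.symm] using this
  have h1 := H _ o G (fun g i => ((ε.symm i).1 : G → ℂ) g) (fun g => ¬ p ∣ orderOf g) (fun g t => ?_)
    (fun g => congrFun ho g) (funext fun i => ?_) (fun i => le_of_eq ?_) fun g h hg hh => ?_
  · set m := Nat.card {g : G // ¬ p ∣ orderOf g}
    have h2 : ((m : ℚ) / Nat.card G).den ≤ N := hN ⟨_, Set.mem_biUnion
      (show _ ∈ Set.Iic k by rwa [Agent.Blk.PB.natCard_principalBlock] at hk)
      (Set.mem_iUnion.2 ⟨o, by simpa using h1⟩), rfl⟩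
    have h3 : (Nat.card G : ℤ) ∣ m * ((m : ℚ) / Nat.card G).den := ⟨((m : ℚ) / Nat.card G).num, by
      have h4 := Rat.mul_den_eq_num ((m : ℚ) / Nat.card G)
      have h5 : (Nat.card G : ℚ) ≠ 0 := Nat.cast_ne_zero.2 Nat.card_pos.ne'
      rw [div_mul_eq_mul_div, div_eq_iff h5, mul_comm _ (Nat.card G : ℚ)] at h4
      exact_mod_cast h4⟩
    have h4 := (((Nat.Prime.coprime_iff_not_dvd hp).2 (Agent.Blk.Om.not_dvd_card_pRegular (G := G) hp)).pow_left
      _).dvd_of_dvd_mul_left ((Nat.ordProj_dvd (Nat.card G) p).trans (by exact_mod_cast h3))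
    exact (Nat.lt_pow_self hp.one_lt).le.trans ((Nat.le_of_dvd (Rat.den_pos _) h4).trans h2)
  · obtain ⟨n, hn⟩ := prod_int hM g t
    exact ⟨n, by rw [hn, ← Finset.prod_coe_sort (Agent.Blk.PB.pb M G), ← ε.symm.prod_comp]⟩
  · simpa [ho, Pi.single_apply] using hi i o
  · have := hi i i
    simp only [Complex.mul_conj, Complex.normSq_eq_norm_sq, if_true, mul_one] at this
    exact_mod_cast this
  · rw [← Agent.Blk.PB.sum_mul_eq_zero_of_regular hM hg (not_not.1 hh), ← Finset.sum_coe_sort (Agent.Blk.PB.pb M G),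
      ← ε.symm.sum_comp]
    rfl

end Cfsg.Agent.S4823
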