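import Cfsg.Statements.S4825
import Cfsg.Agent.Blk.BlockOrth2
import Cfsg.Agent.Blk.Idem
import Cfsg.Agent.Ch.BrauerCongr
import Cfsg.Agent.Deg.Over
-- import your own Cfsg.Agent.* helpers here

set_option autoImplicit false
open Cfsg

namespace Cfsg.Agent.S4825

open Cfsg.Agent.Ch Cfsg.Agent.Deg
open scoped ComplexConjugate

open Cfsg.Agent.Blk

open Classical in
theorem key {G : Type*} [Group G] [Fintype G] {p : ℕ} [Fact p.Prime] (P : Sylow p G)
    {M : Ideal Cfsg.AlgInt} (hM : Cfsg.IsPModular p M) {B : Set (Cfsg.IrrCharacter G)}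
    (hB : Cfsg.IsPBlock M B) (N : Subgroup G) [N.Normal] [Fintype N]
    (hPN : ¬ (P : Subgroup G) ≤ N) (θ : Cfsg.IrrCharacter N) :
    p ∣ ∑ χ : IrrCharacter G with (χ ∈ B ∧ ¬ p ∣ charDegree χ.1 ∧
      classInner (fun n : N => χ.1 n) θ.1 ≠ 0), charDegree χ.1 ^ 2 := by
  have := hM.isMaximal
  have hp : p.Prime := Fact.out
  obtain ⟨g, hgP, hgN⟩ : ∃ g ∈ (P : Subgroup G), g ∉ N := by
    by_contra h
    push Not at h
    exact hPN h
  have hgo : ∃ k, orderOf g = p ^ k := by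
    obtain ⟨k, hk⟩ := (IsPGroup.iff_orderOf.1 P.isPGroup') ⟨g, hgP⟩
    exact ⟨k, by rw [← hk, Subgroup.orderOf_mk]⟩
  have h0 : blockPart B (indFun N θ.1) g = 0 := by
    refine blockPart_eq_zero_of_section hM hB.blockCoeff_mem (isPPart_self hp hgo) ?_
    intro g' w hw hc
    refine indFun_normal_of_not_mem N _ fun hg' => hgN ?_
    have hwN : w ∈ N := (Subgroup.zpowers_le.2 hg') (hw.mem_zpowers hp)
    obtain ⟨c, hc⟩ := isConj_iff.1 hc.symm
    rw [← hc]
    exact ‹N.Normal›.conj_mem _ hwN c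
  rw [blockPart_apply] at h0
  have h1 : ∑ χ : IrrCharacter G, (if χ ∈ B ∧ classInner (fun n : N => χ.1 n) θ.1 ≠ 0 then
      χ.1 1 * χ.1 g else 0) = 0 := by
    have h2 := congrArg (fun z => ((inertia N θ.1).index : ℂ) * θ.1 1 * z) h0
    simp only [mul_zero, Finset.mul_sum] at h2
    refine Eq.trans ?_ h2
    refine Finset.sum_congr rfl fun χ _ => ?_
    have hi : classInner (indFun N θ.1) χ.1 = classInner (fun n : N => χ.1 n) θ.1 :=
      classInner_indFun_eq_res N θ.2.isCharacter χ.2.isCharacter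
    by_cases hχ : χ ∈ B
    · by_cases he : classInner (fun n : N => χ.1 n) θ.1 = 0
      · simp only [hχ, he, ne_eq, not_true_eq_false, and_false, if_false, if_true]
        change 0 = _ * (classInner (indFun N θ.1) χ.1 * _)
        rw [hi, he]; ring
      · simp only [hχ, he, ne_eq, not_false_eq_true, and_true, if_true]
        change _ = _ * (classInner (indFun N θ.1) χ.1 * χ.1 g)
        rw [hi, clifford_apply_one χ.2 θ.2 he]; ring
    · simp [hχ]
  rw [← hM.natCast_mem_iff]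
  have h3 : ((∑ χ : IrrCharacter G with (χ ∈ B ∧ ¬ p ∣ charDegree χ.1 ∧
      classInner (fun n : N => χ.1 n) θ.1 ≠ 0), charDegree χ.1 ^ 2 : ℕ) : ℂ) =
      ∑ χ : IrrCharacter G, ((if (χ ∈ B ∧ ¬ p ∣ charDegree χ.1 ∧
        classInner (fun n : N => χ.1 n) θ.1 ≠ 0) then (charDegree χ.1 : ℂ) ^ 2 else 0) -
        (if χ ∈ B ∧ classInner (fun n : N => χ.1 n) θ.1 ≠ 0 then χ.1 1 * χ.1 g else 0)) := by
    rw [Finset.sum_sub_distrib, h1, sub_zero, Finset.sum_filter]
    push_cast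
    rfl
  rw [h3]
  refine MemLocalIdeal.sum fun χ _ => ?_
  have hd : χ.1 1 = (charDegree χ.1 : ℂ) := χ.2.isCharacter.coe_charDegree.symm
  have hcong : MemLocalIdeal M (χ.1 g - χ.1 1) := by
    have := memLocalIdeal_apply_mul_sub hM χ.2.isCharacter.isGeneralizedCharacter
      (Commute.one_right g) hgo
    rwa [mul_one] at this
  have hgr : MemLocalRing M (χ.1 g) := MemLocalRing.of_isIntegral (χ.2.isCharacter.isIntegral g)
  by_cases h4 : χ ∈ B ∧ classInner (fun n : N => χ.1 n) θ.1 ≠ 0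
  · rw [if_pos h4]
    by_cases h5 : p ∣ charDegree χ.1
    · rw [if_neg (fun h => h.2.1 h5), zero_sub, hd]
      exact (MemLocalIdeal.mul_right ((hM.natCast_mem_iff _).2 h5) hgr).neg
    · rw [if_pos ⟨h4.1, h5, h4.2⟩]
      have : (charDegree χ.1 : ℂ) ^ 2 - χ.1 1 * χ.1 g = -(χ.1 1 * (χ.1 g - χ.1 1)) := by
        rw [← hd]; ring
      rw [this]
      refine (MemLocalIdeal.mul_left ?_ hcong).neg
      rw [hd]; exact MemLocalRing.natCast _
  · rw [if_neg h4, if_neg (fun h => h4 ⟨h.1, h.2.2⟩), sub_zero]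
    exact MemLocalIdeal.zero

/-- Let p be a prime, G a finite group with Sylow p-subgroup P, M a maximal ideal of the algebraic integers containing p, and B a p-block of G with defect group P. Let N be a normal subgroup of G not containing P and θ an irreducible character of N. Then the number of irreducible characters in B of degree prime to p lying over θ (having θ as a constituent on restriction to N) is either 0 or at least 2, and when p ≤ 3 it is divisible by p. -/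
theorem result {G : Type*} [Group G] [Fintype G] (p : ℕ) [Fact p.Prime] (P : Sylow p G) (M : Ideal Cfsg.AlgInt) (hM : Cfsg.IsPModular p M) (B : Set (Cfsg.IrrCharacter G)) (hB : Cfsg.IsPBlock M B) (hBP : Cfsg.IsDefectGroup p M B P) (N : Subgroup G) [N.Normal] [Fintype N] (hPN : ¬ (P : Subgroup G) ≤ N) (θ : Cfsg.IrrCharacter N) :
    (Nat.card {χ : Cfsg.IrrCharacter G // χ ∈ B ∧ ¬ p ∣ Cfsg.charDegree (χ : G → ℂ) ∧ Cfsg.classInner (fun n : N => (χ : G → ℂ) n) (θ : N → ℂ) ≠ 0} = 0 ∨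
      2 ≤ Nat.card {χ : Cfsg.IrrCharacter G // χ ∈ B ∧ ¬ p ∣ Cfsg.charDegree (χ : G → ℂ) ∧ Cfsg.classInner (fun n : N => (χ : G → ℂ) n) (θ : N → ℂ) ≠ 0}) ∧
    (p ≤ 3 → p ∣ Nat.card {χ : Cfsg.IrrCharacter G // χ ∈ B ∧ ¬ p ∣ Cfsg.charDegree (χ : G → ℂ) ∧ Cfsg.classInner (fun n : N => (χ : G → ℂ) n) (θ : N → ℂ) ≠ 0}) := by
  classical
  have hp : p.Prime := Fact.out
  have hk := key P hM hB N hPN θ
  have hc : Nat.card {χ : Cfsg.IrrCharacter G // χ ∈ B ∧ ¬ p ∣ Cfsg.charDegree (χ : G → ℂ) ∧ Cfsg.classInner (fun n : N => (χ : G → ℂ) n) (θ : N → ℂ) ≠ 0} =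
      (Finset.univ.filter fun χ : IrrCharacter G => (χ ∈ B ∧ ¬ p ∣ charDegree χ.1 ∧
      classInner (fun n : N => χ.1 n) θ.1 ≠ 0)).card := by
    rw [Nat.card_eq_fintype_card, Fintype.card_subtype]
  rw [hc]
  set S := (Finset.univ.filter fun χ : IrrCharacter G => (χ ∈ B ∧ ¬ p ∣ charDegree χ.1 ∧
      classInner (fun n : N => χ.1 n) θ.1 ≠ 0)) with hS
  have hmem : ∀ χ ∈ S, ¬ p ∣ charDegree χ.1 := fun χ h => (Finset.mem_filter.1 h).2.2.1
  refine ⟨?_, fun h3 => ?_⟩
  · by_contra h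
    push Not at h
    have h1 : S.card = 1 := by omega
    obtain ⟨χ, hχ⟩ := Finset.card_eq_one.1 h1
    have hχ' := hmem χ (by rw [hχ]; exact Finset.mem_singleton_self _)
    rw [hχ, Finset.sum_singleton] at hk
    exact hχ' (hp.dvd_of_dvd_pow hk)
  · have hsq : ∀ χ ∈ S, charDegree χ.1 ^ 2 ≡ 1 [MOD p] := by
      intro χ hχ
      have h1 := hmem χ hχ
      have h2 := hp.two_le
      generalize charDegree χ.1 = d at h1
      have hp' : p = 2 ∨ p = 3 := by omega
      rcases hp' with rfl | rfl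
      · have : d % 2 = 1 := by omega
        unfold Nat.ModEq
        rw [Nat.pow_mod, this]
      · have : d % 3 = 1 ∨ d % 3 = 2 := by omega
        unfold Nat.ModEq
        rcases this with h | h <;> rw [Nat.pow_mod, h]
    have h4 : ∑ χ ∈ S, charDegree χ.1 ^ 2 ≡ ∑ χ ∈ S, 1 [MOD p] :=
      Nat.ModEq.sum hsq
    rw [Finset.sum_const, smul_eq_mul, mul_one] at h4
    exact (Nat.modEq_zero_iff_dvd.1 (h4.symm.trans (Nat.modEq_zero_iff_dvd.2 hk)))

end Cfsg.Agent.S4825
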