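import Cfsg.Statements.S4828
import Cfsg.Agent.Blk.PairDict2
import Cfsg.Agent.Blk.Quot
import Cfsg.Agent.Blk.DefZero
import Cfsg.Agent.Deg.Ito
-- import your own Cfsg.Agent.* helpers here

set_option autoImplicit false
open Cfsg

namespace Cfsg.Agent.S4828

open Cfsg.Agent.Ch Cfsg.Agent.Deg
open scoped ComplexConjugate

open Cfsg.Agent.Blk Cfsg.Agent.Blk.Mod Cfsg.Agent.Blk.PD Cfsg.Agent.GT

theorem central_iff {H : Type*} [Group H] [Finite H] {p : ℕ} [hp : Fact p.Prime] {M : Ideal AlgInt}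
    (hM : IsPModular p M) {e : Set (IrrCharacter H)} (he : IsPBlock M e) {Z : Subgroup H}
    (hZ : IsPGroup p Z) (hc : Z ≤ Subgroup.center H) :
    IsDefectGroup p M e Z ↔ ∃ θ ∈ e, Z ≤ charKer θ.1 ∧
      (charDegree θ.1).factorization p + (Nat.card Z).factorization p = (Nat.card H).factorization p := by
  have := hM.isMaximal
  have hn : Z.Normal := ⟨fun z hz g => by
    rw [Subgroup.mem_center_iff.1 (hc hz) g, mul_inv_cancel_right]; exact hz⟩
  have hR := regCen_of_le_center hZ hc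
  have hb := hR.isPBlock_preimage hM he
  have h1 := hR.card_ker_mul_pow_blockDefect hM he
  rw [QuotientGroup.ker_mk'] at h1
  have h2 := factorization_card_add_index p Z
  constructor
  · intro hD
    rw [← hD.card_eq_pow_blockDefect hM he] at h1
    have h3 : blockDefect p (infl _ hR.surj ⁻¹' e) = 0 := by
      have h4 : p ^ blockDefect p (infl _ hR.surj ⁻¹' e) = 1 :=
        Nat.eq_of_mul_eq_mul_left Nat.card_pos (h1.trans (mul_one _).symm)
      exact (Nat.pow_eq_one.1 h4).resolve_left hp.out.one_lt.ne'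
    obtain ⟨ψ, hψ⟩ := hb.nonempty
    refine ⟨infl _ hR.surj ψ, hψ, ?_, ?_⟩
    · have := (exists_infl_eq_iff hR.surj).1 ⟨ψ, rfl⟩
      rwa [QuotientGroup.ker_mk'] at this
    · rw [charDegree_infl, (hb.blockDefect_eq_zero_iff hM hψ).1 h3, ← h2, add_comm]
      rfl
  · rintro ⟨θ, hθ, hk, hd⟩
    obtain ⟨ψ, rfl⟩ := (exists_infl_eq_iff hR.surj).2 (by rwa [QuotientGroup.ker_mk'])
    rw [charDegree_infl] at hd
    have h3 : blockDefect p (infl _ hR.surj ⁻¹' e) = 0 :=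
      (hb.blockDefect_eq_zero_iff hM (χ := ψ) hθ).2 (by
        change _ = Z.index.factorization p
        omega)
    rw [h3, pow_zero, mul_one] at h1
    obtain ⟨D, hD⟩ := he.exists_isDefectGroup p
    have h4 : Z = D := GT.PG.eq_of_le_of_card_le (hD.normal_le hM he hZ)
      (by rw [hD.card_eq_pow_blockDefect hM he, h1])
    exact h4 ▸ hD

section
variable {p : ℕ} [hp : Fact p.Prime] {k : Type*} [Field k] [CharP k p] {G : Type*} [Group G] [Finite G]
  {Q : Subgroup G} {f : MonoidAlgebra k G}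

theorem max_iff (hf : IsPair p ⊤ Q f) :
    (∀ R g, Mod.Sub p ⊤ Q f R g → R = Q) ↔ IsDef p (pstab ⊤ Q f) f Q := by
  have h1 := hf.cen_le_pstab (L := ⊤) le_rfl
  have hN := nIn_cen_of_le_pstab (NIn.refl ⊤) h1 le_rfl
  have hP := hf.prim_of_le_pstab (L := ⊤) h1 le_rfl
  constructor
  · intro h
    refine isDef_of_maximal hN hP hf.pgroup (hf.le_pstab le_top) (by rw [hf.br_self]; exact hf.ne_zero)
      fun R hR hQR hRT hbr => ?_
    obtain ⟨g, hg⟩ := hf.exists_nsub_above hR (le_normalizer_top R) hQR (hRT.trans pstab_le_normalizer)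
      (Fix_anti hRT mem_Fix_pstab) hbr
    exact h R g hg.sub
  · intro h R g hs
    by_contra hne
    have hlt : Q < R := lt_of_le_of_ne hs.le (Ne.symm hne)
    have := hs.right.pgroup.isNilpotent
    have h2 := GT.PG.lt_inf_normalizer hlt
    exact h2.ne' (h.eq_of_le (hs.right.pgroup.to_inf_left) (hs.le_pstab le_top)
      (hs.br_ne_zero le_rfl) h2.le)

theorem def_iff [IsAlgClosed k] (hf : IsPair p ⊤ Q f) :
    IsDef p (pstab ⊤ Q f) f Q ↔ IsDef p ℭ[Q] f (Q ⊓ ℭ[Q]) ∧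
      ∀ g ∈ pstab ⊤ Q f, (∃ k : ℕ, orderOf g = p ^ k) → g ∈ Q ⊔ ℭ[Q] := by
  have h1 := hf.cen_le_pstab (L := ⊤) le_rfl
  have hN := nIn_cen_of_le_pstab (NIn.refl ⊤) h1 le_rfl
  have hP := hf.prim_of_le_pstab (L := ⊤) h1 le_rfl
  have hP0 := hf.prim
  rw [cen_top] at h1 hN hP hP0
  have hQT := hf.le_pstab (L := ⊤) le_top
  constructor
  · intro h
    refine ⟨h.inf_normal (NIn.refl _) hN hP0, fun g hg ⟨m, hm⟩ => ?_⟩
    have h2 := h.not_dvd_relIndex_sup hN hP0 mem_Fix_pstab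
    rw [sup_comm] at h2
    have hn : ((Q ⊔ ℭ[Q]).subgroupOf (pstab ⊤ Q f)).Normal := by
      rw [Subgroup.normal_subgroupOf_iff_le_normalizer (sup_le hQT h1)]
      exact GT.PG.le_normalizer_sup pstab_le_normalizer hN.norm
    have h3 : (⟨g, hg⟩ : pstab ⊤ Q f) ^ (Q ⊔ ℭ[Q]).relIndex (pstab ⊤ Q f) ∈
        (Q ⊔ ℭ[Q]).subgroupOf (pstab ⊤ Q f) := Subgroup.pow_index_mem _ _
    have h4 : g ^ (Q ⊔ ℭ[Q]).relIndex (pstab ⊤ Q f) ∈ Q ⊔ ℭ[Q] := h3
    obtain ⟨j, hj⟩ := exists_pow_eq_self_of_coprime (x := g)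
      (n := (Q ⊔ ℭ[Q]).relIndex (pstab ⊤ Q f))
      (hm ▸ ((hp.out.coprime_iff_not_dvd.2 h2).symm.pow_right m))
    rw [← hj]
    exact Subgroup.pow_mem _ h4 j
  · rintro ⟨h2, h3⟩
    obtain ⟨D, hD, hQD⟩ := exists_isDef_ge hN hP hf.pgroup hQT (by rw [hf.br_self]; exact hf.ne_zero)
    have h4 := hD.inf_normal (NIn.refl _) hN hP0
    have h5 : Q ⊓ ℭ[Q] = D ⊓ ℭ[Q] :=
      GT.PG.eq_of_le_of_card_le (inf_le_inf_right _ hQD) (h4.card_eq h2).le
    have h6 : D ≤ Q := by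
      intro x hx
      obtain ⟨m, hm⟩ := (IsPGroup.iff_orderOf.1 hD.pgroup) ⟨x, hx⟩
      have := h3 x (hD.le hx) ⟨m, by rw [← hm, Subgroup.orderOf_mk]⟩
      obtain ⟨q, hq, c, hc, rfl⟩ := (GT.PG.mem_sup_of_le_normalizer'
        (Subgroup.le_normalizer.trans (normalizer_le_normalizer_centralizer Q))).1 this
      have : c ∈ Q ⊓ ℭ[Q] := h5 ▸ ⟨(Subgroup.mul_mem_cancel_left _ (hQD hq)).1 hx, hc⟩
      exact Q.mul_mem hq this.1
    exact le_antisymm hQD h6 ▸ hD

end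

/-- Let p be a prime, M a maximal ideal of the algebraic integers containing p, and (Q, e) a Brauer pair of the finite group G (Q a p-subgroup, e a block of C_G(Q)). Then (Q, e) is a maximal Brauer pair of some block of G if and only if e contains an irreducible character θ such that θ takes the value θ(1) at every element of Z(Q) = Q ∩ C_G(Q), the p-part of θ(1) times the p-part of the order of Z(Q) equals the p-part of the order of C_G(Q) (θ has defect zero as a character of C_G(Q)/Z(Q)), and every element of N_G(Q) of p-power order that stabilizes e lies in Q·C_G(Q) (the stabilizer of e in N_G(Q) has index prime to p over Q·C_G(Q)). -/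
theorem result {G : Type*} [Group G] [Finite G] (p : ℕ) [Fact p.Prime] (M : Ideal Cfsg.AlgInt) (hM : Cfsg.IsPModular p M) (Q : Subgroup G) (e : Set (Cfsg.IrrCharacter (Subgroup.centralizer (Q : Set G)))) (he : Cfsg.IsBrauerPair p M Q e) :
    (∃ B : Set (Cfsg.IrrCharacter G), Cfsg.IsMaximalBrauerPair p M B Q e) ↔
      ∃ θ ∈ e, (∀ z : Subgroup.centralizer (Q : Set G), (z : G) ∈ Q → (θ : Subgroup.centralizer (Q : Set G) → ℂ) z = (θ : Subgroup.centralizer (Q : Set G) → ℂ) 1) ∧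
        (Cfsg.charDegree (θ : Subgroup.centralizer (Q : Set G) → ℂ)).factorization p + (Nat.card ↥(Q ⊓ Subgroup.centralizer (Q : Set G))).factorization p = (Nat.card (Subgroup.centralizer (Q : Set G))).factorization p ∧
        (∀ g : G, g ∈ Subgroup.normalizer (Q : Set G) → Cfsg.StabilizesBlock (Subgroup.centralizer (Q : Set G)) e g → (∃ k : ℕ, orderOf g = p ^ k) → g ∈ Q ⊔ Subgroup.centralizer (Q : Set G)) := by
  have := hM.isMaximal
  have := hM.charP
  have hf := isPair_epsIn he.1 he.2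
  have hZ : IsPGroup p ((Q ⊓ ℭ[Q]).subgroupOf ℭ[Q]) :=
    (he.1.to_inf_left (K := ℭ[Q])).of_injective
      (Subgroup.subgroupOfEquivOfLe inf_le_right).toMonoidHom (MulEquiv.injective _)
  have hc : (Q ⊓ ℭ[Q]).subgroupOf ℭ[Q] ≤ Subgroup.center _ := fun z hz =>
    Subgroup.mem_center_iff.2 fun c => Subtype.ext (c.2 z hz.1).symm
  have e1 : (∃ B : Set (Cfsg.IrrCharacter G), Cfsg.IsMaximalBrauerPair p M B Q e) ↔
      ∀ R g, Mod.Sub p ⊤ Q (epsIn M _ e) R g → R = Q := by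
    constructor
    · rintro ⟨B, hB⟩ R g hs
      exact ((isMaximalBrauerPair_iff hM).1 hB).2.2.max R g le_top hs
    · intro h
      obtain ⟨b, hb, hbe⟩ := hf.exists_isPairOf (NIn.refl ⊤) le_top
      obtain ⟨B, hB, rfl⟩ := isPrim_ZA_top_iff.1 hb
      exact ⟨B, (isMaximalBrauerPair_iff hM).2 ⟨hB, he.2, ⟨hbe, fun R g _ hs => h R g hs⟩⟩⟩
  rw [e1, max_iff hf, def_iff hf, ← he.2.isDefectGroup_subgroupOf_iff hM inf_le_right,
    central_iff hM he.2 hZ hc, card_subgroupOf_eq inf_le_right]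
  constructor
  · rintro ⟨⟨θ, hθ, h1, h2⟩, h3⟩
    exact ⟨θ, hθ, fun z hz => apply_eq_of_mem_charKer (h1 ⟨hz, z.2⟩), h2,
      fun g hg hs => h3 g ((mem_pstab_top_iff he.2).2 ⟨hg, hs⟩)⟩
  · rintro ⟨θ, hθ, h1, h2, h3⟩
    exact ⟨⟨θ, hθ, θ.isCharacter.le_charKer_iff.2 fun z hz => h1 z hz.1, h2⟩,
      fun g hg => h3 g ((mem_pstab_top_iff he.2).1 hg).1 ((mem_pstab_top_iff he.2).1 hg).2⟩

end Cfsg.Agent.S4828
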