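import Cfsg.Statements.S4836
import Cfsg.Agent.Deg.Gagola
-- import your own Cfsg.Agent.* helpers here

set_option autoImplicit false
open Cfsg

namespace Cfsg.Agent.S4836

open Cfsg.Agent.Ch Cfsg.Agent.Deg
open scoped ComplexConjugate

/-- Let G be a finite group of order greater than 2 with an irreducible character χ that is nonzero on exactly two conjugacy classes. Then χ is faithful (it takes the value χ(1) only at the identity), it is the only faithful irreducible character of G, and it is the only irreducible character of G that is nonzero on exactly two conjugacy classes. -/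
theorem result {G : Type*} [Group G] [Finite G] (hG : 2 < Nat.card G) (χ : Cfsg.IrrCharacter G) (hχ : Nat.card {C : ConjClasses G // ∃ g ∈ C.carrier, (χ : G → ℂ) g ≠ 0} = 2) :
    (∀ g : G, (χ : G → ℂ) g = (χ : G → ℂ) 1 → g = 1) ∧
      (∀ ψ : Cfsg.IrrCharacter G, (∀ g : G, (ψ : G → ℂ) g = (ψ : G → ℂ) 1 → g = 1) → ψ = χ) ∧
      (∀ ψ : Cfsg.IrrCharacter G, Nat.card {C : ConjClasses G // ∃ g ∈ C.carrier, (ψ : G → ℂ) g ≠ 0} = 2 → ψ = χ) := by
  obtain ⟨N, h⟩ := exists_gag hG χ.2 hχ
  refine ⟨χ.isCharacter.charKer_eq_bot_iff.1 h.charKer_eq_bot, fun ψ hψ => Subtype.ext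
    (h.eq_of_faithful ψ.2 (ψ.isCharacter.charKer_eq_bot_iff.2 hψ)), fun ψ hψ => ?_⟩
  obtain ⟨M, h'⟩ := exists_gag hG ψ.2 hψ
  exact Subtype.ext (h.eq_of_faithful ψ.2 h'.charKer_eq_bot)

end Cfsg.Agent.S4836
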