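import Cfsg.Statements.S4837
import Cfsg.Agent.Deg.Gagola
-- import your own Cfsg.Agent.* helpers here

set_option autoImplicit false
open Cfsg

namespace Cfsg.Agent.S4837

open Cfsg.Agent.Ch Cfsg.Agent.Deg
open scoped ComplexConjugate

/-- Let G be a finite group of order greater than 2 with an irreducible character χ nonzero on exactly two conjugacy classes, and let N be the set of elements where χ is nonzero, given as a nontrivial normal p-subgroup of G for the prime p. Then for every nonidentity x in N the centralizer C_G(x) is a Sylow p-subgroup of G, and for every irreducible character λ ≠ 1 of N the stabilizer of λ in G (its inertia group) is a Sylow p-subgroup of G. -/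
theorem result {G : Type*} [Group G] [Finite G] (hG : 2 < Nat.card G) (χ : Cfsg.IrrCharacter G) (hχ : Nat.card {C : ConjClasses G // ∃ g ∈ C.carrier, (χ : G → ℂ) g ≠ 0} = 2) (p : ℕ) [Fact p.Prime] (N : Subgroup G) [N.Normal] (hN : ∀ g : G, g ∈ N ↔ (χ : G → ℂ) g ≠ 0) (hNp : IsPGroup p N) (hN1 : N ≠ ⊥) :
    (∀ x ∈ N, x ≠ 1 → ∃ P : Sylow p G, Subgroup.centralizer ({x} : Set G) = P) ∧
      (∀ μ : Cfsg.IrrCharacter N, (μ : N → ℂ) ≠ (fun _ => (1 : ℂ)) → ∃ P : Sylow p G, ∀ g : G, g ∈ (P : Subgroup G) ↔ ∀ n n' : N, (n' : G) = g * n * g⁻¹ → (μ : N → ℂ) n' = (μ : N → ℂ) n) := by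
  have h := gag_of_mem hG χ.2 hχ hN
  have hp : p.Prime := Fact.out
  refine ⟨fun x hx hx1 => h.exists_sylow_centralizer hNp hx hx1, fun μ hμ => ?_⟩
  obtain ⟨x, hx, hx1⟩ := (Subgroup.bot_or_exists_ne_one N).resolve_left h.ne_bot
  have h1 := h.index_inertia μ.2 hμ
  have h2 := h.index_centralizer hx hx1
  obtain ⟨k, hk⟩ := IsPGroup.iff_card.1 (h.isPGroup_centralizer hp hNp hx hx1)
  have h3 : Nat.card (inertia N (μ : N → ℂ)) = p ^ k := by
    have h4 := Subgroup.card_mul_index (inertia N (μ : N → ℂ))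
    rw [← Subgroup.card_mul_index (Subgroup.centralizer ({x} : Set G)), hk,
      (by omega : (Subgroup.centralizer ({x} : Set G)).index = (inertia N (μ : N → ℂ)).index)] at h4
    exact Nat.eq_of_mul_eq_mul_right (Nat.pos_of_ne_zero Subgroup.index_ne_zero_of_finite) h4
  refine ⟨(IsPGroup.of_card h3).toSylow (h.not_dvd_of_add_one hp hNp h1), fun g => ?_⟩
  change g ∈ inertia N (μ : N → ℂ) ↔ _
  rw [mem_inertia]
  constructor
  · intro hg n n' he
    rw [← hg n]
    exact congrArg _ (Subtype.ext he)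
  · intro hg n
    exact hg n _ rfl

end Cfsg.Agent.S4837
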