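import Cfsg.Statements.S4839
import Cfsg.Agent.Deg.Gagola2
-- import your own Cfsg.Agent.* helpers here

set_option autoImplicit false
open Cfsg

namespace Cfsg.Agent.S4839

open Cfsg.Agent.Ch Cfsg.Agent.Deg
open scoped ComplexConjugate

/-- Let G be a finite group of order greater than 2 with an irreducible character χ nonzero on exactly two conjugacy classes, and let N be the normal p-subgroup of elements where χ is nonzero. Then N is the whole p-core O_p(G) if and only if G is a doubly transitive Frobenius group with kernel N: G has a Frobenius complement H whose Frobenius kernel is N and whose order is one less than that of N. -/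
theorem result {G : Type*} [Group G] [Finite G] (hG : 2 < Nat.card G) (χ : Cfsg.IrrCharacter G) (hχ : Nat.card {C : ConjClasses G // ∃ g ∈ C.carrier, (χ : G → ℂ) g ≠ 0} = 2) (p : ℕ) [Fact p.Prime] (N : Subgroup G) [N.Normal] (hN : ∀ g : G, g ∈ N ↔ (χ : G → ℂ) g ≠ 0) (hNp : IsPGroup p N) (hN1 : N ≠ ⊥) :
    N = Cfsg.pCore p G ↔ ∃ H : Subgroup G, Cfsg.IsFrobeniusComplement H ∧ Cfsg.frobeniusKernel H = (N : Set G) ∧ Nat.card H + 1 = Nat.card N := by
  have h := gag_of_mem hG χ.2 hχ hN
  have hp : p.Prime := Fact.out
  constructor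
  · intro hO
    obtain ⟨H, hH⟩ := h.exists_isComplement hp hNp hO
    exact ⟨H, h.frobenius_of_isComplement hH⟩
  · rintro ⟨H, hF, hK, hc⟩
    refine le_antisymm (GT.le_pCore hNp) (GT.le_of_coprime_card_index ?_)
    rw [(hF.isComplement'_of_coe_eq hK.symm).symm.index_eq_card]
    exact GT.coprime_card_of_isPGroup hp (GT.isPGroup_pCore p)
      (Nat.coprime_comm.1 (hp.coprime_iff_not_dvd.2 (h.not_dvd_of_add_one hp hNp hc)))

end Cfsg.Agent.S4839
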