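import Cfsg.Statements.S4840
import Cfsg.Agent.Deg.Gagola2
import Cfsg.Agent.GT.FrobeniusComplement
import Cfsg.Agent.GT.TransferFrobenius
import Cfsg.Agent.GT.Supersolvable2
import Cfsg.Agent.Inv.QuatAut
import Cfsg.Agent.Inv.SmallTwo
-- import your own Cfsg.Agent.* helpers here

set_option autoImplicit false
open Cfsg

namespace Cfsg.Agent.S4840

open Cfsg.Agent.Ch Cfsg.Agent.Deg
open scoped ComplexConjugate

theorem card_le_sq_ker {V : Type*} [AddCommGroup V] [Finite V] (W : AddMonoid.End V)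
    (h : W * W = 0) : Nat.card V ≤ Nat.card (AddMonoidHom.ker W) ^ 2 := by
  have h1 : AddMonoidHom.range W ≤ AddMonoidHom.ker W := by
    rintro _ ⟨v, rfl⟩
    exact DFunLike.congr_fun h v
  have h2 := AddSubgroup.card_mul_index (AddMonoidHom.ker W)
  have h3 : (AddMonoidHom.ker W).index = Nat.card (AddMonoidHom.range W) :=
    AddSubgroup.index_ker (W : V →+ V)
  rw [← h2, h3, sq]
  exact Nat.mul_le_mul_left _ (AddSubgroup.card_le_of_le h1)

theorem card_mul_le {V : Type*} [AddCommGroup V] [Finite V] (A B : AddSubgroup V)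
    (h : ∀ v, v ∈ A → v ∈ B → v = 0) : Nat.card A * Nat.card B ≤ Nat.card V := by
  rw [← Nat.card_prod]
  refine Nat.card_le_card_of_injective (fun x => (x.1 : V) + x.2) ?_
  rintro ⟨a, b⟩ ⟨c, d⟩ he
  simp only at he
  have h1 : (a : V) - c = d - b := by rw [sub_eq_sub_iff_add_eq_add, he, add_comm]
  have h2 := h _ (A.sub_mem a.2 c.2) (h1 ▸ B.sub_mem d.2 b.2)
  rw [h2] at h1
  exact Prod.ext (Subtype.ext (sub_eq_zero.1 h2)) (Subtype.ext (sub_eq_zero.1 h1.symm).symm)

open QuaternionGroup in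
theorem sq_eq_zero {R : Type*} [Ring R] (ψ : QuaternionGroup 2 →* R) (h3 : (3 : R) = 0)
    (hz : ψ (a 2) = -1) {s t : QuaternionGroup 2} (h : s * t ≠ t * s) :
    (ψ s + ψ t + ψ (s * t)) * (ψ s + ψ t + ψ (s * t)) = 0 := by
  have key : ∀ s t : QuaternionGroup 2, s * t ≠ t * s → s * s = a 2 ∧ t * t = a 2 ∧
      t * s = a 2 * (s * t) ∧ s * (s * t) = a 2 * t ∧ t * (s * t) = s ∧ s * t * s = t ∧
      s * t * t = a 2 * s ∧ s * t * (s * t) = a 2 := by decide
  obtain ⟨h1, h2, h4, h5, h6, h7, h8, h9⟩ := key s t h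
  simp only [add_mul, mul_add, ← map_mul]
  rw [h1, h2, h4, h5, h6, h7, h8, h9]
  simp only [map_mul ψ (a 2), hz, neg_mul, one_mul]
  rw [← neg_eq_zero, ← h3, show (3 : R) = 1 + 1 + 1 by norm_num]
  abel

open QuaternionGroup in
theorem card_le_nine {V : Type*} [AddCommGroup V] [Finite V]
    (ψ : QuaternionGroup 2 →* AddMonoid.End V) (h3 : (3 : AddMonoid.End V) = 0)
    (hz : ψ (a 2) = -1)
    (hcov : ∀ v, ∃ s t, s * t ≠ t * s ∧ (ψ s + ψ t + ψ (s * t)) v = 0) : Nat.card V ≤ 9 := by
  let W : QuaternionGroup 2 → QuaternionGroup 2 → AddMonoid.End V :=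
    fun s t => ψ s + ψ t + ψ (s * t)
  let K : QuaternionGroup 2 → QuaternionGroup 2 → AddSubgroup V :=
    fun s t => AddMonoidHom.ker (W s t)
  have hK : ∀ s t v, v ∈ K s t ↔ ψ s v + ψ t v + ψ (s * t) v = 0 := fun _ _ _ => Iff.rfl
  have hzv : ∀ s v, ψ (a 2 * s) v = - ψ s v := fun s v => by rw [map_mul, hz, neg_mul, one_mul]; rfl
  have h2 : ∀ s v, ψ s v + ψ s v = 0 → v = 0 := by
    intro s v h
    have e1 : ψ s v + ψ s v + ψ s v = 0 := by
      have := DFunLike.congr_fun h3 (ψ s v)
      rw [show (3 : AddMonoid.End V) = 1 + 1 + 1 by norm_num] at this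
      exact this
    rw [h, zero_add] at e1
    have e2 : ψ s⁻¹ (ψ s v) = v := by
      change (ψ s⁻¹ * ψ s) v = v
      rw [← map_mul, inv_mul_cancel, map_one]; rfl
    rw [← e2, e1, map_zero]
  have hc : ∀ v, v ∈ K (a 1) (xa 0) ∨ v ∈ K (a 1) (xa 2) ∨ v ∈ K (a 3) (xa 0) ∨
      v ∈ K (a 3) (xa 2) := by
    intro v
    obtain ⟨s, t, hst, hv⟩ := hcov v
    have key : ∀ s t : QuaternionGroup 2, s * t ≠ t * s → ∃ s' ∈ ({a 1, a 3} : Finset _),
        ∃ t' ∈ ({xa 0, xa 2} : Finset _),
        ({s, t, s * t} : Multiset (QuaternionGroup 2)) = {s', t', s' * t'} ∨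
        ({s, t, s * t} : Multiset (QuaternionGroup 2)) =
          {a 2 * s', a 2 * t', a 2 * (s' * t')} := by decide
    obtain ⟨s', hs', t', ht', h⟩ := key s t hst
    have hm : v ∈ K s' t' := by
      rw [hK]
      change ψ s v + ψ t v + ψ (s * t) v = 0 at hv
      rcases h with h | h
      · have := congrArg (fun m => (Multiset.map (fun x => ψ x v) m).sum) h
        simp only [Multiset.insert_eq_cons, Multiset.map_cons, Multiset.map_singleton,
          Multiset.sum_cons, Multiset.sum_singleton, ← add_assoc] at this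
        rw [← this, hv]
      · have := congrArg (fun m => (Multiset.map (fun x => ψ x v) m).sum) h
        simp only [Multiset.insert_eq_cons, Multiset.map_cons, Multiset.map_singleton,
          Multiset.sum_cons, Multiset.sum_singleton, ← add_assoc, hzv, hv] at this
        rw [← neg_eq_zero, neg_add, neg_add, ← this]
    simp only [Finset.mem_insert, Finset.mem_singleton] at hs' ht'
    rcases hs' with rfl | rfl <;> rcases ht' with rfl | rfl <;> simp only [hm, true_or, or_true]
  have e1 : Nat.card V ≤ Nat.card (K (a 1) (xa 0)) ^ 2 :=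
    card_le_sq_ker _ (sq_eq_zero ψ h3 hz (by decide))
  have e2 : Nat.card V ≤ Nat.card (K (a 1) (xa 2)) ^ 2 :=
    card_le_sq_ker _ (sq_eq_zero ψ h3 hz (by decide))
  have e3 : Nat.card V ≤ Nat.card (K (a 3) (xa 0)) ^ 2 :=
    card_le_sq_ker _ (sq_eq_zero ψ h3 hz (by decide))
  have e4 : Nat.card V ≤ Nat.card (K (a 3) (xa 2)) ^ 2 :=
    card_le_sq_ker _ (sq_eq_zero ψ h3 hz (by decide))
  have f2 := card_mul_le (K (a 1) (xa 0)) (K (a 1) (xa 2)) fun v h h' => by
    rw [hK] at h h'
    rw [show (xa 2 : QuaternionGroup 2) = a 2 * xa 0 by decide,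
      show (a 1 * (a 2 * xa 0) : QuaternionGroup 2) = a 2 * (a 1 * xa 0) by decide, hzv, hzv] at h'
    exact h2 (a 1) v (by rw [← zero_add (0 : V)]; nth_rw 1 [← h]; rw [← h']; abel)
  have f3 := card_mul_le (K (a 1) (xa 0)) (K (a 3) (xa 0)) fun v h h' => by
    rw [hK] at h h'
    rw [show (a 3 : QuaternionGroup 2) = a 2 * a 1 by decide, mul_assoc, hzv, hzv] at h'
    exact h2 (xa 0) v (by rw [← zero_add (0 : V)]; nth_rw 1 [← h]; rw [← h']; abel)
  have f4 := card_mul_le (K (a 1) (xa 0)) (K (a 3) (xa 2)) fun v h h' => by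
    rw [hK] at h h'
    rw [show (a 3 * xa 2 : QuaternionGroup 2) = a 1 * xa 0 by decide,
      show (a 3 : QuaternionGroup 2) = a 2 * a 1 by decide,
      show (xa 2 : QuaternionGroup 2) = a 2 * xa 0 by decide, hzv, hzv] at h'
    exact h2 (a 1 * xa 0) v (by rw [← zero_add (0 : V)]; nth_rw 1 [← h]; rw [← h']; abel)
  have hd : ∀ A : AddSubgroup V, ((A : Set V) \ {0}).ncard + 1 = Nat.card A := fun A => by
    rw [Set.ncard_sdiff_singleton_add_one A.zero_mem]; rfl
  have hu : Nat.card V ≤ Nat.card (K (a 1) (xa 0)) + ((K (a 1) (xa 2) : Set V) \ {0}).ncard +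
      ((K (a 3) (xa 0) : Set V) \ {0}).ncard + ((K (a 3) (xa 2) : Set V) \ {0}).ncard := by
    rw [← Set.ncard_univ]
    refine le_trans (Set.ncard_le_ncard (t := (K (a 1) (xa 0) : Set V) ∪
      ((K (a 1) (xa 2) : Set V) \ {0}) ∪ ((K (a 3) (xa 0) : Set V) \ {0}) ∪
      ((K (a 3) (xa 2) : Set V) \ {0})) ?_) ?_
    · intro v _
      by_cases hv : v = 0
      · exact Or.inl (Or.inl (Or.inl (hv ▸ AddSubgroup.zero_mem _)))
      · rcases hc v with h | h | h | h
        exacts [Or.inl (Or.inl (Or.inl h)), Or.inl (Or.inl (Or.inr ⟨h, hv⟩)),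
          Or.inl (Or.inr ⟨h, hv⟩), Or.inr ⟨h, hv⟩]
    · refine (Set.ncard_union_le _ _).trans (Nat.add_le_add_right ?_ _)
      refine (Set.ncard_union_le _ _).trans (Nat.add_le_add_right ?_ _)
      exact Set.ncard_union_le _ _
  have g2 := hd (K (a 1) (xa 2))
  have g3 := hd (K (a 3) (xa 0))
  have g4 := hd (K (a 3) (xa 2))
  have hpos : 0 < Nat.card (K (a 1) (xa 0)) := Nat.card_pos
  have hpos2 : 0 < Nat.card (K (a 1) (xa 2)) := Nat.card_pos
  generalize Nat.card (K (a 1) (xa 0)) = k1 at *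
  generalize Nat.card (K (a 1) (xa 2)) = k2 at *
  generalize Nat.card (K (a 3) (xa 0)) = k3 at *
  generalize Nat.card (K (a 3) (xa 2)) = k4 at *
  generalize Nat.card V = n at *
  have l2 : k2 ≤ k1 := by nlinarith
  have l3 : k3 ≤ k1 := by nlinarith
  have l4 : k4 ≤ k1 := by nlinarith
  have l5 : k1 ≤ k2 := by nlinarith
  have l6 : k1 ≤ 3 := by nlinarith
  nlinarith

theorem not_dvd_card_commutator {H V : Type*} [Group H] [Finite H] [Group.IsSolvable H]
    [CommGroup V] [Finite V] [Nontrivial V] {p : ℕ} (hp : p.Prime) (hV : ∀ v : V, v ^ p = 1)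
    (φ : H →* MulAut V) (hO : pCore p H = ⊥)
    (htrans : ∀ v w : V, v ≠ 1 → w ≠ 1 → ∃ h, φ h v = w)
    (hstab : ∀ (h : H) (v : V), v ≠ 1 → φ h v = v → ∃ k, h ^ p ^ k = 1)
    (hcard : ∃ k, Nat.card H ∣ p ^ k * (Nat.card V - 1)) : ¬ p ∣ Nat.card (commutator H) := by
  intro hd
  obtain ⟨y, hy, hyo⟩ := GT.exists_mem_orderOf_eq_prime hp hd
  have hyp : y ^ p = 1 := hyo ▸ pow_orderOf_eq_one y
  have key : ∀ q : ℕ, q.Prime → y ∈ Subgroup.centralizer (pCore q H : Set H) := by
    intro q hq
    by_cases hqp : q = p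
    · rw [hqp, hO]
      intro x hx
      rw [Subgroup.mem_bot.1 hx]; simp
    have := Fact.mk hq
    set Q := pCore q H with hQ
    have hQq : IsPGroup q Q := GT.isPGroup_pCore q
    have hfix : ∀ (x : Q) (v : V), x ≠ 1 → φ x v = v → v = 1 := by
      intro x v hx hv
      by_contra hv1
      obtain ⟨k, hk⟩ := hstab x v hv1 hv
      obtain ⟨l, hl⟩ := hQq x
      refine hx (orderOf_eq_one_iff.1 (Nat.eq_one_of_dvd_coprimes
        (Nat.coprime_pow_primes l k hq hp hqp) (orderOf_dvd_of_pow_eq_one hl) ?_))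
      exact orderOf_dvd_of_pow_eq_one (Subtype.ext hk)
    have hF : GT.Frob.HasFpfAction Q :=
      GT.Frob.hasFpfAction_of_finite (φ.comp Q.subtype) fun x hx v hv => hfix x v hx hv
    by_cases hcyc : IsCyclic Q
    · exact GT.SS.commutator_le_centralizer_of_isCyclic Q hy
    obtain rfl : q = 2 := ((hF.isCyclic_or_quaternion hQq).resolve_left hcyc).1
    have hcop : ∀ k, p.Coprime (2 ^ k) := fun k =>
      Nat.Coprime.pow_right k ((Nat.coprime_primes hp hq).2 (Ne.symm hqp))
    rcases Inv.QA.isPGroup_mulAut_or_quaternion hQq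
      ((GT.PG.pRankLE_one_iff_unique hQq).2 (hF.eq_of_card_eq_prime hQq)) with hA | ⟨⟨e⟩⟩
    · obtain ⟨k, hk⟩ := hA (MulAut.conjNormal y)
      have h1 : (MulAut.conjNormal y : MulAut Q) = 1 :=
        orderOf_eq_one_iff.1 (Nat.eq_one_of_dvd_coprimes (hcop k)
          (orderOf_dvd_of_pow_eq_one (by rw [← map_pow, hyp, map_one]))
          (orderOf_dvd_of_pow_eq_one hk))
      intro x hx
      have := congrArg Subtype.val (DFunLike.congr_fun h1 ⟨x, hx⟩)
      simp only [MulAut.conjNormal_apply, MulAut.one_apply] at this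
      exact (mul_inv_eq_iff_eq_mul.1 this).symm
    have h6 := Inv.Fz.q8_relIndex_dvd e
    rw [Subgroup.normalizer_eq_top, Subgroup.relIndex_top_right] at h6
    set C := Subgroup.centralizer (Q : Set H) with hC
    have hyD : y ∈ Q ⊔ C := by
      by_cases hp3 : p = 3
      swap
      · refine GT.mem_of_coprime_orderOf_index (Nat.Coprime.coprime_dvd_right h6 ?_)
        rw [hyo]
        exact Nat.Coprime.mul_right (k := p) (m := 2) (n := 3)
          ((Nat.coprime_primes hp hq).2 (Ne.symm hqp))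
          ((Nat.coprime_primes hp Nat.prime_three).2 hp3)
      subst hp3
      let ρ : H →* AddMonoid.End (Additive V) :=
        { toFun := fun h => MonoidHom.toAdditive (φ h : V →* V)
          map_one' := by rw [map_one]; rfl
          map_mul' := fun a b => by rw [map_mul]; rfl }
      have hρ : ∀ h (v : V), ρ h (Additive.ofMul v) = Additive.ofMul (φ h v) := fun _ _ => rfl
      let ψ : QuaternionGroup 2 →* AddMonoid.End (Additive V) :=
        ρ.comp (Q.subtype.comp e.symm.toMonoidHom)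
      have hψ : ∀ x : Q, ψ (e x) = ρ x := fun x => by simp [ψ]
      have h3 : (3 : AddMonoid.End (Additive V)) = 0 := by
        ext v
        rw [show (3 : AddMonoid.End (Additive V)) = 1 + 1 + 1 by norm_num]
        have := hV v.toMul
        rw [pow_three'] at this
        exact this
      have hz : ψ (QuaternionGroup.a 2) = -1 := by
        ext v
        set z := e.symm (QuaternionGroup.a 2) with hz
        have hz1 : z ≠ 1 := by
          rw [hz, Ne, MulEquiv.map_eq_one_iff]; decide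
        have hz2 : z * z = 1 := by
          rw [hz, ← map_mul, MulEquiv.map_eq_one_iff]; decide
        have h1 := hfix z (φ z v.toMul * v.toMul) hz1 (by
          rw [map_mul, ← MulAut.mul_apply, ← map_mul, ← Subgroup.coe_mul, hz2]
          simp [mul_comm])
        exact eq_inv_of_mul_eq_one_left h1
      have h9 : Nat.card (Additive V) ≤ 9 := by
        refine card_le_nine ψ h3 hz fun v => ?_
        have hne : (QuaternionGroup.a 1 * QuaternionGroup.xa 0 : QuaternionGroup 2) ≠
          QuaternionGroup.xa 0 * QuaternionGroup.a 1 := by decide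
        by_cases hv : v = 0
        · exact ⟨_, _, hne, by rw [hv, map_zero]⟩
        have h1 := card_le_sq_ker _ (sq_eq_zero ψ h3 hz hne)
        have h2 : 1 < Nat.card (Additive V) := Finite.one_lt_card
        obtain ⟨w, hw, hw0⟩ := (AddSubgroup.bot_or_exists_ne_zero (AddMonoidHom.ker
          (ψ (.a 1) + ψ (.xa 0) + ψ (.a 1 * .xa 0)))).resolve_left (fun hb => by
            rw [hb, AddSubgroup.card_bot] at h1; omega)
        obtain ⟨g, hg⟩ := htrans w.toMul v.toMul hw0 hv
        have hg' : ρ g w = v := congrArg Additive.ofMul hg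
        let c : QuaternionGroup 2 →* QuaternionGroup 2 :=
          (e.toMonoidHom.comp (MulAut.conjNormal g : MulAut Q).toMonoidHom).comp e.symm.toMonoidHom
        have hci : Function.Injective c :=
          (e.injective.comp (MulAut.conjNormal g : MulAut Q).injective).comp e.symm.injective
        have hc : ∀ s, ψ (c s) v = ρ g (ψ s w) := by
          intro s
          obtain ⟨x, rfl⟩ := e.surjective s
          have : c (e x) = e (MulAut.conjNormal g x) := by simp [c]
          rw [this, hψ, hψ, ← hg']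
          change (ρ _ * ρ g) w = (ρ g * ρ x) w
          rw [← map_mul, ← map_mul, MulAut.conjNormal_apply, inv_mul_cancel_right]
        refine ⟨c (.a 1), c (.xa 0), fun he => hne (hci (by rw [map_mul, map_mul, he])), ?_⟩
        rw [← map_mul c]
        change ψ _ v + ψ _ v + ψ _ v = 0
        rw [hc, hc, hc, ← map_add, ← map_add]
        change ρ g ((ψ (.a 1) + ψ (.xa 0) + ψ (.a 1 * .xa 0)) w) = 0
        exact (congrArg (ρ g) hw).trans (map_zero _)
      replace h9 : Nat.card V ≤ 9 := h9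
      have h2 : ¬ 2 ∣ (Q ⊔ C).index := by
        intro h2
        obtain ⟨k, hk⟩ := hcard
        have h16 : 2 ^ 4 ∣ Nat.card H := by
          rw [← Subgroup.card_mul_index Q, Inv.Fz.q8_card e]
          exact Nat.mul_dvd_mul_left 8 (h2.trans (Subgroup.index_dvd_of_le le_sup_left))
        have h17 := (Nat.Coprime.pow_right k (hcop 4).symm).dvd_of_dvd_mul_left (h16.trans hk)
        have h18 : 1 < Nat.card V := Finite.one_lt_card
        have := Nat.le_of_dvd (by omega) h17
        omega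
      have h7 : (Q ⊔ C).index ∣ 3 :=
        (Nat.coprime_comm.1 (hq.coprime_iff_not_dvd.2 h2)).dvd_of_dvd_mul_left h6
      have := Fact.mk Nat.prime_three
      have : IsCyclic (H ⧸ (Q ⊔ C)) := isCyclic_of_card_dvd_prime h7
      exact (Subgroup.Normal.quotient_commutative_iff_commutator_le.1
        IsCyclic.isMulCommutative) hy
    obtain ⟨x, hx, c, hc, rfl⟩ := Subgroup.mem_sup_of_normal_right.1 hyD
    obtain ⟨k, hk⟩ := hQq ⟨x, hx⟩
    have h1 : ((x * c : H) : H ⧸ C) = x := by
      rw [QuotientGroup.mk_mul, (QuotientGroup.eq_one_iff c).2 hc, mul_one]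
    refine (QuotientGroup.eq_one_iff _).1 (orderOf_eq_one_iff.1 (Nat.eq_one_of_dvd_coprimes (hcop k)
      (orderOf_dvd_of_pow_eq_one ?_) (orderOf_dvd_of_pow_eq_one ?_)))
    · rw [← QuotientGroup.mk_pow, hyp]; rfl
    · rw [h1, ← QuotientGroup.mk_pow, show x ^ 2 ^ k = 1 from congrArg Subtype.val hk]; rfl
  have h1 : y ∈ fittingSubgroup H := by
    refine GT.centralizer_fitting_le ?_
    have : fittingSubgroup H ≤ Subgroup.centralizer {y} := GT.fitting_le_iff.2 fun q hq x hx =>
      Subgroup.mem_centralizer_singleton_iff.2 (key q hq x hx)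
    exact fun x hx => Subgroup.mem_centralizer_singleton_iff.1 (this hx)
  have h2 : Subgroup.zpowers y ≤ pCore p H := GT.le_pCore_of_le_fitting
    (IsPGroup.of_card (n := 1) (by rw [Nat.card_zpowers, hyo, pow_one]))
    (Subgroup.zpowers_le.2 h1)
  rw [hO, le_bot_iff, Subgroup.zpowers_eq_bot] at h2
  rw [h2, orderOf_one] at hyo
  exact hp.one_lt.ne hyo

/-- Let G be a finite solvable group of order greater than 2 with an irreducible character nonzero on exactly two conjugacy classes. Then there is exactly one prime p with O_p(G) ≠ 1, and the quotient G/O_p(G) has a normal p-complement and commutative Sylow p-subgroups. -/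
theorem result {G : Type*} [Group G] [Finite G] [hs : Group.IsSolvable G] (hG : 2 < Nat.card G) (χ : Cfsg.IrrCharacter G) (hχ : Nat.card {C : ConjClasses G // ∃ g ∈ C.carrier, (χ : G → ℂ) g ≠ 0} = 2) :
    ∃ p : ℕ, p.Prime ∧ (∀ q : ℕ, q.Prime → (Cfsg.pCore q G ≠ ⊥ ↔ q = p)) ∧
      Cfsg.HasNormalPComplement p (G ⧸ Cfsg.pCore p G) ∧ ∀ Q : Sylow p (G ⧸ Cfsg.pCore p G), IsMulCommutative (Q : Subgroup (G ⧸ Cfsg.pCore p G)) := by
  obtain ⟨N, h⟩ := exists_gag hG χ.2 hχ
  obtain ⟨p, hp, hN⟩ := h.exists_isPGroup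
  have := Fact.mk hp
  have hn := h.normal
  have hC := h.centralizer_eq_pCore hp hN
  have hel := h.elementary hp hN
  have key : ¬ p ∣ Nat.card (commutator (G ⧸ pCore p G)) := by
    have := hel.1
    have : Nontrivial N := (Subgroup.nontrivial_iff_ne_bot N).2 h.ne_bot
    let φ : G ⧸ pCore p G →* MulAut N := QuotientGroup.lift _ MulAut.conjNormal (by
      intro g hg
      rw [← hC] at hg
      ext n
      simp [← hg n n.2])
    have hφ : ∀ (g : G) (n : N), (φ g n : G) = g * n * g⁻¹ := fun _ _ => rfl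
    open scoped IsMulCommutative in
    refine not_dvd_card_commutator (V := N) hp (fun v => Subtype.ext (hel.2 v v.2)) φ
      GT.pCore_quotient_pCore (fun v w hv hw => ?_) (fun g v hv hg => ?_) ?_
    · obtain ⟨c, hc⟩ := isConj_iff.1 (h.isConj v v.2 w w.2 (fun he => hv (Subtype.ext he))
        (fun he => hw (Subtype.ext he)))
      exact ⟨c, Subtype.ext hc⟩
    · obtain ⟨g, rfl⟩ := QuotientGroup.mk_surjective g
      obtain ⟨k, hk⟩ := h.isPGroup_centralizer hp hN v.2 (fun he => hv (Subtype.ext he))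
        ⟨g, Subgroup.mem_centralizer_singleton_iff.2
          (mul_inv_eq_iff_eq_mul.1 (congrArg Subtype.val hg))⟩
      exact ⟨k, by rw [← QuotientGroup.mk_pow, show g ^ p ^ k = 1 from congrArg Subtype.val hk]; rfl⟩
    · obtain ⟨x, hx, hx1⟩ := (Subgroup.bot_or_exists_ne_one N).resolve_left h.ne_bot
      obtain ⟨k, hk⟩ := IsPGroup.iff_card.1 (h.isPGroup_centralizer hp hN hx hx1)
      refine ⟨k, ?_⟩
      rw [← h.index_centralizer hx hx1, Nat.add_sub_cancel, ← hk, Subgroup.card_mul_index]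
      exact Subgroup.card_quotient_dvd_card _
  refine ⟨p, hp, fun q hq => ⟨fun hne => ?_, ?_⟩, ?_, fun Q => ?_⟩
  · by_contra hqp
    refine h.ne_bot (le_bot_iff.1 ?_)
    rw [← GT.pCore_inf_pCore hq hp hqp]
    exact le_inf (h.le_of_normal _ hne) (GT.le_pCore hN)
  · rintro rfl hb
    exact h.ne_bot (le_bot_iff.1 (hb ▸ GT.le_pCore hN))
  · refine GT.Tr.hasNormalPComplement_of_quotient_of_not_dvd _ key
      (GT.Tr.hasNormalPComplement_of_isNilpotent ?_)
    have := Subgroup.Normal.quotient_commutative_iff_commutator_le.2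
      (le_refl (commutator (G ⧸ pCore p G)))
    exact GT.isNilpotent_of_isMulCommutative
  · have h1 := GT.Tr.inf_eq_bot_of_isPGroup_of_not_dvd Q.isPGroup' key
    rw [GT.PG.isMulCommutative_iff_le_centralizer, ← Subgroup.commutator_eq_bot_iff_le_centralizer,
      eq_bot_iff, ← h1]
    exact le_inf (Subgroup.commutator_le_self _) (Subgroup.commutator_mono le_top le_top)

end Cfsg.Agent.S4840
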