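import Cfsg.Statements.S4843
import Cfsg.Agent.Deg.Basic
import Cfsg.Agent.Ch.Galois
import Cfsg.Agent.GT.Fitting
import Cfsg.Agent.GT.PGroupBasic
-- import your own Cfsg.Agent.* helpers here

set_option autoImplicit false
open Cfsg

namespace Cfsg.Agent.S4843

open Cfsg.Agent.Ch Cfsg.Agent.Deg
open scoped ComplexConjugate commutatorElement

theorem sum_conj_hom {G Γ : Type*} [Group G] [Fintype G] [Group Γ] {Ψ : Γ → ℂ}
    (hΨ : IsCharacter Γ Ψ) (f : G →* Γ) (h : IsIrrCharacter G (fun g => Ψ (f g))) (a x : Γ) :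
    Ψ 1 * ∑ g, Ψ (f g * a * (f g)⁻¹ * x) = Nat.card G * Ψ a * Ψ x := by
  obtain ⟨n, ρ, rfl⟩ : ∃ (n : ℕ) (ρ : Representation ℂ Γ (Fin n → ℂ)), Ψ = ρ.character := by
    obtain ⟨ρ, h⟩ := hΨ.exists_rep
    exact ⟨_, ρ, h.symm⟩
  let σ : Representation ℂ G (Fin n → ℂ) := ρ.comp f
  have hσ : σ.IsIrreducible := (isIrreducible_iff_isIrrCharacter σ).2 h
  obtain ⟨c, hc⟩ := exists_eq_smul_of_commute σ (∑ g, ρ (f g * a * (f g)⁻¹)) (by
    intro y
    rw [Finset.sum_mul, Finset.mul_sum, ← Equiv.sum_comp (Equiv.mulLeft y)]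
    refine Finset.sum_congr rfl fun g _ => ?_
    simp only [σ, MonoidHom.comp_apply, Equiv.coe_mulLeft, ← map_mul ρ, map_mul f]
    congr 1
    group)
  have key : ∀ x : Γ, ∑ g, ρ.character (f g * a * (f g)⁻¹ * x) = c * ρ.character x := by
    intro x
    have := congrArg (fun T => LinearMap.trace ℂ _ (T * ρ x)) hc
    simp only [Finset.sum_mul, map_sum, ← map_mul ρ, smul_mul_assoc, map_smul, smul_eq_mul] at this
    exact this
  have k1 := key 1
  simp only [mul_one, hΨ.isClassFunction.conj_eq, Finset.sum_const, Finset.card_univ, nsmul_eq_mul,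
    ← Nat.card_eq_fintype_card] at k1
  rw [key x, k1]
  ring

theorem mem_center {G : Type*} [Group G] [Finite G] {χ : G → ℂ} (hχ : IsIrrCharacter G χ)
    (hf : charKer χ = ⊥) {k : ℕ} (hk : Nat.Coprime k (Nat.card G))
    (hirr : IsIrrCharacter G (fun g => χ g * χ (g ^ k))) {u : G}
    (hu : ∀ g : G, ⁅u, g * u⁻¹ * g⁻¹⁆ ∈ Subgroup.center G) : u ∈ Subgroup.center G := by
  have := Fintype.ofFinite G
  have hβ := hχ.comp_pow_of_coprime hk
  obtain ⟨k', hk'⟩ := exists_pow_eq_self_of_coprime (hk.coprime_dvd_right (orderOf_dvd_natCard u))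
  rw [← pow_mul, mul_comm, pow_mul] at hk'
  have hk'' : (u⁻¹ ^ k') ^ k = u⁻¹ := by rw [inv_pow, inv_pow, hk']
  have h1 := sum_conj_hom (isCharacter_prod hχ.isCharacter hβ.isCharacter)
    ((MonoidHom.id G).prod (MonoidHom.id G)) hirr (u⁻¹, u ^ k') (u, u⁻¹ ^ k')
  have h2 := sum_conj_mul hχ u⁻¹ u
  simp only [MonoidHom.prod_apply, MonoidHom.id_apply, Prod.fst_mul, Prod.snd_mul, Prod.fst_inv,
    Prod.snd_inv, Prod.fst_one, Prod.snd_one, one_pow, hk', hk''] at h1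
  have h3 : ∀ g : G, χ (g * u⁻¹ * g⁻¹ * u) * χ ((g * u ^ k' * g⁻¹ * u⁻¹ ^ k') ^ k) =
      χ (g * u⁻¹ * g⁻¹ * u) * conj (χ (g * u⁻¹ * g⁻¹ * u)) := by
    intro g
    by_cases hc : ⁅u, g * u⁻¹ * g⁻¹⁆ = 1
    · have hc' : Commute (g * u * g⁻¹) u⁻¹ := by
        have := (Commute.symm (commutatorElement_eq_one_iff_commute.1 hc)).inv_inv
        simpa [mul_assoc] using this
      rw [← conj_pow, (hc'.pow_pow k' k').mul_pow, conj_pow, conj_pow, hk', hk'',
        hχ.isCharacter.conj_apply, hc'.eq]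
      congr 2
      group
    · have e : u * (g * u⁻¹ * g⁻¹ * u) * u⁻¹ * (g * u⁻¹ * g⁻¹ * u)⁻¹ = ⁅u, g * u⁻¹ * g⁻¹⁆ := by
        rw [commutatorElement_def]; group
      have : χ (g * u⁻¹ * g⁻¹ * u) = 0 :=
        apply_eq_zero_of_commutator hχ.isCharacter (y := u)
          (e ▸ hχ.center_le_charCenter (hu g)) (by rw [e, hf]; exact hc)
      rw [this, zero_mul, zero_mul]
  simp only [h3] at h1
  have hd := hχ.apply_one_ne_zero
  set m : ℂ := χ u⁻¹ * χ u / χ 1 with hm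
  have hmc : conj m = m := by
    rw [hm, map_div₀, map_mul, hχ.isCharacter.conj_apply_one, hχ.isCharacter.conj_apply,
      hχ.isCharacter.conj_apply, inv_inv, mul_comm]
  have a1 : ∑ g : G, χ (g * u⁻¹ * g⁻¹ * u) = Nat.card G * m := by rw [h2, hm]; ring
  have a2 : ∑ g : G, χ (g * u⁻¹ * g⁻¹ * u) * conj (χ (g * u⁻¹ * g⁻¹ * u)) = Nat.card G * m * m := by
    refine mul_left_cancel₀ (mul_ne_zero hd hd) ?_
    rw [h1, hm]; field_simp
  have a3 : ∑ g : G, conj (χ (g * u⁻¹ * g⁻¹ * u)) = Nat.card G * m := by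
    rw [← map_sum, a1, map_mul, hmc, map_natCast]
  have a4 : classInner (fun g : G => χ (g * u⁻¹ * g⁻¹ * u) - m)
      (fun g : G => χ (g * u⁻¹ * g⁻¹ * u) - m) = 0 := by
    rw [classInner_def]
    refine mul_eq_zero_of_right _ ?_
    have : ∀ g : G, (χ (g * u⁻¹ * g⁻¹ * u) - m) * conj (χ (g * u⁻¹ * g⁻¹ * u) - m) =
        χ (g * u⁻¹ * g⁻¹ * u) * conj (χ (g * u⁻¹ * g⁻¹ * u)) - m * χ (g * u⁻¹ * g⁻¹ * u) -
          m * conj (χ (g * u⁻¹ * g⁻¹ * u)) + m * m := by
      intro g; rw [map_sub, hmc]; ring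
    simp only [this, Finset.sum_add_distrib, Finset.sum_sub_distrib, ← Finset.mul_sum, a1, a2, a3,
      Finset.sum_const, Finset.card_univ, nsmul_eq_mul, ← Nat.card_eq_fintype_card]
    ring
  rw [classInner_self_eq_zero] at a4
  have a5 : ∀ g : G, χ (g * u⁻¹ * g⁻¹ * u) = m := fun g => sub_eq_zero.1 (congrFun a4 g)
  rw [Subgroup.mem_center_iff]
  intro g
  have a6 : g * u⁻¹ * g⁻¹ * u ∈ charKer χ := by
    rw [hχ.mem_charKer, a5, ← a5 1]; simp
  rw [hf, Subgroup.mem_bot] at a6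
  calc g * u = g * u * (g⁻¹ * (g * u⁻¹ * g⁻¹ * u) * g) := by rw [a6]; group
    _ = u * g := by group

/-- Let G be a finite group with a faithful irreducible character χ (taking the value χ(1) only at the identity) and let k be prime to the order of G, so that g ↦ χ(g^k) is a Galois conjugate of χ. If the pointwise product g ↦ χ(g)·χ(g^k) is again an irreducible character, then the Fitting subgroup of G equals its centre. -/
theorem result {G : Type*} [Group G] [Finite G] (χ : Cfsg.IrrCharacter G) (hfaith : ∀ g : G, (χ : G → ℂ) g = (χ : G → ℂ) 1 → g = 1) (k : ℕ) (hk : Nat.Coprime k (Nat.card G)) (hirr : Cfsg.IsIrrCharacter G (fun g => (χ : G → ℂ) g * (χ : G → ℂ) (g ^ k))) : Cfsg.fittingSubgroup G = Subgroup.center G := by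
  refine le_antisymm ?_ GT.center_le_fitting
  by_contra hne
  have := GT.isNilpotent_fitting (G := G)
  obtain ⟨x, -, hx, h⟩ := GT.PG.exists_notMem_commutator_mem (⊤ : Subgroup (fittingSubgroup G))
    ((Subgroup.center G).subgroupOf (fittingSubgroup G))
    (fun hh => hne (Subgroup.subgroupOf_eq_top.1 (top_le_iff.1 hh)))
  refine hx (mem_center χ.2 (χ.isCharacter.charKer_eq_bot_iff.2 hfaith) hk hirr fun g => ?_)
  have hn : (fittingSubgroup G).Normal := inferInstance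
  exact h ⟨g * x⁻¹ * g⁻¹, hn.conj_mem _ (Subgroup.inv_mem _ x.2) g⟩

end Cfsg.Agent.S4843
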