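import Cfsg.Statements.S4845
import Cfsg.Agent.Deg.PGrp
import Cfsg.Agent.Ch.Galois
import Cfsg.Agent.GT.TransferAbelian
-- import your own Cfsg.Agent.* helpers here

set_option autoImplicit false
open Cfsg

namespace Cfsg.Agent.S4845

open Cfsg.Agent.Ch Cfsg.Agent.Deg
open scoped ComplexConjugate

theorem exists_pow {Z : Type*} [Group Z] [Finite Z] [hc : IsCyclic Z] (f g : Z →* ℂˣ)
    (hf : Function.Injective f) (hg : Function.Injective g) :
    ∃ k : ℕ, k.Coprime (Nat.card Z) ∧ ∀ z, g z = f (z ^ k) := by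
  obtain ⟨z₀, hz₀⟩ := hc.exists_generator
  have ho := orderOf_eq_card_of_forall_mem_zpowers hz₀
  have : NeZero (Nat.card Z) := ⟨Nat.card_pos.ne'⟩
  have h1 : IsPrimitiveRoot (f z₀) (Nat.card Z) := by
    rw [← ho, ← orderOf_injective f hf]; exact IsPrimitiveRoot.orderOf _
  have h2 : IsPrimitiveRoot (g z₀) (Nat.card Z) := by
    rw [← ho, ← orderOf_injective g hg]; exact IsPrimitiveRoot.orderOf _
  obtain ⟨k, -, hk, e⟩ := (h1.isPrimitiveRoot_iff').1 h2
  refine ⟨k, hk, fun z => ?_⟩
  obtain ⟨i, rfl⟩ := hz₀ z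
  simp only [map_pow, map_zpow, ← e]
  rw [← zpow_natCast, ← zpow_natCast, ← zpow_mul, ← zpow_mul, mul_comm]

/-- Let p be a prime and P a finite non-commutative p-group. Then every two irreducible characters of P of the same degree greater than 1 are Galois conjugate (one is obtained from the other by composing with g ↦ g^k for some k prime to the order of P) if and only if the centre of P is cyclic and the derived subgroup of P has order p. -/
theorem result {P : Type*} [Group P] [Finite P] (p : ℕ) [Fact p.Prime] (hP : IsPGroup p P) (hna : ¬ IsMulCommutative P) :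
    (∀ χ ψ : Cfsg.IrrCharacter P, Cfsg.charDegree (χ : P → ℂ) ≠ 1 → Cfsg.charDegree (χ : P → ℂ) = Cfsg.charDegree (ψ : P → ℂ) → ∃ k : ℕ, Nat.Coprime k (Nat.card P) ∧ ∀ g : P, (ψ : P → ℂ) g = (χ : P → ℂ) (g ^ k)) ↔
      (IsCyclic (Subgroup.center P) ∧ Nat.card (commutator P) = p) := by
  have hp : p.Prime := Fact.out
  have hne : commutator P ≠ ⊥ := by
    intro e
    exact hna ((commutator_eq_bot_iff (G := P)).1 e)
  constructor
  · intro H
    have hS : SameKer P := by
      intro χ ψ hχ hψ h1 h2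
      obtain ⟨k, hk, e⟩ := H ⟨χ, hχ⟩ ⟨ψ, hψ⟩ h1 h2
      obtain ⟨σ, hσ⟩ := galois_exists_aut_char hk
      have : ψ = fun g => (σ : ℂ →+* ℂ) (χ g) := by
        funext g
        exact (e g).trans (hσ χ hχ.isCharacter.isGeneralizedCharacter g).symm
      rw [this, charKer_galois]
    have hc := SameKer.card_commutator _ rfl hS hP hne
    exact ⟨hS.isCyclic_center hp hc (GT.PG.le_center_of_normal_card_prime hP _ hc), hc⟩
  · rintro ⟨hcyc, hc⟩ χ ψ h1 h2
    have hZ := GT.PG.le_center_of_normal_card_prime hP _ hc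
    have key : ∀ θ : IrrCharacter P, charDegree θ.1 ≠ 1 → (charKer θ.1 ⊓ commutator P = ⊥ ∧
        ∃ lam : Subgroup.center P →* ℂˣ, Function.Injective lam ∧
          ∀ z : Subgroup.center P, θ.1 z = lam z * θ.1 1) := by
      intro θ hθ
      have hb := inf_eq_bot_of_card_prime hp hc
        (fun hh => hθ ((charDegree_eq_one_iff_commutator_le θ.2).2 hh))
      refine ⟨hb, ?_⟩
      obtain ⟨lam, h3, h4⟩ := θ.2.exists_center_hom
      refine ⟨lam, ?_, fun z => by simpa using h3 z 1⟩
      rw [← MonoidHom.ker_eq_bot_iff, h4, Subgroup.subgroupOf_eq_bot, disjoint_iff]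
      rcases GT.Tr.eq_bot_or_eq_bot_of_isCyclic (hP.to_subgroup _) hcyc
        (inf_le_right : charKer θ.1 ⊓ Subgroup.center P ≤ _) hZ
        (eq_bot_iff.2 (hb ▸ inf_le_inf_right _ inf_le_left)) with e | e
      · exact e
      · exact absurd e hne
    obtain ⟨b1, l1, i1, e1⟩ := key χ h1
    obtain ⟨b2, l2, i2, e2⟩ := key ψ (h2 ▸ h1)
    obtain ⟨k, hk, e⟩ := exists_pow l1 l2 i1 i2
    have hkp : k.Coprime p := hk.coprime_dvd_right (hc ▸ Subgroup.card_dvd_of_le hZ)
    obtain ⟨n, hn⟩ := hP.exists_card_eq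
    have hkP : k.Coprime (Nat.card P) := by rw [hn]; exact hkp.pow_right n
    refine ⟨k, hkP, fun g => ?_⟩
    by_cases hg : g ∈ Subgroup.center P
    · have a1 := e1 (⟨g, hg⟩ ^ k)
      have a2 := e2 ⟨g, hg⟩
      rw [e] at a2
      have : (ψ : P → ℂ) 1 = (χ : P → ℂ) 1 := by
        rw [← ψ.2.coe_charDegree, ← χ.2.coe_charDegree, h2]
      rw [this] at a2
      exact a2.trans a1.symm
    · rw [apply_eq_zero_of_not_mem_center ψ.2 hZ b2 hg]
      exact ((χ.isCharacter.isGeneralizedCharacter.apply_pow_eq_zero_iff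
        (hkP.coprime_dvd_right (orderOf_dvd_natCard g))).2
        (apply_eq_zero_of_not_mem_center χ.2 hZ b1 hg)).symm

end Cfsg.Agent.S4845
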