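import Cfsg.Statements.S4850
import Cfsg.Agent.Ch.VanP
import Cfsg.Agent.GT.Subnormal2
import Cfsg.Agent.GT.Fitting

set_option autoImplicit false
open Cfsg

namespace Cfsg.Agent.S4850

/-- Let p be a prime and G a finite solvable group whose vanishing elements (elements at which some irreducible character is zero) of order divisible by p all have the same order, with at least one such element. Let P be a Sylow p-subgroup of G. Then the derived subgroup of P is subnormal in G and the image of P in G/O_p(G) is cyclic. -/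
theorem result {G : Type*} [Group G] [Finite G] [hs : Group.IsSolvable G] (p : ℕ) [Fact p.Prime] (b : ℕ) (hvo : {n : ℕ | p ∣ n ∧ ∃ (g : G) (χ : Cfsg.IrrCharacter G), orderOf g = n ∧ (χ : G → ℂ) g = 0} = {b}) (P : Sylow p G) :
    ((commutator ↥(P : Subgroup G)).map (P : Subgroup G).subtype).IsSubnormal ∧ IsCyclic ↥((P : Subgroup G).map (QuotientGroup.mk' (Cfsg.pCore p G))) := by
  have h : Ch.VanP.Hyp p G := Ch.VanP.hyp_of_orderOf fun x y ⟨χ, hχ⟩ hx ⟨ψ, hψ⟩ hy => by
    have h1 : orderOf x ∈ ({b} : Set ℕ) := hvo ▸ ⟨hx, x, χ, rfl, hχ⟩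
    have h2 : orderOf y ∈ ({b} : Set ℕ) := hvo ▸ ⟨hy, y, ψ, rfl, hψ⟩
    exact h1.trans h2.symm
  have hc : IsCyclic ↥((P : Subgroup G).map (QuotientGroup.mk' (Cfsg.pCore p G))) :=
    isCyclic_of_card_dvd_prime (h.card_map_dvd P)
  refine ⟨GT.isSubnormal_of_le_fitting (le_trans ?_ (GT.pCore_le_fitting (p := p) Fact.out)), hc⟩
  rw [commutator, Subgroup.map_commutator, ← MonoidHom.range_eq_map, Subgroup.range_subtype,
    Subgroup.commutator_le]
  intro a ha c hc'
  rw [← QuotientGroup.eq_one_iff, ← QuotientGroup.mk'_apply, map_commutatorElement,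
    commutatorElement_eq_one_iff_mul_comm]
  exact congrArg Subtype.val (hc.isMulCommutative.is_comm.comm ⟨_, a, ha, rfl⟩ ⟨_, c, hc', rfl⟩)

end Cfsg.Agent.S4850
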