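import Cfsg.Statements.S4856
import Cfsg.Agent.Deg.Basic
-- import your own Cfsg.Agent.* helpers here

set_option autoImplicit false
open Cfsg

namespace Cfsg.Agent.S4856

open Cfsg.Agent.Ch Cfsg.Agent.Deg
open scoped ComplexConjugate

/-- For an element z of a finite group G, the number of pairs (x, y) of elements with x y x⁻¹ y⁻¹ = z equals the order of G times the sum over the irreducible characters χ of χ(z)/χ(1). -/
theorem result {G : Type*} [Group G] [Finite G] (z : G) : (Nat.card {xy : G × G // xy.1 * xy.2 * xy.1⁻¹ * xy.2⁻¹ = z} : ℂ) = (Nat.card G : ℂ) * ∑ᶠ χ : Cfsg.IrrCharacter G, (χ : G → ℂ) z / (χ : G → ℂ) 1 := by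
  classical
  have := Fintype.ofFinite G
  have h1 : (Nat.card {xy : G × G // xy.1 * xy.2 * xy.1⁻¹ * xy.2⁻¹ = z} : ℂ) * Nat.card G =
      ∑ xy : G × G, regChar G (xy.2 * xy.1 * xy.2⁻¹ * xy.1⁻¹ * z) := by
    rw [Nat.card_eq_fintype_card, Fintype.card_subtype, Finset.card_filter]
    push_cast
    rw [Finset.sum_mul]
    refine Finset.sum_congr rfl fun xy _ => ?_
    rw [regChar_apply]
    have : (xy.2 * xy.1 * xy.2⁻¹ * xy.1⁻¹ * z = 1) ↔ xy.1 * xy.2 * xy.1⁻¹ * xy.2⁻¹ = z := by
      rw [mul_eq_one_iff_inv_eq]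
      simp only [mul_inv_rev, inv_inv, mul_assoc]
    simp only [this]
    split_ifs <;> simp
  rw [sum_regChar_eq] at h1
  rw [finsum_irr]
  apply mul_right_cancel₀ (natCard_ne_zero G)
  rw [h1, Finset.mul_sum, Finset.sum_mul]
  refine Finset.sum_congr rfl fun χ _ => ?_
  rw [Fintype.sum_prod_type_right, sum_commutator_mul χ.2]
  field_simp [χ.2.apply_one_ne_zero]

end Cfsg.Agent.S4856
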