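import Mathlib
import Cfsg.Statements.S4862
import Cfsg.Agent.Ch.RealChar

set_option autoImplicit false
open Cfsg

namespace Cfsg.Agent.S4862

/-- Let p be an odd prime and G a finite group such that the subgroup generated by the p-elements of G is solvable and every real-valued irreducible complex character of G has degree prime to p. Let K be the subgroup generated by the 2-elements of G and P a Sylow p-subgroup of G. Then every normal subgroup M of G contained in K and in the derived subgroup of P is centralized by K. -/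
theorem result {G : Type*} [Group G] [Finite G] (p : ℕ) [Fact p.Prime] (hp : p ≠ 2) (hsolv : Group.IsSolvable ↥(Subgroup.closure {g : G | ∃ k : ℕ, orderOf g = p ^ k})) (hreal : ∀ χ : Cfsg.IrrCharacter G, (∀ g : G, ((χ : G → ℂ) g).im = 0) → ¬ p ∣ Cfsg.charDegree (χ : G → ℂ)) (P : Sylow p G) (M : Subgroup G) (hM : M.Normal) (hMK : M ≤ (Subgroup.closure {g : G | ∃ k : ℕ, orderOf g = 2 ^ k})) (hMP : M ≤ ⁅(P : Subgroup G), (P : Subgroup G)⁆) : (Subgroup.closure {g : G | ∃ k : ℕ, orderOf g = 2 ^ k}) ≤ Subgroup.centralizer (M : Set G) := by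
  have hP : IsPGroup p M := P.isPGroup'.to_le (hMP.trans (Subgroup.commutator_le_self _))
  refine Ch.RC.closure_two_le_centralizer (fun m hm h2 => ?_) fun χ hχ =>
    Ch.RC.le_charKer_of_le_commutator P.isPGroup' hMP χ.2 (hreal χ hχ)
  obtain ⟨k, hk⟩ := IsPGroup.iff_orderOf.1 hP ⟨m, hm⟩
  rw [← Subgroup.orderOf_coe] at hk
  rw [hk] at h2
  exact hp ((Nat.prime_dvd_prime_iff_eq Nat.prime_two Fact.out).1
    (Nat.prime_two.dvd_of_dvd_pow h2)).symm

end Cfsg.Agent.S4862
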