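import Mathlib
import Cfsg.Statements.S4866
import Cfsg.Agent.Ch.RealChar
import Cfsg.Agent.S0160

set_option autoImplicit false
open Cfsg

namespace Cfsg.Agent.S4866

open Cfsg.Agent.Ch

theorem card_quot_eq {α β : Type*} {r : α → α → Prop} (f : α → β)
    (h : ∀ a b, r a b ↔ f a = f b) (hs : Function.Surjective f) :
    Nat.card (Quot r) = Nat.card β := by
  refine Nat.card_congr (Equiv.ofBijective (Quot.lift f fun a b hab => (h a b).1 hab) ⟨?_, ?_⟩)
  · rintro ⟨a⟩ ⟨b⟩ hab
    exact Quot.sound ((h a b).2 hab)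
  · intro b
    obtain ⟨a, rfl⟩ := hs b
    exact ⟨Quot.mk r a, rfl⟩

/-- Let K be a normal subgroup of odd index in the finite group G. Then G has as many orbits on the real-valued irreducible complex characters of K (acting by conjugation) as it has orbits on the conjugacy classes of K that are real in K; equivalently, the number of G-orbits of real-valued irreducible characters of K equals the number of G-conjugacy classes of elements of K that are conjugate in K to their inverses. -/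
theorem result {G : Type*} [Group G] [Finite G] (K : Subgroup G) [K.Normal] (hodd : Odd K.index) : Nat.card (Quot (fun θ η : {θ : Cfsg.IrrCharacter ↥K // (∀ k : ↥K, ((θ : ↥K → ℂ) k).im = 0)} => ∃ g : G, ∀ k k' : ↥K, (k' : G) = g * (k : G) * g⁻¹ → (η.1 : ↥K → ℂ) k' = (θ.1 : ↥K → ℂ) k)) = Nat.card (Quot (fun x y : {x : ↥K // IsConj x x⁻¹} => ∃ g : G, (y.1 : G) = g * x.1 * g⁻¹)) := by
  have := Fintype.ofFinite G
  have := Fintype.ofFinite K
  have hex := fun θ : {θ : IrrCharacter K // ∀ k, (θ.1 k).im = 0} =>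
    RC.existsUnique_real_over hodd θ.1.2 θ.2
  choose F hF hFu using hex
  rw [card_quot_eq (β := {χ : IrrCharacter G // ∀ g, (χ.1 g).im = 0})
    (fun θ => ⟨F θ, (hF θ).2⟩), S0160.result, eq_comm]
  · refine card_quot_eq (fun x => ⟨ConjClasses.mk x.1.1, fun g hg => ?_⟩) (fun x y => ?_) ?_
    · obtain ⟨c, rfl⟩ := isConj_iff.1 (ConjClasses.mk_eq_mk_iff_isConj.1 hg.symm)
      have h1 : IsConj (x.1 : G) (x.1 : G)⁻¹ := K.subtype.map_isConj x.2
      simpa [mul_assoc] using (MulAut.conj c).toMonoidHom.map_isConj h1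
    · rw [Subtype.mk.injEq, ConjClasses.mk_eq_mk_iff_isConj, isConj_iff]
      exact exists_congr fun g => eq_comm
    · rintro ⟨C, hC⟩
      obtain ⟨g, rfl⟩ := ConjClasses.mk_surjective C
      have h1 := hC g rfl
      have hg : g ∈ K := RC.mem_of_isConj_inv hodd K.one_mem (by rwa [one_mul])
      exact ⟨⟨⟨g, hg⟩, RC.isConj_inv_of_odd_index hodd h1⟩, rfl⟩
  · intro θ η
    rw [Subtype.mk.injEq]
    constructor
    · rintro ⟨g, hg⟩
      have h1 : θ.1.1 = conjChar g η.1.1 := funext fun k => (hg k _ rfl).symm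
      refine (hFu θ _ ⟨?_, (hF η).2⟩).symm
      rw [h1, classInner_res_conjChar (F η).2.isClassFunction]
      exact (hF η).1
    · intro h
      obtain ⟨g, hg⟩ := mem_conjugates.1
        (mem_conjugates_of_under (F η).2 η.1.2 θ.1.2 (hF η).1 (h ▸ (hF θ).1))
      exact ⟨g, fun k k' hk => by rw [hg, conjChar_apply_of_eq g _ k k' hk]⟩
  · rintro ⟨χ, hχ⟩
    obtain ⟨θ, hθ, h⟩ := exists_irr_under K χ.2
    have hr := RC.real_of_under_real hodd χ.2 hχ hθ h
    exact ⟨⟨⟨θ, hθ⟩, hr⟩, Subtype.ext (hFu ⟨⟨θ, hθ⟩, hr⟩ χ ⟨h, hχ⟩).symm⟩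

end Cfsg.Agent.S4866
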