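import Mathlib
import Cfsg.Statements.S4870
import Cfsg.Agent.Ch.RealChar3
import Cfsg.Agent.GT.MinNormal

set_option autoImplicit false
open Cfsg

namespace Cfsg.Agent.S4870

open Cfsg.Agent.Ch

/-- Let G be a finite group with a non-abelian minimal normal subgroup N, and let φ be an irreducible complex character of N with stabilizer I in G (the elements g with φ(g n g⁻¹) = φ(n) for all n ∈ N) such that φ extends to an irreducible character of I. Put d = φ(1)·[G : I]. Then the number of linear characters of G is at most [G : I] times the number of irreducible characters of G of degree d. -/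
theorem result {G : Type*} [Group G] [Finite G] (N : Subgroup G) (hN : N.Normal) (hN1 : N ≠ ⊥) (hmin : ∀ M : Subgroup G, M.Normal → M ≤ N → M = ⊥ ∨ M = N) (hna : ¬ IsMulCommutative ↥N) (φ : Cfsg.IrrCharacter ↥N) (I : Subgroup G) (hI : ∀ g : G, g ∈ I ↔ ∀ n n' : ↥N, (n' : G) = g * (n : G) * g⁻¹ → (φ : ↥N → ℂ) n' = (φ : ↥N → ℂ) n) (hNI : N ≤ I) (hext : ∃ ψ : Cfsg.IrrCharacter ↥I, ∀ n : ↥N, (ψ : ↥I → ℂ) (Subgroup.inclusion hNI n) = (φ : ↥N → ℂ) n) : Nat.card {χ : Cfsg.IrrCharacter G // Cfsg.charDegree (χ : G → ℂ) = 1} ≤ I.index * Nat.card {χ : Cfsg.IrrCharacter G // Cfsg.charDegree (χ : G → ℂ) = Cfsg.charDegree (φ : ↥N → ℂ) * I.index} := by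
  have := Fintype.ofFinite G
  obtain ⟨ψ, hψ⟩ := hext
  have hperf : ⁅N, N⁆ = N :=
    (GT.IsMinNormal.comm_or_perfect ⟨hN, hN1, hmin⟩).resolve_left hna
  obtain ⟨h1, h2⟩ := RC.indFun_hom_mul φ.2 (RC.eq_inertia_of_forall hI) hNI ψ.2 hψ
  have hl := RC.hom_eq_one_of_perfect hperf hNI
  calc _ = Nat.card {f : G →* ℂˣ // True} := by
        refine (Nat.card_congr (Equiv.ofBijective
          (fun f => ⟨linIrr f.1, charDegree_of_apply_one (by simp)⟩) ⟨fun f g h => ?_, ?_⟩)).symm
        · exact Subtype.ext (linIrr_injective (congrArg Subtype.val h))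
        · rintro ⟨χ, hχ⟩
          obtain ⟨f, rfl⟩ := mem_range_linIrr_iff.2 (χ.2.isCharacter.charDegree_eq_one_iff.1 hχ)
          exact ⟨⟨f, trivial⟩, rfl⟩
    _ ≤ I.index * Nat.card {f : I →* ℂˣ // True} := RC.card_hom_le_index_mul I fun _ _ => trivial
    _ ≤ _ := by
        refine Nat.mul_le_mul_left _ (Nat.card_le_card_of_injective
          (fun l => ⟨⟨_, (h1 l.1 (hl l.1)).1⟩, (h1 l.1 (hl l.1)).2⟩) fun l l' h => ?_)
        exact Subtype.ext (h2 _ _ (hl _) (hl _) (congrArg (fun x => x.1.1) h))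

end Cfsg.Agent.S4870
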