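import Mathlib
import Cfsg.Statements.S4871
import Cfsg.Agent.Ch.RealChar3
import Cfsg.Agent.Ch.RealChar2
import Cfsg.Agent.Ch.Extension

set_option autoImplicit false
open Cfsg

namespace Cfsg.Agent.S4871

open Cfsg.Agent.Ch ComplexConjugate

theorem fsInd_indFun_eq {G : Type*} [Group G] [Fintype G] (I : Subgroup G) (η : I → ℂ) :
    fsInd (indFun I η) = (Nat.card I : ℂ)⁻¹ * ∑ g : G, extendByZero I η (g * g) := by
  rw [fsInd_def]
  simp_rw [indFun_apply']
  rw [← Finset.mul_sum, Finset.sum_comm]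
  have h : ∀ x : G, ∑ g : G, extendByZero I η (x * (g * g) * x⁻¹) =
      ∑ g : G, extendByZero I η (g * g) := fun x =>
    Fintype.sum_equiv (MulAut.conj x).toEquiv _ _ fun g => by simp [mul_assoc]
  simp_rw [h]
  rw [Finset.sum_const, Finset.card_univ, nsmul_eq_mul, ← Nat.card_eq_fintype_card]
  have := natCard_ne_zero G
  field_simp

theorem fsInd_eq_one {G : Type*} [Group G] [Fintype G] {N P I : Subgroup G} [hN : N.Normal]
    (hprod : N ⊔ P = ⊤) {z : G} (hz : z * z = 1) (hzP : ∀ t ∈ P, z * t = t * z)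
    (hzN : ∀ n ∈ N, z * n * z⁻¹ = n⁻¹) (lam : N →* ℂˣ)
    (hI : I = inertia N fun n => (lam n : ℂ)) (hNI : N ≤ I) (η : I →* ℂˣ)
    (hη : ∀ n : N, η ⟨n, hNI n.2⟩ = lam n) (hη2 : ∀ t : I, (t : G) ∈ P → η (t * t) = 1) :
    fsInd (indFun I fun x => (η x : ℂ)) = 1 := by
  classical
  have := Fintype.ofFinite N
  have := Fintype.ofFinite I
  rw [fsInd_indFun_eq]
  set F : G → ℂ := fun g => extendByZero I (fun x => (η x : ℂ)) (g * g) with hF
  have hA : ∀ g : G, g * z⁻¹ ∉ I → ∑ n : N, F (n * g) = 0 := by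
    intro g hg
    have e : ∀ n : N, (n * g) * (n * g) = n * (g * n * g⁻¹) * (g * g) := fun n => by group
    by_cases hg2 : g * g ∈ I
    · let f : N →* ℂˣ := lam * lam.comp (MulAut.conjNormal g).toMonoidHom
      have h1 : ∀ n : N, F (n * g) = f n * η ⟨g * g, hg2⟩ := by
        intro n
        have h2 := hN.conj_mem n n.2 g
        have h3 : (n * g) * (n * g) =
            ((⟨n, hNI n.2⟩ * ⟨_, hNI h2⟩ * ⟨_, hg2⟩ : I) : G) := e n
        rw [hF]
        simp only
        rw [h3, extendByZero_coe, map_mul, map_mul, hη n, hη ⟨_, h2⟩]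
        rfl
      simp_rw [h1]
      rw [← Finset.sum_mul, sum_monoidHom_units_eq_zero, zero_mul]
      intro hf
      apply hg
      rw [hI, ← conjChar_eq_conjChar_iff]
      funext n
      have h4 : lam n * lam ⟨_, hN.conj_mem n n.2 g⟩ = 1 := DFunLike.congr_fun hf n
      rw [conjChar_apply, conjChar_apply_of_eq z _ n n⁻¹ (hzN n n.2).symm, map_inv,
        eq_inv_of_mul_eq_one_right h4]
    · refine Finset.sum_eq_zero fun n _ => extendByZero_of_not_mem _ _ fun h => hg2 ?_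
      rw [e] at h
      exact (I.mul_mem_cancel_left (hNI (N.mul_mem n.2 (hN.conj_mem n n.2 g)))).1 h
  have hB : ∀ g : G, g * z⁻¹ ∈ I → F g = 1 := by
    intro g hg
    have h1 : g * z⁻¹ ∈ ((N ⊔ P : Subgroup G) : Set G) := by rw [hprod]; trivial
    rw [Subgroup.normal_mul] at h1
    obtain ⟨n, hn, t, ht, h1⟩ := h1
    have h1' : n * t = g * z⁻¹ := h1
    have htI : t ∈ I := (I.mul_mem_cancel_left (hNI hn)).1 (h1' ▸ hg)
    have h2 : g * g = ((⟨n, hNI hn⟩ * ⟨t, htI⟩ * (⟨n, hNI hn⟩ : I)⁻¹ * ⟨t, htI⟩ : I) : G) := by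
      have h3 : g = n * t * z := by rw [h1']; simp
      change g * g = n * t * n⁻¹ * t
      rw [h3, ← hzN n hn]
      calc n * t * z * (n * t * z) = n * t * (z * n * z⁻¹) * (z * t) * z := by group
        _ = n * t * (z * n * z⁻¹) * t * (z * z) := by rw [hzP t ht]; group
        _ = _ := by rw [hz, mul_one]
    rw [hF]
    simp only
    rw [h2, extendByZero_coe, map_mul, map_mul, map_mul, map_inv, mul_inv_cancel_comm, ← map_mul,
      hη2 _ ht, Units.val_one]
  have hC : ∑ g with g * z⁻¹ ∉ I, F g = 0 := by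
    have h1 : ∀ n : N, ∑ g with g * z⁻¹ ∉ I, F g = ∑ g with g * z⁻¹ ∉ I, F (n * g) := by
      intro n
      symm
      refine Finset.sum_equiv (Equiv.mulLeft (n : G)) (fun g => ?_) fun _ _ => rfl
      simp only [Finset.mem_filter, Finset.mem_univ, true_and, Equiv.coe_mulLeft, mul_assoc]
      rw [I.mul_mem_cancel_left (hNI n.2)]
    have h2 : ∑ _n : N, ∑ g with g * z⁻¹ ∉ I, F g = 0 := by
      rw [Finset.sum_congr rfl fun n _ => h1 n, Finset.sum_comm]
      exact Finset.sum_eq_zero fun g hg => hA g (Finset.mem_filter.1 hg).2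
    simpa using h2
  rw [← Finset.sum_filter_add_sum_filter_not Finset.univ (fun g => g * z⁻¹ ∈ I), hC, add_zero,
    Finset.sum_congr rfl fun g hg => hB g (Finset.mem_filter.1 hg).2, Finset.sum_const,
    nsmul_eq_mul, mul_one]
  have h3 : (Finset.univ.filter fun g : G => g * z⁻¹ ∈ I).card = Nat.card I := by
    rw [← Fintype.card_subtype, ← Nat.card_eq_fintype_card]
    exact Nat.card_congr (Equiv.subtypeEquiv (Equiv.mulRight z⁻¹) fun _ => Iff.rfl)
  rw [h3, inv_mul_cancel₀ (natCard_ne_zero I)]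

theorem exists_inverting {G : Type*} [Group G] [Finite G] {N P : Subgroup G} [hN : N.Normal]
    (hc : IsMulCommutative N) (hP : IsPGroup 2 P) (hP1 : P ≠ ⊥) (hdisj : N ⊓ P = ⊥)
    (hprod : N ⊔ P = ⊤) (hmin : N ≠ ⊥ ∧ ∀ M : Subgroup G, M.Normal → M ≠ ⊥ → N ≤ M) :
    ∃ z : G, z * z = 1 ∧ (∀ t ∈ P, z * t = t * z) ∧ ∀ n ∈ N, z * n * z⁻¹ = n⁻¹ := by
  have : Nontrivial P := (Subgroup.nontrivial_iff_ne_bot P).2 hP1
  have hcen := hP.center_nontrivial
  obtain ⟨k, hk0, hk⟩ := (hP.to_subgroup (Subgroup.center P)).nontrivial_iff_card.1 hcen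
  obtain ⟨y, hy⟩ := exists_prime_orderOf_dvd_card' (G := Subgroup.center P) 2
    (by rw [hk]; exact dvd_pow_self 2 hk0.ne')
  set z : G := ((y : P) : G) with hzdef
  have hz : orderOf z = 2 := by rw [hzdef, Subgroup.orderOf_coe, Subgroup.orderOf_coe, hy]
  have hzz : z * z = 1 := by rw [← pow_two, ← hz, pow_orderOf_eq_one]
  have hzP : ∀ t ∈ P, z * t = t * z := fun t ht =>
    (congrArg Subtype.val (Subgroup.mem_center_iff.1 y.2 ⟨t, ht⟩)).symm
  have hcomm : ∀ a ∈ N, ∀ b ∈ N, a * b = b * a := fun a ha b hb =>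
    congrArg Subtype.val (hc.is_comm.comm ⟨a, ha⟩ ⟨b, hb⟩)
  have hdec : ∀ g : G, ∃ n ∈ N, ∃ t ∈ P, g = n * t := by
    intro g
    have : g ∈ ((N ⊔ P : Subgroup G) : Set G) := by rw [hprod]; trivial
    rw [Subgroup.normal_mul] at this
    obtain ⟨h, hh, n, hn, rfl⟩ := this
    exact ⟨h, hh, n, hn, rfl⟩
  have hC : N ⊓ Subgroup.centralizer {z} = ⊥ := by
    by_contra hne
    have hnorm : (N ⊓ Subgroup.centralizer {z}).Normal := ⟨fun x hx g => by
      obtain ⟨n, hn, t, ht, rfl⟩ := hdec g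
      have h1 := hN.conj_mem x hx.1 t
      have h2 : n * t * x * (n * t)⁻¹ = t * x * t⁻¹ := by
        calc n * t * x * (n * t)⁻¹ = n * (t * x * t⁻¹) * n⁻¹ := by group
          _ = _ := by rw [hcomm n hn _ h1]; group
      rw [h2]
      have h3 : t ∈ Subgroup.centralizer {z} :=
        Subgroup.mem_centralizer_singleton_iff.2 (hzP t ht).symm
      exact ⟨h1, Subgroup.mul_mem _ (Subgroup.mul_mem _ h3 hx.2) (Subgroup.inv_mem _ h3)⟩⟩
    have h1 := (hmin.2 _ hnorm hne).trans inf_le_right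
    have h2 : z ∈ Subgroup.center G := Subgroup.mem_center_iff.2 fun g => by
      obtain ⟨n, hn, t, ht, rfl⟩ := hdec g
      rw [mul_assoc, ← hzP t ht, ← mul_assoc, Subgroup.mem_centralizer_singleton_iff.1 (h1 hn),
        mul_assoc]
    have h3 : (Subgroup.zpowers z).Normal :=
      ⟨fun x hx g => by
        rw [Subgroup.mem_center_iff.1 (Subgroup.zpowers_le.2 h2 hx) g]; simpa using hx⟩
    have h4 := hmin.2 _ h3 (by
      rw [Ne, Subgroup.zpowers_eq_bot]; rintro h; rw [h] at hz; simp at hz)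
    apply hmin.1
    rw [← hdisj, eq_comm, inf_eq_left]
    exact h4.trans (Subgroup.zpowers_le.2 (y : P).2)
  refine ⟨z, hzz, hzP, fun n hn => ?_⟩
  have h1 : n * (z * n * z⁻¹) ∈ N ⊓ Subgroup.centralizer {z} := by
    refine ⟨N.mul_mem hn (hN.conj_mem n hn z), Subgroup.mem_centralizer_singleton_iff.2 ?_⟩
    have h2 : z⁻¹ = z := inv_eq_of_mul_eq_one_right hzz
    calc n * (z * n * z⁻¹) * z = z * (z⁻¹ * n * z⁻¹⁻¹ * n) := by rw [h2, h2, ← mul_assoc z, ← mul_assoc z, ← mul_assoc z, hzz]; simp [mul_assoc, hzz]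
      _ = z * (n * (z * n * z⁻¹)) := by rw [hcomm _ (hN.conj_mem n hn z⁻¹) n hn, h2, h2]
  rw [hC, Subgroup.mem_bot] at h1
  exact eq_inv_of_mul_eq_one_right h1

theorem count {X : Type*} [Finite X] (deg : X → ℕ) (h : ∀ x, deg x = 1 ∨ 2 ≤ deg x)
    {Y : Type*} [Finite Y] (f : Y → X) (hf : Function.Injective f) {d : ℕ} (hd : d ≠ 1)
    (hfd : ∀ y, deg (f y) = d) (h1 : Nat.card {x // deg x = 1} ≤ d * Nat.card Y) :
    4 * Nat.card X ≤ 3 * ∑ᶠ x, deg x := by
  classical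
  have := Fintype.ofFinite X
  rw [finsum_eq_sum_of_fintype]
  have := Fintype.ofFinite Y
  rw [Nat.card_eq_fintype_card, Fintype.card_subtype, Nat.card_eq_fintype_card] at h1
  rw [Nat.card_eq_fintype_card, ← Finset.card_univ,
    ← Finset.card_filter_add_card_filter_not (fun x => deg x = 1),
    ← Finset.sum_filter_add_sum_filter_not Finset.univ (fun x => deg x = 1)]
  have h2 : ∑ x with deg x = 1, deg x = (Finset.univ.filter fun x => deg x = 1).card := by
    rw [Finset.card_eq_sum_ones]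
    exact Finset.sum_congr rfl fun x hx => (Finset.mem_filter.1 hx).2
  have h3 : (Finset.univ.filter fun x => ¬ deg x = 1).card * 2 ≤ ∑ x with ¬ deg x = 1, deg x :=
    Finset.card_nsmul_le_sum _ _ _ fun x hx => (h x).resolve_left (Finset.mem_filter.1 hx).2
  have h4 : d * Fintype.card Y ≤ ∑ x with ¬ deg x = 1, deg x := by
    refine le_trans (le_of_eq ?_) (Finset.sum_le_sum_of_subset (s := Finset.univ.image f) ?_)
    · rw [Finset.sum_image hf.injOn]
      simp [hfd, mul_comm]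
    · intro x hx
      obtain ⟨y, -, rfl⟩ := Finset.mem_image.1 hx
      simp [hfd, hd]
  omega

/-- Let G be a finite group that is the semidirect product of a normal elementary abelian subgroup N of odd order by a non-trivial 2-subgroup P, with N the unique minimal normal subgroup of G. Consider the strongly real irreducible complex characters of G (Frobenius–Schur indicator +1) whose degree is 1 or even. Then their average degree is at least 4/3: four times their number is at most three times the sum of their degrees. -/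
theorem result {G : Type*} [Group G] [Finite G] (N P : Subgroup G) (hN : N.Normal) (q : ℕ) [Fact q.Prime] (hq : q ≠ 2) (hNel : Cfsg.IsElementaryAbelian q N) (hP : IsPGroup 2 ↥P) (hP1 : P ≠ ⊥) (hdisj : N ⊓ P = ⊥) (hprod : N ⊔ P = ⊤) (hmin : N ≠ ⊥ ∧ ∀ M : Subgroup G, M.Normal → M ≠ ⊥ → N ≤ M) : 4 * Nat.card {χ : Cfsg.IrrCharacter G // (Cfsg.charDegree (χ : G → ℂ) = 1 ∨ 2 ∣ Cfsg.charDegree (χ : G → ℂ)) ∧ (Nat.card G : ℂ)⁻¹ * ∑ᶠ g : G, (χ : G → ℂ) (g * g) = 1} ≤ 3 * (∑ᶠ χ : {χ : Cfsg.IrrCharacter G // (Cfsg.charDegree (χ : G → ℂ) = 1 ∨ 2 ∣ Cfsg.charDegree (χ : G → ℂ)) ∧ (Nat.card G : ℂ)⁻¹ * ∑ᶠ g : G, (χ : G → ℂ) (g * g) = 1}, Cfsg.charDegree (χ.1 : G → ℂ)) := by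
  classical
  have := Fintype.ofFinite G
  have e : ∀ χ : G → ℂ, (Nat.card G : ℂ)⁻¹ * ∑ᶠ g : G, χ (g * g) = fsInd χ := fun χ => by
    rw [finsum_eq_sum_of_fintype, fsInd_def]
  obtain ⟨z, hz, hzP, hzN⟩ := exists_inverting hNel.1 hP hP1 hdisj hprod hmin
  obtain ⟨n₀, hn₀⟩ := Subgroup.ne_bot_iff_exists_ne_one.1 hmin.1
  obtain ⟨lam, hlam⟩ := exists_monoidHom_units_ne_one_of_comm hNel.1.is_comm.comm hn₀
  have hcop : Nat.Coprime 2 q := (Nat.coprime_primes Nat.prime_two Fact.out).2 hq.symm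
  have hone : ∀ {u : ℂˣ} {k : ℕ}, u ^ 2 ^ k = 1 → u ^ q = 1 → u = 1 := fun h1 h2 =>
    orderOf_eq_one_iff.1 (Nat.eq_one_of_dvd_coprimes (hcop.pow_left _)
      (orderOf_dvd_of_pow_eq_one h1) (orderOf_dvd_of_pow_eq_one h2))
  have hNq : ∀ n : N, n ^ q = 1 := fun n => Subtype.ext (hNel.2 n n.2)
  set I := inertia N fun n => (lam n : ℂ) with hI
  have hNI : N ≤ I := le_inertia (isCharacter_monoidHom_units lam).isClassFunction
  obtain ⟨k, hk⟩ := hP.exists_card_eq
  have hidx : N.index = 2 ^ k := by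
    rw [← hk]
    exact (Subgroup.isComplement'_of_disjoint_and_mul_eq_univ (disjoint_iff.2 hdisj)
      (by rw [← Subgroup.normal_mul, hprod, Subgroup.coe_top])).symm.index_eq_card
  have hd : I.index ≠ 1 := by
    intro h
    have h1 : z ∈ I := by rw [Subgroup.index_eq_one.1 h]; trivial
    have h2 := congrFun (mem_inertia'.1 h1) n₀
    rw [conjChar_apply_of_eq z _ n₀ n₀⁻¹ (hzN n₀ n₀.2).symm, map_inv] at h2
    refine hlam (hone (k := 1) ?_ (by rw [← map_pow, hNq, map_one]))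
    rw [pow_one, pow_two]
    nth_rw 1 [← Units.val_injective h2]
    exact inv_mul_cancel _
  have hd2 : 2 ∣ I.index := by
    by_contra h
    exact hd (RC.eq_one_of_dvd_pow_of_not_dvd Nat.prime_two
      (hidx ▸ Subgroup.index_dvd_of_le hNI) h)
  let lam' : N.subgroupOf I →* ℂˣ := lam.comp (Subgroup.subgroupOfEquivOfLe hNI).toMonoidHom
  have hlq : lam' ^ q = 1 := MonoidHom.ext fun x => by
    rw [MonoidHom.pow_apply, MonoidHom.one_apply]
    exact (map_pow lam _ q).symm.trans (by rw [hNq, map_one])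
  obtain ⟨μ, hμ, hμo⟩ := exists_hom_extends_of_coprime lam'
    (fun g n => Units.val_injective (mem_inertia.1 g.2 ⟨n, n.2⟩))
    (Nat.Coprime.coprime_dvd_right (orderOf_dvd_of_pow_eq_one hlq)
      (Nat.Coprime.coprime_dvd_left (hidx ▸ Subgroup.relIndex_dvd_index_of_normal N I)
        (hcop.pow_left k)))
  have hμN : ∀ n : N, μ ⟨n, hNI n.2⟩ = lam n := fun n => hμ ⟨⟨n, hNI n.2⟩, n.2⟩
  have hμP : ∀ t : I, (t : G) ∈ P → μ t = 1 := by
    intro t ht
    refine hone (k := k) ?_ ?_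
    · rw [← map_pow, ← hk, show t ^ Nat.card P = 1 from
        Subtype.ext (congrArg (fun x : P => (x : G)) (pow_card_eq_one' (x := (⟨t, ht⟩ : P)))), map_one]
    · rw [← MonoidHom.pow_apply, orderOf_dvd_iff_pow_eq_one.1
        (hμo ▸ orderOf_dvd_of_pow_eq_one hlq), MonoidHom.one_apply]
  obtain ⟨h1, h2⟩ := RC.indFun_hom_mul (isIrrCharacter_monoidHom_units lam) hI hNI
    (isIrrCharacter_monoidHom_units μ) fun n => congrArg Units.val (hμN n)
  have hdeg : charDegree (fun n => (lam n : ℂ)) = 1 := charDegree_of_apply_one (by simp)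
  rw [hdeg, one_mul] at h1
  refine count (X := {χ : IrrCharacter G // (charDegree χ.1 = 1 ∨ 2 ∣ charDegree χ.1) ∧
      (Nat.card G : ℂ)⁻¹ * ∑ᶠ g : G, χ.1 (g * g) = 1}) (fun χ => charDegree χ.1.1) (fun x => x.2.1.imp_right fun h => Nat.le_of_dvd x.1.2.charDegree_pos h)
    (Y := {l : I →* ℂˣ // (∀ n : N, l ⟨n, hNI n.2⟩ = 1) ∧ ∀ g, l (g * g) = 1})
    (fun l => ⟨⟨_, (h1 l.1 l.2.1).1⟩, Or.inr (by rw [(h1 l.1 l.2.1).2]; exact hd2), ?_⟩)
    (fun l l' h => Subtype.ext (h2 _ _ l.2.1 l'.2.1 (congrArg (fun x => x.1.1) h))) hd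
    (fun l => (h1 l.1 l.2.1).2) ?_
  · rw [e]
    exact fsInd_eq_one hprod hz hzP hzN lam hI hNI (l.1 * μ)
      (fun n => by rw [MonoidHom.mul_apply, l.2.1, hμN, one_mul])
      fun t ht => by rw [MonoidHom.mul_apply, l.2.2, hμP _ (P.mul_mem ht ht), one_mul]
  · refine le_trans ?_ (RC.card_hom_le_index_mul I (S := fun f => ∀ g, f (g * g) = 1)
      fun f hf => ⟨fun n => hone (k := 1) ?_ ?_, fun g => hf g⟩)
    · refine Nat.card_le_card_of_surjective (fun f => ⟨⟨linIrr f.1,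
        Or.inl (charDegree_of_apply_one (by simp)), (e _).trans (RC.fsInd_hom_eq_one_iff.2 f.2)⟩,
          charDegree_of_apply_one (by simp)⟩) ?_
      rintro ⟨⟨χ, hχ, hχ'⟩, h⟩
      obtain ⟨f, rfl⟩ := mem_range_linIrr_iff.2 (χ.2.isCharacter.charDegree_eq_one_iff.1 h)
      exact ⟨⟨f, RC.fsInd_hom_eq_one_iff.1 ((e _).symm.trans hχ')⟩, rfl⟩
    · rw [pow_one, pow_two, ← map_mul]; exact hf _
    · rw [← map_pow]
      exact (congrArg f (hNel.2 n n.2)).trans f.map_one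

end Cfsg.Agent.S4871
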