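import Mathlib
import Cfsg.Statements.S4872
import Cfsg.Agent.Ch.RealChar3
import Cfsg.Agent.Ch.RealChar2
import Cfsg.Agent.Ch.Mackey
import Cfsg.Agent.Ch.AbelianQuot
import Cfsg.Agent.Ch.TripleFin
import Cfsg.Agent.Ch.BrauerPi
import Cfsg.Agent.FG.SylowNormal

set_option autoImplicit false
open Cfsg

namespace Cfsg.Agent.S4872

open Cfsg.Agent.Ch ComplexConjugate

theorem odd_mult {G : Type*} [Group G] [Fintype G] (N : Subgroup G) [N.Normal] [Fintype N]
    (h2 : IsPGroup 2 (G ⧸ N)) {φ : N → ℂ} (hφ : IsIrrCharacter N φ)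
    (hdef : 2 ^ (Nat.card N).factorization 2 ∣ charDegree φ) (P : Sylow 2 G) :
    ∃ u : ℕ, Odd u ∧
      classInner (fun n : N => indFun (P : Subgroup G) (fun _ => 1) n) φ = u := by
  classical
  have hPN : (P : Subgroup G) ⊔ N = ⊤ := by
    obtain ⟨k, hk⟩ := h2.exists_card_eq
    rw [← Subgroup.index_eq_one]
    exact RC.eq_one_of_dvd_pow_of_not_dvd Nat.prime_two
      (by rw [← hk]; exact Subgroup.index_dvd_of_le le_sup_right)
      fun h => P.not_dvd_index (h.trans (Subgroup.index_dvd_of_le le_sup_left))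
  obtain ⟨Q, hQ⟩ := FG.H96.exists_sylow_eq_subgroupOf P N
  obtain ⟨u, hu⟩ := hdef
  refine ⟨u, ?_, ?_⟩
  · rw [← Nat.not_even_iff_odd, even_iff_two_dvd]
    intro h
    have h3 : 2 ^ ((Nat.card N).factorization 2 + 1) ∣ Nat.card N := by
      refine dvd_trans ?_ hφ.charDegree_dvd_card
      rw [hu, pow_succ]
      exact Nat.mul_dvd_mul_left _ h
    exact Nat.pow_succ_factorization_not_dvd Nat.card_pos.ne' Nat.prime_two h3
  · rw [mackey_of_sup_eq_top _ N hPN (IsClassFunction.const 1), ← hQ,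
      classInner_indFun_left _ _ hφ.isClassFunction, classInner_def,
      Finset.sum_eq_single (1 : (Q : Subgroup N)),
      show Nat.card (Q : Subgroup N) = _ from Q.card_eq_multiplicity]
    · have h0 : ((2 ^ (Nat.card N).factorization 2 : ℕ) : ℂ) ≠ 0 :=
        Nat.cast_ne_zero.2 (by positivity)
      rw [OneMemClass.coe_one, hφ.isCharacter.conj_apply_one, ← hφ.coe_charDegree, hu, one_mul,
        Nat.cast_mul, inv_mul_cancel_left₀ h0]
    · intro x _ hx
      obtain ⟨k, hk⟩ := IsPGroup.iff_orderOf.1 Q.isPGroup' x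
      rw [apply_eq_zero_of_defect_zero Nat.prime_two hφ ⟨u, hu⟩, map_zero, mul_zero]
      rw [Subgroup.orderOf_coe, hk]
      refine dvd_pow_self 2 fun h0 => hx ?_
      rwa [h0, pow_zero, orderOf_eq_one_iff] at hk
    · simp

/-- Let N be a normal subgroup of the finite group G with G/N a 2-group, and let φ be an irreducible complex character of N of 2-defect zero (the 2-part of #N divides φ(1)) whose complex conjugate is G-conjugate to φ. Then some irreducible character of G with Frobenius–Schur indicator +1 contains φ with multiplicity exactly one on restriction to N. -/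
theorem result {G : Type*} [Group G] [Finite G] (N : Subgroup G) [N.Normal] (h2 : IsPGroup 2 (G ⧸ N)) (φ : Cfsg.IrrCharacter ↥N) (hdef : 2 ^ (Nat.card ↥N).factorization 2 ∣ Cfsg.charDegree (φ : ↥N → ℂ)) (hconj : ∃ g : G, ∀ n n' : ↥N, (n' : G) = g * (n : G) * g⁻¹ → (φ : ↥N → ℂ) n' = (starRingEnd ℂ) ((φ : ↥N → ℂ) n)) : ∃ χ : Cfsg.IrrCharacter G, (Nat.card G : ℂ)⁻¹ * ∑ᶠ g : G, (χ : G → ℂ) (g * g) = 1 ∧ (Nat.card ↥N : ℂ)⁻¹ * ∑ᶠ n : ↥N, (χ : G → ℂ) n * (starRingEnd ℂ) ((φ : ↥N → ℂ) n) = 1 := by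
  classical
  have := Fintype.ofFinite G
  have := Fintype.ofFinite N
  simp only [finsum_eq_sum_of_fintype]
  obtain ⟨P⟩ : Nonempty (Sylow 2 G) := inferInstance
  obtain ⟨u, hu, hu'⟩ := odd_mult N h2 φ.2 hdef P
  obtain ⟨a, ha, hπ, -⟩ := exists_mult_indFun (P : Subgroup G) IsCharacter.one
  obtain ⟨e, he, -, -⟩ := exists_mult_over φ.2
  obtain ⟨g, hg⟩ := hconj
  have hg' : conjChar g φ.1 = fun n => conj (φ.1 n) := funext fun n => hg n _ rfl
  have hsum : ∑ χ, a χ * e χ = u := by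
    have h1 : (fun n : N => indFun (P : Subgroup G) (fun _ => 1) n) =
        ∑ χ : IrrCharacter G, a χ • fun n : N => χ.1 n := by
      funext n; rw [hπ, Finset.sum_apply, Finset.sum_apply]; rfl
    rw [h1, classInner_sum_left] at hu'
    simp only [classInner_nsmul_left, he] at hu'
    exact_mod_cast hu'
  let σ : IrrCharacter G → IrrCharacter G := fun χ => ⟨_, χ.2.complexConj⟩
  obtain ⟨χ, -, hχ, hodd⟩ := RC.exists_fixed_odd Finset.univ σ
    (fun χ => Subtype.ext (funext fun g => Complex.conj_conj _)) (fun _ _ => Finset.mem_univ _)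
    (fun χ => a χ * e χ) (fun χ => by
      have h1 : (a (σ χ) : ℂ) = a χ := by
        rw [← ha, ← Complex.conj_natCast, ← ha, ← classInner_conj_conj]
        simp [σ]
      have h2 : (e (σ χ) : ℂ) = e χ := by
        rw [← he, ← Complex.conj_natCast, ← he, ← classInner_conj_conj, ← hg',
          classInner_res_conjChar χ.2.complexConj.isClassFunction]
      rw [Nat.cast_injective h1, Nat.cast_injective h2]) (hsum ▸ hu)
  have hr : ∀ g, (χ.1 g).im = 0 := RC.real_iff_conj.2 (congrArg Subtype.val hχ)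
  rw [Nat.odd_mul] at hodd
  refine ⟨χ, RC.fsInd_eq_one_of_odd_fixed χ.2 hr (P : Subgroup G).subtype (ha χ) hodd.1, ?_⟩
  have he0 : e χ ≠ 0 := by rintro h; rw [h] at hodd; exact absurd hodd.2 (by decide)
  obtain ⟨d, hd, hd'⟩ := exists_degree_eq_mul φ.2 χ.2 (by rw [he]; exact_mod_cast he0)
  have h3 := RC.charDegree_eq_of_under χ.2 φ.2 (he χ) he0
  have h4 : charDegree χ.1 = d * charDegree φ.1 := by
    rw [← χ.2.coe_charDegree, ← φ.2.coe_charDegree] at hd'
    exact_mod_cast hd'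
  obtain ⟨k, hk⟩ := h2.exists_card_eq
  have h5 : e χ = 1 := by
    refine RC.eq_one_of_dvd_pow_of_not_dvd Nat.prime_two (k := k) ?_ hodd.2.not_two_dvd_nat
    rw [← hk]
    refine dvd_trans ⟨(inertia N φ.1).index, ?_⟩ hd
    exact Nat.eq_of_mul_eq_mul_right φ.2.charDegree_pos (h4.symm.trans h3)
  have h6 := he χ
  rw [h5, Nat.cast_one] at h6
  exact h6

end Cfsg.Agent.S4872
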