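import Mathlib
import Cfsg.Statements.S4873
import Cfsg.Agent.Ch.RealChar

set_option autoImplicit false
open Cfsg

namespace Cfsg.Agent.S4873

/-- Let N be a normal subgroup of odd index in the finite group G. Then every irreducible complex character of N with Frobenius–Schur indicator +1 lies under exactly one irreducible character of G with Frobenius–Schur indicator +1. -/
theorem result {G : Type*} [Group G] [Finite G] (N : Subgroup G) [N.Normal] (hodd : Odd N.index) (φ : Cfsg.IrrCharacter ↥N) (hφ : (Nat.card ↥N : ℂ)⁻¹ * ∑ᶠ g : ↥N, (φ : ↥N → ℂ) (g * g) = 1) : ∃! χ : Cfsg.IrrCharacter G, (Nat.card G : ℂ)⁻¹ * ∑ᶠ g : G, (χ : G → ℂ) (g * g) = 1 ∧ (∑ᶠ n : ↥N, (χ : G → ℂ) n * (starRingEnd ℂ) ((φ : ↥N → ℂ) n)) ≠ 0 := by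
  have := Fintype.ofFinite G
  have := Fintype.ofFinite N
  simp only [finsum_eq_sum_of_fintype] at hφ ⊢
  have hφ1 : Ch.fsInd (φ : N → ℂ) = 1 := hφ
  have hr : ∀ n, ((φ : N → ℂ) n).im = 0 :=
    (Ch.fsInd_ne_zero_iff φ.2).1 (by rw [hφ1]; exact one_ne_zero)
  have hiff : ∀ χ : IrrCharacter G,
      (∑ n : N, (χ : G → ℂ) n * (starRingEnd ℂ) ((φ : N → ℂ) n)) ≠ 0 ↔
        classInner (fun n : N => (χ : G → ℂ) n) φ ≠ 0 := by
    intro χ
    rw [← Ch.card_mul_classInner (fun n : N => (χ : G → ℂ) n), mul_ne_zero_iff]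
    exact ⟨fun h => h.2, fun h => ⟨Ch.natCard_ne_zero N, h⟩⟩
  obtain ⟨χ, ⟨h1, h2⟩, hu⟩ := Ch.RC.existsUnique_real_over hodd φ.2 hr
  refine ⟨χ, ⟨?_, (hiff χ).2 h1⟩, fun ψ hψ => hu ψ ⟨(hiff ψ).1 hψ.2, ?_⟩⟩
  · exact (Ch.RC.fsInd_eq_of_real_over hodd χ.2 h2 φ.2 h1).2.trans hφ1
  · have h3 : Ch.fsInd (ψ : G → ℂ) = 1 := hψ.1
    exact (Ch.fsInd_ne_zero_iff ψ.2).1 (by rw [h3]; exact one_ne_zero)

end Cfsg.Agent.S4873
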