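import Mathlib
import Cfsg.Statements.S4888
import Cfsg.Agent.Blk.PB0
import Cfsg.Agent.Blk.Contrib
import Cfsg.Agent.Ch.DegThompson
import Cfsg.Agent.Ch.RealChar2
import Cfsg.Agent.Deg.Basic
import Cfsg.Agent.GT.TransferPNilp

set_option autoImplicit false
open Cfsg

namespace Cfsg.Agent.S4888

open Cfsg.Agent.Ch Cfsg.Agent.Blk

theorem height_iff {G : Type*} [Group G] [Finite G] {p : ℕ} {M : Ideal AlgInt}
    (hM : IsPModular p M) (χ : IrrCharacter G) :
    blockHeight p (principalBlock M G) χ.1 = 0 ↔ ¬ p ∣ charDegree χ.1 := by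
  have := hM.isMaximal
  have h : Om.minVal p (principalBlock M G) = 0 :=
    Nat.le_zero.1 ((Om.minVal_le Om.irrOne_mem_principal).trans (by simp))
  rw [Om.blockHeight_eq, h, Nat.sub_zero, Nat.factorization_eq_zero_iff]
  simp [hM.prime, χ.2.charDegree_pos.ne']

theorem dvd_sum_sq {G : Type*} [Group G] [Finite G] {p : ℕ} {M : Ideal AlgInt}
    (hM : IsPModular p M) (hd : p ∣ Nat.card G) : p ∣ ∑ χ ∈ PB.pb M G, charDegree χ.1 ^ 2 := by
  have := hM.isMaximal
  have := Fact.mk hM.prime
  obtain ⟨x, hx⟩ := exists_prime_orderOf_dvd_card' (G := G) p hd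
  have h0 := PB.sum_mul_eq_zero_of_regular (G := G) hM (g := 1) (h := x)
    (by rw [orderOf_one]; exact hM.prime.not_dvd_one) (by rw [hx])
  have h1 : MemLocalIdeal M (∑ χ ∈ PB.pb M G, χ.1 1 * (χ.1 x - χ.1 1)) :=
    MemLocalIdeal.sum fun χ _ => MemLocalIdeal.mul_left
      (.of_isIntegral (χ.2.isCharacter.isIntegral 1))
      (PB.apply_sub_mem hM χ.2.isCharacter ⟨1, by rw [hx, pow_one]⟩)
  simp_rw [mul_sub] at h1
  rw [Finset.sum_sub_distrib, h0, zero_sub] at h1
  rw [← hM.natCast_mem_iff]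
  simpa [IsIrrCharacter.coe_charDegree (Subtype.property _), sq] using h1.neg

theorem linIrr_mem_iff {G : Type*} [Group G] [Finite G] {M : Ideal AlgInt} (f : G →* ℂˣ) :
    linIrr f ∈ principalBlock M G ↔ ∀ g,
      MemLocalIdeal M (((Subgroup.centralizer ({g} : Set G)).index : ℂ) * (1 - f g)) := by
  refine forall_congr' fun g => ?_
  simp [centralChar, mul_sub]

/-- Let G be a finite group, p a prime and M a maximal ideal of the algebraic integers containing p. Then all height-zero irreducible characters of the principal p-block of G (equivalently, all its characters of degree prime to p) have the same degree if and only if G has a normal p-complement. -/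
theorem result {G : Type*} [Group G] [Finite G] (p : ℕ) [Fact p.Prime] (M : Ideal Cfsg.AlgInt) (hM : Cfsg.IsPModular p M) : (∃ d : ℕ, ∀ χ : Cfsg.IrrCharacter G, χ ∈ (Cfsg.principalBlock M G) → Cfsg.blockHeight p (Cfsg.principalBlock M G) (χ : G → ℂ) = 0 → Cfsg.charDegree (χ : G → ℂ) = d) ↔ Cfsg.HasNormalPComplement p G := by
  classical
  have := hM.isMaximal
  have hp := hM.prime
  obtain ⟨k, hk⟩ := GT.exists_index_pResidual (G := G) hp
  constructor
  swap
  · intro hnc
    refine ⟨1, fun χ hχ h0 => ?_⟩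
    refine RC.eq_one_of_dvd_pow_of_not_dvd hp (k := k) ?_ ((height_iff hM χ).1 h0)
    rw [← hk]
    exact (Deg.charDegree_dvd_index_charKer χ.2).trans (Subgroup.index_dvd_of_le
      ((PB.mem_principal_iff_of_nc hM hnc χ).mp hχ))
  rintro ⟨d, hd⟩
  have hd1 : d = 1 := by
    rw [← hd (irrOne G) Om.irrOne_mem_principal (Om.blockHeight_one _)]; simp
  rw [GT.Tr.hasNormalPComplement_iff_not_dvd_card_pResidual]
  set N := pResidual p G with hN
  have hNN : pResidual p N = ⊤ := GT.pResidual_pResidual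
  have hint : ∀ (f : N →* ℂˣ) (n : N), MemLocalRing M (f n : ℂ) := fun f n =>
    .of_isIntegral ((isCharacter_monoidHom_units f).isIntegral n)
  let L : Subgroup (N →* ℂˣ) :=
    { carrier := {f | (∀ g : G, conjChar g (fun n => (f n : ℂ)) = fun n => (f n : ℂ)) ∧
        linIrr f ∈ principalBlock M N}
      one_mem' := ⟨fun g => rfl, Om.irrOne_mem_principal⟩
      mul_mem' := fun {a b} ha hb => ⟨fun g => funext fun n => by
        have h1 := congrFun (ha.1 g) n
        have h2 := congrFun (hb.1 g) n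
        simp only [conjChar_apply, MonoidHom.mul_apply, Units.val_mul] at h1 h2 ⊢
        rw [h1, h2], (linIrr_mem_iff _).2 fun n => by
          convert (((linIrr_mem_iff _).1 ha.2 n).mul_right (hint b n)).add
            ((linIrr_mem_iff _).1 hb.2 n) using 1
          simp only [MonoidHom.mul_apply, Units.val_mul]; ring⟩
      inv_mem' := fun {a} ha => ⟨fun g => funext fun n => by
        have h1 := congrFun (ha.1 g) n
        simp only [conjChar_apply, MonoidHom.inv_apply, Units.val_inv_eq_inv_val] at h1 ⊢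
        rw [h1], (linIrr_mem_iff _).2 fun n => by
          convert (((linIrr_mem_iff _).1 ha.2 n).mul_right (hint a⁻¹ n)).neg using 1
          simp only [MonoidHom.inv_apply, Units.val_inv_eq_inv_val]
          field_simp
          ring⟩ }
  let P : IrrCharacter N → Prop := fun θ =>
    (∀ g : G, conjChar g (θ : N → ℂ) = θ) ∧ ¬ p ∣ charDegree (θ : N → ℂ)
  have hlin : ∀ θ ∈ PB.pb M N, P θ → (θ : N → ℂ) 1 = 1 := by
    rintro θ hθ ⟨h1, h2⟩
    obtain ⟨f, hf⟩ := θ.isCharacter.exists_detHom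
    obtain ⟨χ, hχ, he⟩ := extends_of_coprime θ.2 (invariant_iff_conjChar.2 h1) (by
      rw [hk, θ.isCharacter.detOrder_eq hf]
      refine Nat.Coprime.pow_left _ ((Nat.Prime.coprime_iff_not_dvd hp).2 fun h => ?_)
      exact ((Nat.Prime.dvd_mul hp).1 h).elim (degT_not_dvd_orderOf_hom hp hNN f) h2)
    rw [← θ.isCharacter.charDegree_eq_one_iff, ← charDegree_of_extends he, ← hd1]
    exact hd ⟨χ, hχ⟩ ((P0.mem_iff_of_extends hM ⟨k, hk⟩ (χ := ⟨χ, hχ⟩) he).2 (PB.mem_pb.1 hθ))
      ((height_iff hM ⟨χ, hχ⟩).2 (by rwa [charDegree_of_extends he]))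
  have h1 : ∑ θ ∈ PB.pb M N with P θ, charDegree (θ : N → ℂ) ^ 2 = Nat.card L := by
    rw [Finset.sum_congr rfl (g := fun _ => 1) (fun θ hθ => by
      rw [θ.isCharacter.charDegree_eq_one_iff.2
        (hlin θ (Finset.mem_filter.1 hθ).1 (Finset.mem_filter.1 hθ).2), one_pow]),
      Finset.sum_const, smul_eq_mul, mul_one, ← Nat.card_eq_finsetCard]
    symm
    refine Nat.card_eq_of_bijective (fun f => ⟨linIrr f.1, Finset.mem_filter.2
      ⟨PB.mem_pb.2 f.2.2, f.2.1, ?_⟩⟩) ⟨fun a b hab => Subtype.ext (linIrr_injective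
        (congrArg Subtype.val hab)), fun ⟨θ, hθ⟩ => ?_⟩
    · rw [(linIrr f.1).isCharacter.charDegree_eq_one_iff.2 (by simp)]
      exact hp.not_dvd_one
    · have h := Finset.mem_filter.1 hθ
      obtain ⟨f, rfl⟩ := mem_range_linIrr_iff.2 (hlin θ h.1 h.2)
      exact ⟨⟨f, h.2.1, PB.mem_pb.1 h.1⟩, rfl⟩
  have h2 : p ∣ ∑ θ ∈ PB.pb M N with ¬ P θ, charDegree (θ : N → ℂ) ^ 2 := by
    refine degT_dvd_sum_of_orbits _ (fun θ hθ g ψ hψ => ?_)
      (fun θ => charDegree θ ^ 2) (fun θ g => by
        rw [charDegree_congr (conjChar_apply_one g θ)]) fun θ hθ => ?_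
    · rw [Finset.mem_filter] at hθ ⊢
      refine ⟨PB.mem_pb.2 ((P0.mem_conjChar_iff hM g hψ).2 (PB.mem_pb.1 hθ.1)),
        fun h => hθ.2 ?_⟩
      have : ψ = θ := Subtype.ext (by
        have := h.1 g⁻¹
        rw [hψ, conjChar_inv_conjChar] at this
        exact hψ.trans this.symm)
      exact this ▸ h
    · have h : ¬ P θ := (Finset.mem_filter.1 hθ).2
      by_cases hd : p ∣ charDegree (θ : N → ℂ)
      · exact (hd.trans (dvd_pow_self _ two_ne_zero)).mul_left _
      · have h3 : inertia N (θ : N → ℂ) ≠ ⊤ := fun h3 => h ⟨inertia_eq_top_iff.1 h3, hd⟩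
        refine Dvd.dvd.mul_right ?_ _
        by_contra h4
        exact h3 (Subgroup.index_eq_one.1 (RC.eq_one_of_dvd_pow_of_not_dvd hp
          (hk ▸ Subgroup.index_dvd_of_le (le_inertia θ.isClassFunction)) h4))
  intro hd
  have h3 := dvd_sum_sq hM hd
  rw [← Finset.sum_filter_add_sum_filter_not _ P, h1] at h3
  exact degT_not_dvd_card_hom hp hNN L ((Nat.dvd_add_left h2).1 h3)

end Cfsg.Agent.S4888
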