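import Mathlib
import Cfsg.Statements.S4889
import Cfsg.Agent.Blk.OkTs

set_option autoImplicit false
open Cfsg

namespace Cfsg.Agent.S4889

open Cfsg.Agent.Blk Cfsg.Agent.Blk.Mod Cfsg.Agent.Blk.PD Cfsg.Agent.GT Cfsg.Agent.Ch

/-- Let G be a finite group, p a prime, M a maximal ideal of the algebraic integers containing p, and B a p-block of G that has an abelian defect group and in which every irreducible character has height zero. Then all irreducible characters of B have the same degree if and only if B is a nilpotent block. -/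
theorem result {G : Type*} [Group G] [Finite G] (p : ℕ) [Fact p.Prime] (M : Ideal Cfsg.AlgInt) (hM : Cfsg.IsPModular p M) (B : Set (Cfsg.IrrCharacter G)) (hB : Cfsg.IsPBlock M B) (D : Subgroup G) (hD : Cfsg.IsDefectGroup p M B D) (hDab : IsMulCommutative ↥D) (h0 : ∀ χ : Cfsg.IrrCharacter G, χ ∈ B → Cfsg.blockHeight p B (χ : G → ℂ) = 0) : (∃ d : ℕ, ∀ χ : Cfsg.IrrCharacter G, χ ∈ B → Cfsg.charDegree (χ : G → ℂ) = d) ↔ Cfsg.IsNilpotentBlock p M B := by
---
  haveI := hM.isMaximal; haveI := hM.charP; haveI := Fintype.ofFinite G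
  refine ⟨fun ⟨d, hd⟩ => ?_, fun h => ?_⟩
  · obtain ⟨e, he⟩ := Ab.exists_absOf hM hB hD fun x hx y hy =>
      congrArg Subtype.val (hDab.is_comm.comm ⟨x, hx⟩ ⟨y, hy⟩)
    exact OT.isNilp he hd
  · obtain ⟨d, hd⟩ := OT.degree_eq_of_nilp hM h
    exact ⟨d, fun χ hχ => hd χ hχ (h0 χ hχ)⟩

end Cfsg.Agent.S4889
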