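import Mathlib
import Cfsg.Statements.S4892
import Cfsg.Agent.Blk.StrongExt
import Cfsg.Agent.Ch.GaloisFix
import Cfsg.Agent.Ch.RealChar2
import Cfsg.Agent.Ch.GlaubBase

set_option autoImplicit false
open Cfsg

namespace Cfsg.Agent.S4892

open Cfsg.Agent.Ch Cfsg.Agent.Blk

theorem mem_of_pow_mem {G : Type*} [Group G] {p a n : ℕ} (hp : p.Prime) {L : Subgroup G} [L.Normal]
    (hL : L.index = p ^ a) (hn : ¬ p ∣ n) {u : G} (hu : u ^ n ∈ L) : u ∈ L := by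
  rw [← QuotientGroup.eq_one_iff, ← orderOf_eq_one_iff]
  refine RC.eq_one_of_dvd_pow_of_not_dvd hp (k := a) (hL ▸ orderOf_dvd_natCard _) fun h => hn
    (h.trans (orderOf_dvd_of_pow_eq_one ?_))
  rwa [← QuotientGroup.mk_pow, QuotientGroup.eq_one_iff]

theorem not_dvd_detOrder {N : Type*} [Group N] [Finite N] {p m : ℕ} (hp : p.Prime) (hp2 : p ≠ 2)
    (hm : ¬ p ∣ m) {θ : N → ℂ} (hθ : IsCharacter N θ)
    (h : ∀ σ : ℂ ≃+* ℂ, (∀ ζ : ℂ, ζ ^ m = 1 → σ ζ = ζ) → ∀ n, σ (θ n) = θ n) : ¬ p ∣ detOrder θ := by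
  obtain ⟨f, hf⟩ := hθ.exists_detHom
  rw [hθ.detOrder_eq hf]
  rintro ⟨c, hc⟩
  obtain ⟨σ, h1, h2⟩ := galois_exists_pow_fix hp.ne_zero (b := m) (fun h => hm (h ▸ dvd_zero p))
    (hp.coprime_iff_not_dvd.mpr hm) (k := 2) ((Nat.coprime_primes Nat.prime_two hp).mpr hp2.symm)
  have h3 : ∀ n, σ (f n) = f n := fun n => by
    have := Glb.detChar_galois hθ (σ : ℂ →+* ℂ) n
    simp only [RingHom.coe_coe, h σ h2, hf] at this
    exact this.symm
  have h0 : orderOf f ≠ 0 := hθ.detOrder_eq hf ▸ hθ.detOrder_pos.ne'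
  have h4 : f ^ c = 1 := MonoidHom.ext fun n => Units.ext (by
    have h5 := h1 ((f n : ℂ) ^ c) (by
      rw [← pow_mul, mul_comm, ← hc, ← Units.val_pow_eq_pow_val, hom_apply_pow_orderOf,
        Units.val_one])
    rw [map_pow, h3, sq, eq_comm, mul_eq_left₀ (pow_ne_zero _ (f n).ne_zero)] at h5
    simpa using h5)
  have h6 : 0 < c := Nat.pos_of_ne_zero fun h => h0 (by rw [hc, h, mul_zero])
  have h5 := Nat.le_of_dvd h6 (orderOf_dvd_of_pow_eq_one (x := f) (n := c) h4)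
  have := hp.two_le
  nlinarith

theorem exists_rel {G : Type*} [Group G] [Finite G] {p : ℕ} {M : Ideal AlgInt} (hM : IsPModular p M)
    {N Q J : Subgroup G} [N.Normal] (hQN : Q ≤ N) (hQ : ¬ p ∣ Q.relIndex N) (hNJ : N ≤ J)
    (hJ : J ≤ N ⊔ Subgroup.centralizer (Q : Set G)) (hidx : ¬ p ∣ N.relIndex J)
    {θ : IrrCharacter N} (hθ : θ ∈ principalBlock M N) :
    ∃ ξ : IrrCharacter J, (∀ n : N, (ξ : J → ℂ) ⟨n, hNJ n.2⟩ = (θ : N → ℂ) n) ∧
      ∀ ψ ∈ principalBlock M J, (∀ n : N, (ψ : J → ℂ) ⟨n, hNJ n.2⟩ = (θ : N → ℂ) n) → ψ = ξ := by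
  have := Fintype.ofFinite (N.subgroupOf J)
  let θ' : IrrCharacter (N.subgroupOf J) := ⟨_, isIrrCharacter_subgroupOf hNJ θ.2⟩
  obtain ⟨ξ, -, h1, h2⟩ := AD.exists_extends hM (N := N.subgroupOf J) hidx (P := Q.subgroupOf J)
    (fun h => by
      rw [← Subgroup.relIndex, ← Subgroup.relIndex_mul_relIndex Q N J hQN hNJ] at h
      exact (hM.prime.dvd_mul.mp h).elim hQ hidx) (fun _ h => hQN h) (by
      rw [eq_top_iff]
      intro x _
      obtain ⟨n, hn, c, hc, h⟩ := Subgroup.mem_sup_of_normal_left.mp (hJ x.2)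
      have hcJ : c ∈ J := by
        have := mul_mem (inv_mem (hNJ hn)) x.2
        rwa [← h, inv_mul_cancel_left] at this
      rw [show x = ⟨n, hNJ hn⟩ * ⟨c, hcJ⟩ from Subtype.ext h.symm]
      exact mul_mem (Subgroup.mem_sup_left hn)
        (Subgroup.mem_sup_right fun y hy => Subtype.ext (hc y hy)))
    (θ := θ') ((P0.mem_iff_of_mulEquiv hM (Subgroup.subgroupOfEquivOfLe hNJ) fun _ => rfl).mpr hθ)
  refine ⟨ξ, fun n => h1 ⟨⟨n, hNJ n.2⟩, n.2⟩, fun ψ hψ h => h2 ψ hψ ?_⟩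
  rw [show (fun n : N.subgroupOf J => (ψ : J → ℂ) n) = θ' from funext fun n => h ⟨n, n.2⟩,
    θ'.2.classInner_self]
  exact one_ne_zero

theorem exists_normalize {G : Type*} [Group G] [Finite G] {p d : ℕ} (hp : p.Prime) (hd : ¬ p ∣ d)
    (δ : G →* ℂˣ) : ∃ t b o : ℕ, ¬ p ∣ o ∧ (∀ x, (δ x ^ t) ^ p ^ b = 1) ∧
      (∀ x, ((δ x ^ t) ^ d * δ x) ^ o = 1) ∧ ∀ x, ¬ p ∣ orderOf (δ x) → δ x ^ t = 1 := by
  obtain ⟨b, o, ho, hb⟩ := Nat.exists_eq_pow_mul_and_not_dvd (Nat.card_pos (α := G)).ne' p hp.ne_one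
  have h1 : ∀ x, orderOf (δ x) ∣ p ^ b * o := fun x =>
    hb ▸ (orderOf_map_dvd δ x).trans (orderOf_dvd_natCard x)
  have hcop : (o * d).Coprime (p ^ b) := Nat.Coprime.pow_right _
    (hp.coprime_iff_not_dvd.mpr fun h => (hp.dvd_mul.mp h).elim ho hd).symm
  obtain ⟨u, hu⟩ : ∃ u, p ^ b ∣ o * u * d + 1 := by
    have : NeZero (p ^ b) := ⟨pow_ne_zero _ hp.ne_zero⟩
    refine ⟨(-(ZMod.unitOfCoprime _ hcop)⁻¹ : (ZMod (p ^ b))ˣ).val.val, ?_⟩
    rw [← ZMod.natCast_eq_zero_iff, mul_right_comm, Nat.cast_add, Nat.cast_mul, ZMod.natCast_val,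
      ZMod.cast_id, ← ZMod.coe_unitOfCoprime _ hcop, Units.val_neg, mul_neg, Units.mul_inv]
    simp
  refine ⟨o * u, b, o, ho, fun x => ?_, fun x => ?_, fun x hx => ?_⟩
  · rw [← pow_mul, ← orderOf_dvd_iff_pow_eq_one]
    exact (h1 x).trans ⟨u, by ring⟩
  · rw [← pow_mul, ← pow_succ, ← pow_mul, ← orderOf_dvd_iff_pow_eq_one]
    exact (h1 x).trans (Nat.mul_dvd_mul_right hu o)
  · rw [← orderOf_dvd_iff_pow_eq_one]
    exact ((Nat.Coprime.pow_right b (hp.coprime_iff_not_dvd.mpr hx).symm).dvd_of_dvd_mul_left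
      (h1 x)).mul_right u

/-- Let p be an odd prime, M a maximal ideal of the algebraic integers containing p, N a normal subgroup of the finite group G, and θ an irreducible character of N that is G-invariant, of degree prime to p, p-rational (values in the field generated over ℚ by a root of unity of order prime to p) and lies in the principal p-block of N. Let Q be a Sylow p-subgroup of N and suppose the index of N·C_G(Q) in G is a power of p. Then θ extends to a p-rational irreducible character of G lying in the principal p-block of G. -/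
theorem result {G : Type*} [Group G] [Finite G] (p : ℕ) [Fact p.Prime] (hp : p ≠ 2) (M : Ideal Cfsg.AlgInt) (hM : Cfsg.IsPModular p M) (N : Subgroup G) [N.Normal] (θ : Cfsg.IrrCharacter ↥N) (hinv : ∀ g : G, ∀ n n' : ↥N, (n' : G) = g * (n : G) * g⁻¹ → (θ : ↥N → ℂ) n' = (θ : ↥N → ℂ) n) (hdeg : ¬ p ∣ Cfsg.charDegree (θ : ↥N → ℂ)) (hrat : ∃ m : ℕ, ¬ p ∣ m ∧ ∀ n : ↥N, (θ : ↥N → ℂ) n ∈ IntermediateField.adjoin ℚ ({Complex.exp (2 * Real.pi * Complex.I / m)} : Set ℂ)) (hB : θ ∈ Cfsg.principalBlock M ↥N) (Q : Sylow p ↥N) (hidx : ∃ a : ℕ, (N ⊔ Subgroup.centralizer (((Q : Subgroup ↥N).map N.subtype : Subgroup G) : Set G)).index = p ^ a) : ∃ χ : Cfsg.IrrCharacter G, χ ∈ (Cfsg.principalBlock M G) ∧ (∃ n : ℕ, ¬ p ∣ n ∧ ∀ g : G, (χ : G → ℂ) g ∈ IntermediateField.adjoin ℚ ({Complex.exp (2 * Real.pi * Complex.I / n)} : Set ℂ)) ∧ ∀ n : ↥N, (χ : G → ℂ) n = (θ : ↥N → ℂ) n := by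
  have := hM.isMaximal
  have hpp : p.Prime := Fact.out
  obtain ⟨m, hm, hrat⟩ := hrat
  obtain ⟨a, ha⟩ := hidx
  have hm0 : m ≠ 0 := fun h => hm (h ▸ dvd_zero p)
  have hfr := Q.normalizer_sup_eq_top
  have hQ : ¬ p ∣ ((Q : Subgroup N).map N.subtype).relIndex N := by
    rw [Subgroup.relIndex, Subgroup.subgroupOf, Subgroup.comap_map_eq_self_of_injective
      N.subtype_injective]
    exact Q.not_dvd_index
  have hQN : (Q : Subgroup N).map N.subtype ≤ N := Subgroup.map_subtype_le _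
  generalize (Q : Subgroup N).map N.subtype = Q' at *
  set L := N ⊔ Subgroup.centralizer (Q' : Set G) with hL
  have hLn : L.Normal := by
    rw [← Subgroup.normalizer_eq_top_iff, eq_top_iff, ← hfr]
    refine sup_le (fun x hx => Subgroup.normalizer_inf_normalizer_le_normalizer_sup _ _
      ⟨by rw [Subgroup.normalizer_eq_top]; trivial, Subgroup.mem_normalizer_fintype
        fun c hc y hy => ?_⟩) (le_sup_left.trans Subgroup.le_normalizer)
    have h1 := hc _ ((Subgroup.mem_normalizer_iff.mp (inv_mem hx) y).mp hy)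
    calc y * (x * c * x⁻¹) = x * (x⁻¹ * y * x⁻¹⁻¹ * c) * x⁻¹ := by group
      _ = _ := by rw [h1]; group
  have hθσ : ∀ σ : ℂ ≃+* ℂ, (∀ ζ : ℂ, ζ ^ m = 1 → σ ζ = ζ) → ∀ n, σ (θ.1 n) = θ.1 n :=
    fun σ hσ n => galois_fix_of_mem_cyclotomic hm0 (hrat n) σ hσ
  have hdet := not_dvd_detOrder hpp hp hm θ.2.isCharacter hθσ
  obtain ⟨ψ, hψ, hext⟩ := extends_of_primes θ.2 (fun g n => hinv g n _ rfl) fun r hr _ hrd => by
    have := Fact.mk hr
    have hrp : ¬ p ∣ r := fun h => by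
      rw [← (Nat.prime_dvd_prime_iff_eq hpp hr).mp h] at hrd
      exact (hpp.dvd_mul.mp hrd).elim hdet hdeg
    obtain ⟨R⟩ : Nonempty (Sylow r G) := inferInstance
    obtain ⟨k, hk⟩ := IsPGroup.iff_card.mp R.2
    have hR : ¬ p ∣ Nat.card R := fun h => hrp (hpp.dvd_of_dvd_pow (hk ▸ h))
    obtain ⟨ξ, h1, -⟩ := exists_rel hM hQN hQ (J := N ⊔ R) le_sup_left
      (sup_le le_sup_left fun x hx => mem_of_pow_mem hpp ha hR (by
        rw [show x ^ Nat.card R = 1 from congrArg Subtype.val (pow_card_eq_one' (G := R)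
          (x := ⟨x, hx⟩))]
        exact one_mem _))
      (by rw [Subgroup.relIndex_sup_left]; exact fun h => hR (h.trans (Subgroup.relIndex_dvd_card _ _)))
      hB
    exact ⟨N ⊔ R, le_sup_left, ξ, fun h => R.not_dvd_index (h.trans
      (Subgroup.index_dvd_of_le le_sup_right)), ξ.2.isCharacter, h1⟩
  obtain ⟨l, hl, h1, h2, h3⟩ := SE.exists_hom hM (L := L) hQ le_rfl hB hψ.isCharacter hext
  obtain ⟨μ, hμ, -⟩ := exists_hom_extends_of_coprime l (fun g n => h2 g n _ rfl)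
    (ha ▸ (hpp.coprime_iff_not_dvd.mpr hl).pow_left a)
  have hμN : ∀ n ∈ N, μ n = 1 := fun n hn => (hμ ⟨n, Subgroup.mem_sup_left hn⟩).trans (h1 _ hn)
  have h4 := SE.strong_of_hom (L := L) hB hψ.isCharacter hext hμN fun x hx => by
    rw [hμ ⟨x, hx⟩]; exact h3 ⟨x, hx⟩
  have hχ₁ := hψ.monoidHom_mul μ⁻¹
  have hext₁ : ∀ n : N, (fun g => (μ⁻¹ g : ℂ) * ψ g) n = θ.1 n := fun n => by
    simp [hμN n n.2, hext]
  generalize (fun g => (μ⁻¹ g : ℂ) * ψ g) = χ₁ at h4 hχ₁ hext₁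
  obtain ⟨δ, hδ⟩ := hχ₁.isCharacter.exists_detHom
  obtain ⟨t, b, e, he, h5, h6, h7⟩ := exists_normalize hpp hdeg δ
  have hν : ∀ n ∈ N, (δ ^ t) n = 1 := fun n hn => h7 n fun h => hdet (h.trans (by
    rw [orderOf_dvd_iff_pow_eq_one, Units.ext_iff, Units.val_pow_eq_pow_val,
      ← congrFun hδ n, detChar_of_extends hχ₁.isCharacter hext₁ ⟨n, hn⟩]
    exact IsCharacter.detChar_pow_detOrder _ _))
  let χ : IrrCharacter G := ⟨_, hχ₁.monoidHom_mul (δ ^ t)⟩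
  have hχ : ∀ n : N, (χ : G → ℂ) n = θ.1 n := fun n => by simp only [χ, hν n n.2, hext₁]; simp
  have hχδ : ∀ g, detChar (χ : G → ℂ) g =
      (((δ g ^ t) ^ charDegree (θ : N → ℂ) * δ g : ℂˣ) : ℂ) := by
    intro g
    simp only [χ]
    rw [hχ₁.isCharacter.detChar_hom_mul, hδ, charDegree_of_extends hext₁]
    simp
  have hirr : ∀ (J : Subgroup G) (φ : G → ℂ), IsCharacter G φ → (∀ n : N, φ n = θ.1 n) → N ≤ J →
      IsIrrCharacter J fun y : J => φ y := fun J φ hφ h hJ =>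
    IsIrrCharacter.of_comp (f := Subgroup.inclusion hJ) (hφ.restrict J) (by
      simpa only [Subgroup.coe_inclusion, h] using θ.2)
  have key : ∀ (J : Subgroup G) (hJ : N ≤ J), J ≤ L →
      (⟨_, hirr J χ χ.2.isCharacter hχ hJ⟩ : IrrCharacter J) ∈ principalBlock M J := by
    intro J hJ hJL
    refine (P0.mem_iff_of_regular_eq hM (χ := ⟨_, hirr J χ₁ hχ₁.isCharacter hext₁ hJ⟩)
      fun y hy => ?_).mpr (h4.mem hB hχ₁.isCharacter hext₁ hJ hJL fun _ => rfl)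
    have h8 : (δ ^ t) y = 1 := by
      rw [← orderOf_eq_one_iff]
      refine RC.eq_one_of_dvd_pow_of_not_dvd hpp (k := b) (orderOf_dvd_of_pow_eq_one (h5 y))
        fun h => hy (h.trans ?_)
      rw [← Subgroup.orderOf_coe]; exact orderOf_map_dvd _ _
    simp only [χ, h8]; simp
  refine ⟨χ, (P0.mem_iff_of_extends hM ⟨a, ha⟩ fun _ => rfl).mpr (key L le_sup_left le_rfl),
    ⟨m * e, fun h => (hpp.dvd_mul.mp h).elim hm he, fun g => ?_⟩, hχ⟩
  refine galois_mem_cyclotomic (mul_ne_zero hm0 fun (h : e = 0) => he (h ▸ dvd_zero p))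
    (χ.2.isCharacter.isIntegral g).tower_top fun σ hσ => ?_
  have h8 : ∀ n : N, σ ((χ : G → ℂ) n) = θ.1 n := fun n => by
    rw [hχ, hθσ σ fun ζ h => hσ ζ (by rw [pow_mul, h, one_pow])]
  have hσχ := χ.2.isCharacter.galois (σ : ℂ →+* ℂ)
  obtain ⟨β, h9, h10⟩ := exists_hom_mul_of_extends θ.2 χ.2.isCharacter hσχ hχ h8
  have h11 : (β g : ℂ) ^ charDegree (θ : N → ℂ) = 1 := by
    have h12 := Glb.detChar_galois χ.2.isCharacter (σ : ℂ →+* ℂ) g
    rw [h10, χ.2.isCharacter.detChar_hom_mul, charDegree_of_extends hχ, RingHom.coe_coe,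
      hσ _ (by rw [mul_comm, pow_mul, hχδ, ← Units.val_pow_eq_pow_val, h6, Units.val_one,
        one_pow])] at h12
    exact mul_eq_right₀ (by rw [hχδ]; exact Units.ne_zero _) |>.mp h12
  obtain ⟨c, o, ho, hc⟩ := Nat.exists_eq_pow_mul_and_not_dvd (orderOf_pos g).ne' p hpp.ne_one
  have hgo : (g ^ p ^ c) ^ o = 1 := by rw [← pow_mul, ← hc, pow_orderOf_eq_one]
  have hJL : N ⊔ Subgroup.zpowers (g ^ p ^ c) ≤ L := sup_le le_sup_left
    (Subgroup.zpowers_le.mpr (mem_of_pow_mem hpp ha ho (hgo ▸ one_mem _)))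
  obtain ⟨ξ, -, h12⟩ := exists_rel hM hQN hQ le_sup_left hJL (by
    rw [Subgroup.relIndex_sup_left]
    exact fun h => ho ((h.trans (Subgroup.relIndex_dvd_card _ _)).trans (by
      rw [Nat.card_zpowers]; exact orderOf_dvd_of_pow_eq_one hgo))) hB
  have h13 := (h12 ⟨_, hirr _ _ hσχ h8 le_sup_left⟩ ((P0.mem_iff_of_galois hM (σ : ℂ →+* ℂ)
    fun _ => rfl).mpr (key _ le_sup_left hJL)) h8).trans (h12 _ (key _ le_sup_left hJL) hχ).symm
  have := Fintype.ofFinite G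
  obtain ⟨n, hn, h14⟩ := exists_coset_ne_zero χ.2.isCharacter (funext hχ ▸ θ.2) (g ^ p ^ c)
  have h15 := congrFun (congrArg Subtype.val h13) ⟨n * g ^ p ^ c, mul_mem (Subgroup.mem_sup_left hn)
    (Subgroup.mem_sup_right (Subgroup.mem_zpowers _))⟩
  have h16 := (congrFun h10 (n * g ^ p ^ c)).symm.trans h15
  rw [mul_eq_right₀ h14, map_mul, h9 n hn, one_mul, map_pow, Units.val_pow_eq_pow_val] at h16
  have h17 : (β g : ℂ) = 1 := by
    rw [← orderOf_eq_one_iff]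
    exact RC.eq_one_of_dvd_pow_of_not_dvd hpp (orderOf_dvd_of_pow_eq_one h16)
      fun h => hdeg (h.trans (orderOf_dvd_of_pow_eq_one h11))
  have h18 := congrFun h10 g
  rwa [h17, one_mul] at h18

end Cfsg.Agent.S4892
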