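import Mathlib
import Cfsg.Statements.S4912
import Cfsg.Agent.Ch.RealChar3
import Cfsg.Agent.GT.MinNormal

set_option autoImplicit false
open Cfsg

namespace Cfsg.Agent.S4912

open Cfsg.Agent.Ch

/-- Let G be a finite group with a non-abelian minimal normal subgroup N, and let φ be an irreducible complex character of N with stabilizer I in G such that φ extends to an irreducible character of I with Frobenius–Schur indicator +1. Put d = φ(1)·[G : I]. Then the number of linear characters of G with Frobenius–Schur indicator +1 is at most [G : I] times the number of irreducible characters of G of degree d with Frobenius–Schur indicator +1. -/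
theorem result {G : Type*} [Group G] [Finite G] (N : Subgroup G) (hN : N.Normal) (hN1 : N ≠ ⊥) (hmin : ∀ M : Subgroup G, M.Normal → M ≤ N → M = ⊥ ∨ M = N) (hna : ¬ IsMulCommutative ↥N) (φ : Cfsg.IrrCharacter ↥N) (I : Subgroup G) (hI : ∀ g : G, g ∈ I ↔ ∀ n n' : ↥N, (n' : G) = g * (n : G) * g⁻¹ → (φ : ↥N → ℂ) n' = (φ : ↥N → ℂ) n) (hNI : N ≤ I) (hext : ∃ ψ : Cfsg.IrrCharacter ↥I, (Nat.card ↥I : ℂ)⁻¹ * ∑ᶠ g : ↥I, (ψ : ↥I → ℂ) (g * g) = 1 ∧ ∀ n : ↥N, (ψ : ↥I → ℂ) (Subgroup.inclusion hNI n) = (φ : ↥N → ℂ) n) : Nat.card {χ : Cfsg.IrrCharacter G // Cfsg.charDegree (χ : G → ℂ) = 1 ∧ (Nat.card G : ℂ)⁻¹ * ∑ᶠ g : G, (χ : G → ℂ) (g * g) = 1} ≤ I.index * Nat.card {χ : Cfsg.IrrCharacter G // Cfsg.charDegree (χ : G → ℂ) = Cfsg.charDegree (φ : ↥N → ℂ) * I.index ∧ (Nat.card G : ℂ)⁻¹ * ∑ᶠ g : G, (χ : G → ℂ) (g * g) = 1} := by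
  have := Fintype.ofFinite G
  have := Fintype.ofFinite I
  simp only [finsum_eq_sum_of_fintype] at hext ⊢
  obtain ⟨ψ, hψ1, hψ⟩ := hext
  replace hψ1 : fsInd (ψ : I → ℂ) = 1 := hψ1
  have hperf : ⁅N, N⁆ = N :=
    (GT.IsMinNormal.comm_or_perfect ⟨hN, hN1, hmin⟩).resolve_left hna
  obtain ⟨h1, h2⟩ := RC.indFun_hom_mul φ.2 (RC.eq_inertia_of_forall hI) hNI ψ.2 hψ
  have hl := RC.hom_eq_one_of_perfect hperf hNI
  have h3 : ∀ l : I →* ℂˣ, (∀ g, l (g * g) = 1) → fsInd (indFun I fun x => l x * ψ.1 x) = 1 := by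
    intro l h
    have h4 : fsInd (fun x => l x * ψ.1 x) = 1 := by rw [RC.fsInd_hom_mul _ h, hψ1]
    rw [RC.fsInd_indFun I (ψ.2.monoidHom_mul l) ((fsInd_ne_zero_iff (ψ.2.monoidHom_mul l)).1
      (by rw [h4]; exact one_ne_zero)) (h1 l (hl l)).1, h4]
  calc _ = Nat.card {f : G →* ℂˣ // ∀ g, f (g * g) = 1} := by
        refine (Nat.card_congr (Equiv.ofBijective
          (fun f => ⟨linIrr f.1, charDegree_of_apply_one (by simp),
            RC.fsInd_hom_eq_one_iff.2 f.2⟩) ⟨fun f g h => ?_, ?_⟩)).symm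
        · exact Subtype.ext (linIrr_injective (congrArg Subtype.val h))
        · rintro ⟨χ, hχ, hχ'⟩
          obtain ⟨f, rfl⟩ := mem_range_linIrr_iff.2 (χ.2.isCharacter.charDegree_eq_one_iff.1 hχ)
          exact ⟨⟨f, RC.fsInd_hom_eq_one_iff.1 hχ'⟩, rfl⟩
    _ ≤ I.index * Nat.card {f : I →* ℂˣ // ∀ g, f (g * g) = 1} :=
        RC.card_hom_le_index_mul I fun f hf g => hf g
    _ ≤ _ := by
        refine Nat.mul_le_mul_left _ (Nat.card_le_card_of_injective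
          (fun l => ⟨⟨_, (h1 l.1 (hl l.1)).1⟩, (h1 l.1 (hl l.1)).2, h3 l.1 l.2⟩) fun l l' h => ?_)
        exact Subtype.ext (h2 _ _ (hl _) (hl _) (congrArg (fun x => x.1.1) h))

end Cfsg.Agent.S4912
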