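import Mathlib
import Cfsg.Statements.S4916
import Cfsg.Agent.Blk.PB

set_option autoImplicit false
open Cfsg

namespace Cfsg.Agent.S4916

/-- Let G be a finite group, p a prime and M a maximal ideal of the algebraic integers containing p. Then the principal character is the only irreducible character of degree prime to p in the principal p-block of G if and only if p does not divide the order of G. -/
theorem result {G : Type*} [Group G] [Finite G] (p : ℕ) [Fact p.Prime] (M : Ideal Cfsg.AlgInt) (hM : Cfsg.IsPModular p M) : (∀ χ : Cfsg.IrrCharacter G, χ ∈ Cfsg.principalBlock M G → ¬ p ∣ Cfsg.charDegree (χ : G → ℂ) → (χ : G → ℂ) = fun _ => (1 : ℂ)) ↔ ¬ p ∣ Nat.card G := by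
  have := hM.isMaximal
  have := Fintype.ofFinite G
  constructor
  · intro h hd
    obtain ⟨x, hx⟩ := exists_prime_orderOf_dvd_card' (G := G) p hd
    have h0 := Blk.PB.sum_mul_eq_zero_of_regular (G := G) hM (g := 1) (h := x)
      (by rw [orderOf_one]; exact hM.prime.one_lt.ne' ∘ Nat.dvd_one.1) (by rw [hx])
    rw [← Finset.add_sum_erase _ _ (Blk.PB.one_mem_pb hM)] at h0
    have h1 : MemLocalIdeal M (∑ χ ∈ (Blk.PB.pb M G).erase (Ch.irrOne G), χ.1 1 * χ.1 x) := by
      refine MemLocalIdeal.sum fun χ hχ => ?_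
      refine MemLocalIdeal.mul_right ?_ (.of_isIntegral (χ.2.isCharacter.isIntegral x))
      rw [← χ.2.coe_charDegree, hM.natCast_mem_iff]
      by_contra hp
      exact (Finset.mem_erase.1 hχ).1
        (Subtype.ext (h χ (Blk.PB.mem_pb.1 (Finset.mem_erase.1 hχ).2) hp))
    rw [eq_neg_of_add_eq_zero_right h0] at h1
    exact MemLocalIdeal.not_one (M := M) (by simpa using h1.neg)
  · intro hd χ hχ _
    by_contra hne
    apply (Blk.PB.mem_principal_iff_sum hM χ).1 hχ
    rw [← χ.2.sum_eq_zero hne]
    exact Finset.sum_congr rfl fun y _ =>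
      Blk.pRegularPart_of_not_dvd _ fun h => hd (h.trans (orderOf_dvd_natCard y))

end Cfsg.Agent.S4916
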