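import Mathlib
import Cfsg.Statements.S4924
import Cfsg.Agent.KZ.Fin

set_option autoImplicit false
open Cfsg

namespace Cfsg.Agent.S4924

/-- Let G be a finite group, p a prime, M a maximal ideal of the algebraic integers containing p, P a Sylow p-subgroup of G, and k = 2 or k = 3. Then the principal p-block of G contains exactly k irreducible characters of degree not divisible by p (its height-zero characters) if and only if P has order k. -/
theorem result {G : Type*} [Group G] [Finite G] (p : ℕ) [Fact p.Prime] (M : Ideal Cfsg.AlgInt) (hM : Cfsg.IsPModular p M) (P : Sylow p G) (k : ℕ) (hk : k = 2 ∨ k = 3) :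
    Nat.card {χ : Cfsg.IrrCharacter G // χ ∈ Cfsg.principalBlock M G ∧ ¬ p ∣ Cfsg.charDegree (χ : G → ℂ)} = k ↔ Nat.card P = k := by
  open Agent.KZ Agent.Blk in
  classical
  have hp : p.Prime := Fact.out
  have h1 := H0_le (p := p) (M := M) (G := G)
  have key : Nat.card P = p → ((H0 p M G).card = k ↔ p = k) := fun h => by
    obtain ⟨e, f, h3, h4, -⟩ := cyc hM P h
    rw [H0_eq hM P h, h4]
    have h5 := hp.two_le
    constructor
    · intro h6
      have : e ≤ 3 := by omega
      obtain rfl : f = k - e := by omega
      rcases hk with rfl | rfl <;> interval_cases e <;> omega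
    · intro h6
      have h7 : e ∣ k - 1 := ⟨f, by omega⟩
      have : e ≤ 2 := (Nat.le_of_dvd (by omega) h7).trans (by omega)
      rcases hk with rfl | rfl <;> interval_cases e <;> omega
  rw [natCard_H0]
  constructor
  · intro h0
    rcases trich P with h | h | h
    · rw [card_one hM h] at h1
      omega
    · exact h.trans ((key h).1 h0)
    by_cases h3 : p = 2
    · subst h3
      have h4 := sq_dvd hM h
      have h5 := sum_sq_mod (M := M) (G := G)
      omega
    · have := five_le hM h3 h
      omega
  · intro h0
    obtain ⟨n, hn⟩ := IsPGroup.iff_card.1 P.2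
    have h2 : k.Prime := by rcases hk with rfl | rfl <;> decide
    have h3 : p = k := ((Nat.Prime.pow_eq_iff h2).1 (hn.symm.trans h0)).1
    exact (key (h0.trans h3.symm)).2 h3

end Cfsg.Agent.S4924
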