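import Mathlib
import Cfsg.Statements.S4926
import Cfsg.Agent.KZ.Five

set_option autoImplicit false
open Cfsg

namespace Cfsg.Agent.S4926

/-- Let G be a finite group, p a prime, M a maximal ideal of the algebraic integers containing p, and P a Sylow p-subgroup of G with normalizer N and centralizer C. Then the principal p-block of G contains exactly five irreducible characters of degree not divisible by p if and only if either P has order 5 and the index of C in N is 1 or 4, or P has order 7 and the index of C in N is 2 or 3. -/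
theorem result {G : Type*} [Group G] [Finite G] (p : ℕ) [Fact p.Prime] (M : Ideal Cfsg.AlgInt) (hM : Cfsg.IsPModular p M) (P : Sylow p G) :
    Nat.card {χ : Cfsg.IrrCharacter G // χ ∈ Cfsg.principalBlock M G ∧ ¬ p ∣ Cfsg.charDegree (χ : G → ℂ)} = 5 ↔
      ((Nat.card P = 5 ∧ ((Subgroup.centralizer ((P : Subgroup G) : Set G)).relIndex (Subgroup.normalizer ((P : Subgroup G) : Set G)) = 1 ∨ (Subgroup.centralizer ((P : Subgroup G) : Set G)).relIndex (Subgroup.normalizer ((P : Subgroup G) : Set G)) = 4)) ∨
        (Nat.card P = 7 ∧ ((Subgroup.centralizer ((P : Subgroup G) : Set G)).relIndex (Subgroup.normalizer ((P : Subgroup G) : Set G)) = 2 ∨ (Subgroup.centralizer ((P : Subgroup G) : Set G)).relIndex (Subgroup.normalizer ((P : Subgroup G) : Set G)) = 3))) := by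
  open Agent.KZ Agent.Blk in
  classical
  have hp : p.Prime := Fact.out
  have h1 := H0_le (p := p) (M := M) (G := G)
  have := Fintype.ofFinite G
  rw [natCard_H0]
  generalize he : Subgroup.relIndex (G := G) _ _ = e
  have key : p ≠ 2 → Nat.card P = p → (H0 p M G).card = e + (p - 1) / e ∧ e ∣ p - 1 := fun h2 h => by
    obtain ⟨S, -, h3, h4⟩ := One.exists_setup P h
    exact ⟨(H0_eq hM P h).trans (S0960.result p M hM h2 P h e he).1, by rw [← he, ← h3, ← h4]; exact S.relIndex_dvd⟩
  obtain ⟨n, hn⟩ := IsPGroup.iff_card.1 P.2
  constructor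
  · intro h0
    have h2 : p ≠ 2 := by
      rintro rfl
      have h5 := sum_sq_mod (M := M) (G := G)
      by_cases h : 2 ∣ Nat.card G
      · have := p_dvd hM h
        omega
      · rw [card_one hM h] at h1
        omega
    rcases trich P with h | h | h
    · rw [card_one hM h] at h1
      omega
    · obtain ⟨h3, f, h4⟩ := key h2 h
      have := hp.two_le
      have h5 : 0 < e := Nat.pos_of_ne_zero (by rintro rfl; omega)
      rw [h4, Nat.mul_div_cancel_left _ h5] at h3
      have : e ≤ 5 := by omega
      obtain rfl : f = 5 - e := by omega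
      interval_cases e <;> omega
    · exact absurd h0 (ne_five hM h2 h)
  · rintro (⟨h0, h3⟩ | ⟨h0, h3⟩)
    · obtain rfl : p = 5 := ((Nat.Prime.pow_eq_iff (by decide)).1 (hn.symm.trans h0)).1
      rw [(key (by decide) h0).1]
      rcases h3 with rfl | rfl <;> rfl
    · obtain rfl : p = 7 := ((Nat.Prime.pow_eq_iff (by decide)).1 (hn.symm.trans h0)).1
      rw [(key (by decide) h0).1]
      rcases h3 with rfl | rfl <;> rfl

end Cfsg.Agent.S4926
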