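import Mathlib
import Cfsg.Statements.S4931
import Cfsg.Agent.Ch.RealChar2
import Cfsg.Agent.GT.TransferTate
import Cfsg.Agent.Ch.Quotient
import Cfsg.Agent.Ch.Table
import Cfsg.Agent.FG.SylowCount
import Cfsg.Agent.GT.Frattini

set_option autoImplicit false
open Cfsg

namespace Cfsg.Agent.S4931

open Cfsg.Agent.Ch Cfsg.Agent.GT

theorem exists_normal {G : Type*} [Group G] [Finite G] {p : ℕ} {P N A : Subgroup G}
    (hP : ¬ p ∣ P.relIndex N) [(P.subgroupOf N).Normal] [(A.subgroupOf N).Normal] (hA : ⁅P, P⁆ ≤ A)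
    (hAN : A ≤ N) (h : ∀ θ : IrrCharacter N, ¬ p ∣ charDegree (θ : N → ℂ) →
      ∃ χ : IrrCharacter G, ∀ x : N, (χ : G → ℂ) x = (θ : N → ℂ) x) :
    ∃ L : Subgroup G, L.Normal ∧ A ≤ L ∧ L ⊓ N ≤ A := by
  have h1 : ∀ θ : {θ : IrrCharacter N // A.subgroupOf N ≤ charKer (θ : N → ℂ)},
      ∃ χ : IrrCharacter G, ∀ x : N, (χ : G → ℂ) x = (θ.1 : N → ℂ) x := fun θ =>
    h θ.1 fun hd => hP (hd.trans (θ.1.2.charDegree_dvd_index_of_commutator (P.subgroupOf N)
      fun a ha b hb => θ.1.2.isCharacter.mem_charKer.mp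
        (θ.2 (hA (Subgroup.commutator_mem_commutator ha hb)))))
  choose χ hχ using h1
  have key : ∀ θ (x : N), (x : G) ∈ charKer (χ θ : G → ℂ) ↔ x ∈ charKer (θ.1 : N → ℂ) :=
    fun θ x => by
      rw [(χ θ).2.isCharacter.mem_charKer, θ.1.2.isCharacter.mem_charKer, hχ, ← hχ θ 1]; rfl
  refine ⟨⨅ θ, charKer (χ θ : G → ℂ), Subgroup.normal_iInf_normal fun θ =>
    (χ θ).2.isClassFunction.charKer_normal, le_iInf fun θ x hx => (key θ ⟨x, hAN hx⟩).mpr (θ.2 hx),
    fun x hx => ?_⟩
  have h2 : (⟨x, hx.2⟩ : N) ∈ A.subgroupOf N := (eq_iInf_charKer (A.subgroupOf N)).ge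
    (Subgroup.mem_iInf.mpr fun θ => (key θ _).mp (Subgroup.mem_iInf.mp hx.1 θ))
  exact h2

theorem nc_of_self {J : Type*} [Group J] [Finite J] {p : ℕ} [Fact p.Prime] (P : Sylow p J)
    (hN : Subgroup.normalizer ((P : Subgroup J) : Set J) ≤ P) (L : Subgroup J) [L.Normal]
    (h1 : ⁅(P : Subgroup J), (P : Subgroup J)⁆ ≤ L)
    (h2 : L ⊓ P ≤ ⁅(P : Subgroup J), (P : Subgroup J)⁆) : HasNormalPComplement p J := by
  have hπ := QuotientGroup.mk'_surjective L
  obtain ⟨K, hK, h3, k, h4⟩ := (Tr.hasNormalPComplement_of_normalizer_le_centralizer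
    (P.mapSurjective hπ) (by
      intro x hx y hy
      obtain ⟨x, rfl⟩ := hπ x
      rw [Sylow.coe_mapSurjective] at hx hy
      obtain ⟨y, hy, rfl⟩ := hy
      rw [← Subgroup.mem_comap, FG.H96.comap_normalizer_map_sylow hπ, QuotientGroup.ker_mk'] at hx
      obtain ⟨a, ha, b, hb, rfl⟩ := Subgroup.mem_sup_of_normal_right.mp hx
      rw [map_mul, QuotientGroup.mk'_apply L b, (QuotientGroup.eq_one_iff b).mpr hb, mul_one,
        ← commutatorElement_eq_one_iff_mul_comm, ← map_commutatorElement]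
      exact (QuotientGroup.eq_one_iff _).mpr
        (h1 (Subgroup.commutator_mem_commutator hy (hN ha))))).exists_normal
  refine Tr.hasNormalPComplement_of_pResidual_inf_le_frattini P fun x hx => ?_
  have := P.2.isNilpotent
  refine commutator_self_le_map_frattini _ (h2 ⟨?_, hx.2⟩)
  have h5 : x ∈ K.comap (QuotientGroup.mk' L) := pResidual_le_of_index (k := k)
    (by rw [K.index_comap_of_surjective hπ, h4]) hx.1
  obtain ⟨m, hm⟩ := P.2 ⟨x, hx.2⟩
  show x ∈ L
  rw [← QuotientGroup.eq_one_iff, ← orderOf_eq_one_iff]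
  refine RC.eq_one_of_dvd_pow_of_not_dvd Fact.out (k := m) (orderOf_dvd_of_pow_eq_one ?_)
    fun h => h3 (h.trans (Subgroup.orderOf_dvd_natCard K h5))
  rw [← QuotientGroup.mk_pow, show x ^ p ^ m = 1 from congrArg Subtype.val hm]; rfl


theorem comm_subgroupOf {G : Type*} [Group G] {P J : Subgroup G} (h1 : P ≤ J) :
    (⁅P, P⁆ : Subgroup G).subgroupOf J = ⁅P.subgroupOf J, P.subgroupOf J⁆ := by
  apply Subgroup.map_injective J.subtype_injective
  rw [Subgroup.map_commutator, Subgroup.subgroupOf_map_subtype, Subgroup.subgroupOf_map_subtype,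
    inf_of_le_left h1, inf_of_le_left ((Subgroup.commutator_le_self _).trans h1)]

/-- Let G be a finite group, p a prime and P a Sylow p-subgroup of G with normalizer N. Then every irreducible complex character of N of degree not divisible by p is the restriction of an irreducible character of G if and only if there is a normal subgroup K of G with KN = G and K ∩ N = 1. -/
theorem result {G : Type*} [Group G] [Finite G] (p : ℕ) [Fact p.Prime] (P : Sylow p G) :
    (∀ θ : Cfsg.IrrCharacter ↥(Subgroup.normalizer ((P : Subgroup G) : Set G)), ¬ p ∣ Cfsg.charDegree (θ : ↥(Subgroup.normalizer ((P : Subgroup G) : Set G)) → ℂ) →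
        ∃ χ : Cfsg.IrrCharacter G, ∀ x : ↥(Subgroup.normalizer ((P : Subgroup G) : Set G)), (χ : G → ℂ) x = (θ : ↥(Subgroup.normalizer ((P : Subgroup G) : Set G)) → ℂ) x) ↔
      ∃ K : Subgroup G, K.Normal ∧ K ⊔ Subgroup.normalizer ((P : Subgroup G) : Set G) = ⊤ ∧ K ⊓ Subgroup.normalizer ((P : Subgroup G) : Set G) = ⊥ := by
  have hp : p.Prime := Fact.out
  set N := Subgroup.normalizer ((P : Subgroup G) : Set G) with hN
  have hPN : (P : Subgroup G) ≤ N := Subgroup.le_normalizer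
  constructor
  · intro h
    have hP : ¬ p ∣ (P : Subgroup G).relIndex N := fun h =>
      P.not_dvd_index (h.trans (Subgroup.relIndex_dvd_index_of_le hPN))
    have : ((P : Subgroup G).subgroupOf N).Normal := Subgroup.normal_in_normalizer
    have : ((⁅(P : Subgroup G), (P : Subgroup G)⁆ : Subgroup G).subgroupOf N).Normal :=
      comm_subgroupOf hPN ▸ inferInstance
    obtain ⟨J, hJ, h1, h2⟩ := exists_normal hP (Subgroup.commutator_le_self _) hPN h
    obtain ⟨L, hL, h3, h4⟩ := exists_normal hP le_rfl ((Subgroup.commutator_le_self _).trans hPN) h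
    have hc := comm_subgroupOf h1
    have h5 := nc_of_self (P.subtype h1) (by
      rw [Sylow.coe_subtype, ← Subgroup.subgroupOf_normalizer_eq h1]
      exact fun x hx => h2 ⟨x.2, hx⟩) (L.subgroupOf J) (by
      rw [Sylow.coe_subtype, ← hc]; exact fun x hx => h3 hx) (by
      rw [Sylow.coe_subtype, ← hc]; exact fun x hx => h4 ⟨hx.1, hPN hx.2⟩)
    rw [Tr.hasNormalPComplement_iff_not_dvd_card_pResidual] at h5
    refine ⟨(pResidual p J).map J.subtype, inferInstance, ?_, ?_⟩
    · have h6 := congrArg (Subgroup.map J.subtype) (pResidual_sup_sylow (P.subtype h1))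
      rw [Subgroup.map_sup, Sylow.coe_subtype, Subgroup.subgroupOf_map_subtype, inf_of_le_left h1,
        ← MonoidHom.range_eq_map, Subgroup.range_subtype] at h6
      rw [eq_top_iff, ← P.normalizer_sup_eq_top' h1]
      exact sup_le le_sup_right (h6.ge.trans (sup_le_sup_left hPN _))
    · rw [eq_bot_iff]
      rintro _ ⟨⟨x, hx, rfl⟩, hx'⟩
      obtain ⟨m, hm⟩ := P.2 ⟨x, h2 ⟨x.2, hx'⟩⟩
      rw [Subgroup.mem_bot, ← orderOf_eq_one_iff]
      refine RC.eq_one_of_dvd_pow_of_not_dvd hp (k := m)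
        (orderOf_dvd_of_pow_eq_one (congrArg Subtype.val hm)) fun h => h5 (h.trans ?_)
      rw [Subgroup.coe_subtype, Subgroup.orderOf_coe]
      exact Subgroup.orderOf_dvd_natCard _ hx
  · rintro ⟨K, hK, h1, h2⟩ θ -
    let f : N →* G ⧸ K := (QuotientGroup.mk' K).comp N.subtype
    have hf : Function.Bijective f := by
      refine ⟨(injective_iff_map_eq_one f).mpr fun x hx => Subtype.ext ?_, fun y => ?_⟩
      · exact h2.le ⟨(QuotientGroup.eq_one_iff (x : G)).mp hx, x.2⟩
      · obtain ⟨y, rfl⟩ := QuotientGroup.mk_surjective y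
        obtain ⟨a, ha, b, hb, rfl⟩ := Subgroup.mem_sup_of_normal_left.mp (h1.ge (Subgroup.mem_top y))
        exact ⟨⟨b, hb⟩, by simp [f, (QuotientGroup.eq_one_iff a).mpr ha]⟩
    let e := MulEquiv.ofBijective f hf
    exact ⟨⟨_, (θ.2.comp_mulEquiv e.symm).comp_mk⟩, fun x => congrArg θ.1 (e.symm_apply_apply x)⟩

end Cfsg.Agent.S4931
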