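import Mathlib
import Cfsg.Statements.S4937
import Cfsg.Agent.Blk.StrongExt

set_option autoImplicit false
open Cfsg

namespace Cfsg.Agent.S4937

open Cfsg.Agent.Ch Cfsg.Agent.Blk

/-- Let G be a finite group, p a prime, M a maximal ideal of the algebraic integers containing p, N a normal subgroup of G and P a Sylow p-subgroup of N such that G = N·C_G(P). Let θ be an irreducible character in the principal p-block of N that is the restriction of some irreducible character of G. Then θ is the restriction of an irreducible character χ of G lying in the principal p-block of G such that, for every subgroup J of G containing N, the restriction of χ to J is an irreducible character of J lying in the principal p-block of J. -/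
theorem result {G : Type*} [Group G] [Finite G] (p : ℕ) [Fact p.Prime] (M : Ideal Cfsg.AlgInt) (hM : Cfsg.IsPModular p M) (N : Subgroup G) [N.Normal] (P : Sylow p ↥N)
    (hcov : N ⊔ Subgroup.centralizer (((P : Subgroup ↥N).map N.subtype : Subgroup G) : Set G) = ⊤)
    (θ : Cfsg.IrrCharacter ↥N) (hθ : θ ∈ Cfsg.principalBlock M ↥N)
    (hext : ∃ ψ : Cfsg.IrrCharacter G, ∀ x : ↥N, (ψ : G → ℂ) x = (θ : ↥N → ℂ) x) :
    ∃ χ : Cfsg.IrrCharacter G, χ ∈ Cfsg.principalBlock M G ∧ (∀ x : ↥N, (χ : G → ℂ) x = (θ : ↥N → ℂ) x) ∧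
      ∀ J : Subgroup G, N ≤ J → ∃ ξ : Cfsg.IrrCharacter ↥J, ξ ∈ Cfsg.principalBlock M ↥J ∧ ∀ y : ↥J, (ξ : ↥J → ℂ) y = (χ : G → ℂ) y := by
  have := hM.isMaximal
  obtain ⟨ψ, hψ⟩ := hext
  have hP : ¬ p ∣ ((P : Subgroup N).map N.subtype).relIndex N := by
    rw [Subgroup.relIndex, Subgroup.subgroupOf, Subgroup.comap_map_eq_self_of_injective
      N.subtype_injective]
    exact P.not_dvd_index
  obtain ⟨l, -, h1, -, h2⟩ := SE.exists_hom hM (L := ⊤) hP hcov.ge hθ ψ.2.isCharacter hψ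
  let μ : G →* ℂˣ := l.comp Subgroup.topEquiv.symm.toMonoidHom
  have hμ : ∀ n ∈ N, μ n = 1 := fun n hn => h1 _ hn
  have h3 := SE.strong_of_hom (L := ⊤) hθ ψ.2.isCharacter hψ hμ fun x hx => h2 ⟨x, hx⟩
  let χ : IrrCharacter G := ⟨_, ψ.2.monoidHom_mul μ⁻¹⟩
  have hχ : ∀ x : N, (χ : G → ℂ) x = (θ : N → ℂ) x := fun x => by simp [χ, hμ x x.2, hψ]
  have key : ∀ J : Subgroup G, N ≤ J → ∃ ξ : IrrCharacter J, ξ ∈ principalBlock M J ∧
      ∀ y : J, (ξ : J → ℂ) y = (χ : G → ℂ) y := fun J hJ => by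
    have h4 : IsIrrCharacter J fun y : J => (χ : G → ℂ) y :=
      IsIrrCharacter.of_comp (f := Subgroup.inclusion hJ) (χ.2.isCharacter.restrict J) (by
        simpa only [Subgroup.coe_inclusion, hχ] using θ.2)
    exact ⟨⟨_, h4⟩, h3.mem hθ χ.2.isCharacter hχ hJ le_top fun _ => rfl, fun _ => rfl⟩
  obtain ⟨ξ, h4, h5⟩ := key ⊤ le_top
  exact ⟨χ, (P0.mem_iff_of_mulEquiv hM Subgroup.topEquiv h5).mp h4, hχ, key⟩

end Cfsg.Agent.S4937
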