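import Mathlib
import Cfsg.Statements.S4949
import Cfsg.Agent.SnCh.DegP
import Cfsg.Agent.SnCh.Shift
import Cfsg.Agent.Blk.BF

set_option autoImplicit false
open Cfsg

namespace Cfsg.Agent.S4949

open SnCh Blk Cfsg.Agent.Sym

/-- Let n be a natural number, p a prime, M a maximal ideal of the algebraic integers containing p, B a p-block of the alternating group of degree n and D a defect group of B. Then either B contains an irreducible character of height 1 and D has an irreducible complex character of degree p, or every irreducible character of B has height zero and D is commutative (so the least positive height in B and the least positive exponent of a character degree of D are both 1 or both absent). -/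
theorem result (n : ℕ) (p : ℕ) [Fact p.Prime] (M : Ideal Cfsg.AlgInt) (hM : Cfsg.IsPModular p M) (B : Set (Cfsg.IrrCharacter ↥(alternatingGroup (Fin n)))) (hB : Cfsg.IsPBlock M B) (D : Subgroup ↥(alternatingGroup (Fin n))) (hD : Cfsg.IsDefectGroup p M B D) :
    ((∃ χ : Cfsg.IrrCharacter ↥(alternatingGroup (Fin n)), χ ∈ B ∧ Cfsg.blockHeight p B (χ : ↥(alternatingGroup (Fin n)) → ℂ) = 1) ∧ (∃ φ : Cfsg.IrrCharacter ↥D, Cfsg.charDegree (φ : ↥D → ℂ) = p)) ∨
    ((∀ χ : Cfsg.IrrCharacter ↥(alternatingGroup (Fin n)), χ ∈ B → Cfsg.blockHeight p B (χ : ↥(alternatingGroup (Fin n)) → ℂ) = 0) ∧ IsMulCommutative D) := by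
  classical
  have := hM.isMaximal
  have hp := hM.prime
  have hd := hD.card_eq_pow_blockDefect hM hB
  have hG : IsPGroup p D := IsPGroup.of_card hd
  by_cases h0 : blockDefect p B ≤ 2
  · refine .inr ⟨fun χ hχ => by_contra fun e => ?_, ?_⟩
    · have := (height_bounds_of_pos hM hB hχ e).1
      omega
    generalize blockDefect p B = d at hd h0
    interval_cases d
    · rw [Subgroup.card_eq_one.1 (hd.trans (pow_zero p))]
      infer_instance
    · have := isCyclic_of_prime_card (hd.trans (pow_one p))
      exact IsCyclic.isMulCommutative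
    · exact IsPGroup.isMulCommutative_of_card_eq_prime_sq hd
  have : Nontrivial (Fin n) := by
    by_contra! e
    have := Nat.card_unique.symm.trans hd
    rw [eq_comm, Nat.pow_eq_one] at this
    have := hp.one_lt
    omega
  have hN : Fintype.card (Fin n) ≤ n + 2 * p := by simp
  obtain ⟨C, χ, β, w, P, hC, hc, hχ, h, hw, hP, e⟩ := exists_cover hM hB hD hN
  obtain ⟨h1, ι, rfl⟩ := defect_eq_wr (J := Fin w) hM hC hN hχ h (by simpa) hP default
  have h5 := hP.card_eq_pow_blockDefect hM hC
  rw [← Subgroup.card_subtype, ← e] at hd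
  rw [h1, Fintype.card_fin] at h5
  have h2 : p = 2 → 3 ≤ w := by
    rintro rfl
    rcases w with _ | w
    · have := Subgroup.card_le_of_le (inf_le_left (a := wr ι (default : Sylow 2 _).1)
        (b := alternatingGroup (Fin n)))
      rw [hd, h5, Nat.pow_le_pow_iff_right one_lt_two] at this
      simp_all
    have h8 := two_mul_card_inf_alternatingGroup (wr_not_le ι (default : Sylow 2 _).1)
    rw [hd, h5, ← pow_succ', Nat.pow_right_inj one_lt_two] at h8
    rcases w with _ | _ | w
    · simp_all
    · have : (Nat.factorial 2).factorization 2 = 1 := Nat.prime_two.factorization_self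
      simp only [zero_add, Nat.reduceAdd] at h8
      omega
    · omega
  have h3 := minVal_eq_of_covers hM alternatingGroup.index_eq_two hC hB hc hP
    (or_iff_not_imp_left.2 fun e => by
      obtain rfl := not_not.1 e
      have : Nonempty (Fin w) := ⟨⟨0, by have := h2 rfl; omega⟩⟩
      exact wr_not_le ι _)
  have h4 : ∀ ψ ∈ C, ∀ θ ∈ B, Om.Over (alternatingGroup (Fin n)).subtype (ψ : _ → ℂ) θ →
      (p = 2 → ∃ g ∉ alternatingGroup (Fin n), ψ.1 g ≠ 0) →
      blockHeight p B θ = blockHeight p C ψ := fun ψ hψ θ hθ h4 h6 => by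
    have h7 := Om.minVal_add_blockHeight (p := p) hψ
    have h8 := Om.minVal_add_blockHeight (p := p) hθ
    rcases res_cases alternatingGroup.index_eq_two ψ.2 θ.2 (Om.over_subtype_iff.1 h4) with h9 | h9
    · have : charDegree θ.1 = charDegree ψ.1 := by rw [← h9]; rfl
      rw [this] at h8
      omega
    · have : p ≠ 2 := fun e => (h6 e).elim fun g hg => hg.2 (h9.1 g hg.1)
      rw [h9.2, Nat.factorization_mul two_ne_zero θ.2.charDegree_pos.ne', Nat.prime_two.factorization,
        Finsupp.add_apply, Finsupp.single_eq_of_ne this] at h7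
      omega
  have h6 : p ≠ 2 → (D.subtype.range.map (alternatingGroup (Fin n)).subtype) = wr ι _ := fun h6 => by
    rw [D.range_subtype, ← e,
      inf_eq_left.2 (le_alternatingGroup_of_isPGroup h6 (isPGroup_wr ι (Sylow.isPGroup' _)))]
  rw [MonoidHom.map_range] at h6
  by_cases hwp : w < p
  · have h7 : w.factorial.factorization p = 0 :=
      Nat.factorization_eq_zero_of_not_dvd (hp.dvd_factorial.not.2 hwp.not_ge)
    refine .inr ⟨fun θ hθ => ?_, ⟨⟨fun a b => Subtype.ext (Subtype.ext ?_)⟩⟩⟩
    · obtain ⟨ψ, hψ, h8⟩ := Cov.exists_over_of_covers hC hB hc hθ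
      obtain ⟨γ, h'⟩ := exists_lab hN ψ
      have := blockHeight_add hM hC hN hψ h'
        ((h.wt_eq hp.pos h' (cnt_eq_of_mem hM hC hN hχ hψ h h')).trans hw)
      rw [h4 ψ hψ θ hθ h8 (by omega)]
      omega
    · have h8 : (default : Sylow p (Equiv.Perm (Fin w))).1 = ⊥ := Subgroup.card_eq_one.1 (by
        rw [Sylow.card_eq_multiplicity, Nat.card_perm]; simp [h7])
      rw [h8] at h6
      exact wr_bot_comm ι ((h6 (by omega)).le ⟨a, rfl⟩) ((h6 (by omega)).le ⟨b, rfl⟩)
  refine .inl ⟨?_, ?_⟩
  · have hκ := h.val.core hp.pos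
    have h7 := sum_eq_core (p := p) β
    have h8 : wt p (core p β) = 0 := wt_eq hp.pos h.val hκ (cnt_core β) (by simp)
    rw [h.sum, hw] at h7
    obtain ⟨u, hu, h9, h10, h11⟩ := exists_height_one hp hκ h8 (fun x h9 h10 => hκ.packed h9 (by
      simp only [Fintype.card_fin] at h7 ⊢
      push_cast
      nlinarith)) (not_lt.1 hwp)
    obtain ⟨ψ, h'⟩ := exists_irr hN (hu.val hκ) (by rw [sum_sh, h9, h7])
    have hψ := mem_of_cnt_eq hM hC hχ h h' (cnt_sh.trans (cnt_core β))
    have hw' := (hu.wt hp.pos hκ h8).trans (congrArg _ h9)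
    have h12 := blockHeight_add hM hC hN hψ h' hw'
    obtain ⟨θ, hθ, h13⟩ := hc.exists_over hC hB hψ
    refine ⟨θ, hθ, (h4 ψ hψ θ hθ h13 ?_).trans (by omega)⟩
    rintro rfl
    rcases Nat.even_or_odd w with h14 | h14
    · obtain ⟨g, hg⟩ := (Equiv.Perm.exists_with_cycleType_iff (Fin n)
        (m := (2 * 2) ::ₘ Multiset.replicate (w - 2) 2)).2 ⟨by
          have := mul_wt_le two_pos h.val h.sum hw
          simp at this ⊢
          omega, by simp [Multiset.mem_replicate]⟩
      refine ⟨g, ?_, h'.apply_ne two_pos hw' (by simp [hg, Multiset.mem_replicate]) ?_ ?_⟩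
      · rw [not_mem_alternatingGroup_iff, Equiv.Perm.sign_of_cycleType, hg]
        have := h2 rfl
        have := Nat.even_iff.1 h14
        exact Odd.neg_one_pow (by simp [Nat.odd_iff]; omega)
      · simp [← Equiv.Perm.sum_cycleType, hg]
        omega
      · rw [hg, hu.core hκ, hκ.core_eq two_pos h8]
        exact h11 h14.two_dvd (h2 rfl)
    · exact ⟨_, xx_notMem ι (by simpa), h'.xx_ne ι (by simpa using hw')⟩
  · rcases eq_or_ne p 2 with rfl | h7
    · exact exists_irr_of_eq_inf (h2 rfl) hG ((alternatingGroup (Fin n)).subtype.comp D.subtype) _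
        (by rw [← MonoidHom.map_range, D.range_subtype, e])
    · exact exists_irr_of_eq_wr hG _ (h6 h7) (sylow_ne_bot (by simpa using hwp) _)

end Cfsg.Agent.S4949
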