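import Mathlib
import Cfsg.Statements.S4969
import Cfsg.Agent.Ch.BrauerPerm

set_option autoImplicit false
open Cfsg

namespace Cfsg.Agent.S4969

set_option linter.unusedVariables false

/-- Let G be a finite group with k conjugacy classes, g ∈ G, and N > 0. Then the sum over the irreducible complex characters χ of G with χ(1) ≥ N of |χ(g)|/χ(1) is at most √(k · #C_G(g)) / N. -/
theorem result {G : Type*} [Group G] [Finite G] (g : G) (N : ℝ) (hN : 0 < N) :
    ∑ᶠ χ : Cfsg.IrrCharacter G, (if N ≤ ‖(χ : G → ℂ) 1‖ then ‖(χ : G → ℂ) g‖ / ‖(χ : G → ℂ) 1‖ else 0) ≤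
      Real.sqrt ((Nat.card (ConjClasses G) : ℝ) * (Nat.card ↥(Subgroup.centralizer ({g} : Set G)) : ℝ)) / N := by
  classical
  have hcard : (Fintype.card (IrrCharacter G) : ℝ) = Nat.card (ConjClasses G) := by
    have := Ch.card_fixed_irr_eq_card_fixed_classes (G := G) id id (fun χ g g' h =>
      χ.2.isClassFunction.eq_of_isConj (ConjClasses.mk_eq_mk_iff_isConj.1 h).symm)
    simp only [id_eq, Nat.card_eq_fintype_card] at this
    rw [Nat.card_congr (Equiv.subtypeUnivEquiv fun _ => trivial),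
      Fintype.card_congr (Equiv.subtypeUnivEquiv fun _ => trivial)] at this
    exact_mod_cast this
  rw [finsum_eq_sum_of_fintype]
  have h1 : ∑ χ : IrrCharacter G, (if N ≤ ‖(χ : G → ℂ) 1‖ then ‖(χ : G → ℂ) g‖ / ‖(χ : G → ℂ) 1‖
      else 0) ≤ ∑ χ : IrrCharacter G, ‖(χ : G → ℂ) g‖ / N := by
    refine Finset.sum_le_sum fun χ _ => ?_
    split_ifs with h
    · exact div_le_div_of_nonneg_left (norm_nonneg _) hN h
    · positivity
  refine h1.trans ?_
  rw [← Finset.sum_div]
  refine div_le_div_of_nonneg_right ?_ hN.le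
  refine Real.le_sqrt_of_sq_le ?_
  rw [← hcard, ← Ch.sum_irr_norm_sq g]
  exact sq_sum_le_card_mul_sum_sq

end Cfsg.Agent.S4969
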