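import Cfsg.Statements.S4984
import Cfsg.Agent.DG.MainC
import Cfsg.Agent.DG.MainP
import Cfsg.Agent.DG.MainM
import Cfsg.Agent.DG.Ord
import Cfsg.Agent.DG.Red
import Cfsg.Agent.Cl.Transport

set_option autoImplicit false
open Cfsg

namespace Cfsg.Agent.S4984

open Cfsg.Agent.DG Cfsg.Agent.DG.Fm Cfsg.Agent.Cl Module QuadraticMap

section Bridge

variable {F V V₀ : Type} [Field F] [AddCommGroup V] [Module F V] [AddCommGroup V₀] [Module F V₀]

/-- The orthogonal space of a nondegenerate quadratic form. -/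
def ofQ (Q : QuadraticForm F V) (hQ : (polarBilin Q).Nondegenerate) : Fm F V :=
  ⟨polarBilin Q, Q, true, hQ.1, fun _ _ _ => rfl, fun h => absurd h (by simp)⟩

/-- The symplectic space of a nondegenerate alternating form. -/
def ofB (B : LinearMap.BilinForm F V) (hB : B.Nondegenerate) (hA : B.IsAlt) : Fm F V :=
  ⟨B, 0, false, hB.1, fun h => absurd h (by simp), fun _ => ⟨hA, fun _ => rfl⟩⟩

theorem iso_of_Q {S : Fm F V} {S' : Fm F V₀} (ho : S.o = true) (ho' : S'.o = true) (e : V ≃ₗ[F] V₀)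
    (he : ∀ x, S'.Q (e x) = S.Q x) : S.Iso S' :=
  ⟨ho.trans ho'.symm, e, fun x y => by
    rw [S.ho ho, S'.ho ho']
    simp only [polar, ← map_add, he], he⟩

theorem iso_prod {Q : QuadraticForm F V} (hQ : (polarBilin Q).Nondegenerate) {Q₀ : QuadraticForm F V₀}
    (h₀ : (polarBilin Q₀).Nondegenerate) {m : ℕ} (e : V ≃ₗ[F] (Fin m ⊕ Fin m → F) × V₀)
    (he : ∀ v, ((quad_plus m F).prod Q₀) (e v) = Q v) : (ofQ Q hQ).Iso ((ofQ Q₀ h₀).hyp m) :=
  iso_of_Q rfl rfl (e.trans ((LinearEquiv.sumArrowLequivProdArrow _ _ F F).prodCongr (LinearEquiv.refl F V₀)))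
    fun x => by
      rw [hyp_Q]
      change _ = Q x
      rw [← he, prod_apply, quad_plus_apply]
      simp [ofQ, δ, dotProduct]

variable [Finite F] [Finite V] [Finite V₀]

theorem ty_zero {S₀ : Fm F V₀} (h : ∀ v, S₀.Q v = 0 → v = 0) {e : ℕ}
    (he : e = finrank F V₀ + (if S₀.o then 0 else 1)) : S₀.Ty 0 e :=
  ⟨V₀, _, _, inferInstance, S₀, h, he, iso_hyp_zero⟩

theorem ty_of_iso {S : Fm F V} {S₀ : Fm F V₀} {d e : ℕ} (h0 : S₀.Ty 0 e) (hI : S.Iso (S₀.hyp d)) : S.Ty d e := by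
  have := h0.hyp d
  rw [zero_add] at this
  exact Ty.of_iso hI this

theorem dvd_NN {S : Fm F V} {S₀ : Fm F V₀} {d e : ℕ} (h0 : S₀.Ty 0 e) (hI : S.Iso (S₀.hyp d))
    (hc : Nat.card S₀.G ∣ 2 * (Nat.card F + 1)) (hd : 2 ≤ d) {r : ℕ} (hr : r.Prime) (h : r ∣ Nat.card S.G) :
    r ∣ Nat.card F * NN (Nat.card F) e 0 d := by
  have hq : Nat.card F + 1 ∣ NN (Nat.card F) e 0 d := by
    refine Dvd.dvd.trans ?_ (Finset.dvd_prod_of_mem _ (Finset.mem_range.2 (show 1 < d by omega)))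
    refine Dvd.dvd.mul_right ?_ _
    refine ⟨Nat.card F - 1, ?_⟩
    have := Nat.sq_sub_sq (Nat.card F) 1
    simpa using this
  rw [hI.card_G, h0.card_hyp] at h
  rcases (Nat.Prime.dvd_mul hr).1 h with h | h
  · rcases (Nat.Prime.dvd_mul hr).1 h with h | h
    · rcases (Nat.Prime.dvd_mul hr).1 (h.trans hc) with h | h
      · rcases Nat.even_or_odd (Nat.card F) with h' | h'
        · exact (h.trans h'.two_dvd).mul_right _
        · exact ((h.trans h'.add_one.two_dvd).trans hq).mul_left _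
      · exact (h.trans hq).mul_left _
    · exact h.mul_left _
  · exact (hr.dvd_of_dvd_pow h).mul_right _

theorem cz_iff (Q : QuadraticForm F V) (hQ : (polarBilin Q).Nondegenerate) :
    (ofQ Q hQ).CZ ↔ OG.negOne Q ∈ commutator (OG Q) := by
  have := mulEquiv_mem_commutator_iff (MulEquiv.subgroupCongr (G_eq_OG (S := ofQ Q hQ) rfl)) (ofQ Q hQ).neg
  exact ⟨fun h => this.2 (h rfl), fun h _ => this.1 h⟩

theorem card_ofQ (Q : QuadraticForm F V) (hQ : (polarBilin Q).Nondegenerate) :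
    Nat.card (ofQ Q hQ).G = Nat.card (OG Q) := by
  rw [G_eq_OG (S := ofQ Q hQ) rfl]; rfl

end Bridge

theorem adj_of {G : Type*} [Group G] [Finite G] {H : Type} [Group H] (e : G ≃* H) {r s : ℕ}
    (hr : r ∈ degreePrimes G) (hs : s ∈ degreePrimes G) (hrs : r ≠ s)
    (h : r ∣ Nat.card H → s ∣ Nat.card H → ∃ χ, IsIrrCharacter H χ ∧ r * s ∣ charDegree χ) :
    (degreeGraph G).Adj r s := by
  have key : ∀ t ∈ degreePrimes G, t ∣ Nat.card H := by
    rintro t ⟨-, d, ⟨χ, rfl⟩, hd⟩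
    rw [← Nat.card_congr e.toEquiv]
    exact hd.trans χ.2.charDegree_dvd_card
  obtain ⟨χ, hχ, hd⟩ := h (key r hr) (key s hs)
  refine ⟨hrs, hr.1, hs.1, _, ⟨⟨fun x => χ (e x), hχ.comp_mulEquiv e⟩, rfl⟩, ?_⟩
  change r * s ∣ charDegree fun x => χ (e.toMonoidHom x)
  rwa [Ch.charDegree_comp]

theorem adj_O {G : Type*} [Group G] [Finite G] {F ι : Type} [Field F] [Finite F] [Fintype ι] [DecidableEq ι]
    (Q : QuadraticForm F (ι → F)) (hQ : (polarBilin Q).Nondegenerate) (e : G ≃* POmega F ⇑Q) {r s : ℕ}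
    (hr : r ∈ degreePrimes G) (hs : s ∈ degreePrimes G) (hrs : r ≠ s)
    (h : r ∣ Nat.card (ofQ Q hQ).G → s ∣ Nat.card (ofQ Q hQ).G → (ofQ Q hQ).Tg (r * s)) :
    (degreeGraph G).Adj r s := by
  refine adj_of (e.trans (centerQuotCongr (commutatorCongr ((omatEquiv Q).trans
    (MulEquiv.subgroupCongr (G_eq_OG (S := ofQ Q hQ) rfl)).symm)))) hr hs hrs fun h1 h2 => ?_
  have hd := (Subgroup.card_quotient_dvd_card (Subgroup.center (commutator (ofQ Q hQ).G))).trans
    (Subgroup.card_subgroup_dvd_card (commutator (ofQ Q hQ).G))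
  exact (h (h1.trans hd) (h2.trans hd)).2 rfl

/-- Let G be a finite simple symplectic group PSp_{2m}(q) (m ≥ 2, excluding PSp₄(2)) or a finite simple orthogonal group PΩ_{2m+1}(q) (m ≥ 3, q odd), PΩ⁺_{2m}(q) or PΩ⁻_{2m}(q) (m ≥ 4). Then the character degree graph of G is complete: for any two distinct primes each dividing some irreducible complex character degree of G, their product divides some irreducible character degree of G. -/
theorem result {G : Type*} [Group G] [Finite G] (h : Cfsg.IsPSp G ∨ Cfsg.IsPOmegaOdd G ∨ Cfsg.IsPOmegaPlus G ∨ Cfsg.IsPOmegaMinus G) (r s : ℕ) (hr : r ∈ Cfsg.degreePrimes G) (hs : s ∈ Cfsg.degreePrimes G) (hrs : r ≠ s) : (Cfsg.degreeGraph G).Adj r s := by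
  rcases h with ⟨F, _, _, m, hm, hm2, ⟨e⟩⟩ | ⟨F, _, _, m, hm, hodd, ⟨e⟩⟩ | ⟨F, _, _, m, hm, ⟨e⟩⟩ |
    ⟨F, _, _, m, a, b, hm, hab, ⟨e⟩⟩
  · let S : Fm F (Fin m ⊕ Fin m → F) := ofB (spB m F) spB_nondegenerate spB_isAlt
    let S₀ : Fm F PUnit.{1} := ofB 0 ⟨fun _ _ => Subsingleton.elim _ _, fun _ _ => Subsingleton.elim _ _⟩
      fun _ => rfl
    have h0 : S₀.Ty 0 1 := ty_zero (fun _ _ => Subsingleton.elim _ _) (by simp [S₀, ofB, finrank_zero_of_subsingleton])
    have hA : ((S₀.hyp m).B).IsAlt := ((S₀.hyp m).hs rfl).1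
    have hI : S.Iso (S₀.hyp m) := by
      obtain ⟨f, hf⟩ := sp_exists_isometry (B := spB m F) (B' := (S₀.hyp m).B) spB_nondegenerate spB_isAlt
        ⟨(S₀.hyp m).nd, fun x hx => (S₀.hyp m).nd x fun y => (S₀.hyp m).B_refl (hx y)⟩ hA
        (by simp [finrank_zero_of_subsingleton])
      exact ⟨rfl, f, hf, fun x => ((S₀.hyp m).hs rfl).2 _⟩
    have hc : Nat.card S₀.G ∣ 2 * (Nat.card F + 1) := by
      rw [Nat.card_eq_one_iff_exists.2 ⟨1, fun _ => G_ext fun _ => Subsingleton.elim _ _⟩]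
      exact one_dvd _
    refine adj_of (e.trans (centerQuotCongr ((spStdEquiv m F).trans
      (MulEquiv.subgroupCongr (G_eq_SpG (S := S) rfl)).symm))) hr hs hrs fun h1 h2 => ?_
    have hd := Subgroup.card_quotient_dvd_card (Subgroup.center S.G)
    exact (mainC (ty_of_iso h0 hI) (Or.inl ⟨rfl, hm, fun h => Nat.card_eq_fintype_card (α := F) ▸ hm2 h⟩)
      hr.1 hs.1 hrs (dvd_NN h0 hI hc hm hr.1 (h1.trans hd)) (dvd_NN h0 hI hc hm hs.1 (h2.trans hd))).1 rfl
  · have h2 := o_two_ne_zero_of_odd_card hodd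
    obtain ⟨f, hf⟩ := exists_odd_eq_prod (F := F) m
    have hI := iso_prod (quad_odd_nondeg h2) (osq_nondeg h2) f hf
    have h0 : (ofQ _ (osq_nondeg h2)).Ty 0 1 := ty_zero (fun v hv => by simpa [ofQ] using hv) (by simp [ofQ])
    have hc : Nat.card (ofQ _ (osq_nondeg h2)).G ∣ 2 * (Nat.card F + 1) := by
      rw [card_ofQ, card_OG_osq h2]
      exact dvd_mul_right _ _
    refine adj_O (quad_odd m F) (quad_odd_nondeg h2) e hr hs hrs fun h1 h1' => ?_
    refine mainC (ty_of_iso h0 hI) (Or.inr ⟨rfl, hm, h2, ?_⟩) hr.1 hs.1 hrs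
      (dvd_NN h0 hI hc (by omega) hr.1 h1) (dvd_NN h0 hI hc (by omega) hs.1 h1')
    rw [cz_iff]
    refine negOne_notMem_commutator_of_odd (quad_odd_nondeg h2) h2 ⟨m, ?_⟩
    simp
    ring
  · obtain ⟨f, hf⟩ := exists_plus_prod_punit (F := F) m
    have hI := iso_prod quad_plus_nondeg o_punit_nondeg f.symm fun v => by rw [← hf, f.apply_symm_apply]
    have h0 : (ofQ (F := F) _ o_punit_nondeg).Ty 0 0 := ty_zero (fun _ _ => Subsingleton.elim _ _)
      (by simp [ofQ, finrank_zero_of_subsingleton])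
    have hc : Nat.card (ofQ (F := F) _ o_punit_nondeg).G ∣ 2 * (Nat.card F + 1) := by
      rw [card_ofQ, card_OG_of_subsingleton]
      exact one_dvd _
    refine adj_O (quad_plus m F) quad_plus_nondeg e hr hs hrs fun h1 h1' => ?_
    refine mainP (ty_of_iso h0 hI) hm (fun h5 h3 => ?_) hr.1 hs.1 hrs
      (dvd_NN h0 hI hc (by omega) hr.1 h1) (dvd_NN h0 hI hc (by omega) hs.1 h1')
    rw [Nat.card_eq_fintype_card] at h3
    rw [cz_iff, negOne_mem_commutator_plus_iff (o_two_ne_zero_of_odd_card (by rw [h3]; decide)), h3, h5]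
    decide
  · obtain ⟨f, hf⟩ := exists_minus_eq_prod (F := F) (m - 1) a b
    have hb := obin_nondeg (o_disc_ne_zero_of_anisotropic hab)
    have hI := iso_prod (o_minus_nondeg hab) hb f hf
    have h0 : (ofQ _ hb).Ty 0 2 := ty_zero (obin_aniso hab) (by simp [ofQ])
    have hc : Nat.card (ofQ _ hb).G ∣ 2 * (Nat.card F + 1) := by
      obtain ⟨f', hf'⟩ := exists_minus_eq_prod (F := F) 0 a b
      have hI' := iso_prod (o_minus_nondeg hab) hb f' hf'
      rw [(iso_hyp_zero.trans hI'.symm).card_G, card_ofQ, card_OG_minus hab]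
      simp
    refine adj_O (quad_minus (m - 1) F a b) (o_minus_nondeg hab) e hr hs hrs fun h1 h1' => ?_
    refine mainM (ty_of_iso h0 hI) (by omega) (fun h3 h2 => ?_) hr.1 hs.1 hrs
      (dvd_NN h0 hI hc (by omega) hr.1 h1) (dvd_NN h0 hI hc (by omega) hs.1 h1')
    rw [cz_iff, negOne_mem_commutator_minus_iff h2 _ hab, h3]
    have : Fintype.card F % 4 = 0 ∨ Fintype.card F % 4 = 1 ∨ Fintype.card F % 4 = 2 ∨ Fintype.card F % 4 = 3 := by
      omega
    rcases this with h | h | h | h <;> simp [Nat.pow_mod, h]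

end Cfsg.Agent.S4984
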