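import Mathlib
import Cfsg.Statements.S4989
import Cfsg.Agent.Ch.ZeroBound

set_option autoImplicit false
open Cfsg

namespace Cfsg.Agent.S4989

set_option linter.unusedVariables false

/-- Let H be a subgroup of the finite group G and χ an irreducible complex character of G. Then the inner product of the restriction of χ to H with itself, (1/#H)·Σ_{h ∈ H} |χ(h)|², is at most 1 + #(Z ∖ H)/#H, where Z is the set of zeros of χ in G. -/
theorem result {G : Type*} [Group G] [Finite G] (H : Subgroup G) (χ : Cfsg.IrrCharacter G) : (Nat.card ↥H : ℝ)⁻¹ * ∑ᶠ h : ↥H, ‖(χ : G → ℂ) h‖ ^ 2 ≤ 1 + (Set.ncard ({x : G | (χ : G → ℂ) x = 0} \ (H : Set G)) : ℝ) / (Nat.card ↥H : ℝ) := by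
  classical
  cases nonempty_fintype G
  have hH : (0 : ℝ) < Nat.card H := by exact_mod_cast Nat.card_pos
  set S : Finset G := Finset.univ.filter fun g => g ∉ H ∧ (χ : G → ℂ) g ≠ 0 with hS
  have hpow : ∀ (s : G) (k : ℕ), k.Coprime (Nat.card G) → ∃ m : ℕ, m.Coprime (Nat.card G) ∧
      (s ^ k) ^ m = s := by
    intro s k hk
    rcases Nat.eq_zero_or_pos (Nat.card G - 1) with h0 | h0
    · refine ⟨1, Nat.coprime_one_left _, ?_⟩
      have : Nat.card G = 1 := by have : 0 < Nat.card G := Nat.card_pos; omega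
      have := (Nat.card_eq_one_iff_unique.1 this).1
      exact Subsingleton.elim _ _
    · obtain ⟨m, -, hm⟩ := Nat.exists_mul_mod_eq_one_of_coprime hk (by omega)
      refine ⟨m, ?_, ?_⟩
      · have h1 : (k * m).Coprime (Nat.card G) := by
          rw [Nat.Coprime, Nat.gcd_comm, Nat.gcd_rec, Nat.gcd_comm, Nat.gcd_rec]
          rw [← Nat.gcd_rec, Nat.gcd_comm, ← Nat.gcd_rec, Nat.gcd_rec, hm, Nat.gcd_one_left]
        exact Nat.Coprime.coprime_mul_left h1
      · rw [← pow_mul, ← pow_mod_natCard, hm, pow_one]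
  have h1 := Ch.card_le_sum_norm_pow χ.2.isCharacter S (fun s hs k hk => by
    rw [hS, Finset.mem_filter] at hs ⊢
    obtain ⟨m, hm1, hm2⟩ := hpow s k hk
    refine ⟨Finset.mem_univ _, fun h => hs.2.1 ?_, fun h => hs.2.2 ?_⟩
    · rw [← hm2]; exact H.pow_mem h m
    · rw [← hm2]; exact Ch.apply_pow_eq_zero_of_coprime_card χ.2.isCharacter h hm1)
    (fun s hs => (Finset.mem_filter.1 hs).2.2) 2
  have h2 := χ.2.sum_norm_sq
  have h3 : ∑ g ∈ Finset.univ.filter (fun g => g ∈ H), ‖(χ : G → ℂ) g‖ ^ 2 +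
      ∑ g ∈ S, ‖(χ : G → ℂ) g‖ ^ 2 ≤ ∑ g, ‖(χ : G → ℂ) g‖ ^ 2 := by
    rw [← Finset.sum_union]
    · exact Finset.sum_le_sum_of_subset_of_nonneg (Finset.subset_univ _) fun _ _ _ => by positivity
    · rw [Finset.disjoint_left]
      intro g hg hg'
      exact (Finset.mem_filter.1 hg').2.1 (Finset.mem_filter.1 hg).2
  have h4 : Nat.card G = Nat.card H + S.card +
      Set.ncard ({x : G | (χ : G → ℂ) x = 0} \ (H : Set G)) := by
    rw [Set.ncard_eq_toFinset_card', Nat.card_eq_fintype_card, Nat.card_eq_fintype_card,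
      Fintype.card_subtype, ← Finset.card_union_of_disjoint, ← Finset.card_union_of_disjoint,
      ← Finset.card_univ]
    · congr 1
      ext g
      simp only [hS, Finset.mem_univ, Finset.mem_union, Finset.mem_filter, true_and,
        Set.mem_toFinset, Set.mem_sdiff, Set.mem_ofPred_eq, SetLike.mem_coe, true_iff]
      tauto
    · rw [Finset.disjoint_left]
      intro g hg hg'
      simp only [hS, Finset.mem_univ, Finset.mem_union, Finset.mem_filter, true_and,
        Set.mem_toFinset, Set.mem_sdiff, Set.mem_ofPred_eq, SetLike.mem_coe] at hg hg'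
      tauto
    · rw [Finset.disjoint_left]
      intro g hg hg'
      exact (Finset.mem_filter.1 hg').2.1 (Finset.mem_filter.1 hg).2
  rw [finsum_eq_sum_of_fintype, ← Finset.sum_subtype (Finset.univ.filter fun g => g ∈ H)
    (p := fun g => g ∈ H) (by simp) (fun g => ‖(χ : G → ℂ) g‖ ^ 2), inv_mul_le_iff₀ hH,
    mul_add, mul_one, mul_div_cancel₀ _ hH.ne']
  have h5 : (Nat.card G : ℝ) = Nat.card H + S.card +
      Set.ncard ({x : G | (χ : G → ℂ) x = 0} \ (H : Set G)) := by exact_mod_cast h4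
  linarith

end Cfsg.Agent.S4989
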