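import Mathlib
import Cfsg.Statements.S4993
import Cfsg.Agent.FG.PrimChar
import Cfsg.Agent.GT.Fitting
import Cfsg.Agent.GT.PGroupChain
import Cfsg.Agent.GT.ComplementSystem

set_option autoImplicit false
open Cfsg

namespace Cfsg.Agent.S4993

theorem centChief {G : Type*} [Group G] [Fintype G] [(Cfsg.fittingSubgroup G).Normal]
    (hmeta : Group.IsNilpotent (G ⧸ Cfsg.fittingSubgroup G)) {p : ℕ} [hp : Fact p.Prime]
    (P : Sylow p G) {c : G} (hc : c ∈ (P : Subgroup G)) : FG.BS.CentChief p c := by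
  intro K L _ _ hLK hchief hab hdvd
  let π := QuotientGroup.mk' L
  let F := Cfsg.fittingSubgroup G
  have hπ := QuotientGroup.mk'_surjective L
  have hlt : L < K := lt_of_le_of_ne hLK fun e => by
    rw [e, Subgroup.relIndex_self] at hdvd
    exact hp.out.one_lt.ne' (Nat.dvd_one.mp hdvd)
  have hN : GT.IsMinNormal (K.map π) :=
    IsChiefFactor.isMinNormal_map ⟨hlt, inferInstance, inferInstance, hchief⟩
  have hNn := hN.normal
  have hcomm : IsMulCommutative (K.map π) := Subgroup.commutator_self_eq_bot_iff.mp (by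
    rw [← Subgroup.map_commutator, Subgroup.map_eq_bot_iff, QuotientGroup.ker_mk']; exact hab)
  have := GT.isSolvable_of_isMulCommutative (G := K.map π)
  obtain ⟨r, hr, hrN, -⟩ := hN.exists_isPGroup
  obtain rfl : p = r := by
    have := Fact.mk hr
    obtain ⟨k, hk⟩ := hrN.exists_card_eq
    rw [← QuotientGroup.ker_mk' L, Subgroup.relIndex_ker, hk] at hdvd
    exact (Nat.prime_dvd_prime_iff_eq hp.out hr).mp (hp.out.dvd_of_dvd_pow hdvd)
  have hR : ((P : Subgroup G) ⊔ F).Normal := by
    have h1 : ((P.mapSurjective (QuotientGroup.mk'_surjective F) : Sylow p (G ⧸ F)) :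
      Subgroup (G ⧸ F)).Normal := inferInstance
    have h2 := h1.comap (QuotientGroup.mk' F)
    rwa [Sylow.coe_mapSurjective, Subgroup.comap_map_eq, QuotientGroup.ker_mk'] at h2
  have hRn := hR.map π hπ
  have hFn : (F.map π).Normal := Subgroup.Normal.map inferInstance π hπ
  have := GT.isNilpotent_fitting (G := G)
  have := GT.isNilpotent_map F π
  have h1 := hN.le_centralizer_of_isNilpotent (F.map π)
  have h2 := GT.PG.inf_centralizer_ne_bot_of_isPGroup hrN (P.isPGroup'.map π)
    Subgroup.le_normalizer_of_normal hN.ne_bot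
  have h3 : K.map π ⊓ Subgroup.centralizer (((P : Subgroup G) ⊔ F).map π : Set (G ⧸ L)) = K.map π := by
    refine (hN.eq_bot_or_eq inf_le_left).resolve_left fun h => h2 (eq_bot_iff.mpr ?_)
    rw [← h]
    refine le_inf inf_le_left (Subgroup.le_centralizer_iff.mp ?_)
    rw [Subgroup.map_sup]
    exact sup_le (Subgroup.le_centralizer_iff.mp inf_le_right)
      (h1.trans (Subgroup.centralizer_le fun x hx => hx.1))
  refine le_antisymm inf_le_left fun k hk => FG.BS.mem_cmod.mpr ⟨hk, ?_⟩
  have h4 := (h3.ge ⟨k, hk, rfl⟩).2 (π c) ⟨c, Subgroup.mem_sup_left hc, rfl⟩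
  show π (c * k * c⁻¹) = π k
  rw [map_mul, map_mul, h4, map_inv, mul_inv_cancel_right]


/-- Let G be a group of odd order whose order has exactly two prime divisors and whose quotient by its Fitting subgroup is nilpotent (G is metanilpotent), and let χ be a primitive irreducible complex character of G (not induced from a character of any proper subgroup). Then χ(1) divides the size of some conjugacy class of G. -/
theorem result {G : Type*} [Group G] [Fintype G] (hodd : Odd (Nat.card G)) (h2 : (Nat.card G).primeFactors.card = 2) [hF : (Cfsg.fittingSubgroup G).Normal] (hmeta : Group.IsNilpotent (G ⧸ Cfsg.fittingSubgroup G)) (χ : Cfsg.IrrCharacter G) (hprim : ¬ ∃ (H : Subgroup G), H ≠ ⊤ ∧ ∃ θ : ↥H → ℂ, Cfsg.IsCharacter ↥H θ ∧ Cfsg.indFun H θ = (χ : G → ℂ)) : ∃ g : G, Cfsg.charDegree (χ : G → ℂ) ∣ (Subgroup.centralizer ({g} : Set G)).index := by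
  have := GT.isNilpotent_fitting (G := G)
  have : Group.IsSolvable G := (Group.isSolvable_iff_subgroup_quotient (Cfsg.fittingSubgroup G)).mpr
    ⟨inferInstance, inferInstance⟩
  obtain ⟨p, q, hpq, he⟩ := Finset.card_eq_two.mp h2
  have hmem : ∀ r : ℕ, r.Prime → r ∣ Nat.card G → r = p ∨ r = q := fun r hr hd => by
    have := Nat.mem_primeFactors.mpr ⟨hr, hd, Nat.card_pos.ne'⟩
    rw [he] at this
    simpa using this
  have hp : Fact p.Prime := ⟨Nat.prime_of_mem_primeFactors (n := Nat.card G) (by rw [he]; simp)⟩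
  have hq : Fact q.Prime := ⟨Nat.prime_of_mem_primeFactors (n := Nat.card G) (by rw [he]; simp)⟩
  obtain ⟨P⟩ : Nonempty (Sylow p G) := inferInstance
  obtain ⟨Q⟩ : Nonempty (Sylow q G) := inferInstance
  obtain ⟨g1, h1⟩ := FG.BS.prim_class χ.2 hprim hp.out
  obtain ⟨g2, h2⟩ := FG.BS.prim_class χ.2 hprim hq.out
  obtain ⟨a, ha, b, hb, e⟩ := GT.HT.exists_mul_of_coprime_index (A := P) (B := Q)
    (Nat.coprime_of_dvd fun r hr d1 d2 => by
      rcases hmem r hr (d1.trans (Subgroup.index_dvd_card _)) with rfl | rfl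
      exacts [P.not_dvd_index d1, Q.not_dvd_index d2]) (g1⁻¹ * g2)
  refine ⟨g1 * a, (Nat.factorization_prime_le_iff_dvd χ.2.charDegree_pos.ne'
    Subgroup.index_ne_zero_of_finite).mp fun r hr => ?_⟩
  by_cases hd : r ∣ Cfsg.charDegree (χ : G → ℂ)
  · rcases hmem r hr (hd.trans χ.2.charDegree_dvd_card) with rfl | rfl
    · exact h1 a (Or.inr (centChief hmeta P ha))
    · rw [show g1 * a = g2 * b⁻¹ by rw [eq_mul_inv_iff_mul_eq, mul_assoc, ← e, mul_inv_cancel_left]]
      exact h2 _ (Or.inr (centChief hmeta Q (Subgroup.inv_mem _ hb)))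
  · rw [Nat.factorization_eq_zero_of_not_dvd hd]
    exact Nat.zero_le _

end Cfsg.Agent.S4993
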