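import Mathlib
import Cfsg.Statements.S4996
import Cfsg.Agent.Ch.ZeroBound

set_option autoImplicit false
open Cfsg

namespace Cfsg.Agent.S4996

set_option linter.unusedVariables false

/-- Let N be a normal subgroup of the finite group G and χ an irreducible complex character of G. Then the restriction of χ to N is not irreducible if and only if χ vanishes on some whole coset Nx of N in G. -/
theorem result {G : Type*} [Group G] [Finite G] (N : Subgroup G) [N.Normal] (χ : Cfsg.IrrCharacter G) : ¬ Cfsg.IsIrrCharacter ↥N (fun n : ↥N => (χ : G → ℂ) n) ↔ ∃ x : G, ∀ n : ↥N, (χ : G → ℂ) ((n : G) * x) = 0 := by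
  classical
  cases nonempty_fintype G
  have hχ := χ.2.isCharacter
  set f := Ch.cosetAvg N ((χ : G → ℂ) * fun g => (starRingEnd ℂ) ((χ : G → ℂ) g)) with hf
  have hfc : IsCharacter G f := Ch.isCharacter_cosetAvg N (hχ.mul hχ.complexConj)
  have hNpos : (0 : ℝ) < Nat.card N := by exact_mod_cast Nat.card_pos
  have hval : ∀ g, f g = (((Nat.card N : ℝ)⁻¹ * ∑ n : N, ‖(χ : G → ℂ) (n * g)‖ ^ 2 : ℝ) : ℂ) := by
    intro g
    rw [hf, Ch.cosetAvg_apply]
    simp only [Pi.mul_apply, Complex.mul_conj, Complex.normSq_eq_norm_sq]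
    push_cast
    rfl
  have hnorm : ∀ g, (‖f g‖ : ℂ) = f g := by
    intro g
    rw [hval, Complex.norm_real, Real.norm_of_nonneg (by positivity)]
  have hsum : ∑ g, ‖f g‖ = Nat.card G := by
    have h1 : ∑ g, f g = ((∑ g, ‖(χ : G → ℂ) g‖ ^ 2 : ℝ) : ℂ) := by
      rw [hf, Ch.sum_cosetAvg]
      simp only [Pi.mul_apply, Complex.mul_conj, Complex.normSq_eq_norm_sq]
      push_cast
      rfl
    rw [χ.2.sum_norm_sq] at h1
    have h2 : ((∑ g, ‖f g‖ : ℝ) : ℂ) = ((Nat.card G : ℝ) : ℂ) := by
      rw [← h1]; push_cast; simp only [hnorm]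
    exact_mod_cast h2
  have h1 : f 1 = classInner (fun n : N => (χ : G → ℂ) n) (fun n : N => (χ : G → ℂ) n) := by
    rw [hf, Ch.cosetAvg_apply, Ch.classInner_def]
    simp
  have hres := hχ.restrict N
  constructor
  · intro hirr
    by_contra hcon
    push Not at hcon
    apply hirr
    apply hres.isIrr_of_classInner_self
    set S : Finset G := Finset.univ.filter fun g => g ∉ N with hS
    have hne : ∀ g, f g ≠ 0 := by
      intro g
      obtain ⟨n, hn⟩ := hcon g
      rw [hval]
      have : 0 < ∑ n : N, ‖(χ : G → ℂ) (n * g)‖ ^ 2 :=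
        Finset.sum_pos' (fun _ _ => by positivity) ⟨n, Finset.mem_univ _, by positivity⟩
      exact_mod_cast (mul_pos (inv_pos.2 hNpos) this).ne'
    have h2 := Ch.card_le_sum_norm_pow hfc S (fun s hs k hk => by
      rw [hS, Finset.mem_filter] at hs ⊢
      obtain ⟨m, hm⟩ := exists_pow_eq_self_of_coprime
        (Nat.Coprime.coprime_dvd_right (orderOf_dvd_natCard s) hk)
      refine ⟨Finset.mem_univ _, fun h => hs.2 ?_⟩
      rw [← hm]; exact N.pow_mem h m) (fun s _ => hne s) 1
    simp only [pow_one] at h2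
    have h3 : ∑ g ∈ Finset.univ.filter (fun g => g ∈ N), ‖f g‖ = Nat.card N * ‖f 1‖ := by
      rw [Finset.sum_congr rfl (g := fun _ => ‖f 1‖), Finset.sum_const, nsmul_eq_mul,
        Nat.card_eq_fintype_card, Fintype.card_subtype]
      intro g hg
      rw [← mul_one g, hf, Ch.cosetAvg_mul_left N _ (Finset.mem_filter.1 hg).2]
    have h4 := Finset.sum_filter_add_sum_filter_not Finset.univ (fun g => g ∈ N) fun g => ‖f g‖
    have h5 : (Nat.card G : ℝ) = Nat.card N + S.card := by
      rw [Nat.card_eq_fintype_card, Nat.card_eq_fintype_card, Fintype.card_subtype,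
        ← Finset.card_univ,
        ← Finset.card_filter_add_card_filter_not (s := Finset.univ) (fun g : G => g ∈ N)]
      push_cast
      rfl
    have h6 : ‖f 1‖ ≤ 1 := by
      rw [h3, hsum, h5] at h4
      nlinarith
    obtain ⟨m, hm⟩ := hres.exists_nat_classInner hres
    rw [h1, hm, Complex.norm_natCast] at h6
    have h7 := hne 1
    rw [h1, hm] at h7
    have h8 : m ≤ 1 := by exact_mod_cast h6
    have h9 : m ≠ 0 := by exact_mod_cast h7
    rw [hm, show m = 1 by omega, Nat.cast_one]
  · rintro ⟨x, hx⟩ hirr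
    rw [hirr.classInner_self] at h1
    have h2 : f x = 0 := by
      rw [hval]; simp [hx]
    have h3 : ∑ g, ‖f g‖ < ∑ g : G, (1 : ℝ) := by
      refine Finset.sum_lt_sum (fun g _ => ?_) ⟨x, Finset.mem_univ _, by simp [h2]⟩
      have := hfc.norm_le_norm_one g
      rwa [h1, norm_one] at this
    rw [hsum] at h3
    simp at h3

end Cfsg.Agent.S4996
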