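import Mathlib
import Cfsg.Statements.S5001
import Cfsg.Agent.Blk.DefectVanish
import Cfsg.Agent.Ch.Linear
import Cfsg.Agent.Ch.Integrality

set_option autoImplicit false
open Cfsg

namespace Cfsg.Agent.S5001

set_option linter.unusedVariables false

open Cfsg.Agent.Ch Cfsg.Agent.Blk
open scoped ComplexConjugate

/-- If `g` centralizes the `p`-subgroup `D` and `χ g` is not in the local ideal, then the
restriction of `χ` to `D` has a linear constituent. -/
theorem exists_linear_constituent {G : Type*} [Group G] [Finite G] {p : ℕ} [Fact p.Prime]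
    {M : Ideal AlgInt} (hM : IsPModular p M) {χ : G → ℂ} (hχ : IsCharacter G χ)
    {D : Subgroup G} (hD : IsPGroup p D) {g : G} (hg : g ∈ Subgroup.centralizer (D : Set G))
    (h : ¬ MemLocalIdeal M (χ g)) :
    ∃ (μ : D →* ℂˣ) (ψ : D → ℂ), IsCharacter D ψ ∧ ∀ d : D, χ d = μ d + ψ d := by
  classical
  have := hM.isMaximal
  have hcomm : ∀ (d : D) (b : Subgroup.zpowers g), Commute (D.subtype d)
      ((Subgroup.zpowers g).subtype b) := by
    rintro d ⟨_, n, rfl⟩
    have : Commute (d : G) g := (Subgroup.mem_centralizer_iff.1 hg d d.2)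
    exact this.zpow_right n
  let f : D × Subgroup.zpowers g →* G := MonoidHom.noncommCoprod _ _ hcomm
  obtain ⟨n, η, hη, hsum⟩ := (hχ.comp f).exists_fin_sum_irr
  choose φ ψ hφ hψ hφψ using fun i => (isIrrCharacter_prod_iff (η i)).1 (hη i)
  have hψ1 : ∀ i, ψ i 1 = 1 := fun i =>
    (hψ i).apply_one_eq_one_of_comm (fun a b => by
      obtain ⟨_, m, rfl⟩ := a
      obtain ⟨_, k, rfl⟩ := b
      exact Subtype.ext ((Commute.refl g).zpow_zpow m k))
  have hval : ∀ x : D × Subgroup.zpowers g, χ (f x) = ∑ i, φ i x.1 * ψ i x.2 := by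
    intro x
    have := congrFun hsum x
    simp only [Finset.sum_apply] at this
    rw [this]
    exact Finset.sum_congr rfl fun i _ => by rw [hφψ i]
  have hex : ∃ i, φ i 1 = 1 := by
    by_contra hne
    push Not at hne
    apply h
    have h1 : χ g = ∑ i, φ i 1 * ψ i ⟨g, Subgroup.mem_zpowers g⟩ := by
      rw [← hval (1, ⟨g, Subgroup.mem_zpowers g⟩)]
      simp [f]
    rw [h1]
    refine MemLocalIdeal.sum fun i _ => MemLocalIdeal.mul_right ?_
      (MemLocalRing.of_isIntegral ((hψ i).isCharacter.isIntegral _))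
    rw [← (hφ i).coe_charDegree, hM.natCast_mem_iff]
    obtain ⟨k, hk⟩ := IsPGroup.iff_card.1 hD
    have hd := (hφ i).charDegree_dvd_card
    rw [hk] at hd
    obtain ⟨j, -, hj⟩ := (Nat.dvd_prime_pow (Fact.out : p.Prime)).1 hd
    rcases j with _ | j
    · exact absurd ((hφ i).isCharacter.charDegree_eq_one_iff.1 (by simpa using hj)) (hne i)
    · rw [hj]; exact dvd_pow_self p (Nat.succ_ne_zero j)
  obtain ⟨i, hi⟩ := hex
  obtain ⟨μ, hμ⟩ := (hφ i).isCharacter.exists_monoidHom_of_apply_one hi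
  refine ⟨μ, ∑ j ∈ Finset.univ.erase i, φ j,
    IsCharacter.sum fun j _ => (hφ j).isCharacter, fun d => ?_⟩
  have h2 : χ d = ∑ j, φ j d := by
    have := hval (d, 1)
    simp only [hψ1, mul_one] at this
    rw [← this]
    simp [f]
  rw [h2, ← Finset.add_sum_erase _ _ (Finset.mem_univ i), hμ]
  simp [Finset.sum_apply]


/-- Let p be a prime, G a finite group and B a p-block of G (relative to a maximal ideal M of the algebraic integers containing p) with defect group D. Let Z be a central p-subgroup of G contained in D and λ a linear character of Z (a homomorphism to the nonzero complex numbers). Say an irreducible character χ of G lies over λ when χ(z) = χ(1)λ(z) for all z ∈ Z. If some irreducible character in B lying over λ has height zero, then λ extends to a linear character of D. -/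
theorem result {G : Type*} [Group G] [Finite G] (p : ℕ) [Fact p.Prime] (M : Ideal Cfsg.AlgInt) (hM : Cfsg.IsPModular p M) (B : Set (Cfsg.IrrCharacter G)) (hB : Cfsg.IsPBlock M B) (D : Subgroup G) (hD : Cfsg.IsDefectGroup p M B D) (Z : Subgroup G) (hZc : Z ≤ Subgroup.center G) (hZp : IsPGroup p ↥Z) (hZD : Z ≤ D) (lam : ↥Z →* ℂˣ) (χ : Cfsg.IrrCharacter G) (hχ : χ ∈ B) (hover : (∀ z : ↥Z, (χ : G → ℂ) z = (χ : G → ℂ) 1 * (lam z : ℂ))) (h0 : Cfsg.blockHeight p B (χ : G → ℂ) = 0) : (∃ μ : ↥D →* ℂˣ, ∀ z : ↥Z, μ ⟨(z : G), hZD z.2⟩ = lam z) := by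
  have := hM.isMaximal
  obtain ⟨g, hg, hgD⟩ := isDefectGroup_iff_isClassDefect.1 hD
  have hne : ¬ MemLocalIdeal M ((χ : G → ℂ) g) := by
    have := not_mem_irr_mul_of_isDefectClass hM hB hg (x := 1) ⟨0, by simp⟩ (by simp) hχ h0
    simpa using this
  obtain ⟨μ, ψ, hψ, hsum⟩ := exists_linear_constituent hM χ.2.isCharacter hgD.isPGroup
    hgD.mem_centralizer hne
  refine ⟨μ, fun z => ?_⟩
  set d : D := ⟨(z : G), hZD z.2⟩ with hd
  have e1 : (χ : G → ℂ) z = μ d + ψ d := hsum d
  have e2 : (χ : G → ℂ) 1 = 1 + ψ 1 := by simpa using hsum 1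
  have e3 := hover z
  rw [e1, e2] at e3
  have hl : (lam z : ℂ) * conj (lam z : ℂ) = 1 := monoidHom_units_mul_conj lam z
  have e4 : (μ d : ℂ) * conj (lam z : ℂ) + ψ d * conj (lam z : ℂ) = 1 + ψ 1 := by
    rw [← add_mul, e3, mul_assoc, hl, mul_one]
  have n1 : ‖(μ d : ℂ) * conj (lam z : ℂ)‖ = 1 := by
    rw [norm_mul, norm_monoidHom_units, RCLike.norm_conj, norm_monoidHom_units, mul_one]
  have n2 : ‖ψ d * conj (lam z : ℂ)‖ ≤ (ψ 1).re := by
    rw [norm_mul, RCLike.norm_conj, norm_monoidHom_units, mul_one, hψ.re_apply_one]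
    exact hψ.norm_le d
  have r1 := Complex.re_le_norm ((μ d : ℂ) * conj (lam z : ℂ))
  have r2 := Complex.re_le_norm (ψ d * conj (lam z : ℂ))
  have r3 := congrArg Complex.re e4
  rw [Complex.add_re, Complex.add_re, Complex.one_re] at r3
  have r4 : ((μ d : ℂ) * conj (lam z : ℂ)).re = 1 := by linarith
  have r5 : (μ d : ℂ) * conj (lam z : ℂ) = 1 := by
    have h6 := Complex.sq_norm ((μ d : ℂ) * conj (lam z : ℂ))
    rw [n1, Complex.normSq_apply, r4] at h6
    apply Complex.ext
    · simpa using r4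
    · have : ((μ d : ℂ) * conj (lam z : ℂ)).im * ((μ d : ℂ) * conj (lam z : ℂ)).im = 0 := by
        linarith
      rw [Complex.one_im]
      exact mul_self_eq_zero.1 this
  have hc : conj (lam z : ℂ) ≠ 0 := by
    rw [map_ne_zero]; exact Units.ne_zero _
  apply Units.ext
  exact mul_right_cancel₀ hc (r5.trans hl.symm)

end Cfsg.Agent.S5001
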