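import Mathlib
import Cfsg.Statements.S5008
import Cfsg.Agent.S4888
import Cfsg.Agent.S0938
import Cfsg.Agent.Blk.PB
import Cfsg.Agent.Blk.Idem
import Cfsg.Agent.Blk.Local2
import Cfsg.Agent.Ch.Galois
import Cfsg.Agent.Ch.Linear

set_option autoImplicit false
open Cfsg

namespace Cfsg.Agent.S5008

/-- Let `G` be a finite group and `p` a prime dividing the size of no vanishing conjugacy class of `G` (a class of an element on which some irreducible complex character takes the value zero). Then `G` has a normal `p`-complement and abelian Sylow `p`-subgroups. The known proof uses the classification of finite simple groups. -/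
theorem result {G : Type*} [Group G] [Finite G] (p : ℕ) [Fact p.Prime]
    (h : ∀ x : G, (∃ χ : Cfsg.IrrCharacter G, (χ : G → ℂ) x = 0) → ¬ p ∣ (Subgroup.centralizer ({x} : Set G)).index) :
    Cfsg.HasNormalPComplement p G ∧ ∀ P : Sylow p G, IsMulCommutative (P : Subgroup G) := by
  have hp : p.Prime := Fact.out
  obtain ⟨M, hM⟩ := Blk.exists_isPModular hp
  haveI := hM.isMaximal
  -- members of the principal block have no zero, so they are linear
  have hlin : ∀ χ ∈ principalBlock M G, charDegree (χ : G → ℂ) = 1 := by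
    intro χ hχ
    by_contra hne
    have h1 : 1 < charDegree (χ : G → ℂ) := by
      have := χ.2.charDegree_pos
      omega
    obtain ⟨g, hg⟩ := χ.2.exists_apply_eq_zero h1
    exact Blk.PB.apply_ne_zero hM hχ (h g ⟨χ, hg⟩) hg
  refine ⟨(S4888.result p M hM).1 ⟨1, fun χ hχ _ => hlin χ hχ⟩, fun P => ?_⟩
  obtain ⟨K, -, hK, hpK, -⟩ := S0938.result p M hM _ Blk.isPBlock_principalBlock (Ch.irrOne G)
    Blk.irrOne_mem_principalBlock
  refine ⟨⟨fun a b => ?_⟩⟩
  have hc : ((a * b * a⁻¹ * b⁻¹ : (P : Subgroup G)) : G) ∈ K := by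
    rw [← SetLike.mem_coe, hK]
    intro χ hχ
    have h1 : (χ : G → ℂ) 1 = 1 := by
      rw [← χ.2.coe_charDegree, hlin χ hχ, Nat.cast_one]
    obtain ⟨f, rfl⟩ := Ch.mem_range_linIrr_iff.2 h1
    rw [Ch.linIrr_apply, Ch.linIrr_apply]
    congr 1
    simp [mul_comm]
  have h1 : a * b * a⁻¹ * b⁻¹ = 1 := by
    obtain ⟨k, hk⟩ := P.isPGroup'.exists_orderOf_eq_pow (a * b * a⁻¹ * b⁻¹)
    have h2 : orderOf ((a * b * a⁻¹ * b⁻¹ : (P : Subgroup G)) : G) ∣ Nat.card K :=
      Subgroup.orderOf_dvd_natCard K hc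
    rw [Subgroup.orderOf_coe, hk] at h2
    rcases k with _ | k
    · exact orderOf_eq_one_iff.1 (by simpa using hk)
    · exact absurd ((dvd_pow_self p (Nat.succ_ne_zero k)).trans h2) hpK
  calc a * b = (a * b * a⁻¹ * b⁻¹) * (b * a) := by group
    _ = b * a := by rw [h1, one_mul]

end Cfsg.Agent.S5008
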