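import Mathlib
import Cfsg.Statements.S5011
import Cfsg.Agent.Ch.Kernel

set_option autoImplicit false
open Cfsg

namespace Cfsg.Agent.S5011

/-- Let G be a finite non-abelian simple group and ρ an irreducible complex representation of G on a space of dimension greater than one (irreducible in the sense that the only subspaces invariant under every ρ(x) are 0 and the whole space). Then for every non-identity element g of G, the centralizer of g does not act irreducibly: there is a non-zero proper subspace invariant under ρ(c) for every c commuting with g. -/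
theorem result {G : Type*} [Group G] [Finite G] [IsSimpleGroup G]
    (hG : ¬ IsMulCommutative G) {V : Type*} [AddCommGroup V] [Module ℂ V] [FiniteDimensional ℂ V]
    (ρ : Representation ℂ G V)
    (hirr : ∀ W : Submodule ℂ V, (∀ x : G, ∀ v ∈ W, ρ x v ∈ W) → W = ⊥ ∨ W = ⊤)
    (hdim : 1 < Module.finrank ℂ V) (g : G) (hg : g ≠ 1) :
    ∃ W : Submodule ℂ V, W ≠ ⊥ ∧ W ≠ ⊤ ∧ ∀ c ∈ Subgroup.centralizer ({g} : Set G), ∀ v ∈ W, ρ c v ∈ W := by
  by_contra hc
  push Not at hc
  have : Nontrivial V := Module.nontrivial_of_finrank_pos (R := ℂ) (by omega)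
  obtain ⟨c, hc'⟩ := Module.End.exists_eigenvalue (ρ g)
  have h1 : Module.End.eigenspace (ρ g) c = ⊤ := by
    by_contra h
    obtain ⟨x, hx, v, hv, h2⟩ := hc _ hc' h
    refine h2 ?_
    rw [Module.End.mem_eigenspace_iff] at hv ⊢
    rw [← Module.End.mul_apply, ← map_mul, hx g rfl, map_mul, Module.End.mul_apply, hv, map_smul]
  let K : Subgroup G :=
    { carrier := {x | ∀ y, ρ x * ρ y = ρ y * ρ x}
      one_mem' := fun y => by simp
      mul_mem' := fun {a b} ha hb y => by rw [map_mul, mul_assoc, hb, ← mul_assoc, ha, mul_assoc]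
      inv_mem' := fun {a} ha y => by
        have h2 := ha (a⁻¹ * y * a⁻¹)
        simp only [← map_mul, ← mul_assoc, mul_inv_cancel, one_mul, inv_mul_cancel_right] at h2 ⊢
        exact h2.symm }
  have hK : K.Normal := ⟨fun a ha x y => by
    have h2 := congrArg (fun t => ρ x * t * ρ x⁻¹) (ha (x⁻¹ * y * x))
    simpa only [← map_mul, ← mul_assoc, mul_inv_cancel, one_mul, mul_inv_cancel_right] using h2⟩
  have hg' : g ∈ K := fun y => LinearMap.ext fun v => by
    have h2 : ∀ w, ρ g w = c • w := fun w =>
      Module.End.mem_eigenspace_iff.1 (h1.ge Submodule.mem_top)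
    rw [Module.End.mul_apply, Module.End.mul_apply, h2, h2, map_smul]
  have hK' : K = ⊤ := (hK.eq_bot_or_eq_top).resolve_left fun h => hg (h.le hg')
  have hker : ρ.asGroupHom.ker = ⊤ := by
    refine (ρ.asGroupHom.normal_ker.eq_bot_or_eq_top).resolve_left fun h => hG ⟨⟨fun a b => ?_⟩⟩
    refine (MonoidHom.ker_eq_bot_iff _).1 h (Units.ext ?_)
    simpa [Representation.asGroupHom_apply] using hK'.ge (Subgroup.mem_top a) b
  obtain ⟨v, hv⟩ := exists_ne (0 : V)
  rcases hirr (Submodule.span ℂ {v}) (fun x w hw => by
    have h2 : ρ x = 1 := by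
      simpa [Representation.asGroupHom_apply] using
        congrArg Units.val (hker.ge (Subgroup.mem_top x))
    rwa [h2]) with h | h
  · exact hv (Submodule.span_singleton_eq_bot.1 h)
  · have h2 := finrank_span_singleton (K := ℂ) hv
    rw [h, finrank_top] at h2
    omega

end Cfsg.Agent.S5011
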