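import Mathlib
import Cfsg.Statements.S5075
import Cfsg.Agent.Cl.MaxSpMcLB
import Cfsg.Agent.GT.Cores
-- import your own Cfsg.Agent.* helpers here

set_option autoImplicit false
open Cfsg

namespace Cfsg.Agent.S5075

/-- Let p be an odd prime, V a finite-dimensional vector space over the field with p elements, and H a group of linear automorphisms of V generated by transvections (elements of order p fixing a hyperplane pointwise) and having no nontrivial normal p-subgroup. Then for some n ≥ 1 there are a decomposition V = V₀ ⊕ V₁ ⊕ ⋯ ⊕ Vₙ into H-invariant subspaces and a decomposition of H as the internal direct product of normal subgroups H₁, …, Hₙ such that Hⱼ acts trivially on every Vᵢ with i ≠ j, and Hⱼ induces on Vⱼ exactly the special linear group of Vⱼ or exactly the isometry group of a non-degenerate alternating form on Vⱼ. -/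
theorem result {p : ℕ} [Fact p.Prime] (hp : Odd p) {V : Type*} [AddCommGroup V] [Module (ZMod p) V] [Finite V]
    (H : Subgroup (V ≃ₗ[ZMod p] V)) (T : Set (V ≃ₗ[ZMod p] V)) (hHT : H = Subgroup.closure T)
    (hT : ∀ t ∈ T, orderOf t = p ∧
      Module.finrank (ZMod p) ↥(LinearMap.ker ((t : V →ₗ[ZMod p] V) - LinearMap.id)) + 1 =
        Module.finrank (ZMod p) V)
    (hOp : Cfsg.pCore p ↥H = ⊥) :
    ∃ (n : ℕ) (W : Fin (n + 1) → Submodule (ZMod p) V) (K : Fin n → Subgroup (V ≃ₗ[ZMod p] V)),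
      1 ≤ n ∧ DirectSum.IsInternal W ∧
      (∀ h ∈ H, ∀ i, (W i).map (h : V →ₗ[ZMod p] V) = W i) ∧
      (∀ j, K j ≤ H ∧ ((K j).subgroupOf H).Normal) ∧ ⨆ j, K j = H ∧
      (∀ j, K j ⊓ (⨆ j' ∈ {j' : Fin n | j' ≠ j}, K j') = ⊥) ∧
      (∀ j j', j ≠ j' → ∀ a ∈ K j, ∀ b ∈ K j', a * b = b * a) ∧
      (∀ j, ∀ h ∈ K j, ∀ i : Fin (n + 1), i ≠ j.succ → ∀ v ∈ W i, h v = v) ∧
      (∀ j, ∃ ρ : ↥(K j) →* (↥(W j.succ) ≃ₗ[ZMod p] ↥(W j.succ)),
        (∀ (h : ↥(K j)) (v : ↥(W j.succ)), ((ρ h v : ↥(W j.succ)) : V) = (h : V ≃ₗ[ZMod p] V) (v : V)) ∧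
        ((ρ.range : Set (↥(W j.succ) ≃ₗ[ZMod p] ↥(W j.succ))) =
            {f : ↥(W j.succ) ≃ₗ[ZMod p] ↥(W j.succ) | LinearMap.det (f : ↥(W j.succ) →ₗ[ZMod p] ↥(W j.succ)) = 1} ∨
          ∃ B : LinearMap.BilinForm (ZMod p) ↥(W j.succ), B.IsAlt ∧ B.Nondegenerate ∧
            (ρ.range : Set (↥(W j.succ) ≃ₗ[ZMod p] ↥(W j.succ))) = {f : ↥(W j.succ) ≃ₗ[ZMod p] ↥(W j.succ) | ∀ x y, B (f x) (f y) = B x y})) := by
  have : FiniteDimensional (ZMod p) V := Module.Finite.of_finite
  have hp3 : 3 ≤ p := by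
    have := (Fact.out : p.Prime).two_le
    obtain ⟨k, rfl⟩ := hp
    omega
  refine Cl.MaxSp.McL.Hyp.main (H := H) ⟨fun v φ c ht => ?_, fun P hP => ?_, ?_, ?_⟩
  · simpa using ht.nsmul_right c.val
  · rw [hHT, Subgroup.closure_le]
    intro t ht
    obtain ⟨h1, h2⟩ := hT t ht
    have h3 := LinearMap.finrank_range_add_finrank_ker ((t : V →ₗ[ZMod p] V) - LinearMap.id)
    obtain ⟨v, hv, h4⟩ := finrank_eq_one_iff'.1
      (show Module.finrank (ZMod p) (LinearMap.range ((t : V →ₗ[ZMod p] V) - LinearMap.id)) = 1 by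
        omega)
    have hv0 : (v : V) ≠ 0 := fun e => hv (Subtype.ext e)
    obtain ⟨φ, hφ⟩ := Cl.MSL.exists_dual_of_sub_mem (t : V →ₗ[ZMod p] V) hv0 fun x => by
      obtain ⟨c, hc⟩ := h4 ⟨_, x, rfl⟩
      have := congrArg Subtype.val hc
      exact ⟨c, eq_add_of_sub_eq' (by simpa using this.symm)⟩
    have e : ∀ x, t x = x + φ x • (v : V) := fun x => LinearMap.congr_fun hφ x
    refine hP t (hHT ▸ Subgroup.subset_closure ht) v φ ?_ e
    have k : ∀ n : ℕ, (t ^ n) v = (1 + φ v) ^ n • (v : V) := fun n => by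
      induction n with
      | zero => simp
      | succ n ih => rw [pow_succ, LinearEquiv.mul_apply, e, map_add, map_smul, ih]; module
    have k1 := k p
    rw [show t ^ p = 1 from (congrArg (t ^ ·) h1.symm).trans (pow_orderOf_eq_one t), ZMod.pow_card] at k1
    have k2 : φ v • (v : V) = 0 := by simpa [add_smul] using k1
    exact (smul_eq_zero.1 k2).resolve_right hv0
  · intro Z₁ Z₂ h1 h2 g hg a b c
    let N : Subgroup H :=
      { carrier := {g | (∀ x ∈ Z₁, g.1 x = x) ∧ (∀ x ∈ Z₂, g.1 x - x ∈ Z₁) ∧ ∀ x, g.1 x - x ∈ Z₂}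
        one_mem' := by simp
        mul_mem' := fun {a b} ⟨a1, a2, a3⟩ ⟨b1, b2, b3⟩ => by
          refine ⟨fun x hx => ?_, fun x hx => ?_, fun x => ?_⟩
          · simp [b1 x hx, a1 x hx]
          · simpa using Z₁.add_mem (a2 _ (h2 b b.2 x hx)) (b2 x hx)
          · simpa using Z₂.add_mem (a3 (b.1 x)) (b3 x)
        inv_mem' := fun {a} ⟨a1, a2, a3⟩ => by
          refine ⟨fun x hx => ?_, fun x hx => ?_, fun x => ?_⟩
          · exact a.1.injective (by rw [a1 x hx]; exact a.1.apply_symm_apply x)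
          · simpa using Z₁.neg_mem (a2 _ (h2 _ (a⁻¹).2 x hx))
          · simpa using Z₂.neg_mem (a3 ((a⁻¹).1 x)) }
    have hN : N.Normal := ⟨fun n ⟨a1, a2, a3⟩ g => by
      refine ⟨fun x hx => ?_, fun x hx => ?_, fun x => ?_⟩
      · change g.1 (n.1 (g.1.symm x)) = x
        rw [a1 (g.1.symm x) (h1 _ (g⁻¹).2 x hx), g.1.apply_symm_apply]
      · simpa using h1 g g.2 _ (a2 _ (h2 _ (g⁻¹).2 x hx))
      · simpa using h2 g g.2 _ (a3 (g.1.symm x))⟩
    have hP : IsPGroup p N := fun ⟨⟨n, hn⟩, a1, a2, a3⟩ => ⟨1, by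
      refine Subtype.ext (Subtype.ext ?_)
      change n ^ (p ^ 1) = 1
      rcases subsingleton_or_nontrivial V with hV | hV
      · exact Subsingleton.elim _ _
      have : CharP (Module.End (ZMod p) V) p :=
        charP_of_injective_algebraMap (algebraMap (ZMod p) _).injective p
      have k : ((n : Module.End (ZMod p) V) - 1) ^ 3 = 0 := LinearMap.ext fun x => by
        have := a1 _ (a2 _ (a3 x))
        simpa [pow_succ, sub_eq_zero] using this
      have k1 := pow_eq_zero_of_le hp3 k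
      rw [sub_pow_char_of_commute _ (Commute.one_right _), one_pow, sub_eq_zero] at k1
      rw [pow_one]
      refine LinearEquiv.toLinearMap_injective ?_
      exact (map_pow LinearEquiv.automorphismGroup.toLinearMapMonoidHom n p).trans k1⟩
    have := GT.le_pCore hP (show (⟨g, hg⟩ : H) ∈ N from ⟨a, b, c⟩)
    rw [hOp] at this
    exact congrArg Subtype.val (Subgroup.mem_bot.1 this)
  · intro e
    have := (ZMod.natCast_eq_zero_iff 2 p).1 (by exact_mod_cast e)
    have := Nat.le_of_dvd two_pos this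
    omega

end Cfsg.Agent.S5075
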