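import Mathlib
import Cfsg.Statements.S5132
import Cfsg.Agent.Fus.Factor
import Cfsg.Agent.Fus.Defs

set_option autoImplicit false
open Cfsg

namespace Cfsg.Agent.S5132

open Cfsg.Agent.Fus Cfsg.FusionSystem

/-- Let F be a fusion system over a finite p-group S and S₀ a subgroup strongly closed in F (so S₀ is normal in S; the normality of S₀ ∩ S in S is supplied as an instance hypothesis so that the quotient can be written). Then the factor system F/S₀ exists: there is a fusion system over S/S₀ whose maps with source a subgroup P' of S/S₀ are exactly the homomorphisms induced along the quotient map by the maps of F whose source is the full preimage of P' in S. -/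
theorem result {Ω : Type*} [Group Ω] {S : Subgroup Ω} [Finite S] (p : ℕ) [Fact p.Prime] (hS : IsPGroup p S) (F : Cfsg.FusionSystem S) (S₀ : Subgroup Ω) (hS₀ : F.StronglyClosed S₀) [(S₀.subgroupOf S).Normal] : ∃ E : Cfsg.FusionSystem (⊤ : Subgroup (S ⧸ S₀.subgroupOf S)), F.IsFactorSystem S₀ (QuotientGroup.mk' (S₀.subgroupOf S)) E := by
  set φ := QuotientGroup.mk' (S₀.subgroupOf S) with hφ
  have hk : S₀ = pre (tot φ) S ⊥ := by
    rw [← ker_map_eq_pre, hφ, QuotientGroup.ker_mk', Subgroup.map_subgroupOf_eq_of_le hS₀.le]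
  obtain ⟨E, hE⟩ := F.exists_isFac_of_eq (S' := ⊤) (mulOn_tot φ)
    (by rw [← range_eq_img_tot, hφ, QuotientGroup.range_mk'])
    (fun P f hf x hx hx' => by rw [← hk] at hx' ⊢; exact hS₀.mem hf hx hx')
  exact ⟨E, isFactorSystem_iff.2 ⟨hk, hE⟩⟩

end Cfsg.Agent.S5132
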