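import Mathlib
import Cfsg.Statements.S5196
import Cfsg.Agent.Fus.Control

set_option autoImplicit false
universe u
open Cfsg

namespace Cfsg.Agent.S5196

open Cfsg.Agent.Fus Cfsg.FusionSystem

/-- Let p be an odd prime and W a positive characteristic p-functor: W assigns to every finite p-group Q (in a fixed universe) a subgroup W(Q), nontrivial when Q is, carried to W(R) by every isomorphism Q ≅ R; assume also Z(Q) ≤ W(Q) for every finite p-group Q. Suppose W satisfies the local condition: for every finite group G with Sylow p-subgroup P, O_p(G) ∩ Z(G) = O_p(G) ∩ Z(N_G(W(P))). Then W controls weak closure of elements in every saturated fusion system F over a finite p-group S: the centre of the normalizer fusion system of W(S) in F equals the centre of F. (For p = 2 no functor satisfies the local condition, so p is taken odd.) -/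
theorem result {p : ℕ} [Fact p.Prime] (hp : p ≠ 2) (W : ∀ (Q : Type u) [Group Q], Subgroup Q) (hW1 : ∀ (Q : Type u) [Group Q] [Finite Q], IsPGroup p Q → Nontrivial Q → W Q ≠ ⊥) (hW2 : ∀ (Q R : Type u) [Group Q] [Group R] [Finite Q], IsPGroup p Q → ∀ φ : Q ≃* R, (W Q).map φ.toMonoidHom = W R) (hWZ : ∀ (Q : Type u) [Group Q] [Finite Q], IsPGroup p Q → Subgroup.center Q ≤ W Q) (hC : ∀ (G : Type u) [Group G] [Finite G] (P : Sylow p G), Cfsg.pCore p G ⊓ Subgroup.center G = Cfsg.pCore p G ⊓ (Subgroup.center ↥(Subgroup.normalizer (((W ↥(P : Subgroup G)).map (P : Subgroup G).subtype : Subgroup G) : Set G))).map (Subgroup.normalizer (((W ↥(P : Subgroup G)).map (P : Subgroup G).subtype : Subgroup G) : Set G)).subtype) {Ω : Type u} [Group Ω] {S : Subgroup Ω} [Finite S] (hS : IsPGroup p S) (F : Cfsg.FusionSystem S) (hF : F.IsSaturated p) (N : Cfsg.FusionSystem (Cfsg.FusionSystem.normalizerIn S ((W ↥S).map S.subtype))) (hN : F.IsNormalizerSystem ((W ↥S).map S.subtype) N) : N.center = F.center := by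
  refine hF.center_eq_of_wf (b := True) (X := PUnit.{1}) ⟨hW1, hW2⟩ hWZ (fun L _ _ P _ x hx h a => ?_)
    hS (Or.inl trivial) hN
  have hn : x ∈ Subgroup.normalizer ((inducedFunctor W (P : Subgroup L) : Subgroup L) : Set L) :=
    normalizer_le_normalizer_wf ⟨hW1, hW2⟩ P.isPGroup' (Subgroup.le_normalizer
      (IsPGroup.le_sylow_of_normal (GT.isPGroup_pCore p) P hx))
  have h1 := (hC L P).ge ⟨hx, ⟨x, hn⟩, Subgroup.mem_center_iff.2 fun g =>
    Subtype.ext (mul_inv_eq_iff_eq_mul.1 (h g g.2)), rfl⟩
  rw [Subgroup.mem_center_iff.1 h1.2 a, mul_inv_cancel_right]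

end Cfsg.Agent.S5196
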