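import Mathlib
import Cfsg.Statements.S5206
import Cfsg.Agent.Fus.Solv
import Cfsg.Agent.Fus.PStableAt
import Cfsg.Agent.GT.ThompsonQd

set_option autoImplicit false
universe u
open Cfsg

namespace Cfsg.Agent.S5206

open Cfsg.Agent.Fus Cfsg.FusionSystem

open Matrix MatrixGroups

theorem involves_of_img {p : ℕ} [Fact p.Prime] (hp : p ≠ 2) {Ω L : Type*} [Group Ω] [Group L]
    [Finite L] {W : Subgroup Ω} {j : Ω → L} (hj : MulOn W j)
    (inj : ∀ x ∈ W, ∀ y ∈ W, j x = j y → x = y) {π : Ω → Multiplicative (Fin 2 → ZMod p)}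
    (hπ : MulOn W π) (surj : ∀ v, ∃ w ∈ W, π w = v) {x y : L} {α β : Ω → Ω}
    (hα : ∀ w ∈ W, α w ∈ W ∧ j (α w) = x * j w * x⁻¹ ∧ (π (α w)).toAdd =
      ((GT.slUp 1 : SL(2, ZMod p)) : Matrix _ _ (ZMod p)) *ᵥ (π w).toAdd)
    (hβ : ∀ w ∈ W, β w ∈ W ∧ j (β w) = y * j w * y⁻¹ ∧ (π (β w)).toAdd =
      ((GT.slLo 1 : SL(2, ZMod p)) : Matrix _ _ (ZMod p)) *ᵥ (π w).toAdd) : Involves (qd p) L := by
  have hU := pre_le π W ⊥
  set M := Subgroup.normalizer ((img j (pre π W ⊥) : Subgroup L) : Set L)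
  have hM : ∀ {z : L} {γ : Ω → Ω}, (∀ w ∈ pre π W ⊥, γ w ∈ pre π W ⊥ ∧ j (γ w) = z * j w * z⁻¹) →
      z ∈ M := fun h => Subgroup.mem_normalizer_fintype fun a ha => by
    obtain ⟨w, hw, rfl⟩ := (hj.mem_img_of_le hU).1 ha
    exact (h w hw).2 ▸ mem_img_of_mem (h w hw).1
  have hk : ∀ {γ : Ω → Ω} {A : Matrix (Fin 2) (Fin 2) (ZMod p)} {w : Ω}, w ∈ pre π W ⊥ → γ w ∈ W →
      (π (γ w)).toAdd = A *ᵥ (π w).toAdd → γ w ∈ pre π W ⊥ := fun hw h1 h2 => by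
    rw [(hπ.mem_pre_bot.1 hw).2, toAdd_one, mulVec_zero] at h2
    exact hπ.mem_pre_bot.2 ⟨h1, h2⟩
  have hx : x ∈ M := hM fun w hw => ⟨hk hw (hα w (hU hw)).1 (hα w (hU hw)).2.2, (hα w (hU hw)).2.1⟩
  have hy : y ∈ M := hM fun w hw => ⟨hk hw (hβ w (hU hw)).1 (hβ w (hU hw)).2.2, (hβ w (hU hw)).2.1⟩
  have hW : ∀ s ∈ W, j s ∈ M := fun s hs => hM (γ := fun w => s * w * s⁻¹) fun w hw =>
    ⟨hπ.conj_mem_pre_bot hs hw, hj.map_conj hs (hU hw)⟩
  let q := QuotientGroup.mk' ((img j (pre π W ⊥)).subgroupOf M)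
  have hq : ∀ a (ha : a ∈ W) b (hb : b ∈ W), q ⟨j a, hW a ha⟩ = q ⟨j b, hW b hb⟩ ↔ π a = π b := by
    intro a ha b hb
    rw [hπ.eq_iff_mem_pre_bot ha hb]
    refine QuotientGroup.eq.trans ?_
    change (j a)⁻¹ * j b ∈ img j _ ↔ _
    rw [← hj.map_inv ha, ← hj.map_mul (inv_mem ha) hb, hj.mem_img_of_le hU]
    exact ⟨fun ⟨w, hw, e⟩ => inj _ (hU hw) _ (mul_mem (inv_mem ha) hb) e ▸ hw, fun h => ⟨_, h, rfl⟩⟩
  choose s hs es using surj
  have key : ∀ {z : L} (hz : z ∈ M) {γ : Ω → Ω} {A : Matrix (Fin 2) (Fin 2) (ZMod p)},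
      (∀ w ∈ W, γ w ∈ W ∧ j (γ w) = z * j w * z⁻¹ ∧ (π (γ w)).toAdd = A *ᵥ (π w).toAdd) → ∀ v,
      q ⟨z, hz⟩ * q ⟨j (s (.ofAdd v)), hW _ (hs _)⟩ * (q ⟨z, hz⟩)⁻¹ =
        q ⟨j (s (.ofAdd (A *ᵥ v))), hW _ (hs _)⟩ := fun hz γ A h v => by
    obtain ⟨h1, h2, h3⟩ := h _ (hs (.ofAdd v))
    rw [← map_mul, ← map_inv, ← map_mul, ← (hq _ h1 _ (hs _)).2 (by rw [es] at h3 ⊢; exact h3)]
    exact congrArg q (Subtype.ext h2.symm)
  refine Loc.CF.involves_trans (GT.involves_qd_of_transvections hp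
    (fun v => q ⟨j (s (.ofAdd v)), hW _ (hs _)⟩) (fun v w h => ?_) (fun v w => ?_) one_ne_zero
    one_ne_zero (key hx hα) (key hy hβ)) (Loc.CF.involves_section _ _)
  · have := (hq _ (hs _) _ (hs _)).1 h
    rwa [es, es] at this
  · rw [← map_mul, (hq _ (hs _) _ (mul_mem (hs (.ofAdd v)) (hs (.ofAdd w)))).2
      (by rw [hπ.map_mul (hs _) (hs _), es, es, es]; rfl)]
    exact congrArg q (Subtype.ext (hj.map_mul (hs _) (hs _)))

/-- Let p be an odd prime, G a finite group and P a Sylow p-subgroup of G. Then the fusion system of G on P is Qd(p)-free (Qd(p), the natural semidirect product of an elementary abelian group of order p² by SL₂(p), is not involved in any model of the normalizer system of a fully normalized centric subgroup) if and only if Qd(p) is not involved in G. -/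
theorem result {G : Type u} [Group G] [Finite G] {p : ℕ} [Fact p.Prime] (hp : p ≠ 2) (P : Sylow p G) : (Cfsg.groupFusionSystem (P : Subgroup G)).IsSectionFree p ↥(Cfsg.qd p) ↔ ¬ Cfsg.Involves ↥(Cfsg.qd p) G := by
  refine ⟨fun h hG => ?_, isSectionFree_group P⟩
  obtain ⟨K, f, hf⟩ := Loc.CF.involves_iff.1 hG
  have hF := isSaturated_sylow P
  have hS := P.isPGroup'
  set D := GT.qdAct p
  obtain ⟨V⟩ : Nonempty (Sylow p (D.V.comap f)) := inferInstance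
  set W := (V : Subgroup (D.V.comap f)).map (D.V.comap f).subtype
  have hW : IsPGroup p W := V.isPGroup'.map _
  have hsurj : W.map f = D.V := by
    let f' : D.V.comap f →* D.V := (f.comp (D.V.comap f).subtype).codRestrict _ fun x => x.2
    have hf' : Function.Surjective f' := fun ⟨v, hv⟩ => by
      obtain ⟨k, rfl⟩ := hf v
      exact ⟨⟨k, hv⟩, rfl⟩
    have h1 : (V : Subgroup _).map f' = ⊤ :=
      ((V.mapSurjective hf').is_maximal' (D.isPGroup_V.to_subgroup ⊤) le_top).symm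
    refine le_antisymm (Subgroup.map_le_iff_le_comap.2 (Subgroup.map_subtype_le _)) fun v hv => ?_
    obtain ⟨k, hk, e⟩ := h1.ge (Subgroup.mem_top ⟨v, hv⟩)
    exact ⟨k, ⟨k, hk, rfl⟩, congrArg Subtype.val e⟩
  have hA : ∀ A, ∃ x ∈ Subgroup.normalizer (W : Set K), D.φ (f x) = A := fun A => by
    obtain ⟨a, rfl⟩ := D.surj A
    obtain ⟨k, rfl⟩ := hf a
    obtain ⟨x, hx, y, hy, rfl⟩ := Subgroup.mem_sup_of_normal_right.1
      (V.normalizer_sup_eq_top.ge (Subgroup.mem_top k))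
    obtain ⟨v, hv⟩ := D.mem_V.1 hy
    exact ⟨x, hx, by rw [map_mul, map_mul, ← hv, D.φ_θ, mul_one]⟩
  have hπ : ∀ w : K, ∃ v : Multiplicative (Fin 2 → ZMod p), w ∈ W → D.θ v.toAdd = f w := fun w => by
    by_cases hw : w ∈ W
    · obtain ⟨v, hv⟩ := D.mem_V.1 (hsurj.le ⟨w, hw, rfl⟩)
      exact ⟨.ofAdd v, fun _ => hv⟩
    · exact ⟨1, fun h => absurd h hw⟩
  choose π eπ using hπ
  obtain ⟨g, hg⟩ : ∃ g : G, ∀ w ∈ W, g * w * g⁻¹ ∈ (P : Subgroup G) := by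
    obtain ⟨T, hT⟩ := (hW.map K.subtype).exists_le_sylow
    obtain ⟨g, rfl⟩ := MulAction.exists_smul_eq G T P
    exact ⟨g, fun w hw => Subgroup.smul_mem_pointwise_smul _ (MulAut.conj g) _ (hT ⟨w, hw, rfl⟩)⟩
  have hc : MulOn W fun w : K => g * w * g⁻¹ := fun a _ b _ => by simp [mul_assoc]
  obtain ⟨Q, R, hQ, hQR, hR, hRc, -, hext⟩ := hF.exists_centric_radical_extend hS
    (P := img (fun w : K => g * w * g⁻¹) W) (img_le_iff.2 hg)
  obtain ⟨φ, hφ⟩ := hQ.exists_iso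
  obtain ⟨ψ, hψ, e1, -⟩ := hφ.inv
  have hN := (groupFusionSystem (P : Subgroup G)).isNormalizerSystem_normalizerSystem hR.le
  obtain ⟨L, _, _, j, hL⟩ := (hN.isConstrained hF hS hR hRc).exists_isModelVia
    (hS.to_le normalizerIn_le)
  have hm : ∀ w ∈ W, φ (g * w * g⁻¹) ∈ Q := fun w hw => hφ.maps _ (mem_img_of_mem hw)
  have hQN := hQR.trans (le_normalizerIn hR.le)
  have key : ∀ A, ∃ (z : L) (γ : K → K), ∀ w ∈ W, γ w ∈ W ∧ j (φ (g * γ w * g⁻¹)) =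
      z * j (φ (g * w * g⁻¹)) * z⁻¹ ∧ (π (γ w)).toAdd =
        ((A : SL(2, ZMod p)) : Matrix _ _ (ZMod p)) *ᵥ (π w).toAdd := fun A => by
    obtain ⟨x, hx, rfl⟩ := hA A
    have hx' : ∀ w ∈ W, x * w * x⁻¹ ∈ W := fun w hw => (hx w).1 hw
    have e2 : ∀ w : K, g * x * g⁻¹ * (g * w * g⁻¹) * (g * x * g⁻¹)⁻¹ = g * ↑(x * w * x⁻¹) * g⁻¹ :=
      fun w => by simp [mul_assoc]
    have h1 : ∀ y ∈ img (fun w : K => g * w * g⁻¹) W,
        g * x * g⁻¹ * y * (g * x * g⁻¹)⁻¹ ∈ img (fun w : K => g * w * g⁻¹) W := fun y hy => by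
      obtain ⟨w, hw, rfl⟩ := hc.mem_img.1 hy
      exact e2 w ▸ mem_img_of_mem (hx' w hw)
    obtain ⟨a, ha, ea⟩ := hext _ (hφ.comp (((mor_group_conj hφ.le_left fun y hy =>
      hφ.le_left (h1 y hy)).iso_self h1).comp hψ))
    obtain ⟨z, -, ez⟩ := hL.exists_conj ((hN.isKNormalizer hR.le).mor_of_top ha.mor le_rfl
      Subgroup.le_normalizer ha.maps)
    refine ⟨z, fun w => x * w * x⁻¹, fun w hw => ⟨hx' w hw, ?_, D.inj ?_⟩⟩
    · rw [← ez _ (hQR (hm w hw)), ea _ (hm w hw), e1 _ (mem_img_of_mem hw), e2]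
    · rw [eπ _ (hx' w hw), ← D.conj, eπ w hw, map_mul, map_mul, map_inv]
  obtain ⟨x, α, hα⟩ := key (GT.slUp 1)
  obtain ⟨y, β, hβ⟩ := key (GT.slLo 1)
  refine h R hR hRc _ hN L _ hL.isModel (involves_of_img hp (j := fun w : K => j (φ (g * w * g⁻¹)))
    (fun a ha b hb => ?_) (fun a ha b hb e => ?_) (fun a ha b hb => ?_) (fun v => ?_) hα hβ)
  · rw [← hL.mulOn.map_mul (hQN (hm a ha)) (hQN (hm b hb)),
      ← hφ.mor.map_mul (mem_img_of_mem ha) (mem_img_of_mem hb), ← hc a ha b hb]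
  · have := hφ.mor.inj (mem_img_of_mem ha) (mem_img_of_mem hb)
      (hL.inj _ (hQN (hm a ha)) _ (hQN (hm b hb)) e)
    exact Subtype.ext (mul_left_cancel (mul_right_cancel this))
  · refine Multiplicative.toAdd.injective (D.inj ?_)
    rw [toAdd_mul, D.add, eπ a ha, eπ b hb, eπ _ (mul_mem ha hb), map_mul]
  · obtain ⟨w, hw, e⟩ := hsurj.ge (D.θ_mem v.toAdd)
    exact ⟨w, hw, Multiplicative.toAdd.injective (D.inj ((eπ w hw).trans e))⟩

end Cfsg.Agent.S5206
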