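import Mathlib
import Cfsg.Statements.S5214
import Cfsg.Agent.Chev.Sz2Main
import Cfsg.Agent.Fus.EssBasic
import Cfsg.Agent.Fus.Normal
-- import your own Cfsg.Agent.* helpers here

set_option autoImplicit false
open Cfsg

namespace Cfsg.Agent.S5214

open Cfsg.Agent.Chev.Sz2 Cfsg.Agent.Fus

/-- Let S be a Suzuki 2-group (a finite nonabelian 2-group with more than one involution admitting a cyclic group of automorphisms permuting its involutions regularly). Then S is normal in every saturated fusion system over S (such a group is resistant). -/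
theorem result {Ω : Type*} [Group Ω] {S : Subgroup Ω} [Finite S] (hS : IsPGroup 2 S) (F : Cfsg.FusionSystem S) (hF : F.IsSaturated 2) (hsz : Cfsg.IsSuzukiTwoGroup ↥S) : F.IsNormal S := by
  obtain ⟨K, _, _, _, ⟨H⟩⟩ := exists_hig_of_isSuzukiTwoGroup hsz
  refine (hF.isNormal_top_iff hS).2 fun E hE => ?_
  obtain ⟨s, hs, hsE⟩ := hE.exists_notMem hF hS
  refine hsE (hE.mem_of_chain hS (fun i => if i = 0 then E else if i = 1 then omegaOne 2 E else ⊥) 2
    rfl bot_le (fun i hi => ?_) (fun i hi => ?_) hs fun i hi x hx => ?_)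
  · interval_cases i
    · exact GT.PG.omegaOne_le E
    · exact bot_le
  · interval_cases i
    · exact invA_top _
    · exact (invA_top _).omegaOne 2
    · exact invA_bot _
  · interval_cases i
    · refine GT.PG.mem_omegaOne (mul_mem (inv_mem hx) ((Subgroup.mem_normalizer_iff.mp hs.2 x).mp hx)) ?_
      have := congrArg Subtype.val (H.commutator_mem_Om hsz.2.2.1 ⟨x, hE.le hx⟩⁻¹ ⟨s, hs.1⟩)
      simpa [commutatorElement_def, pow_two, mul_assoc] using this
    · have h1 : omegaOne 2 E ≤ Subgroup.centralizer {s} := (Subgroup.closure_le _).mpr fun y hy =>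
        Subgroup.mem_centralizer_singleton_iff.mpr (congrArg Subtype.val
          (H.central ⟨y, hE.le hy.1⟩ (Subtype.ext (by simpa [pow_two] using hy.2)) ⟨s, hs.1⟩))
      simp [← Subgroup.mem_centralizer_singleton_iff.mp (h1 hx)]

end Cfsg.Agent.S5214
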