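import Mathlib
import Cfsg.Statements.S5218
import Cfsg.Agent.Fus.Control
import Cfsg.Agent.Fus.AutAct
import Cfsg.Agent.GT.PGroupElemAb

set_option autoImplicit false
open Cfsg

namespace Cfsg.Agent.S5218

open Cfsg.Agent.Fus Cfsg.FusionSystem

open Polynomial in
theorem ring_aux {R : Type*} [Ring R] {p : ℕ} (hp : p.Prime) {n : ℕ} {y : R}
    (h1 : (1 + y) ^ p = 1) (h2 : y ^ (n * (p - 1) + 1) = 0) : (p : R) ^ n * y = 0 := by
  obtain ⟨r, hr⟩ := exists_add_pow_prime_eq hp (1 : ℤ[X]) X
  have h0 : r.coeff 0 = 1 := by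
    have := congrArg (coeff · 1) hr
    simp only [one_pow, mul_one, coeff_add, coeff_one_add_X_pow, Nat.choose_one_right,
      coeff_X_pow, hp.one_lt.ne, if_false, mul_assoc, coeff_natCast_mul, coeff_X_mul,
      coeff_one, one_ne_zero, zero_add] at this
    exact (mul_left_cancel₀ (Nat.cast_ne_zero.2 hp.ne_zero) ((mul_one _).trans this)).symm
  have hc : ∀ f : ℤ[X], Commute y (aeval y f) := fun f => by
    have := (Commute.all X f).map (aeval y); rwa [aeval_X] at this
  have hu : IsUnit (aeval y r) := by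
    rw [← X_mul_divX_add r, h0, map_add, map_mul, aeval_X, map_one, map_one]
    exact IsNilpotent.isUnit_add_one ((hc _).isNilpotent_mul_right ⟨_, h2⟩)
  have h3 : (p : R) * y * aeval y r = - y ^ p := by
    have := congrArg (aeval y) hr
    simp only [map_pow, map_add, map_one, aeval_X, h1, one_pow, mul_one, map_mul,
      map_natCast, add_assoc] at this
    exact eq_neg_of_add_eq_zero_right (left_eq_add.1 this)
  have h4 : ∀ k : ℕ, (p : R) ^ k * y * aeval y r ^ k = (-1) ^ k * y ^ (k * (p - 1) + 1) := by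
    intro k
    induction k with
    | zero => simp
    | succ k ih =>
      have e : (k + 1) * (p - 1) + 1 = k * (p - 1) + p := by have := hp.one_le; rw [add_mul]; omega
      calc _ = (p : R) * ((p : R) ^ k * y * aeval y r ^ k) * aeval y r := by
            rw [pow_succ' (p : R), pow_succ]; simp only [mul_assoc]
        _ = (-1) ^ k * y ^ (k * (p - 1)) * ((p : R) * y * aeval y r) := by
            rw [ih, pow_succ, ← mul_assoc, ← mul_assoc, ← mul_assoc, ← mul_assoc,
              (Nat.cast_commute p _).eq, mul_assoc _ (p : R), (Nat.cast_commute p _).eq]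
            simp only [mul_assoc]
        _ = _ := by rw [h3, e, pow_add y, pow_succ]; simp only [mul_assoc, mul_neg, neg_mul, mul_one]
  exact (hu.pow n).mul_left_eq_zero.1 (by rw [h4, h2, mul_zero])

theorem comm_aux {A : Type*} [CommGroup A] {p : ℕ} (hp : p.Prime) {n : ℕ} (σ : A →* A)
    (h1 : ∀ v, σ^[p] v = v) (h2 : ∀ v, (fun v => v⁻¹ * σ v)^[n * (p - 1) + 1] v = 1) (v : A) :
    σ (v ^ p ^ n) = v ^ p ^ n := by
  let τ : AddMonoid.End (Additive A) := MonoidHom.toAdditive σ
  have e1 : ∀ k v, (τ ^ k) (Additive.ofMul v) = Additive.ofMul (σ^[k] v) := fun k v => by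
    induction k with
    | zero => rfl
    | succ k ih => rw [pow_succ', Function.iterate_succ_apply']; exact congrArg τ ih
  have e2 : ∀ k v, ((τ - 1) ^ k) (Additive.ofMul v) =
      Additive.ofMul ((fun v => v⁻¹ * σ v)^[k] v) := fun k v => by
    induction k with
    | zero => rfl
    | succ k ih =>
      rw [pow_succ', Function.iterate_succ_apply']
      refine (congrArg (τ - 1 :) ih).trans ?_
      rw [mul_comm, ← div_eq_mul_inv]; rfl
  have h := ring_aux (y := τ - 1) (n := n) hp
    (by rw [add_sub_cancel]; ext v; exact (e1 p v).trans (congrArg _ (h1 v)))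
    (by ext v; exact (e2 _ v).trans (congrArg _ (h2 v)))
  have h3 : p ^ n • (τ - 1) (Additive.ofMul v) = 0 := by
    have := DFunLike.congr_fun h (Additive.ofMul v)
    rwa [← Nat.cast_pow, ← nsmul_eq_mul] at this
  rw [map_pow, ← div_eq_one, ← div_pow]
  exact h3

theorem conj_aux {Ω : Type*} [Group Ω] {S Q : Subgroup Ω} {p : ℕ} (hp : p.Prime) {n : ℕ}
    (hcl : S.lowerCentralSeries (n * (p - 1) + 1) = ⊥) (hQ : Q ≤ S) {g : Ω}
    (hg : g ∈ normalizerIn S Q) (hgp : g ^ p ∈ Q) {v : Ω} (hv : v ∈ centralizerIn Q Q) :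
    g * v ^ p ^ n * g⁻¹ = v ^ p ^ n := by
  have hn := mem_normalizer_centralizerIn hg.2 hg.2
  have hc : IsMulCommutative (centralizerIn Q Q) :=
    ⟨⟨fun a b => Subtype.ext ((mem_centralizerIn.1 b.2).2 a a.2.1)⟩⟩
  letI : CommGroup (centralizerIn Q Q) := { mul_comm := hc.is_comm.comm }
  have e1 : ∀ k (w : centralizerIn Q Q), (((cAut _ g).toMonoidHom^[k] w : centralizerIn Q Q) : Ω) =
      g ^ k * w * (g ^ k)⁻¹ := fun k w => by
    induction k with
    | zero => simp
    | succ k ih =>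
      rw [Function.iterate_succ_apply']
      refine (coe_cAut hn _).trans ?_
      rw [ih]; group
  have e2 : ∀ k (w : centralizerIn Q Q), (((fun v => v⁻¹ * (cAut _ g).toMonoidHom v)^[k] w :
      centralizerIn Q Q) : Ω) ∈ S.lowerCentralSeries k := fun k w => by
    induction k with
    | zero => exact hQ w.2.1
    | succ k ih =>
      rw [Function.iterate_succ_apply']
      change _⁻¹ * ((cAut _ g _ : centralizerIn Q Q) : Ω) ∈ _
      rw [coe_cAut hn, comm_mem_iff_conj]
      exact Subgroup.commutator_mem_commutator (inv_mem ih) hg.1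
  have := comm_aux hp (n := n) (cAut (centralizerIn Q Q) g).toMonoidHom
    (fun w => Subtype.ext (by
      rw [e1, ← (mem_centralizerIn.1 w.2).2 _ hgp |>.symm, mul_inv_cancel_right]))
    (fun w => Subtype.ext (Subgroup.mem_bot.1 (hcl ▸ e2 _ w))) ⟨v, hv⟩
  exact (coe_cAut hn (⟨v, hv⟩ ^ p ^ n)).symm.trans (congrArg Subtype.val this)

/-- Let p be a prime, n a natural number, S a nontrivial finite p-group of nilpotence class at most n(p−1)+1, and F a saturated fusion system over S. Then the subgroup generated by the pⁿ-th powers of the elements of Z(S) is normal in F. -/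
theorem result {Ω : Type*} [Group Ω] {S : Subgroup Ω} [Finite S] (p : ℕ) [Fact p.Prime] (hS : IsPGroup p S) (F : Cfsg.FusionSystem S) (hF : F.IsSaturated p) (n : ℕ) (hS1 : S ≠ ⊥) (hcl : Subgroup.lowerCentralSeries S (n * (p - 1) + 1) = ⊥) : F.IsNormal (Cfsg.powerClosure p n (S ⊓ Subgroup.centralizer (S : Set Ω))) := by
  have hp : p.Prime := Fact.out
  set U := powerClosure p n (S ⊓ Subgroup.centralizer (S : Set Ω)) with hU
  have hUZ : U ≤ centralizerIn S S := GT.PG.powerClosure_le _ _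
  have hUS : U ≤ S := hUZ.trans centralizerIn_le
  have := finite_of_le hUS
  have key : ∀ P f, F.Mor P f → U ≤ P → ∀ x ∈ U, f x ∈ U := by
    refine hF.mor_induction_card hS (fun _ h e hP x hx => e x (hP hx) ▸ h hP x hx)
      (fun _ h e hP => h (hP.trans e)) (fun hf _ h h' e hP x hx => h' (fun y hy => ?_) _ (h hP x hx))
      fun Q hQ ih f hf hUQ x hx => ?_
    · obtain ⟨z, hz, rfl⟩ := ((hf.mono hP).iso_self (h hP)).surj y hy
      exact e z (hP hz)
    obtain ⟨α, hα, eα⟩ := hf.exists_aut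
    rw [← eα x (hUQ hx)]
    by_cases hQS : Q = S
    · subst hQS
      exact (((invA_top ⊤).inf_centralizer (invA_top ⊤)).powerClosure p n).mem trivial hx
    have step : ∀ N ≤ F.autGroup Q, F.autGroup Q ≤ Subgroup.normalizer (N : Set (MulAut Q)) →
        (∀ β ∈ N, ∀ y ∈ U, totA β y = y) → ¬ preAut S Q N ≤ Q → totA α x ∈ U := by
      intro N h1 h2 h3 h4
      obtain ⟨β, hβ, γ, -, rfl, g, hg, e⟩ := hF.frattini_extend hS hQ h1 h2 hα
      have h5 := ih _ g hg (card_lt_of_lt_le (left_lt_sup.2 h4) hg.le) (hUQ.trans le_sup_left) x hx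
      rwa [totA_mul _ _ (hUQ hx), ← e x (hUQ hx), h3 β hβ _ h5]
    by_cases hc : centralizerIn S Q ≤ Q
    swap
    · exact step ⊥ bot_le (by rw [Subgroup.normalizer_eq_top]; exact le_top)
        (fun β hβ y hy => by rw [Subgroup.mem_bot.1 hβ, totA_one (hUQ hy)]) (by rwa [preAut_bot])
    have hV := ((invA_top (⊤ : Subgroup (MulAut Q))).inf_centralizer (invA_top ⊤)).powerClosure p n
    have hm : ∀ β : MulAut Q, β ∈ liftK Q _ hV.le ⊥ ↔ ∀ y ∈ powerClosure p n
        (Q ⊓ Subgroup.centralizer (Q : Set Ω)), totA β y = y := fun β => mem_liftK.trans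
      ⟨fun ⟨a, ha, e⟩ y hy => by rw [e y hy, Subgroup.mem_bot.1 ha, totA_one hy],
        fun h => ⟨1, one_mem _, fun y hy => by rw [h y hy, totA_one hy]⟩⟩
    refine step (F.autGroup Q ⊓ liftK Q _ hV.le ⊥) inf_le_left (fun a ha =>
      mem_normalizer_inf (Subgroup.le_normalizer ha) ?_) (fun β hβ y hy => (hm β).1 hβ.2 y
        (GT.PG.powerClosure_mono (K := Q ⊓ _) (fun z hz => ⟨hc (centralizerIn_anti hQ.le hz),
          (centralizerIn_anti hQ.le hz).2⟩) hy)) fun hle => ?_
    · have : (liftK Q _ hV.le ⊥).Normal := ⟨fun β hβ γ => (hm _).2 fun y hy => by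
        rw [totA_mul _ _ (hV.le hy), totA_mul _ _ (totA_mem _ (hV.le hy)),
          (hm β).1 hβ _ (hV.mem trivial hy), totA_totA_inv _ (hV.le hy)]⟩
      rw [Subgroup.normalizer_eq_top]; trivial
    · obtain ⟨g, hg, hgQ⟩ := SetLike.exists_of_lt (lt_normalizerIn hS (hQ.le.lt_of_ne hQS))
      obtain ⟨k, hk⟩ := hS ⟨g, hg.1⟩
      have hex : ∃ k, g ^ p ^ k ∈ Q := ⟨k, by
        rw [show g ^ p ^ k = 1 from congrArg Subtype.val hk]; exact one_mem _⟩
      classical
      have h0 : Nat.find hex ≠ 0 := fun h => hgQ (by simpa [h] using Nat.find_spec hex)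
      obtain ⟨m, hm'⟩ := Nat.exists_eq_succ_of_ne_zero h0
      have hg' := pow_mem hg (p ^ m)
      refine Nat.find_min hex (m := m) (by omega) (hle (mem_preAut.2 ⟨hg',
        F.cAut_mem_autGroup hQ.le hg', (hm _).2 fun y hy => ?_⟩))
      rw [totA_cAut hg'.2 (hV.le hy)]
      obtain ⟨v, hv, rfl⟩ := (GT.PG.mem_powerClosure_iff (A := Q ⊓ Subgroup.centralizer (Q : Set Ω))
        ⟨⟨fun a b => Subtype.ext (b.2.2 a a.2.1)⟩⟩).1 hy
      exact conj_aux hp hcl hQ.le hg' (by rw [← pow_mul, ← pow_succ, ← Nat.succ_eq_add_one, ← hm']; exact Nat.find_spec hex) hv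
  refine hF.isNormal_of_alperin hS fun R hR => ?_
  have hc := centric_of_top_or_essential hR
  have hUR : U ≤ R := hUZ.trans ((centralizerIn_anti hc.le).trans hc.centralizerIn_le)
  exact ⟨hUR, fun g hg => key R g hg.mor hUR⟩

end Cfsg.Agent.S5218
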