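import Mathlib
import Cfsg.Statements.S5219
import Cfsg.Agent.S5218

set_option autoImplicit false
open Cfsg

namespace Cfsg.Agent.S5219

open Cfsg.Agent.Fus Cfsg.FusionSystem

open scoped commutatorElement in
theorem pow_mem_ucs {G : Type*} [Group G] {m : ℕ} (h : ∀ z ∈ Subgroup.center G, z ^ m = 1) (i : ℕ) :
    ∀ x ∈ Subgroup.upperCentralSeries G (i + 1), x ^ m ∈ Subgroup.upperCentralSeries G i := by
  induction i with
  | zero => intro x hx; rw [Subgroup.upperCentralSeries_one] at hx; exact h x hx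
  | succ i ih =>
    intro x hx
    rw [Subgroup.mem_upperCentralSeries_succ_iff] at hx ⊢
    intro y
    have h1 := hx y
    rw [← QuotientGroup.eq_one_iff]
    have h2 := (QuotientGroup.eq_one_iff (N := Subgroup.upperCentralSeries G i) _).2 (ih _ h1)
    have h3 := (QuotientGroup.eq_one_iff (N := Subgroup.upperCentralSeries G i) _).2
      (Subgroup.mem_upperCentralSeries_succ_iff.1 h1 x)
    simp only [← QuotientGroup.mk'_apply, map_pow, map_commutatorElement] at h2 h3 ⊢
    generalize QuotientGroup.mk' (Subgroup.upperCentralSeries G i) x = a at h2 h3 ⊢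
    generalize QuotientGroup.mk' (Subgroup.upperCentralSeries G i) y = b at h2 h3 ⊢
    have h4 : Commute ⁅a, b⁆ a := commutatorElement_eq_one_iff_commute.1 h3
    have h5 : b * a⁻¹ * b⁻¹ = a⁻¹ * ⁅a, b⁆ := by rw [commutatorElement_def]; group
    have h6 : b * (a ^ m)⁻¹ * b⁻¹ = (a ^ m)⁻¹ := by
      rw [← inv_pow, ← conj_pow, h5, h4.symm.inv_left.mul_pow, h2, mul_one]
    rw [commutatorElement_def, mul_assoc, mul_assoc, ← mul_assoc b, h6, mul_inv_cancel]

/-- Let p be a prime, n a natural number, S a nontrivial finite p-group of nilpotence class at most n(p−1)+1, and F a saturated fusion system over S with no nontrivial normal subgroup (O_p(F) = 1). Then S has exponent dividing p^(n²(p−1)+n). -/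
theorem result {Ω : Type*} [Group Ω] {S : Subgroup Ω} [Finite S] (p : ℕ) [Fact p.Prime] (hS : IsPGroup p S) (F : Cfsg.FusionSystem S) (hF : F.IsSaturated p) (n : ℕ) (hS1 : S ≠ ⊥) (hcl : Subgroup.lowerCentralSeries S (n * (p - 1) + 1) = ⊥) (hcore : F.core = ⊥) : Monoid.exponent ↥S ∣ p ^ (n ^ 2 * (p - 1) + n) := by
  have h1 := GT.PG.powerClosure_eq_bot_iff.1
    (le_bot_iff.1 (hcore ▸ (S5218.result p hS F hF n hS1 hcl).le_core))
  have h2 := pow_mem_ucs (G := S) (m := p ^ n) fun z hz => Subtype.ext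
    (h1 z ⟨z.2, fun y hy => congrArg Subtype.val (Subgroup.mem_center_iff.1 hz ⟨y, hy⟩)⟩)
  have h3 : ∀ i, ∀ x ∈ Subgroup.upperCentralSeries S i, x ^ (p ^ n) ^ i = 1 := fun i => by
    induction i with
    | zero => intro x hx; rw [pow_zero, pow_one]; exact hx
    | succ i ih => intro x hx; rw [pow_succ', pow_mul]; exact ih _ (h2 i x hx)
  rw [← Subgroup.top_subtype_lowerCentralSeries, Subgroup.map_eq_bot_iff_of_injective _
    S.subtype_injective, Subgroup.lowerCentralSeries_eq_bot_iff_upperCentralSeries_eq_top] at hcl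
  refine Monoid.exponent_dvd_of_forall_pow_eq_one fun x => ?_
  have := h3 _ x (hcl ▸ Subgroup.mem_top x)
  rwa [← pow_mul, show n * (n * (p - 1) + 1) = n ^ 2 * (p - 1) + n by ring] at this

end Cfsg.Agent.S5219
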