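import Mathlib
import Cfsg.Statements.S5222
import Cfsg.Agent.Fus.Transfer
import Cfsg.Agent.Fus.EssLocal
import Cfsg.Agent.Fus.KNormalizer
import Cfsg.Agent.GT.PGroupBasic

set_option autoImplicit false
open Cfsg

namespace Cfsg.Agent.S5222

open Cfsg.Agent.Fus Cfsg.FusionSystem

theorem aux {Ω : Type*} [Group Ω] {S T Q : Subgroup Ω} [Finite S] (p : ℕ) [Fact p.Prime]
    (hS : IsPGroup p S) (F : FusionSystem S) (hA : IsPGroup p (F.autGroup S))
    (D : FusionSystem T) (hD : D.IsSaturated p) (hsub : D.IsSubsystemOf F) (hQ : D.IsNormal Q)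
    (hT : T = S) (h1 : ⁅S, S⁆ ≤ Q) (h2 : Q ≤ (frattini ↥S).map S.subtype) :
    D = innerFusionSystem T := by
  subst hT
  refine hD.eq_inner_of_hyp_le_frattini hS (le_trans ?_ h2)
  obtain ⟨G, _, _, θ, E, hq, hK⟩ := hD.exists_quot hS hQ.stronglyClosed
  have hG : IsPGroup p (⊤ : Subgroup G) := hq.toIsFac.isPGroup hS
  have hE := hq.isSaturated hD hS
  have hin : E = innerFusionSystem ⊤ := by
    refine eq_inner_of_no_essential hE hG (no_essential_of_comm hE hG ?_) ?_
    · intro x hx y hy
      obtain ⟨a, ha, rfl⟩ := hq.toIsFac.surj hx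
      obtain ⟨b, hb, rfl⟩ := hq.toIsFac.surj hy
      rw [← hq.mulOn.map_mul ha hb, ← hq.mulOn.map_mul hb ha,
        hq.mulOn.eq_iff_mem_pre_bot (T.mul_mem ha hb) (T.mul_mem hb ha), hK]
      apply h1
      have := Subgroup.commutator_mem_commutator (T.inv_mem hb) (T.inv_mem ha)
      rw [commutatorElement_def] at this
      simpa [mul_assoc] using this
    · obtain ⟨ρ, -, hρ⟩ := hq.exists_autHom_surj le_rfl (pre_le θ T ⊥)
      have h3 : IsPGroup p (D.autGroup T) := hA.to_le (hsub.autGroup_le T)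
      have h4 : IsPGroup p ρ.range := h3.of_surjective ρ.rangeRestrict ρ.rangeRestrict_surjective
      rw [hρ, hq.img_eq] at h4
      exact h4
  have h5 := hq.img_hyp (p := p)
  rw [hin, hyp_inner hG, hq.toIsFac.img_eq_bot_iff (D.hyperfocal_le p), hK] at h5
  exact h5

/-- Let F be a saturated fusion system over a finite p-group S whose normalizer fusion system of S is the inner fusion system of S (Aut_F(S) is a p-group). Then for every subgroup Q of S with [S, S] ≤ Q ≤ Φ(S), the normalizer fusion system of Q in F is the inner fusion system of N_S(Q) = S. -/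
theorem result {Ω : Type*} [Group Ω] {S : Subgroup Ω} [Finite S] (p : ℕ) [Fact p.Prime] (hS : IsPGroup p S) (F : Cfsg.FusionSystem S) (hF : F.IsSaturated p) (hN : ∀ N : Cfsg.FusionSystem (Cfsg.FusionSystem.normalizerIn S S), F.IsNormalizerSystem S N → ∀ P : Subgroup Ω, N.Hom P = (Cfsg.innerFusionSystem (Cfsg.FusionSystem.normalizerIn S S)).Hom P) (Q : Subgroup Ω) (h1 : (commutator ↥S).map S.subtype ≤ Q) (h2 : Q ≤ (frattini ↥S).map S.subtype) : ∀ N : Cfsg.FusionSystem (Cfsg.FusionSystem.normalizerIn S Q), F.IsNormalizerSystem Q N → ∀ P : Subgroup Ω, N.Hom P = (Cfsg.innerFusionSystem (Cfsg.FusionSystem.normalizerIn S Q)).Hom P := by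
  intro N hNQ
  have hQS : Q ≤ S := h2.trans (Subgroup.map_subtype_le _)
  have h1' : ⁅S, S⁆ ≤ Q := by
    rwa [commutator, Subgroup.map_commutator, ← MonoidHom.range_eq_map, Subgroup.range_subtype] at h1
  have hn : S ≤ Subgroup.normalizer (Q : Set Ω) := 
    GT.PG.le_normalizer_of_commutator_le
      ((Subgroup.commutator_mono hQS le_rfl).trans h1') le_rfl
  have hA : IsPGroup p (F.autGroup S) := by
    have h := hN _ (F.isNormalizerSystem_normalizerSystem le_rfl)
    rw [← ns_autGroup_eq (F.isNormalizerSystem_normalizerSystem le_rfl) le_rfl,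
      autGroup_eq_of_hom_eq (h S), autGroup_inner normalizerIn_self.ge]
    exact isPGroup_autInducedBy (hS.to_le normalizerIn_le) S
  rw [hom_eq_inner_iff]
  exact aux p hS F hA N (hNQ.isSaturated hF hS (F.isFullyNormalized_of_le_normalizer hQS hn))
    (ns_sub hNQ) (ns_isNormal hNQ hQS) (normalizerIn_eq_of_le hn) h1' h2

end Cfsg.Agent.S5222
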