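import Mathlib
import Cfsg.Statements.S5223
import Cfsg.Agent.Fus.EssLocal

set_option autoImplicit false
set_option linter.unusedVariables false
open Cfsg

namespace Cfsg.Agent.S5223

open Cfsg.FusionSystem Cfsg.Agent.Fus Subgroup

/-- Let F be a saturated fusion system over a finite p-group S. Suppose there are subgroups Q₀ = S, Q₁, …, Qₙ = 1 (not required to be nested) such that for each i < n the focal subgroup of Qᵢ (generated by the elements x⁻¹φ(x), x ∈ Qᵢ, φ a map of F defined on the cyclic group generated by x) lies in Qᵢ₊₁. Then F is the inner fusion system of S. -/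
theorem result {Ω : Type*} [Group Ω] {S : Subgroup Ω} [Finite S] (p : ℕ) [Fact p.Prime] (hS : IsPGroup p S) (F : Cfsg.FusionSystem S) (hF : F.IsSaturated p) (n : ℕ) (Q : Fin (n + 1) → Subgroup Ω) (hQ0 : Q 0 = S) (hQn : Q (Fin.last n) = ⊥) (hstep : ∀ i : Fin n, Subgroup.closure {y : Ω | ∃ x ∈ Q i.castSucc, ∃ φ ∈ F.Hom (Subgroup.zpowers x), y = x⁻¹ * φ ⟨x, Subgroup.mem_zpowers x⟩} ≤ Q i.succ) : ∀ P : Subgroup Ω, F.Hom P = (Cfsg.innerFusionSystem S).Hom P := by
  refine hom_eq_inner_iff.2 (eq_inner_of_isPGroup hF hS fun P hP => ?_)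
  have := finite_of_le hP
  refine isPGroup_of_forall_coprime fun α hα hc => ?_
  let c : ℕ → Subgroup Ω := fun i => if h : i ≤ n then P ⊓ Q ⟨i, by omega⟩ else ⊥
  have h1 := (invA_top (zpowers α)).commA_le_of_chain (hS.to_le hP) (coprime_card_zpowers hc) c
    (by
      simp only [c, Nat.zero_le, dif_pos]
      exact le_inf commA_le_top (commA_le_top.trans (hP.trans hQ0.ge))) n fun i hi => by
      simp only [c, hi.le, Nat.succ_le_of_lt hi, dif_pos]
      refine (commA_le_iff inf_le_left).2 fun β hβ x hx => ⟨mul_mem (P.inv_mem hx.1)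
        (totA_mem β hx.1), hstep ⟨i, hi⟩ (subset_closure ?_)⟩
      have hm := (mor_totA hP ((zpowers_le.2 hα) hβ)).mono (zpowers_le.2 hx.1)
      exact ⟨x, hx.2, hm.mulOn.hom, hm.hom_mem, rfl⟩
  simp only [c, le_refl, dif_pos] at h1
  have h2 : commA (zpowers α) P = ⊥ := le_bot_iff.1 (h1.trans (inf_le_right.trans hQn.le))
  have h3 := eq_bot_of_le_fixA ((commA_eq_bot_iff le_rfl).1 h2)
  exact zpowers_eq_bot.1 h3

end Cfsg.Agent.S5223
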