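import Mathlib
import Cfsg.Statements.S5226
import Cfsg.Agent.Fus.EssLocal

set_option autoImplicit false
set_option linter.unusedVariables false
open Cfsg

namespace Cfsg.Agent.S5226

open Cfsg.FusionSystem Cfsg.Agent.Fus Subgroup
open scoped commutatorElement

/-- Let F be a saturated fusion system over a finite p-group S and Q a subgroup of S. Then Q is normal in F (F equals the normalizer system of Q) if and only if Q is strongly closed in F and admits a central series 1 = Q₀ ≤ Q₁ ≤ ⋯ ≤ Qₙ = Q ([Qᵢ₊₁, Q] ≤ Qᵢ) all of whose proper terms are weakly closed in F. -/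
theorem result {Ω : Type*} [Group Ω] {S : Subgroup Ω} [Finite S] (p : ℕ) [Fact p.Prime] (hS : IsPGroup p S) (F : Cfsg.FusionSystem S) (hF : F.IsSaturated p) (Q : Subgroup Ω) : F.IsNormal Q ↔ F.StronglyClosed Q ∧ ∃ (n : ℕ) (C : Fin (n + 1) → Subgroup Ω), C 0 = ⊥ ∧ C (Fin.last n) = Q ∧ Monotone C ∧ (∀ i : Fin n, ⁅C i.succ, Q⁆ ≤ C i.castSucc) ∧ ∀ i : Fin n, F.WeaklyClosed (C i.castSucc) := by
  constructor
  · intro h
    have := finite_of_le h.le
    have := (hS.to_le h.le).isNilpotent
    refine ⟨h.stronglyClosed, Group.nilpotencyClass Q,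
      fun i => (Subgroup.upperCentralSeries Q i).map Q.subtype,
      by simp, ?_, fun i j hij => Subgroup.map_mono (Subgroup.upperCentralSeries_mono _ hij),
      fun i => ?_, fun i => ?_⟩
    · simp only [Fin.val_last]
      rw [Subgroup.upperCentralSeries_nilpotencyClass, ← MonoidHom.range_eq_map,
        Subgroup.range_subtype]
    · rw [Subgroup.commutator_le]
      intro x hx s hs
      exact (mem_map_upperCentralSeries_succ.1 hx).2 s hs
    · have := finite_of_le ((map_subtype_le (Subgroup.upperCentralSeries Q i.castSucc)).trans h.le)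
      refine (h.of_invariant (Subgroup.map_subtype_le _)
        fun g hg x hx => ?_).stronglyClosed.weaklyClosed
      exact (invA_map_of_characteristic (F.autGroup Q) _).iso_mem hg hx
  · rintro ⟨hQ, n, C, h0, hl, hmono, hc, hw⟩
    have := finite_of_le hQ.le
    refine hF.isNormal_of_le_essential hS hQ fun R hR => ?_
    have hCQ : ∀ i, C i ≤ Q := fun i => hl ▸ hmono (Fin.le_last i)
    have hw' : ∀ i, F.WeaklyClosed (C i) := fun i => by
      induction i using Fin.lastCases with
      | last => rw [hl]; exact hQ.weaklyClosed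
      | cast i => exact hw i
    suffices H : ∀ i, C i ≤ R from hl ▸ H _
    intro i
    induction i using Fin.induction with
    | zero => rw [h0]; exact bot_le
    | succ i ih =>
    refine le_of_normalizerIn_le hS hR.le (hw' _).le (hR.le.trans (hw' _).le_normalizer)
      fun s hs => ?_
    have hsR : ∀ x ∈ R, x⁻¹ * (s * x * s⁻¹) ∈ R := fun x hx =>
      R.mul_mem (R.inv_mem hx) (conj_mem_of_mem_normalizerIn hs hx)
    let D : ℕ → Subgroup Ω := fun j => C ⟨i - j, by omega⟩
    have hD : ∀ j, D j ≤ C i.castSucc := fun j => hmono (by simp [Fin.le_def])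
    refine hR.mem_of_chain hS (fun j => Nat.casesOn j R fun j => Nat.casesOn j (R ⊓ Q) D) (i + 2)
      rfl ?_ ?_ ?_ (normalizerIn_mono (hw' _).le hs) ?_
    · change D i ≤ _
      have : D i = ⊥ := by
        rw [← h0]
        change C _ = C _
        congr 1
        exact Fin.ext (by simp)
      rw [this]; exact bot_le
    · rintro (_ | _ | j) hj
      · exact inf_le_left
      · exact le_inf ((hD _).trans ih) (hCQ _)
      · exact hmono (by simp [Fin.le_def]; omega)
    · rintro (_ | _ | j) hj
      · exact invA_top _
      · exact hQ.invA' hR.le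
      · exact invA_autGroup_of_iso hR.le ((hD _).trans ih) fun f hf =>
          ((hw' _).iso (hf.mor.mono ((hD _).trans ih))).maps
    · rintro (_ | _ | j) hj x hx
      · refine ⟨hsR x hx, ?_⟩
        have := hQ.conj_mem (S.inv_mem (hR.le hx)) (hCQ _ hs.1)
        simpa [mul_assoc] using Q.mul_mem this (Q.inv_mem (hCQ _ hs.1))
      · have := Subgroup.inv_mem _ (hc i (commutator_mem_commutator hs.1 (Q.inv_mem hx.2)))
        rw [commutatorElement_inv] at this
        rw [comm_mem_iff_conj]
        exact this
      · have hx' : x ∈ C (Fin.succ ⟨i - (j + 1), by omega⟩) := by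
          refine hmono ?_ hx
          simp [Fin.le_def]; omega
        rw [comm_mem_iff_conj]
        exact hc _ (commutator_mem_commutator (Subgroup.inv_mem _ hx') (hCQ _ hs.1))

end Cfsg.Agent.S5226
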