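import Cfsg.Statements.S5244
import Mathlib
import Cfsg.Agent.Fus.AbIndex

set_option autoImplicit false
open Cfsg

namespace Cfsg.Agent.S5244

open Cfsg.FusionSystem Cfsg.Agent.Fus Cfsg.Agent.GT Subgroup
open scoped commutatorElement


/-- Let p be an odd prime, S a finite nonabelian p-group with a unique abelian subgroup A of index p, and F a saturated fusion system over S with no nontrivial normal subgroup (O_p(F) = 1) in which A is not F-essential. Then some subgroup Z(S)⟨x⟩ with x ∈ S outside A is F-essential, the centre Z(S) is contained in the commutator subgroup of S, and S has maximal nilpotency class (if S has order pⁿ with n ≥ 3, the term of index n − 2 of its lower central series, counting S itself as the term of index 0, is nontrivial). -/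
theorem result {Ω : Type*} [Group Ω] {S : Subgroup Ω} [Finite S] (p : ℕ) [Fact p.Prime] (hS : IsPGroup p S) (F : Cfsg.FusionSystem S) (hF : F.IsSaturated p) (hp : p ≠ 2) (hna : ¬ IsMulCommutative ↥S) (A : Subgroup Ω) (hA : A ≤ S ∧ IsMulCommutative ↥A ∧ (A.subgroupOf S).index = p) (huniq : ∀ B : Subgroup Ω, B ≤ S → IsMulCommutative ↥B → (B.subgroupOf S).index = p → B = A) (hcore : F.core = ⊥) (hAe : ¬ F.IsEssential p A) : (∃ x ∈ S, x ∉ A ∧ F.IsEssential p ((S ⊓ Subgroup.centralizer (S : Set Ω)) ⊔ Subgroup.zpowers x)) ∧ (S ⊓ Subgroup.centralizer (S : Set Ω)) ≤ (commutator ↥S).map S.subtype ∧ ∀ n : ℕ, Nat.card S = p ^ n → 3 ≤ n → Subgroup.lowerCentralSeries S (n - 2) ≠ ⊥ := by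
  have h : AbIdx p S A := ⟨hS, hA.1, PG.isMulCommutative_iff_forall.1 hA.2.1, hA.2.2, hna⟩
  have hp1 : p.Prime := Fact.out
  have hne : ∀ P, F.IsEssential p P → P ≠ A := fun P hP e => hAe (e ▸ hP)
  have hinv : ∀ P, F.IsEssential p P → ¬ IsMulCommutative P →
      InvA (F.autGroup P) (centralizerIn S S) := fun P hP hc => by
    obtain ⟨x, -, -, -, -, e, -⟩ := h.ess_not_comm hF hP (hne P hP) hc
    exact e ▸ (invA_top _).inf_centralizer (invA_top _)
  obtain ⟨P, hP, hc⟩ : ∃ P, F.IsEssential p P ∧ IsMulCommutative P := by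
    by_contra h1
    push Not at h1
    have hn : F.IsNormal (centralizerIn S S) := hF.isNormal_of_alperin hS fun R hR => by
      rcases hR with rfl | hR
      · exact ⟨centralizerIn_le, fun g hg => hg.iso_center.maps⟩
      · exact ⟨AbIdx.center_le_ess hR, fun g hg x hx => (hinv R hR (h1 R hR)).iso_mem hg hx⟩
    have h2 : centralizerIn S S = ⊥ := le_bot_iff.1 (hcore ▸ hn.le_core)
    have : Nontrivial S := not_subsingleton_iff_nontrivial.1 fun _ => hna ⟨⟨fun _ _ =>
      Subsingleton.elim _ _⟩⟩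
    have h3 := hS.center_nontrivial
    have h4 := PG.card_center_subgroup S
    rw [show S ⊓ centralizer (S : Set Ω) = ⊥ from h2, card_bot] at h4
    exact Finite.one_lt_card.ne' h4
  have h3 := h.card_center_inf
  obtain ⟨h1, h2⟩ := h.cent2_le_of_uniq hF hP (hne P hP) huniq
  rw [inf_eq_left.2 h1, h2] at h3
  have hZ : centralizerIn S S ≤ centralizerIn S S ⊓ ⁅S, S⁆ := by
    refine center_le_of_split hF hS hp hcore inf_le_left (fun g hg z hz => ?_) fun R hR => ?_
    · exact (((invA_top _).inf_centralizer (invA_top _)).inf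
        ((invA_top (F.autGroup S)).commutator (invA_top _))).iso_mem hg hz
    by_cases hc : IsMulCommutative R
    swap
    · exact .inl (hinv R hR hc)
    obtain ⟨x, hx, hxA, e, -, s, hs, hsR, X, Y, c, ht, he, hY⟩ := h.ess_comm hF hR (hne R hR) hc
    obtain ⟨β, hβ, -, b1, -, b2, -⟩ := ht.exists_neg hR hF hS
    have h4 := PG.sup_zpowers_eq_of_relIndex_prime hp1 bot_le
      (by rw [relIndex_bot_left, h3]) he ht.aW
    rw [bot_sup_eq] at h4
    refine .inr ⟨Y, hY ▸ le_sup_left, ht.invY, h4 ▸ hY.le, totA β,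
      (mor_totA (ht.norm ▸ normalizerIn_le) hβ).mono ((AbIdx.center_le_ess hR).trans le_sup_left),
      fun y hy => ?_, fun z hz => ?_⟩
    · exact (inv_mul_eq_one.1 (mem_bot.1 (b2 y hy))).symm
    · exact eq_inv_of_mul_eq_one_right (mem_bot.1 (b1 z (zpowers_le.2 ht.aX (h4 ▸ hz))).2)
  obtain ⟨x, hx, hxA, e, -⟩ := h.ess_comm hF hP (hne P hP) hc
  refine ⟨⟨x, hP.le hx, hxA, e ▸ hP⟩, by rw [map_subtype_commutator]; exact hZ.trans inf_le_right,
    fun n hn h4 h5 => ?_⟩
  obtain ⟨m, rfl⟩ : ∃ k, n = k + 3 := ⟨n - 3, by omega⟩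
  have h6 := PG.relIndex_mul_card (centralizerIn_le : centralizerIn S S ≤ S)
  rw [hn, show Nat.card (centralizerIn S S) = p by rw [← h3, le_antisymm inf_le_left hZ],
    pow_succ] at h6
  obtain ⟨y, hy, hyA, hy'⟩ := h.exists_mem_lcs h3 (Nat.eq_of_mul_eq_mul_right hp1.pos h6)
  refine hy' (mem_centralizerIn.2 ⟨h.le hyA, fun t ht => ?_⟩)
  have h7 : ⁅y, t⁆ ∈ S.lowerCentralSeries (m + 1) := commutator_mem_commutator hy ht
  rw [show m + 1 = m + 3 - 2 by omega, h5, mem_bot, commutatorElement_eq_one_iff_mul_comm] at h7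
  exact h7.symm

end Cfsg.Agent.S5244
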