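import Mathlib
import Cfsg.Statements.S5245
import Cfsg.Agent.Fus.AutSys
import Cfsg.Agent.Fus.KNormalizer

set_option autoImplicit false
set_option linter.unusedVariables false
open Cfsg

namespace Cfsg.Agent.S5245

open Cfsg.FusionSystem Cfsg.Agent.Fus Subgroup

/-- Let F be an extremely sparse fusion system over a finite p-group S (saturated, not the inner system, and every saturated fusion system over any subgroup T of S contained in F is F itself or the inner system of T). Then S is normal in F, the focal and hyperfocal subgroups of F are both S, and Aut_F(S) is generated by the inner automorphisms of S together with a single automorphism of prime order q ≠ p (F is the fusion system of the semidirect product of S by a cyclic group of prime order). -/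
theorem result {Ω : Type*} [Group Ω] {S : Subgroup Ω} [Finite S] (p : ℕ) [Fact p.Prime] (hS : IsPGroup p S) (F : Cfsg.FusionSystem S) (hF : F.IsSaturated p) (hxs : ¬ (∀ P : Subgroup Ω, F.Hom P = (Cfsg.innerFusionSystem S).Hom P) ∧ ∀ (T : Subgroup Ω) (E : Cfsg.FusionSystem T), E.IsSaturated p → E.IsSubsystemOf F → (T = S ∧ ∀ P : Subgroup Ω, E.Hom P = F.Hom P) ∨ (∀ P : Subgroup Ω, E.Hom P = (Cfsg.innerFusionSystem T).Hom P)) : F.IsNormal S ∧ F.focalSubgroup = S ∧ F.hyperfocalSubgroup p = S ∧ ∃ (q : ℕ) (β : MulAut ↥S), q.Prime ∧ q ≠ p ∧ β ∈ F.autGroup S ∧ orderOf β = q ∧ (F.autGroup S : Subgroup (MulAut ↥S)) = Cfsg.Inn ↥S ⊔ Subgroup.zpowers β := by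
  obtain ⟨hne, h⟩ := hxs
  have key : ∀ T ≤ S, ∀ β ∈ F.autGroup T, (orderOf β).Coprime p → β ≠ 1 →
      T = S ∧ F.autGroup T = Inn T ⊔ zpowers β := by
    intro T hT β hβ hc h1
    have := finite_of_le hT
    rcases h T _ (autSystem_isSaturated_sup (hS.to_le hT) (coprime_card_zpowers hc))
      (autSystem_isSubsystemOf hT (sup_le (F.inn_le_autGroup hT) (zpowers_le.2 hβ))) with
      ⟨h2, h3⟩ | h2
    · exact ⟨h2, (autGroup_eq_of_hom_eq (h3 T)).symm.trans autGroup_autSystem⟩
    · refine absurd (eq_one_of_mem_autGroup_inner (hS.to_le hT) le_rfl ?_ hc) h1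
      rw [← autGroup_eq_of_hom_eq (h2 T), autGroup_autSystem]
      exact mem_sup_right (mem_zpowers β)
  have hq : ∀ {T : Subgroup Ω} {q : ℕ} {β : MulAut T}, q.Prime → q ≠ p → orderOf β = q →
      (orderOf β).Coprime p ∧ β ≠ 1 := fun hq hqp ho =>
    ⟨ho ▸ (Nat.coprime_primes hq Fact.out).2 hqp, fun h => by
      rw [h, orderOf_one] at ho
      exact hq.one_lt.ne ho⟩
  have hess : ∀ R, ¬ F.IsEssential p R := fun R hR => by
    have := finite_of_le hR.le
    obtain ⟨q, β, hβ, h1, h2, h3⟩ := exists_prime_orderOf_ne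
      fun h => not_essential_of_isPGroup hF hS h hR
    exact (hF.lt_of_isEssential hS hR).ne (key R hR.le β hβ (hq h1 h2 h3).1 (hq h1 h2 h3).2).1
  obtain ⟨q, β, hβ, h1, h2, h3⟩ := exists_prime_orderOf_ne
    fun h => hne (hom_eq_inner_iff.2 (eq_inner_of_no_essential hF hS hess h))
  obtain ⟨hc, hβ1⟩ := hq h1 h2 h3
  have hA := coprime_card_zpowers hc
  have hhyp : F.hyperfocalSubgroup p = S := by
    refine le_antisymm (F.hyperfocal_le p) ?_
    have hle : commA (zpowers β) S ≤ F.hyperfocalSubgroup p :=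
      (commA_le_iff le_rfl).2 fun α hα x hx => mem_hyperfocal_of_coprime le_rfl
        (zpowers_le.2 hβ hα) (Nat.Coprime.coprime_dvd_left (orderOf_dvd_of_mem_zpowers hα) hc) hx
    have hT : commA (zpowers β) S ≤ S := commA_le_top
    have := finite_of_le hT
    have hinv : InvA (zpowers β) (commA (zpowers β) S) :=
      invA_of_commA_le hT le_rfl le_rfl
    have hst := hinv.le_stabA (mem_zpowers β)
    have hm : F.Mor (commA (zpowers β) S) (totA (resA (commA (zpowers β) S) β)) :=
      ((mor_totA le_rfl hβ).mono hT).congr fun x hx => (totA_resA hT hst hx).symm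
    refine (key _ hT _ ((mem_autGroup_iff hT).2 hm) ?_ fun h0 => hβ1 ?_).1.ge.trans hle
    · refine Nat.Coprime.coprime_dvd_left (orderOf_dvd_of_pow_eq_one ?_) hc
      rw [← (mulOn_resA hT).map_pow hst, pow_orderOf_eq_one, (mulOn_resA hT).map_one]
    · have h4 : commA (zpowers β) S ≤ fixA (zpowers β) := fun x hx =>
        mem_fixA_zpowers.2 ⟨hT hx, by rw [← totA_resA hT hst hx, h0, totA_one hx]⟩
      exact zpowers_eq_bot.1 (eq_bot_of_le_fixA
        ((invA_top _).le_fixA_of_commA_le_fixA hS hA h4))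
  exact ⟨(hF.isNormal_top_iff hS).2 hess,
    le_antisymm F.focal_le (hhyp.ge.trans (F.hyperfocal_le_focal p)), hhyp, q, β, h1, h2, hβ, h3,
    (key S le_rfl β hβ hc hβ1).2⟩

end Cfsg.Agent.S5245
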