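import Mathlib
import Cfsg.Statements.S5248
import Cfsg.Agent.Fus.MxAll

set_option autoImplicit false
open Cfsg

namespace Cfsg.Agent.S5248

open Cfsg.FusionSystem Cfsg.Agent.Fus Cfsg.Agent.Fus.MG Cfsg.Agent.Inv Cfsg.Agent.Inv.Fz Subgroup

/-- Let S be a finite 2-group that is dihedral of order at least 8, generalized quaternion of order at least 8, semidihedral, or wreathed, and let F be a saturated fusion system over S. Then F has at most two F-conjugacy classes of F-essential subgroups (among any three essential subgroups two are joined by a map of F), and F is realizable: it is the fusion system of a finite group on a Sylow 2-subgroup. -/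
theorem result {Ω : Type*} [Group Ω] {S : Subgroup Ω} [Finite S] (hS : IsPGroup 2 S) (F : Cfsg.FusionSystem S) (hF : F.IsSaturated 2) (hshape : ((∃ m : ℕ, 4 ≤ m ∧ Nonempty (↥S ≃* DihedralGroup m)) ∨ (∃ m : ℕ, 2 ≤ m ∧ Nonempty (↥S ≃* QuaternionGroup m)) ∨ Cfsg.IsQuasiDihedral ↥S ∨ Cfsg.IsWreathed ↥S)) : (∀ E₁ E₂ E₃ : Subgroup Ω, F.IsEssential 2 E₁ → F.IsEssential 2 E₂ → F.IsEssential 2 E₃ → (∃ φ ∈ F.Hom E₁, φ.range = E₂) ∨ (∃ φ ∈ F.Hom E₁, φ.range = E₃) ∨ (∃ φ ∈ F.Hom E₂, φ.range = E₃)) ∧ F.IsRealizable 2 := by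
  obtain ⟨E, hE⟩ := F.exists_toTop
  have hE' := hE.isSaturated hF hS
  have key : (∀ E₁ E₂ E₃, E.IsEssential 2 E₁ → E.IsEssential 2 E₂ → E.IsEssential 2 E₃ →
      E.IsConj E₁ E₂ ∨ E.IsConj E₁ E₃ ∨ E.IsConj E₂ E₃) ∧ E.IsRealizable 2 := by
    rcases hshape with ⟨m, hm, ⟨e⟩⟩ | ⟨m, hm, ⟨e⟩⟩ | h | h
    · obtain ⟨t, r, s, H⟩ := exists_mx_of_dihedral (hE.isPGroup hS) (by omega) (topEquiv.trans e)
      refine ⟨fun _ _ _ => mx_two_classes H hE', real_d H (Nat.pos_of_ne_zero ?_) hE'⟩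
      rintro rfl
      have := H.card
      rw [Nat.card_congr (topEquiv.trans e).toEquiv, DihedralGroup.nat_card] at this
      omega
    · obtain ⟨n, hn⟩ := IsPGroup.iff_card.1 hS
      have : NeZero m := ⟨by omega⟩
      rw [Nat.card_congr e.toEquiv, Nat.card_eq_fintype_card, QuaternionGroup.card] at hn
      obtain ⟨t, -, rfl⟩ := (Nat.dvd_prime_pow Nat.prime_two).1 (Dvd.intro_left 4 hn)
      obtain ⟨r, s, H⟩ := exists_mc_of_quaternion' e
      refine ⟨fun _ _ _ => mx_two_classes H.mxQ hE', real_q H.mxQ (Nat.pos_of_ne_zero ?_) hE'⟩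
      rintro rfl
      omega
    · obtain ⟨t, ht, r, s, H⟩ := exists_mx_of_qd' h
      exact ⟨fun _ _ _ => mx_two_classes H hE', real_qd H ht hE'⟩
    · obtain ⟨t, u, w, H⟩ := exists_wr' h
      exact ⟨fun _ _ _ => wr_two_classes H hE', real_wr H hE'⟩
  refine ⟨fun E₁ E₂ E₃ h₁ h₂ h₃ => ?_, hE.symm.isRealizable key.2⟩
  have back : ∀ {P Q}, F.IsEssential 2 P → F.IsEssential 2 Q →
      E.IsConj (img (toSub S) P) (img (toSub S) Q) → F.IsConj P Q := fun hP hQ h => by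
    have := hE.symm.isConj h
    rwa [hE.img_img hP.1.le, hE.img_img hQ.1.le] at this
  exact (key.1 _ _ _ (hE.isEssential h₁) (hE.isEssential h₂) (hE.isEssential h₃)).imp
    (back h₁ h₂) (Or.imp (back h₁ h₃) (back h₂ h₃))

end Cfsg.Agent.S5248
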