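import Mathlib
import Cfsg.Statements.S5252
import Cfsg.Agent.Fus.Control2
import Cfsg.Agent.Fus.EssLocal
import Cfsg.Agent.Loc.CFKseq
import Cfsg.Agent.S1993

set_option autoImplicit false
open Cfsg

namespace Cfsg.Agent.S5252

open Cfsg.Agent.Fus Cfsg.FusionSystem

theorem aux.{u} {p : ℕ} [Fact p.Prime] (hp : 5 ≤ p) (n : ℕ) : ∀ {Ω : Type u} [Group Ω]
    {S : Subgroup Ω} [Finite S] {F : FusionSystem S}, IsPGroup p S → F.IsSaturated p → S ≠ ⊥ →
    IsPGroup p (F.autGroup S) → Nat.card S = n → F.focalSubgroup < S := by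
  induction n using Nat.strong_induction_on with
  | _ n ih =>
  intro Ω _ S _ F hS hF h1 ha hn
  subst hn
  have hW := Loc.CF.isCharPFunctor_kInfUpper.{u} (p := p)
  have hV := wf_le kInfUpper S
  have hn := Subgroup.le_normalizer.trans (normalizer_le_normalizer_wf hW hS)
  obtain ⟨N, hN⟩ := F.exists_isKNormalizer (T := S) hV ⊤ (by
    rw [preAut_top, normalizerIn_eq_of_le hn])
  have hNs := hN.isSaturated hF hS (hF.kFull_top hS (F.isFullyNormalized_of_le_normalizer hV hn))
  have haN : IsPGroup p (N.autGroup S) := ha.to_le (hN.isSubsystemOf.autGroup_le S)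
  rw [← hF.focal_eq_of_wf hW (fun L _ _ P _ x hx => (((S1993.result P).1 hp).le
    ⟨IsPGroup.le_sylow_of_normal (GT.isPGroup_pCore p) P hx.1, hx.2⟩).2) hS hN]
  have hVN := hN.isNormal hV
  by_cases h : inducedFunctor kInfUpper S = S
  · rw [h] at hVN
    have hi := eq_inner_of_no_essential hNs hS ((hNs.isNormal_top_iff hS).1 hVN) haN
    have := hS.isNilpotent
    refine lt_of_le_of_lt (focal_le_iff.2 fun P f hf x hx => ?_)
      (GT.commutator_lt_of_isSolvable h1)
    obtain ⟨g, hg, e⟩ := eq_inner_iff.1 hi P f hf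
    rw [e x hx, comm_mem_iff_conj]
    exact Subgroup.commutator_mem_commutator (S.inv_mem (hf.le hx)) hg
  · obtain ⟨G, _, _, θ, E, hq, hk⟩ := hNs.exists_quot hS hVN.stronglyClosed
    have hG := hq.toIsFac.isPGroup hS
    obtain ⟨ρ, -, hρ⟩ := hq.exists_autHom_surj le_rfl (pre_le _ _ _)
    have h2 := ih _ (hq.toIsFac.card_lt (hk.symm ▸ wf_ne_bot hW hS h1)) hG (hq.isSaturated hNs hS)
      (fun h0 => h (hV.antisymm (hk ▸ (hq.toIsFac.img_eq_bot_iff le_rfl).1 (hq.img_eq.trans h0))))
      (by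
        have := (haN.of_surjective ρ.rangeRestrict ρ.rangeRestrict_surjective)
        rwa [hρ, hq.img_eq] at this) rfl
    refine N.focal_le.lt_of_ne fun e => h2.ne ?_
    rw [← hq.img_focal, e, hq.img_eq]

/-- Let p ≥ 5 be a prime and F a saturated fusion system over a nontrivial finite p-group S such that Aut_F(S) is a p-group. Then the focal subgroup of F is a proper subgroup of S. -/
theorem result {Ω : Type*} [Group Ω] {S : Subgroup Ω} [Finite S] (p : ℕ) [Fact p.Prime] (hS : IsPGroup p S) (F : Cfsg.FusionSystem S) (hF : F.IsSaturated p) (hp : 5 ≤ p) (hS1 : S ≠ ⊥) (haut : IsPGroup p ↥(F.autGroup S)) : F.focalSubgroup < S := by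
  exact aux hp _ hS hF hS1 haut rfl

end Cfsg.Agent.S5252
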