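import Mathlib
import Cfsg.Statements.S5271
import Cfsg.Agent.Fus.BGH
import Cfsg.Agent.Fus.Control
import Cfsg.Agent.Fus.EssMisc
import Cfsg.Agent.GT.PGroupChain

set_option autoImplicit false
set_option linter.unusedVariables false
open Cfsg

namespace Cfsg.Agent.S5271

open Cfsg.FusionSystem Cfsg.Agent.Fus Subgroup Cfsg.Agent.GT.PG

open scoped commutatorElement

universe u

theorem exists_between {Ω : Type*} [Group Ω] {S A B : Subgroup Ω} [Finite S] {p k : ℕ}
    [Fact p.Prime] (hS : IsPGroup p S) (hB : B ≤ S) (hAB : A ≤ B)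
    (hA' : S ≤ normalizer (A : Set Ω)) (hB' : S ≤ normalizer (B : Set Ω))
    (h1 : Nat.card A ≤ p ^ k) (h2 : p ^ k ≤ Nat.card B) :
    ∃ K : Subgroup Ω, S ≤ normalizer (K : Set Ω) ∧ A ≤ K ∧ K ≤ B ∧ Nat.card K = p ^ k := by
  have := (normal_subgroupOf_iff_le_normalizer (hAB.trans hB)).2 hA'
  have := (normal_subgroupOf_iff_le_normalizer hB).2 hB'
  obtain ⟨K, hK, h3, h4, h5⟩ := exists_normal_card_eq_pow_between hS (A.subgroupOf S)
    (B.subgroupOf S) (comap_mono hAB) (k := k)
    (by rwa [Nat.card_congr (subgroupOfEquivOfLe (hAB.trans hB)).toEquiv])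
    (by rwa [Nat.card_congr (subgroupOfEquivOfLe hB).toEquiv])
  refine ⟨K.map S.subtype, (normal_subgroupOf_iff_le_normalizer (map_subtype_le K)).1 ?_, ?_,
    map_le_iff_le_comap.2 h4, by rw [card_subtype, h5]⟩
  · rwa [subgroupOf, comap_map_eq_self_of_injective S.subtype_injective]
  · rw [← map_subgroupOf_eq_of_le (hAB.trans hB)]; exact map_mono h3

theorem aux {p : ℕ} [hp : Fact p.Prime] (n : ℕ) : ∀ {Ω : Type u} [Group Ω] {S : Subgroup Ω}
    [Finite S] (_ : IsPGroup p S) (F : FusionSystem S) (_ : F.IsSaturated p) (k : ℕ)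
    (_ : 0 < k) (_ : p ^ k < Nat.card S)
    (_ : ∀ Q : Subgroup Ω, Q ≤ S → Nat.card Q = p ^ k →
      ∃ P, F.StronglyClosed P ∧ F.StronglyClosed (Q ⊔ P) ∧ F.StronglyClosed (Q ⊓ P))
    (_ : ∀ H, F.IsFullyNormalized H → Nat.card H = p ^ k → F.NLe H (innerFusionSystem S)),
    Nat.card S = n → F = innerFusionSystem S := by
  induction n using Nat.strong_induction_on with
  | _ n ih =>
  intro Ω _ S _ hS F hF k hk hkS hw hn hcard
  have h1k : 1 < p ^ k := Nat.one_lt_pow hk.ne' hp.out.one_lt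
  by_contra hne
  have hT := hF.stronglyClosed_hyp hS
  set T := F.hyperfocalSubgroup p with hTdef
  have hT0 : T ≠ ⊥ := fun h => hne (hF.eq_inner_of_hyp_eq_bot hS h)
  have hA : ∀ N, F.StronglyClosed N → N ≠ ⊥ →
      (∀ X, F.StronglyClosed X → X ≤ N → X = ⊥ ∨ X = N) → Nat.card N ≤ p ^ k ∧ T ≤ N := by
    intro N hN hN0 hmin
    have := finite_of_le hN.le
    have hle : Nat.card N ≤ p ^ k := by
      by_contra hlt
      push Not at hlt
      obtain ⟨Q', hQ'⟩ := Sylow.exists_subgroup_card_pow_prime_of_le_card hp.out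
        (hS.to_le hN.le) hlt.le
      have hQc : Nat.card (Q'.map N.subtype) = p ^ k := by rw [card_subtype, hQ']
      have hQN := map_subtype_le Q'
      set Q := Q'.map N.subtype
      have hQ : ¬ F.StronglyClosed Q := fun h => by
        rcases hmin Q h hQN with h | h
        · rw [h, card_bot] at hQc; omega
        · rw [h] at hQc; omega
      obtain ⟨P, h1, h2, h3⟩ := hw Q (hQN.trans hN.le) hQc
      rcases hmin _ (h1.inf hN) inf_le_right with h | h
      · refine hQ ?_
        have e : (Q ⊔ P) ⊓ N = Q := by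
          refine le_antisymm (fun x hx => ?_) (le_inf le_sup_left hQN)
          have hx1 : x ∈ ((Q ⊔ P : Subgroup Ω) : Set Ω) := hx.1
          rw [coe_mul_of_left_le_normalizer_right _ _ ((hQN.trans hN.le).trans h1.le_normalizer)]
            at hx1
          obtain ⟨a, ha, b, hb, rfl⟩ := hx1
          have : b ∈ P ⊓ N := ⟨hb, by simpa using N.mul_mem (N.inv_mem (hQN ha)) hx.2⟩
          rw [h, mem_bot] at this
          simpa [this] using ha
        exact e ▸ h2.inf hN
      · rw [inf_eq_left.2 (hQN.trans (inf_eq_right.1 h))] at h3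
        exact hQ h3
    refine ⟨hle, ?_⟩
    obtain ⟨G, _, _, θ, E, hq, hker⟩ := hF.exists_quot hS hN
    have hlift : ∀ H' : Subgroup G, F.NLe (pre θ S H') (innerFusionSystem S) →
        E.NLe H' (innerFusionSystem ⊤) := by
      intro H' h R' g' hg' hHR hRN hgH
      obtain ⟨g, hg, e⟩ := hq.lift hg'
      have h1 : pre θ S R' ≤ normalizer ((pre θ S H' : Subgroup Ω) : Set Ω) := fun x hx => by
        have : x ∈ normalizerIn S (pre θ S H') := by
          rw [hq.normalizerIn_pre le_top]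
          exact pre_mono (le_inf le_top hRN) hx
        exact this.2
      have h2 : ∀ x ∈ pre θ S H', g x ∈ pre θ S H' := fun x hx => by
        refine mem_pre_of (hg.mem (pre_mono hHR hx)) ?_
        rw [← e x (pre_mono hHR hx)]
        exact hgH _ (hq.mulOn.apply_mem_of_pre hx)
      obtain ⟨-, s, hs, es⟩ := mor_inner_iff.1 (h _ g hg (pre_mono hHR) h1 h2)
      refine mor_inner_iff.2 ⟨le_top, θ s, trivial, fun y hy => ?_⟩
      obtain ⟨x, hx, rfl⟩ := hq.exists_pre le_top hy
      rw [e x hx, es x hx, hq.mulOn.map_conj hs (pre_le _ _ _ hx)]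
    have hE : E = innerFusionSystem ⊤ := by
      rcases hle.lt_or_eq with hlt | heq
      · obtain ⟨j, hj⟩ := (hS.to_le hN.le).exists_card_eq
        have hjk : j < k := by rwa [hj, Nat.pow_lt_pow_iff_right hp.out.one_lt] at hlt
        have hpre : ∀ Q' : Subgroup G, Nat.card Q' = p ^ (k - j) →
            Nat.card (pre θ S Q') = p ^ k := fun Q' h => by
          rw [hq.card_pre le_top, hker, h, hj, ← pow_add, Nat.sub_add_cancel hjk.le]
        refine ih _ (hcard ▸ hq.card_lt (hker ▸ hN0)) (hq.isPGroup hS) E (hq.isSaturated hF hS)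
          (k - j) (by omega) ?_ (fun Q' _ hQ' => ?_) (fun H' h1 h2 => hlift H'
            (hn _ ((hq.isFullyNormalized_pre_iff le_top).2 h1) (hpre H' h2))) rfl
        · have h1 := hq.card_pre (P' := ⊤) le_rfl
          rw [hq.pre_top, hker, hj] at h1
          rw [h1, ← Nat.sub_add_cancel hjk.le, pow_add] at hkS
          exact lt_of_mul_lt_mul_right hkS (Nat.zero_le _)
        · obtain ⟨P, h1, h2, h3⟩ := hw _ (pre_le θ S Q') (hpre Q' hQ')
          refine ⟨img θ P, hq.stronglyClosed_img h1, ?_, ?_⟩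
          · have := hq.stronglyClosed_img h2
            rwa [(hq.mulOn.mono h2.le).img_sup, hq.img_pre le_top] at this
          · have := hq.stronglyClosed_img h3
            have e : img θ (pre θ S Q' ⊓ P) = Q' ⊓ img θ P := by
              refine le_antisymm (img_le_iff.2 fun x hx => ⟨hq.mulOn.apply_mem_of_pre hx.1,
                mem_img_of_mem hx.2⟩) fun y hy => ?_
              obtain ⟨x, hx, rfl⟩ := (hq.mem_img h1.le).1 hy.2
              exact mem_img_of_mem ⟨mem_pre_of (h1.le hx) hy.1, hx⟩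
            rwa [e] at this
      · have h1 := hlift ⊥ (hker ▸ hn N (F.isFullyNormalized_of_le_normalizer hN.le
          hN.le_normalizer) heq)
        exact sub_inner_iff.1 ((E.isNormal_bot.nLe_iff).1 h1)
    have h2 := hq.img_hyp (p := p)
    rw [hE, hyp_inner (hq.isPGroup hS), hq.img_eq_bot_iff hT.le, hker] at h2
    exact h2
  have hB : ∀ X, F.StronglyClosed X → X ≠ ⊥ → Nat.card T ≤ p ^ k ∧ T ≤ X := by
    intro X hX hX0
    have : Finite (Subgroup S) := inferInstance
    obtain ⟨N, ⟨hN, hN0, hNX⟩, hmin⟩ := exists_minimalFor_of_wellFoundedLT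
      (fun N : Subgroup Ω => F.StronglyClosed N ∧ N ≠ ⊥ ∧ N ≤ X) (fun N => Nat.card N)
      ⟨X, hX, hX0, le_rfl⟩
    have := finite_of_le hN.le
    obtain ⟨h1, h2⟩ := hA N hN hN0 fun Y hY hYN => by
      by_cases h : Y = ⊥
      · exact Or.inl h
      · exact Or.inr (eq_of_le_of_card_ge hYN (hmin ⟨hY, h, hYN.trans hNX⟩ (card_le_of_le hYN)))
    exact ⟨(card_le_of_le h2).trans h1, h2.trans hNX⟩
  have hC : ∀ Q : Subgroup Ω, Q ≤ S → Nat.card Q = p ^ k → Q ⊓ T = ⊥ ∨ T ≤ Q := by
    intro Q hQ hc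
    obtain ⟨P, h1, h2, h3⟩ := hw Q hQ hc
    by_cases hP : P = ⊥
    · subst hP
      rw [sup_bot_eq] at h2
      exact Or.inr (hB Q h2 fun h => by rw [h, card_bot] at hc; omega).2
    · by_cases hQP : Q ⊓ P = ⊥
      · exact Or.inl (eq_bot_iff.2 ((inf_le_inf_left Q (hB P h1 hP).2).trans hQP.le))
      · exact Or.inr ((hB _ h3 hQP).2.trans inf_le_left)
  have hTk := (hB T hT hT0).1
  by_cases hΦ : T ≤ (frattini S).map S.subtype
  · exact hne (hF.eq_inner_of_hyp_le_frattini hS hΦ)
  obtain ⟨M, hM, hTM⟩ : ∃ M : Subgroup S, IsCoatom M ∧ ¬ T ≤ M.map S.subtype := by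
    by_contra hh
    push Not at hh
    refine hΦ fun x hx => ⟨⟨x, hT.le hx⟩, ?_, rfl⟩
    refine Subgroup.mem_iInf.2 fun M => Subgroup.mem_iInf.2 fun hM => ?_
    obtain ⟨y, hy, e⟩ := hh M hM hx
    exact (show y = ⟨x, hT.le hx⟩ from Subtype.ext e) ▸ hy
  have hMi := (isCoatom_iff_index_eq hS).1 hM
  have hMn : S ≤ normalizer ((M.map S.subtype : Subgroup Ω) : Set Ω) := by
    refine (normal_subgroupOf_iff_le_normalizer (map_subtype_le M)).1 ?_
    rw [subgroupOf, comap_map_eq_self_of_injective S.subtype_injective]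
    exact normal_of_isCoatom hS hM
  have := finite_of_le hT.le
  by_cases h0 : T ⊓ M.map S.subtype = ⊥
  swap
  · obtain ⟨Q, -, h1, h2, h3⟩ := exists_between (k := k) hS (map_subtype_le M)
      (inf_le_right (a := T)) ((le_inf hT.le_normalizer hMn).trans inf_normalizer_le_normalizer_inf)
      hMn ((card_le_of_le inf_le_left).trans hTk) (by
        obtain ⟨m, hm⟩ := hS.exists_card_eq
        have h4 := M.card_mul_index
        rw [hm, Nat.pow_lt_pow_iff_right hp.out.one_lt] at hkS
        obtain ⟨m, rfl⟩ : ∃ m', m = m' + 1 := ⟨m - 1, by omega⟩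
        rw [hMi, hm, pow_succ, Nat.mul_left_inj hp.out.ne_zero] at h4
        rw [card_subtype, h4]
        exact Nat.pow_le_pow_right hp.out.pos (by omega))
    rcases hC Q (h2.trans (map_subtype_le M)) h3 with h | h
    · exact h0 (eq_bot_iff.2 ((le_inf h1 inf_le_left).trans h.le))
    · exact hTM (h.trans h2)
  have hTZ : S ≤ centralizer (T : Set Ω) := fun s hs x hx => by
    have h1 : x⁻¹ * (s * x * s⁻¹) ∈ T ⊓ M.map S.subtype := by
      refine ⟨T.mul_mem (T.inv_mem hx) (hT.conj_mem hs hx), ⁅(⟨x, hT.le hx⟩ : S)⁻¹, ⟨s, hs⟩⁆,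
        commutator_le_of_index_prime hS hMi (commutator_mem_commutator (mem_top _) (mem_top _)), ?_⟩
      simp [commutatorElement_def, mul_assoc]
    rw [h0, mem_bot, inv_mul_eq_one, eq_mul_inv_iff_mul_eq] at h1
    exact h1
  obtain ⟨H, hH1, hH2, hH3, hH4⟩ := exists_between (k := k) hS le_rfl hT.le hT.le_normalizer
    Subgroup.le_normalizer hTk hkS.le
  have hH := hF.stronglyClosed_of_hyperfocal_le hS hH3 hH1 hH2
  have hfix : ∀ P f, F.Mor P f → ∀ x ∈ P, x ∈ T → f x = x := by
    intro P f hf x hx hxT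
    obtain ⟨f', hf', e, -⟩ := hf.inv
    obtain ⟨g, hg, eg⟩ := hF.extend_centralizerIn hS (F.isFullyCentralized_of_le_centralizer
      ((zpowers_le.2 hxT).trans hT.le) (hTZ.trans (centralizer_le (zpowers_le.2 hxT))))
      ((hf.iso_img_of_le (zpowers_le.2 hx)).inv.choose_spec.1)
    have hy := hT.mem hf hx hxT
    have hg' : F.Mor S g := hg.mono (le_sup_of_le_right fun s hs => ⟨hs,
      centralizer_le (hT.img_le (hf.mono (zpowers_le.2 hx)) (zpowers_le.2 hxT)) (hTZ hs)⟩)
    obtain ⟨-, s, hs, es⟩ := mor_inner_iff.1 (hn H (F.isFullyNormalized_of_le_normalizer hH3 hH1)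
      hH4 S g hg' hH3 hH1 fun y hy => hH.mem hg' (hH3 hy) hy)
    have h1 := eg _ (mem_img_of_mem (mem_zpowers x))
    rw [(hf.iso_img_of_le (zpowers_le.2 hx)).inv.choose_spec.2.1 x (mem_zpowers x),
      es _ (hf.mem hx), ← hTZ hs _ hy, mul_inv_cancel_right] at h1
    exact h1
  refine hT0 (eq_bot_iff.2 (hyperfocal_le_iff_coprime.2 fun P hP α hα hc x hx => ?_))
  have := finite_of_le hP
  have h1 : ((⟨x, hx⟩⁻¹ * α ⟨x, hx⟩ : P) : Ω) ∈ T := by
    simpa [totA_apply _ hx] using mem_hyperfocal_of_coprime hP hα hc hx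
  have h2 := mulAut_fix_of_comm_fixed (hS.to_le hP) hc (x := ⟨x, hx⟩) (Subtype.ext (by
    rw [← totA_coe]; exact hfix P _ (mor_totA hP hα) _ (SetLike.coe_mem _) h1))
  rw [totA_apply _ hx, h2, inv_mul_cancel]
  exact one_mem _

/-- A nilpotency criterion for fusion systems. Let F be a saturated fusion system over a finite p-group S of order at least p². Call a subgroup Q of S weakly embedded in F when there is a subgroup P of S strongly closed in F such that both the product QP and the intersection Q ∩ P are strongly closed in F. Then F is the inner fusion system of S if and only if there is a subgroup D of S with 1 < D < S such that every subgroup of S of the same order as D is weakly embedded in F and, for every fully normalized subgroup H of S of that order, the normalizer fusion system of H in F is the inner fusion system of N_S(H). -/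
theorem result {Ω : Type*} [Group Ω] {S : Subgroup Ω} [Finite S] (p : ℕ) [Fact p.Prime] (hS : IsPGroup p ↥S) (F : Cfsg.FusionSystem S) (hF : F.IsSaturated p) (hcard : p ^ 2 ≤ Nat.card S) : (∀ P : Subgroup Ω, F.Hom P = (Cfsg.innerFusionSystem S).Hom P) ↔ ∃ D : Subgroup Ω, ⊥ < D ∧ D < S ∧ (∀ Q : Subgroup Ω, Q ≤ S → Nat.card ↥Q = Nat.card ↥D → ∃ P : Subgroup Ω, F.StronglyClosed P ∧ F.StronglyClosed (Q ⊔ P) ∧ F.StronglyClosed (Q ⊓ P)) ∧ (∀ H : Subgroup Ω, F.IsFullyNormalized H → Nat.card ↥H = Nat.card ↥D → ∀ N : Cfsg.FusionSystem (Cfsg.FusionSystem.normalizerIn S H), F.IsNormalizerSystem H N → ∀ P : Subgroup Ω, N.Hom P = (Cfsg.innerFusionSystem (Cfsg.FusionSystem.normalizerIn S H)).Hom P) := by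
  have hp := (Fact.out : p.Prime)
  rw [hom_eq_inner_iff]
  constructor
  · rintro rfl
    obtain ⟨m, hm⟩ := hS.exists_card_eq
    rw [hm, Nat.pow_le_pow_iff_right hp.one_lt] at hcard
    obtain ⟨m, rfl⟩ : ∃ m', m = m' + 1 := ⟨m - 1, by omega⟩
    obtain ⟨D, hD⟩ := Sylow.exists_subgroup_card_pow_prime_of_le_card hp hS (n := m)
      (hm ▸ Nat.pow_le_pow_right hp.pos m.le_succ)
    have hD' : Nat.card (D.map S.subtype) = p ^ m := by rw [card_subtype, hD]
    refine ⟨D.map S.subtype, bot_lt_iff_ne_bot.2 fun h => ?_,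
      (map_subtype_le D).lt_of_ne fun h => ?_, fun Q hQ hc => ⟨⊥, stronglyClosed_bot _, ?_, ?_⟩,
      fun H _ _ N hN => ?_⟩
    · rw [h, card_bot] at hD'
      exact (Nat.one_lt_pow (by omega) hp.one_lt).ne hD'
    · rw [h, hm, Nat.pow_right_inj hp.one_lt] at hD'
      omega
    · rw [sup_bot_eq]
      have hn : S ≤ normalizer (Q : Set Ω) := by
        refine (normal_subgroupOf_iff_le_normalizer hQ).1 (normal_of_index_prime hS ?_)
        have h4 := (Q.subgroupOf S).card_mul_index
        rwa [Nat.card_congr (subgroupOfEquivOfLe hQ).toEquiv, hc, hD', hm, pow_succ,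
          Nat.mul_right_inj (pow_ne_zero _ hp.ne_zero)] at h4
      refine stronglyClosed_iff.2 ⟨hQ, fun P f hf x hx hxQ => ?_⟩
      obtain ⟨-, s, hs, e⟩ := mor_inner_iff.1 hf
      rw [e x hx]
      exact (mem_normalizer_iff.1 (hn hs) x).1 hxQ
    · rw [inf_bot_eq]; exact stronglyClosed_bot _
    · refine hom_eq_inner_iff'.2 fun P f hf => ?_
      obtain ⟨-, -, g, hg, e, eH⟩ := (ns_mor_iff hN).1 hf
      obtain ⟨-, s, hs, es⟩ := mor_inner_iff.1 hg
      refine ⟨s, ⟨hs, ?_⟩, fun x hx => by rw [← e x hx, es x (mem_sup_left hx)]⟩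
      have := finite_of_le (le_sup_right.trans hg.le)
      refine mem_normalizer_fintype fun x hx => ?_
      rw [← es x (mem_sup_right hx)]
      exact eH ▸ mem_img_of_mem hx
  · rintro ⟨D, h0, hD, h1, h2⟩
    have := finite_of_le hD.le
    obtain ⟨k, hk⟩ := (hS.to_le hD.le).exists_card_eq
    rw [hk] at h1 h2
    refine aux _ hS F hF k (Nat.pos_of_ne_zero ?_) (hk ▸ card_lt_of_lt_le hD le_rfl) h1
      (fun H hH hc => ?_) rfl
    · rintro rfl
      exact h0.ne' (card_eq_one.1 (by simpa using hk))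
    · have hN := F.isNormalizerSystem_normalizerSystem hH.le
      rw [hN.nLe_iff hH.le, hom_eq_inner_iff.1 (h2 H hH hc _ hN)]
      exact inner_sub_inner normalizerIn_le

end Cfsg.Agent.S5271
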