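import Mathlib
import Cfsg.Statements.S5272
import Cfsg.Agent.Fus.AxZJ

set_option autoImplicit false
set_option linter.unusedVariables false
open Cfsg

namespace Cfsg.Agent.S5272

open Cfsg.FusionSystem Cfsg.Agent.Fus Subgroup Cfsg.Agent.GT.PG

/-- An axiomatic Glauberman–Thompson nilpotency criterion for fusion systems. Let p be an odd prime, F a saturated fusion system over a finite p-group S, and 𝒜 a nonempty family of abelian subgroups of S. For Q ≤ S write I(Q) for the intersection of the members of 𝒜 contained in Q. Assume (invariance) that for every Q ≤ S containing a member of 𝒜, every F-automorphism of Q maps I(Q) into itself, and (replacement) that for every subgroup B of S of nilpotency class at most 2, if some member of 𝒜 contains [B,B] but not B, then B normalizes some member of 𝒜 that contains [B,B] but not B. Then F is the inner fusion system of S if and only if the normalizer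 fusion system of I(S) in F is the inner fusion system of N_S(I(S)). -/
theorem result {Ω : Type*} [Group Ω] {S : Subgroup Ω} [Finite S] (p : ℕ) [Fact p.Prime] (hS : IsPGroup p ↥S) (F : Cfsg.FusionSystem S) (hF : F.IsSaturated p) (hp : p ≠ 2) (𝒜 : Set (Subgroup Ω)) (h𝒜 : ∀ A ∈ 𝒜, A ≤ S ∧ IsMulCommutative ↥A) (hne : 𝒜.Nonempty) (hinv : ∀ Q : Subgroup Ω, Q ≤ S → (∃ A ∈ 𝒜, A ≤ Q) → ∀ α ∈ F.autGroup Q, ∀ x : ↥Q, (x : Ω) ∈ (⨅ A ∈ {A : Subgroup Ω | A ∈ 𝒜 ∧ A ≤ Q}, A) → (((α : MulAut ↥Q) x : ↥Q) : Ω) ∈ (⨅ A ∈ {A : Subgroup Ω | A ∈ 𝒜 ∧ A ≤ Q}, A)) (hrep : ∀ B : Subgroup Ω, B ≤ S → ⁅⁅B, B⁆, B⁆ = ⊥ → (∃ A ∈ 𝒜, ⁅B, B⁆ ≤ A ∧ ¬ B ≤ A) → ∃ A ∈ 𝒜, ⁅B, B⁆ ≤ A ∧ ¬ B ≤ A ∧ B ≤ Subgroup.normalizer (A : Set Ω)) : (∀ P : Subgroup Ω, F.Hom P = (Cfsg.innerFusionSystem S).Hom P) ↔ ∀ N : Cfsg.FusionSystem (Cfsg.FusionSystem.normalizerIn S (⨅ A ∈ 𝒜, A)), F.IsNormalizerSystem (⨅ A ∈ 𝒜, A) N → ∀ P : Subgroup Ω, N.Hom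 P = (Cfsg.innerFusionSystem (Cfsg.FusionSystem.normalizerIn S (⨅ A ∈ 𝒜, A))).Hom P := by
  obtain ⟨A₀, hA₀⟩ := hne
  have hIA : ∀ A ∈ 𝒜, (⨅ A ∈ 𝒜, A) ≤ A := fun A hA => iInf₂_le A hA
  have hle : (⨅ A ∈ 𝒜, A) ≤ S := (hIA A₀ hA₀).trans (h𝒜 A₀ hA₀).1
  have hinv' : ∀ Q : Subgroup Ω, Q ≤ S → (∃ A ∈ 𝒜, A ≤ Q) → ∀ f, F.Iso Q Q f →
      ∀ x ∈ (⨅ A ∈ {A : Subgroup Ω | A ∈ 𝒜 ∧ A ≤ Q}, A),
        f x ∈ (⨅ A ∈ {A : Subgroup Ω | A ∈ 𝒜 ∧ A ≤ Q}, A) := by
    rintro Q hQ ⟨A, hA, hAQ⟩ f hf x hx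
    have hxQ : x ∈ Q := hAQ ((iInf₂_le (f := fun A (_ : A ∈ {A : Subgroup Ω | A ∈ 𝒜 ∧ A ≤ Q}) => A)
      A ⟨hA, hAQ⟩ :) hx)
    exact hinv Q hQ ⟨A, hA, hAQ⟩ hf.aut hf.aut_mem ⟨x, hxQ⟩ hx
  have hn : S ≤ Subgroup.normalizer (((⨅ A ∈ 𝒜, A : Subgroup Ω)) : Set Ω) := by
    have e : {A : Subgroup Ω | A ∈ 𝒜 ∧ A ≤ S} = 𝒜 :=
      Set.ext fun A => ⟨fun h => h.1, fun h => ⟨h, (h𝒜 A h).1⟩⟩
    have h1 := hinv' S le_rfl ⟨A₀, hA₀, (h𝒜 A₀ hA₀).1⟩
    rw [e] at h1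
    intro s hs
    have := finite_of_le hle
    exact mem_normalizer_fintype fun x hx =>
      h1 _ (F.iso_conj_of_mem_normalizer le_rfl hs (Subgroup.le_normalizer hs)) x hx
  rw [hom_eq_inner_iff]
  constructor
  · intro h N hN
    rw [hom_eq_inner_iff, ← sub_inner_iff]
    exact (h ▸ ns_sub hN).trans (inner_sub_inner (le_inf le_rfl hn))
  · intro h
    have hN := F.isNormalizerSystem_normalizerSystem hle
    refine hF.eq_inner_of_models hp hS hle hn ?_ fun E L _ _ j P hE hL hP hc => ?_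
    · rw [hN.nLe_iff hle, hom_eq_inner_iff.1 (h _ hN)]
      exact inner_sub_inner normalizerIn_le
    have hinj : Function.Injective hL.mulOn.hom := fun x y e =>
      Subtype.ext (hL.inj x x.2 y y.2 e)
    have hZn : ((⨅ A ∈ 𝒜, A : Subgroup Ω).subgroupOf S).Normal :=
      (normal_subgroupOf_iff_le_normalizer hle).2 hn
    have hmap : ∀ X : Subgroup S, X.map hL.mulOn.hom = img j (X.map S.subtype) := fun X => by
      rw [img_eq_map_subgroupOf hL.mulOn.hom (fun _ => rfl) (map_subtype_le X),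
        subgroupOf, comap_map_eq_self_of_injective S.subtype_injective]
    refine hasNormalPComplement_of_ax hp ((⨅ A ∈ 𝒜, A : Subgroup Ω).subgroupOf S) ?_
      (fun T X => X ≤ T ∧ ∀ f, F.Iso (T.map S.subtype) (T.map S.subtype) f →
        ∀ x ∈ X.map S.subtype, f x ∈ X.map S.subtype) ?_ P hL.mulOn.hom hinj
      (by rw [hP, hL.mulOn.img_eq_range]) ?_ ?_
    · have := GT.th_comm_mono (h𝒜 A₀ hA₀).2 (hIA A₀ hA₀)
      exact GT.th_comm_iff.2 fun x hx y hy => Subtype.ext (GT.th_comm_iff.1 this x hx y hy)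
    · intro B h2 hBZ hnot
      have e1 : ⁅B.map S.subtype, B.map S.subtype⁆ ≤ ⨅ A ∈ 𝒜, A := by
        rw [← map_commutator]; exact map_le_iff_le_comap.2 hBZ
      have e2 : ∃ A ∈ 𝒜, ¬ B.map S.subtype ≤ A := by
        by_contra hh
        push Not at hh
        exact hnot (map_le_iff_le_comap.1 (le_iInf₂ hh))
      obtain ⟨A₁, hA₁, hn₁⟩ := e2
      obtain ⟨A, hA, -, hBA, hBN⟩ := hrep (B.map S.subtype) (map_subtype_le B)
        (by rw [← map_commutator, ← map_commutator, h2, Subgroup.map_bot])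
        ⟨A₁, hA₁, e1.trans (hIA A₁ hA₁), hn₁⟩
      refine ⟨A.subgroupOf S, GT.th_comm_iff.2 fun x hx y hy =>
        Subtype.ext (GT.th_comm_iff.1 (h𝒜 A hA).2 x hx y hy), ?_,
        fun hh => hBA (map_le_iff_le_comap.2 hh), fun T hAT => ?_⟩
      · rw [← subgroupOf_normalizer_eq (h𝒜 A hA).1]
        exact map_le_iff_le_comap.1 hBN
      · have hAT' : A ≤ T.map S.subtype := by
          rw [← map_subgroupOf_eq_of_le (h𝒜 A hA).1]; exact map_mono hAT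
        have hXA : (⨅ A ∈ {A : Subgroup Ω | A ∈ 𝒜 ∧ A ≤ T.map S.subtype}, A) ≤ A :=
          iInf₂_le (f := fun A (_ : A ∈ {A : Subgroup Ω | A ∈ 𝒜 ∧ A ≤ T.map S.subtype}) => A)
            A ⟨hA, hAT'⟩
        refine ⟨(⨅ A ∈ {A : Subgroup Ω | A ∈ 𝒜 ∧ A ≤ T.map S.subtype}, A).subgroupOf S,
          comap_mono (le_iInf₂ fun A hA => hIA A hA.1), comap_mono hXA,
          (comap_mono hXA).trans hAT, ?_⟩
        rw [map_subgroupOf_eq_of_le (hXA.trans (h𝒜 A hA).1)]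
        exact hinv' _ (map_subtype_le T) ⟨A, hA, hAT'⟩
    · rintro T X ⟨hXT, hX⟩ g hg
      rw [hmap] at hg ⊢
      have hT := map_subtype_le T
      obtain ⟨f, hf, e⟩ := hL.exists_mor hT (mem_top g) fun x hx =>
        img_mono hT ((mem_normalizer_iff.1 hg _).1 (mem_img_of_mem hx))
      have := finite_of_le hT
      have hf' : F.Iso (T.map S.subtype) (T.map S.subtype) f := (hE.mor hf).iso_self fun x hx =>
        (hL.apply_mem_img_iff hT (hf.mem hx)).1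
          (e x hx ▸ (mem_normalizer_iff.1 hg _).1 (mem_img_of_mem hx))
      refine mem_normalizer_fintype fun y hy => ?_
      obtain ⟨x, hx, rfl⟩ := (hL.mulOn.mem_img_of_le (map_subtype_le X)).1 hy
      rw [← e x (map_mono hXT hx)]
      exact mem_img_of_mem (hX f hf' x hx)
    · rwa [hmap, map_subgroupOf_eq_of_le hle]

end Cfsg.Agent.S5272
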