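import Mathlib
import Cfsg.Statements.S5274
import Cfsg.Agent.Fus.Hyp
import Cfsg.Agent.Fus.EssBasic
import Cfsg.Agent.Fus.EssMisc
import Cfsg.Agent.Fus.AutSys
import Cfsg.Agent.GT.PGroupElemAb
import Cfsg.Agent.GT.Thompson

set_option autoImplicit false
set_option linter.unusedVariables false
open Cfsg

namespace Cfsg.Agent.S5274

open Cfsg.FusionSystem Cfsg.Agent.Fus Subgroup Cfsg.Agent.GT.PG

universe u

theorem comm_center {Ω : Type*} [Group Ω] (Q : Subgroup Ω) :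
    IsMulCommutative (Q ⊓ centralizer (Q : Set Ω) : Subgroup Ω) :=
  GT.th_comm_iff.2 fun x hx _ hy => hy.2 x hx.1

theorem exists_sq_mem {Ω : Type*} [Group Ω] {N Q : Subgroup Ω} (hN : IsPGroup 2 N) {x : Ω}
    (hx : x ∈ N) (hQ : x ∉ Q) : ∃ y ∈ N, y ∉ Q ∧ y * y ∈ Q := by
  obtain ⟨k, hk⟩ := hN ⟨x, hx⟩
  have hk' : x ^ 2 ^ k ∈ Q := by
    rw [show x ^ 2 ^ k = 1 from congrArg Subtype.val hk]; exact Q.one_mem
  clear hk
  induction k generalizing x with
  | zero => exact absurd (by simpa using hk') hQ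
  | succ k ih =>
    by_cases h : x * x ∈ Q
    · exact ⟨x, hx, hQ, h⟩
    · exact ih (N.mul_mem hx hx) h (by rwa [← sq, ← pow_mul, ← pow_succ'])

theorem stronglyClosed_pow {Ω : Type*} [Group Ω] {S : Subgroup Ω} [Finite S] (hS : IsPGroup 2 S)
    {F : FusionSystem S} (hF : F.IsSaturated 2) {e : ℕ} (he : ∀ x ∈ S, x ^ 2 ^ (e + 1) = 1) :
    F.StronglyClosed (powerClosure 2 e (S ⊓ centralizer (S : Set Ω))) := by
  set Y := powerClosure 2 e (S ⊓ centralizer (S : Set Ω)) with hY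
  have hYZ : Y ≤ S ⊓ centralizer (S : Set Ω) := powerClosure_le _ _
  refine stronglyClosed_iff.2 ⟨hYZ.trans inf_le_left, ?_⟩
  refine hF.mor_induction_card hS (M := fun P f => ∀ x ∈ P, x ∈ Y → f x ∈ Y)
    (fun _ h e x hx hy => e x hx ▸ h x hx hy) (fun _ h hQ x hx => h x (hQ hx))
    (fun _ _ h h' e x hx hy => h' _ (e x hx) (h x hx hy)) ?_
  intro Q hQ ih f hf
  have := finite_of_le hQ.le
  have hU : InvA (F.autGroup Q) (powerClosure 2 e (Q ⊓ centralizer (Q : Set Ω))) :=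
    ((invA_top _).inf_centralizer (invA_top _)).powerClosure 2 e
  rcases hQ.le.lt_or_eq with hlt | rfl
  swap
  · exact fun x _ hx => hU.iso_mem hf hx
  by_cases hc : centralizerIn S Q ≤ Q
  swap
  · obtain ⟨g, hg, e⟩ := hF.extend_centralizerIn hS (hF.fullyCentralized hS hQ) hf
    intro x hx hy
    rw [← e x hx]
    exact ih _ g hg (card_lt_of_lt_le (left_lt_sup.2 hc) hg.le) x (mem_sup_left hx) hy
  set U := powerClosure 2 e (Q ⊓ centralizer (Q : Set Ω)) with hUdef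
  have hYU : Y ≤ U := powerClosure_mono fun z hz =>
    ⟨hc ⟨hz.1, centralizer_le hQ.le hz.2⟩, centralizer_le hQ.le hz.2⟩
  obtain ⟨β, hβ, γ, -, eα, g, hg, eg⟩ := hF.frattini_extend hS hQ
    (N := F.autGroup Q ⊓ secStab Q U ⊥) inf_le_left (fun l hl => mem_normalizer_fintype
      fun α hα => ⟨mul_mem (mul_mem hl hα.1) (Subgroup.inv_mem _ hl),
        conj_mem_secStab hα.2 (hU.le_stabA hl) ((invA_bot _).le_stabA hl)⟩) hf.aut_mem
  obtain ⟨s, hs, hsQ⟩ := SetLike.exists_of_lt (lt_normalizerIn hS hlt)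
  obtain ⟨y, hy, hyQ, hyy⟩ := exists_sq_mem (hS.to_le normalizerIn_le) hs hsQ
  have hyK : y ∈ preAut S Q (F.autGroup Q ⊓ secStab Q U ⊥) := by
    refine mem_preAut.2 ⟨hy, F.cAut_mem_autGroup hQ.le hy, mem_secStab_of hU.le bot_le ?_⟩
    intro u hu
    obtain ⟨w, hw, rfl⟩ := (mem_powerClosure_iff (comm_center Q)).1 hu
    rw [totA_cAut hy.2 (hU.le hu), mem_bot]
    have hw' : y * w * y⁻¹ ∈ Q ⊓ centralizer (Q : Set Ω) := by
      rw [← totA_cAut hy.2 hw.1]
      exact ((invA_top _).inf_centralizer (invA_top _)).mem (F.cAut_mem_autGroup hQ.le hy) hw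
    have c1 : Commute (y * w * y⁻¹) w := hw.2 _ hw'.1
    have c2 : Commute (y * y) (y * w * y⁻¹ * w) :=
      ((Q ⊓ centralizer (Q : Set Ω)).mul_mem hw' hw).2 _ hyy
    have c3 : Commute (y * y) w := hw.2 _ hyy
    have h1 := he (w * y) (S.mul_mem (hQ.le hw.1) hy.1)
    have h2 : (w * y) ^ 2 = y * y * (y * w * y⁻¹ * w) := by
      rw [c2.eq, c1.eq, sq]; group
    rw [pow_succ', pow_mul, h2, c2.mul_pow, c1.mul_pow, ← sq, ← pow_mul, ← pow_succ',
      he y hy.1, one_mul, conj_pow] at h1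
    have h3 : w ^ 2 ^ e * w ^ 2 ^ e = 1 := by
      rw [← pow_add, ← two_mul, ← pow_succ', he w (hQ.le hw.1)]
    rw [eq_inv_of_mul_eq_one_left h1, ← mul_inv_rev, h3, inv_one]
  intro x hx hxY
  have h1 : totA γ x ∈ Y := by
    rw [← eg x hx]
    exact ih _ g hg (card_lt_of_lt_le (left_lt_sup.2 fun h => hyQ (h hyK)) hg.le) x
      (mem_sup_left hx) hxY
  have h2 := hβ.2.2 _ (hYU h1) (totA_mem γ hx)
  rw [mem_bot, inv_mul_eq_one] at h2
  rwa [← hf.totA_aut hx, eα, totA_mul _ _ hx, ← h2]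

theorem aux (n : ℕ) : ∀ {Ω : Type u} [Group Ω] {S : Subgroup Ω} [Finite S] (_ : IsPGroup 2 S)
    (F : FusionSystem S) (_ : F.IsSaturated 2)
    (_ : ∀ x ∈ S, ∃ z ∈ S ⊓ centralizer (S : Set Ω), F.IsConjElt x z), Nat.card S = n →
    S ≤ centralizer (S : Set Ω) := by
  classical
  induction n using Nat.strong_induction_on with
  | _ n ih =>
  intro Ω _ S _ hS F hF h hn
  by_cases h0 : ∀ x ∈ S, x = 1
  · intro x hx
    rw [h0 x hx]; exact one_mem _
  have hex : ∃ e, ∀ x ∈ S, x ^ 2 ^ e = 1 := by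
    obtain ⟨k, hk⟩ := hS.exists_card_eq
    exact ⟨k, fun x hx => congrArg Subtype.val (hk ▸ pow_card_eq_one' (x := (⟨x, hx⟩ : S)))⟩
  obtain ⟨e, he, he'⟩ : ∃ e, (∀ x ∈ S, x ^ 2 ^ (e + 1) = 1) ∧ ¬ ∀ x ∈ S, x ^ 2 ^ e = 1 := by
    have h1 := Nat.find_spec hex
    rcases hk : Nat.find hex with _ | e
    · rw [hk] at h1
      exact absurd (by simpa using h1) h0
    · exact ⟨e, hk ▸ h1, Nat.find_min hex (by omega)⟩
  have hY := stronglyClosed_pow hS hF he
  set Y := powerClosure 2 e (S ⊓ centralizer (S : Set Ω)) with hYdef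
  have hYZ : Y ≤ S ⊓ centralizer (S : Set Ω) := powerClosure_le _ _
  have hY0 : Y ≠ ⊥ := fun hb => he' fun x hx => by
    obtain ⟨z, hz, hxz⟩ := h x hx
    obtain ⟨P, f, hf, hP, rfl⟩ := isConjElt_iff.1 hxz
    rw [← hf.eq_one_iff (P.pow_mem hP _), hf.map_pow hP]
    exact powerClosure_eq_bot_iff.1 hb _ hz
  obtain ⟨G, _, _, θ, E, hq, hk⟩ := hF.exists_quot hS hY
  have hab := ih _ (hn ▸ hq.card_lt (hk ▸ hY0)) (hq.isPGroup hS) E (hq.isSaturated hF hS)
    (fun y hy => by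
      obtain ⟨x, hx, rfl⟩ := hq.surj hy
      obtain ⟨z, hz, hxz⟩ := h x hx
      obtain ⟨P, f, hf, hP, rfl⟩ := isConjElt_iff.1 hxz
      obtain ⟨f', hf', e'⟩ := hq.push hf
      refine ⟨θ (f x), ⟨trivial, fun y hy => ?_⟩, e' x hP ▸ hf'.isConjElt (mem_img_of_mem hP)⟩
      obtain ⟨s, hs, rfl⟩ := hq.surj hy
      rw [← hq.mulOn.map_mul hs hz.1, ← hq.mulOn.map_mul hz.1 hs, hz.2 s hs]) rfl
  have hcomm : ∀ x ∈ S, ∀ s ∈ S, x⁻¹ * (s * x * s⁻¹) ∈ Y := fun x hx s hs => by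
    rw [← hk, ← hq.mulOn.eq_iff_mem_pre_bot hx (S.mul_mem (S.mul_mem hs hx) (S.inv_mem hs)),
      hq.mulOn.map_conj hs hx, hab (mem_top (θ x)) (θ s) trivial, mul_inv_cancel_right]
  have hN : F.IsNormal S := by
    refine (hF.isNormal_top_iff hS).2 fun R hR => ?_
    have := finite_of_le hR.le
    have hYR : Y ≤ R := fun z hz => hR.isCentric.mem (hYZ hz).1 (centralizer_le hR.le (hYZ hz).2)
    obtain ⟨s, hs, hsR⟩ := SetLike.exists_of_lt (lt_normalizerIn hS (hF.lt_of_isEssential hS hR))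
    have hI := hY.invA hR.le
    rw [inf_eq_left.2 hYR] at hI
    exact hsR ((hR.isRadical hS).mem_of_chain2 hS hR.isCentric hI (invA_bot _) bot_le bot_le hs
      (fun x hx => hcomm x (hR.le hx) s hs.1) fun x hx => by rw [(hYZ hx).2 s hs.1]; simp)
  have hZ : F.StronglyClosed (centralizerIn S S) := hN.stronglyClosed_of_invA
    ((invA_top _).inf_centralizer (invA_top _))
  intro x hx
  obtain ⟨z, hz, hxz⟩ := h x hx
  obtain ⟨P, f, hf, hP, rfl⟩ := isConjElt_iff.1 hxz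
  exact ((hZ.mem_iff hf hP).1 hz).2

/-- Let F be a saturated fusion system over a finite 2-group S. Suppose that every element of S is F-conjugate to an element of the centre Z(S) (some map of F defined on the cyclic subgroup it generates sends it into Z(S)). Then S is abelian. -/
theorem result {Ω : Type*} [Group Ω] {S : Subgroup Ω} [Finite S] (hS : IsPGroup 2 ↥S) (F : Cfsg.FusionSystem S) (hF : F.IsSaturated 2) (h : ∀ x ∈ S, ∃ z ∈ S ⊓ Subgroup.centralizer (S : Set Ω), F.IsConjElt x z) : IsMulCommutative ↥S := by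
  exact le_centralizer_iff_isMulCommutative.1 (aux _ hS F hF h rfl)

end Cfsg.Agent.S5274
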