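import Mathlib
import Cfsg.Statements.S5275
import Cfsg.Agent.Fus.AxZJ

set_option autoImplicit false
set_option linter.unusedVariables false
open Cfsg

namespace Cfsg.Agent.S5275

open Cfsg.FusionSystem Cfsg.Agent.Fus Subgroup Cfsg.Agent.GT.PG

/-- A Glauberman–Thompson nilpotency criterion for fusion systems relative to a strongly closed subgroup. Let p be an odd prime, F a saturated fusion system over a finite p-group S, and D a subgroup of S that is strongly closed in F. Let Z(J(D)) be the centre of the subgroup of D generated by the abelian subgroups of D of largest order. Then F is the inner fusion system of S if and only if the normalizer fusion system of Z(J(D)) in F is the inner fusion system of N_S(Z(J(D))) = S. -/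
theorem result {Ω : Type*} [Group Ω] {S : Subgroup Ω} [Finite S] (p : ℕ) [Fact p.Prime] (hS : IsPGroup p ↥S) (F : Cfsg.FusionSystem S) (hF : F.IsSaturated p) (hp : p ≠ 2) (D : Subgroup Ω) (hD : F.StronglyClosed D) : (∀ P : Subgroup Ω, F.Hom P = (Cfsg.innerFusionSystem S).Hom P) ↔ ∀ N : Cfsg.FusionSystem (Cfsg.FusionSystem.normalizerIn S (Cfsg.centerThompsonAOf D)), F.IsNormalizerSystem (Cfsg.centerThompsonAOf D) N → ∀ P : Subgroup Ω, N.Hom P = (Cfsg.innerFusionSystem (Cfsg.FusionSystem.normalizerIn S (Cfsg.centerThompsonAOf D))).Hom P := by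
  have hDS : D ≤ S := hD.1
  have := finite_of_le hDS
  have hle : centerThompsonAOf D ≤ S := by
    rw [GT.centerThompsonAOf_eq]; exact (GT.thZ_le 0 D).trans hDS
  have hn : S ≤ Subgroup.normalizer ((centerThompsonAOf D : Subgroup Ω) : Set Ω) := by
    rw [← wf_thZ]
    exact hD.le_normalizer.trans
      (normalizer_le_normalizer_wf isCharPFunctor_thZ (hS.to_le hDS))
  rw [hom_eq_inner_iff]
  constructor
  · intro h N hN
    rw [hom_eq_inner_iff, ← sub_inner_iff]
    exact (h ▸ ns_sub hN).trans (inner_sub_inner (le_inf le_rfl hn))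
  · intro h
    have hN := F.isNormalizerSystem_normalizerSystem hle
    refine hF.eq_inner_of_models hp hS hle hn ?_ fun E L _ _ j P hE hL hP hc => ?_
    · rw [hN.nLe_iff hle, hom_eq_inner_iff.1 (h _ hN)]
      exact inner_sub_inner normalizerIn_le
    · refine GT.hasNormalPComplement_of_normalizer_thZ hp (Or.inl rfl) P (D := img j D)
        ⟨hP ▸ img_mono hDS, fun y hy g hg => ?_⟩ ?_
      · obtain ⟨x, hx, rfl⟩ := (hL.mulOn.mem_img_of_le hDS).1 hy
        rw [hP] at hg
        obtain ⟨f, hf, e⟩ := hL.exists_mor (P := zpowers x) (zpowers_le.2 (hDS hx)) (mem_top g)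
          (fun y ⟨n, hn⟩ => by
            rw [← hn, hL.mulOn.map_zpow (hDS hx), ← conj_zpow]; exact zpow_mem hg n)
        rw [← e x (mem_zpowers x)]
        exact mem_img_of_mem (hD.mem (hE.mor hf) (mem_zpowers x) hx)
      · rwa [← wf_thZ, img_wf isCharPFunctor_thZ (hS.to_le hDS) (hL.mulOn.mono hDS)
          (fun x hx y hy => hL.inj x (hDS hx) y (hDS hy)), wf_thZ, GT.centerThompsonAOf_eq] at hc

end Cfsg.Agent.S5275
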