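import Mathlib
import Cfsg.Statements.S5278
import Cfsg.Agent.Fus.GlA14

set_option autoImplicit false
open Cfsg

namespace Cfsg.Agent.S5278

open Cfsg.FusionSystem Cfsg.Agent.Fus

/-- Let p be an odd prime, F a saturated fusion system over a finite p-group S, and T a subgroup of Z(S) such that the normalizer fusion system of J(S) in F is contained in the normalizer fusion system of T, J(S) being the subgroup generated by the abelian subgroups of S of largest order. Then either T is weakly closed in F, or Aut_F(T) has a nontrivial cyclic subgroup X of order prime to p that permutes transitively the non-identity elements of the commutator [T, X] (the subgroup of T generated by the elements ψ(t)·t⁻¹ with ψ in X and t in T). -/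
theorem result {Ω : Type*} [Group Ω] {S : Subgroup Ω} [Finite S] (p : ℕ) [Fact p.Prime] (hS : IsPGroup p ↥S) (F : Cfsg.FusionSystem S) (hF : F.IsSaturated p) (hp : p ≠ 2) (T : Subgroup Ω) (hT : T ≤ S ⊓ Subgroup.centralizer (S : Set Ω)) (hJT : ∀ NJ : Cfsg.FusionSystem (Cfsg.FusionSystem.normalizerIn S (Cfsg.thompsonSubgroupAOf S)), F.IsNormalizerSystem (Cfsg.thompsonSubgroupAOf S) NJ → ∀ NT : Cfsg.FusionSystem (Cfsg.FusionSystem.normalizerIn S T), F.IsNormalizerSystem T NT → NJ.IsSubsystemOf NT) : F.WeaklyClosed T ∨ ∃ X : Subgroup (MulAut ↥T), X ≤ F.autGroup T ∧ X ≠ ⊥ ∧ IsCyclic ↥X ∧ (Nat.card ↥X).Coprime p ∧ ∀ a b : ↥T, a ∈ Subgroup.closure {y : ↥T | ∃ ψ ∈ X, ∃ t : ↥T, y = ψ t * t⁻¹} → b ∈ Subgroup.closure {y : ↥T | ∃ ψ ∈ X, ∃ t : ↥T, y = ψ t * t⁻¹} → a ≠ 1 → b ≠ 1 → ∃ ψ ∈ X, ψ a = b := by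
  have hT' : T ≤ centralizerIn S S := hT
  have hTS : T ≤ S := hT.trans inf_le_left
  have hJ : Cfsg.thompsonSubgroupAOf S ≤ S := wf_thJ S ▸ wf_le _ S
  have hNJ := F.isNormalizerSystem_normalizerSystem hJ
  have hNT := F.isNormalizerSystem_normalizerSystem hTS
  rcases hF.isNormal_or_hasX hp hS hT' ((hNJ.nLe_iff hJ).2 ((hJT _ hNJ _ hNT).trans
    (isSubsystemOf_iff_mor.2 fun P f hf => mor_stabSys.2 ⟨(ns_sub hNT).mor hf, fun x hx =>
      (hNT.isNormal hTS).stronglyClosed.mem_iff hf hx⟩))) with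
    h | ⟨f, hf, hm, ⟨t, ht, hne⟩, htr⟩
  · have := finite_of_le hTS
    exact Or.inl h.stronglyClosed.weaklyClosed
  have := finite_of_le hTS
  obtain ⟨α, hα, e⟩ := (hf.iso_self hm).exists_aut
  have e' : ∀ x : T, (α x : Ω) = f x := fun x => by rw [← e x x.2, totA_coe]
  have c : ∀ a b : T, a * b = b * a := fun a b => Subtype.ext ((hT' b.2).2 a (hTS a.2))
  have ek : ∀ (k : ℕ) (x : T), ((α ^ k) x : Ω) = f^[k] x := fun k x => by
    induction k with
    | zero => rfl
    | succ k ih => rw [pow_succ', MulAut.mul_apply, e', ih, Function.iterate_succ_apply']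
  refine Or.inr ⟨Subgroup.zpowers α, Subgroup.zpowers_le.2 hα, fun h0 => hne ?_,
    Subgroup.isCyclic_zpowers α, ?_, fun a b ha hb ha1 hb1 => ?_⟩
  · rw [Subgroup.zpowers_eq_bot] at h0
    rw [← e' ⟨t, ht⟩, h0]
    rfl
  · exact (((Nat.Prime.coprime_iff_not_dvd Fact.out).2
      (hF.not_dvd_card_autGroup hS hT')).symm).coprime_dvd_left
      (Subgroup.card_dvd_of_le (Subgroup.zpowers_le.2 hα))
  let K : Subgroup T :=
    { carrier := {y | ∃ s : T, y = s⁻¹ * α s}
      one_mem' := ⟨1, by simp⟩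
      mul_mem' := by
        rintro _ _ ⟨s, rfl⟩ ⟨s', rfl⟩
        refine ⟨s * s', ?_⟩
        rw [map_mul, mul_inv_rev, c s'⁻¹ s⁻¹, mul_assoc, mul_assoc, ← mul_assoc (α s),
          c (α s) s'⁻¹, mul_assoc]
      inv_mem' := by
        rintro _ ⟨s, rfl⟩
        exact ⟨s⁻¹, by rw [map_inv, mul_inv_rev, inv_inv, c]⟩ }
  have hK : Subgroup.closure {y : T | ∃ ψ ∈ Subgroup.zpowers α, ∃ t : T, y = ψ t * t⁻¹} ≤ K := by
    rw [Subgroup.closure_le]
    rintro _ ⟨ψ, hψ, s, rfl⟩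
    obtain ⟨n, rfl⟩ := mem_powers_iff_mem_zpowers.2 hψ
    induction n with
    | zero => simpa using K.one_mem
    | succ n ih =>
      have h1 : ((α ^ n) s)⁻¹ * α ((α ^ n) s) ∈ K := ⟨_, rfl⟩
      have h2 := K.mul_mem h1 (ih (Subgroup.npow_mem_zpowers α n))
      beta_reduce at h2 ⊢
      rw [c _ (α _), mul_assoc, inv_mul_cancel_left] at h2
      rwa [pow_succ', MulAut.mul_apply]
  obtain ⟨s, rfl⟩ := hK ha
  obtain ⟨s', rfl⟩ := hK hb
  obtain ⟨k, hk⟩ := htr s s.2 s' s'.2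
    (fun h => ha1 (inv_mul_eq_one.2 (Subtype.ext ((e' s).trans h).symm)))
    fun h => hb1 (inv_mul_eq_one.2 (Subtype.ext ((e' s').trans h).symm))
  refine ⟨α ^ k, Subgroup.npow_mem_zpowers α k, Subtype.ext ?_⟩
  rw [ek, Subgroup.coe_mul, Subgroup.coe_mul, e', e', Subgroup.coe_inv, Subgroup.coe_inv, hk]

end Cfsg.Agent.S5278
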