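import Mathlib
import Cfsg.Statements.S5281
import Cfsg.Agent.Fus.PStableAt

set_option autoImplicit false
set_option linter.unusedVariables false
open Cfsg

namespace Cfsg.Agent.S5281

open Cfsg.FusionSystem Cfsg.Agent.Fus Subgroup

/-- Let p be an odd prime and F a saturated fusion system over a finite p-group S. Call a fusion system E (over any subgroup) p-stable when, for every fully E-normalized subgroup Q and every χ in Aut_E(Q) with χ(a⁻¹)·a·χ(a⁻¹)·χ(χ(a)) = 1 for all a in Q (χ acts quadratically), χ lies in O_p(Aut_E(Q)). Then F is p-stable if and only if the normalizer fusion system of R in F is p-stable for every fully F-normalized, F-centric, F-radical subgroup R of S. -/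
theorem result {Ω : Type*} [Group Ω] {S : Subgroup Ω} [Finite S] (p : ℕ) [Fact p.Prime] (hS : IsPGroup p ↥S) (F : Cfsg.FusionSystem S) (hF : F.IsSaturated p) (hp : p ≠ 2) : (∀ Q : Subgroup Ω, F.IsFullyNormalized Q → ∀ χ : MulAut ↥Q, χ ∈ F.autGroup Q → (∀ a : ↥Q, (χ a⁻¹) * a * (χ a⁻¹) * (χ (χ a)) = 1) → χ ∈ ((Cfsg.pCore p ↥(F.autGroup Q)).map (F.autGroup Q).subtype : Subgroup (MulAut ↥Q))) ↔ ∀ R : Subgroup Ω, F.IsFullyNormalized R → F.IsCentric R → F.IsRadical p R → ∀ N : Cfsg.FusionSystem (Cfsg.FusionSystem.normalizerIn S R), F.IsNormalizerSystem R N → (∀ Q : Subgroup Ω, N.IsFullyNormalized Q → ∀ χ : MulAut ↥Q, χ ∈ N.autGroup Q → (∀ a : ↥Q, (χ a⁻¹) * a * (χ a⁻¹) * (χ (χ a)) = 1) → χ ∈ ((Cfsg.pCore p ↥(N.autGroup Q)).map (N.autGroup Q).subtype : Subgroup (MulAut ↥Q))) := by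
  constructor
  · intro h R hR _ _ N hN Q hQ
    have hQS : Q ≤ S := hQ.le.trans normalizerIn_le
    have := finite_of_le hQS
    exact (stableAt_of_fullyNormalized h hQS).of_autGroup_le ((ns_sub hN).autGroup_le Q)
  · intro h P hP
    obtain ⟨Q, R, hc, hQR, hR, hRc, hRr, hext⟩ := hF.exists_centric_radical_extend hS hP.le
    have := finite_of_le hc.le_right
    have hN := F.isNormalizerSystem_normalizerSystem hR.le
    have hQ := hQR.trans (le_normalizerIn hR.le)
    refine StableAt.of_isConj (F := F) (StableAt.of_autGroup_le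
      (stableAt_of_fullyNormalized (h R hR hRc hRr _ hN) hQ) (autGroup_le_of_mor fun f hf => ?_)) hc
    obtain ⟨g, hg, e⟩ := hext f hf
    exact (ns_mor_of hN hg.mor le_rfl hg.img_eq hQR hQ).congr e

end Cfsg.Agent.S5281
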