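import Mathlib
import Cfsg.Statements.S5283
import Cfsg.Agent.Fus.CycChain

set_option autoImplicit false
set_option linter.unusedVariables false
open Cfsg

namespace Cfsg.Agent.S5283

open Cfsg.FusionSystem Cfsg.Agent.Fus Subgroup
open scoped commutatorElement

/-- Call a saturated fusion system F over a finite p-group S supersoluble when S has a chain of subgroups 1 = S_0 ≤ S_1 ≤ … ≤ S_m = S, each strongly closed in F, with each S_{i+1} generated by S_i together with one further element (cyclic steps). Then every saturated fusion system over S is supersoluble if and only if S is normal in every saturated fusion system over S (S is resistant) and every subgroup of Aut(S) of order prime to p is abelian of exponent dividing p − 1. -/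
theorem result {Ω : Type*} [Group Ω] {S : Subgroup Ω} [Finite S] (p : ℕ) [Fact p.Prime] (hS : IsPGroup p ↥S) : (∀ F : Cfsg.FusionSystem S, F.IsSaturated p → (∃ (m : ℕ) (c : Fin (m + 1) → Subgroup Ω), c 0 = ⊥ ∧ c (Fin.last m) = S ∧ (∀ i : Fin (m + 1), F.StronglyClosed (c i)) ∧ ∀ i : Fin m, c i.castSucc ≤ c i.succ ∧ ∃ x ∈ S, c i.succ = c i.castSucc ⊔ Subgroup.zpowers x)) ↔ (∀ F : Cfsg.FusionSystem S, F.IsSaturated p → F.IsNormal S) ∧ ∀ H : Subgroup (MulAut ↥S), (Nat.card ↥H).Coprime p → IsMulCommutative ↥H ∧ ∀ h ∈ H, h ^ (p - 1) = 1 := by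
  constructor
  · intro h
    refine ⟨fun F hF => CycChain.isNormal hS hF (h F hF), fun H hH => ?_⟩
    have h1 : CycChain _ S S := h _ (autSystem_isSaturated_sup hS hH)
    exact (h1.mono fun Y hY => stronglyClosed_autSystem_iff.1 hY).comm_of_coprime hS le_sup_left
      le_sup_right hH
  · rintro ⟨h1, h2⟩ F hF
    have hN := h1 F hF
    have hi := F.inn_le_autGroup (le_refl S)
    have hn : ((Inn S).subgroupOf (F.autGroup S)).Normal :=
      (normal_subgroupOf_iff_le_normalizer hi).2 (le_normalizer_inn _)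
    have hc : (Nat.card ((Inn S).subgroupOf (F.autGroup S))).Coprime
        ((Inn S).subgroupOf (F.autGroup S)).index := by
      obtain ⟨k, hk⟩ := ((isPGroup_inn hS).comap_subtype (K := F.autGroup S)).exists_card_eq
      rw [subgroupOf, hk]
      exact Nat.Coprime.pow_left _
        ((Nat.Prime.coprime_iff_not_dvd Fact.out).2 (hF.not_dvd_relIndex_inn hS))
    obtain ⟨K, hK⟩ := exists_right_complement'_of_coprime hc
    have hKc : (Nat.card (K.map (F.autGroup S).subtype)).Coprime p := by
      rw [card_map_of_injective (subtype_injective _), ← hK.symm.index_eq_card]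
      exact ((Nat.Prime.coprime_iff_not_dvd Fact.out).2 (hF.not_dvd_relIndex_inn hS)).symm
    obtain ⟨h3, h4⟩ := h2 _ hKc
    let π := QuotientGroup.mk' ((Inn S).subgroupOf (F.autGroup S))
    have hπ : ∀ α : F.autGroup S, ∃ k ∈ K, π k = π α := fun α => by
      obtain ⟨⟨n, k⟩, e⟩ := hK.2 α
      refine ⟨k, k.2, ?_⟩
      have : π n = 1 := (QuotientGroup.eq_one_iff _).2 n.2
      rw [← e]; simp [this]
    have hker : ∀ α : F.autGroup S, π α = 1 → (α : MulAut S) ∈ Inn S := fun α h =>
      (QuotientGroup.eq_one_iff (N := (Inn S).subgroupOf (F.autGroup S)) α).1 h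
    refine (cycChain_of_comm hS hi (fun α hα β hβ => ?_) fun α hα => ?_).mono
      fun Y hY => hN.stronglyClosed_of_invA hY
    · obtain ⟨a, ha, ea⟩ := hπ ⟨α, hα⟩
      obtain ⟨b, hb, eb⟩ := hπ ⟨β, hβ⟩
      refine hker ⁅(⟨α, hα⟩ : F.autGroup S), (⟨β, hβ⟩ : F.autGroup S)⁆ ?_
      have : ⁅a, b⁆ = 1 := commutatorElement_eq_one_iff_mul_comm.2 (Subtype.ext
        (GT.PG.isMulCommutative_iff_forall.1 h3 _ ⟨a, ha, rfl⟩ _ ⟨b, hb, rfl⟩))
      rw [map_commutatorElement, ← ea, ← eb, ← map_commutatorElement, this, map_one]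
    · obtain ⟨a, ha, ea⟩ := hπ ⟨α, hα⟩
      refine hker (⟨α, hα⟩ ^ (p - 1)) ?_
      have : a ^ (p - 1) = 1 := Subtype.ext (h4 _ ⟨a, ha, rfl⟩)
      rw [map_pow, ← ea, ← map_pow, this, map_one]

end Cfsg.Agent.S5283
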