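import Mathlib
import Cfsg.Statements.S5284
import Cfsg.Agent.Fus.AbInv
import Cfsg.Agent.S5283

set_option autoImplicit false
set_option linter.unusedVariables false
open Cfsg

namespace Cfsg.Agent.S5284

open Cfsg.FusionSystem Cfsg.Agent.Fus Subgroup

/-- Automorphisms of `(A × A) × H` coming from `A × A`. -/
def liftAut {S A H : Type*} [Group S] [Group A] [Group H] (e : S ≃* A × H) :
    MulAut A →* MulAut S where
  toFun α := (e.trans (MulEquiv.prodCongr α (MulEquiv.refl H))).trans e.symm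
  map_one' := MulEquiv.ext fun x => e.symm_apply_apply x
  map_mul' α β := MulEquiv.ext fun x => by
    change e.symm _ = e.symm (MulEquiv.prodCongr α (MulEquiv.refl H) (e (e.symm _)))
    rw [e.apply_symm_apply]; rfl

theorem liftAut_injective {S A H : Type*} [Group S] [Group A] [Group H] (e : S ≃* A × H) :
    Function.Injective (liftAut e) := (injective_iff_map_eq_one _).2 fun α h => by
  ext x
  have := congrArg (fun β : MulAut S => (e (β (e.symm (x, 1)))).1) h
  simp only [liftAut, MonoidHom.coe_mk, OneHom.coe_mk, MulEquiv.trans_apply, MulEquiv.apply_symm_apply,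
    MulAut.one_apply] at this
  exact this

/-- `(x, y) ↦ (y⁻¹, x)` -/
def rot (A : Type*) [CommGroup A] : MulAut (A × A) where
  toFun x := (x.2⁻¹, x.1)
  invFun x := (x.2, x.1⁻¹)
  left_inv x := by simp
  right_inv x := by simp
  map_mul' x y := by simp [mul_comm]

/-- `(x, y) ↦ (y⁻¹, x y⁻¹)` -/
def rot3 (A : Type*) [CommGroup A] : MulAut (A × A) where
  toFun x := (x.2⁻¹, x.1 * x.2⁻¹)
  invFun x := (x.2 * x.1⁻¹, x.1⁻¹)
  left_inv x := by simp
  right_inv x := by simp
  map_mul' x y := by simp [mul_comm, mul_left_comm, mul_assoc]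

theorem rot3_pow (A : Type*) [CommGroup A] : rot3 A ^ 3 = 1 := by
  ext x <;> simp [rot3, pow_succ]

theorem rot_pow (A : Type*) [CommGroup A] : rot A ^ 2 ^ 2 = 1 := by
  ext x <;> simp [rot, pow_succ]

theorem not_comm {p n : ℕ} [Fact p.Prime] (hn : 0 < n) :
    ∃ H : Subgroup (MulAut (Multiplicative (ZMod (p ^ n)) × Multiplicative (ZMod (p ^ n)))),
      (Nat.card H).Coprime p ∧ ¬ (IsMulCommutative H ∧ ∀ h ∈ H, h ^ (p - 1) = 1) := by
  have hp : p.Prime := Fact.out
  have : Fact (1 < p ^ n) := ⟨Nat.one_lt_pow hn.ne' hp.one_lt⟩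
  set A := Multiplicative (ZMod (p ^ n))
  by_cases h2 : p = 2
  · subst h2
    have h3 : rot3 A ^ 3 = 1 := rot3_pow A
    refine ⟨zpowers (rot3 A), ?_, fun h => ?_⟩
    · rw [Nat.card_zpowers]
      exact Nat.Coprime.coprime_dvd_left (orderOf_dvd_of_pow_eq_one h3) (by norm_num)
    · have := congrArg (fun α : MulAut (A × A) => (α (Multiplicative.ofAdd 1, 1)).1)
        (h.2 _ (mem_zpowers _))
      have h5 : (1 : A) = Multiplicative.ofAdd 1 := by simpa [rot3] using this
      exact zero_ne_one (α := ZMod (2 ^ n)) h5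
  · let s : MulAut (A × A) := MulEquiv.prodComm
    have h4 : rot A ^ 2 ^ 2 = 1 := rot_pow A
    have hs : s ^ 2 ^ 1 = 1 := by
      ext x <;> simp [s, pow_succ]
    have hc : s * rot A * s⁻¹ = (rot A)⁻¹ := by
      ext x <;> rfl
    have hP : IsPGroup 2 (zpowers s ⊔ zpowers (rot A) : Subgroup _) :=
      GT.PG.isPGroup_sup_of_le_normalizer (isPGroup_zpowers_of_pow hs) (isPGroup_zpowers_of_pow h4)
        (zpowers_le.2 (GT.PG.mem_normalizer_zpowers (hc ▸ Subgroup.inv_mem _ (mem_zpowers _))))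
    refine ⟨zpowers s ⊔ zpowers (rot A), ?_, fun h => ?_⟩
    · obtain ⟨k, hk⟩ := hP.exists_card_eq
      rw [hk]
      exact Nat.Coprime.pow_left _ ((Nat.coprime_primes Nat.prime_two hp).2 (Ne.symm h2))
    · have h1 := GT.PG.isMulCommutative_iff_forall.1 h.1 s (mem_sup_left (mem_zpowers _)) (rot A)
        (mem_sup_right (mem_zpowers _))
      have h5 : (1 : ZMod (p ^ n)) = -1 :=
        congrArg (fun α : MulAut (A × A) => (α (Multiplicative.ofAdd 1, 1)).1.toAdd) h1
      have h6 : ((2 : ℕ) : ZMod (p ^ n)) = 0 := by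
        push_cast; linear_combination h5
      rw [ZMod.natCast_eq_zero_iff] at h6
      exact h2 ((Nat.prime_dvd_prime_iff_eq hp Nat.prime_two).1
        ((dvd_pow_self p hn.ne').trans h6))

/-- Let S be a finite abelian p-group. Every saturated fusion system over S is supersoluble (S has a chain of F-strongly closed subgroups from 1 to S with cyclic steps) if and only if the invariants of S are pairwise distinct, that is, S is not isomorphic to a direct product (Z/p^n × Z/p^n) × H with n ≥ 1. -/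
theorem result {Ω : Type*} [Group Ω] {S : Subgroup Ω} [Finite S] (p : ℕ) [Fact p.Prime] (hS : IsPGroup p ↥S) (hab : IsMulCommutative ↥S) : (∀ F : Cfsg.FusionSystem S, F.IsSaturated p → (∃ (m : ℕ) (c : Fin (m + 1) → Subgroup Ω), c 0 = ⊥ ∧ c (Fin.last m) = S ∧ (∀ i : Fin (m + 1), F.StronglyClosed (c i)) ∧ ∀ i : Fin m, c i.castSucc ≤ c i.succ ∧ ∃ x ∈ S, c i.succ = c i.castSucc ⊔ Subgroup.zpowers x)) ↔ ¬ ∃ (n : ℕ) (H : Type) (_ : CommGroup H), 0 < n ∧ Nonempty (↥S ≃* (Multiplicative (ZMod (p ^ n)) × Multiplicative (ZMod (p ^ n))) × H) := by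
  classical
  rw [S5283.result p hS]
  constructor
  · rintro ⟨-, h⟩ ⟨n, H, _, hn, ⟨e⟩⟩
    obtain ⟨K, hK, hK'⟩ := not_comm (p := p) hn
    have hi := liftAut_injective e
    obtain ⟨h1, h2⟩ := h (K.map (liftAut e)) (by rwa [card_map_of_injective hi])
    refine hK' ⟨GT.PG.isMulCommutative_iff_forall.2 fun a ha b hb => hi ?_, fun a ha => hi ?_⟩
    · rw [map_mul, map_mul]
      exact GT.PG.isMulCommutative_iff_forall.1 h1 _ ⟨a, ha, rfl⟩ _ ⟨b, hb, rfl⟩
    · rw [map_pow, map_one]
      exact h2 _ ⟨a, ha, rfl⟩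
  · intro h
    refine ⟨fun F hF => (hF.isNormal_top_iff hS).2
      (no_essential_of_comm hF hS (GT.PG.isMulCommutative_iff_forall.1 hab)), fun H hH => ?_⟩
    let _ : CommGroup S := { (inferInstance : Group S) with mul_comm := hab.is_comm.comm }
    obtain ⟨ι, _, n, hn, ⟨e⟩⟩ := CommGroup.equiv_prod_multiplicative_zmod_of_finite S
    obtain ⟨k, hk⟩ := hS.exists_card_eq
    have h1 : ∀ i, ∃ a, n i = p ^ a := fun i => by
      have : n i ∣ p ^ k := by
        rw [← hk, Nat.card_congr e.toEquiv, Nat.card_pi]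
        refine dvd_trans ?_ (Finset.dvd_prod_of_mem _ (Finset.mem_univ i))
        rw [Nat.card_congr Multiplicative.toAdd, Nat.card_zmod]
      exact ((Nat.dvd_prime_pow Fact.out).1 this).imp fun _ h => h.2
    choose a ha using h1
    obtain rfl : n = fun i => p ^ a i := funext ha
    refine comm_of_coprime_of_distinct (a := a) (fun i j hij => ?_)
      (e.trans (MulEquiv.piMultiplicative _).symm) hH
    by_contra hne
    have e1 : ((l : ι) → Multiplicative (ZMod (p ^ a l))) ≃*
        Multiplicative (ZMod (p ^ a i)) × ((l : {l // l ≠ i}) → Multiplicative (ZMod (p ^ a l))) :=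
      { Equiv.piSplitAt i _ with map_mul' := fun _ _ => rfl }
    have e2 : ((l : {l // l ≠ i}) → Multiplicative (ZMod (p ^ a l))) ≃*
        Multiplicative (ZMod (p ^ a j)) × ((l : {l : {l // l ≠ i} // l ≠ ⟨j, Ne.symm hne⟩}) →
          Multiplicative (ZMod (p ^ a l.1))) :=
      { Equiv.piSplitAt (⟨j, Ne.symm hne⟩ : {l // l ≠ i}) _ with map_mul' := fun _ _ => rfl }
    rw [← hij] at e2
    refine h ⟨a i, _, inferInstance, Nat.pos_of_ne_zero fun h0 => ?_,
      ⟨e.trans (e1.trans (((MulEquiv.refl _).prodCongr e2).trans MulEquiv.prodAssoc.symm))⟩⟩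
    simpa [h0] using hn i

end Cfsg.Agent.S5284
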