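import Mathlib
import Cfsg.Statements.S5286
import Cfsg.Agent.Fus.RealizeGraph

set_option autoImplicit false
open Cfsg

universe u

namespace Cfsg.Agent.S5286

open Cfsg.Agent.Fus Cfsg.Agent.Fus.RG Cfsg.FusionSystem
open FreeGroup hiding map_mul map_one map_inv IsReduced

section Free
variable {H E : Type*} [Group H] [MulAction H E]

/-- The action on letters. -/
def actL (h : H) (x : E × Bool) : E × Bool := (h • x.1, x.2)

/-- The action on the free group permuting the generators. -/
def act (H E : Type*) [Group H] [MulAction H E] : H →* MulAut (FreeGroup E) where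
  toFun h := freeGroupCongr (MulAction.toPerm h)
  map_one' := by
    ext x
    show FreeGroup.map (MulAction.toPerm (1 : H)) x = x
    have : ⇑(MulAction.toPerm (1 : H) : Equiv.Perm E) = id := by funext e; simp
    rw [this, FreeGroup.map.id]
  map_mul' a b := by
    ext x
    show FreeGroup.map (MulAction.toPerm (a * b)) x =
      FreeGroup.map (MulAction.toPerm a) (FreeGroup.map (MulAction.toPerm b) x)
    rw [FreeGroup.map.comp]
    congr 2
    funext e; simp [mul_smul]

theorem act_mk (h : H) (L : List (E × Bool)) : act H E h (mk L) = mk (L.map (actL h)) := rfl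

theorem isReduced_map (h : H) {L : List (E × Bool)} (hL : FreeGroup.IsReduced L) :
    FreeGroup.IsReduced (L.map (actL h)) := by
  unfold FreeGroup.IsReduced at *
  rw [List.isChain_map]
  exact hL.imp fun a b hab e => hab (MulAction.injective h e)

variable [DecidableEq E]

theorem toWord_of_isReduced {L : List (E × Bool)} (hL : FreeGroup.IsReduced L) : toWord (mk L) = L := by
  rw [toWord_mk, hL.reduce_eq]

theorem toWord_act (h : H) (γ : FreeGroup E) :
    toWord (act H E h γ) = (toWord γ).map (actL h) := by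
  conv_lhs => rw [← mk_toWord (x := γ), act_mk]
  exact toWord_of_isReduced (isReduced_map h isReduced_toWord)

theorem norm_act (h : H) (γ : FreeGroup E) : norm (act H E h γ) = norm γ := by
  simp [FreeGroup.norm, toWord_act]

theorem norm_inv_mul {γ δ : FreeGroup E} {a b : E × Bool} {L M : List (E × Bool)}
    (hγ : toWord γ = a :: L) (hδ : toWord δ = b :: M) (hab : a ≠ b) :
    norm (γ⁻¹ * δ) = norm γ + norm δ := by
  have h1 : FreeGroup.IsReduced (toWord γ⁻¹ ++ toWord δ) := by
    have h2 : FreeGroup.IsReduced (toWord γ⁻¹) := isReduced_toWord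
    have h3 : FreeGroup.IsReduced (toWord δ) := isReduced_toWord
    unfold FreeGroup.IsReduced at *
    rw [List.isChain_append]
    refine ⟨h2, h3, fun x hx y hy e => ?_⟩
    rw [toWord_inv, hγ, invRev_cons] at hx
    simp only [invRev, List.map_cons, List.map_nil, List.reverse_cons, List.reverse_nil,
      List.nil_append, List.getLast?_append, List.getLast?_singleton, Option.some_or,
      Option.mem_def, Option.some.injEq] at hx
    rw [hδ] at hy
    simp only [List.head?_cons, Option.mem_def, Option.some.injEq] at hy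
    subst hx hy
    obtain ⟨a1, a2⟩ := a
    obtain ⟨b1, b2⟩ := b
    simp only at e ⊢
    subst e
    cases a2 <;> cases b2 <;> simp_all
  rw [FreeGroup.norm, toWord_mul, h1.reduce_eq, List.length_append, ← norm_inv_eq (x := γ)]
  rfl

theorem toWord_inv_mul {γ : FreeGroup E} {a : E × Bool} {L : List (E × Bool)}
    (hγ : toWord γ = a :: L) : toWord ((mk [a])⁻¹ * γ) = L := by
  have h1 : γ = mk [a] * mk L := by rw [mul_mk, ← mk_toWord (x := γ), hγ]; rfl
  have h2 : FreeGroup.IsReduced (a :: L) := hγ ▸ isReduced_toWord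
  rw [h1, inv_mul_cancel_left]
  exact toWord_of_isReduced (h2.infix ⟨[a], [], by simp⟩)

/-- One step towards the fixed point. -/
theorem shrink (K : Subgroup (FreeGroup E ⋊[act H E] H)) {m : ℕ}
    (hK : ∀ k ∈ K, norm k.left ≤ m + 1) {k₀ : FreeGroup E ⋊[act H E] H} (hk₀ : k₀ ∈ K)
    (hm : norm k₀.left = m + 1) {x : E × Bool} {L₀ : List (E × Bool)}
    (hx : toWord k₀.left = x :: L₀) (h₁ : H) {k : FreeGroup E ⋊[act H E] H} (hk : k ∈ K) :
    norm ((⟨mk [x], h₁⟩ : FreeGroup E ⋊[act H E] H)⁻¹ * k * ⟨mk [x], h₁⟩).left ≤ m := by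
  have c1 : ∀ k ∈ K, ∀ b M, toWord k.left = b :: M → b = x := by
    intro k hk b M hb
    by_contra hne
    have h1 := hK _ (K.mul_mem (K.inv_mem hk₀) hk)
    rw [SemidirectProduct.mul_left, SemidirectProduct.inv_left, SemidirectProduct.inv_right,
      ← map_mul, norm_act, norm_inv_mul hx hb (Ne.symm hne), hm] at h1
    have : norm k.left = M.length + 1 := by rw [FreeGroup.norm, hb]; rfl
    omega
  have e1 : ((⟨mk [x], h₁⟩ : FreeGroup E ⋊[act H E] H)⁻¹ * k * ⟨mk [x], h₁⟩).left =
      act H E h₁⁻¹ ((mk [x])⁻¹ * k.left * mk [actL k.right x]) := by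
    simp only [SemidirectProduct.mul_left, SemidirectProduct.inv_left, SemidirectProduct.inv_right,
      SemidirectProduct.mul_right, map_mul, MulAut.mul_apply]
    rfl
  rw [e1, norm_act]
  rcases hw : toWord k.left with _ | ⟨b, M⟩
  · have h1 : k.left = 1 := toWord_eq_nil_iff.1 hw
    have h2 : actL k.right x = x := by
      refine c1 _ (K.mul_mem hk hk₀) _ (L₀.map (actL k.right)) ?_
      rw [SemidirectProduct.mul_left, h1, one_mul, toWord_act, hx]; rfl
    rw [h1, h2, mul_one, inv_mul_cancel, FreeGroup.norm_one]; exact Nat.zero_le _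
  · obtain rfl := c1 k hk b M hw
    have hM : M.length ≤ m := by
      have := hK k hk
      rw [FreeGroup.norm, hw] at this
      simpa using this
    have h2 := toWord_inv_mul hw
    have h3 : toWord k⁻¹.left = (invRev M ++ invRev [b]).map (actL k.right⁻¹) := by
      rw [SemidirectProduct.inv_left, toWord_act, toWord_inv, hw, invRev_cons]
    rcases hI : invRev M with _ | ⟨y, M'⟩
    · rw [hI] at h3
      have := c1 _ (K.inv_mem hk) _ _ h3
      have h4 := congrArg Prod.snd this
      simp [actL] at h4
    · rw [hI] at h3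
      have h4 := c1 _ (K.inv_mem hk) _ _ h3
      have h5 : actL k.right b = y := by
        rw [← h4]; simp [actL]
      have h6 : toWord ((mk [b])⁻¹ * k.left)⁻¹ = y :: M' := by rw [toWord_inv, h2, hI]
      have h7 := toWord_inv_mul h6
      rw [← norm_inv_eq, mul_inv_rev, h5, FreeGroup.norm, h7]
      have := congrArg List.length hI
      simp at this
      omega

end Free

variable {Ω : Type u} [Group Ω] {S : Subgroup Ω} {F : FusionSystem S}

/-- Initial vertex of a letter. -/
def st (x : Edge F × Bool) : Vert S := bif x.2 then src x.1 else tgt x.1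

/-- Final vertex of a letter. -/
def en (x : Edge F × Bool) : Vert S := bif x.2 then tgt x.1 else src x.1

/-- Paths in the graph. -/
def Path : Vert S → List (Edge F × Bool) → Vert S → Prop
  | v, [], w => v = w
  | v, x :: L, w => st x = v ∧ Path (en x) L w

theorem path_append {L M : List (Edge F × Bool)} {v w : Vert S} :
    Path v (L ++ M) w ↔ ∃ z, Path v L z ∧ Path z M w := by
  induction L generalizing v with
  | nil => simp [Path]
  | cons x L ih => simp [Path, ih, and_assoc]

theorem Path.red {L M : List (Edge F × Bool)} {v w : Vert S} (h : Path v L w) (r : Red L M) :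
    Path v M w := by
  induction r with
  | refl => exact h
  | tail _ s ih =>
    obtain @⟨L₁, L₂, x, b⟩ := s
    rw [path_append] at ih ⊢
    obtain ⟨z, h1, h2, -, h3⟩ := ih
    refine ⟨z, h1, ?_⟩
    rw [← h2]
    cases b <;> exact h3

theorem Path.map {L : List (Edge F × Bool)} {v w : Vert S} (h : Path v L w) (k : Equiv.Perm S) :
    Path (k • v) (L.map (actL k)) (k • w) := by
  induction L generalizing v with
  | nil => exact congrArg _ h
  | cons x L ih =>
    obtain ⟨e, b⟩ := x
    obtain ⟨h1, h2⟩ := h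
    refine ⟨?_, ?_⟩
    · rw [← h1]; cases b
      exacts [tgt_smul k e, src_smul k e]
    · have : en (actL k (e, b)) = k • en (e, b) := by
        cases b
        exacts [src_smul k e, tgt_smul k e]
      rw [this]
      exact ih h2

theorem Path.invRev {L : List (Edge F × Bool)} {v w : Vert S} (h : Path v L w) :
    Path w (invRev L) v := by
  induction L generalizing v with
  | nil => exact h.symm
  | cons x L ih =>
    obtain ⟨e, b⟩ := x
    obtain ⟨h1, h2⟩ := h
    rw [invRev_cons, path_append]
    refine ⟨_, ih h2, ?_, ?_⟩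
    · cases b <;> rfl
    · rw [← h1]; cases b <;> rfl

theorem Path.good {P : Subgroup Ω} {L : List (Edge F × Bool)} {v w : Vert S} (h : Path v L w)
    (hL : ∀ x ∈ L, ∀ u ∈ P, j S u • x.1 = x.1) (hv : GoodV F P v) : GoodV F P w := by
  induction L generalizing v with
  | nil => exact h ▸ hv
  | cons x L ih =>
    obtain ⟨e, b⟩ := x
    obtain ⟨h1, h2⟩ := h
    refine ih h2 (fun y hy => hL y (List.mem_cons_of_mem _ hy)) ?_
    have := goodV_src_iff_tgt (P := P) e (hL _ List.mem_cons_self)
    rw [← h1] at hv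
    cases b
    exacts [this.2 hv, this.1 hv]

/-- The ambient group. -/
abbrev Big (F : FusionSystem S) : Type u :=
  FreeGroup (Edge F) ⋊[act (Equiv.Perm S) (Edge F)] Equiv.Perm S

/-- The group realizing `F`. -/
def grp (F : FusionSystem S) : Subgroup (Big F) where
  carrier := {g | ∃ L, mk L = g.left ∧ Path (base S) L (g.right • base S)}
  one_mem' := ⟨[], rfl, (one_smul _ _).symm⟩
  mul_mem' := by
    rintro a b ⟨L, h1, h2⟩ ⟨M, h3, h4⟩
    refine ⟨L ++ M.map (actL a.right), ?_, path_append.2 ⟨_, h2, ?_⟩⟩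
    · rw [SemidirectProduct.mul_left, ← h1, ← h3, act_mk, mul_mk]
    · rw [SemidirectProduct.mul_right, mul_smul]; exact h4.map _
  inv_mem' := by
    rintro a ⟨L, h1, h2⟩
    refine ⟨(invRev L).map (actL a.right⁻¹), ?_, ?_⟩
    · rw [SemidirectProduct.inv_left, ← h1, inv_mk, act_mk]
    · have := h2.invRev.map a.right⁻¹
      rwa [inv_smul_smul] at this

theorem path_toWord [DecidableEq (Edge F)] {g : Big F} (hg : g ∈ grp F) :
    Path (base S) (toWord g.left) (g.right • base S) := by
  obtain ⟨L, h1, h2⟩ := hg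
  rw [← h1, toWord_mk]
  exact h2.red reduce.red

theorem mem_grp_reg (s : S) : (SemidirectProduct.inr.comp (reg S) : S →* Big F) s ∈ grp F :=
  ⟨[], rfl, (smul_base_eq_iff.2 ⟨s, rfl⟩).symm⟩

/-- The embedding of `S`. -/
def emb (F : FusionSystem S) : S →* grp F :=
  (SemidirectProduct.inr.comp (reg S) : S →* Big F).codRestrict _ mem_grp_reg

theorem conj_into [DecidableEq (Edge F)] (m : ℕ) (K : Subgroup (grp F))
    (hK : ∀ k ∈ K, norm (k : Big F).left ≤ m) : ∃ g : grp F, ∀ k ∈ K, g * k * g⁻¹ ∈ (emb F).range := by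
  induction m generalizing K with
  | zero =>
    refine ⟨1, fun k hk => ?_⟩
    have h1 : (k : Big F).left = 1 := norm_eq_zero.1 (Nat.le_zero.1 (hK k hk))
    have h2 := path_toWord k.2
    rw [h1, toWord_one] at h2
    obtain ⟨s, hs⟩ := smul_base_eq_iff.1 (Eq.symm h2)
    refine ⟨s, Subtype.ext (SemidirectProduct.ext ?_ ?_)⟩
    · simpa [emb] using h1.symm
    · simpa [emb] using hs
  | succ m ih =>
    by_cases hm : ∀ k ∈ K, norm (k : Big F).left ≤ m
    · exact ih K hm
    push Not at hm
    obtain ⟨k₀, hk₀, hm⟩ := hm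
    have hm' : norm (k₀ : Big F).left = m + 1 := le_antisymm (hK k₀ hk₀) hm
    rcases hw : toWord (k₀ : Big F).left with _ | ⟨x, L₀⟩
    · rw [FreeGroup.norm, hw] at hm'; simp at hm'
    have h2 := path_toWord k₀.2
    rw [hw] at h2
    obtain ⟨h₁, hh₁⟩ := exists_smul_base (en x)
    have hg : (⟨mk [x], h₁⟩ : Big F) ∈ grp F := ⟨[x], rfl, h2.1, hh₁.symm⟩
    let g : grp F := ⟨_, hg⟩
    obtain ⟨g', hg'⟩ := ih (K.map (MulAut.conj g⁻¹).toMonoidHom) (by
      rintro _ ⟨k, hk, rfl⟩
      have := shrink (K.map (grp F).subtype) (by rintro _ ⟨k, hk, rfl⟩; exact hK k hk)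
        ⟨k₀, hk₀, rfl⟩ hm' hw h₁ ⟨k, hk, rfl⟩
      simpa [g] using this)
    refine ⟨g' * g⁻¹, fun k hk => ?_⟩
    have := hg' _ ⟨k, hk, rfl⟩
    simpa [mul_assoc] using this

theorem result {Ω : Type u} [Group Ω] {S : Subgroup Ω} [Finite S] (p : ℕ) [Fact p.Prime] (hS : IsPGroup p ↥S) (F : Cfsg.FusionSystem S) : ∃ (G : Type u) (_ : Group G) (ι : ↥S →* G), F.IsRealizedBy ι ∧ (∀ H : Subgroup G, Finite ↥H → ∃ g : G, ∀ h ∈ H, g * h * g⁻¹ ∈ ι.range) ∧ ∃ N : Subgroup G, N.Normal ∧ IsFreeGroup ↥N ∧ N.index ∣ (Nat.card ↥S).factorial := by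
  classical
  refine ⟨grp F, inferInstance, emb F, ⟨?_, ?_⟩, ?_, ?_⟩
  · intro a b h
    exact reg_injective S (SemidirectProduct.inr_injective (congrArg Subtype.val h))
  · intro P hP φ hφ
    rw [mem_hom_iff]
    constructor
    · intro h
      obtain ⟨e, k, h1, h2, h3, h4⟩ := exists_edge h
      have hg : (⟨mk [(e, true)], k⟩ : Big F) ∈ grp F := ⟨[(e, true)], rfl, h1, h2⟩
      refine ⟨⟨_, hg⟩⁻¹, fun x => ?_⟩
      rw [inv_inv, mul_assoc, eq_inv_mul_iff_mul_eq]
      apply Subtype.ext
      have h5 := h4 x x.2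
      rw [tot_coe, j_apply (hP x.2), j_apply (hφ x)] at h5
      have h6 := h3 x x.2
      rw [j_apply (hP x.2)] at h6
      show (⟨mk [(e, true)], k⟩ : Big F) * SemidirectProduct.inr (reg S ⟨φ x, hφ x⟩) =
        SemidirectProduct.inr (reg S ⟨x, hP x.2⟩) * ⟨mk [(e, true)], k⟩
      refine SemidirectProduct.ext ?_ ?_
      · simp only [SemidirectProduct.mul_left, SemidirectProduct.left_inr, map_one, mul_one,
          one_mul, SemidirectProduct.right_inr]
        rw [act_mk]
        simp only [List.map_cons, List.map_nil, actL, h6]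
      · simpa using h5.symm
    · rintro ⟨g, hg⟩
      obtain ⟨⟨⟨c, k⟩, hck⟩, rfl⟩ : ∃ g' : grp F, g = g'⁻¹ := ⟨g⁻¹, (inv_inv g).symm⟩
      have h1 : ∀ u (hu : u ∈ P), (⟨c, k⟩ : Big F) * SemidirectProduct.inr (j S (tot φ u)) =
          SemidirectProduct.inr (j S u) * ⟨c, k⟩ := by
        intro u hu
        have := hg ⟨u, hu⟩
        rw [inv_inv, mul_assoc, eq_inv_mul_iff_mul_eq] at this
        rw [tot_apply _ hu, j_apply (hP hu), j_apply (hφ _)]
        exact congrArg Subtype.val this
      have h2 : ∀ u ∈ P, toWord c = (toWord c).map (actL (j S u)) := by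
        intro u hu
        have := congrArg SemidirectProduct.left (h1 u hu)
        simp only [SemidirectProduct.mul_left, SemidirectProduct.left_inr, map_one, mul_one,
          one_mul, SemidirectProduct.right_inr] at this
        rw [← toWord_act, ← this]
      have h3 : ∀ u ∈ P, j S u * k = k * j S (tot φ u) := fun u hu => by
        simpa using (congrArg SemidirectProduct.right (h1 u hu)).symm
      refine mor_of_goodV ?_ (fun u hu => by rw [tot_apply _ hu]; exact hφ _) h3
      refine (path_toWord hck).good (fun x hx u hu => ?_) (goodV_base hP)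
      have h4 := h2 u hu
      conv_lhs at h4 => rw [← List.map_id (toWord c)]
      exact (congrArg Prod.fst (List.map_inj_left.1 h4 x hx)).symm
  · intro K hK
    obtain ⟨m, hm⟩ := (Set.finite_range fun k : K => norm ((k : grp F) : Big F).left).bddAbove
    exact conj_into m K fun k hk => hm ⟨⟨k, hk⟩, rfl⟩
  · let π : grp F →* Equiv.Perm S := SemidirectProduct.rightHom.comp (grp F).subtype
    refine ⟨π.ker, inferInstance, ?_, ?_⟩
    · let f : π.ker →* FreeGroup (Edge F) := MonoidHom.mk' (fun g => ((g : grp F) : Big F).left)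
        fun a b => by
          have : ((a : grp F) : Big F).right = 1 := a.2
          show (((a : grp F) : Big F) * ((b : grp F) : Big F)).left = _
          rw [SemidirectProduct.mul_left, this, map_one]; rfl
      have hf : Function.Injective f := fun a b h =>
        Subtype.ext (Subtype.ext (SemidirectProduct.ext h (Eq.trans a.2 (Eq.symm b.2))))
      exact IsFreeGroup.ofMulEquiv (MonoidHom.ofInjective hf).symm
    · rw [Subgroup.index_ker, ← Nat.card_perm]
      exact Subgroup.card_subgroup_dvd_card _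

end Cfsg.Agent.S5286
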