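import Mathlib
import Cfsg.Statements.S5291
import Cfsg.Agent.Fus.InvSub

set_option autoImplicit false
set_option linter.unusedVariables false
open Cfsg

namespace Cfsg.Agent.S5291

open Cfsg.FusionSystem Cfsg.Agent.Fus Subgroup

/-- Let F be a saturated fusion system over a finite p-group S and E a weakly normal subsystem of F over a subgroup T. Suppose a subgroup R of T is normal in E (E = N_E(R)), and let R* be the subgroup of T generated by the images of R under all maps of F with source R. Then R* is normal in F (F = N_F(R*)). -/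
theorem result {Ω : Type*} [Group Ω] {S : Subgroup Ω} [Finite S] (p : ℕ) [Fact p.Prime] (hS : IsPGroup p S)
    (F : Cfsg.FusionSystem S) (hF : F.IsSaturated p)
    {T : Subgroup Ω} (E : Cfsg.FusionSystem T) (hE : E.IsWeaklyNormalIn F p)
    (R : Subgroup Ω) (hR : E.IsNormal R) :
    F.IsNormal (Subgroup.closure {x : Ω | ∃ φ ∈ F.Hom R, ∃ r : R, x = φ r}) := by
  have := finite_of_le hE.inv.le
  have hC := hE.inv.isNormal_core hF hS
  have hle : Subgroup.closure {x : Ω | ∃ φ ∈ F.Hom R, ∃ r : R, x = φ r} ≤ E.core := by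
    rw [closure_le]
    rintro _ ⟨φ, hφ, r, rfl⟩
    have := hC.stronglyClosed.mem (mor_tot hφ) r.2 (hR.le_core r.2)
    rwa [tot_coe] at this
  refine hC.of_invariant hle fun g hg => hg.mor.mulOn.mapsTo_closure hle ?_
  rintro _ ⟨φ, hφ, r, rfl⟩
  have h1 : F.Mor R fun x => g (tot φ x) := hg.mor.comp (mor_tot hφ) fun x hx =>
    hC.stronglyClosed.mem (mor_tot hφ) hx (hR.le_core hx)
  exact subset_closure ⟨h1.mulOn.hom, h1.hom_mem, r, by simp⟩

end Cfsg.Agent.S5291
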