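import Mathlib
import Cfsg.Statements.S5294
import Cfsg.Agent.Fus.EssLocal

set_option autoImplicit false
set_option linter.unusedVariables false
universe u
open Cfsg

namespace Cfsg.Agent.S5294

open Cfsg.FusionSystem Cfsg.Agent.Fus Subgroup

theorem exists_trace {A : Type*} [CommGroup A] [Finite A] (Γ U : Subgroup (MulAut A)) :
    ∃ t : A →* A, (∀ a, (∀ u ∈ U, u a = a) → ∀ g ∈ Γ, g (t a) = t a) ∧
      ∀ a, (∀ g ∈ Γ, g a = a) → t a = a ^ U.relIndex Γ := by
  classical
  let _ := Fintype.ofFinite (Γ ⧸ U.subgroupOf Γ)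
  refine ⟨∏ q : Γ ⧸ U.subgroupOf Γ, (q.out : MulAut A).toMonoidHom, fun a ha g hg => ?_,
    fun a ha => ?_⟩
  · rw [MonoidHom.finsetProd_apply, map_prod]
    refine Fintype.prod_equiv (MulAction.toPerm (⟨g, hg⟩ : Γ)) _ _ fun q => ?_
    have h1 : ((⟨g, hg⟩ * q.out : Γ) : Γ ⧸ U.subgroupOf Γ) = (((⟨g, hg⟩ : Γ) • q).out : Γ) := by
      rw [QuotientGroup.out_eq', ← smul_eq_mul, ← MulAction.Quotient.smul_mk, QuotientGroup.out_eq']
    have h2 := ha _ (mem_subgroupOf.1 (QuotientGroup.eq.1 h1))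
    simp only [MulEquiv.coe_toMonoidHom, MulAction.toPerm_apply]
    conv_lhs => rw [← h2]
    simp
  · rw [MonoidHom.finsetProd_apply]
    refine (Finset.prod_congr (g := fun _ => a) rfl fun q _ => ha _ (Quotient.out q).2).trans ?_
    rw [Finset.prod_const, Finset.card_univ, ← Nat.card_eq_fintype_card]
    rfl

open scoped IsMulCommutative in

/-- Let F be a saturated fusion system over a finite p-group S whose centre Z(S) lies in the largest subgroup O_p(F) normal in F. Then the centre Z(F) of F is a direct factor of Z(S): there is a subgroup K of Z(S) with Z(F) ∩ K = 1 and Z(F)K = Z(S). -/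
theorem result {Ω : Type u} [Group Ω] {S : Subgroup Ω} [Finite S] (p : ℕ) [Fact p.Prime] (hS : IsPGroup p S)
    (F : Cfsg.FusionSystem S) (hF : F.IsSaturated p) (hZ : (S ⊓ Subgroup.centralizer (S : Set Ω)) ≤ F.core) :
    ∃ K : Subgroup Ω, K ≤ (S ⊓ Subgroup.centralizer (S : Set Ω)) ∧ F.center ⊓ K = ⊥ ∧ F.center ⊔ K = (S ⊓ Subgroup.centralizer (S : Set Ω)) := by
  set W := centralizerIn F.core F.core with hWdef
  have hQ := F.isNormal_core
  have hW : F.IsNormal W := hQ.of_invariant centralizerIn_le fun g hg => hg.iso_center.maps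
  have hWS := hW.le
  have := finite_of_le hWS
  have hZW : S ⊓ centralizer (S : Set Ω) ≤ W := fun z hz => ⟨hZ hz, fun x hx => hz.2 x (hQ.le hx)⟩
  have hWc : IsMulCommutative W := GT.PG.isMulCommutative_iff_forall.2 fun a ha b hb =>
    hb.2 a ha.1
  have hnd := (hF.fullyAutomized hS (F.isFullyNormalized_of_le_normalizer hWS
    hW.le_normalizer)).not_dvd hS
  obtain ⟨t, h1, h2⟩ := exists_trace (F.autGroup W) (autInducedBy S W)
  set n := (autInducedBy S W).relIndex (F.autGroup W)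
  have hcop : (Nat.card W).Coprime n := by
    obtain ⟨k, hk⟩ := (hS.to_le hWS).exists_card_eq
    rw [hk]
    exact ((Nat.Prime.coprime_iff_not_dvd Fact.out).2 hnd).pow_left k
  have hU : ∀ a : W, (a : Ω) ∈ centralizer (S : Set Ω) → ∀ u ∈ autInducedBy S W, u a = a := by
    intro a ha u hu
    obtain ⟨s, hs, e⟩ := mem_autInducedBy.1 hu
    exact Subtype.ext (by rw [e, ha s hs, mul_inv_cancel_right])
  have hΓ : ∀ a : W, (a : Ω) ∈ F.center ↔ ∀ g ∈ F.autGroup W, g a = a := by
    intro a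
    rw [hF.mem_center_iff hS]
    refine ⟨fun h g hg => Subtype.ext ?_, fun h => ⟨hWS a.2, fun P f hf ha => ?_⟩⟩
    · rw [← totA_coe]; exact h.2 _ _ (mor_totA hWS hg) a.2
    · obtain ⟨g, hg, e, hi⟩ := hW.extend hf
      have hiso := (hg.mono le_sup_right).iso_of_img_eq hi
      rw [← e _ ha, ← hiso.coe_aut, h _ hiso.aut_mem]
  refine ⟨t.ker.map W.subtype ⊓ (S ⊓ centralizer (S : Set Ω)), inf_le_right,
    eq_bot_iff.2 ?_, le_antisymm (sup_le F.center_le_centralizerIn inf_le_right) fun z hz => ?_⟩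
  · rintro _ ⟨hz, ⟨a, ha, rfl⟩, -⟩
    have h3 := h2 a ((hΓ a).1 hz)
    rw [MonoidHom.mem_ker.1 ha] at h3
    rw [(powCoprime hcop).injective (a₁ := a) (a₂ := 1) (by simpa using h3.symm)]
    exact one_mem _
  · let a : W := ⟨z, hZW hz⟩
    have h3 := h1 a (hU a hz.2)
    let y := (powCoprime hcop).symm (t a)
    have hy : y ^ n = t a := (powCoprime hcop).apply_symm_apply (t a)
    have hyΓ : ∀ g ∈ F.autGroup W, g y = y := fun g hg => (powCoprime hcop).injective (by
      simp only [powCoprime_apply]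
      rw [← map_pow, hy, h3 g hg])
    have hyc := (hΓ y).2 hyΓ
    have e : z = y * ((y⁻¹ * a : W) : Ω) := by simp [a]
    rw [e]
    refine mul_mem (mem_sup_left hyc) (mem_sup_right ⟨⟨y⁻¹ * a, ?_, rfl⟩, ?_⟩)
    · rw [SetLike.mem_coe, MonoidHom.mem_ker, map_mul, map_inv, h2 y hyΓ, hy, inv_mul_cancel]
    · exact mul_mem (Subgroup.inv_mem _ (F.center_le_centralizerIn hyc)) hz

end Cfsg.Agent.S5294
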