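import Mathlib
import Cfsg.Statements.S5297
import Cfsg.Agent.Fus.BGH

set_option autoImplicit false
set_option linter.unusedVariables false
universe u
open Cfsg

namespace Cfsg.Agent.S5297

open Cfsg.FusionSystem Cfsg.Agent.Fus Subgroup Cfsg.Agent.GT.PG

/-- Let F be a saturated fusion system over a finite p-group S. If every map of F between cyclic subgroups of the hyperfocal subgroup of F of order p or 4 is a map of the normalizer system of S (it extends to a map of F defined on all of S), then S is normal in F. -/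
theorem result {Ω : Type u} [Group Ω] {S : Subgroup Ω} [Finite S] (p : ℕ) [Fact p.Prime] (hS : IsPGroup p S)
    (F : Cfsg.FusionSystem S) (hF : F.IsSaturated p)
    (h : ∀ A B : Subgroup Ω, A ≤ (F.hyperfocalSubgroup p) → B ≤ (F.hyperfocalSubgroup p) → IsCyclic ↥A → (Nat.card ↥A = p ∨ Nat.card ↥A = 4) → IsCyclic ↥B → (Nat.card ↥B = p ∨ Nat.card ↥B = 4) →
      F.homSet A B ⊆ F.normalizerHom S A) :
    F.IsNormal S := by
  refine hF.isNormal_top_of_small hS fun x hx hs f hf => ?_
  by_cases h1 : x = 1
  · subst h1
    exact ⟨_, F.mor_id le_rfl, hf.map_one.symm⟩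
  have := hF.hom_mem_of_small hS (M := F.normalizerHom S) h hx h1 hs hf
  obtain ⟨-, -, g, hg, e, -⟩ := (mem_normalizerHom_iff (f := f) fun _ => rfl).1 this
  exact ⟨g, hg.mono le_sup_right, e x (mem_zpowers x)⟩

end Cfsg.Agent.S5297
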