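import Mathlib
import Cfsg.Statements.S5300
import Cfsg.Agent.Fus.EssMisc

set_option autoImplicit false
set_option linter.unusedVariables false
universe u
open Cfsg

namespace Cfsg.Agent.S5300

open Cfsg.FusionSystem Cfsg.Agent.Fus Subgroup

/-- Let F be a saturated fusion system over a finite p-group S. If every cyclic subgroup of the focal subgroup of F of order p (of order 2 or 4 when p = 2) is normal in S, then S is normal in F. -/
theorem result {Ω : Type u} [Group Ω] {S : Subgroup Ω} [Finite S] (p : ℕ) [Fact p.Prime] (hS : IsPGroup p S)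
    (F : Cfsg.FusionSystem S) (hF : F.IsSaturated p)
    (hnorm : ∀ x ∈ F.focalSubgroup, (x ^ p = 1 ∨ (p = 2 ∧ x ^ 4 = 1)) → ∀ s ∈ S, s * x * s⁻¹ ∈ Subgroup.zpowers x) :
    F.IsNormal S := by
  refine (hF.isNormal_top_iff hS).2 fun E hE => ?_
  have := finite_of_le hE.le
  have hEp := hS.to_le hE.le
  have hp : p.Prime := Fact.out
  have hfoc : F.StronglyClosed F.focalSubgroup := stronglyClosed_iff.2 ⟨F.focal_le,
    fun P f hf x hx hx' => by simpa using mul_mem hx' (hf.mem_focal hx)⟩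
  have hD := hfoc.invA hE.le
  let small : Ω → Prop := fun x => x ∈ F.focalSubgroup ⊓ E ∧ (x ^ p = 1 ∨ (p = 2 ∧ x ^ 4 = 1))
  let K : Subgroup (MulAut E) := ⨅ x ∈ {x | small x}, secStab E (zpowers x) (zpowers (x ^ p))
  have hK : ∀ α, α ∈ K ↔ ∀ x, small x → α ∈ secStab E (zpowers x) (zpowers (x ^ p)) := fun α => by
    simp only [K, mem_iInf, Set.mem_ofPred_eq]
  obtain ⟨s, hs, hsE⟩ := hE.exists_notMem hF hS
  refine hsE ((hE.isRadical hS).mem_of_normal hE.isCentric (K := K) ?_ ?_ hs ?_)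
  · refine isPGroup_of_forall_coprime fun α hα hc => ?_
    have hcop := coprime_card_zpowers hc
    have h1 : ∀ x, small x → x ∈ fixA (zpowers α) := fun x hx => by
      refine le_fixA_of_commA_le_frattini hEp hcop (zpowers_le.2 hx.1.2) ?_ (mem_zpowers x)
      refine (commA_le_of_le_secStab (zpowers_le.2 ((hK α).1 hα.1 x hx))).trans ?_
      exact zpowers_le.2 (mem_sup_right (GT.PG.pow_mem_powerClosure_one (mem_zpowers x)))
    have hD' := hD.anti (zpowers_le.2 hα.2)
    have h2 : F.focalSubgroup ⊓ E ≤ fixA (zpowers α) := by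
      by_cases h2 : p = 2
      · exact hD'.le_fixA_of_sq hEp hcop fun x hx hx' => h1 x ⟨hx, Or.inr ⟨h2, by
          simpa [h2] using hx'⟩⟩
      · exact hD'.le_fixA_of_odd h2 hEp hcop fun x hx hx' => h1 x ⟨hx, Or.inl hx'⟩
    have h3 := (invA_top (zpowers α)).le_fixA_of_commA_le_fixA hEp hcop
      (((commA_le_iff le_rfl).2 fun β hβ x hx => mem_inf.2 ⟨(mor_totA hE.le
        (zpowers_le.2 hα.2 hβ)).mem_focal hx, mul_mem (Subgroup.inv_mem _ hx)
          (totA_mem β hx)⟩).trans h2)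
    exact eq_one_of_forall_totA fun x hx => (mem_fixA_zpowers.1 (h3 hx)).2
  · intro l hl α hα
    refine (hK _).2 fun x hx => ?_
    have hxE : x ∈ E := hx.1.2
    have hy : small (totA l⁻¹ x) := ⟨hD.mem (Subgroup.inv_mem _ hl) hx.1, by
      rcases hx.2 with h | h
      · left; rw [← (mulOn_totA _).map_pow hxE, h, (mulOn_totA _).map_one]
      · right; exact ⟨h.1, by rw [← (mulOn_totA _).map_pow hxE, h.2, (mulOn_totA _).map_one]⟩⟩
    have h1 := (hK α).1 hα _ hy
    refine mem_secStab_of (zpowers_le.2 hxE) (zpowers_le.2 (pow_mem (mem_zpowers x) p)) ?_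
    rintro _ ⟨k, rfl⟩
    have hxk := zpow_mem hxE k
    have h2 := totA_mem l⁻¹ hxk
    obtain ⟨j, hj⟩ := h1.2 (totA l⁻¹ (x ^ k)) ⟨k, ((mulOn_totA _).map_zpow hxE k).symm⟩ h2
    refine ⟨j, ?_⟩
    have h3 := congrArg (totA l) hj
    beta_reduce at h3 ⊢
    rw [← (mulOn_totA _).map_pow hxE, ← (mulOn_totA _).map_zpow (pow_mem hxE p),
      totA_totA_inv _ (zpow_mem (pow_mem hxE p) j), (mulOn_totA l).map_mul (Subgroup.inv_mem _ h2)
        (totA_mem _ h2), (mulOn_totA l).map_inv h2, totA_totA_inv _ hxk] at h3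
    rw [h3, totA_mul _ _ hxk, totA_mul _ _ h2]
  · refine (hK _).2 fun x hx => ?_
    have hxE : x ∈ E := hx.1.2
    have hle : zpowers (x ^ p) ≤ zpowers x := zpowers_le.2 (pow_mem (mem_zpowers x) p)
    have hI : ∀ n : ℕ, InvA (autInducedBy S E) (zpowers (x ^ n)) := fun n => by
      refine ⟨zpowers_le.2 (pow_mem hxE n), fun β hβ => ?_⟩
      obtain ⟨t, ht, rfl⟩ := mem_autInducedBy_iff_cAut.1 hβ
      obtain ⟨j, hj⟩ := hnorm x hx.1.1 hx.2 t ht.1
      rintro _ ⟨k, rfl⟩
      refine ⟨j * k, ?_⟩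
      beta_reduce at hj ⊢
      rw [(mulOn_totA _).map_zpow (pow_mem hxE n), (mulOn_totA _).map_pow hxE,
        totA_cAut ht.2 hxE, ← hj, ← zpow_natCast, ← zpow_natCast, ← zpow_mul, ← zpow_mul,
        ← zpow_mul]
      congr 1; ring
    refine mem_secStab_of (zpowers_le.2 hxE) hle fun y hy => ?_
    have h1 := hI 1
    rw [pow_one] at h1
    by_cases hxp : x ∈ zpowers (x ^ p)
    · exact zpowers_le.2 hxp (mul_mem (Subgroup.inv_mem _ hy) (h1.mem (cAut_mem_autInducedBy hs) hy))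
    · exact h1.comm_mem_of_relIndex_prime hEp (isPGroup_autInducedBy hS E) (hI p) hle
        (GT.PG.relIndex_zpowers_of_pow_prime_mem hp hxp (mem_zpowers _))
        (cAut_mem_autInducedBy hs) hy

end Cfsg.Agent.S5300
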