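import Mathlib
import Cfsg.Statements.S5301
import Cfsg.Agent.Fus.EssMisc

set_option autoImplicit false
set_option linter.unusedVariables false
universe u
open Cfsg

namespace Cfsg.Agent.S5301

open Cfsg.FusionSystem Cfsg.Agent.Fus Subgroup

/-- Let F be a saturated fusion system over a finite p-group S. If for every subgroup P of S that is fully normalized, centric and radical in F the automorphism group that F induces on P has a normal Sylow p-subgroup, then S is normal in F. -/
theorem result {Ω : Type u} [Group Ω] {S : Subgroup Ω} [Finite S] (p : ℕ) [Fact p.Prime] (hS : IsPGroup p S)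
    (F : Cfsg.FusionSystem S) (hF : F.IsSaturated p)
    (hcl : ∀ P : Subgroup Ω, F.IsFullyNormalized P → F.IsCentric P → F.IsRadical p P →
      ∃ R : Sylow p ↥(F.autGroup P), (R : Subgroup ↥(F.autGroup P)).Normal) :
    F.IsNormal S := by
  refine (hF.isNormal_top_iff hS).2 fun P hP => ?_
  have := finite_of_le hP.le
  obtain ⟨R, hR⟩ := hcl P hP.isFullyNormalized hP.isCentric (hP.isRadical hS)
  obtain ⟨s, hs, hsP⟩ := hP.exists_notMem hF hS
  refine hsP ((hP.isCentric.cAut_mem_inn_iff hs).1 ?_)
  rw [← (hP.isRadical hS).2]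
  refine ⟨⟨_, F.cAut_mem_autGroup hP.le hs⟩, ?_, rfl⟩
  rw [GT.pCore_eq_sylow R]
  have h1 : IsPGroup p ((autInducedBy S P).subgroupOf (F.autGroup P)) :=
    (isPGroup_autInducedBy hS P).comap_subtype
  obtain ⟨R', hR'⟩ := h1.exists_le_sylow
  have := Sylow.unique_of_normal R hR
  rw [Subsingleton.elim R R']
  exact hR' (cAut_mem_autInducedBy hs)

end Cfsg.Agent.S5301
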