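import Mathlib
import Cfsg.Statements.S5315
import Cfsg.Agent.Fus.EssMisc

set_option autoImplicit false
set_option linter.unusedVariables false
open Cfsg

namespace Cfsg.Agent.S5315

open Cfsg.FusionSystem Cfsg.Agent.Fus Subgroup

/-- An analogue of Grün's lemma for fusion systems. Let F be a saturated fusion system over a finite p-group S that is perfect in the sense that its hyperfocal subgroup is all of S (F coincides with its p-residual subsystem). Then the second centre of F equals its centre: every fusion system over S/(Z(F) ∩ S) that is the factor system of F modulo its centre Z(F), read through the quotient map, has trivial centre. -/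
theorem result {Ω : Type*} [Group Ω] {S : Subgroup Ω} [Finite S] (p : ℕ) [Fact p.Prime] (hS : IsPGroup p S) (F : Cfsg.FusionSystem S) (hF : F.IsSaturated p)
    (hperf : F.hyperfocalSubgroup p = S)
    (E : Cfsg.FusionSystem (⊤ : Subgroup (↥S ⧸ (F.center).subgroupOf S)))
    (hE : F.IsFactorSystem F.center (QuotientGroup.mk' ((F.center).subgroupOf S)) E) : E.center = ⊥ := by
  have hZ := F.isCentral_center
  have hq := hE.isQuot hF hS hZ.isNormal.stronglyClosed
  have hker := hE.ker_eq
  set θ := tot (QuotientGroup.mk' ((F.center).subgroupOf S)) with hθ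
  have hθm := hq.mulOn
  have hEZ := E.isCentral_center
  set W := pre θ S E.center with hW
  have hWS : W ≤ S := pre_le _ _ _
  have hfoc : F.focalSubgroup = S := le_antisymm F.focal_le (hperf.ge.trans (F.hyperfocal_le_focal p))
  have hmod : ∀ {P f}, F.Mor P f → ∀ x ∈ P, x ∈ W → x⁻¹ * f x ∈ F.center := by
    intro P f hf x hx hxW
    obtain ⟨f', hf', e⟩ := hq.push hf
    have h1 := hEZ.fix hf' (mem_img_of_mem hx) (hθm.mem_pre.1 hxW).2
    rw [← hker, ← hθm.eq_iff_mem_pre_bot (hf.le hx) (hf.mem hx), ← e x hx, h1]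
  have hZW : F.center ≤ W := by rw [← hker]; exact pre_mono bot_le
  have hWsc : F.StronglyClosed W := stronglyClosed_iff.2 ⟨hWS, fun P f hf x hx hxW => by
    simpa using mul_mem hxW (hZW (hmod hf x hx hxW))⟩
  have hzc : ∀ z ∈ F.center, ∀ s ∈ S, s * z = z * s := fun z hz s hs =>
    F.center_le_centralizer hz s hs
  have hWn : F.IsNormal W := by
    refine hF.isNormal_of_chain hS (fun i => [W, F.center].getD i ⊥) 2 rfl rfl ?_ ?_ ?_
    · intro i hi; interval_cases i; exacts [hZW, bot_le]
    · intro i hi; interval_cases i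
      exacts [hWsc, hZ.isNormal.stronglyClosed, F.stronglyClosed_bot]
    · intro i hi s hs x hx; interval_cases i
      · exact hmod (F.mor_conj hWS (hWS hs)) x hx hx
      · show _ ∈ (⊥ : Subgroup Ω)
        rw [hzc x hx s (hWS hs)]; simp
  have hWc : ∀ w ∈ W, ∀ s ∈ S, w * s = s * w := by
    intro w hw s hs
    have hc : ∀ s ∈ S, w⁻¹ * (s * w * s⁻¹) ∈ F.center := fun s hs =>
      hmod (F.mor_conj hWS hs) w hw hw
    have h1 : F.focalSubgroup ≤ centralizer {w} := by
      refine focal_le_iff.2 fun P f hf x hx => ?_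
      obtain ⟨g, hg, e, -⟩ := hWn.extend hf
      have hxS := hf.le hx
      have hx' : x ∈ P ⊔ W := mem_sup_left hx
      have hw' : w ∈ P ⊔ W := mem_sup_right hw
      have h2 := hZ.fix hg (mem_sup_right (hZW (hc x hxS))) (hc x hxS)
      rw [hg.map_mul (Subgroup.inv_mem _ hw') (mul_mem (mul_mem hx' hw') (Subgroup.inv_mem _ hx')),
        hg.map_inv hw', hg.map_conj hx' hw', e x hx] at h2
      obtain ⟨z, hz, ez⟩ : ∃ z ∈ F.center, g w = w * z := ⟨_, hmod hg w hw' hw, by group⟩
      have h3 : (w * z)⁻¹ * (f x * (w * z) * (f x)⁻¹) = w⁻¹ * (f x * w * (f x)⁻¹) := by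
        have e1 := hzc z hz _ (Subgroup.inv_mem _ (hf.mem hx))
        have e2 := hzc z hz _ (F.center_le (hc _ (hf.mem hx)))
        calc _ = z⁻¹ * (w⁻¹ * (f x * w * (z * (f x)⁻¹))) := by group
          _ = z⁻¹ * ((w⁻¹ * (f x * w * (f x)⁻¹)) * z) := by rw [← e1]; group
          _ = _ := by rw [e2]; group
      rw [ez, h3, mul_right_inj] at h2
      rw [mem_centralizer_singleton_iff]
      calc x⁻¹ * f x * w = x⁻¹ * (f x * w * (f x)⁻¹) * f x := by group
        _ = _ := by rw [h2]; group
    exact (mem_centralizer_singleton_iff.1 (h1 (hfoc.ge hs))).symm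
  have := finite_of_le hWS
  have hcop := (hF.fullyAutomized hS (F.isFullyNormalized_of_le_normalizer hWS
    hWn.le_normalizer)).coprime_of_le_centralizer hS fun s hs x hx => hWc x hx s hs.1
  have hfix : W ≤ fixA (F.autGroup W) :=
    (invA_top _).le_fixA_of_commA_le_fixA (hS.to_le hWS) hcop ((commA_le_iff le_rfl).2
      fun α hα x hx => ⟨hZW (hmod (mor_totA hWS hα) x hx hx), fun β hβ =>
        hZ.fix (mor_totA hWS hβ) (hZW (hmod (mor_totA hWS hα) x hx hx))
          (hmod (mor_totA hWS hα) x hx hx)⟩)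
  have hWZ : W ≤ F.center := fun w hw => (hF.mem_center_iff hS).2 ⟨hWS hw, fun P f hf hwP => by
    obtain ⟨g, hg, e, hi⟩ := hWn.extend hf
    have hiso := (hg.mono le_sup_right).iso_of_img_eq hi
    rw [← e w hwP, ← hiso.totA_aut hw, (hfix hw).2 _ hiso.aut_mem]⟩
  refine eq_bot_iff.2 fun y hy => ?_
  obtain ⟨x, hx, rfl⟩ := hq.exists_pre le_top hy
  have := hWZ hx
  rw [← hker] at this
  exact (hθm.mem_pre_bot.1 this).2

end Cfsg.Agent.S5315
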