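import Mathlib
import Cfsg.Statements.S5317
import Cfsg.Agent.Fus.SimpleQuot
import Cfsg.Agent.Cl.PSL2Pairs
import Cfsg.Agent.Cl.LinearBasic
import Cfsg.Agent.S0261
-- import your own Cfsg.Agent.* helpers here

set_option autoImplicit false
open Cfsg

namespace Cfsg.Agent.S5317

open Cfsg.Agent.Inv Cfsg.Agent.Inv.Fz Cfsg.Agent.Fus.SC

/-- Let F be a finite field of odd order q with q² ≡ 1 mod 16 (so that a Sylow 2-subgroup of PSL(2,q), dihedral of order the 2-part of (q²−1)/2, has order at least 8). Then the 2-fusion system of PSL(2,F) on a Sylow 2-subgroup is simple: saturated, over a nontrivial 2-group, with no normal subsystem other than the trivial one and itself. -/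
theorem result {F : Type*} [Field F] [Fintype F] (hodd : Fintype.card F % 2 = 1) (h16 : 16 ∣ Fintype.card F ^ 2 - 1)
    (S : Sylow 2 (Matrix.ProjectiveSpecialLinearGroup (Fin 2) F)) :
    (Cfsg.groupFusionSystem (S : Subgroup (Matrix.ProjectiveSpecialLinearGroup (Fin 2) F))).IsSimple 2 := by
  classical
  have ho : Odd (Fintype.card F) := Nat.odd_iff.2 hodd
  have h2 : (2 : F) ≠ 0 := Cl.sp_two_ne_zero_of_odd (by rwa [Nat.card_eq_fintype_card])
  have hq : 4 ≤ Nat.card F := by
    rw [Nat.card_eq_fintype_card]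
    have := Fintype.one_lt_card (α := F)
    by_contra h
    obtain h3 : Fintype.card F = 3 := by omega
    rw [h3] at h16; norm_num at h16
  have := Cl.psl_fin_isSimpleGroup (F := F) (n := 2) le_rfl fun _ => hq
  obtain ⟨P⟩ : Nonempty (Sylow 2 (Matrix.SpecialLinearGroup (Fin 2) F)) := inferInstance
  obtain ⟨k, -, ⟨e⟩⟩ := S0261.result ho P
  obtain ⟨r, s, H⟩ := exists_mc_of_quaternion e
  have h16' : 2 ^ 4 ∣ Nat.card (Matrix.SpecialLinearGroup (Fin 2) F) := by
    rw [Cl.card_sl_two, Nat.card_eq_fintype_card]; exact h16.mul_left _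
  have hk : 2 ≤ k := by
    rw [← (P : Subgroup (Matrix.SpecialLinearGroup (Fin 2) F)).card_mul_index, H.card] at h16'
    have := (Nat.pow_dvd_pow_iff_le_right one_lt_two).1 (((Nat.prime_two.coprime_iff_not_dvd.2
      P.not_dvd_index).pow_left 4).dvd_of_dvd_mul_right h16')
    omega
  have hz := (Cl.L2.sl_mul_self_eq_one h2 H.mxQ.z_sq).resolve_left H.mxQ.z_ne_one
  obtain ⟨e'⟩ := dihedral_of_quot H.mxQ (by omega) (QuotientGroup.mk' (Subgroup.center _))
    fun x _ => by rw [hz]; exact Cl.L2.mk_eq_one_iff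
  refine (good_of_dihedral (quotSylow P (Subgroup.center _)) ?_ e'
    (pResidual_eq_top_of_simple fun h => ?_)).isSimple_of S
  · exact (Nat.pow_le_pow_right two_pos hk : 2 ^ 2 ≤ _)
  · have := Cl.card_psl_mul (ι := Fin 2) (F := F)
    rw [h] at this
    have h3 := Nat.le_of_dvd Nat.card_pos h16'
    have := Nat.gcd_le_left (m := Fintype.card (Fin 2)) (Nat.card F - 1) (by simp)
    simp only [Fintype.card_fin] at *
    omega

end Cfsg.Agent.S5317
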