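import Mathlib
import Cfsg.Statements.S5318
import Cfsg.Agent.Cl.SylTwoGL2
import Cfsg.Agent.Fus.SimpleQuot
-- import your own Cfsg.Agent.* helpers here

set_option autoImplicit false
open Cfsg

namespace Cfsg.Agent.S5318

open Cfsg.Agent.Inv Cfsg.Agent.Inv.Fz Cfsg.Agent.Fus.SC

/-- For a finite field F of odd order, the 2-fusion system of PSL(3,F) on a Sylow 2-subgroup (semidihedral or wreathed according as |F| ≡ 3 or 1 mod 4) is simple. -/
theorem result {F : Type*} [Field F] [Fintype F] (hodd : Fintype.card F % 2 = 1) (S : Sylow 2 (Matrix.ProjectiveSpecialLinearGroup (Fin 3) F)) :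
    (Cfsg.groupFusionSystem (S : Subgroup (Matrix.ProjectiveSpecialLinearGroup (Fin 3) F))).IsSimple 2 := by
  classical
  have := Cl.psl_fin_isSimpleGroup (F := F) (n := 3) (by norm_num) (by norm_num)
  obtain ⟨P⟩ : Nonempty (Sylow 2 (Matrix.SpecialLinearGroup (Fin 3) F)) := inferInstance
  obtain ⟨Q, ⟨e⟩⟩ := Cl.S2.sl_three_sylow hodd P
  obtain ⟨e'⟩ := nonempty_equiv_quotSylow P (Subgroup.center _) (by
    rw [Cl.card_center_sl]
    exact fun h => by simpa using h.trans (Nat.gcd_dvd_left _ _))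
  have key : IsQuasiDihedral (quotSylow P (Subgroup.center _)).toSubgroup ∨
      IsWreathed (quotSylow P (Subgroup.center _)).toSubgroup := by
    rcases (by omega : Fintype.card F % 4 = 3 ∨ Fintype.card F % 4 = 1) with h | h
    exacts [Or.inl (isQuasiDihedral_of_equiv (e.trans e') (Cl.S2.gl_qd h Q)),
      Or.inr (isWreathed_of_equiv (e.trans e') (Cl.S2.gl_wreathed h Q))]
  refine (good_of_qd_or_wreathed _ key (pResidual_eq_top_of_simple fun h => ?_)).isSimple_of S
  have h1 := Nat.le_of_dvd Nat.card_pos (Subgroup.card_subgroup_dvd_card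
    (quotSylow P (Subgroup.center _)).toSubgroup)
  rw [h] at h1
  rcases key with ⟨n, hn, e, -⟩ | ⟨n, hn, e, -⟩ <;> rw [e] at h1
  · have := Nat.pow_le_pow_right two_pos (show 2 ≤ n + 1 by omega); omega
  · have := Nat.pow_le_pow_right two_pos (show 2 ≤ 2 * n + 1 by omega); omega

end Cfsg.Agent.S5318
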