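import Mathlib
import Cfsg.Statements.S5319
import Cfsg.Agent.Cl.SylTwoGL2
import Cfsg.Agent.Cl.USimple
import Cfsg.Agent.Fus.SimpleQuot
-- import your own Cfsg.Agent.* helpers here

set_option autoImplicit false
open Cfsg

namespace Cfsg.Agent.S5319

open Cfsg.Agent.Inv Cfsg.Agent.Inv.Fz Cfsg.Agent.Fus.SC

/-- Let q be an odd prime power and F a field with q² elements. Then the 2-fusion system of PSU(3,q) (realised as the special unitary group of the standard Hermitian form over F modulo its centre) on a Sylow 2-subgroup is simple. -/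
theorem result {F : Type*} [Field F] [Fintype F] (q : ℕ) (hq : Fintype.card F = q ^ 2) (hodd : q % 2 = 1) (S : Sylow 2 (Cfsg.PSU 3 F q)) :
    (Cfsg.groupFusionSystem (S : Subgroup (Cfsg.PSU 3 F q))).IsSimple 2 := by
  classical
  have hU := Cl.uField_uConj hq
  have := hU.isSimpleGroup_PSU (n := 3) le_rfl (by omega)
  obtain ⟨P⟩ : Nonempty (Sylow 2 (SU 3 F q)) := inferInstance
  obtain ⟨Q, ⟨e⟩⟩ := Cl.S2.su_three_sylow hU hodd P
  obtain ⟨e'⟩ := nonempty_equiv_quotSylow P (Subgroup.center _) (by
    rw [hU.card_center_SU (by norm_num)]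
    exact fun h => by simpa using h.trans (Nat.gcd_dvd_left _ _))
  have key : IsQuasiDihedral (quotSylow P (Subgroup.center _)).toSubgroup ∨
      IsWreathed (quotSylow P (Subgroup.center _)).toSubgroup := by
    rcases (by omega : q % 4 = 1 ∨ q % 4 = 3) with h | h
    exacts [Or.inl (isQuasiDihedral_of_equiv (e.trans e') (Cl.S2.gu_qd hU h Q)),
      Or.inr (isWreathed_of_equiv (e.trans e') (Cl.S2.gu_wreathed hU h Q))]
  refine (good_of_qd_or_wreathed _ key (pResidual_eq_top_of_simple fun h => ?_)).isSimple_of S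
  have h1 := Nat.le_of_dvd Nat.card_pos (Subgroup.card_subgroup_dvd_card
    (quotSylow P (Subgroup.center _)).toSubgroup)
  rw [h] at h1
  rcases key with ⟨n, hn, e, -⟩ | ⟨n, hn, e, -⟩ <;> rw [e] at h1
  · have := Nat.pow_le_pow_right two_pos (show 2 ≤ n + 1 by omega); omega
  · have := Nat.pow_le_pow_right two_pos (show 2 ≤ 2 * n + 1 by omega); omega

end Cfsg.Agent.S5319
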