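import Mathlib
import Cfsg.Statements.S5320
import Cfsg.Agent.Fus.SpFour
import Cfsg.Agent.S0261
import Cfsg.Agent.Cl.SpOrder
-- import your own Cfsg.Agent.* helpers here

set_option autoImplicit false
open Cfsg

namespace Cfsg.Agent.S5320

/-- For a finite field F of odd order, the 2-fusion system of the projective symplectic group PSp(4,F) on a Sylow 2-subgroup is simple. -/
theorem result {F : Type*} [Field F] [Fintype F] (hodd : Fintype.card F % 2 = 1) (S : Sylow 2 (Cfsg.PSp 2 F)) :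
    (Cfsg.groupFusionSystem (S : Subgroup (Cfsg.PSp 2 F))).IsSimple 2 := by
  classical
  have ho : Odd (Fintype.card F) := Nat.odd_iff.2 hodd
  obtain ⟨P⟩ : Nonempty (Sylow 2 (Matrix.SpecialLinearGroup (Fin 2) F)) := inferInstance
  obtain ⟨k, hk, ⟨e⟩⟩ := S0261.result ho P
  obtain ⟨r, hr⟩ := ho
  refine ((Fus.SP4.dat ⟨r, hr⟩).good (f := QuotientGroup.mk' (Subgroup.center _))
    (fun g => by rw [QuotientGroup.mk'_apply, QuotientGroup.eq_one_iff, Fus.SP4.mem_center_iff])
    hk (QuotientGroup.mk'_surjective _) e P.not_dvd_index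
    (m := (2 * r + 1) ^ 2 * (2 * (r * r + r) + 1)) (fun h => ?_) ?_).isSimple_of S
  · rcases Nat.prime_two.dvd_mul.1 h with h | h
    · have := Nat.prime_two.dvd_of_dvd_pow h; omega
    · omega
  · rw [Cl.sp_card_std, Cl.card_sl_two, Nat.card_eq_fintype_card, hr, Finset.prod_range_succ,
      Finset.prod_range_one]
    have h1 : (2 * r + 1) ^ (2 * (0 + 1)) - 1 = 4 * (r * r + r) :=
      Nat.sub_eq_of_eq_add (by ring)
    have h2 : (2 * r + 1) ^ (2 * (1 + 1)) - 1 = 4 * (r * r + r) * (2 * (2 * (r * r + r) + 1)) :=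
      Nat.sub_eq_of_eq_add (by ring)
    rw [h1, h2]
    ring

end Cfsg.Agent.S5320
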