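import Mathlib
import Cfsg.Statements.S5321
import Cfsg.Agent.Fus.HJType
import Cfsg.Agent.Spor.J2.Main
-- import your own Cfsg.Agent.* helpers here

set_option autoImplicit false
open Cfsg

namespace Cfsg.Agent.S5321

open Cfsg.Agent.Spor Cfsg.Agent.Spor.MJ2 Cfsg.Agent.Spor.NM Cfsg.Agent.Spor.NM.F4x6 in
theorem oddAut : Inv.Fz.OddAut QB := by
  have h5 : par_C.el 0 ^ 3 = 1 := Subtype.ext (Model.ordOK_sound (p := 3) (par_C 0).1 (by decide +kernel)).2
  refine ⟨par_C.el 0, cs_B.norm ?_, Odd.of_dvd_nat (n := 3) (by decide) (orderOf_dvd_of_pow_eq_one h5), fun h => ?_⟩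
  · rw [centralizer_tB]
    exact mem_genLt (M.g gC) (by norm_num)
  · obtain ⟨i, hi, h6⟩ : ∃ i < 4, Nat.beq (mul (gC 0) (qc i)) (mul (qc i) (gC 0)) = false := by decide +kernel
    exact Model.not_comm (par_C 0).1 (par_q i).1 h6 (Subgroup.mem_centralizer_singleton_iff.2
      (congrArg Subtype.val (h (par_q.el i) (mem_genLt (M.g qc) hi))).symm)

open Cfsg.Agent.Spor Cfsg.Agent.Spor.MJ2 Cfsg.Agent.Spor.NM Cfsg.Agent.Spor.NM.F4x6 in
theorem exists_fused : ∃ x ∈ QB, x ≠ tB ∧ IsConj tB x := by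
  have h1 : ∀ i < 315, ∃ g ∈ B, g * M.elt (sc 0) * g⁻¹ = τ i :=
    tree_ind ⟨1, one_mem _, by simp [τ, sc]⟩ fun x hx i hi ⟨g, hg, h⟩ =>
      ⟨M.g sc x * g, mul_mem (mem_genLt _ hx) hg, by
        rw [← (show M.g sc x * τ i * (M.g sc x)⁻¹ = _ from (tabs_τ x hx i hi).2), ← h]; group⟩
  obtain ⟨j, -, h2, h3, h4⟩ : ∃ j < 32, trk (tabEl Q_t j) < 315 ∧ tc (trk (tabEl Q_t j)) = tabEl Q_t j ∧
      trk (tabEl Q_t j) ≠ sI 0 := by decide +kernel
  obtain ⟨g, hg, h5⟩ := h1 _ h2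
  refine ⟨⟨_, τ_mem _ h2⟩, ?_, fun h => h4 (τ_injOn h2 (sI_lt' 0 (by norm_num)) (congrArg Subtype.val h)),
    isConj_iff.2 ⟨⟨g, hg⟩, Subtype.ext h5⟩⟩
  show M.elt (tc _) ∈ M.gen qc 4
  rw [h3]
  exact ((Model.lev_bot (par_q.lets 4) Q_ok).par j).2

/-- For a finite group G isomorphic to the Hall–Janko group J₂ (as constructed in the problem's definitions), the 2-fusion system of G on a Sylow 2-subgroup is simple: saturated, over a nontrivial 2-group, with no normal subsystem other than the trivial one and itself. -/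
theorem result {G : Type*} [Group G] [Finite G] (hG : Cfsg.Spor.IsoJ2 G) (S : Sylow 2 G) : (Cfsg.groupFusionSystem (S : Subgroup G)).IsSimple 2 := by
  obtain ⟨e⟩ := hG
  have : Finite Spor.MJ2.B := Finite.of_equiv _ Spor.MJ2.eJ.toEquiv
  have h := Spor.MJ2.cs_B
  obtain ⟨R, hR, h6, -, -, -, -, ⟨e'⟩⟩ := h.struct
  obtain ⟨x, hx, hxt, hx2⟩ := exists_fused
  obtain ⟨T, hT⟩ := Fus.HJ.good' h.es h.card h.norm h6 e' (by
    have := (Subgroup.centralizer {Spor.MJ2.tB}).card_mul_index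
    rw [h.cardC, Spor.MJ2.card_B] at this
    omega) oddAut hx hxt hx2
  exact hT.isSimple_sylow (e.trans Spor.MJ2.eJ) S

end Cfsg.Agent.S5321
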