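import Mathlib
import Cfsg.Statements.S5328
import Cfsg.Agent.Fus.RealizeGraph

set_option autoImplicit false
open Cfsg

universe u

namespace Cfsg.Agent.S5328

open Cfsg.Agent.Fus Cfsg.Agent.Fus.RG Cfsg.FusionSystem

theorem sum_eq_zero_of_pgroup {A E : Type*} [Group A] [Fintype E] [MulAction A E] {p : ℕ}
    [Fact p.Prime] (hA : IsPGroup p A) (w : E → ZMod p) (hw : ∀ (a : A) (e : E), w (a • e) = w e)
    (h0 : ∀ e : E, (∀ a : A, a • e = e) → w e = 0) : ∑ e, w e = 0 := by
  classical
  rw [← Finset.sum_fiberwise Finset.univ w w]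
  refine Finset.sum_eq_zero fun c _ => ?_
  rw [Finset.sum_congr rfl (g := fun _ => c) (fun e he => (Finset.mem_filter.1 he).2),
    Finset.sum_const]
  by_cases hc : c = 0
  · simp [hc]
  let T : SubMulAction A E := ⟨{e | w e = c}, fun a e he => (hw a e).trans he⟩
  have hdvd : p ∣ Nat.card T := by
    by_contra hn
    obtain ⟨⟨e, he⟩, hfix⟩ := hA.nonempty_fixed_point_of_prime_not_dvd_card T hn
    exact hc (he.symm.trans (h0 e fun a => congrArg Subtype.val (hfix a)))
  have : Nat.card T = (Finset.univ.filter fun e => w e = c).card := by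
    rw [← Fintype.card_subtype, ← Nat.card_eq_fintype_card]; rfl
  rw [← this, nsmul_eq_mul, (ZMod.natCast_eq_zero_iff _ _).2 hdvd, zero_mul]

variable {Ω : Type u} [Group Ω] {S : Subgroup Ω} [Finite S]

/-- The ambient semidirect product. -/
abbrev Big (p : ℕ) (F : FusionSystem S) : Type u :=
  (Edge F → Multiplicative (ZMod p)) ⋊[mulAutArrow] Equiv.Perm S

noncomputable local instance instFintypeEdge (F : FusionSystem S) : Fintype (Edge F) :=
  Fintype.ofFinite _

/-- The pairing of a chain with the coboundary of a function on vertices. -/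
noncomputable def pair {p : ℕ} {F : FusionSystem S} (c : Edge F → Multiplicative (ZMod p))
    (χ : Vert S → ZMod p) : ZMod p :=
  ∑ e, (c e).toAdd * (χ (tgt e) - χ (src e))

theorem pair_mul {p : ℕ} {F : FusionSystem S} (c d : Edge F → Multiplicative (ZMod p))
    (χ : Vert S → ZMod p) : pair (c * d) χ = pair c χ + pair d χ := by
  simp [pair, add_mul, Finset.sum_add_distrib]

theorem pair_inv {p : ℕ} {F : FusionSystem S} (c : Edge F → Multiplicative (ZMod p))
    (χ : Vert S → ZMod p) : pair c⁻¹ χ = - pair c χ := by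
  simp [pair]

theorem pair_act {p : ℕ} {F : FusionSystem S} (h : Equiv.Perm S)
    (c : Edge F → Multiplicative (ZMod p)) (χ : Vert S → ZMod p) :
    pair (mulAutArrow h c) χ = pair c (fun v => χ (h • v)) := by
  unfold pair
  refine (Fintype.sum_equiv (MulAction.toPerm h) _ _ fun e => ?_).symm
  have : mulAutArrow h c (MulAction.toPerm h e) = c e := by
    show c (h⁻¹ • h • e) = c e
    rw [inv_smul_smul]
  rw [this]
  simp [src_smul, tgt_smul]

/-- The finite group realizing `F`. -/
noncomputable def grp (p : ℕ) (F : FusionSystem S) : Subgroup (Big p F) where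
  carrier := {g | ∀ χ : Vert S → ZMod p, pair g.left χ = χ (g.right • base S) - χ (base S)}
  one_mem' := fun χ => by simp [pair]
  mul_mem' := fun {a b} ha hb χ => by
    rw [SemidirectProduct.mul_left, pair_mul, pair_act, ha, hb, SemidirectProduct.mul_right,
      mul_smul]
    ring
  inv_mem' := fun {a} ha χ => by
    rw [SemidirectProduct.inv_left, pair_act, pair_inv, ha, SemidirectProduct.inv_right]
    simp

theorem result {Ω : Type u} [Group Ω] {S : Subgroup Ω} [Finite S] (p : ℕ) [Fact p.Prime] (hS : IsPGroup p S) (F : Cfsg.FusionSystem S) : ∃ (G : Type u) (_ : Group G) (_ : Finite G) (ι : ↥S →* G), F.IsRealizedBy ι := by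
  classical
  have hfin : Finite (Big p F) := Finite.of_equiv _ SemidirectProduct.equivProd.symm
  have hmem : ∀ s : S, (SemidirectProduct.inr.comp (reg S) : S →* Big p F) s ∈ grp p F := by
    intro s χ
    have : reg S s • base S = base S := smul_base_eq_iff.2 ⟨s, rfl⟩
    simp only [MonoidHom.comp_apply, SemidirectProduct.left_inr, SemidirectProduct.right_inr, this]
    simp [pair]
  refine ⟨grp p F, inferInstance, inferInstance,
    (SemidirectProduct.inr.comp (reg S) : S →* Big p F).codRestrict _ hmem, ?_, ?_⟩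
  · intro a b h
    exact reg_injective S (SemidirectProduct.inr_injective (congrArg Subtype.val h))
  intro P hP φ hφ
  rw [mem_hom_iff]
  constructor
  · intro h
    obtain ⟨e, k, h1, h2, h3, h4⟩ := exists_edge h
    let c : Edge F → Multiplicative (ZMod p) := Pi.mulSingle e (Multiplicative.ofAdd 1)
    have hg : (⟨c, k⟩ : Big p F) ∈ grp p F := by
      intro χ
      show pair c χ = χ (k • base S) - χ (base S)
      rw [pair, Finset.sum_eq_single e]
      · simp [c, h1, h2]
      · intro b _ hb; simp [c, hb]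
      · simp
    refine ⟨⟨_, hg⟩⁻¹, fun x => ?_⟩
    rw [inv_inv, mul_assoc, eq_inv_mul_iff_mul_eq]
    apply Subtype.ext
    have h5 := h4 x x.2
    rw [tot_coe, j_apply (hP x.2), j_apply (hφ x)] at h5
    have h6 := h3 x x.2
    rw [j_apply (hP x.2)] at h6
    show (⟨c, k⟩ : Big p F) * SemidirectProduct.inr (reg S ⟨φ x, hφ x⟩) =
      SemidirectProduct.inr (reg S ⟨x, hP x.2⟩) * ⟨c, k⟩
    refine SemidirectProduct.ext ?_ ?_
    · simp only [SemidirectProduct.mul_left, SemidirectProduct.left_inr, map_one, mul_one, one_mul,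
        SemidirectProduct.right_inr]
      funext b
      show c b = c ((reg S ⟨x, hP x.2⟩)⁻¹ • b)
      by_cases hb : b = e
      · rw [hb, inv_smul_eq_iff.2 h6.symm]
      · have : (reg S ⟨x, hP x.2⟩)⁻¹ • b ≠ e := fun h => hb (by rw [← h6, ← h, smul_inv_smul])
        simp only [c]
        rw [Pi.mulSingle_eq_of_ne hb, Pi.mulSingle_eq_of_ne this]
    · simpa using h5.symm
  · rintro ⟨g, hg⟩
    obtain ⟨⟨⟨c, k⟩, hck⟩, rfl⟩ : ∃ g' : grp p F, g = g'⁻¹ := ⟨g⁻¹, (inv_inv g).symm⟩
    have h1 : ∀ u (hu : u ∈ P), (⟨c, k⟩ : Big p F) * SemidirectProduct.inr (j S (tot φ u)) =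
        SemidirectProduct.inr (j S u) * ⟨c, k⟩ := by
      intro u hu
      have := hg ⟨u, hu⟩
      rw [inv_inv, mul_assoc, eq_inv_mul_iff_mul_eq] at this
      rw [tot_apply _ hu, j_apply (hP hu), j_apply (hφ _)]
      exact congrArg Subtype.val this
    have h2 : ∀ u ∈ P, ∀ b, c (j S u • b) = c b := by
      intro u hu b
      have := congrFun (congrArg SemidirectProduct.left (h1 u hu)) (j S u • b)
      simp only [SemidirectProduct.mul_left, SemidirectProduct.left_inr, map_one, mul_one, one_mul,
        SemidirectProduct.right_inr] at this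
      rw [this]
      show c ((j S u)⁻¹ • j S u • b) = c b
      rw [inv_smul_smul]
    have h3 : ∀ u ∈ P, j S u * k = k * j S (tot φ u) := fun u hu => by
      simpa using (congrArg SemidirectProduct.right (h1 u hu)).symm
    refine mor_of_goodV ?_ (fun u hu => by rw [tot_apply _ hu]; exact hφ _) h3
    let χ : Vert S → ZMod p := fun v => if GoodV F P v then 1 else 0
    have hm : MulOn P (j S) := (j_mulOn S).mono hP
    have hχ : ∀ u ∈ P, ∀ v, χ (j S u • v) = χ v := by
      intro u hu v
      have : GoodV F P (j S u • v) ↔ GoodV F P v := by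
        refine ⟨fun h => ?_, fun h => by rwa [h.fixed hu]⟩
        have h' := h.fixed (P.inv_mem hu)
        rw [hm.map_inv hu, inv_smul_smul] at h'
        rwa [h']
      simp only [χ, this]
    have hA : IsPGroup p hm.hom.range :=
      (hS.of_injective _ (Subgroup.inclusion_injective hP)).of_surjective _
        hm.hom.rangeRestrict_surjective
    have h0 : pair c χ = 0 := by
      refine sum_eq_zero_of_pgroup hA _ ?_ ?_
      · rintro ⟨_, ⟨u, hu⟩, rfl⟩ e
        show (c (j S u • e)).toAdd * (χ (tgt (j S u • e)) - χ (src (j S u • e))) = _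
        rw [h2 u hu, tgt_smul, src_smul, hχ u hu, hχ u hu]
      · intro e he
        have := goodV_src_iff_tgt (P := P) e fun u hu => he ⟨_, ⟨u, hu⟩, rfl⟩
        simp [χ, this]
    have h4 := hck χ
    simp only [h0, χ, goodV_base hP, if_true] at h4
    by_contra hn
    simp [hn] at h4

end Cfsg.Agent.S5328
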