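import Mathlib
import Cfsg.Statements.S5330
import Cfsg.Agent.Fus.EssMisc

set_option autoImplicit false
set_option linter.unusedVariables false
open Cfsg

namespace Cfsg.Agent.S5330

open Cfsg.FusionSystem Cfsg.Agent.Fus Subgroup

/-- Let F be a saturated fusion system over a finite abelian p-group S. Then S is the internal direct product of the centre of the system and the focal subgroup: Z(F) ∩ foc(F) = 1 and Z(F)·foc(F) = S. -/
theorem result {Ω : Type*} [Group Ω] {S : Subgroup Ω} [Finite S] (p : ℕ) [Fact p.Prime] (hS : IsPGroup p S) (F : Cfsg.FusionSystem S) (hF : F.IsSaturated p) (hab : ∀ x ∈ S, ∀ y ∈ S, x * y = y * x) : F.center ⊓ F.focalSubgroup = ⊥ ∧ F.center ⊔ F.focalSubgroup = S := by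
  have hne : ∀ R, ¬ F.IsEssential p R := fun R hR =>
    (hF.lt_of_isEssential hS hR).not_ge fun s hs => hR.isCentric.mem hs fun x hx =>
      hab x (hR.le hx) s hs
  have hext : ∀ {P f}, F.Mor P f → ∃ α ∈ F.autGroup S, ∀ x ∈ P, totA α x = f x := by
    intro P f hf
    obtain ⟨g, hg, e⟩ := hF.extend_top_of_not_le_essential hS (fun _ R _ hR _ => hne R hR) hf
    exact ⟨_, hg.aut_mem, fun x hx => by rw [hg.totA_aut (hf.le hx), e x hx]⟩
  have hcop := (hF.fullyAutomized_top hS).coprime_of_le_centralizer hS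
    fun s hs x hx => hab x hx s hs.1
  have h1 : F.focalSubgroup = commA (F.autGroup S) S := by
    refine le_antisymm (focal_le_iff.2 fun P f hf x hx => ?_) ((commA_le_iff le_rfl).2
      fun α hα x hx => (mor_totA le_rfl hα).mem_focal hx)
    obtain ⟨α, hα, e⟩ := hext hf
    rw [← e x hx]
    exact mem_commA hα (hf.le hx) (hf.le hx)
  have h2 : F.center = S ⊓ fixA (F.autGroup S) := by
    ext z
    rw [hF.mem_center_iff hS]
    refine ⟨fun h => ⟨h.1, h.1, fun α hα => h.2 _ _ (mor_totA le_rfl hα) h.1⟩,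
      fun h => ⟨h.1, fun P f hf hz => ?_⟩⟩
    obtain ⟨α, hα, e⟩ := hext hf
    rw [← e z hz, h.2.2 α hα]
  rw [h1, h2]
  refine ⟨?_, by rw [sup_comm]; exact (invA_top _).commA_sup_fixA hS hcop⟩
  rw [eq_bot_iff, ← (invA_top _).commA_inf_fixA_eq_bot hS hcop
    (GT.PG.isMulCommutative_iff_forall.2 hab)]
  exact fun x hx => ⟨hx.2, hx.1.2⟩

end Cfsg.Agent.S5330
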