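import Mathlib
import Cfsg.Statements.S5331
import Cfsg.Agent.Fus.AbInv

set_option autoImplicit false
set_option linter.unusedVariables false
open Cfsg

namespace Cfsg.Agent.S5331

open Cfsg.FusionSystem Cfsg.Agent.Fus Subgroup

/-- Let S be a finite abelian 2-group that is a direct product of cyclic groups of pairwise distinct orders 2^{a_1} < 2^{a_2} < ⋯ < 2^{a_n} (all a_i ≥ 1). Then every saturated fusion system over S is the inner one: its maps are exactly the conjugations by elements of S. -/
theorem result {Ω : Type*} [Group Ω] {S : Subgroup Ω} [Finite S] (n : ℕ) (a : Fin n → ℕ) (ha : StrictMono a) (ha1 : ∀ i, 1 ≤ a i) (e : ↥S ≃* Multiplicative ((i : Fin n) → ZMod (2 ^ a i))) (F : Cfsg.FusionSystem S) (hF : F.IsSaturated 2) (P : Subgroup Ω) : F.Hom P = (Cfsg.innerFusionSystem S).Hom P := by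
  have : Fact (Nat.Prime 2) := ⟨Nat.prime_two⟩
  have hS : IsPGroup 2 S := by
    refine IsPGroup.of_card (n := ∑ i, a i) ?_
    rw [Nat.card_congr e.toEquiv, Nat.card_congr Multiplicative.toAdd, Nat.card_pi,
      ← Finset.prod_pow_eq_pow_sum]
    simp
  have hab : ∀ x ∈ S, ∀ y ∈ S, x * y = y * x := fun x hx y hy =>
    congrArg Subtype.val (e.injective (a₁ := ⟨x, hx⟩ * ⟨y, hy⟩) (a₂ := ⟨y, hy⟩ * ⟨x, hx⟩)
      (by rw [map_mul, map_mul, mul_comm]))
  rw [eq_inner_of_no_essential hF hS (no_essential_of_comm hF hS hab)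
    (isPGroup_of_forall_coprime fun g _ hg => ?_)]
  simpa using (comm_of_coprime_of_distinct ha.injective e (coprime_card_zpowers hg)).2 g
    (mem_zpowers g)

end Cfsg.Agent.S5331
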