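import Mathlib
import Cfsg.Statements.S5342
import Cfsg.Agent.Fus.InvSub

set_option autoImplicit false
set_option linter.unusedVariables false
open Cfsg

namespace Cfsg.Agent.S5342

open Cfsg.FusionSystem Cfsg.Agent.Fus Subgroup
theorem aux {Ω : Type*} [Group Ω] {S T : Subgroup Ω} {p : ℕ} {F : Cfsg.FusionSystem S}
    {E : Cfsg.FusionSystem T} (hE : E.IsSubnormalIn F p) :
    Finite S → Fact p.Prime → IsPGroup p S → F.IsConstrained p → E.IsConstrained p := by
  induction hE with
  | refl F p => exact fun _ _ _ h => h
  | step hED hDF ih =>
    intro _ hp hS hF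
    have := finite_of_le hDF.inv.le
    exact ih this hp (hS.to_le hDF.inv.le) (hDF.weak.isConstrained hS hF)

/-- Let F be a constrained saturated fusion system over a finite p-group S. Then every subsystem of F that is subnormal in F (reached from F by a finite chain of successive normal subsystems) is constrained. -/
theorem result {Ω : Type*} [Group Ω] {S : Subgroup Ω} [Finite S] (p : ℕ) [Fact p.Prime] (hS : IsPGroup p S) (F : Cfsg.FusionSystem S) (hF : F.IsConstrained p) {T : Subgroup Ω} (E : Cfsg.FusionSystem T) (hE : E.IsSubnormalIn F p) : E.IsConstrained p := by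
  exact aux hE inferInstance inferInstance hS hF

end Cfsg.Agent.S5342
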