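import Cfsg.Statements.S5418
import Cfsg.Agent.Spor.MTHe3

set_option autoImplicit false
open Cfsg

namespace Cfsg.Agent.S5418

/-- Let G be a finite group of Monster type at the involution z with Q the extraspecial normal subgroup of order 2^25 of C = C_G(z) (so C/Q is identified with the first Conway group with Q modulo its centre the Leech lattice modulo 2, and z is not weakly closed in Q). Let s be a conjugate of z in Q other than z and let B be a Sylow 7-subgroup of the joint centralizer of z and s. Then the centralizer of B has index 6 in the normalizer of B; and some involution inverting B induces, by conjugation, a non-inner automorphism of the layer of the centralizer of B. -/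
theorem result {G : Type*} [Group G] [Finite G] (z : G) (Q : Subgroup (Subgroup.centralizer ({z} : Set G))) [Q.Normal] (hM : Cfsg.IsOfMonsterType z Q) (s : G) (hsQ : ∃ hsc : s ∈ Subgroup.centralizer ({z} : Set G), (⟨s, hsc⟩ : Subgroup.centralizer ({z} : Set G)) ∈ Q) (hs : IsConj z s) (hs1 : s ≠ z) (B : Subgroup G) (hB : B ≤ Subgroup.centralizer ({z, s} : Set G)) (hBp : Nat.card B = 7 ^ (Nat.card ↥(Subgroup.centralizer ({z, s} : Set G))).factorization 7) : (Subgroup.centralizer (B : Set G)).relIndex (Subgroup.normalizer (B : Set G)) = 6 ∧ ∃ t : G, orderOf t = 2 ∧ (∀ b ∈ B, t * b * t⁻¹ = b⁻¹) ∧ (∀ x ∈ (Cfsg.layer ↥(Subgroup.centralizer (B : Set G))).map (Subgroup.centralizer (B : Set G)).subtype, t * x * t⁻¹ ∈ (Cfsg.layer ↥(Subgroup.centralizer (B : Set G))).map (Subgroup.centralizer (B : Set G)).subtype) ∧ ¬ ∃ l ∈ (Cfsg.layer ↥(Subgroup.centralizer (B : Set G))).map (Subgroup.centralizer (B : Set G)).subtype, ∀ x ∈ (Cfsg.layer ↥(Subgroup.centralizer (B : Set G))).map (Subgroup.centralizer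 (B : Set G)).subtype, t * x * t⁻¹ = l * x * l⁻¹ := by
  obtain ⟨Q', R, π, r, h, hp⟩ := Spor.MT.exists_pair hM hsQ hs hs1
  rw [h.card_joint hp, Spor.MT.factorization_joint (k := 1) (by norm_num) (by norm_num) (by norm_num),
    pow_one] at hBp
  obtain ⟨π', r', b, S, rfl⟩ := h.exists_std7 hp hB hBp
  obtain ⟨t, h1, h2⟩ := S.exists_inv
  have h3 : ∀ a ∈ Subgroup.zpowers (b : G), t * a * t⁻¹ = a⁻¹ := by
    rintro _ ⟨n, rfl⟩
    simp only [← conj_zpow, h2, inv_zpow]
  have hz := Spor.MT.mem_CB.2 (Spor.MT.MData.z_comm_coe b).symm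
  refine ⟨S.relIndex_eq, t, Spor.orderOf_eq_two_iff'.2 ⟨fun e => S.not_inv (c := 1) (by simp) (by simp) (e ▸ h2), h1⟩,
    h3, fun x hx => ?_, ?_⟩
  · exact (Subgroup.mem_normalizer_iff.1 (GT.normalizer_le_normalizer_map_subtype _ _
      (GT.normalizer_le_normalizer_set_centralizer _ (Spor.MB.mem_normalizer_zpowers_iff.2
        (h2 ▸ inv_mem (Subgroup.mem_zpowers _))))) x).1 hx
  · rintro ⟨_, ⟨l, -, rfl⟩, hl⟩
    have h4 : ∀ x ∈ Spor.MT.CB (b : G), x * x = 1 → x * ((l : G)⁻¹ * t) = (l : G)⁻¹ * t * x := fun x hx h => by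
      rw [mul_assoc, mul_inv_eq_iff_eq_mul.1 (hl x (S.mem_layer hx h))]
      simp [mul_assoc]
    refine S.not_inv (h4 z hz S.h.zz) (h4 s (Spor.MT.mem_CB.2 S.hbs.symm) S.hp.esR.z_sq) ?_
    calc _ = (l : G)⁻¹ * (t * b * t⁻¹) * l := by group
      _ = _ := by rw [h2, ← mul_inv_rev, Spor.MT.mem_CB.1 l.2]; group

end Cfsg.Agent.S5418
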