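import Mathlib
import Cfsg.Agent.Spor.MB.Res
import Cfsg.Statements.S5521
-- import your own Cfsg.Agent.* helpers here

set_option autoImplicit false
open Cfsg

namespace Cfsg.Agent.S5521

open Cfsg.Agent.Spor Cfsg.Agent.Spor.MB MulAction



/-- The Mathieu group M₂₄ in its natural action on the 24 coordinate positions of the binary Golay code has minimal base size exactly 7: every set of at most 6 positions is fixed pointwise by some non-identity element of M₂₄, while some set of 7 positions is fixed pointwise only by the identity. -/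
theorem result :
    (∀ B : Finset Cfsg.GolayPt, B.card ≤ 6 → ∃ g ∈ Cfsg.M24, g ≠ 1 ∧ ∀ b ∈ B, g b = b) ∧
    (∃ B : Finset Cfsg.GolayPt, B.card = 7 ∧ ∀ g ∈ Cfsg.M24, (∀ b ∈ B, g b = b) → g = 1) := by
  constructor
  · intro B hB
    obtain ⟨E, hBE, hE⟩ := Finset.exists_superset_card_eq (n := 6) (s := B) hB
      (by rw [card_golayPt]; norm_num)
    have h : 1 < Nat.card (Golay.Fix E) := by
      by_cases h : ∃ o ∈ octads, E ⊆ o
      · obtain ⟨o, ho, h⟩ := h
        rw [Golay.mem_Fix_octad_of_six ho h hE, Golay.card_Fix_octad ho]; norm_num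
      · rw [card_Fix_six_out hE h]; norm_num
    obtain ⟨g, hg, hne⟩ := (Golay.Fix E).bot_or_exists_ne_one.resolve_left (by
      intro e; rw [e, Subgroup.card_bot] at h; omega)
    exact ⟨g, (Golay.mem_Fix.1 hg).1, hne, fun b hb => (Golay.mem_Fix.1 hg).2 b (hBE hb)⟩
  · refine ⟨(Finset.range 7).image Golay.base, Golay.card_image_base 7 (by norm_num),
      fun g hg h => ?_⟩
    have : g ∈ Golay.chain 7 := by
      rw [Golay.chain_eq_Fix]; exact Golay.mem_Fix.2 ⟨hg, h⟩
    rwa [Golay.chain_seven] at this

end Cfsg.Agent.S5521
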