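import Mathlib
import Cfsg.Agent.Spor.MB.N11
import Cfsg.Agent.Spor.MB.Scott
import Cfsg.Statements.S5529
-- import your own Cfsg.Agent.* helpers here

set_option autoImplicit false
open Cfsg

namespace Cfsg.Agent.S5529

open Cfsg.Agent.Spor Cfsg.Agent.Spor.MB MulAction

theorem arith (m : ℕ) (a7 : m ∣ 40320) (h7 : 7 ∣ m) (a10 : m % 23 = 1 ∨ m % 23 = 21)
    (a5 : m % 11 = 1 ∨ 5 ∣ m ∧ m % 11 = 5) : m = 40320 := by
  have a8 : allN (fun i => !(Nat.beq (40320 % (7 * i)) 0) || Nat.beq i 5760 ||
      !(memL [1, 21] ((7 * i) % 23)) || !(Nat.beq ((7 * i) % 11) 1 ||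
        (Nat.beq ((7 * i) % 11) 5 && Nat.beq ((7 * i) % 5) 0))) 5761 = true := by decide +kernel
  have a9 := Nat.le_of_dvd (by norm_num) a7
  obtain ⟨i, rfl⟩ := h7
  have := allN_iff.1 a8 i (by omega)
  rw [Nat.mod_eq_zero_of_dvd a7,
    memL_iff.2 (show 7 * i % 23 ∈ [1, 21] by rcases a10 with h | h <;> simp [h])] at this
  rcases a5 with h | ⟨h1, h⟩
  · rw [h] at this
    simp at this
    omega
  · rw [h, Nat.mod_eq_zero_of_dvd h1] at this
    simp at this
    omega

theorem arith2 {m : ℕ} (h : 7 ∣ 23 * (11 * m)) : 7 ∣ m := by omega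

theorem arith3 {m n a : ℕ} (h1 : n ≡ 1 [MOD 23]) (a3 : 23 * a ∣ 253)
    (h : 23 * (11 * m) = n * (23 * a)) : m % 23 = 1 ∨ m % 23 = 21 := by
  rw [Nat.ModEq] at h1
  rcases (Nat.dvd_prime (by norm_num : Nat.Prime 11)).1
    (Nat.dvd_of_mul_dvd_mul_left (by norm_num : 0 < 23) a3) with rfl | rfl <;> omega

theorem card_eq {K : Subgroup PG} (hK : K ≤ G23) (h23 : 23 ∣ Nat.card K) (h11 : 11 ∣ Nat.card K)
    (h3 : 7 ∣ Nat.card K) : Nat.card K = 10200960 := by
  obtain ⟨b, hb, h⟩ := exists_le_conjS (p := 23) (k := 1) (by norm_num) hK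
    (Subgroup.zpowers_le.2 x23_mem_G23) (by rw [Nat.card_zpowers, orderOf_x23, pow_one])
    (by rw [card_G23]; exact factorization_eq_of (by norm_num) (by norm_num) (by norm_num)) h23
  rw [← card_conjS b] at h11 h3 ⊢
  replace hK := conjS_le hb hK
  replace h := h (Subgroup.mem_zpowers _)
  generalize conjS b K = K at *
  obtain ⟨n, h1, h2⟩ := sylow_count (hK.trans inf_le_left) h (by norm_num)
    orderOf_x23 (not_dvd_of_le hK (by rw [card_G23]; norm_num))
  have a1 := (K ⊓ NZ x23).orderOf_dvd_natCard ⟨h, CZ_le_NZ _ (mem_CZ.2 ⟨x23_mem, rfl⟩)⟩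
  have a2 : Nat.card (NZ x23) = 253 := by
    rcases card_over_253 NZ_x23_le (CZ_le_NZ _ (mem_CZ.2 ⟨x23_mem, rfl⟩)) x11_mem_NZ with e | e
    · exact e
    · have := card_NZ_x23_le
      rw [e] at this
      omega
  have a3 := Subgroup.card_dvd_of_le (inf_le_right : K ⊓ NZ x23 ≤ _)
  rw [orderOf_x23] at a1
  obtain ⟨a, ha⟩ := a1
  rw [a2, ha] at a3
  have a4 := card_eq_orbF K (pt 0)
  rw [orbF_zero hK h] at a4
  obtain ⟨m, hm⟩ : 11 ∣ Nat.card ↥(K ⊓ stabilizer PG (pt 0)) := by omega
  obtain ⟨c, hc, h'⟩ := exists_le_conjS (p := 11) (k := 1) (by norm_num)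
    (inf_le_inf_right (stabilizer PG (pt 0)) hK)
    (Subgroup.zpowers_le.2 x11_mem_G22) (by rw [Nat.card_zpowers, orderOf_x11, pow_one])
    (by rw [card_G22]; exact factorization_eq_of (by norm_num) (by norm_num) (by norm_num))
    ⟨m, hm⟩
  have a5 := count_eleven (conjS_le hc (inf_le_inf_right _ hK)) (h' (Subgroup.mem_zpowers _))
    (m := m) (by rw [card_conjS, hm])
  have a6 := Subgroup.card_dvd_of_le hK
  rw [hm] at a4
  rw [ha] at h2
  rw [card_G23, a4] at a6
  have a7 : m ∣ 40320 := Nat.dvd_of_mul_dvd_mul_left (by norm_num : 0 < 253)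
    (by rwa [← mul_assoc] at a6)
  rw [a4] at h2 h3 ⊢
  rw [arith m a7 (arith2 h3) (arith3 h1 a3 h2) (a5.imp_right fun h => ⟨h.1, h.2.1⟩)]

/-- Test for the order of an element. -/
def isOrd (p c : ℕ) : Bool := !(Nat.beq c idc) && Nat.beq (pw c p) idc

theorem orderOf_of_isOrd {p : ℕ} (hp : p.Prime) {g : PG} (h : isOrd p (code g) = true) :
    orderOf g = p := by
  have : Fact p.Prime := ⟨hp⟩
  simp only [isOrd, Bool.and_eq_true, Bool.not_eq_true', ← Bool.not_eq_true, Nat.beq_eq] at h
  exact orderOf_of_code h.2 h.1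

/-- The check of a generating triple. -/
noncomputable def chk (p q r x y n c i j k : ℕ) : Bool :=
  (allL inM24 [x, y] && (Nat.blt 23 24 && allL (fun c => Nat.beq (ap c 23) 23) [x, y])) &&
    (isOrd p x && isOrd q y && MB.force (mul x y) (isOrd r)) &&
    (MB.force ((walk mul [x, y] idc n c).getD i idc) (isOrd 23) &&
      MB.force ((walk mul [x, y] idc n c).getD j idc) (isOrd 11) &&
      MB.force ((walk mul [x, y] idc n c).getD k idc) (isOrd 7))

theorem pos {p q r x y n c i j k : ℕ} (hp : p.Prime) (hq : q.Prime) (hr : r.Prime)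
    (h : chk p q r x y n c i j k = true) : ∃ x y z : Cfsg.Spor.M23, orderOf x = p ∧ orderOf y = q ∧
      orderOf z = r ∧ x * y * z = 1 ∧ Subgroup.closure {x, y} = ⊤ := by
  simp only [chk, Bool.and_eq_true (_ && _), Bool.and_eq_true (allL _ _), MB.force_eq,
    Bool.and_eq_true (isOrd _ _)] at h
  obtain ⟨⟨⟨h1, h2⟩, ⟨h3, h4⟩, h5⟩, ⟨h6, h7⟩, h8⟩ := h
  have hg := (gens_M24 h1).inf_pt h2
  have e : G23 = Spor.M23 := by rw [G23, pt_23]; rfl
  obtain ⟨a, ha, rfl⟩ := hg x (by simp)
  obtain ⟨b, hb, rfl⟩ := hg y (by simp)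
  have key : ∀ i p, p.Prime → isOrd p ((walk mul [code a, code b] idc n c).getD i idc) = true →
      p ∣ Nat.card (clo [code a, code b]) := by
    intro i p hp h
    obtain ⟨g, hg, e⟩ := (hg.clo.walk n c).getD i
    rw [← e] at h
    rw [← orderOf_of_isOrd hp h]
    exact Subgroup.orderOf_dvd_natCard _ hg
  have hc := card_eq hg.clo_le (key _ _ (by norm_num) h6) (key _ _ (by norm_num) h7)
    (key _ _ (by norm_num) h8)
  rw [← code_mul] at h5
  refine ⟨⟨a, e ▸ ha⟩, ⟨b, e ▸ hb⟩, (⟨a, e ▸ ha⟩ * ⟨b, e ▸ hb⟩)⁻¹, ?_, ?_, ?_, mul_inv_cancel _,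
    Subgroup.eq_top_of_card_eq _ ?_⟩
  · rw [← Subgroup.orderOf_coe]; exact orderOf_of_isOrd hp h3
  · rw [← Subgroup.orderOf_coe]; exact orderOf_of_isOrd hq h4
  · rw [orderOf_inv, ← Subgroup.orderOf_coe]; exact orderOf_of_isOrd hr h5
  · rw [← Subgroup.card_map_of_injective Spor.M23.subtype_injective, MonoidHom.map_closure,
      Golay.card_M23, ← hc, clo, Set.image_pair]
    have : {g | code g ∈ [code a, code b]} = {a, b} := by
      ext g
      simp [code_injective.eq_iff]
    rw [this]; rfl

/-- The generating triples. -/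
def tbl : List (List ℕ) := [
  [2, 5, 11, 984490757400711034068282643818023937, 957340174638393876608668202827057765, 22, 41189089215432152202748193, 8, 6, 0],
  [2, 5, 23, 970521205659913415554180894152565188, 984028104701761615776238856041740306, 30, 176905801305418164265796191798755361, 17, 8, 0],
  [2, 7, 7, 984103154123787175891656235170703412, 963297926928315320909938406240631286, 23, 618970019652297812340638241, 9, 1, 0],
  [2, 7, 11, 962735047992235013598016809166342759, 965136533985362041599820719300695169, 11, 2199576904225, 3, 1, 0],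
  [2, 7, 23, 983538669864954141301733546231736488, 976246059405558630480392065035778720, 17, 36893488294003802145, 7, 1, 0],
  [2, 11, 11, 971430625502754030934200606912513105, 970455569487906879063863484831369397, 33, 725852618976682946998282027172015251745, 10, 9, 0],
  [2, 11, 23, 983998055948595343896034864717693602, 975112460003800757818109919437696565, 14, 9606579674546209, 9, 8, 0],
  [2, 23, 23, 984151452234285073123213674107348209, 963592616912896295804750814691067138, 19, 10073228625896215290114, 13, 9, 0],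
  [3, 3, 11, 957539426140506073881894190035122535, 981841645715870296547151124232243249, 23, 640810967003862849850253601, 7, 5, 0],
  [3, 3, 23, 963714198769591962992144798359149107, 984429825751352505743701631626290208, 15, 153440146225692705, 8, 5, 0],
  [3, 5, 5, 977761224768338923348000879627384387, 979603037232287145689131497061202981, 34, 11253332481361695446391463032332440703521, 13, 6, 0],
  [3, 5, 7, 984113091562940008529015621062101038, 957561134499607817208123284090503751, 16, 2377900749565723169, 6, 2, 0],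
  [3, 5, 11, 974068194210588123950648585799977446, 967481164310140605679791501597692275, 15, 149200429907968545, 7, 5, 0],
  [3, 5, 23, 955507621272980320465261325853378241, 964959150507391144860809313847990309, 14, 9588840940503073, 7, 4, 0],
  [3, 7, 7, 958896789018420970180118081159025952, 984518359561897013075795064323051810, 29, 10384593758258449315299291847336225, 7, 1, 0],
  [3, 7, 11, 984818043548879561257522771177612303, 982889391387322794419065821434743141, 19, 9447110866342577840417, 3, 1, 0],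
  [3, 7, 23, 961249376458311818560176108641886443, 982746896132565128531913061885740177, 13, 562950526009377, 5, 1, 0],
  [3, 11, 11, 984168553409457933941139925024178578, 966072813913989010213964660274735791, 16, 2459249070544396817, 5, 4, 0],
  [3, 11, 23, 962737038680277090248366558846008404, 976907581710577030046801756988561956, 9, 8875278369, 4, 3, 0],
  [3, 23, 23, 975406731272719046854987936920839507, 982009662735166036429211277346590180, 17, 39280677424936915202, 10, 5, 0],
  [5, 5, 5, 983076481063003984056762734892752945, 979017040868097380388907845097198657, 24, 10252980156381916275641680401, 12, 6, 0],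
  [5, 5, 7, 977500691278440728413633377774850368, 961394031663799532122556989130913900, 22, 39894552196483192119763217, 7, 2, 0],
  [5, 5, 11, 984813810074544794076550103795205442, 971134499916147316402625423056910757, 13, 581642204742177, 5, 3, 0],
  [5, 5, 23, 984816574072239774569070491056015464, 970252222489136112131493023679860133, 22, 41183758097108452544413729, 11, 4, 0],
  [5, 7, 7, 970295945874995340914933411731900424, 976196469726519953979506271107632134, 17, 36893490419742016017, 6, 1, 0],
  [5, 7, 11, 971507972725234973473201625650105383, 977064009706208654451144724547250817, 15, 144151471959707921, 3, 1, 0],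
  [5, 7, 23, 981360876001019400897842215142131763, 963920891370324850298395596637490830, 19, 9444732968011882889249, 8, 1, 0],
  [5, 11, 11, 955449059363266071876694495860479376, 962744447441967244205559099030930534, 18, 628419064878397006369, 7, 6, 0],
  [5, 11, 23, 978000226305812056193195440052674754, 957184809674928838244546553841819845, 10, 146314231841, 5, 4, 0],
  [5, 23, 23, 970361761228591375232824145577989250, 979374415002137288738111481074816673, 13, 581641653326082, 7, 3, 0],
  [7, 7, 7, 961273735302953289985136264740030752, 973123879295272451474702348188699906, 23, 309485619788878599819432209, 5, 1, 0],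
  [7, 7, 11, 982245511698657312686032361817852010, 955557765279223000709020477774481486, 15, 72093877921780241, 3, 1, 0],
  [7, 7, 23, 975719954683895774366330670233560070, 958440771638314279043166878266694069, 17, 18446744215998234657, 7, 1, 0],
  [7, 11, 11, 982825185815053608337353950643164170, 984088743667408336939514268993689222, 15, 72620543993516305, 2, 1, 0],
  [7, 11, 23, 957389515171099628276643472911667894, 978891765671278707428560980939014443, 7, 16908321, 2, 1, 0],
  [7, 23, 23, 967782869665988517132052199164614214, 960706995116659913979161838473239091, 11, 1099513860354, 5, 1, 0],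
  [11, 11, 11, 963253480974806739575128309292708086, 959291283413855446773506357851136453, 20, 156171360588598687703329, 7, 6, 0],
  [11, 11, 23, 982954785731883167118503979926961258, 984210954427987799190007141857573523, 10, 146582601761, 5, 4, 0],
  [11, 23, 23, 983179871726326539952526341962400910, 963749969609007683073643976849608726, 9, 9145745666, 6, 5, 0],
  [23, 23, 23, 981671366218166310338029180115300969, 974271964363155794770036351155150025, 18, 610044376199737708801, 11, 6, 0]]

theorem chk_tbl : ∀ t ∈ tbl, chk (t.getD 0 0) (t.getD 1 0) (t.getD 2 0) (t.getD 3 0) (t.getD 4 0)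
    (t.getD 5 0) (t.getD 6 0) (t.getD 7 0) (t.getD 8 0) (t.getD 9 0) = true := by decide +kernel

theorem mem_primes {p : ℕ} (hp : p.Prime) (h : p ∣ 10200960) : p ∈ [2, 3, 5, 7, 11, 23] := by
  have : p ∈ Nat.primeFactorsList 10200960 := (Nat.mem_primeFactorsList (by norm_num)).2 ⟨hp, h⟩
  simp only [Nat.primeFactorsList_ofNat, List.mem_cons] at this ⊢
  tauto

/-- The index of the elements of given prime order. -/
def ind (p : ℕ) : ℕ := [0, 0, 8, 12, 0, 16, 0, 18, 0, 0, 0, 20].getD p 22

theorem rk_le (x : Spor.M23) {p : ℕ} (hp : p.Prime) (h : p ∈ [2, 3, 5, 7, 11, 23])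
    (ho : orderOf x = p) : Scott.rk (x : PG) ≤ ind p := by
  rw [← Subgroup.orderOf_coe] at ho
  have key : ∀ f, (∀ y ∈ Spor.M23, orderOf y = p → (fixSet y).card = f) →
      p * Scott.rk (x : PG) + 24 + (p - 1) * f ≤ p * 24 := fun f hf => by
    rw [← card_golayPt]
    refine Scott.rk_le ho fun y hy h1 => (hf y (Subgroup.zpowers_le.2 x.2 hy) ?_).ge
    exact ((Nat.dvd_prime hp).1 (ho ▸ orderOf_dvd_of_mem_zpowers hy)).resolve_left (by simpa)
  have h0 : ∀ y ∈ Spor.M23, (fixSet y).card ≠ 0 := fun y hy =>
    Finset.card_ne_zero_of_mem (mem_fixSet.2 hy.2)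
  simp only [List.mem_cons, List.not_mem_nil, or_false] at h
  rcases h with rfl | rfl | rfl | rfl | rfl | rfl
  · have := key 8 fun y hy h => (card_fixSet_two hy.1 h).resolve_right (h0 y hy)
    change _ ≤ 8; omega
  · have := key 6 fun y hy h => (card_fixSet_three hy.1 h).resolve_right (h0 y hy)
    change _ ≤ 12; omega
  · have := key 4 fun y hy h => card_fixSet_five hy.1 h
    change _ ≤ 16; omega
  · have := key 3 fun y hy h => card_fixSet_seven hy.1 h
    change _ ≤ 18; omega
  · have := key 2 fun y hy h => card_fixSet_eleven hy.1 h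
    change _ ≤ 20; omega
  · have := key 1 fun y hy h => card_fixSet_twentythree hy.1 h
    change _ ≤ 22; omega

/-- Generation of the Mathieu group M₂₃ (the stabiliser of a point in the Mathieu group M₂₄ acting on 24 points) by triples of prime orders. Let p ≤ q ≤ r be primes dividing |M₂₃| = 10200960 = 2⁷·3²·5·7·11·23, not both p and q equal to 2. Then M₂₃ contains elements x, y, z of orders p, q, r with xyz = 1 and ⟨x, y⟩ = M₂₃ if and only if (p, q, r) is none of: (2, 3, r) for any r, (2, 5, 5), (2, 5, 7), (3, 3, 3), (3, 3, 5), (3, 3, 7). -/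
theorem result (p q r : ℕ) (hp : p.Prime) (hq : q.Prime)
    (hr : r.Prime) (hpq : p ≤ q) (hqr : q ≤ r) (hp2 : ¬ (p = 2 ∧ q = 2))
    (hdvd : p ∣ 10200960 ∧ q ∣ 10200960 ∧ r ∣ 10200960) :
    (∃ x y z : Cfsg.Spor.M23, orderOf x = p ∧ orderOf y = q ∧ orderOf z = r ∧ x * y * z = 1 ∧
        Subgroup.closure {x, y} = ⊤) ↔
      ¬ ((p = 2 ∧ q = 3) ∨ (p = 2 ∧ q = 5 ∧ r = 5) ∨ (p = 2 ∧ q = 5 ∧ r = 7) ∨ (p = 3 ∧ q = 3 ∧ r ≤ 7)) := by
  have h1 := mem_primes hp hdvd.1
  have h2 := mem_primes hq hdvd.2.1
  have h3 := mem_primes hr hdvd.2.2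
  constructor
  · rintro ⟨x, y, z, hx, hy, hz, h, hc⟩
    have a1 := rk_le x hp h1 hx
    have a2 := rk_le y hq h2 hy
    have a3 := rk_le z hr h3 hz
    have a4 := Scott.ree (x := (x : PG)) (y := y) (z := z) (congrArg Subtype.val h)
      {pt 23, pt 0} fun u => by
        have e : Subgroup.closure {(x : PG), (y : PG)} = G23 := by
          have := congrArg (Subgroup.map Spor.M23.subtype) hc
          rw [MonoidHom.map_closure, Set.image_pair, ← MonoidHom.range_eq_map,
            Subgroup.range_subtype] at this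
          rw [G23, pt_23]; exact this
        rw [e]
        by_cases hu : u ∈ unmask 8388607
        · obtain ⟨g, hg, e⟩ := pt_trans (gens_x23 x23_mem_G23) (i := 0) (by norm_num) 23 _
            (by decide +kernel) u hu
          exact ⟨g, hg, _, by simp, e⟩
        · have : ∀ q ∉ unmask 8388607, pt 23 = q := by decide +kernel
          exact ⟨1, G23.one_mem, _, by simp, this u hu⟩
    rw [card_golayPt] at a4
    have a5 : ({pt 23, pt 0} : Finset GolayPt).card ≤ 2 := Finset.card_le_two
    have a6 : ∀ p ∈ [2, 3, 5, 7, 11, 23], ∀ q ∈ [2, 3, 5, 7, 11, 23], ∀ r ∈ [2, 3, 5, 7, 11, 23],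
        44 ≤ ind p + ind q + ind r → ¬ ((p = 2 ∧ q = 3) ∨ (p = 2 ∧ q = 5 ∧ r = 5) ∨
          (p = 2 ∧ q = 5 ∧ r = 7) ∨ (p = 3 ∧ q = 3 ∧ r ≤ 7)) := by decide +kernel
    exact a6 p h1 q h2 r h3 (by omega)
  · intro h
    have : ∀ p ∈ [2, 3, 5, 7, 11, 23], ∀ q ∈ [2, 3, 5, 7, 11, 23], ∀ r ∈ [2, 3, 5, 7, 11, 23],
        p ≤ q → q ≤ r → ¬ (p = 2 ∧ q = 2) → ¬ ((p = 2 ∧ q = 3) ∨ (p = 2 ∧ q = 5 ∧ r = 5) ∨
          (p = 2 ∧ q = 5 ∧ r = 7) ∨ (p = 3 ∧ q = 3 ∧ r ≤ 7)) →
          ∃ t ∈ tbl, t.getD 0 0 = p ∧ t.getD 1 0 = q ∧ t.getD 2 0 = r := by decide +kernel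
    obtain ⟨t, ht, rfl, rfl, rfl⟩ := this p h1 q h2 r h3 hpq hqr hp2 h
    exact pos hp hq hr (chk_tbl t ht)

end Cfsg.Agent.S5529
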