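import Mathlib
import Cfsg.Statements.S5560
import Cfsg.Agent.Spor.TTZStar

set_option autoImplicit false
open Cfsg

namespace Cfsg.Agent.S5560

open Cfsg.Agent.Spor.TT Cfsg.Agent.GT

/-- A Z*-type result for an odd prime p. Let G be a finite group and d an involution of G such that the product of any two conjugates of d has order a power of p. Then the product of any two conjugates of d lies in the largest normal p-subgroup O_p(G); in other words the conjugacy class of d lies in the coset O_p(G)d, and d is central modulo O_p(G). -/
theorem result {G : Type*} [Group G] [Finite G] {p : ℕ} (hp : p.Prime) (hp2 : p ≠ 2)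
    (d : G) (hd : orderOf d = 2)
    (hprod : ∀ a ∈ conjugatesOf d, ∀ b ∈ conjugatesOf d, ∃ k : ℕ, orderOf (a * b) = p ^ k) :
    ∀ a ∈ conjugatesOf d, ∀ b ∈ conjugatesOf d, a * b ∈ Cfsg.pCore p G := by
  exact mul_mem_pCore_of_pow hp hp2 d hd hprod

end Cfsg.Agent.S5560
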