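import Mathlib
import Cfsg.Statements.S5562
import Cfsg.Agent.Spor.TTMisc

set_option autoImplicit false
open Cfsg

namespace Cfsg.Agent.S5562

open Cfsg.Agent.Spor.TT Cfsg.Agent.GT

theorem mul_pow_comm {G : Type*} [Group G] {a b : G} (ha : a * a = 1) (hb : b * b = 1) (j : ℕ) :
    a * (a * b) ^ j = ((a * b) ^ j)⁻¹ * a := by
  have h : SemiconjBy a (a * b) (a * b)⁻¹ := by
    rw [SemiconjBy, mul_inv_rev, inv_eq_of_mul_eq_one_right ha, inv_eq_of_mul_eq_one_right hb,
      ← mul_assoc, ha, mul_assoc, ha, one_mul, mul_one]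
  rw [← inv_pow]
  exact h.pow_right j

theorem pow_odd_eq {G : Type*} [Group G] {u : G} (hu : u * u = 1) {n : ℕ} (hn : Odd n) :
    u ^ n = u := by
  obtain ⟨k, rfl⟩ := hn
  rw [pow_succ, pow_mul, pow_two, hu, one_pow, one_mul]

/-- Let G be a finite group, d an involution of G whose conjugates pairwise have products of odd order, and x any involution of G. Then the conjugacy class of d is the disjoint union, over the conjugates a of d commuting with x, of the sets of conjugates of d commuting with ax: every conjugate of d commutes with ax for exactly one conjugate a of d that commutes with x. -/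
theorem result {G : Type*} [Group G] [Finite G] (d : G) (hd : orderOf d = 2)
    (hodd : ∀ a ∈ conjugatesOf d, ∀ b ∈ conjugatesOf d, Odd (orderOf (a * b)))
    (x : G) (hx : orderOf x = 2) :
    ∀ e ∈ conjugatesOf d,
      ∃! a : G, a ∈ conjugatesOf d ∧ Commute a x ∧ Commute e (a * x) := by
  have hsq : ∀ a ∈ conjugatesOf d, a * a = 1 := by
    intro a ha
    obtain ⟨g, rfl⟩ := mem_conjugatesOf_iff.mp ha
    rw [← cj_mul, ← pow_two, ← hd, pow_orderOf_eq_one, cj_one_right]
  have hxx : x * x = 1 := by rw [← pow_two, ← hx, pow_orderOf_eq_one]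
  have hcj : ∀ g, ∀ a ∈ conjugatesOf d, cj g a ∈ conjugatesOf d := fun g a ha =>
    IsConj.trans ha (isConj_cj g a)
  intro e he
  have key : ∀ a ∈ conjugatesOf d, Commute a x → Commute e (a * x) →
      (e * x) ^ orderOf (e * a) = a * x ∧ (a * x) * (a * x) = 1 := by
    intro a ha h1 h2
    have hu : (a * x) * (a * x) = 1 := by
      rw [← pow_two, h1.mul_pow, pow_two, pow_two, hsq a ha, hxx, mul_one]
    have e1 : e * x = (e * a) * (a * x) := by rw [mul_assoc, ← mul_assoc a, hsq a ha, one_mul]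
    have hc : Commute (e * a) (a * x) := h2.mul_left ((Commute.refl a).mul_right h1)
    rw [e1, hc.mul_pow, pow_orderOf_eq_one, one_mul, pow_odd_eq hu (hodd e he a ha)]
    exact ⟨rfl, hu⟩
  obtain ⟨j, hj⟩ := hodd e he _ (hcj x e he)
  have h2 : (e * x) ^ (2 * j + 1) * (e * x) ^ (2 * j + 1) = 1 := by
    rw [← pow_add, ← two_mul, pow_mul, ← hj]
    convert pow_orderOf_eq_one (e * cj x e) using 2
    rw [cj, inv_eq_of_mul_eq_one_right hxx, pow_two]; simp only [mul_assoc]
  have hce : Commute e ((e * x) ^ (2 * j + 1)) := by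
    rw [Commute, SemiconjBy, mul_pow_comm (hsq e he) hxx, inv_eq_of_mul_eq_one_right h2]
  have hcx : Commute ((e * x) ^ (2 * j + 1)) x := by
    have : Commute ((e * x) ^ (2 * j + 1)) (e * (e * x)) :=
      hce.symm.mul_right ((Commute.refl (e * x)).pow_left _)
    rwa [← mul_assoc, hsq e he, one_mul] at this
  refine ⟨(e * x) ^ (2 * j + 1) * x, ⟨?_, hcx.mul_left (Commute.refl x), ?_⟩, ?_⟩
  · convert hcj ((e * x) ^ j) e he using 1
    rw [cj, eq_mul_inv_iff_mul_eq, pow_succ, mul_assoc _ _ x, mul_assoc e, hxx, mul_one, mul_assoc,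
      mul_pow_comm (hsq e he) hxx, two_mul, pow_add]
    group
  · rwa [mul_assoc, hxx, mul_one]
  · rintro a ⟨ha, h3, h4⟩
    obtain ⟨h5, h6⟩ := key a ha h3 h4
    have : a * x = (e * x) ^ (2 * j + 1) := by
      rw [← pow_odd_eq h6 (⟨j, rfl⟩ : Odd (2 * j + 1)), ← h5, ← pow_mul, mul_comm, pow_mul,
        pow_odd_eq h2 (hodd e he a ha)]
    rw [← this, mul_assoc, hxx, mul_one]

end Cfsg.Agent.S5562
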