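import Mathlib
import Cfsg.Statements.S5574
import Cfsg.Agent.J4T.Pen
import Cfsg.Agent.J4T.Odd

set_option autoImplicit false
open Cfsg

namespace Cfsg.Agent.S5574

/-- Let G be a finite non-abelian simple group of Janko-four type (an involution z whose centralizer H has an extraspecial largest normal 2-subgroup E of order 2^13 containing its centralizer in H, a normal subgroup N ≥ E of H with N/E of order 3 and H/N the automorphism group of M₂₂, and a subgroup P ≤ N of order 3 with C_E(P) = ⟨z⟩, N_H(P) ≠ C_H(P) and P ≤ C_H(P)′). Then G has a special 2-subgroup L of order 2^15 with centre of order 8 whose normalizer M satisfies: M/L is isomorphic to the direct product of the symmetric group of degree 5 and L₃(2); L has no complement in M; M nevertheless contains subgroups isomorphic to the symmetric group of degree 5 and to L₃(2); and M contains the normalizer of some Sylow 5-subgroup and of some Sylow 7-subgroup of G. -/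
theorem result {G : Type*} [Group G] [Finite G] [IsSimpleGroup G] (hG : ¬ IsMulCommutative G) (hJ : Cfsg.IsOfJankoFourType G) :
    ∃ L : Subgroup G, Cfsg.IsSpecial 2 ↥L ∧ Nat.card ↥L = 2 ^ 15 ∧ Nat.card ↥(Subgroup.center ↥L) = 8 ∧
    Nonempty (↥(Subgroup.normalizer (L : Set G)) ⧸ L.subgroupOf (Subgroup.normalizer (L : Set G)) ≃* Equiv.Perm (Fin 5) × Matrix.SpecialLinearGroup (Fin 3) (ZMod 2)) ∧
    (∀ K : Subgroup ↥(Subgroup.normalizer (L : Set G)), ¬ (L.subgroupOf (Subgroup.normalizer (L : Set G))).IsComplement' K) ∧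
    (∃ K₁ : Subgroup G, K₁ ≤ Subgroup.normalizer (L : Set G) ∧ Nonempty (↥K₁ ≃* Equiv.Perm (Fin 5))) ∧
    (∃ K₂ : Subgroup G, K₂ ≤ Subgroup.normalizer (L : Set G) ∧ Nonempty (↥K₂ ≃* Matrix.SpecialLinearGroup (Fin 3) (ZMod 2))) ∧
    (∃ Q : Sylow 5 G, Subgroup.normalizer ((Q : Subgroup G) : Set G) ≤ Subgroup.normalizer (L : Set G)) ∧
    (∃ S : Sylow 7 G, Subgroup.normalizer ((S : Subgroup G) : Set G) ≤ Subgroup.normalizer (L : Set G)) := by
  obtain ⟨z, π, g, l, ψ, s⟩ := J4T.exists_stJ_of_type hJ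
  obtain ⟨φ, h1, h2, h3, h4, h5, h6⟩ := s.exists_hom
  obtain ⟨o7, k7, r, hr, er⟩ := s.seven
  have m := s.t.m
  obtain ⟨e⟩ := J4T.Pen.equiv_SL3 m.elem_Z m.card_Z (s.K_le.trans m.norm_le) m.K_inf m.card_K
  have h7 := fun a => J4T.Pen.eq_one_of_mem (a := a) (IsPGroup.of_card m.card_LG) h2 h1
  have h8 : Function.Injective φ := (injective_iff_map_eq_one φ).2 fun a ha => h7 a (ha ▸ one_mem _)
  have o5 : orderOf (φ J4T.Pen.c5) = 5 := (orderOf_injective φ h8 _).trans J4T.Pen.orderOf_c5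
  have : Fact (Nat.Prime 5) := ⟨by norm_num⟩
  have : Fact (Nat.Prime 7) := ⟨by norm_num⟩
  refine ⟨J4T.LG z g l ψ, m.special_LG, m.card_LG, by rw [GT.PG.card_center_subgroup, m.cen_LG, m.card_Z]; rfl,
    J4T.Pen.equiv_quot e m.card_K m.card_LG h2 s.K_le m.L_le_cent h3 m.K_inf h5 h7 m.card_norm_LG,
    m.no_compl s.K_le, ⟨φ.range, ?_, ⟨(MonoidHom.ofInjective h8).symm⟩⟩, ⟨_, s.K_le, ⟨e⟩⟩,
    ⟨Sylow.ofCard (Subgroup.zpowers (φ J4T.Pen.c5)) ?_, ?_⟩,
    ⟨Sylow.ofCard (Subgroup.zpowers (Spor.J4C.valN ψ J4T.Pen.cS)) ?_, ?_⟩⟩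
  · rintro _ ⟨a, rfl⟩
    exact h2 a
  · rw [Nat.card_zpowers, o5, s.card, Spor.MB.factorization_eq_of (k := 1) (by norm_num) (by norm_num) (by norm_num)]
    rfl
  · exact J4T.Pen.norm_five h8 m.card_Z h2 m.norm_le (m.Z_le_L.trans Subgroup.le_normalizer)
      (m.Z_le_L.trans m.L_le_cent) h3 m.K_inf m.card_K h6 (s.card_cent5 o5)
  · rw [Nat.card_zpowers, o7, s.card, Spor.MB.factorization_eq_of (k := 1) (by norm_num) (by norm_num) (by norm_num)]
    rfl
  · exact J4T.Pen.norm_seven h8 h2 h4 (s.K_le k7) (s.K_le hr) o7 er (s.card_cent7 o7) (s.card_norm7 o7)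

end Cfsg.Agent.S5574
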