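import Cfsg.Statements.S5575
import Cfsg.Agent.J4T.Elev

set_option autoImplicit false
open Cfsg

namespace Cfsg.Agent.S5575

/-- Let G be a finite non-abelian simple group of Janko-four type (an involution z whose centralizer H has an extraspecial largest normal 2-subgroup E of order 2^13 containing its centralizer in H, a normal subgroup N ≥ E of H with N/E of order 3 and H/N the automorphism group of M₂₂, and a subgroup P ≤ N of order 3 with C_E(P) = ⟨z⟩, N_H(P) ≠ C_H(P) and P ≤ C_H(P)′). Then a Sylow 11-subgroup of G is extraspecial of order 11^3 and exponent 11, and its normalizer has order 2^4·3·5·11^3 and contains a subgroup isomorphic to GL₂(3). -/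
theorem result {G : Type*} [Group G] [Finite G] [IsSimpleGroup G] (hG : ¬ IsMulCommutative G) (hJ : Cfsg.IsOfJankoFourType G) (U : Sylow 11 G) :
    Cfsg.IsExtraspecial 11 ↥(U : Subgroup G) ∧ Nat.card ↥(U : Subgroup G) = 11 ^ 3 ∧ Monoid.exponent ↥(U : Subgroup G) = 11 ∧
    Nat.card ↥(Subgroup.normalizer ((U : Subgroup G) : Set G)) = 2 ^ 4 * 3 * 5 * 11 ^ 3 ∧
    ∃ K : Subgroup G, K ≤ Subgroup.normalizer ((U : Subgroup G) : Set G) ∧ Nonempty (↥K ≃* GL (Fin 2) (ZMod 3)) := by
  obtain ⟨z, π, g, l, ψ, s⟩ := J4T.exists_stJ_of_type hJ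
  obtain ⟨a, b, c, u, h, w, n, e, h1, h2⟩ := s.exists_e11_syl U
  have h3 := s.not_dvd_eleven
  obtain ⟨f, hf⟩ := e.exists_gl
  rw [← h2]
  have : Fact (Nat.Prime 11) := ⟨by norm_num⟩
  have : Nontrivial (Rec.clos [b, c]) := Finite.one_lt_card_iff_nontrivial.1 (by rw [e.card_U h3]; norm_num)
  refine ⟨e.extra h3, e.card_U h3, Monoid.exponent_eq_prime_iff (by norm_num) |>.2 fun x hx =>
    orderOf_eq_prime (Subtype.ext (e.pow_eleven h3 x.2)) hx, (e.main h3 h1).1,
    ((Subgroup.subtype _).comp f).range, ?_, ⟨(MonoidHom.ofInjective (Subtype.val_injective.comp hf)).symm⟩⟩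
  rintro _ ⟨x, rfl⟩
  exact (f x).2

end Cfsg.Agent.S5575
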