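import Mathlib
import Cfsg.Statements.S5597
import Cfsg.Agent.Spor.ESSingular

set_option autoImplicit false
open Cfsg

namespace Cfsg.Agent.S5597

open Cfsg.Agent.Spor Subgroup

/-- Setting: `z` is an involution of the finite group `G`; for each element `x`, `Q x` is the largest normal 2-subgroup of the centralizer of `x`; `Q z` is extraspecial and contains its own centralizer in `G`. A subgroup `U` is singular when it is elementary abelian, every non-identity element of `U` is conjugate to `z`, and any two non-identity elements `u`, `v` of `U` are orthogonal (`v ∈ Q u`). Write `QU` for the intersection of the `Q u` and `LU` for the join of the `Q u` over the non-identity `u` in `U`. If `U` is a non-trivial singular subgroup, then `LU` acts trivially on `QU / U` (every commutator of an element of `LU` with an element of `QU` lies in `U`), and for every `x` in `QU` outside `U` the centralizer of `U` in `LU` permutes the coset `x U` transitively: each `x u` with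 `u ∈ U` is a conjugate of `x` by an element of `LU` centralizing `U`. -/
theorem result {G : Type*} [Group G] [Finite G]
    (Q : G → Subgroup G)
    (hQ : ∀ x : G, Q x = (Cfsg.pCore 2 ↥(Subgroup.centralizer ({x} : Set G))).map (Subgroup.centralizer ({x} : Set G)).subtype)
    (z : G) (hz : orderOf z = 2) (hE : Cfsg.IsExtraspecial 2 ↥(Q z))
    (hC : Subgroup.centralizer ((Q z : Subgroup G) : Set G) ≤ Q z)
    (U : Subgroup G) (hU2 : ∀ u ∈ U, u * u = 1)
    (hS : ∀ u ∈ U, u ≠ 1 → ∃ g : G, g * z * g⁻¹ = u)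
    (hO : ∀ u ∈ U, ∀ v ∈ U, u ≠ 1 → v ≠ 1 → v ∈ Q u)
    (QU LU : Subgroup G) (hQU : QU = ⨅ u ∈ ((U : Set G) \ {1}), Q u) (hLU : LU = ⨆ u ∈ ((U : Set G) \ {1}), Q u)
    (hU : U ≠ ⊥) :
    (∀ g ∈ LU, ∀ x ∈ QU, g * x * g⁻¹ * x⁻¹ ∈ U) ∧
      ∀ x ∈ QU, x ∉ U → ∀ u ∈ U, ∃ g ∈ LU ⊓ Subgroup.centralizer (U : Set G), g * x * g⁻¹ = x * u := by
  have hes : ∀ u ∈ U, u ≠ 1 → ES2 (Q u) u := fun u hu h1 => (es2_of_singular hQ hz hE hC (hS u hu h1)).1
  have hUQ : ∀ u ∈ U, u ≠ 1 → U ≤ Q u := by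
    intro u hu h1 v hv
    by_cases hv1 : v = 1
    · rw [hv1]; exact one_mem _
    · exact hO u hu v hv h1 hv1
  have hN : LU ≤ normalizer (U : Set G) := hLU ▸ iSup_le_normalizer_of_singular hes hO
  have hQL : ∀ u ∈ U, u ≠ 1 → Q u ≤ LU := fun u hu h1 =>
    hLU ▸ le_iSup₂_of_le (f := fun u (_ : u ∈ (U : Set G) \ {1}) => Q u) u ⟨hu, h1⟩ le_rfl
  have hQQ : ∀ u ∈ U, u ≠ 1 → QU ≤ Q u := fun u hu h1 =>
    hQU ▸ iInf₂_le_of_le (f := fun u (_ : u ∈ (U : Set G) \ {1}) => Q u) u ⟨hu, h1⟩ le_rfl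
  constructor
  · let S : Subgroup G :=
      { carrier := {g | g ∈ normalizer (U : Set G) ∧ ∀ x ∈ QU, g * x * g⁻¹ * x⁻¹ ∈ U}
        one_mem' := ⟨one_mem _, fun x _ => by simp⟩
        mul_mem' := by
          rintro a b ⟨ha, ha'⟩ ⟨hb, hb'⟩
          refine ⟨mul_mem ha hb, fun x hx => ?_⟩
          have := U.mul_mem ((mem_normalizer_iff.1 ha _).1 (hb' x hx)) (ha' x hx)
          convert this using 1; group
        inv_mem' := by
          rintro a ⟨ha, ha'⟩
          refine ⟨inv_mem ha, fun x hx => ?_⟩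
          have := (mem_normalizer_iff''.1 ha _).1 (U.inv_mem (ha' x hx))
          convert this using 1; group }
    have : LU ≤ S := by
      rw [hLU]
      refine iSup₂_le fun u hu q hq => ⟨hN (hQL u hu.1 hu.2 hq), fun x hx => ?_⟩
      rcases (hes u hu.1 hu.2).aes.conj_eq hq (hQQ u hu.1 hu.2 hx) with e | e <;> rw [e]
      · simp
      · simpa using hu.1
    exact fun g hg => (this hg).2
  · intro x hx hxU u hu
    by_cases hu1 : u = 1
    · exact ⟨1, one_mem _, by simp [hu1]⟩
    obtain ⟨q, hq, hq1, hq2⟩ := (hes u hu hu1).exists_sep (hUQ u hu hu1) hu (hQQ u hu hu1 hx) hxU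
    refine ⟨q, ⟨hQL u hu hu1 hq, mem_centralizer_iff.2 fun a ha => (hq1 a ha).symm⟩, ?_⟩
    rw [(hes u hu hu1).aes.conj_of_ne hq (hQQ u hu hu1 hx) hq2, (hes u hu hu1).z_comm x (hQQ u hu hu1 hx)]

end Cfsg.Agent.S5597
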