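import Mathlib
import Cfsg.Statements.S5598
import Cfsg.Agent.Spor.ESSingular

set_option autoImplicit false
open Cfsg

namespace Cfsg.Agent.S5598

open Cfsg.Agent.Spor Subgroup

/-- Setting: `z` is an involution of the finite group `G`; for each element `x`, `Q x` is the largest normal 2-subgroup of the centralizer of `x`; `Q z` is extraspecial and contains its own centralizer in `G`. A subgroup `U` is singular when it is elementary abelian, every non-identity element of `U` is conjugate to `z`, and any two non-identity elements `u`, `v` of `U` are orthogonal (`v ∈ Q u`). Write `QU` for the intersection of the `Q u` and `LU` for the join of the `Q u` over the non-identity `u` in `U`. If the singular subgroup `U` is generated by a set `T` of non-identity elements, then `QU` is already the intersection of the `Q t` over `t ∈ T`. -/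
theorem result {G : Type*} [Group G] [Finite G]
    (Q : G → Subgroup G)
    (hQ : ∀ x : G, Q x = (Cfsg.pCore 2 ↥(Subgroup.centralizer ({x} : Set G))).map (Subgroup.centralizer ({x} : Set G)).subtype)
    (z : G) (hz : orderOf z = 2) (hE : Cfsg.IsExtraspecial 2 ↥(Q z))
    (hC : Subgroup.centralizer ((Q z : Subgroup G) : Set G) ≤ Q z)
    (U : Subgroup G) (hU2 : ∀ u ∈ U, u * u = 1)
    (hS : ∀ u ∈ U, u ≠ 1 → ∃ g : G, g * z * g⁻¹ = u)
    (hO : ∀ u ∈ U, ∀ v ∈ U, u ≠ 1 → v ≠ 1 → v ∈ Q u)
    (QU LU : Subgroup G) (hQU : QU = ⨅ u ∈ ((U : Set G) \ {1}), Q u) (hLU : LU = ⨆ u ∈ ((U : Set G) \ {1}), Q u)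
    (T : Set G) (hT : Subgroup.closure T = U) (hT1 : (1 : G) ∉ T) :
    QU = ⨅ t ∈ T, Q t := by
  have hes : ∀ u ∈ U, u ≠ 1 → ES2 (Q u) u := fun u hu h1 => (es2_of_singular hQ hz hE hC (hS u hu h1)).1
  have hTU : ∀ t ∈ T, t ∈ U := fun t ht => hT ▸ subset_closure ht
  rw [hQU]
  apply le_antisymm
  · exact le_iInf₂ fun t ht => iInf₂_le_of_le (f := fun u (_ : u ∈ (U : Set G) \ {1}) => Q u) t
      ⟨hTU t ht, fun e => hT1 (e ▸ ht)⟩ le_rfl
  · intro y hy
    have hy' : ∀ t ∈ T, y ∈ Q t := fun t ht => (mem_iInf.1 (mem_iInf.1 hy t) ht)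
    have key : ∀ u ∈ closure T, u = 1 ∨ y ∈ Q u := by
      intro u hu
      induction hu using closure_induction with
      | mem t ht => exact Or.inr (hy' t ht)
      | one => exact Or.inl rfl
      | mul a b ha hb iha ihb =>
        rw [hT] at ha hb
        by_cases ha1 : a = 1
        · simpa [ha1] using ihb
        by_cases hb1 : b = 1
        · simpa [hb1] using iha
        by_cases hab : b = a
        · left; rw [hab]; exact hU2 a ha
        right
        have hya := iha.resolve_left ha1
        have hyb := ihb.resolve_left hb1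
        have hba := hO a ha b hb ha1 hb1
        obtain ⟨q, hq, hqb⟩ := (hes a ha ha1).exists_not_comm hba hb1 hab
        have e1 := (hes a ha ha1).aes.conj_of_ne hq hba (fun e => hqb e.symm)
        have h2 : Q (q * b * q⁻¹) = (Q b).map (MulAut.conj q).toMonoidHom := by
          rw [hQ, hQ b]; exact pCoreOf_centralizer_conj 2 q b
        rw [← e1, h2, mem_map_conj_iff]
        have := (hes a ha ha1).aes.conj_eq ((Q a).inv_mem hq) hya
        rw [inv_inv] at this
        rcases this with e | e <;> rw [e]
        · exact hyb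
        · exact (Q b).mul_mem (hO b hb a ha hb1 ha1) hyb
      | inv a ha iha =>
        rw [hT] at ha
        rwa [inv_eq_self_of_sq (hU2 a ha)]
    refine mem_iInf.2 fun u => mem_iInf.2 fun hu => ?_
    exact (key u (hT ▸ hu.1)).resolve_left hu.2

end Cfsg.Agent.S5598
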