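import Mathlib
import Cfsg.Statements.S5712
import Cfsg.Agent.Cl.MaxSpTwoC
import Cfsg.Agent.Cl.OrthStd
import Cfsg.Agent.GT.Cores
import Cfsg.Agent.S0247
import Cfsg.Agent.S5944
import Cfsg.Agent.S5945
-- import your own Cfsg.Agent.* helpers here

set_option autoImplicit false
open Cfsg

namespace Cfsg.Agent.S5712

/-- Let F be a finite field of characteristic two, n ≥ 2, V = F^{2n} with the non-degenerate alternating form f(u, v) = Σ (u_i v_{n+i} + u_{n+i} v_i), and G the group of invertible matrices preserving f. Let a ≠ 0 be a vector, H its stabilizer in G, and X a subgroup of O₂(H) of order |F|^{2n−2} no element of which is a transvection (no element g has g − 1 of rank one). If L is a subgroup of G containing X that acts irreducibly on V (no proper non-zero L-invariant subspace), then L = G, or, for some quadratic form Q on V whose polar form is f, L is the isometry group of Q or its subgroup of the isometries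 g for which g − 1 has even rank, or |F| = 2, n = 2 and L is isomorphic to the alternating group of degree 6 or to the symmetric group of degree 5. -/
theorem result {F : Type*} [Field F] [Fintype F] [CharP F 2] {n : ℕ} (hn : 2 ≤ n) (a : (Fin n ⊕ Fin n → F)) (ha : a ≠ 0)
    (X : Subgroup (GL (Fin n ⊕ Fin n) F)) (hXG : X ≤ Cfsg.preserving (Units.coeHom (Matrix (Fin n ⊕ Fin n) (Fin n ⊕ Fin n) F)) (fun u v : (Fin n ⊕ Fin n → F) => ∑ i : Fin n, (u (Sum.inl i) * v (Sum.inr i) + u (Sum.inr i) * v (Sum.inl i))))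
    (hXO : ∀ H : Subgroup (GL (Fin n ⊕ Fin n) F),
      (∀ g : GL (Fin n ⊕ Fin n) F, g ∈ H ↔ (g ∈ Cfsg.preserving (Units.coeHom (Matrix (Fin n ⊕ Fin n) (Fin n ⊕ Fin n) F)) (fun u v : (Fin n ⊕ Fin n → F) => ∑ i : Fin n, (u (Sum.inl i) * v (Sum.inr i) + u (Sum.inr i) * v (Sum.inl i))) ∧ Matrix.mulVec (g : Matrix (Fin n ⊕ Fin n) (Fin n ⊕ Fin n) F) a = a)) →
      X ≤ (Cfsg.pCore 2 ↥H).map H.subtype)
    (hcard : Nat.card ↥X = Fintype.card F ^ (2 * n - 2))
    (hntv : ∀ x ∈ X, ((x : Matrix (Fin n ⊕ Fin n) (Fin n ⊕ Fin n) F) - 1).rank ≠ 1)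
    (L : Subgroup (GL (Fin n ⊕ Fin n) F)) (hXL : X ≤ L) (hLG : L ≤ Cfsg.preserving (Units.coeHom (Matrix (Fin n ⊕ Fin n) (Fin n ⊕ Fin n) F)) (fun u v : (Fin n ⊕ Fin n → F) => ∑ i : Fin n, (u (Sum.inl i) * v (Sum.inr i) + u (Sum.inr i) * v (Sum.inl i))))
    (hirr : ∀ W : Submodule F (Fin n ⊕ Fin n → F), (∀ g ∈ L, ∀ w ∈ W, Matrix.mulVec (g : Matrix (Fin n ⊕ Fin n) (Fin n ⊕ Fin n) F) w ∈ W) → W = ⊥ ∨ W = ⊤) :
    L = Cfsg.preserving (Units.coeHom (Matrix (Fin n ⊕ Fin n) (Fin n ⊕ Fin n) F)) (fun u v : (Fin n ⊕ Fin n → F) => ∑ i : Fin n, (u (Sum.inl i) * v (Sum.inr i) + u (Sum.inr i) * v (Sum.inl i))) ∨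
    (∃ Q : QuadraticForm F (Fin n ⊕ Fin n → F), (∀ u v, QuadraticMap.polar ⇑Q u v = (fun u v : (Fin n ⊕ Fin n → F) => ∑ i : Fin n, (u (Sum.inl i) * v (Sum.inr i) + u (Sum.inr i) * v (Sum.inl i))) u v) ∧
      (L = Cfsg.isometryGroup F ⇑Q ∨
        ∀ g : GL (Fin n ⊕ Fin n) F, g ∈ L ↔ (g ∈ Cfsg.isometryGroup F ⇑Q ∧ Even ((g : Matrix (Fin n ⊕ Fin n) (Fin n ⊕ Fin n) F) - 1).rank))) ∨
    (Fintype.card F = 2 ∧ n = 2 ∧ (Nonempty (↥L ≃* ↥(alternatingGroup (Fin 6))) ∨ Nonempty (↥L ≃* Equiv.Perm (Fin 5)))) := by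
  classical
  have hf : ∀ u v : Fin n ⊕ Fin n → F, ∑ i : Fin n, (u (Sum.inl i) * v (Sum.inr i) + u (Sum.inr i) * v (Sum.inl i)) = Cl.spB n F u v := fun u v => by
    rw [Cl.spB_eq_sum]
    exact Finset.sum_congr rfl fun i _ => by rw [CharTwo.sub_eq_add, add_comm]
  simp only [hf] at *
  generalize hG : Cfsg.preserving (Units.coeHom (Matrix (Fin n ⊕ Fin n) (Fin n ⊕ Fin n) F)) (fun u v : (Fin n ⊕ Fin n → F) => Cl.spB n F u v) = G at *
  let e := Cl.glEquiv (Fin n ⊕ Fin n) F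
  have mG : ∀ g, g ∈ G ↔ e g ∈ Cl.SpG (Cl.spB n F) := fun g => hG ▸ Iff.rfl
  let M := L.map e.toMonoidHom
  have mM : ∀ g, e g ∈ M ↔ g ∈ L := fun g => Subgroup.mem_map_iff_mem e.injective
  have hd : Module.finrank F (Fin n ⊕ Fin n → F) = 2 * n := by simp [two_mul]
  have h : Cl.MaxSp.Two.Ctx (Cl.spB n F) M :=
    ⟨Cl.spB_nondegenerate, Cl.spB_isAlt, by
      rintro _ ⟨g, hg, rfl⟩
      exact (mG g).1 (hLG hg), fun W hW => hirr W fun g hg => hW _ ((mM g).2 hg), by omega⟩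
  let H : Subgroup (GL (Fin n ⊕ Fin n) F) :=
    G ⊓ (MulAction.stabilizer _ a).comap e.toMonoidHom
  have hXH := hXO H fun g => Iff.rfl
  have : Finite (GL (Fin n ⊕ Fin n) F) := inferInstance
  have hcore := h.core_trivial ha (e.toMonoidHom.comp H.subtype) (fun g => (mG _).1 g.2.1)
    (fun g => g.2.2) (fun v hv => by
      obtain ⟨g, hg⟩ := e.surjective (Cl.spT Cl.spB_isAlt v 1).1
      refine ⟨⟨g, (mG g).2 (hg ▸ (Cl.spT Cl.spB_isAlt v 1).2), ?_⟩, fun x => ?_⟩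
      · change e g a = a
        rw [hg, Cl.spT_apply, h.sym, hv]; simp
      · change e g x = _
        rw [hg, Cl.spT_apply, one_mul]) (pCore 2 H) (GT.isPGroup_pCore 2)
  have hfull := h.full_of ha (e.toMonoidHom.comp X.subtype)
    (e.injective.comp X.subtype_injective) (fun g => (mM _).2 (hXL g.2))
    (fun g => by
      obtain ⟨k, -, hk⟩ := hXH g.2
      exact (hk ▸ k.2.2 : e g a = a))
    (fun g => by
      obtain ⟨k, hk', hk⟩ := hXH g.2
      intro v hv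
      obtain ⟨s, hs⟩ := hcore k hk' v hv
      exact ⟨s, (hk ▸ hs : e g v = _)⟩)
    (fun g γ hg => by
      by_contra h0
      refine hntv g g.2 ?_
      obtain ⟨b, -, hb⟩ := h.sep (p := a) (a := 0) (by simpa using ha) γ⁻¹
      suffices k : LinearMap.range (g.1.1 - 1).mulVecLin = F ∙ a by
        rw [Matrix.rank, ← finrank_span_singleton (K := F) ha]
        exact congrArg (fun U : Submodule F _ => Module.finrank F U) k
      refine le_antisymm ?_ ((Submodule.span_singleton_le_iff_mem _ _).2 ⟨b, ?_⟩)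
      · rintro _ ⟨x, rfl⟩
        have : g.1.1.mulVec x = _ := hg x
        simp [Matrix.sub_mulVec, this, Submodule.smul_mem]
      · have : g.1.1.mulVec b = _ := hg b
        simp [Matrix.sub_mulVec, this, hb, h0])
    (by rw [hcard, hd, Nat.card_eq_fintype_card])
  rcases h.main ha hfull with k | ⟨Q, hQ, k⟩ | ⟨k1, k2, k3⟩
  · exact Or.inl (Subgroup.ext fun g => by rw [← mM, k, mG])
  · have mQ : ∀ g, g ∈ isometryGroup F ⇑Q ↔ e g ∈ Cl.OG Q := fun g =>
      ⟨fun hg x => hg x x, fun hg x _ => hg x⟩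
    refine Or.inr (Or.inl ⟨Q, hQ, k.imp (fun k => Subgroup.ext fun g => by rw [← mM, k, mQ])
      fun k g => ?_⟩)
    rw [← mM, k]
    exact ⟨fun ⟨hg, he⟩ => ⟨(mQ g).2 hg, Cl.orank_omatEquiv ⟨g, (mQ g).2 hg⟩ ▸ he⟩,
      fun ⟨hg, he⟩ => ⟨(mQ g).1 hg, (Cl.orank_omatEquiv ⟨g, hg⟩).symm ▸ he⟩⟩
  · obtain rfl : n = 2 := by omega
    rw [Nat.card_eq_fintype_card] at k1
    obtain ⟨ψ⟩ := S0247.result k1
    let θ := (Cl.spStdEquiv 2 F).symm.trans ψ
    have hM : M ≤ Cl.SpG (Cl.spB 2 F) := fun g hg => h.iso g hg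
    let K := (M.subgroupOf (Cl.SpG (Cl.spB 2 F))).map θ.toMonoidHom
    have eK : L ≃* K := ((L.equivMapOfInjective _ e.injective).trans
      (Subgroup.subgroupOfEquivOfLe hM).symm).trans (Subgroup.equivMapOfInjective _ _ θ.injective)
    by_cases t1 : K = ⊤
    · refine Or.inl (le_antisymm hLG fun g hg => (mM g).1 ?_)
      have : θ ⟨_, (mG g).1 hg⟩ ∈ K := t1 ▸ Subgroup.mem_top _
      exact Subgroup.mem_subgroupOf.1
        ((Subgroup.mem_map_iff_mem (f := θ.toMonoidHom) θ.injective).1 this)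
    refine Or.inr (Or.inr ⟨k1, rfl, ?_⟩)
    by_cases t2 : K = alternatingGroup (Fin 6)
    · exact Or.inl ⟨eK.trans (MulEquiv.subgroupCongr t2)⟩
    have c1 := S5944.result 6 (by norm_num) K t1 t2
    have c2 := K.index_mul_card
    have c3 : Nat.card K = Nat.card M :=
      Nat.card_congr (eK.symm.trans (L.equivMapOfInjective _ e.injective)).toEquiv
    rw [Nat.card_perm, Nat.card_fin, c3, show Nat.factorial 6 = 720 from rfl] at c2
    obtain ⟨e5⟩ := S5945.result.2.1 K (by nlinarith)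
    exact Or.inr ⟨eK.trans e5⟩

end Cfsg.Agent.S5712
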