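import Mathlib
import Cfsg.Agent.Perm.Babai
import Cfsg.Statements.S5713

set_option autoImplicit false
open Cfsg

namespace Cfsg.Agent.S5713

/-- A classification-free minimal-degree bound. Let G be a finite group acting faithfully and primitively on a finite set Ω with n elements, and suppose that the image of G in the symmetric group on Ω does not contain the alternating group on Ω. Then every non-identity element of G moves at least (√n − 1)/2 points of Ω, that is, it fixes at most n − (√n − 1)/2 points. -/
theorem result {G Ω : Type*} [Group G] [Finite G] [MulAction G Ω] [FaithfulSMul G Ω] [Fintype Ω] [DecidableEq Ω]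
    (hprim : MulAction.IsPreprimitive G Ω)
    (hA : ¬ alternatingGroup Ω ≤ (MulAction.toPermHom G Ω).range)
    (g : G) (hg : g ≠ 1) :
    (Real.sqrt (Fintype.card Ω) - 1) / 2 ≤ (Fintype.card Ω : ℝ) - Nat.card (MulAction.fixedBy Ω g) := by
  classical
  obtain ⟨a, ha⟩ := Perm.exists_smul_ne (X := Ω) hg
  have h1 : Nat.card (MulAction.fixedBy Ω g) +
      (Finset.univ.filter fun x : Ω => g • x ≠ x).card = Fintype.card Ω := by
    rw [← Finset.card_univ, ← Finset.card_filter_add_card_filter_not (s := Finset.univ)
      fun x : Ω => g • x = x, Nat.card_eq_fintype_card, Fintype.card_subtype]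
    simp
  have h2 : Fintype.card Ω ≤ (2 * (Finset.univ.filter fun x : Ω => g • x ≠ x).card + 1) ^ 2 := by
    by_cases h2 : MulAction.IsMultiplyPretransitive G Ω 2
    · have h3 := Perm.Babai.card_le_of_two_trans h2 hA ha
      have h4 : 0 < (Finset.univ.filter fun x : Ω => g • x ≠ x).card :=
        Finset.card_pos.2 ⟨a, by simpa⟩
      obtain ⟨m, hm⟩ := Nat.exists_eq_add_one_of_ne_zero h4.ne'
      rw [hm] at h3 ⊢
      rw [Nat.add_sub_cancel, tsub_le_iff_right] at h3
      nlinarith
    · refine (Perm.Babai.card_le_psi hprim h2 ha.symm).trans (Nat.pow_le_pow_left ?_ 2)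
      have := Finset.card_le_card (t := Finset.univ.filter fun x : Ω => g • x ≠ x)
        fun z (hz : z ∈ Perm.Babai.psi G a (g • a)) => by
          simpa using fun h => Perm.Babai.mem_psi.1 hz g h rfl
      omega
  have h3 := Real.sqrt_le_iff.2 ⟨by positivity, (by exact_mod_cast h2 : (Fintype.card Ω : ℝ) ≤
    (2 * (Finset.univ.filter fun x : Ω => g • x ≠ x).card + 1) ^ 2)⟩
  have h4 := congrArg (Nat.cast : ℕ → ℝ) h1
  push_cast at h4
  linarith

end Cfsg.Agent.S5713
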