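import Mathlib
import Cfsg.Statements.S5722
import Cfsg.Agent.Perm.Subdirect
import Cfsg.Agent.Perm.Regular
import Cfsg.Agent.Perm.Derange
-- import your own Cfsg.Agent.* helpers here

set_option autoImplicit false
open Cfsg

namespace Cfsg.Agent.S5722

open MulAction Subgroup ArithmeticFunction Cfsg.Agent.GT Cfsg.Agent.Perm Cfsg.Agent.Perm.CompLen
  Cfsg.Agent.Perm.Der

universe u v

theorem card_eq_mul {G Ω : Type*} [Group G] [MulAction G Ω] (N : Subgroup G) [IsPretransitive N Ω]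
    (a : Ω) : Nat.card N = Nat.card (N ⊓ stabilizer G a : Subgroup G) * Nat.card Ω := by
  rw [← (stabilizer N a).card_mul_index, index_stabilizer_of_transitive]
  congr 1
  have : stabilizer N a = (N ⊓ stabilizer G a).subgroupOf N := by
    rw [inf_subgroupOf_left]; rfl
  rw [this, Nat.card_congr (subgroupOfEquivOfLe inf_le_left).toEquiv]

theorem card_sq_le {G Ω : Type*} [Group G] [Finite G] [MulAction G Ω] [FaithfulSMul G Ω]
    (hprim : IsPreprimitive G Ω) {N : Subgroup G} (hN : IsMinNormal N) (hc : ¬ IsMulCommutative N)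
    (a : Ω) {F : Finset (Subgroup G)} (hF : ∀ T ∈ F, IsFactor N T)
    (hp : ∀ T ∈ F, ∀ T' ∈ F, T ≠ T' → T ≤ centralizer (T' : Set G)) (hsup : F.sup id = N)
    (hconj : ∀ T ∈ F, ∀ g : G, T.map (MulAut.conj g).toMonoidHom ∈ F) {t : ℕ} (h0 : 0 < t)
    (ht : ∀ T ∈ F, Nat.card T = t) (hL : ∀ T ∈ F, N ⊓ stabilizer G a ⊓ T = ⊥) :
    Nat.card (N ⊓ stabilizer G a : Subgroup G) ^ 2 ≤ t ^ F.card := by
  have hn := hN.normal
  have hNt := isPretransitive_of_normal_ne_bot hprim N hN.ne_bot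
  set L := N ⊓ stabilizer G a with hLdef
  have hmem : ∀ T ∈ F, ∀ x, x ∈ L ⊔ centralizer (T : Set G) ↔
      ∃ l ∈ L, ∃ c ∈ centralizer (T : Set G), l * c = x := by
    intro T hT x
    have : L ≤ normalizer ((centralizer (T : Set G) : Subgroup G) : Set G) := by
      rw [le_normalizer_iff]
      intro l hl c hc s hs
      have := hc _ ((hF T hT).conj_mem _ (N.inv_mem hl.1) s hs)
      calc s * (l * c * l⁻¹) = l * (l⁻¹ * s * l⁻¹⁻¹ * c) * l⁻¹ := by group
        _ = _ := by rw [this]; group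
    rw [← SetLike.mem_coe, coe_mul_of_left_le_normalizer_right _ _ this]
    rfl
  have hcen : ∀ c : G, (∀ T ∈ F, c ∈ centralizer (T : Set G)) → c ∈ centralizer (N : Set G) := by
    intro c h
    refine le_centralizer_iff.mp (?_ : N ≤ centralizer ((zpowers c : Subgroup G) : Set G))
      (mem_zpowers c)
    rw [← hsup]
    exact Finset.sup_le fun T hT => le_centralizer_iff.mp (zpowers_le.mpr (h T hT))
  let X : Subgroup G := N ⊓ ⨅ T ∈ F, (L ⊔ centralizer (T : Set G))
  have hX : ∀ x, x ∈ X ↔ x ∈ N ∧ ∀ T ∈ F, x ∈ L ⊔ centralizer (T : Set G) := fun x => by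
    simp [X, mem_iInf]
  have hAX : stabilizer G a ≤ normalizer (X : Set G) := by
    rw [le_normalizer_iff]
    intro s hs x hx
    rw [hX] at hx ⊢
    refine ⟨hn.conj_mem x hx.1 s, fun T hT => ?_⟩
    obtain ⟨l, hl, c, hc, rfl⟩ := (hmem _ (hconj T hT s⁻¹) x).mp (hx.2 _ (hconj T hT s⁻¹))
    refine (hmem T hT _).mpr ⟨s * l * s⁻¹, ⟨hn.conj_mem l hl.1 s, (stabilizer G a).mul_mem
      ((stabilizer G a).mul_mem hs hl.2) ((stabilizer G a).inv_mem hs)⟩, s * c * s⁻¹, ?_, by group⟩
    intro y hy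
    have := hc _ ⟨y, hy, rfl⟩
    change s⁻¹ * y * s⁻¹⁻¹ * c = c * (s⁻¹ * y * s⁻¹⁻¹) at this
    calc y * (s * c * s⁻¹) = s * (s⁻¹ * y * s⁻¹⁻¹ * c) * s⁻¹ := by group
      _ = _ := by rw [this]; group
  rcases eq_stabilizer_or_eq_top hprim a (le_sup_right : _ ≤ X ⊔ stabilizer G a) with h | h
  · have hb : L = ⊥ := by
      refine eq_bot_iff.mpr fun l hl => eq_one_of_commute_of_fix N (fun n hn' => ?_) hl.2
      refine hcen l (fun T hT => ?_) n hn'
      obtain ⟨u, hu, c, hc, h1, h2⟩ := (hF T hT).decomp l hl.1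
      have huX : u ∈ X := by
        refine (hX u).mpr ⟨(hF T hT).le hu, fun T' hT' => ?_⟩
        by_cases e : T = T'
        · subst e
          exact (hmem T hT u).mpr ⟨l, hl, c⁻¹, (centralizer _).inv_mem h1, by simp [h2]⟩
        · exact mem_sup_right (hp T hT T' hT' e hu)
      have : u ∈ L ⊓ T := ⟨⟨(hF T hT).le hu, h.le (mem_sup_left huX)⟩, hu⟩
      rw [hL T hT, mem_bot] at this
      rw [h2, this, one_mul]
      exact h1
    simpa [hb] using Nat.one_le_pow _ _ h0
  have hNX : N ≤ X := by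
    intro n hn'
    have : n ∈ ((X ⊔ stabilizer G a : Subgroup G) : Set G) := h.ge (mem_top n)
    rw [coe_mul_of_right_le_normalizer_left _ _ hAX] at this
    obtain ⟨x, hx, s, hs, rfl⟩ := this
    refine X.mul_mem hx ((hX s).mpr ?_)
    have hsN : s ∈ N := (N.mul_mem_cancel_left ((hX x).mp hx).1).mp hn'
    exact ⟨hsN, fun T _ => mem_sup_left ⟨hsN, hs⟩⟩
  choose! f hf using fun T hT => (hF T hT).exists_proj
  rw [← Nat.card_congr (subgroupOfEquivOfLe (inf_le_left : L ≤ N)).toEquiv]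
  refine card_sq_le_of_subdirect f id t F (fun T hT => (hF T hT).simple)
    (fun T hT => (hF T hT).noncomm) ht h0 _ (fun T hT => le_antisymm ?_ ?_) ?_
  · rintro _ ⟨l, -, rfl⟩
    obtain ⟨u, hu, c, hc, h1, h2⟩ := (hF T hT).decomp l l.2
    rw [(hf T hT l u hu).mp (by simpa [h2] using h1)]
    exact hu
  · intro u hu
    obtain ⟨l, hl, c, hc, e⟩ := (hmem T hT u).mp (((hX u).mp (hNX ((hF T hT).le hu))).2 T hT)
    refine ⟨⟨l, hl.1⟩, hl, (hf T hT _ u hu).mp ?_⟩
    have : u⁻¹ * l = c⁻¹ := by rw [← e]; group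
    rw [this]
    exact (centralizer _).inv_mem hc
  · intro T l hl h1
    have h2 : ∀ T' ∈ F, T' ≠ T → (l : G) ∈ centralizer (T' : Set G) := fun T' hT' hne => by
      simpa [mem_centralizer_iff] using (hf T' hT' l 1 T'.one_mem).mpr (h1 T' hT' hne)
    apply Subtype.ext
    by_cases hT : T ∈ F
    · obtain ⟨u, hu, c, hcN, h3, h4⟩ := (hF T hT).decomp l l.2
      have h5 : c ∈ N ⊓ centralizer (N : Set G) := by
        refine ⟨hcN, hcen c fun T' hT' => ?_⟩
        by_cases e : T' = T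
        · subst e; exact h3
        · have : c = u⁻¹ * l := by rw [h4]; group
          rw [this]
          exact (centralizer _).mul_mem ((centralizer _).inv_mem (hp T hT T' hT' (Ne.symm e) hu))
            (h2 T' hT' e)
      have h6 := (hN.eq_bot_or_eq (inf_le_left : N ⊓ centralizer (N : Set G) ≤ N)).resolve_right
        fun e => hc ⟨⟨fun a b => Subtype.ext ((e.ge b.2).2 a a.2)⟩⟩
      rw [h6, mem_bot] at h5
      have : (l : G) ∈ L ⊓ T := ⟨hl, by rw [h4, h5, mul_one]; exact hu⟩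
      rwa [hL T hT, mem_bot] at this
    · exact eq_one_of_commute_of_fix N
        (hcen l fun T' hT' => h2 T' hT' fun e => hT (e ▸ hT')) hl.2

theorem dichotomy {G Ω : Type*} [Group G] [Finite G] [MulAction G Ω] [FaithfulSMul G Ω]
    (hprim : IsPreprimitive G Ω) {N : Subgroup G} (hN : IsMinNormal N) (hc : ¬ IsMulCommutative N)
    (a : Ω) : cl N ≤ cl (N ⊓ stabilizer G a) + 1 ∨
      (Nat.card N ≤ Nat.card Ω ^ 2 ∧ 256 ≤ Nat.card Ω) := by
  have hn := hN.normal
  have hNt := isPretransitive_of_normal_ne_bot hprim N hN.ne_bot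
  obtain ⟨F, ⟨T, hT⟩, hF, hp, hsup, hconj, htr⟩ := exists_family hN hc
  have ht : ∀ T' ∈ F, Nat.card T' = Nat.card T := fun T' hT' => by
    obtain ⟨g, rfl⟩ := htr T hT T' hT'
    exact card_map_of_injective (MulAut.conj g).injective
  have h60 : 60 ≤ Nat.card T := by
    by_contra h
    exact (hF T hT).not_isSolvable (isSolvable_of_card_lt_sixty (not_le.mp h))
  have hs := fun T hT => (hF T hT).simple
  have hc' := fun T hT => (hF T hT).noncomm
  have h1 := card_sup_of_family hs hc' hp ht subset_rfl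
  have h2 := cl_sup_le_of_family hs hp subset_rfl
  rw [hsup] at h1 h2
  by_cases hL : ∀ T ∈ F, N ⊓ stabilizer G a ⊓ T ≠ ⊥
  · have h3 := le_cl_inf_of_family hs hc' hp (fun T hT => inf_le_left.trans
      (le_normalizer_iff.mpr (hF T hT).conj_mem)) hL subset_rfl
    rw [hsup, inf_eq_left.mpr inf_le_left] at h3
    omega
  push Not at hL
  obtain ⟨T0, hT0, hL⟩ := hL
  have h3 := card_sq_le hprim hN hc a hF hp hsup hconj (by omega) ht (by
    intro T' hT'
    obtain ⟨g, rfl⟩ := htr T0 hT0 T' hT'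
    obtain ⟨n, hn', e⟩ := exists_mem_smul_eq N a (g⁻¹ • a)
    refine eq_bot_iff.mpr ?_
    rintro _ ⟨hx, u, hu, rfl⟩
    have : n⁻¹ * u * n ∈ N ⊓ stabilizer G a ⊓ T0 := by
      refine ⟨⟨hn.conj_mem' u ((hF T0 hT0).le hu) n, ?_⟩, ?_⟩
      · have h4 : (g * u * g⁻¹) • a = a := hx.2
        change (n⁻¹ * u * n) • a = a
        rw [mul_smul, mul_smul] at h4
        rw [mul_smul, mul_smul, inv_smul_eq_iff, e, eq_inv_smul_iff, h4]
      · simpa using (hF T0 hT0).conj_mem _ (N.inv_mem hn') u hu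
    rw [hL, mem_bot] at this
    have : u = 1 := by rwa [mul_assoc, inv_mul_eq_one, right_eq_mul] at this
    simp [this])
  have h4 := card_eq_mul N a
  rw [← h1, h4, sq] at h3
  have h5 := Nat.le_of_mul_le_mul_left h3 Nat.card_pos
  have h6 : Nat.card N ≤ Nat.card Ω ^ 2 := by rw [h4, sq]; exact Nat.mul_le_mul_right _ h5
  by_cases h7 : 256 ≤ Nat.card Ω
  · exact Or.inr ⟨h6, h7⟩
  left
  have h8 : 60 ^ F.card ≤ Nat.card N := h1 ▸ Nat.pow_le_pow_left h60 _
  by_cases hb : N ⊓ stabilizer G a = ⊥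
  · rw [hb, card_bot, one_mul] at h4
    have : 60 ^ F.card < 60 ^ 2 := by omega
    have := (Nat.pow_lt_pow_iff_right (by norm_num)).mp this
    omega
  · have : Nat.card Ω ^ 2 ≤ 255 ^ 2 := Nat.pow_le_pow_left (by omega) _
    have : 60 ^ F.card < 60 ^ 3 := by omega
    have := (Nat.pow_lt_pow_iff_right (by norm_num)).mp this
    have := cl_pos hb
    omega

theorem num1 (k : ℕ) : 3 * (k * k) + 4 ≤ 4 * 2 ^ k := by
  induction k using Nat.strong_induction_on with
  | _ k ih =>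
    rcases Nat.lt_or_ge k 5 with h | h
    · interval_cases k <;> norm_num
    · obtain ⟨j, rfl⟩ : ∃ j, k = j + 1 := ⟨k - 1, by omega⟩
      have := ih j (by omega)
      rw [pow_succ]
      nlinarith

theorem num2 (k : ℕ) (hk : 4 ≤ k) : 3 * (k * (k + 1)) ≤ 4 * 2 ^ k := by
  induction k, hk using Nat.le_induction with
  | base => norm_num
  | succ k hk ih => rw [pow_succ]; nlinarith

theorem num3 (k : ℕ) (hk : 8 ≤ k) : 3 * ((2 * k + 1) * (2 * k + 2)) + 4 ≤ 4 * 2 ^ k := by
  induction k, hk using Nat.le_induction with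
  | base => norm_num
  | succ k hk ih => rw [pow_succ]; nlinarith

theorem num_affine {p k : ℕ} (hp : p.Prime) (hk : 2 ≤ k) :
    3 * (k + k * Nat.log 2 (p ^ k - 1)) + 4 ≤ 4 * p ^ k := by
  rcases hp.eq_two_or_odd' with rfl | hodd
  · have h1 : Nat.log 2 (2 ^ k - 1) < k :=
      Nat.log_lt_of_lt_pow (by have := Nat.pow_le_pow_right (by norm_num : 0 < 2) hk; omega)
        (by have := Nat.two_pow_pos k; omega)
    have := num1 k
    nlinarith
  have h3 : 3 ≤ p := by have := hp.two_le; rcases hodd with ⟨j, rfl⟩; omega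
  have h4 : 3 ^ k ≤ p ^ k := Nat.pow_le_pow_left h3 _
  have h5 : 3 ^ 2 ≤ 3 ^ k := Nat.pow_le_pow_right (by norm_num) hk
  set j := Nat.log 2 (p ^ k - 1) with hj
  have h6 : 2 ^ j ≤ p ^ k - 1 := Nat.pow_log_le_self 2 (by omega)
  have h7 : p ^ k - 1 < 2 ^ (j + 1) := Nat.lt_pow_succ_log_self (by norm_num) _
  have h8 : k ≤ j := by
    by_contra h
    have h9 : 2 ^ (j + 1) ≤ 2 ^ k := Nat.pow_le_pow_right (by norm_num) (by omega)
    have : 2 ^ k < 3 ^ k := Nat.pow_lt_pow_left (by norm_num) (by omega)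
    omega
  rcases Nat.lt_or_ge j 4 with h | h
  · have : k ≤ 2 := by
      by_contra h'
      have : 3 ^ 3 ≤ 3 ^ k := Nat.pow_le_pow_right (by norm_num) (by omega)
      have : 2 ^ (j + 1) ≤ 2 ^ 4 := Nat.pow_le_pow_right (by norm_num) (by omega)
      omega
    nlinarith
  · have := num2 j h
    have : k * (j + 1) ≤ j * (j + 1) := Nat.mul_le_mul_right _ h8
    have : 2 ^ j + 1 ≤ p ^ k := by omega
    nlinarith

theorem num_big {m n : ℕ} (h0 : m ≠ 0) (hm : m ≤ n ^ 2) (hn : 256 ≤ n) :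
    3 * (cardFactors m + cardFactors m * Nat.log 2 (m - 1)) + 4 ≤ 4 * n := by
  set u := Nat.log 2 n with hu
  have h1 : 2 ^ u ≤ n := Nat.pow_log_le_self 2 (by omega)
  have h2 : n < 2 ^ (u + 1) := Nat.lt_pow_succ_log_self (by norm_num) _
  have h3 : 8 ≤ u := Nat.le_log_of_pow_le (by norm_num) hn
  have h4 : m < 2 ^ (2 * u + 2) := by
    calc m ≤ n ^ 2 := hm
      _ < (2 ^ (u + 1)) ^ 2 := Nat.pow_lt_pow_left h2 (by norm_num)
      _ = _ := by rw [← pow_mul]; congr 1; ring
  have h5 : Nat.log 2 m < 2 * u + 2 := Nat.log_lt_of_lt_pow h0 h4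
  have h6 := cardFactors_le_log h0 le_rfl
  have h7 : Nat.log 2 (m - 1) ≤ Nat.log 2 m := Nat.log_mono_right (by omega)
  have h8 := num3 u h3
  have h9 : cardFactors m * (Nat.log 2 (m - 1) + 1) ≤ (2 * u + 1) * (2 * u + 2) :=
    Nat.mul_le_mul (by omega) (by omega)
  nlinarith

theorem prim_step {G Ω : Type*} [Group G] [Finite G] [MulAction G Ω] [FaithfulSMul G Ω] [Finite Ω]
    [Nontrivial Ω] (hprim : IsPreprimitive G Ω) (a : Ω)
    (ih : 3 * cl (⊤ : Subgroup (stabilizer G a)) + 4 * norb (stabilizer G a) Ω ≤ 4 * Nat.card Ω) :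
    3 * cl (⊤ : Subgroup G) + 4 ≤ 4 * Nat.card Ω := by
  have hG : Nontrivial G := by
    obtain ⟨a, b, hab⟩ := exists_pair_ne Ω
    obtain ⟨g, hg⟩ := exists_smul_eq G a b
    exact ⟨g, 1, fun h => hab (by rw [← hg, h, one_smul])⟩
  obtain ⟨N, hN⟩ := exists_isMinNormal G
  have hn := hN.normal
  have hNt := isPretransitive_of_normal_ne_bot hprim N hN.ne_bot
  have h1 := cl_sup_add_cl_inf_of_normal (stabilizer G a) N
  rw [sup_comm, sup_stabilizer_eq_top, inf_comm] at h1
  rw [cl_top_coe] at ih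
  have h2 : 2 ≤ norb (stabilizer G a) Ω := by
    by_contra h
    have := isPretransitive_of_norb_le_one (stabilizer G a) (Ω := Ω) (by omega)
    obtain ⟨b, hb⟩ := exists_ne a
    obtain ⟨g, hg⟩ := exists_smul_eq (stabilizer G a) a b
    exact hb (hg.symm.trans g.2)
  by_cases h3 : cl N ≤ cl (N ⊓ stabilizer G a) + 1
  · omega
  have h4 := cardFactors_le_of_faithful (stabilizer G a) N le_normalizer_of_normal
    (eq_bot_iff.mpr fun g hg => eq_one_of_commute_of_fix N hg.2 hg.1)
  have h5 := cl_le_cardFactors (stabilizer G a)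
  have h6 := cl_le_cardFactors N
  by_cases hc : IsMulCommutative N
  · have := isSolvable_of_isMulCommutative (G := N)
    obtain ⟨p, hp, hP, -⟩ := hN.exists_isPGroup
    have := Fact.mk hp
    obtain ⟨k, hk⟩ := IsPGroup.iff_card.mp hP
    have h7 := card_subgroup_eq_of_regular N a (stabilizer_eq_bot_of_comm N hc a)
    rw [hk, cardFactors_apply_prime_pow hp] at h4 h6
    have := num_affine hp (by omega : 2 ≤ k)
    omega
  · obtain ⟨h7, h8⟩ := (dichotomy hprim hN hc a).resolve_left h3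
    have := num_big Nat.card_pos.ne' h7 h8
    omega

theorem norb_core {G Ω : Type*} [Group G] [Finite G] [MulAction G Ω] [Finite Ω] (a : Ω)
    (H : Subgroup G) (hH : stabilizer G a ≤ H) :
    norb G Ω + H.index ≤ norb H.normalCore Ω + 1 := by
  classical
  let φ : Ω → orbitRel.Quotient G Ω ⊕ (G ⧸ H) := fun x =>
    if h : ∃ g : G, g • a = x then Sum.inr (h.choose : G ⧸ H) else Sum.inl (Quotient.mk'' x)
  have hφ : ∀ g : G, φ (g • a) = Sum.inr (g : G ⧸ H) := by
    intro g
    have h : ∃ k : G, k • a = g • a := ⟨g, rfl⟩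
    simp only [φ, dif_pos h, Sum.inr.injEq, QuotientGroup.eq]
    apply hH
    rw [mem_stabilizer_iff, mul_smul, inv_smul_eq_iff, h.choose_spec]
  let ψ : orbitRel.Quotient H.normalCore Ω → orbitRel.Quotient G Ω ⊕ (G ⧸ H) :=
    Quotient.lift φ (by
      rintro _ x ⟨k, rfl⟩
      change φ ((k : G) • x) = φ x
      by_cases h : ∃ g : G, g • a = x
      · obtain ⟨g, rfl⟩ := h
        rw [← mul_smul, hφ, hφ, Sum.inr.injEq, QuotientGroup.eq]
        have := (H.normalCore.inv_mem k.2) g⁻¹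
        simpa [mul_assoc] using this
      · have h' : ¬ ∃ g : G, g • a = (k : G) • x := by
          rintro ⟨g, hg⟩
          exact h ⟨(k : G)⁻¹ * g, by rw [mul_smul, hg, inv_smul_smul]⟩
        simp only [φ, dif_neg h, dif_neg h', Sum.inl.injEq]
        exact Quotient.sound' ⟨k, rfl⟩)
  have h1 : (Set.univ : Set (orbitRel.Quotient G Ω ⊕ (G ⧸ H))) ⊆
      insert (Sum.inl (Quotient.mk'' a)) (Set.range ψ) := by
    rintro (q | q) -
    · induction q using Quotient.inductionOn' with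
      | h x =>
        by_cases h : ∃ g : G, g • a = x
        · obtain ⟨g, rfl⟩ := h
          exact Or.inl (congrArg Sum.inl (Quotient.sound' ⟨g, rfl⟩))
        · exact Or.inr ⟨Quotient.mk'' x, dif_neg h⟩
    · induction q using QuotientGroup.induction_on with
      | H g => exact Or.inr ⟨Quotient.mk'' (g • a), hφ g⟩
  have h2 := Set.ncard_le_ncard h1
  have h3 := Set.ncard_insert_le (Sum.inl (Quotient.mk'' a)) (Set.range ψ)
  have h4 : (Set.range ψ).ncard ≤ norb H.normalCore Ω := Finite.card_range_le ψ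
  rw [Set.ncard_univ, Nat.card_sum] at h2
  unfold norb at h4 ⊢
  rw [Subgroup.index]
  omega

theorem step {G : Type u} {Ω : Type v} [Group G] [Finite G] [MulAction G Ω] [FaithfulSMul G Ω]
    [Finite Ω]
    (hprim : ∀ (G' X : Type u) [Group G'] [Finite G'] [MulAction G' X] [FaithfulSMul G' X]
      [Finite X] [Nontrivial X], IsPreprimitive G' X → Nat.card G' ≤ Nat.card G →
      3 * cl (⊤ : Subgroup G') + 4 ≤ 4 * Nat.card X)
    (ih : ∀ K : Subgroup G, K ≠ ⊤ → 3 * cl (⊤ : Subgroup K) + 4 * norb K Ω ≤ 4 * Nat.card Ω) :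
    3 * cl (⊤ : Subgroup G) + 4 * norb G Ω ≤ 4 * Nat.card Ω := by
  by_cases h : ∀ a : Ω, stabilizer G a = ⊤
  · have : (⊤ : Subgroup G) = ⊥ := eq_bot_iff.mpr fun g hg =>
      eq_one_of_smul_eq (X := Ω) fun a => (h a).ge hg
    rw [this, cl_bot]
    have : norb G Ω ≤ Nat.card Ω := Nat.card_le_card_of_surjective _ Quotient.mk''_surjective
    omega
  push Not at h
  obtain ⟨a, ha⟩ := h
  obtain ⟨H, hH, hle⟩ := exists_isCoatom_ge ha
  have h1 := norb_core a H hle
  have h2 := ih H.normalCore fun e => hH.1 (eq_top_iff.mpr (e ▸ H.normalCore_le))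
  have h3 := cl_eq_add (toPermHom G (G ⧸ H)) ⊤
  rw [top_inf_eq, ← normalCore_eq_ker, ← MonoidHom.range_eq_map, ← cl_top_coe (MonoidHom.range _),
    ← cl_top_coe H.normalCore] at h3
  have hnt : Nontrivial (G ⧸ H) := by
    rw [← Finite.one_lt_card_iff_nontrivial]
    exact Subgroup.one_lt_index_of_ne_top hH.1
  have h4 := hprim (toPermHom G (G ⧸ H)).range (G ⧸ H) (isPreprimitive_range_iff.mpr
    ((isCoatom_stabilizer_iff_preprimitive G ((1 : G) : G ⧸ H)).mp (by rwa [stabilizer_quotient])))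
    (Nat.card_le_card_of_surjective _ (toPermHom G (G ⧸ H)).rangeRestrict_surjective)
  rw [Subgroup.index] at h1
  omega

theorem main_same (G : Type u) [Group G] [Finite G] : ∀ (Ω : Type u) [MulAction G Ω]
    [FaithfulSMul G Ω] [Finite Ω], 3 * cl (⊤ : Subgroup G) + 4 * norb G Ω ≤ 4 * Nat.card Ω := by
  refine card_induction (P := fun G _ _ => ∀ (Ω : Type u) [MulAction G Ω]
    [FaithfulSMul G Ω] [Finite Ω], 3 * cl (⊤ : Subgroup G) + 4 * norb G Ω ≤ 4 * Nat.card Ω) ?_ G
  intro G _ _ ih Ω _ _ _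
  refine step (fun G' X _ _ _ _ _ _ hp hle => ?_) fun K hK => ih K (card_lt_of_ne_top hK) Ω
  obtain ⟨a, b, hab⟩ := exists_pair_ne X
  refine prim_step hp a (ih _ ((card_lt_of_ne_top fun e => ?_).trans_le hle) X)
  obtain ⟨g, hg⟩ := exists_smul_eq G' a b
  exact hab (((e.ge (mem_top g) : g • a = a)).symm.trans hg)

theorem main (G : Type u) [Group G] [Finite G] (Ω : Type v) [Finite Ω] : ∀ [MulAction G Ω]
    [FaithfulSMul G Ω], 3 * cl (⊤ : Subgroup G) + 4 * norb G Ω ≤ 4 * Nat.card Ω := by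
  refine card_induction (P := fun G _ _ => ∀ [MulAction G Ω]
    [FaithfulSMul G Ω], 3 * cl (⊤ : Subgroup G) + 4 * norb G Ω ≤ 4 * Nat.card Ω) ?_ G
  intro G _ _ ih _ _
  refine step (fun G' X _ _ _ _ _ _ hp _ => ?_) fun K hK => ih K (card_lt_of_ne_top hK)
  have := main_same G' X
  rwa [norb_eq_one] at this


/-- If a finite group G acts faithfully on a finite set with n points and r orbits, then the composition length of G is at most 4(n − r)/3. Here the composition length is expressed through chains: the conclusion bounds the length l of every chain of subgroups 1 = H₀ < H₁ < ⋯ < H_l = G in which each term is normal in the next (the longest such chains are exactly the composition series). -/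
theorem result {G Ω : Type*} [Group G] [Finite G] [MulAction G Ω] [FaithfulSMul G Ω] [Fintype Ω]
    (l : ℕ) (H : Fin (l + 1) → Subgroup G) (h0 : H 0 = ⊥) (hl : H (Fin.last l) = ⊤)
    (hchain : ∀ i : Fin l, H i.castSucc < H i.succ ∧ ((H i.castSucc).subgroupOf (H i.succ)).Normal) :
    3 * l ≤ 4 * (Fintype.card Ω - Nat.card (Quotient (MulAction.orbitRel G Ω))) := by
  have h1 : ∀ (i : ℕ) (hi : i < l + 1), Ch i (H ⟨i, hi⟩) := by
    intro i
    induction i with
    | zero => exact fun _ => h0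
    | succ i ih =>
      intro hi
      have := hchain ⟨i, by omega⟩
      exact ⟨_, ih (by omega), this.1, (normal_subgroupOf_iff_le_normalizer this.1.le).mp this.2⟩
  have h2 : Ch l (⊤ : Subgroup G) := hl ▸ h1 l (Nat.lt_succ_self l)
  have h3 := h2.le_cl
  have h4 := main G Ω
  rw [← Nat.card_eq_fintype_card]
  change _ ≤ 4 * (_ - norb G Ω)
  omega

end Cfsg.Agent.S5722
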