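import Mathlib
import Cfsg.Statements.S5729
import Cfsg.Agent.Perm.Derange
-- import your own Cfsg.Agent.* helpers here

set_option autoImplicit false
open Cfsg

namespace Cfsg.Agent.S5729

open Cfsg.Agent.Perm.Der MulAction Finset

/-- Let a finite group G act faithfully and transitively on a set with n ≥ 3 points. Then either G is a Frobenius permutation group (Frobenius as a permutation group: transitive, some non-identity element fixes a point, and no non-identity element fixes two points) of order n(n − 1) and exactly |G|/n of its elements are derangements (fix no point), or the number of derangements is greater than |G|/n. -/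
theorem result {G Ω : Type*} [Group G] [Finite G] [MulAction G Ω] [FaithfulSMul G Ω] [Fintype Ω] (htr : MulAction.IsPretransitive G Ω) (hn : 3 ≤ Fintype.card Ω) :
    ((MulAction.IsPretransitive G Ω ∧ (∃ g : G, g ≠ 1 ∧ ∃ ω : Ω, g • ω = ω) ∧ ∀ g : G, g ≠ 1 → Nat.card (MulAction.fixedBy Ω g) ≤ 1) ∧ Nat.card G = Fintype.card Ω * (Fintype.card Ω - 1) ∧ Fintype.card Ω * Nat.card {g : G // ∀ ω : Ω, g • ω ≠ ω} = Nat.card G) ∨
    Nat.card G < Fintype.card Ω * Nat.card {g : G // ∀ ω : Ω, g • ω ≠ ω} := by
  classical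
  have := Fintype.ofFinite G
  rw [← Nat.card_eq_fintype_card] at hn ⊢
  have hnt : Nontrivial Ω := Finite.one_lt_card_iff_nontrivial.mp (by omega)
  change _ ∧ _ ∧ Nat.card Ω * nder G Ω = _ ∨ _ < Nat.card Ω * nder G Ω
  have h1 := card_mul_nder (G := G) (Ω := Ω)
  have h2 := sum_fix_mul_pred (G := G) (Ω := Ω)
  have h3 := two_le_norb_prod (G := G) (Ω := Ω)
  have h4 : 0 < Nat.card G := Nat.card_pos
  by_cases hlt : Nat.card G < Nat.card Ω * nder G Ω
  · exact Or.inr hlt
  left
  have h5 : Nat.card G ≤ ∑ g : G, fix Ω g * (fix Ω g - 1) := by nlinarith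
  have h6 : ∑ g : G, (fix Ω g - 1) * (Nat.card Ω - fix Ω g) = 0 := by omega
  have h7 : ∑ g : G, fix Ω g * (fix Ω g - 1) = Nat.card G := by omega
  have h8 : ∀ g : G, g ≠ 1 → fix Ω g ≤ 1 := by
    intro g hg
    have := Finset.sum_eq_zero_iff.mp h6 g (mem_univ g)
    rcases Nat.mul_eq_zero.mp this with h | h
    · omega
    · exact absurd (eq_one_of_fix_eq (Ω := Ω) (le_antisymm (fix_le g) (by omega))) hg
  have h9 : Nat.card G = Nat.card Ω * (Nat.card Ω - 1) := by
    rw [← h7, Finset.sum_eq_single 1, fix_one]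
    · intro g _ hg
      have := h8 g hg
      rw [show fix Ω g - 1 = 0 by omega, mul_zero]
    · simp
  refine ⟨⟨htr, ?_, h8⟩, h9, by omega⟩
  obtain ⟨a⟩ : Nonempty Ω := inferInstance
  have h10 := (stabilizer G a).card_mul_index
  rw [index_stabilizer_of_transitive, h9, mul_comm] at h10
  have h11 := Nat.eq_of_mul_eq_mul_left (by omega) h10
  have : Nontrivial (stabilizer G a) := Finite.one_lt_card_iff_nontrivial.mp (by omega)
  obtain ⟨g, hg⟩ := exists_ne (1 : stabilizer G a)
  exact ⟨g, fun h => hg (Subtype.ext h), a, g.2⟩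

end Cfsg.Agent.S5729
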