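import Mathlib
import Cfsg.Statements.S5730
import Cfsg.Agent.Perm.TwoLine
import Cfsg.Agent.S5729
-- import your own Cfsg.Agent.* helpers here

set_option autoImplicit false
open Cfsg

namespace Cfsg.Agent.S5730

open Cfsg.Agent.Perm.Der Cfsg.Agent.Perm.TwoLine MulAction Finset

section
variable {G Ω : Type*} [Group G] [MulAction G Ω]

theorem fix_conj (g k : G) : fix Ω (k * g * k⁻¹) = fix Ω g := by
  unfold fix
  refine Nat.card_congr ⟨fun x => ⟨k⁻¹ • x.1, ?_⟩, fun x => ⟨k • x.1, ?_⟩, ?_, ?_⟩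
  · have := x.2
    rw [mem_fixedBy, mul_smul, mul_smul] at this
    rw [mem_fixedBy, eq_inv_smul_iff, this]
  · have := x.2
    rw [mem_fixedBy] at this
    rw [mem_fixedBy, mul_smul, mul_smul, inv_smul_smul, this]
  · intro x; simp
  · intro x; simp

theorem sum_pairs [Fintype G] [Fintype Ω] [DecidableEq Ω] (h2 : Two G Ω) {a b : Ω} (hab : a ≠ b)
    (φ : ℕ → ℚ) :
    ∑ g : G, ((fix Ω g * (fix Ω g - 1) : ℕ) : ℚ) * φ (fix Ω g) =
      ((Nat.card Ω * (Nat.card Ω - 1) : ℕ) : ℚ) *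
        ∑ g : G with g • a = a ∧ g • b = b, φ (fix Ω g) := by
  have h1 : ∀ g : G, ((fix Ω g * (fix Ω g - 1) : ℕ) : ℚ) * φ (fix Ω g) =
      ∑ p ∈ (univ : Finset Ω).offDiag, if g • p.1 = p.1 ∧ g • p.2 = p.2 then φ (fix Ω g) else 0 := by
    intro g
    rw [← sum_filter, sum_const, nsmul_eq_mul]
    congr 2
    have : (univ : Finset Ω).offDiag.filter (fun p => g • p.1 = p.1 ∧ g • p.2 = p.2) =
        (univ.filter fun x : Ω => g • x = x).offDiag := by
      ext p; simp only [mem_filter, mem_offDiag, mem_univ, true_and]; tauto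
    rw [this, offDiag_card, ← fix_eq_card_filter, Nat.mul_sub_one]
  rw [Finset.sum_congr rfl fun g _ => h1 g, sum_comm]
  have h3 : ∀ p ∈ (univ : Finset Ω).offDiag,
      (∑ g : G, if g • p.1 = p.1 ∧ g • p.2 = p.2 then φ (fix Ω g) else 0) =
        ∑ g : G with g • a = a ∧ g • b = b, φ (fix Ω g) := by
    intro p hp
    obtain ⟨k, h1, h2⟩ := h2 a b p.1 p.2 hab (mem_offDiag.mp hp).2.2
    rw [sum_filter, ← (MulAut.conj k).toEquiv.sum_comp]
    refine Finset.sum_congr rfl fun g _ => ?_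
    change (if (k * g * k⁻¹) • p.1 = p.1 ∧ (k * g * k⁻¹) • p.2 = p.2 then φ (fix Ω (k * g * k⁻¹))
      else 0) = _
    rw [fix_conj, ← h1, ← h2]
    simp [mul_smul]
  rw [Finset.sum_congr rfl h3, sum_const, nsmul_eq_mul, offDiag_card, card_univ,
    ← Nat.card_eq_fintype_card, Nat.mul_sub_one]

theorem orbit_bound [Finite G] [Finite Ω] (a b : Ω) :
    6 * norb (stabilizer G (a, b)) Ω + (big G a b).ncard ≤
      3 * Nat.card Ω + 3 * (line G a b).ncard := by
  classical
  have := Fintype.ofFinite G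
  have := Fintype.ofFinite Ω
  set H := stabilizer G (a, b) with hH
  have hm : ∀ g : G, g ∈ H ↔ g • a = a ∧ g • b = b := fun g => by
    simp [hH, mem_stabilizer_iff]
  have h1 := sum_fix Ω (G := H)
  have h2 : ∑ g : H, fix Ω g = ∑ x : Ω, Nat.card (stabilizer H x) := by
    simp only [fix_eq_card_filter, card_filter]
    rw [sum_comm]
    refine Finset.sum_congr rfl fun x _ => ?_
    rw [← card_filter, Nat.card_eq_fintype_card, Fintype.card_subtype]
    rfl
  have h3 : ∀ x : Ω, 6 * Nat.card (stabilizer H x) + (if x ∈ big G a b then Nat.card H else 0) ≤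
      3 * Nat.card H + (if x ∈ line G a b then 3 * Nat.card H else 0) := by
    intro x
    have e := (stabilizer H x).card_mul_index
    rw [index_stabilizer] at e
    by_cases hx : x ∈ big G a b
    · obtain ⟨g, h, hg, hh, e1, e2, e3⟩ := id hx
      have : 2 < (orbit H x).ncard := (Set.two_lt_ncard (Set.toFinite _)).mpr
        ⟨x, mem_orbit_self x, g • x, ⟨⟨g, (hm g).mpr hg⟩, rfl⟩, h • x, ⟨⟨h, (hm h).mpr hh⟩, rfl⟩,
          e1.symm, e2.symm, e3⟩
      rw [if_pos hx]
      have : Nat.card (stabilizer H x) * 3 ≤ Nat.card H := e ▸ Nat.mul_le_mul_left _ this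
      omega
    rw [if_neg hx]
    by_cases hx' : x ∈ line G a b
    · rw [if_pos hx']
      have : Nat.card (stabilizer H x) ≤ Nat.card H := Finite.card_subtype_le _
      omega
    · obtain ⟨g, ha, hb, hg⟩ : ∃ g : G, g • a = a ∧ g • b = b ∧ g • x ≠ x := by
        by_contra hc
        push Not at hc
        exact hx' hc
      have : 1 < (orbit H x).ncard := (Set.one_lt_ncard (Set.toFinite _)).mpr
        ⟨x, mem_orbit_self x, g • x, ⟨⟨g, (hm g).mpr ⟨ha, hb⟩⟩, rfl⟩, hg.symm⟩
      have : Nat.card (stabilizer H x) * 2 ≤ Nat.card H := e ▸ Nat.mul_le_mul_left _ this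
      omega
  have h4 := Finset.sum_le_sum fun x (_ : x ∈ (univ : Finset Ω)) => h3 x
  rw [sum_add_distrib, sum_add_distrib, ← mul_sum, ← h2, h1, ← sum_filter, ← sum_filter, sum_const,
    sum_const, sum_const, card_univ, ← Nat.card_eq_fintype_card] at h4
  have e1 : (univ.filter fun x => x ∈ big G a b).card = (big G a b).ncard := by
    rw [Set.ncard_eq_toFinset_card']; congr 1; ext; simp
  have e2 : (univ.filter fun x => x ∈ line G a b).card = (line G a b).ncard := by
    rw [Set.ncard_eq_toFinset_card']; congr 1; ext; simp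
  rw [e1, e2] at h4
  simp only [smul_eq_mul] at h4
  refine Nat.le_of_mul_le_mul_right (c := Nat.card H) ?_ Nat.card_pos
  nlinarith

theorem ineq_of_lower {s : Finset G} [DecidableEq G] (h1 : 1 ∈ s) (ψ : G → ℚ) (hψ : ψ 1 = 1)
    (h : 2 * (s.card : ℚ) - 1 ≤ ∑ g ∈ s.erase 1, ψ g) : 0 ≤ ∑ g ∈ s, (ψ g - 2) := by
  rw [sum_sub_distrib, ← add_sum_erase _ _ h1, hψ, sum_const, nsmul_eq_mul]
  linarith

theorem key [Fintype G] [Fintype Ω] [DecidableEq Ω] [FaithfulSMul G Ω] (h2 : Two G Ω)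
    (hn : 7 ≤ Nat.card Ω) (hne : ∃ g : G, g ≠ 1 ∧ 2 ≤ fix Ω g) :
    ∃ a b : Ω, a ≠ b ∧
      0 ≤ ∑ g : G with g • a = a ∧ g • b = b, ((Nat.card Ω : ℚ) / fix Ω g - 2) := by
  classical
  obtain ⟨g0, hg0, hf0⟩ := hne
  obtain ⟨a0, b0, hab0, ha0, hb0⟩ := exists_of_two_le_fix hf0
  have hmove : ∀ g : G, g ≠ 1 → ∃ x : Ω, g • x ≠ x := fun g hg => by
    by_contra hc
    push Not at hc
    exact hg (FaithfulSMul.eq_of_smul_eq_smul (α := Ω) fun x => by rw [hc, one_smul])
  have hψ : (Nat.card Ω : ℚ) / fix Ω (1 : G) = 1 := by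
    rw [fix_one]; exact div_self (by positivity)
  have hcard : ∀ a b : Ω, a ≠ b → 2 ≤ (univ.filter fun g : G => g • a = a ∧ g • b = b).card := by
    intro a b hab
    obtain ⟨k, rfl, rfl⟩ := h2 a0 b0 a b hab0 hab
    refine one_lt_card.mpr ⟨1, by simp, k * g0 * k⁻¹, by simp [mul_smul, ha0, hb0], ?_⟩
    intro h
    apply hg0
    have : g0 = k⁻¹ * (k * g0 * k⁻¹) * k := by group
    rw [this, ← h]; group
  -- lower bound from a uniform bound on the number of fixed points
  have hB : ∀ a b : Ω, a ≠ b → ∀ c : ℚ, (∀ g : G, g ≠ 1 → g • a = a → g • b = b →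
      c * fix Ω g ≤ Nat.card Ω) →
      2 * ((univ.filter fun g : G => g • a = a ∧ g • b = b).card : ℚ) - 1 ≤
        (((univ.filter fun g : G => g • a = a ∧ g • b = b).card : ℚ) - 1) * c →
      0 ≤ ∑ g : G with g • a = a ∧ g • b = b, ((Nat.card Ω : ℚ) / fix Ω g - 2) := by
    intro a b hab c hc hle
    have h1 : (1 : G) ∈ univ.filter fun g : G => g • a = a ∧ g • b = b := by simp
    refine ineq_of_lower h1 _ hψ (hle.trans ?_)
    have := card_nsmul_le_sum ((univ.filter fun g : G => g • a = a ∧ g • b = b).erase 1)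
      (fun g => (Nat.card Ω : ℚ) / fix Ω g) c (fun g hg => by
        obtain ⟨hg1, hg⟩ := mem_erase.mp hg
        have hg := (mem_filter.mp hg).2
        have : (0 : ℚ) < fix Ω g := by exact_mod_cast fix_pos hg.1
        rw [le_div_iff₀ this]
        exact hc g hg1 hg.1 hg.2)
    rw [card_erase_of_mem h1, nsmul_eq_mul, Nat.cast_sub (by have := hcard a b hab; omega)] at this
    simpa using this
  have hB3 : ∀ a b : Ω, a ≠ b → (∀ g : G, g ≠ 1 → g • a = a → g • b = b →
      3 * fix Ω g ≤ Nat.card Ω) →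
      0 ≤ ∑ g : G with g • a = a ∧ g • b = b, ((Nat.card Ω : ℚ) / fix Ω g - 2) := by
    intro a b hab h
    refine hB a b hab 3 (fun g h1 h2 h3 => by exact_mod_cast h g h1 h2 h3) ?_
    have : (2 : ℚ) ≤ (univ.filter fun g : G => g • a = a ∧ g • b = b).card := by
      exact_mod_cast hcard a b hab
    linarith
  have hf2 := two_le_ncard_line (G := G) hab0
  by_cases hf4 : 4 ≤ (line G a0 b0).ncard
  · refine ⟨a0, b0, hab0, hB3 _ _ hab0 fun g hg _ _ => ?_⟩
    obtain ⟨x, hx⟩ := hmove g hg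
    have h1 := fix_mul_le h2 hab0 hx
    have : fix Ω g * 3 ≤ fix Ω g * ((line G a0 b0).ncard - 1) := Nat.mul_le_mul_left _ (by omega)
    omega
  by_cases hb : ∀ a b : Ω, a ≠ b → (big G a b).ncard ≤ 3
  · have hb' := fun a b (hab : a ≠ b) => big_eq_empty h2 hn hb hab
    refine ⟨a0, b0, hab0, hB3 _ _ hab0 fun g hg ha hb => ?_⟩
    obtain ⟨y, hy⟩ := hmove g hg
    have h1 : fix Ω g ≤ (line G a0 b0).ncard :=
      Set.ncard_le_ncard fun x hx => mem_line_of_noBig hb' h2 hab0 ha hb hx hy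
    by_cases h3 : (line G a0 b0).ncard = 3
    · have := nine_le_of_noBig hb' h2 hab0 ha hb hy h3
      omega
    · omega
  push Not at hb
  obtain ⟨a, b, hab, hb⟩ := hb
  refine ⟨a, b, hab, ?_⟩
  rw [ncard_line_eq h2 hab0 hab] at hf2 hf4
  have ho := orbit_bound (G := G) a b
  have hh := hcard a b hab
  set s := univ.filter fun g : G => g • a = a ∧ g • b = b with hs
  by_cases hC : (line G a b).ncard = 3 ∧ Nat.card Ω < 2 * s.card
  · have hn1 : (0 : ℚ) < (Nat.card Ω : ℚ) - 1 := by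
      have : (7 : ℚ) ≤ Nat.card Ω := by exact_mod_cast hn
      linarith
    refine hB a b hab (2 * Nat.card Ω / ((Nat.card Ω : ℚ) - 1)) (fun g hg _ _ => ?_) ?_
    · obtain ⟨x, hx⟩ := hmove g hg
      have h1 := fix_mul_le h2 hab hx
      rw [hC.1] at h1
      have h3 : (fix Ω g : ℚ) * 2 + 1 ≤ Nat.card Ω := by exact_mod_cast (by omega)
      rw [div_mul_eq_mul_div, div_le_iff₀ hn1]
      nlinarith
    · have h3 : (Nat.card Ω : ℚ) + 1 ≤ 2 * s.card := by exact_mod_cast hC.2
      rw [← hs, ← mul_div_assoc, le_div_iff₀ hn1]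
      nlinarith
  set o := norb (stabilizer G (a, b)) Ω with ho'
  have hA : o * (2 * s.card) ≤ Nat.card Ω * s.card + o := by
    by_cases h3 : 2 * o ≤ Nat.card Ω
    · nlinarith
    · have h4 : 2 * o = Nat.card Ω + 1 := by omega
      have h5 : s.card ≤ o := by omega
      nlinarith
  have h1 : (1 : G) ∈ s := by simp [hs]
  refine ineq_of_lower h1 _ hψ ?_
  have hsum : ∑ g ∈ s, fix Ω g = o * s.card := by
    have := sum_fix_subgroup Ω (stabilizer G (a, b))
    have e : (univ.filter fun g : G => g ∈ stabilizer G (a, b)) = s := by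
      ext g; simp [hs]
    rw [e] at this
    rw [this, ← e, Nat.card_eq_fintype_card, Fintype.card_subtype]
  rw [← add_sum_erase _ _ h1, fix_one] at hsum
  have hpos : ∀ g ∈ s.erase 1, (0 : ℚ) < fix Ω g := fun g hg => by
    exact_mod_cast fix_pos (mem_filter.mp (mem_erase.mp hg).2).2.1
  have hS := sq_sum_div_le_sum_sq_div (s.erase 1) (fun _ => (1 : ℚ)) hpos
  have hSpos : (0 : ℚ) < ∑ g ∈ s.erase 1, (fix Ω g : ℚ) :=
    sum_pos hpos (card_pos.mp (by rw [card_erase_of_mem h1]; omega))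
  have hsum' : (Nat.card Ω : ℚ) + ∑ g ∈ s.erase 1, (fix Ω g : ℚ) = o * s.card := by
    exact_mod_cast hsum
  rw [sum_const, card_erase_of_mem h1, nsmul_eq_mul, Nat.cast_sub (by omega), div_le_iff₀ hSpos]
    at hS
  have e : ∑ g ∈ s.erase 1, (Nat.card Ω : ℚ) / fix Ω g =
      Nat.card Ω * ∑ g ∈ s.erase 1, (1 : ℚ) ^ 2 / fix Ω g := by
    rw [mul_sum]
    exact Finset.sum_congr rfl fun g _ => by ring
  rw [e]
  have hA' : (o : ℚ) * (2 * s.card) ≤ Nat.card Ω * s.card + o := by exact_mod_cast hA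
  have hh' : (0 : ℚ) ≤ s.card := by positivity
  have hn' : (0 : ℚ) ≤ Nat.card Ω := by positivity
  refine le_of_mul_le_mul_right ?_ hSpos
  generalize ∑ g ∈ s.erase 1, (fix Ω g : ℚ) = S at *
  generalize ∑ g ∈ s.erase 1, (1 : ℚ) ^ 2 / fix Ω g = T at *
  have e2 : S = o * s.card - Nat.card Ω := by linarith
  have h5 := mul_le_mul_of_nonneg_left hS hn'
  have h6 := mul_le_mul_of_nonneg_left hA' hh'
  rw [mul_assoc]
  refine le_trans ?_ h5
  rw [e2]
  push_cast
  nlinarith

theorem three_le_norb [Finite Ω] [Nontrivial Ω] (h : ¬ Two G Ω) : 3 ≤ norb G (Ω × Ω) := by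
  unfold Two at h
  push Not at h
  obtain ⟨a, b, c, d, hab, hcd, h⟩ := h
  unfold norb
  rw [← Set.ncard_univ]
  have hd : ∀ x y : Ω, x ≠ y →
      (Quotient.mk'' (a, a) : orbitRel.Quotient G (Ω × Ω)) ≠ Quotient.mk'' (x, y) := by
    intro x y hxy e
    obtain ⟨g, hg⟩ := Quotient.exact' e
    simp only [Prod.smul_mk, Prod.mk.injEq] at hg
    exact hxy (smul_left_cancel g (hg.1.trans hg.2.symm))
  refine (Set.two_lt_ncard (Set.toFinite _)).mpr ⟨Quotient.mk'' (a, a), trivial,
    Quotient.mk'' (c, d), trivial, Quotient.mk'' (a, b), trivial, hd _ _ hcd, hd _ _ hab, ?_⟩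
  intro e
  obtain ⟨g, hg⟩ := Quotient.exact' e
  simp only [Prod.smul_mk, Prod.mk.injEq] at hg
  exact h g hg.1 hg.2

end


/-- Let a finite group G act faithfully and transitively on a set with n ≥ 7 points. Then either G is a Frobenius permutation group (Frobenius as a permutation group: transitive, some non-identity element fixes a point, and no non-identity element fixes two points) of order n(n − 1)/a with a ∈ {1, 2}, in which case exactly a|G|/n of its elements are derangements, or the number of derangements is at least 2|G|/n. (Equality does occur: PSL₃(2) acting on the 7 points of the Fano plane has exactly 2|G|/7 derangements.) -/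
theorem result {G Ω : Type*} [Group G] [Finite G] [MulAction G Ω] [FaithfulSMul G Ω] [Fintype Ω] (htr : MulAction.IsPretransitive G Ω) (hn : 7 ≤ Fintype.card Ω) :
    (∃ a : ℕ, (a = 1 ∨ a = 2) ∧ (MulAction.IsPretransitive G Ω ∧ (∃ g : G, g ≠ 1 ∧ ∃ ω : Ω, g • ω = ω) ∧ ∀ g : G, g ≠ 1 → Nat.card (MulAction.fixedBy Ω g) ≤ 1) ∧ a * Nat.card G = Fintype.card Ω * (Fintype.card Ω - 1) ∧ Fintype.card Ω * Nat.card {g : G // ∀ ω : Ω, g • ω ≠ ω} = a * Nat.card G) ∨
    2 * Nat.card G ≤ Fintype.card Ω * Nat.card {g : G // ∀ ω : Ω, g • ω ≠ ω} := by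
  classical
  have := Fintype.ofFinite G
  have h0 := S5729.result htr (by omega : 3 ≤ Fintype.card Ω)
  rw [← Nat.card_eq_fintype_card] at hn h0 ⊢
  have hnt : Nontrivial Ω := Finite.one_lt_card_iff_nontrivial.mp (by omega)
  change _ ∨ _ ≤ Nat.card Ω * nder G Ω
  have h1 := card_mul_nder (G := G) (Ω := Ω)
  have h2 := sum_fix_mul_pred (G := G) (Ω := Ω)
  have h3 := two_le_norb_prod (G := G) (Ω := Ω)
  by_cases h4 : 3 ≤ norb G (Ω × Ω)
  · right
    have := Nat.mul_le_mul_right (Nat.card G) h4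
    omega
  have h5 : norb G (Ω × Ω) = 2 := by omega
  rw [h5] at h2
  have htwo : Two G Ω := by
    by_contra hc
    exact h4 (three_le_norb hc)
  by_cases hne : ∃ g : G, g ≠ 1 ∧ 2 ≤ fix Ω g
  · right
    obtain ⟨a, b, hab, hk⟩ := key htwo hn hne
    have h6 := sum_pairs htwo hab (fun F => (Nat.card Ω : ℚ) / F - 2)
    have h7 : (0 : ℚ) ≤ ∑ g : G, ((((fix Ω g - 1) * (Nat.card Ω - fix Ω g) : ℕ) : ℚ) -
        ((fix Ω g * (fix Ω g - 1) : ℕ) : ℚ)) := by
      refine (mul_nonneg (Nat.cast_nonneg _) hk).trans (h6.symm.le.trans (le_of_eq ?_))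
      refine Finset.sum_congr rfl fun g _ => ?_
      rcases Nat.eq_zero_or_pos (fix Ω g) with h | h
      · simp [h]
      · have : (fix Ω g : ℚ) ≠ 0 := by positivity
        push_cast [Nat.cast_sub h, Nat.cast_sub (fix_le g)]
        field_simp
        ring
    rw [sum_sub_distrib, sub_nonneg] at h7
    have h8 : ∑ g : G, fix Ω g * (fix Ω g - 1) ≤
        ∑ g : G, (fix Ω g - 1) * (Nat.card Ω - fix Ω g) := by exact_mod_cast h7
    omega
  · left
    push Not at hne
    have h6 : ∑ g : G, (fix Ω g - 1) * (Nat.card Ω - fix Ω g) = 0 := by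
      refine Finset.sum_eq_zero fun g _ => ?_
      by_cases hg : g = 1
      · rw [hg, fix_one, Nat.sub_self, mul_zero]
      · have := hne g hg
        rw [show fix Ω g - 1 = 0 by omega, zero_mul]
    rcases h0 with h0 | h0
    · exact ⟨1, Or.inl rfl, h0.1, by rw [one_mul, h0.2.1], by rw [one_mul, h0.2.2]⟩
    · change _ < Nat.card Ω * nder G Ω at h0
      omega

end Cfsg.Agent.S5730
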