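import Cfsg.Statements.S5732
import Cfsg.Agent.DerG.Der
import Cfsg.Agent.DerG.PP
import Cfsg.Agent.DerG.Reg
import Cfsg.Agent.DerG.NonAff
import Cfsg.Agent.DerG.Lin
import Cfsg.Agent.GT.ElemAbRep

set_option autoImplicit false
open Cfsg

namespace Cfsg.Agent.S5732

open MulAction Subgroup DerG

theorem main {N : ℕ} (hN : ∀ n d w m : ℕ, N ≤ n → 2 ^ d ≤ n → w ^ 3 ≤ n →
      m + 1 ≤ 4 * d ^ 4 * w → (m + 1) ^ 2 ≤ n)
    {G Ω : Type*} [Group G] [Finite G] [MulAction G Ω] [FaithfulSMul G Ω] [Finite Ω]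
    {D : Subgroup G} (h : Ex Ω D) (hn : Nat.card Ω < (D.index + 1) ^ 2) (h1 : N ≤ Nat.card Ω)
    (h16 : 16 ≤ Nat.card Ω) :
    (∃ g : G, g ≠ 1 ∧ ∃ ω : Ω, g • ω = ω) ∧
      ∀ g : G, g ≠ 1 → Nat.card (MulAction.fixedBy Ω g) ≤ 1 := by
  have hD := h.normal
  have h3 : 3 ≤ D.index := by
    by_contra h3
    have : (D.index + 1) ^ 2 ≤ 3 ^ 2 := Nat.pow_le_pow_left (by omega) 2
    omega
  obtain ⟨p, hp, hd⟩ := Nat.exists_prime_and_dvd (show Nat.card Ω ≠ 1 by omega)
  have := Fact.mk hp
  obtain ⟨c, hc⟩ := h.card_eq_pow hn (by omega) hd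
  obtain ⟨c, rfl⟩ : ∃ c', c = c' + 1 := ⟨c - 1, by
    rcases c with _ | c
    · rw [pow_zero] at hc
      omega
    · omega⟩
  obtain ⟨P⟩ : Nonempty (Sylow p G) := inferInstance
  obtain ⟨hPD, hE, hP, hF⟩ := h.reg hn hc P
  obtain ⟨a⟩ : Nonempty Ω := (Nat.card_pos_iff.1 (by omega)).1
  set Y := normalizer ((P : Subgroup G) : Set G) with hY
  have hH : (Y ⊓ stabilizer G a) ⊔ D = ⊤ := h.stab_sup hF a fun k _ => by
    obtain ⟨x, hx, e⟩ := hP.trans a (k • a)
    exact ⟨x, ⟨le_normalizer hx, hPD hx⟩, e⟩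
  have hbot : ∀ g ∈ (P : Subgroup G), g • a = a → g = 1 := fun g hg e => hP.free g hg a e
  have hcP : Nat.card (P : Subgroup G) = Nat.card Ω := by
    refine Nat.card_eq_of_bijective (fun x => (x : G) • a) ⟨fun x y e => ?_, fun b => ?_⟩
    · have e' : (x : G) • a = (y : G) • a := e
      have := hbot _ (mul_mem (inv_mem y.2) x.2) (by rw [mul_smul, e', inv_smul_smul])
      exact Subtype.ext (inv_mul_eq_one.1 this).symm
    · obtain ⟨x, hx, e⟩ := hP.trans a b
      exact ⟨⟨x, hx⟩, e⟩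
  -- elements commuting with all of `P` and fixing `a` are trivial
  have hcen : ∀ g : G, g • a = a → (∀ x ∈ (P : Subgroup G), x * g = g * x) → g = 1 := by
    intro g hg hc
    refine FaithfulSMul.eq_of_smul_eq_smul (α := Ω) fun b => ?_
    obtain ⟨x, hx, rfl⟩ := hP.trans a b
    rw [← mul_smul, ← hc x hx, mul_smul, hg, one_smul]
  have hfree : ∀ u ∈ Y ⊓ stabilizer G a, ∀ x ∈ (P : Subgroup G), x ≠ 1 → u * x = x * u → u = 1 := by
    intro u hu x hx hx1 hux
    by_contra hu1
    have hle : Y ⊓ stabilizer G a ≤ normalizer ((P : Subgroup G) : Set G) := inf_le_left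
    have hi : Function.Injective (GT.eaRep hE hle) := GT.eaRep_injective (by
      rw [eq_bot_iff]
      intro g hg
      exact hcen g hg.1.2 fun x hx => (mem_centralizer_iff.1 hg.2) x hx)
    have hnd : ¬ p ∣ Nat.card ↥(Y ⊓ stabilizer G a) := by
      intro hdd
      have : Finite ↥(Y ⊓ stabilizer G a) := inferInstance
      obtain ⟨y, hy⟩ := exists_prime_orderOf_dvd_card' p hdd
      have hyo : orderOf (y : G) = p := by rw [← hy, Subgroup.orderOf_coe]
      have hz : IsPGroup p (zpowers (y : G)) := IsPGroup.of_card (n := 1) (by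
        rw [Nat.card_zpowers, hyo, pow_one])
      have hle' : zpowers (y : G) ≤ (P : Subgroup G) := by
        have := hz.inf_normalizer_sylow P
        exact (le_inf le_rfl (zpowers_le_of_mem y.2.1)).trans (this.le.trans inf_le_right)
      have := hbot y (hle' (mem_zpowers _)) y.2.2
      rw [this, orderOf_one] at hyo
      exact hp.one_lt.ne hyo
    have := lin_bound hN (GT.eaRep hE hle) hi hnd (R := D.subgroupOf (Y ⊓ stabilizer G a))
      (fun g hg v hv => by
        have e := GT.eaRep_apply_eq_iff.1 hv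
        have e2 : (g : G) • v.val • a = v.val • a := by
          rw [← mul_smul, e, mul_smul, show (g : G) • a = a from g.2.2]
        exact GT.EAV.val_eq_one_iff.1 (hbot _ v.val_mem (h.one g hg _ _ e2 g.2.2)))
      (x := ⟨u, hu⟩) (fun e => hu1 (congrArg Subtype.val e)) (v := GT.EAV.mk hE x hx)
      (fun e => hx1 (GT.EAV.val_eq_one_iff.2 e)) (GT.eaRep_apply_eq_iff.2 hux)
      (by rw [GT.EAV.card_eq, hcP]; exact h1)
    rw [GT.EAV.card_eq, hcP, ← relIndex, relIndex_eq_index hH] at this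
    omega
  have hC := hP.cen_le P fun g hg x hx hx1 hgx => by
    obtain ⟨y, hy, e⟩ := hP.trans a (g • a)
    have := hfree (y⁻¹ * g) ⟨Y.mul_mem (Y.inv_mem (le_normalizer hy)) hg, by
      change (y⁻¹ * g) • a = a
      rw [mul_smul, ← e, inv_smul_smul]⟩ x hx hx1 (by
      rw [mul_assoc, hgx, ← mul_assoc, hP.comm _ (inv_mem hy) x hx, mul_assoc])
    rw [← inv_mul_eq_one.1 this]
    exact hy
  have hPn : (P : Subgroup G).Normal := by
    by_contra hPn
    have := h.nonaff hPD hP hF hC hPn h3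
    omega
  refine ⟨?_, fun g hg => ?_⟩
  · by_contra hn'
    push Not at hn'
    have : Y ⊓ stabilizer G a ≤ D := fun g hg => by
      by_cases e : g = 1
      · rw [e]
        exact D.one_mem
      · exact absurd hg.2 (hn' g e a)
    rw [sup_eq_right.2 this] at hH
    rw [hH, index_top] at h3
    omega
  · refine Finite.card_le_one_iff_subsingleton.2 ⟨fun b b' => Subtype.ext ?_⟩
    obtain ⟨x, hx, e⟩ := hP.trans b b'
    by_contra hne
    have hx1 : x ≠ 1 := fun e1 => hne (by rw [← e, e1, one_smul])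
    have hb : g • b.1 = b := b.2
    have hb' : g • b'.1 = b' := b'.2
    have h4 : x⁻¹ * (g * x * g⁻¹) = 1 := hP.free _ (mul_mem (inv_mem hx) (hPn.conj_mem x hx g)) b (by
      rw [mul_smul, mul_smul, mul_smul, inv_smul_eq_iff.2 hb.symm, e, hb', ← e, inv_smul_smul])
    have h5 : g * x = x * g := by
      rw [← mul_inv_eq_iff_eq_mul]
      exact (inv_mul_eq_one.1 h4).symm
    exact hg (hP.free g (hC x hx hx1 g h5) b hb)

/-- There is a bound N such that for every finite group G acting faithfully and transitively on a set with n ≥ N points, either G is primitive and a Frobenius permutation group (Frobenius as a permutation group: transitive, some non-identity element fixes a point, and no non-identity element fixes two points), or the subgroup generated by the derangements of G has index at most √n − 1 in G. -/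
theorem result : ∃ N : ℕ, ∀ (G Ω : Type*) [Group G] [Finite G] [MulAction G Ω] [FaithfulSMul G Ω] [Fintype Ω],
      MulAction.IsPretransitive G Ω → N ≤ Fintype.card Ω →
      (MulAction.IsPreprimitive G Ω ∧ (MulAction.IsPretransitive G Ω ∧ (∃ g : G, g ≠ 1 ∧ ∃ ω : Ω, g • ω = ω) ∧ ∀ g : G, g ≠ 1 → Nat.card (MulAction.fixedBy Ω g) ≤ 1)) ∨
      ((Subgroup.closure {g : G | ∀ ω : Ω, g • ω ≠ ω}).index : ℝ) ≤ Real.sqrt (Fintype.card Ω) - 1 := by
  obtain ⟨N, hN⟩ := exists_num
  refine ⟨max N 16, fun G Ω _ _ _ _ _ ht hn => ?_⟩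
  rw [← Nat.card_eq_fintype_card] at hn ⊢
  have h := ex_closure (G := G) (Ω := Ω)
  by_cases hm : Nat.card Ω < ((Subgroup.closure {g : G | ∀ ω : Ω, g • ω ≠ ω}).index + 1) ^ 2
  · exact Or.inl ⟨h.prim hm, ht, main hN h hm (le_of_max_le_left hn) (le_of_max_le_right hn)⟩
  · right
    rw [le_sub_iff_add_le]
    refine Real.le_sqrt_of_sq_le ?_
    exact_mod_cast not_lt.1 hm

end Cfsg.Agent.S5732
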