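import Mathlib
import Cfsg.Statements.S5736
import Cfsg.Agent.Cl.PSL2Bin

set_option autoImplicit false
open Cfsg

set_option linter.unusedVariables false

namespace Cfsg.Agent.S5736

open Cfsg.Agent.Cl.L2

section
open Matrix MulAction
open scoped MatrixGroups


end

/-- Let F be a finite field with q ≥ 4 elements, q ≠ 5, let G = PSL₂(F) and let H be a proper subgroup of G. Then the action of G on the cosets of H is binary if and only if H is trivial, or q is a power of 2 and H is a Sylow 2-subgroup, or q = 2^a with a odd and H has order 3. Here an action is binary (relational complexity 2) when, for every n ≥ 2 and all n-tuples I, J of points, if for every pair of positions some group element carries the corresponding pair of entries of I to those of J, then a single group element carries I to J. -/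
theorem result {F : Type*} [Field F] [Fintype F] (h4 : 4 ≤ Fintype.card F) (h5 : Fintype.card F ≠ 5)
    (H : Subgroup (Matrix.ProjectiveSpecialLinearGroup (Fin 2) F)) (hH : H ≠ ⊤) :
    (∀ (n : ℕ) (I J : Fin n → Matrix.ProjectiveSpecialLinearGroup (Fin 2) F ⧸ H), 2 ≤ n →
        (∀ i j : Fin n, i ≠ j → ∃ g : Matrix.ProjectiveSpecialLinearGroup (Fin 2) F, g • I i = J i ∧ g • I j = J j) → ∃ g : Matrix.ProjectiveSpecialLinearGroup (Fin 2) F, ∀ i, g • I i = J i) ↔
      (H = ⊥ ∨ ((∃ a : ℕ, Fintype.card F = 2 ^ a) ∧ ∃ P : Sylow 2 (Matrix.ProjectiveSpecialLinearGroup (Fin 2) F), H = P) ∨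
        ((∃ a : ℕ, Odd a ∧ Fintype.card F = 2 ^ a) ∧ Nat.card H = 3)) := by
  change Perm.Bin.BinSub H ↔ _
  rw [← Nat.card_eq_fintype_card] at h4 h5 ⊢
  have hm : ∀ a : ℕ, (Odd a → 2 ^ a % 3 = 2) ∧ (Even a → 2 ^ a % 3 = 1) := fun a =>
    ⟨by rintro ⟨k, rfl⟩; rw [pow_succ, pow_mul, Nat.mul_mod, Nat.pow_mod]; simp,
      by rintro ⟨k, rfl⟩; rw [← two_mul, pow_mul, Nat.pow_mod]; simp⟩
  have hc : (2 : F) = 0 → CharP F 2 := fun h2 => ringChar.eq_iff.1 (two_eq_zero_iff_ringChar.1 h2)
  have hc' : ∀ a, Nat.card F = 2 ^ a → (2 : F) = 0 := fun a h => by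
    have := charP_of_card h
    exact CharTwo.two_eq_zero
  constructor
  · intro hb
    refine or_iff_not_imp_left.2 fun h1 => ?_
    rcases Nat.even_or_odd (Nat.card H) with he | ho
    · by_cases h2 : (2 : F) = 0
      · have := hc h2
        obtain ⟨n, -, hn⟩ := exists_card_eq_prime_pow (F := F) 2
        obtain ⟨x, rfl⟩ := eq_uniS_of_binSub h2 hH he hb
        obtain ⟨P, hP⟩ := exists_uniS_eq_sylow 2 x
        exact Or.inl ⟨⟨n, hn⟩, P, hP.symm⟩
      · have := two_ne_zero_iff_odd.1 h2
        exact absurd hb (not_binSub_of_even h2 (by omega) hH he)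
    · obtain ⟨h2, h3, h6⟩ := card_eq_three_of_binSub hH h1 ho hb
      have := hc h2
      obtain ⟨n, -, hn⟩ := exists_card_eq_prime_pow (F := F) 2
      refine Or.inr ⟨⟨n, Nat.not_even_iff_odd.1 fun e => ?_, hn⟩, h6⟩
      have := (hm n).2 e
      omega
  · rintro (rfl | ⟨⟨a, ha⟩, P, rfl⟩ | ⟨⟨a, ho, ha⟩, h3⟩)
    · exact Perm.Bin.binSub_bot
    · have := hc (hc' a ha)
      obtain ⟨x, hx⟩ := exists_sylow_eq_uniS 2 P
      rw [hx]
      exact binSub_uniS (hc' a ha) x
    · have := (hm a).1 ho
      exact binSub_of_card_three (hc' a ha) (by omega) h3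

end Cfsg.Agent.S5736
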