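import Mathlib
import Cfsg.Statements.S5737
import Cfsg.Agent.Chev.SzBin
import Cfsg.Agent.Chev.SzLie
-- import your own Cfsg.Agent.* helpers here

set_option autoImplicit false
open Cfsg

namespace Cfsg.Agent.S5737

open Cfsg.Agent.Chev.Sz Cfsg.Agent.Perm.Bin

/-- Let G = Sz(q) be a Suzuki group, q = 2^(2a+1) with a ≥ 1 (realised inside Sp₄ over the field with q elements), and let H be a proper subgroup of G. Then the action of G on the cosets of H is binary if and only if H is trivial or H is the centre of a Sylow 2-subgroup of G. Here an action is binary (relational complexity 2) when, for every n ≥ 2 and all n-tuples I, J of points, if for every pair of positions some group element carries the corresponding pair of entries of I to those of J, then a single group element carries I to J. -/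
theorem result {F : Type*} [Field F] [Fintype F] (a : ℕ) (ha : 1 ≤ a) (hF : Fintype.card F = 2 ^ (2 * a + 1))
    (H : Subgroup (Cfsg.Lie.Sz F (2 ^ (a + 1)))) (hH : H ≠ ⊤) :
    (∀ (n : ℕ) (I J : Fin n → (Cfsg.Lie.Sz F (2 ^ (a + 1))) ⧸ H), 2 ≤ n →
        (∀ i j : Fin n, i ≠ j → ∃ g : (Cfsg.Lie.Sz F (2 ^ (a + 1))), g • I i = J i ∧ g • I j = J j) → ∃ g : (Cfsg.Lie.Sz F (2 ^ (a + 1))), ∀ i, g • I i = J i) ↔
      (H = ⊥ ∨ ∃ P : Sylow 2 (Cfsg.Lie.Sz F (2 ^ (a + 1))), H = (Subgroup.center (P : Subgroup (Cfsg.Lie.Sz F (2 ^ (a + 1))))).map (P : Subgroup (Cfsg.Lie.Sz F (2 ^ (a + 1)))).subtype) := by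
  have := SzF.of_card ha hF
  let e := (szEquiv F a).symm
  have h1 : H.map e.toMonoidHom ≠ ⊤ := by
    intro h
    apply hH
    rw [eq_top_iff]
    intro x _
    have : e x ∈ H.map e.toMonoidHom := h ▸ Subgroup.mem_top _
    simpa [Subgroup.mem_map_equiv] using this
  have h2 := binSub_iff h1
  rw [binSub_map_iff, isSylZ_map_iff, Subgroup.map_eq_bot_iff_of_injective _ e.injective] at h2
  exact h2
end Cfsg.Agent.S5737
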