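import Mathlib
import Cfsg.Statements.S5739
import Cfsg.Agent.Cl.ClassSinger

set_option autoImplicit false
open Cfsg

namespace Cfsg.Agent.S5739

/-- Let F ⊆ K be finite fields with |F| = q and [K : F] = n ≥ 2, and let M ≤ GL_F(K) be the Singer group of multiplications by non-zero elements of K. If g ∈ GL_F(K) does not normalise M, then the order of M ∩ gMg⁻¹ divides q^r − 1 for some proper divisor r of n. In particular, when n is prime, that order divides q − 1. -/
theorem result {F K : Type*} [Field F] [Fintype F] [Field K] [Fintype K] [Algebra F K] (n : ℕ) (hn : 2 ≤ n) (hdim : Module.finrank F K = n)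
    (g : (Module.End F K)ˣ) (hg : ((Units.map ((Algebra.lmul F K : K →ₐ[F] Module.End F K) : K →* Module.End F K)).range).map (MulAut.conj g).toMonoidHom ≠ (Units.map ((Algebra.lmul F K : K →ₐ[F] Module.End F K) : K →* Module.End F K)).range) :
    ∃ r : ℕ, 1 ≤ r ∧ r ∣ n ∧ r < n ∧ Nat.card ↥(((Units.map ((Algebra.lmul F K : K →ₐ[F] Module.End F K) : K →* Module.End F K)).range).map (MulAut.conj g).toMonoidHom ⊓ (Units.map ((Algebra.lmul F K : K →ₐ[F] Module.End F K) : K →* Module.End F K)).range) ∣ Fintype.card F ^ r - 1 := by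
  let L : Subalgebra F K :=
    { carrier := {a | ∃ b : K, ∀ x, (g : Module.End F K) (b * x) = a * (g : Module.End F K) x}
      mul_mem' := fun ⟨b, hb⟩ ⟨c, hc⟩ => ⟨b * c, fun x => by rw [mul_assoc, hb, hc, mul_assoc]⟩
      add_mem' := fun ⟨b, hb⟩ ⟨c, hc⟩ => ⟨b + c, fun x => by rw [add_mul, map_add, hb, hc, add_mul]⟩
      algebraMap_mem' := fun c => ⟨algebraMap F K c, fun x => by
        rw [← Algebra.smul_def, ← Algebra.smul_def, map_smul]⟩ }
  let E : IntermediateField F K := L.toIntermediateField' (Finite.isField_of_domain L)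
  have h1 : Module.finrank F E * Module.finrank E K = n := by
    rw [Module.finrank_mul_finrank, hdim]
  have : Finite (Module.End F K) := Finite.of_injective _ LinearMap.coe_injective
  refine ⟨Module.finrank F E, Module.finrank_pos, Dvd.intro _ h1, ?_, ?_⟩
  · refine lt_of_le_of_ne (Nat.le_of_dvd (by omega) (Dvd.intro _ h1)) fun h => hg ?_
    have h2 : E = ⊤ := IntermediateField.eq_of_le_of_finrank_eq le_top
      (by rw [h, IntermediateField.finrank_top', hdim])
    refine (Subgroup.eq_of_le_of_card_ge ?_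
      (Subgroup.card_map_of_injective (MulAut.conj g).injective).le).symm
    rintro _ ⟨a, rfl⟩
    obtain ⟨b, hb⟩ : (a : K) ∈ E := h2 ▸ IntermediateField.mem_top
    refine ⟨g⁻¹ * Cl.Cls.singerHom F K a * g, Cl.Cls.mem_singer_iff.2 fun c x => ?_,
      by simp [mul_assoc]⟩
    have h3 : ∀ x, ((g⁻¹ * Cl.Cls.singerHom F K a * g : (Module.End F K)ˣ) : Module.End F K) x =
        b * x := fun x => by
      rw [Units.val_mul, Units.val_mul, Module.End.mul_apply, Module.End.mul_apply,
        Cl.Cls.singerHom_apply, ← hb, ← Module.End.mul_apply, Units.inv_mul, Module.End.one_apply]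
    rw [h3, h3, mul_left_comm]
  · rw [← Nat.card_eq_fintype_card, ← Module.natCard_eq_pow_finrank, ← Nat.card_units]
    refine (Subgroup.card_dvd_of_le (K := ((Cl.Cls.singerHom F K).comp
      (Units.map (E.val : E →* K))).range) ?_).trans (Subgroup.card_range_dvd _)
    rintro _ ⟨⟨_, ⟨b, rfl⟩, hb⟩, a, rfl⟩
    have ha : (a : K) ∈ E := ⟨b, fun x => LinearMap.congr_fun (congrArg Units.val
      (mul_inv_eq_iff_eq_mul.1 hb)) x⟩
    exact ⟨Units.mk0 ⟨a, ha⟩ fun h => a.ne_zero (congrArg Subtype.val h),
      Units.ext rfl⟩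

end Cfsg.Agent.S5739
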