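import Mathlib
import Cfsg.Statements.S5747
-- import your own Cfsg.Agent.* helpers here

set_option autoImplicit false
open Cfsg

namespace Cfsg.Agent.S5747

open MulAction

section
variable {G Ω : Type*} [Group G] [MulAction G Ω]

/-- base for the subgroup `H` -/
def Base (H : Subgroup G) {t : ℕ} (f : Fin t → Ω) : Prop :=
  ∀ g ∈ H, (∀ i : Fin t, g • f i = f i) → g = 1

/-- irredundant base for the subgroup `H` -/
def Irr (H : Subgroup G) {t : ℕ} (f : Fin t → Ω) : Prop :=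
  Base H f ∧ ∀ i : Fin t, ∃ g ∈ H, (∀ j : Fin t, j < i → g • f j = f j) ∧ g • f i ≠ f i

theorem base_cons {H : Subgroup G} {t : ℕ} {x : Ω} {f : Fin t → Ω} :
    Base H (Fin.cons x f : Fin (t + 1) → Ω) ↔ Base (H ⊓ stabilizer G x) f := by
  simp only [Base, Fin.forall_fin_succ, Fin.cons_zero, Fin.cons_succ, Subgroup.mem_inf,
    mem_stabilizer_iff, and_imp]

theorem irr_cons {H : Subgroup G} {t : ℕ} {x : Ω} {f : Fin t → Ω} :
    Irr H (Fin.cons x f : Fin (t + 1) → Ω) ↔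
      ¬ H ≤ stabilizer G x ∧ Irr (H ⊓ stabilizer G x) f := by
  simp only [Irr, base_cons, Fin.forall_fin_succ, Fin.cons_zero, Fin.cons_succ, Subgroup.mem_inf,
    mem_stabilizer_iff, SetLike.not_le_iff_exists, Fin.succ_lt_succ_iff, Fin.succ_pos,
    Fin.not_lt_zero, IsEmpty.forall_iff, implies_true, true_and, forall_const, and_assoc]
  tauto

theorem Base.exists_irr {t : ℕ} : ∀ {H : Subgroup G} {f : Fin t → Ω}, Base H f →
    Irr H f ∨ ∃ s < t, ∃ f' : Fin s → Ω, Irr H f' := by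
  induction t with
  | zero => exact fun h => Or.inl ⟨h, fun i => i.elim0⟩
  | succ t ih =>
    intro H f h
    rw [← Fin.cons_self_tail f] at h ⊢
    have := ih (base_cons.mp h)
    by_cases hx : H ≤ stabilizer G (f 0)
    · rw [inf_eq_left.mpr hx] at this
      rcases this with h1 | ⟨s, hs, f', h1⟩
      · exact Or.inr ⟨t, by omega, _, h1⟩
      · exact Or.inr ⟨s, by omega, _, h1⟩
    · rcases this with h1 | ⟨s, hs, f', h1⟩
      · exact Or.inl (irr_cons.mpr ⟨hx, h1⟩)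
      · exact Or.inr ⟨s + 1, by omega, _, irr_cons.mpr ⟨hx, h1⟩⟩

theorem Base.exists_irr' {t : ℕ} {H K : Subgroup G} {f : Fin t → Ω} (h : Base H f) (hK : K ≤ H) :
    ∃ s, ∃ f' : Fin s → Ω, Irr K f' := by
  rcases Base.exists_irr (H := K) (fun g hg => h g (hK hg)) with h1 | ⟨s, -, h1⟩
  · exact ⟨_, _, h1⟩
  · exact ⟨s, h1⟩

/-- irredundant bases may be reordered -/
def Reord (Ω : Type*) [MulAction G Ω] (H : Subgroup G) : Prop :=
  ∀ (t : ℕ) (f : Fin t → Ω) (σ : Equiv.Perm (Fin t)), Irr H f → Irr H (f ∘ σ)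

theorem Reord.inf {H : Subgroup G} (h : Reord Ω H) {x : Ω} (hx : ¬ H ≤ stabilizer G x) :
    Reord Ω (H ⊓ stabilizer G x) := by
  intro t f σ hf
  have := h (t + 1) _ (Equiv.Perm.decomposeFin.symm (0, σ)) (irr_cons.mpr ⟨hx, hf⟩)
  have e : (Fin.cons x f : Fin (t + 1) → Ω) ∘ (Equiv.Perm.decomposeFin.symm (0, σ)) =
      Fin.cons x (f ∘ σ) := by
    ext i
    refine Fin.cases ?_ (fun i => ?_) i <;> simp
  rw [e] at this
  exact (irr_cons.mp this).2

theorem Reord.swap {H : Subgroup G} (h : Reord Ω H) {x y : Ω} {t : ℕ} {f : Fin t → Ω}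
    (hf : Irr H (Fin.cons x (Fin.cons y f : Fin (t + 1) → Ω) : Fin (t + 2) → Ω)) :
    Irr H (Fin.cons y (Fin.cons x f : Fin (t + 1) → Ω) : Fin (t + 2) → Ω) := by
  have := h _ _ (Equiv.swap 0 1) hf
  convert this using 1
  ext i
  refine Fin.cases ?_ (fun i => Fin.cases ?_ (fun i => ?_) i) i
  · simp
  · simp
  · rw [Function.comp, Equiv.swap_apply_of_ne_of_ne (Fin.succ_ne_zero _)
      (by simp [Fin.ext_iff])]
    simp

theorem Reord.eq {s : ℕ} : ∀ {H : Subgroup G}, Reord Ω H → ∀ {t : ℕ} {f : Fin s → Ω}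
    {f' : Fin t → Ω}, Irr H f → Irr H f' → s = t := by
  induction s with
  | zero =>
    intro H _ t f f' h h'
    rcases t with _ | t
    · rfl
    · obtain ⟨g, hg, -, h1⟩ := h'.2 0
      rw [h.1 g hg fun i => i.elim0, one_smul] at h1
      exact (h1 rfl).elim
  | succ s ih =>
    intro H hH t f f' h h'
    rcases t with _ | t
    · obtain ⟨g, hg, -, h1⟩ := h.2 0
      rw [h'.1 g hg fun i => i.elim0, one_smul] at h1
      exact (h1 rfl).elim
    have hb := h.1
    rw [← Fin.cons_self_tail f, irr_cons] at h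
    rw [← Fin.cons_self_tail f', irr_cons] at h'
    congr 1
    by_cases h1 : H ⊓ stabilizer G (f 0) ≤ stabilizer G (f' 0)
    · by_cases h2 : H ⊓ stabilizer G (f' 0) ≤ stabilizer G (f 0)
      · have e : H ⊓ stabilizer G (f' 0) = H ⊓ stabilizer G (f 0) :=
          le_antisymm (le_inf inf_le_left h2) (le_inf inf_le_left h1)
        exact ih (hH.inf h.1) h.2 (e ▸ h'.2)
      · obtain ⟨r, z, hz⟩ := hb.exists_irr'
          (inf_le_left.trans inf_le_left : H ⊓ stabilizer G (f' 0) ⊓ stabilizer G (f 0) ≤ H)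
        have := hH.swap (irr_cons.mpr ⟨h'.1, irr_cons.mpr ⟨h2, hz⟩⟩)
        exact ((irr_cons.mp (irr_cons.mp this).2).1 h1).elim
    · obtain ⟨r, z, hz⟩ := hb.exists_irr'
        (inf_le_left.trans inf_le_left : H ⊓ stabilizer G (f 0) ⊓ stabilizer G (f' 0) ≤ H)
      have h3 := irr_cons.mpr ⟨h1, hz⟩
      have h4 := (irr_cons.mp (hH.swap (irr_cons.mpr ⟨h.1, h3⟩))).2
      obtain rfl := ih (hH.inf h.1) h.2 h3
      exact ih (hH.inf h'.1) h4 h'.2

theorem irr_top {t : ℕ} (f : Fin t → Ω) : Irr (⊤ : Subgroup G) f ↔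
    ((∀ g : G, (∀ i : Fin t, g • f i = f i) → g = 1) ∧
      ∀ i : Fin t, ∃ g : G, (∀ j : Fin t, j < i → g • f j = f j) ∧ g • f i ≠ f i) := by
  simp [Irr, Base]

end


/-- Let a finite group G act on a finite set Ω. An irredundant base is a sequence of points ω₁, …, ω_t whose pointwise stabiliser is trivial and in which each ω_i is moved by some element fixing ω₁, …, ω_{i−1}. Then all irredundant bases have the same length if and only if every reordering of an irredundant base is again an irredundant base. -/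
theorem result {G Ω : Type*} [Group G] [Finite G] [MulAction G Ω] [Fintype Ω] :
    (∀ (t t' : ℕ) (f : Fin t → Ω) (f' : Fin t' → Ω), ((∀ g : G, (∀ i : Fin t, g • f i = f i) → g = 1) ∧ ∀ i : Fin t, ∃ g : G, (∀ j : Fin t, j < i → g • f j = f j) ∧ g • f i ≠ f i) → ((∀ g : G, (∀ i : Fin t', g • f' i = f' i) → g = 1) ∧ ∀ i : Fin t', ∃ g : G, (∀ j : Fin t', j < i → g • f' j = f' j) ∧ g • f' i ≠ f' i) → t = t') ↔
    (∀ (t : ℕ) (f : Fin t → Ω) (σ : Equiv.Perm (Fin t)), ((∀ g : G, (∀ i : Fin t, g • f i = f i) → g = 1) ∧ ∀ i : Fin t, ∃ g : G, (∀ j : Fin t, j < i → g • f j = f j) ∧ g • f i ≠ f i) → ((∀ g : G, (∀ i : Fin t, g • (f ∘ σ) i = (f ∘ σ) i) → g = 1) ∧ ∀ i : Fin t, ∃ g : G, (∀ j : Fin t, j < i → g • (f ∘ σ) j = (f ∘ σ) j) ∧ g • (f ∘ σ) i ≠ (f ∘ σ) i)) := by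
  simp only [← irr_top]
  constructor
  · intro h t f σ hf
    have hb : Base (⊤ : Subgroup G) (f ∘ σ) := fun g hg h1 =>
      hf.1 g hg fun i => by simpa using h1 (σ.symm i)
    rcases hb.exists_irr with h1 | ⟨s, hs, f', h1⟩
    · exact h1
    · exact absurd (h _ _ _ _ h1 hf) hs.ne
  · intro h t t' f f' h1 h2
    exact Reord.eq h h1 h2

end Cfsg.Agent.S5747
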