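import Mathlib
import Cfsg.Statements.S5748
import Cfsg.Agent.CIT.CAPSL
import Cfsg.Agent.S0205
-- import your own Cfsg.Agent.* helpers here

set_option autoImplicit false
open Cfsg

namespace Cfsg.Agent.S5748


/-- A finite non-abelian simple group in which commuting is a transitive relation on the non-identity elements (equivalently, every non-identity element has abelian centraliser) is isomorphic to PSL₂ over a field with 2^f elements for some f ≥ 2; conversely these groups have that property. -/
theorem result {G : Type*} [Group G] [Finite G] [IsSimpleGroup G] (hG : ¬ IsMulCommutative G) :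
    (∀ a b c : G, a ≠ 1 → b ≠ 1 → c ≠ 1 → Commute a b → Commute b c → Commute a c) ↔
    ∃ (F : Type) (_ : Field F) (_ : Fintype F) (f : ℕ), 2 ≤ f ∧ Fintype.card F = 2 ^ f ∧ Nonempty (G ≃* Matrix.ProjectiveSpecialLinearGroup (Fin 2) F) := by
  constructor
  · intro h
    have he : Even (Nat.card G) := by
      by_contra ho
      exact CIT.CA.not_isSolvable_of_simple hG (S0205.result (Nat.not_even_iff_odd.1 ho))
    refine CIT.CA.IAC.exists_equiv_of_simple (fun t a b ht ha hb => ?_) hG he
    by_cases ha1 : a = 1
    · rw [ha1]; exact Commute.one_left b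
    by_cases hb1 : b = 1
    · rw [hb1]; exact Commute.one_right a
    exact h a t b ha1 (Inv.ne_one_of_two ht) hb1 ha hb.symm
  · rintro ⟨F, _, _, f, -, hF, ⟨e⟩⟩ a b c - hb - h1 h2
    have := CIT.CA.charP_two_of_card hF
    exact CIT.CA.ct_of_equiv CharTwo.two_eq_zero e hb h1 h2.symm

end Cfsg.Agent.S5748
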