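import Mathlib
import Cfsg.Statements.S5751
import Cfsg.Agent.Chev.EntSupp
import Cfsg.Agent.Chev.GoodE8
-- import your own Cfsg.Agent.* helpers here

set_option autoImplicit false
open Cfsg

namespace Cfsg.Agent.S5751

section abstract

variable {G : Type*} [Group G]

theorem mem_core {M Y : Subgroup G} {x : G} :
    x ∈ (Y.subgroupOf M).normalCore.map M.subtype ↔ x ∈ M ∧ ∀ m ∈ M, m * x * m⁻¹ ∈ Y := by
  constructor
  · rintro ⟨⟨x, hx⟩, h, rfl⟩
    exact ⟨hx, fun m hm => h ⟨m, hm⟩⟩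
  · rintro ⟨hx, h⟩
    exact ⟨⟨x, hx⟩, fun m => h m m.2, rfl⟩

theorem mem_cj {Y : Subgroup G} {g x : G} :
    x ∈ Y.map (MulAut.conj g).toMonoidHom ↔ g⁻¹ * x * g ∈ Y := by
  constructor
  · rintro ⟨y, hy, rfl⟩
    simpa [mul_assoc] using hy
  · intro h
    exact ⟨_, h, by simp [mul_assoc]⟩

/-- The sequence of iterated cores. -/
def seqA (M : Subgroup G) (g : G) : ℕ → Subgroup G
  | 0 => M
  | i + 1 => ((seqA M g i ⊓ (seqA M g i).map (MulAut.conj g).toMonoidHom).subgroupOf M).normalCore.map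
      M.subtype

theorem mem_seqA_succ {M : Subgroup G} {g x : G} {i : ℕ} : x ∈ seqA M g (i + 1) ↔
    x ∈ M ∧ ∀ m ∈ M, m * x * m⁻¹ ∈ seqA M g i ∧ g⁻¹ * (m * x * m⁻¹) * g ∈ seqA M g i := by
  rw [seqA, mem_core]
  simp only [Subgroup.mem_inf, mem_cj]

theorem seqB_succ (M : Subgroup G) {g : G} (hg : g * g = 1) (i : ℕ) :
    (seqA M g (i + 1)).map (MulAut.conj g).toMonoidHom =
      ((seqA M g i ⊓ (seqA M g i).map (MulAut.conj g).toMonoidHom).subgroupOf
        (M.map (MulAut.conj g).toMonoidHom)).normalCore.map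
          (M.map (MulAut.conj g).toMonoidHom).subtype := by
  have hi : g⁻¹ = g := inv_eq_of_mul_eq_one_right hg
  have hc : ∀ y : G, g * (g * y) = y := fun y => by rw [← mul_assoc, hg, one_mul]
  ext x
  rw [mem_core, mem_cj, mem_seqA_succ]
  simp only [Subgroup.mem_inf, mem_cj, hi]
  refine and_congr Iff.rfl ⟨fun h m hm => ?_, fun h m hm => ?_⟩
  · have := h _ hm
    simp only [mul_inv_rev, hi, mul_assoc, hc, hg, mul_one] at this ⊢
    exact this.symm
  · have := h (g * m * g) (by simpa only [mul_assoc, hc, hg, mul_one] using hm)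
    simp only [mul_inv_rev, hi, mul_assoc, hc, hg, mul_one] at this ⊢
    exact this.symm

theorem conj_mem_seqA {M : Subgroup G} {g : G} (i : ℕ) {m x : G} (hm : m ∈ M)
    (hx : x ∈ seqA M g i) : m * x * m⁻¹ ∈ seqA M g i := by
  cases i with
  | zero => exact mul_mem (mul_mem hm hx) (inv_mem hm)
  | succ i =>
    rw [mem_seqA_succ] at hx ⊢
    refine ⟨mul_mem (mul_mem hm hx.1) (inv_mem hm), fun m' hm' => ?_⟩
    simpa only [mul_inv_rev, mul_assoc] using hx.2 _ (mul_mem hm' hm)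

theorem seqA_succ_le {M : Subgroup G} {g : G} (i : ℕ) : seqA M g (i + 1) ≤ seqA M g i :=
  fun x hx => by simpa using ((mem_seqA_succ.1 hx).2 1 (one_mem _)).1

theorem conj_mem_of_succ {M : Subgroup G} {g : G} {i : ℕ} {x : G} (hx : x ∈ seqA M g (i + 1)) :
    g⁻¹ * x * g ∈ seqA M g i := by simpa using ((mem_seqA_succ.1 hx).2 1 (one_mem _)).2

theorem normalCore_le_seqA (M : Subgroup G) (g : G) (i : ℕ) : M.normalCore ≤ seqA M g i := by
  induction i with
  | zero => exact M.normalCore_le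
  | succ i ih =>
    intro x hx
    rw [mem_seqA_succ]
    refine ⟨M.normalCore_le hx, fun m _ => ⟨ih (M.normalCore_normal.conj_mem _ hx m), ih ?_⟩⟩
    exact M.normalCore_normal.conj_mem' _ (M.normalCore_normal.conj_mem _ hx m) g

theorem seqA_eq_of_eq {M : Subgroup G} {g : G} (h : M = M.map (MulAut.conj g).toMonoidHom) (i : ℕ) :
    seqA M g i = M := by
  induction i with
  | zero => rfl
  | succ i ih =>
    ext x
    rw [mem_seqA_succ, ih]
    refine ⟨fun h => h.1, fun hx => ⟨hx, fun m hm => ?_⟩⟩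
    have h1 := mul_mem (mul_mem hm hx) (inv_mem hm)
    exact ⟨h1, mem_cj.1 (h ▸ h1)⟩

end abstract

open Cfsg.Lie Cfsg.Lie.ChevalleyDatum Cfsg.Agent.Chev Cfsg.Agent.Chev.EntSupp

instance good : chevE8.Good := Chk.good_E8

/-- The nodes. -/
def nd (i : Fin 8) : chevE8.Nd := i

/-- The coefficient of the branch node. -/
def lev : chevE8.Lat →+ ℤ where
  toFun γ := 10 * γ (nd 0) + 15 * γ (nd 1) + 20 * γ (nd 2) + 30 * γ (nd 3) + 24 * γ (nd 4) +
    18 * γ (nd 5) + 12 * γ (nd 6) + 6 * γ (nd 7)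
  map_zero' := by simp
  map_add' a b := by simp only [Pi.add_apply]; ring

theorem lev_apply (γ : chevE8.Lat) : lev γ = 10 * γ (nd 0) + 15 * γ (nd 1) + 20 * γ (nd 2) +
    30 * γ (nd 3) + 24 * γ (nd 4) + 18 * γ (nd 5) + 12 * γ (nd 6) + 6 * γ (nd 7) := rfl

theorem lev_tab : ∀ r < 240, lev (chevE8.wt r) ≤ 6 ∧ (120 ≤ r → 0 ≤ lev (chevE8.wt r)) ∧
    (2 ≤ lev (chevE8.wt r) → chevE8.wt r (nd 3) ≤ 1) := by decide +kernel

theorem lev_simple : ∀ j : Fin 8, lev (chevE8.wt (chevE8.simple j)) = if j = 3 then 1 else 0 := by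
  decide +kernel

theorem lev_top : lev (chevE8.wt 239) = 6 := by decide +kernel

theorem lev_pos (r : chevE8.Rt) (hr : chevE8.IsPosRoot r) : 0 ≤ lev (chevE8.wt r) :=
  (lev_tab r r.2).2.1 (by
    have h := (chevE8.isPos_iff_le r).1 hr
    have : chevE8.nroots = 240 := rfl
    omega)

/-- The nodes of the parabolic subgroup. -/
def SS : Set chevE8.Nd := {j | j ≠ nd 3}

theorem lev_SS : ∀ j ∈ SS, lev (chevE8.wt (chevE8.sr j)) = 0 := fun j hj =>
  (lev_simple j).trans (if_neg hj)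

theorem lev_three : lev (chevE8.wt (chevE8.sr (nd 3))) = 1 := (lev_simple 3).trans (if_pos rfl)

theorem arith {γ : chevE8.Lat} (h0 : γ ≠ 0) (h : ∀ j ∈ SS, γ j ≤ 0) {k : ℤ} (hk : 0 ≤ k)
    (h1 : k ≤ lev γ - γ (nd 3)) : k + 1 ≤ lev γ ∧ 2 ≤ lev γ := by
  have a0 := h (nd 0) (show nd 0 ≠ nd 3 by decide)
  have a1 := h (nd 1) (show nd 1 ≠ nd 3 by decide)
  have a2 := h (nd 2) (show nd 2 ≠ nd 3 by decide)
  have a4 := h (nd 4) (show nd 4 ≠ nd 3 by decide)
  have a5 := h (nd 5) (show nd 5 ≠ nd 3 by decide)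
  have a6 := h (nd 6) (show nd 6 ≠ nd 3 by decide)
  have a7 := h (nd 7) (show nd 7 ≠ nd 3 by decide)
  have a3 : 0 < γ (nd 3) := by
    by_contra h3
    apply h0
    rw [lev_apply] at h1
    have key : ∀ i : Fin 8, γ (nd i) = 0 := by
      intro i
      fin_cases i <;> simp only [Fin.zero_eta, Fin.mk_one, Fin.reduceFinMk] <;> omega
    exact funext key
  rw [lev_apply] at h1 ⊢
  refine ⟨by omega, ?_⟩
  by_contra h2
  have b3 : γ (nd 3) = 1 := by omega
  have b0 : γ (nd 0) = 0 ∨ γ (nd 0) = -1 ∨ γ (nd 0) = -2 := by omega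
  have b1 : γ (nd 1) = 0 ∨ γ (nd 1) = -1 := by omega
  have b2 : γ (nd 2) = 0 ∨ γ (nd 2) = -1 := by omega
  rcases b0 with b0 | b0 | b0 <;> rcases b1 with b1 | b1 <;> rcases b2 with b2 | b2 <;> omega

/-- The group `E₈(2)`. -/
abbrev GG : Type := chevE8.group (ZMod 2)

/-- The parabolic subgroup. -/
noncomputable def MM : Subgroup GG := ((chevE8.rootBN (ZMod 2)).P SS).subgroupOf _

theorem n_mem (j : chevE8.Nd) : chevE8.nE (ZMod 2) (chevE8.sr j) 1 ∈ chevE8.group (ZMod 2) :=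
  RootBN.N_le_G (R := chevE8.rootBN (ZMod 2)) ((chevE8.rootBN (ZMod 2)).s_mem j)

/-- The simple reflections. -/
def nn (j : chevE8.Nd) : GG := ⟨_, n_mem j⟩

theorem eq_one_of_diag {h : GL chevE8.Idx (ZMod 2)} (hh : h ∈ chevE8.diagonalSubgroup (ZMod 2)) :
    h = 1 := by
  obtain ⟨χ, -, rfl⟩ := chevE8.exists_char_of_mem_diagonal (ZMod 2) hh
  rw [Subsingleton.elim χ 1, charG_one]

theorem nn_sq (j : chevE8.Nd) : nn j * nn j = 1 :=
  Subtype.ext (eq_one_of_diag (RootBN.s_mul_s (R := chevE8.rootBN (ZMod 2)) j))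

theorem nn_mem {j : chevE8.Nd} (hj : j ∈ SS) : nn j ∈ MM :=
  RootBN.s_mem_P (R := chevE8.rootBN (ZMod 2)) hj

theorem coatom : IsCoatom MM := by
  constructor
  · intro h
    have : nn (nd 3) ∈ MM := h ▸ Subgroup.mem_top _
    exact (RootBN.s_mem_P_iff (R := chevE8.rootBN (ZMod 2))).1 this rfl
  · intro K hK
    have hP : (chevE8.rootBN (ZMod 2)).P SS ≤ K.map (chevE8.group (ZMod 2)).subtype := fun x hx =>
      ⟨⟨x, RootBN.P_le_G SS hx⟩, hK.le hx, rfl⟩
    have h1 := RootBN.eq_P_nodes (R := chevE8.rootBN (ZMod 2)) ((RootBN.B_le_P SS).trans hP)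
      (Subgroup.map_subtype_le K)
    have h2 : SS ⊆ (chevE8.rootBN (ZMod 2)).nodes (K.map (chevE8.group (ZMod 2)).subtype) :=
      RootBN.P_le_P_iff.1 (h1 ▸ hP)
    by_cases h3 : nd 3 ∈ (chevE8.rootBN (ZMod 2)).nodes (K.map (chevE8.group (ZMod 2)).subtype)
    · have h4 : (chevE8.rootBN (ZMod 2)).nodes (K.map (chevE8.group (ZMod 2)).subtype) = Set.univ :=
        Set.eq_univ_of_forall fun j => by
          by_cases e : j = nd 3
          · exact e ▸ h3
          · exact h2 e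
      rw [h4, RootBN.P_univ] at h1
      rw [eq_top_iff]
      intro x _
      have : (x : GL chevE8.Idx (ZMod 2)) ∈ K.map (chevE8.group (ZMod 2)).subtype := h1 ▸ x.2
      obtain ⟨y, hy, e⟩ := this
      exact (Subtype.ext e : y = x) ▸ hy
    · refine absurd (fun x hx => ?_) hK.not_ge
      have h4 : (chevE8.rootBN (ZMod 2)).nodes (K.map (chevE8.group (ZMod 2)).subtype) ⊆ SS :=
        fun j hj e => h3 (e ▸ hj)
      exact RootBN.P_mono h4 (h1 ▸ (⟨x, hx, rfl⟩ : (x : GL chevE8.Idx (ZMod 2)) ∈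
        K.map (chevE8.group (ZMod 2)).subtype))

/-- The level condition. -/
def Lev (k : ℤ) (Y : Subgroup GG) : Prop :=
  ∀ y ∈ Y, ∀ γ ∈ Supp chevE8 (ZMod 2) (y : GL chevE8.Idx (ZMod 2)), γ ≠ 0 → k ≤ lev γ

theorem lev_step {i : ℕ} {k : ℤ} (hk : 0 ≤ k) (h : Lev k (seqA MM (nn (nd 3)) i)) :
    Lev (k + 1) (seqA MM (nn (nd 3)) (i + 1)) ∧ Lev 2 (seqA MM (nn (nd 3)) (i + 1)) := by
  have key : ∀ y ∈ seqA MM (nn (nd 3)) (i + 1),
      ∀ γ ∈ Supp chevE8 (ZMod 2) (y : GL chevE8.Idx (ZMod 2)), γ ≠ 0 → k + 1 ≤ lev γ ∧ 2 ≤ lev γ := by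
    intro y hy γ hγ h0
    obtain ⟨_, ⟨z, hz, rfl⟩, δ, hδ, h1, h2, h3⟩ := exists_antidom chevE8 (ZMod 2) lev lev_SS
      (Y := Subtype.val '' (seqA MM (nn (nd 3)) (i + 1) : Set GG)) (by
        rintro j hj _ ⟨y, hy, rfl⟩
        exact ⟨(nn j)⁻¹ * y * (nn j)⁻¹⁻¹, conj_mem_seqA _ (inv_mem (nn_mem hj)) hy, by
          rw [inv_inv]; rfl⟩) ⟨y, hy, rfl⟩ hγ h0
    rw [← h2]
    refine arith h1 h3 hk ?_
    have h4 := h _ (conj_mem_of_succ hz) (rho chevE8 (nd 3) δ)
      (rho_mem_Supp chevE8 (ZMod 2) (nd 3) (by simpa [nn, mul_assoc] using hδ))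
      (rho_ne_zero chevE8 _ h1)
    rwa [rho, map_sub, map_zsmul, lev_three, smul_eq_mul, mul_one] at h4
  exact ⟨fun y hy γ hγ h0 => (key y hy γ hγ h0).1, fun y hy γ hγ h0 => (key y hy γ hγ h0).2⟩

theorem lev_zero : Lev 0 (seqA MM (nn (nd 3)) 0) := fun _ hy _ hγ _ =>
  mem_of_mem_Supp chevE8 (ZMod 2) (mem_Ent_of_mem_P chevE8 (ZMod 2) lev_pos lev_SS hy) hγ

theorem lev_six : Lev 7 (seqA MM (nn (nd 3)) 6) :=
  (lev_step (by norm_num) (lev_step (by norm_num) (lev_step (by norm_num) (lev_step (by norm_num)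
    (lev_step (by norm_num) (lev_step le_rfl lev_zero).2).1).1).1).1).1

theorem six_eq : seqA MM (nn (nd 3)) 6 = ⊥ := by
  rw [eq_bot_iff]
  intro y hy
  have h1 : (y : GL chevE8.Idx (ZMod 2)) ∈ chevE8.borelSubgroup (ZMod 2) := by
    refine mem_borel_of_lexCone chevE8 (ZMod 2) lev_pos y.2 (mem_Ent_of_Supp _ _ fun γ hγ => ?_)
    by_cases h0 : γ = 0
    · exact h0 ▸ zero_mem _
    · have := lev_six y hy γ hγ h0
      exact Or.inl (by omega)
  obtain ⟨u, hu, h, hh, e⟩ := (chevE8.mem_borel_iff (ZMod 2) _).1 h1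
  rw [eq_one_of_diag hh, mul_one] at e
  by_contra h2
  obtain ⟨r, hr⟩ := exists_root_mem_Supp chevE8 (ZMod 2) (e ▸ hu) fun h => h2 (Subtype.ext h)
  have h3 := lev_six y hy _ hr (chevE8.wt_ne_zero r)
  have h4 := (lev_tab r r.2).1
  omega

theorem level_le (i : ℕ) : ∀ y : GG, (y : GL chevE8.Idx (ZMod 2)) ∈
    chevE8.XS (ZMod 2) {r | (i : ℤ) + 1 ≤ lev (chevE8.wt r)} → y ∈ seqA MM (nn (nd 3)) i := by
  have hU : ∀ k : ℤ, 0 < k → ∀ y : GG, (y : GL chevE8.Idx (ZMod 2)) ∈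
      chevE8.XS (ZMod 2) {r | k ≤ lev (chevE8.wt r)} → y ∈ MM := fun k hk y hy => by
    refine RootBN.U_le_P (R := chevE8.rootBN (ZMod 2)) SS ?_
    rw [← rootBN_XS] at hy
    refine RootBN.XS_le_U (fun r hr => ?_) hy
    by_contra h
    have := lev_pos _ ((chevE8.isPos_ng r).2 h)
    rw [wt_ng, map_neg] at this
    have : k ≤ lev (chevE8.wt r) := hr
    omega
  induction i with
  | zero => exact hU _ (by norm_num)
  | succ i ih =>
    intro y hy
    rw [mem_seqA_succ]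
    refine ⟨hU _ (by positivity) y hy, fun m hm => ?_⟩
    have h1 := conj_mem_level chevE8 (ZMod 2) lev_pos lev_SS (by positivity) hm _ hy
    rw [← rootBN_XS] at h1
    constructor
    · refine ih _ ?_
      rw [← rootBN_XS]
      refine RootBN.XS_mono (fun r hr => ?_) h1
      simp only [Set.mem_ofPred_eq] at hr ⊢
      push_cast at hr
      omega
    · refine ih _ ?_
      rw [← rootBN_XS]
      have h2 := RootBN.conj_XS (T := {r | (i : ℤ) + 1 ≤ lev (chevE8.wt r)})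
        (inv_mem ((chevE8.rootBN (ZMod 2)).s_mem (nd 3))) (fun r hr => by
          rw [RootBN.w_s_inv, rootBN_w, rootBN_s, chevE8.wOf_nE _ _ one_ne_zero, refl_sr,
            Set.mem_ofPred_eq, wt_sref_eq, rho, map_sub, map_zsmul, lev_three, smul_eq_mul, mul_one]
          simp only [Set.mem_ofPred_eq] at hr
          push_cast at hr
          have := (lev_tab r r.2).2.2 (by omega)
          omega) h1
      rw [inv_inv] at h2
      exact h2

theorem five_ne : seqA MM (nn (nd 3)) 5 ≠ ⊥ := by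
  intro h
  let r : chevE8.Rt := ⟨239, by decide⟩
  have h1 := level_le 5 ⟨_, chevE8.X_mem_group (ZMod 2) r 1⟩
    (chevE8.X_mem_XS (ZMod 2) (r := r) (by exact lev_top.ge) 1)
  rw [h, Subgroup.mem_bot, Subtype.ext_iff] at h1
  exact one_ne_zero ((chevE8.X_eq_one_iff (ZMod 2) r 1).1 h1)


/-- An extremal example for iterated cores of conjugate maximal subgroups: there exist a finite group G and two distinct conjugate maximal subgroups M₁, M₂ of G, with M₁ having trivial core in G, such that, if we define two descending sequences of subgroups by A₀ = M₁, B₀ = M₂ and, for every i, A_{i+1} = the core in M₁ of A_i ∩ B_i and B_{i+1} = the core in M₂ of A_i ∩ B_i (the core in M of a subgroup Y ≤ M is the largest normal subgroup of M contained in Y), the subgroup A₆ is trivial while A₅ is not (so the index 6 cannot be lowered to 5). (One example is a maximal parabolic subgroup of the Chevalley group of type E₈ over a finite field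 and a suitable conjugate of it.) -/
theorem result :
    ∃ (G : Type) (_ : Group G) (_ : Finite G) (M₁ M₂ : Subgroup G) (g : G) (A B : ℕ → Subgroup G),
      IsCoatom M₁ ∧ M₂ = M₁.map (MulAut.conj g).toMonoidHom ∧ M₁ ≠ M₂ ∧ M₁.normalCore = ⊥ ∧ A 0 = M₁ ∧ B 0 = M₂ ∧
      (∀ i, A (i + 1) = ((A i ⊓ B i).subgroupOf M₁).normalCore.map M₁.subtype) ∧
      (∀ i, B (i + 1) = ((A i ⊓ B i).subgroupOf M₂).normalCore.map M₂.subtype) ∧ A 6 = ⊥ ∧ A 5 ≠ ⊥ := by
  refine ⟨GG, inferInstance, inferInstance, MM, _, nn (nd 3), seqA MM (nn (nd 3)),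
    fun i => (seqA MM (nn (nd 3)) i).map (MulAut.conj (nn (nd 3))).toMonoidHom, coatom, rfl,
    fun h => five_ne ?_, ?_, rfl, rfl, fun i => rfl, seqB_succ MM (nn_sq _), six_eq, five_ne⟩
  · rw [seqA_eq_of_eq h, ← seqA_eq_of_eq h 6, six_eq]
  · exact eq_bot_iff.2 (six_eq ▸ normalCore_le_seqA MM _ 6)

end Cfsg.Agent.S5751
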