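import Cfsg.Statements.S5752
import Mathlib
import Cfsg.Agent.Perm.TW
-- import your own Cfsg.Agent.* helpers here

set_option autoImplicit false
open Cfsg

namespace Cfsg.Agent.S5752

open Subgroup Cfsg.Agent.Perm Cfsg.Agent.GT

/-- A form of the Thompson–Wielandt Theorem on primitive permutation groups. Let G be a finite group and M₁, M₂ two distinct conjugate maximal subgroups of G with trivial core in G; define two descending sequences of subgroups by A₀ = M₁, B₀ = M₂ and, for every i, A_{i+1} = the core in M₁ of A_i ∩ B_i and B_{i+1} = the core in M₂ of A_i ∩ B_i (the core in M of a subgroup Y ≤ M is the largest normal subgroup of M contained in Y). If A₂ and B₂ are both non-trivial, then for some prime p the subgroup generated by A₂ and B₂ is a p-group, and for each j the generalized Fitting subgroups of M_j and of its first core (A₁, resp. B₁) are their largest normal p-subgroups. -/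
theorem result {G : Type*} [Group G] [Finite G] (M₁ M₂ : Subgroup G) (hmax : IsCoatom M₁) (g : G)
    (hconj : M₂ = M₁.map (MulAut.conj g).toMonoidHom) (hne : M₁ ≠ M₂) (hcore : M₁.normalCore = ⊥)
    (A B : ℕ → Subgroup G) (hA0 : A 0 = M₁) (hB0 : B 0 = M₂)
    (hA : ∀ i, A (i + 1) = ((A i ⊓ B i).subgroupOf M₁).normalCore.map M₁.subtype)
    (hB : ∀ i, B (i + 1) = ((A i ⊓ B i).subgroupOf M₂).normalCore.map M₂.subtype) (hA2 : A 2 ≠ ⊥) (hB2 : B 2 ≠ ⊥) :
    ∃ p : ℕ, p.Prime ∧ IsPGroup p ↥(A 2 ⊔ B 2) ∧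
      Cfsg.generalizedFittingSubgroup ↥M₁ = Cfsg.pCore p ↥M₁ ∧ Cfsg.generalizedFittingSubgroup ↥(A 1) = Cfsg.pCore p ↥(A 1) ∧
      Cfsg.generalizedFittingSubgroup ↥M₂ = Cfsg.pCore p ↥M₂ ∧ Cfsg.generalizedFittingSubgroup ↥(B 1) = Cfsg.pCore p ↥(B 1) := by
  have h : TWPair M₁ M₂ := hconj ▸ TWPair.of_isCoatom hmax hcore g (hconj ▸ hne)
  have e1 : A 1 = coreIn M₁ M₂ := by
    rw [hA 0, hA0, hB0]
    exact coreIn_congr (Y := M₁ ⊓ M₂) ((coreIn_le_right _ _).trans inf_le_right)
      (le_inf (coreIn_le_left _ _) (coreIn_le_right _ _))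
  have e2 : B 1 = coreIn M₂ M₁ := by
    rw [hB 0, hA0, hB0]
    exact coreIn_congr (Y := M₁ ⊓ M₂) ((coreIn_le_right _ _).trans inf_le_left)
      (le_inf (coreIn_le_right _ _) (coreIn_le_left _ _))
  have key : ∀ M N : Subgroup G, coreIn M (coreIn N M) ≤ coreIn M N := fun M N =>
    le_coreIn (coreIn_le_left _ _) ((coreIn_le_right _ _).trans (coreIn_le_left _ _))
      (le_normalizer_coreIn _ _)
  have e3 : A 2 = coreIn M₁ (coreIn M₂ M₁) := by
    rw [hA 1, e1, e2]
    exact coreIn_congr (Y := _ ⊓ _) ((coreIn_le_right _ _).trans inf_le_right)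
      (le_inf (key _ _) (coreIn_le_right _ _))
  have e4 : B 2 = coreIn M₂ (coreIn M₁ M₂) := by
    rw [hB 1, e1, e2]
    exact coreIn_congr (Y := _ ⊓ _) ((coreIn_le_right _ _).trans inf_le_left)
      (le_inf (coreIn_le_right _ _) (key _ _))
  rw [e3] at hA2 ⊢
  rw [e4] at hB2 ⊢
  rw [e1, e2]
  obtain ⟨p, hp, h1, h2, h3, h4⟩ := h.thompson_wielandt hA2 hB2
  refine ⟨p, hp, ?_, genFitting_eq_pCore_of_isPGroup hp h3,
    genFitting_eq_pCore_of_isPGroup hp (h3.to_le TWPair.sub₁.genFittingOf_le),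
    genFitting_eq_pCore_of_isPGroup hp h4,
    genFitting_eq_pCore_of_isPGroup hp (h4.to_le TWPair.sub₁.genFittingOf_le)⟩
  have := Fact.mk hp
  refine (isPGroup_pCoreOf p (M₁ ⊓ M₂)).to_le (sup_le ?_ ?_)
  · exact le_pCoreOf ((coreIn_le_right _ _).trans TWPair.subH'.le)
      (inf_le_left.trans (le_normalizer_coreIn _ _)) h1
  · exact le_pCoreOf ((coreIn_le_right _ _).trans TWPair.subH.le)
      (inf_le_right.trans (le_normalizer_coreIn _ _)) h2

end Cfsg.Agent.S5752
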