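import Mathlib
import Cfsg.Agent.Perm.BinAffE
import Cfsg.Agent.Perm.AffCoord
import Cfsg.Agent.Perm.Binary
import Cfsg.Statements.S5753

set_option autoImplicit false
open Cfsg

namespace Cfsg.Agent.S5753

/-- The binary primitive permutation groups of affine type (the known proof uses the classification of the finite simple groups). Let a finite group G act faithfully and primitively on a finite set Ω, with a non-trivial abelian normal subgroup, and suppose the action is binary: for every n ≥ 2 and all n-tuples I, J of points, if for every pair of positions some element of G carries the corresponding pair of entries of I to those of J, then a single element carries I to J. Then either Ω has a prime number of points and every point stabilizer has order at most 2, or Ω can be identified with a field E that is a quadratic extension of a subfield F in such a way that the permutations induced by G are exactly the maps x ↦ a·φ(x) + b with a ∈ E of norm 1 over F, φ an automorphism of E over F and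 b ∈ E (the affine group of the anisotropic plane orthogonal group). -/
theorem result {G Ω : Type*} [Group G] [Finite G] [MulAction G Ω] [FaithfulSMul G Ω] [Fintype Ω]
    (hprim : MulAction.IsPreprimitive G Ω)
    (haff : ∃ N : Subgroup G, N.Normal ∧ N ≠ ⊥ ∧ IsMulCommutative ↥N)
    (hbin : ∀ (n : ℕ) (I J : Fin n → Ω), 2 ≤ n →
      (∀ i j : Fin n, i ≠ j → ∃ g : G, g • I i = J i ∧ g • I j = J j) → ∃ g : G, ∀ i, g • I i = J i) :
    ((Fintype.card Ω).Prime ∧ ∀ ω : Ω, Nat.card ↥(MulAction.stabilizer G ω) ≤ 2) ∨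
    (∃ (F E : Type) (_ : Field F) (_ : Fintype F) (_ : Field E) (_ : Fintype E) (_ : Algebra F E) (e : Ω ≃ E),
        Module.finrank F E = 2 ∧
        ∀ σ : Equiv.Perm Ω, σ ∈ (MulAction.toPermHom G Ω).range ↔
          ∃ (a b : E) (φ : E ≃ₐ[F] E), Algebra.norm F a = 1 ∧ ∀ ω : Ω, e (σ ω) = a * φ (e ω) + b) := by
  classical
  obtain ⟨N, _, hN, _⟩ := haff
  have : Group.IsSolvable N := Group.isSolvable_of_comm fun a b => mul_comm' a b
  obtain ⟨M, p, hM, -, hp, hE⟩ := Agent.GT.exists_isMinNormal_elementary_le (H := N) hN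
  have := hM.1
  have : Fact p.Prime := ⟨hp⟩
  have := Perm.isPretransitive_of_normal_ne_bot hprim M hM.2.1
  have : Nontrivial Ω := by
    by_contra h
    rw [not_nontrivial_iff_subsingleton] at h
    exact hM.2.1 (eq_bot_iff.mpr fun g _ =>
      eq_of_smul_eq_smul (α := Ω) fun _ => Subsingleton.elim _ _)
  obtain ⟨a⟩ : Nonempty Ω := inferInstance
  obtain ⟨V, _, _, e, ρ, h1, h2, h3, h4⟩ := Perm.exists_affine_coord hE a
  have : Finite V := Finite.of_equiv _ e
  have : Nontrivial V := e.symm.nontrivial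
  let H := MulAction.stabilizer G a
  letI : DistribMulAction H V := DistribMulAction.compHom V (ρ.comp H.subtype)
  have h5 : ∀ (g : H) (x : Ω), e ((g : G) • x) = g • e x := fun g x => by
    rw [h2, show (g : G) • a = a from g.2, h1, add_zero]; rfl
  choose m hm hm' using h3
  have h6 : ∀ g : G, ∃ k : H, ∀ x, e (g • x) = k • e x + e (g • a) := fun g =>
    ⟨⟨m (-e (g • a)) * g, e.injective (by rw [mul_smul, hm', h1, add_neg_cancel])⟩, fun x => by
      rw [← h5, mul_smul, hm', neg_add_cancel_right]⟩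
  have hirr : ∀ X : AddSubgroup V, (∀ g : H, ∀ v ∈ X, g • v ∈ X) → X = ⊥ ∨ X = ⊤ := fun X hX => by
    have hb : MulAction.IsBlock G {x | e x ∈ X} := MulAction.isBlock_iff_smul_eq_of_mem.mpr
      fun {g x} hx hg => Set.eq_of_subset_of_ncard_le (by
        rintro _ ⟨y, hy, rfl⟩
        obtain ⟨k, hk⟩ := h6 g
        have := add_mem (hX k _ (sub_mem hy hx)) hg
        rw [hk, smul_sub, ← add_assoc, sub_add_cancel, ← hk] at this
        exact this) (Set.ncard_smul_set _ _).ge
    rcases hprim.isTrivialBlock_of_isBlock hb with h | h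
    · exact Or.inl (eq_bot_iff.mpr fun v hv => by
        have := h (x := e.symm v) (by simpa using hv) (y := a) (by simp [h1])
        rw [AddSubgroup.mem_bot, ← h1, ← this, e.apply_symm_apply])
    · exact Or.inr (eq_top_iff.mpr fun v _ => by simpa using h.ge (Set.mem_univ (e.symm v)))
  have hy : Perm.BA.Hyp H V := by
    refine ⟨fun k y => ?_, ?_, fun g hg => Subtype.ext (eq_of_smul_eq_smul (α := Ω) fun x =>
      e.injective (by rw [h5, hg]; simp))⟩
    · have h7 : ∀ c : {c // ∃ g : H, c = 0 ∧ g = k ∨ ∃ v, v - g • v = y - k • y ∧ c = y - v},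
          ∃ g : G, g • e.symm y = e.symm (k • y) ∧ g • e.symm c = e.symm c := by
        rintro ⟨c, g, hc⟩
        have h7 : g • (y - c) = k • y - c := by
          rcases hc with ⟨rfl, rfl⟩ | ⟨v, h7, rfl⟩
          · simp
          · rw [sub_sub_cancel]; linear_combination (norm := abel1) -h7
        refine ⟨m c * g * m (-c), e.injective ?_, e.injective ?_⟩ <;>
          simp [mul_smul, hm', h5, ← sub_eq_add_neg, h7]
      obtain ⟨g, hg⟩ := Perm.Bin.IsBin.finite hbin
        (ι := Option {c // ∃ g : H, c = 0 ∧ g = k ∨ ∃ v, v - g • v = y - k • y ∧ c = y - v})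
        (fun i => i.elim (e.symm y) fun c => e.symm c) (fun i => i.elim (e.symm (k • y)) fun c => e.symm c)
        (by
          rintro (_ | c) (_ | d)
          · exact (h7 ⟨0, k, Or.inl ⟨rfl, rfl⟩⟩).imp fun _ h => ⟨h.1, h.1⟩
          · exact h7 d
          · exact (h7 c).imp fun _ h => h.symm
          · exact ⟨1, one_smul _ _, one_smul _ _⟩)
      have h8 : g • a = a := by simpa [← h1] using hg (some ⟨0, k, Or.inl ⟨rfl, rfl⟩⟩)
      have h9 := h5 ⟨g, h8⟩
      refine ⟨⟨g, h8⟩, ?_, fun g' v hv => ?_⟩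
      · simpa [h9] using congrArg e (hg none)
      · simpa [h9] using congrArg e (hg (some ⟨_, g', Or.inr ⟨v, hv, rfl⟩⟩))
    · rcases hirr (AddMonoidHom.id V + AddMonoidHom.id V).ker (fun g v hv => by
        rw [AddMonoidHom.mem_ker] at hv ⊢
        exact (smul_add g v v).symm.trans ((congrArg (g • ·) hv).trans (smul_zero g))) with h | h
      · exact Or.inr fun v hv => AddSubgroup.mem_bot.mp (h ▸ hv)
      · exact Or.inl fun v => AddMonoidHom.mem_ker.mp (h ▸ AddSubgroup.mem_top v)
  by_cases hc : ∀ r s : H, Perm.BA.Rf V r → Perm.BA.Rf V s → Commute r s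
  · obtain ⟨h7, h8⟩ := hy.small hirr hc
    refine Or.inl ⟨by rwa [← Nat.card_eq_fintype_card, Nat.card_congr e], fun ω => ?_⟩
    obtain ⟨g, rfl⟩ := MulAction.exists_smul_eq G a ω
    rwa [← Nat.card_congr (MulAction.stabilizerEquivStabilizer (rfl : g • a = g • a)).toEquiv]
  push Not at hc
  obtain ⟨r, s, hr, hs, hc⟩ := hc
  obtain ⟨E, _, e₁, φ, h7, h8, h9, h10⟩ := Perm.BA.NC.exists_field ⟨hy, hr, hs, hc⟩ hirr
  have : Finite E := Finite.of_equiv _ e₁.toEquiv
  obtain ⟨F, K, _, _, _, _, _, e₂, ψ, h11, h12, h13, h14⟩ := Perm.BA.exists_galois φ h7 h8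
  refine Or.inr ⟨F, K, ‹_›, ‹_›, ‹_›, ‹_›, ‹_›, e.trans (e₁.toEquiv.trans e₂.toEquiv), h11, fun σ => ⟨?_, ?_⟩⟩
  · rintro ⟨g, rfl⟩
    obtain ⟨k, hk⟩ := h6 g
    obtain ⟨c, h15, h16⟩ := h9 k
    have h17 := (h14 (e₂ c)).mpr (by rw [← h12, ← map_mul, h15, map_one])
    rcases h16 with h16 | h16
    · exact ⟨_, e₂ (e₁ (e (g • a))), 1, h17, fun ω => by simp [hk ω, h16]⟩
    · exact ⟨_, e₂ (e₁ (e (g • a))), ψ, h17, fun ω => by simp [hk ω, h16, h12]⟩
  · rintro ⟨c, b, χ, h15, h16⟩
    obtain ⟨c, rfl⟩ := e₂.surjective c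
    obtain ⟨⟨g, hg⟩, k, hk⟩ := h10 c (e₂.injective (by rw [map_mul, h12, (h14 _).mp h15, map_one]))
    rcases h13 χ with rfl | rfl
    · exact ⟨m (e₁.symm (e₂.symm b)) * g, Equiv.ext fun ω =>
        (e.trans (e₁.toEquiv.trans e₂.toEquiv)).injective (by rw [h16]; simp [mul_smul, hm', h5, hg])⟩
    · exact ⟨m (e₁.symm (e₂.symm b)) * k, Equiv.ext fun ω =>
        (e.trans (e₁.toEquiv.trans e₂.toEquiv)).injective (by
          rw [h16]; simp [mul_smul, hm', h5, hk, h12])⟩

end Cfsg.Agent.S5753
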