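import Mathlib
import Cfsg.Statements.S5754
-- import your own Cfsg.Agent.* helpers here

set_option autoImplicit false
open Cfsg

namespace Cfsg.Agent.S5754

open QuadraticMap

theorem exists_refl {F V : Type*} [Field F] [AddCommGroup V] [Module F V] (Q : QuadraticForm F V)
    {w : V} (hw : Q w ≠ 0) :
    ∃ σ : Q.IsometryEquiv Q, ∀ x, σ x = x - (polar Q x w / Q w) • w := by
  let f : Module.Dual F V := (Q w)⁻¹ • (polarBilin Q).flip w
  have hf : ∀ x, f x = polar Q x w / Q w := fun x => by
    simp [f, div_eq_inv_mul]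
  have h2 : f w = 2 := by
    rw [hf, polar_self, two_smul, div_eq_iff hw]; ring
  refine ⟨{ Module.reflection h2 with map_app' := fun x => ?_ }, fun x => ?_⟩
  · change Q (Module.reflection h2 x) = Q x
    rw [Module.reflection_apply, hf, sub_eq_add_neg, ← neg_smul, QuadraticMap.map_add Q,
      QuadraticMap.map_smul, polar_smul_right]
    simp only [smul_eq_mul]
    field_simp
    ring
  · change Module.reflection h2 x = _
    rw [Module.reflection_apply, hf]

theorem polar_iso {F V : Type*} [Field F] [AddCommGroup V] [Module F V] {Q : QuadraticForm F V}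
    (φ : Q.IsometryEquiv Q) (x y : V) : polar Q (φ x) (φ y) = polar Q x y := by
  simp only [polar, ← map_add, φ.map_app]

theorem witt {F V ι : Type*} [Field F] [AddCommGroup V] [Module F V] {Q : QuadraticForm F V}
    (hQ : Q.Anisotropic) (a b : ι → V) (h1 : ∀ i, Q (a i) = Q (b i))
    (h2 : ∀ i j, polar Q (a i) (a j) = polar Q (b i) (b j)) (s : Finset ι) :
    ∃ φ : Q.IsometryEquiv Q, ∀ i ∈ s, φ (a i) = b i := by
  classical
  induction s using Finset.induction_on with
  | empty => exact ⟨QuadraticMap.IsometryEquiv.refl Q, by simp⟩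
  | insert k s _ ih =>
    obtain ⟨φ, hφ⟩ := ih
    by_cases hk : φ (a k) = b k
    · exact ⟨φ, fun i hi => (Finset.mem_insert.mp hi).elim (fun e => e ▸ hk) (hφ i)⟩
    have hw : Q (φ (a k) - b k) ≠ 0 := fun h => hk (sub_eq_zero.mp (hQ _ h))
    obtain ⟨σ, hσ⟩ := exists_refl Q hw
    refine ⟨φ.trans σ, fun i hi => ?_⟩
    change σ (φ (a i)) = b i
    rcases Finset.mem_insert.mp hi with rfl | hi
    · have : polar Q (φ (a i)) (φ (a i) - b i) = Q (φ (a i) - b i) := by
        rw [polar_sub_right, polar_self, sub_eq_add_neg (φ (a i)), QuadraticMap.map_add Q,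
          QuadraticMap.map_neg, polar_neg_right, φ.map_app, ← h1, two_smul]
        ring
      rw [hσ, this, div_self hw, one_smul, sub_sub_cancel]
    · rw [hσ, polar_sub_right, polar_iso, h2, hφ i hi, sub_self, zero_div, zero_smul, sub_zero]

/-- Let V be a finite-dimensional vector space over a finite field F carrying an anisotropic quadratic form Q (Q(v) = 0 only for v = 0). Then the group of all maps v ↦ φ(v) + c, with φ an isometry of Q and c ∈ V, acts on V as a binary permutation group: given n ≥ 2 and two n-tuples u, u' of vectors such that every pair of corresponding entries of u is carried to that of u' by such a map, one such map carries u to u'. -/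
theorem result {F V : Type*} [Field F] [Finite F] [AddCommGroup V] [Module F V] [Module.Finite F V]
    (Q : QuadraticForm F V) (hQ : Q.Anisotropic) (n : ℕ) (hn : 2 ≤ n) (u u' : Fin n → V)
    (h2 : ∀ i j : Fin n, i ≠ j → ∃ (φ : Q.IsometryEquiv Q) (c : V), φ (u i) + c = u' i ∧ φ (u j) + c = u' j) :
    ∃ (φ : Q.IsometryEquiv Q) (c : V), ∀ i, φ (u i) + c = u' i := by
  have h3 : ∀ i j, Q (u i - u j) = Q (u' i - u' j) := by
    intro i j
    by_cases hij : i = j
    · simp [hij]
    obtain ⟨φ, c, e1, e2⟩ := h2 i j hij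
    rw [← e1, ← e2, add_sub_add_right_eq_sub, ← map_sub, φ.map_app]
  let o : Fin n := ⟨0, by omega⟩
  obtain ⟨φ, hφ⟩ := witt hQ (fun i => u i - u o) (fun i => u' i - u' o) (fun i => h3 i o)
    (fun i j => by
      have e : ∀ x y : V, polar Q x y = Q x + Q y - Q (x - y) := fun x y => by
        rw [sub_eq_add_neg x, QuadraticMap.map_add Q, QuadraticMap.map_neg, polar_neg_right]; ring
      rw [e, e, sub_sub_sub_cancel_right, sub_sub_sub_cancel_right, h3, h3 j, h3 i j]) Finset.univ
  refine ⟨φ, u' o - φ (u o), fun i => ?_⟩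
  have := hφ i (Finset.mem_univ _)
  rw [map_sub] at this
  rw [← sub_add_cancel (u' i) (u' o), ← this]
  abel

end Cfsg.Agent.S5754
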