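import Mathlib
import Cfsg.Statements.S5763
-- import your own Cfsg.Agent.* helpers here

set_option autoImplicit false
open Cfsg

namespace Cfsg.Agent.S5763

/-- digit extraction -/
def dg (n b x : ℕ) : ℕ := n / b ^ x % b

/-- the encoded permutation `s` commutes with `m` and fixes all or no edges of the matching -/
def good (m : List ℕ) (s : ℕ) : Bool :=
  ((List.range 8).all fun x => dg s 8 (m.getD x 0) == m.getD (dg s 8 x) 0) &&
  (((List.range 8).all fun x => dg s 8 x == x || dg s 8 x == m.getD x 0) ||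
    ((List.range 8).all fun x => dg s 8 x != x && dg s 8 x != m.getD x 0))

/-- candidates -/
def cand : List ℕ := [16434817, 16434376, 16406152, 14599816, 11788826, 9925146, 11788371,
  9924691, 6852524, 5017068, 6823845, 4988389, 2206526, 2177406, 371511, 342391]

/-- `v` is a consistent next value of a fixed point free involution -/
def nxt (l : List ℕ) (v : ℕ) : Bool :=
  v != l.length && (List.range l.length).all fun a =>
    l.getD a 0 != v && ((l.getD a 0 == l.length) == (v == a))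

/-- enumeration of the fixed point free involutions -/
def go : ℕ → List ℕ → Bool
  | 0, l => cand.any (good l)
  | k + 1, l => (List.range 8).all fun v => !nxt l v || go k (l ++ [v])

theorem chk : go 8 [] = true := by decide +kernel

theorem go_range (M : ℕ → ℕ) (h1 : ∀ x < 8, M x < 8) (h2 : ∀ x < 8, M x ≠ x)
    (h3 : ∀ x < 8, M (M x) = x) (j : ℕ) (hj : j ≤ 8) :
    go (8 - j) ((List.range j).map M) = true := by
  induction j with
  | zero => exact chk
  | succ j ih =>
    have h := ih (by omega)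
    rw [show 8 - j = 8 - (j + 1) + 1 by omega, go, List.all_eq_true] at h
    have h4 := h (M j) (List.mem_range.mpr (h1 j hj))
    have h5 : nxt ((List.range j).map M) (M j) = true := by
      simp only [nxt, List.length_map, List.length_range, Bool.and_eq_true, bne_iff_ne,
        List.all_eq_true, List.mem_range, beq_iff_eq]
      refine ⟨h2 j hj, fun a ha => ?_⟩
      have e : ((List.range j).map M).getD a 0 = M a := by simp [ha]
      have e1 := h3 a (by omega)
      have e2 := h3 j hj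
      rw [e, Bool.eq_iff_iff, beq_iff_eq, beq_iff_eq]
      exact ⟨fun h => by rw [h, e2] at e1; omega, fun h => by rwa [h] at e1,
        fun h => by rwa [h] at e2⟩
    rw [h5] at h4
    simpa [List.range_succ] using h4

theorem chk2 : ∀ s ∈ cand, (∀ x : Fin 8, dg s 8 (dg s 8 x) = x) ∧ (∃ x : Fin 8, dg s 8 x ≠ x) ∧
    ∀ x y : Fin 8, ((x : ℕ) / 2 = y / 2 ↔ dg s 8 x / 2 = dg s 8 y / 2) ∧
      ((x : ℕ) / 4 = y / 4 ↔ dg s 8 x / 4 = dg s 8 y / 4) := by decide +kernel

/-- the automorphism group of the binary tree with eight leaves -/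
def tree : Subgroup (Equiv.Perm (Fin 8)) where
  carrier := {g | ∀ x y : Fin 8, ((x : ℕ) / 2 = y / 2 ↔ (g x : ℕ) / 2 = g y / 2) ∧
      ((x : ℕ) / 4 = y / 4 ↔ (g x : ℕ) / 4 = g y / 4)}
  one_mem' := fun _ _ => ⟨Iff.rfl, Iff.rfl⟩
  mul_mem' := fun {_ b} ha hb x y =>
    ⟨(hb x y).1.trans (ha (b x) (b y)).1, (hb x y).2.trans (ha (b x) (b y)).2⟩
  inv_mem' := fun {a} ha x y => by
    have := ha (a⁻¹ x) (a⁻¹ y)
    simp only [Equiv.Perm.coe_inv, Equiv.apply_symm_apply] at this ⊢
    exact ⟨this.1.symm, this.2.symm⟩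

theorem isPGroup_tree : IsPGroup 2 tree := by
  rintro ⟨g, hg⟩
  refine ⟨3, Subtype.ext (Equiv.ext fun x => ?_)⟩
  have h1 : ∀ x, ((g * g) x : ℕ) / 4 = x / 4 := fun x => by
    have := (hg x (g x)).2
    have := x.2
    have := (g x).2
    have := (g (g x)).2
    rw [Equiv.Perm.mul_apply]
    omega
  have hg2 := tree.mul_mem hg hg
  generalize hh : g * g = h at h1 hg2
  have h2 : ∀ x, ((h * h) x : ℕ) / 2 = x / 2 := fun x => by
    have := (hg2 x (h x)).1
    have := h1 x
    have := h1 (h x)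
    rw [Equiv.Perm.mul_apply]
    omega
  generalize hk : h * h = k at h2
  have h3 : (k * k) x = x := by
    have e1 := h2 x
    have e2 := h2 (k x)
    have e3 : (k (k x) : ℕ) = k x ↔ (k x : ℕ) = x := by
      rw [← Fin.ext_iff, ← Fin.ext_iff, k.injective.eq_iff]
    rw [Equiv.Perm.mul_apply, Fin.ext_iff]
    omega
  have : g ^ 2 ^ 3 = k * k := by
    rw [← hk, ← hh, show 2 ^ 3 = 8 from rfl]; simp only [pow_succ, pow_zero, one_mul, mul_assoc]
  change (g ^ 2 ^ 3) x = x
  rw [this, h3]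

theorem exists_common (w : Equiv.Perm (Fin 8)) : ∃ g ∈ tree, g ≠ 1 ∧ w * g * w⁻¹ ∈ tree := by
  let o : Fin 8 → Fin 8 := ![1, 0, 3, 2, 5, 4, 7, 6]
  have ho : ∀ x y : Fin 8, ((x : ℕ) / 2 = y / 2 ↔ y = x ∨ y = o x) ∧ o (o x) = x ∧ o x ≠ x := by
    decide
  let m : Fin 8 → Fin 8 := fun x => w⁻¹ (o (w x))
  have hm : ∀ x, m (m x) = x := fun x => by simp [m, (ho _ x).2.1]
  have hm1 : ∀ x : Fin 8, (m x : ℕ) ≠ x := fun x h =>
    (ho (w x) x).2.2 (Equiv.Perm.inv_eq_iff_eq.mp (Fin.ext h))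
  have hm4 : ∀ x y : Fin 8, (w x : ℕ) / 2 = w y / 2 ↔ y = x ∨ y = m x := fun x y => by
    rw [(ho _ _).1, w.injective.eq_iff, Equiv.Perm.eq_inv_iff_eq]
  let M : ℕ → ℕ := fun x => if h : x < 8 then m ⟨x, h⟩ else 0
  have hM : ∀ x : Fin 8, M x = m x := fun x => dif_pos x.2
  have h2 := go_range M (fun x hx => (hM ⟨x, hx⟩).trans_lt (m _).2)
    (fun x hx => (hM ⟨x, hx⟩).trans_ne (hm1 _))
    (fun x hx => by rw [hM ⟨x, hx⟩, hM, hm]) 8 le_rfl
  rw [Nat.sub_self, go, List.any_eq_true] at h2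
  obtain ⟨s, hs, hp⟩ := h2
  have hl : ∀ x : Fin 8, ((List.range 8).map M).getD x 0 = m x := fun x => by simp [hM]
  obtain ⟨c1, ⟨x0, c2⟩, c3⟩ := chk2 s hs
  let f : Fin 8 → Fin 8 := fun x => ⟨dg s 8 x, Nat.mod_lt _ (by norm_num)⟩
  have hf : Function.Involutive f := fun x => Fin.ext (c1 x)
  refine ⟨hf.toPerm, c3, fun h => c2 (congrArg Fin.val (Equiv.congr_fun h x0)), fun x y => ?_⟩
  obtain ⟨x, rfl⟩ := w.surjective x
  obtain ⟨y, rfl⟩ := w.surjective y
  simp only [good, List.all_eq_true, List.mem_range, Bool.and_eq_true, beq_iff_eq,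
    Bool.or_eq_true, bne_iff_ne] at hp
  have g1 : ∀ x, f (m x) = m (f x) := fun x => by
    have := hp.1 x x.2
    rw [hl x] at this
    exact Fin.ext (this.trans (hl (f x)))
  have g2 : ∀ x y, (w x : ℕ) / 2 = w y / 2 ↔ (w (f x) : ℕ) / 2 = w (f y) / 2 := fun x y => by
    rw [hm4, hm4, ← g1, hf.injective.eq_iff, hf.injective.eq_iff]
  have g3 : (∀ x, (w x : ℕ) / 2 = w (f x) / 2) ∨ ∀ x, (w x : ℕ) / 2 ≠ w (f x) / 2 := by
    refine hp.2.imp (fun h x => ?_) fun h x => ?_
    · have := h x x.2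
      rw [hl x] at this
      exact (hm4 _ _).mpr (this.imp Fin.ext Fin.ext)
    · have := h x x.2
      rw [hl x] at this
      rw [Ne, hm4, Fin.ext_iff, Fin.ext_iff]
      exact not_or.mpr this
  simp only [Equiv.Perm.mul_apply, Equiv.Perm.coe_inv, Equiv.symm_apply_apply,
    Function.Involutive.coe_toPerm]
  refine ⟨g2 x y, ?_⟩
  have a1 := g2 x y
  have a2 := g2 (f x) y
  rw [hf] at a2
  have := (w x).2
  have := (w y).2
  have := (w (f x)).2
  have := (w (f y)).2
  rcases g3 with h | h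
  · have := h x
    have := h y
    omega
  · have := h x
    have := h y
    omega


/-- In the symmetric group on 8 letters any two Sylow 2-subgroups have non-trivial intersection: for a Sylow 2-subgroup H and every element x, H ∩ xHx⁻¹ ≠ 1. -/
theorem result (H : Sylow 2 (Equiv.Perm (Fin 8))) (x : Equiv.Perm (Fin 8)) :
    (H : Subgroup (Equiv.Perm (Fin 8))) ⊓ (H : Subgroup (Equiv.Perm (Fin 8))).map (MulAut.conj x).toMonoidHom ≠ ⊥ := by
  obtain ⟨Q, hQ⟩ := isPGroup_tree.exists_le_sylow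
  obtain ⟨y, rfl⟩ := MulAction.exists_smul_eq (Equiv.Perm (Fin 8)) H Q
  obtain ⟨g, hg, hg1, hg2⟩ := exists_common (y * x⁻¹ * y⁻¹)
  obtain ⟨a, ha, e⟩ := hQ hg
  obtain ⟨b, hb, e'⟩ := hQ hg2
  change y * a * y⁻¹ = g at e
  change y * b * y⁻¹ = _ at e'
  intro h
  have : a ∈ (H : Subgroup (Equiv.Perm (Fin 8))) ⊓
      (H : Subgroup (Equiv.Perm (Fin 8))).map (MulAut.conj x).toMonoidHom := by
    refine ⟨ha, b, hb, ?_⟩
    change x * b * x⁻¹ = a
    calc x * b * x⁻¹ = x * y⁻¹ * (y * b * y⁻¹) * y * x⁻¹ := by group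
      _ = a := by rw [e', ← e]; group
  rw [h, Subgroup.mem_bot] at this
  exact hg1 (by rw [← e, this]; group)

end Cfsg.Agent.S5763
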