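import Mathlib
import Cfsg.Statements.S5767
import Cfsg.Agent.Perm.PWMain

set_option autoImplicit false
open Cfsg

namespace Cfsg.Agent.S5767

open Equiv Equiv.Perm Cfsg.Agent.Perm.PW in
theorem sign_dir_even {ι α : Type*} [DecidableEq ι] [Fintype ι] [Fintype α] [DecidableEq α]
    (i : ι) {σ : Perm α} (h : sign σ = 1) : sign (dir i σ) = 1 := by
  rw [← sign_permCongr (Equiv.funSplitAt i α)]
  show sign (tr i (dir i σ)) = 1
  rw [tr_dir]
  exact (sign_prodCongrLeft fun _ => σ).trans (by simp [h])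

open Equiv Equiv.Perm Cfsg.Agent.Perm.PW in
theorem sign_dir_odd {ι α : Type*} [DecidableEq ι] [Fintype ι] [Fintype α] [DecidableEq α]
    (hα : Odd (Fintype.card α)) (i : ι) {σ : Perm α} (h : sign σ = -1) : sign (dir i σ) = -1 := by
  rw [← sign_permCongr (Equiv.funSplitAt i α)]
  show sign (tr i (dir i σ)) = -1
  rw [tr_dir]
  refine (sign_prodCongrLeft fun _ => σ).trans ?_
  rw [Finset.prod_const, h, Finset.card_univ, Fintype.card_fun]
  exact Odd.neg_one_pow hα.pow

open Equiv Equiv.Perm Cfsg.Agent.Perm.PW in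
theorem sign_swap_even {ι α : Type*} [DecidableEq ι] [Fintype ι] [Fintype α] [DecidableEq α]
    (h4 : 4 ∣ Fintype.card α ^ (Fintype.card ι - 1)) (i j : ι) :
    sign (wr (swap i j) (1 : ι → Perm α)) = 1 := by
  by_cases hij : i = j
  · rw [hij, swap_self, show wr (Equiv.refl ι) (1 : ι → Perm α) = 1 from rfl, Perm.sign_one]
  rw [sign_of_pow_two_eq_one (by ext f l; simp [pow_two])]
  have e : Fintype.card (Function.fixedPoints (wr (swap i j) (1 : ι → Perm α))) =
      Fintype.card α ^ (Fintype.card ι - 1) := by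
    have e' : Fintype.card (Rest i α) = Fintype.card α ^ (Fintype.card ι - 1) := by
      simp [Fintype.card_subtype_compl]
    rw [← e']
    refine Fintype.card_congr ⟨fun f l => f.1 l.1, fun y => ⟨jn i (y ⟨j, Ne.symm hij⟩, y), ?_⟩,
      fun f => Subtype.ext ?_, fun y => funext fun l => jn_coe _ _ _⟩
    · funext l
      show jn i _ (swap i j l) = jn i _ l
      by_cases h1 : l = i
      · rw [h1, swap_apply_left, jn_self, jn_ne i _ (Ne.symm hij)]
      by_cases h2 : l = j
      · rw [h2, swap_apply_right, jn_self, jn_ne i _ (Ne.symm hij)]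
      rw [swap_apply_of_ne_of_ne h1 h2]
    · have : f.1 j = f.1 i := by
        have := congrFun f.2 i
        simpa using this
      show jn i (f.1 j, fun l => f.1 l.1) = f.1
      rw [this, jn_split]
  have hc : Fintype.card (ι → α) = Fintype.card α * Fintype.card α ^ (Fintype.card ι - 1) := by
    rw [Fintype.card_fun, ← pow_succ']
    congr 1
    have : 0 < Fintype.card ι := Fintype.card_pos_iff.2 ⟨i⟩
    omega
  rw [e, hc]
  obtain ⟨t, ht⟩ := h4
  rw [ht]
  apply Even.neg_one_pow
  refine ⟨Fintype.card α * t - t, ?_⟩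
  have : Fintype.card α * (4 * t) = 4 * (Fintype.card α * t) := by ring
  omega

open Equiv Equiv.Perm Cfsg.Agent.Perm.PW in
theorem exists_not_mem {ι α : Type*} [DecidableEq ι] [Fintype ι] [Fintype α] [DecidableEq α]
    (h5 : 5 ≤ Fintype.card α) (h2 : 2 ≤ Fintype.card ι) :
    ∃ g : Perm (ι → α), sign g = 1 ∧ g ∉ Wr ι α := by
  obtain ⟨a⟩ : Nonempty α := Fintype.card_pos_iff.1 (by omega)
  obtain ⟨b, b1, -⟩ := fresh4 h5 a a a a
  obtain ⟨c, c1, c2, -⟩ := fresh4 h5 a b a a
  obtain ⟨d, d1, d2, d3, -⟩ := fresh4 h5 a b c a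
  obtain ⟨i, j, hij⟩ := Fintype.one_lt_card_iff.1 h2
  have ne : ∀ {x y : α}, x ≠ y → (fun _ : ι => x) ≠ fun _ => y := fun n e => n (congrFun e i)
  have ne' : ∀ {x : α}, d ≠ x → Function.update (fun _ : ι => a) i d ≠ fun _ => x :=
    fun n e => n (by simpa using congrFun e i)
  refine ⟨cyc (fun _ => a) (fun _ => b) (fun _ => c), sign_cyc (ne b1.symm) (ne c1.symm), ?_⟩
  rintro ⟨π, τ, e⟩
  have := (dif_update (fun _ : ι => a) i d1).wr π τ
  rw [← e, cyc_a (ne b1.symm) (ne c2.symm), cyc_ne (ne' d1) (ne' d2) (ne' d3)] at this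
  by_cases h : i = π i
  · have := this.2 j (fun e => hij (h.trans e.symm))
    rw [Function.update_of_ne hij.symm] at this
    exact b1 this
  · have := this.2 i h
    rw [Function.update_self] at this
    exact d2 this.symm

open Equiv Equiv.Perm Cfsg.Agent.Perm.PW in
theorem alt_le_of {ι : Type} {α : Type*} [DecidableEq ι] [Fintype ι] [Fintype α] [DecidableEq α]
    (h5 : 5 ≤ Fintype.card α) {H : Subgroup (Perm (ι → α))} (h : Hyp H) (hn : ¬ H ≤ Wr ι α) :
    alternatingGroup (ι → α) ≤ H := by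
  obtain ⟨-, g, hg, h3⟩ := (over_all h5 _ ι rfl H h).resolve_left hn
  exact alternatingGroup_le_of_isPreprimitive_of_isThreeCycle_mem (h.prim h5) h3 hg



/-- Maximality of product-action wreath products. Let m ≥ 5 and k ≥ 2 and let W be the wreath product S_m ≀ S_k acting on the m^k functions f : {1..k} → {1..m} by (f ↦ (i ↦ τ_i(f(π⁻¹ i)))) for π ∈ S_k and τ_1, …, τ_k ∈ S_m. If W contains an odd permutation of these m^k points, then W is a maximal subgroup of the symmetric group on them. Unless k = 2 and m ≡ 2 (mod 4) (in which case the even permutations in W form the base group S_m × S_m, which is imprimitive), the even permutations in W form a maximal subgroup of the alternating group on these points. (The known proof uses the classification of the finite simple groups.) -/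
theorem result (m k : ℕ) (hm : 5 ≤ m) (hk : 2 ≤ k) :
    (¬ (k = 2 ∧ m % 4 = 2) → ∃ M : Subgroup ↥(alternatingGroup (Fin k → Fin m)), IsCoatom M ∧ ∀ σ : ↥(alternatingGroup (Fin k → Fin m)), σ ∈ M ↔ ∃ (π : Equiv.Perm (Fin k)) (τ : Fin k → Equiv.Perm (Fin m)), ∀ (f : Fin k → Fin m) (i : Fin k), (σ : Equiv.Perm (Fin k → Fin m)) f i = τ i (f (π.symm i))) ∧
    ((∃ σ : Equiv.Perm (Fin k → Fin m), Equiv.Perm.sign σ = -1 ∧ ∃ (π : Equiv.Perm (Fin k)) (τ : Fin k → Equiv.Perm (Fin m)), ∀ (f : Fin k → Fin m) (i : Fin k), σ f i = τ i (f (π.symm i))) →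
      ∃ M : Subgroup (Equiv.Perm (Fin k → Fin m)), IsCoatom M ∧ ∀ σ, σ ∈ M ↔ ∃ (π : Equiv.Perm (Fin k)) (τ : Fin k → Equiv.Perm (Fin m)), ∀ (f : Fin k → Fin m) (i : Fin k), σ f i = τ i (f (π.symm i))) := by
  open Equiv Equiv.Perm Cfsg.Agent.Perm.PW in
  have h5 : 5 ≤ Fintype.card (Fin m) := by simpa using hm
  have h2 : 2 ≤ Fintype.card (Fin k) := by simpa using hk
  obtain ⟨g0, hg0, hg0'⟩ := exists_not_mem h5 h2
  constructor
  · intro hkm
    refine ⟨(Wr (Fin k) (Fin m)).subgroupOf _, ⟨fun e => hg0' ?_, fun K hK => ?_⟩,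
      fun σ => mem_Wr⟩
    · have : (⟨g0, mem_alternatingGroup.2 hg0⟩ : alternatingGroup _) ∈
        (Wr (Fin k) (Fin m)).subgroupOf (alternatingGroup _) := by rw [e]; trivial
      exact this
    · have hin : ∀ g ∈ Wr (Fin k) (Fin m), sign g = 1 → g ∈ K.map (alternatingGroup _).subtype :=
        fun g hg hs => ⟨⟨g, mem_alternatingGroup.2 hs⟩, hK.le hg, rfl⟩
      have hH : Hyp (K.map (alternatingGroup (Fin k → Fin m)).subtype) := by
        refine ⟨fun i σ hσ => hin _ ⟨_, _, rfl⟩ (sign_dir_even i hσ), fun i j => ?_⟩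
        rcases Int.units_eq_one_or (sign (wr (swap i j) (1 : Fin k → Perm (Fin m)))) with h | h
        · exact ⟨1, fun _ _ _ => rfl, hin _ ⟨_, _, rfl⟩ h⟩
        rcases Nat.even_or_odd m with he | ho
        · exfalso
          rw [sign_swap_even] at h
          · exact absurd h (by decide)
          simp only [Fintype.card_fin]
          by_cases hk2 : k = 2
          · rw [hk2]
            obtain ⟨t, ht⟩ := he
            have : ¬ m % 4 = 2 := fun e => hkm ⟨hk2, e⟩
            simp only [Nat.add_one_sub_one, pow_one]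
            omega
          · obtain ⟨t, ht⟩ := he
            obtain ⟨s, hs⟩ : ∃ s, k - 1 = s + 2 := ⟨k - 3, by omega⟩
            rw [hs, ht, pow_add]
            exact Dvd.dvd.mul_left ⟨t ^ 2, by ring⟩ _
        · have hab : (⟨0, by omega⟩ : Fin m) ≠ ⟨1, by omega⟩ := by simp
          refine ⟨Pi.mulSingle i (swap ⟨0, by omega⟩ ⟨1, by omega⟩),
            fun l n _ => Pi.mulSingle_eq_of_ne n _, hin _ ⟨_, _, rfl⟩ ?_⟩
          have := sign_dir_odd (by simpa using ho) i (sign_swap hab)
          show sign (dir i (swap (⟨0, by omega⟩ : Fin m) ⟨1, by omega⟩) * wr (swap i j) 1) = 1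
          rw [Perm.sign_mul, this, h]
          decide
      have := alt_le_of h5 hH fun hle => hK.not_ge fun x hx => hle ⟨x, hx, rfl⟩
      rw [eq_top_iff]
      intro x _
      obtain ⟨y, hy, e⟩ := this x.2
      rwa [← Subtype.ext e]
  · rintro ⟨σ, hσ, hσW⟩
    refine ⟨Wr (Fin k) (Fin m), ⟨fun e => hg0' (by rw [e]; trivial), fun K hK => ?_⟩,
      fun σ => mem_Wr⟩
    have hH : Hyp K := ⟨fun i τ _ => hK.le ⟨_, _, rfl⟩,
      fun i j => ⟨1, fun _ _ _ => rfl, hK.le ⟨_, _, rfl⟩⟩⟩
    have hA := alt_le_of h5 hH hK.not_ge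
    rw [eq_top_iff]
    intro x _
    rcases Int.units_eq_one_or (sign x) with h | h
    · exact hA (mem_alternatingGroup.2 h)
    · have h1 : σ ∈ K := hK.le (mem_Wr.2 hσW)
      have := K.mul_mem h1 (hA (mem_alternatingGroup.2 (show sign (σ⁻¹ * x) = 1 by
        rw [Perm.sign_mul, sign_inv, hσ, h]; decide)))
      rwa [mul_inv_cancel_left] at this

end Cfsg.Agent.S5767
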