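import Cfsg.Statements.S5769
import Cfsg.Agent.Chev.SsE7
import Cfsg.Agent.Cl.ClassEps
import Cfsg.Agent.Cl.ClassSpOSpec

set_option autoImplicit false
open Cfsg

namespace Cfsg.Agent.S5769

open Cfsg.Agent.Chev Cfsg.Agent.Cl Cfsg.Agent.Cl.Cls

theorem mem_espec {K : Type*} [Field K] [IsAlgClosed K] [CharP K 2] {a : ℤ} {n i : ℕ}
    (h1 : 65 ∣ (a ^ n - 1).natAbs) (h2 : 65 ∣ ∑ j ∈ Finset.range n, a ^ j) (hi : i < n)
    (h3 : 65 ∣ a ^ i + 1) : 65 ∈ ESpec K 2 a n (· = 1) := by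
  obtain ⟨μ, h0, hμ⟩ := exists_orderOf_eq (K := K) 2 (m := 65) (by norm_num)
  obtain ⟨μ, rfl⟩ := IsUnit.mk0 μ h0
  rw [orderOf_units] at hμ
  have key : ∀ z : ℤ, (μ : K) ^ z = 1 ↔ 65 ∣ z := fun z => by
    rw [← Units.val_zpow_eq_zpow_val, Units.val_eq_one, ← orderOf_dvd_iff_zpow_eq_one, hμ]; rfl
  refine mem_ESpec (isJD_orb_one h0 ((zpow_pow_eq_self_iff h0 n).2 (by rwa [orderOf_units, hμ])))
    (by rw [jdet_orb h0, pow_one, key]; exact h2) fun t => ?_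
  simp only [JOrd, forall_mem_orb, Nat.clog_one_right, pow_zero, one_dvd, implies_true, and_true,
    ← zpow_natCast, ← zpow_mul]
  refine ⟨fun h => ⟨1, fun j _ => (key _).2 (Dvd.dvd.mul_left (by exact_mod_cast h) _)⟩, ?_⟩
  rintro ⟨c, hc⟩
  have h4 := (hc i hi).trans (hc 0 (by omega)).symm
  rw [← mul_inv_eq_one₀ (zpow_ne_zero _ h0), ← zpow_neg, ← zpow_add₀ h0, key] at h4
  have h5 := dvd_sub (h3.mul_right t) h4
  simp only [pow_zero] at h5
  rw [show (a ^ i + 1) * t - (a ^ i * t + -(1 * t)) = 2 * (t : ℤ) by ring] at h5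
  omega

theorem key {Γ : Type*} [Group Γ] (hΓ : ∀ g : Γ, orderOf g ≠ 65) (H : Subgroup Γ) {G : Type*} [Group G]
    [Finite G] (x : G)
    (hx : 65 ∣ orderOf x) : IsEmpty (H ≃* G) := ⟨fun e => by
  obtain ⟨y, hy⟩ := spec_exists_of_dvd x hx
  exact hΓ (e.symm y) ((Subgroup.orderOf_coe _).trans ((e.symm.orderOf_eq y).trans hy))⟩



/-- The Chevalley group of type E₇ over the field with two elements (generated by its root elements in the adjoint representation) has no subgroup isomorphic to any of PSL₂(64), PSp₄(8), PSL₄(8), PSU₄(8) or PSp₆(8). Here F₈ and F₆₄ denote fields with 8 and 64 elements. -/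
theorem result {F₈ F₆₄ : Type*} [Field F₈] [Fintype F₈] (h8 : Fintype.card F₈ = 8) [Field F₆₄] [Fintype F₆₄] (h64 : Fintype.card F₆₄ = 64)
    (H : Subgroup ↥(Cfsg.Lie.chevE7.group (ZMod 2))) :
    IsEmpty (↥H ≃* Matrix.ProjectiveSpecialLinearGroup (Fin 2) F₆₄) ∧ IsEmpty (↥H ≃* Cfsg.PSp 2 F₈) ∧
    IsEmpty (↥H ≃* Matrix.ProjectiveSpecialLinearGroup (Fin 4) F₈) ∧ IsEmpty (↥H ≃* Cfsg.PSU 4 F₆₄ 8) ∧ IsEmpty (↥H ≃* Cfsg.PSp 3 F₈) := by

  have c8 : CharP F₈ 2 := charP_of_card_eq_prime_pow (f := 3) h8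
  have c64 : CharP F₆₄ 2 := charP_of_card_eq_prime_pow (f := 6) h64
  have hsp : ∀ n, 2 ≤ n → ∃ x : PSp n F₈, 65 ∣ orderOf x := fun n hn => by
    obtain ⟨μ, h0, h1, h2⟩ := spec_exists_torus_gen (F := F₈) 2 (AlgebraicClosure F₈) (e := 2) (N := 65)
      two_pos (by rw [h8]; norm_num)
    obtain ⟨x, hx, -⟩ := SpO.exists_PSp_orbits 2 (n := n) (f := 0) h0 h0 two_pos h2 (by simp) hn
    exact ⟨x, (show Nat.Coprime 65 2 by norm_num).dvd_of_dvd_mul_left (h1 ▸ hx)⟩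
  obtain ⟨x1, h1⟩ := (range_orderOf_PSL (AlgebraicClosure F₆₄) 2 (F := F₆₄) (n := Fin 2)).symm.subset
    (mem_espec (a := Fintype.card F₆₄) (n := Fintype.card (Fin 2)) (i := 1) (by simp [h64]) (by simp [h64])
      (by simp) (by simp [h64]))
  obtain ⟨x2, h2⟩ := hsp 2 le_rfl
  obtain ⟨x3, h3⟩ := (range_orderOf_PSL (AlgebraicClosure F₈) 2 (F := F₈) (n := Fin 4)).symm.subset
    (mem_espec (a := Fintype.card F₈) (n := Fintype.card (Fin 4)) (i := 2) (by simp [h8])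
      (by simp [h8, Finset.sum_range_succ]) (by simp) (by simp [h8]))
  obtain ⟨σ, hσ⟩ := exists_uField (q := 8) (F := F₆₄) h64
  obtain ⟨x4, h4⟩ := (range_orderOf_PSU (AlgebraicClosure F₆₄) 2 hσ (N := 4) (by norm_num)).symm.subset
    (mem_espec (i := 2) (by simp) (by simp [Finset.sum_range_succ]) (by simp) (by simp))
  obtain ⟨x5, h5⟩ := hsp 3 (by norm_num)
  have h := orderOf_ne_E7
  exact ⟨key h H x1 h1.symm.dvd, key h H x2 h2, key h H x3 h3.symm.dvd, key h H x4 h4.symm.dvd,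
    key h H x5 h5⟩


end Cfsg.Agent.S5769
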