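import Mathlib
import Cfsg.Statements.S5883
import Cfsg.Agent.Spor.F23.MaxB
-- import your own Cfsg.Agent.* helpers here

set_option autoImplicit false
open Cfsg

namespace Cfsg.Agent.S5883

/-- The constant 10 in the statement that H⁽¹⁰⁾ is perfect for every maximal subgroup H of a finite almost simple group cannot be lowered to 9: there exist a finite almost simple group G (with a non-abelian simple normal subgroup of trivial centralizer) and a maximal subgroup H of G whose ninth derived subgroup H⁽⁹⁾ is not perfect, i.e. H⁽¹⁰⁾ ≠ H⁽⁹⁾. (A solvable maximal subgroup of derived length 10 in the Fischer group Fi₂₃ is such an example.) -/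
theorem result :
    ∃ (G : Type) (_ : Group G) (_ : Finite G) (S H : Subgroup G), S.Normal ∧ IsSimpleGroup S ∧ ¬ IsMulCommutative S ∧
      Subgroup.centralizer (S : Set G) = ⊥ ∧ IsCoatom H ∧ derivedSeries H 10 ≠ derivedSeries H 9 := by
  obtain ⟨M, hM, -⟩ := Spor.F23.exists_good
  have := hM.simple
  have h1 : Subgroup.centralizer ((⊤ : Subgroup Spor.Fi23) : Set Spor.Fi23) = ⊥ := by
    rw [Subgroup.coe_top, Subgroup.centralizer_univ, M.center_eq_bot]
  refine ⟨Spor.Fi23, inferInstance, M.fin, ⊤, _, inferInstance, Subgroup.topEquiv.isSimpleGroup, fun h => ?_, h1,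
    Spor.F23.mb_coatom M hM, Spor.F23.mb_derived M hM⟩
  obtain ⟨a, ha⟩ := exists_ne (1 : Spor.Fi23)
  exact ha (Subgroup.mem_bot.1 (h1 ▸ fun b _ => congrArg Subtype.val
    (h.is_comm.comm (⟨b, trivial⟩ : (⊤ : Subgroup Spor.Fi23)) ⟨a, trivial⟩)))

end Cfsg.Agent.S5883
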