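import Mathlib
import Cfsg.Statements.S5885
import Cfsg.Agent.Sym.Present
-- import your own Cfsg.Agent.* helpers here

set_option autoImplicit false
open Cfsg

namespace Cfsg.Agent.S5885

open MulAction Cfsg.Agent.Sym
open scoped Pointwise

theorem key {G Ω : Type*} [Group G] [MulAction G Ω] [Finite Ω] (hodd : Odd (Nat.card Ω))
    (h3 : ∀ a b c : Ω, a ≠ b → a ≠ c → b ≠ c → ∃ g : G, g • a = b ∧ g • b = c ∧
      ∀ d, d ≠ a → d ≠ b → d ≠ c → g • d = d)
    (a : Ω) (H K L : Subgroup G) (hH : H ≤ stabilizer G a)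
    (hmax : ∀ X, H ≤ X → X ≤ stabilizer G a → X = H ∨ X = stabilizer G a)
    (hHL : H ≤ L) (hLK : L ≤ K) (hK : K ⊓ stabilizer G a ≤ H) : L ≤ H ∨ K ≤ L := by
  by_contra hcon
  push Not at hcon
  obtain ⟨l, hl, hlH⟩ := SetLike.not_le_iff_exists.mp hcon.1
  obtain ⟨k, hk, hkL⟩ := SetLike.not_le_iff_exists.mp hcon.2
  have hla : l • a ≠ a := fun h => hlH (hK ⟨hLK hl, h⟩)
  let B : Set Ω := {x | ∃ y ∈ L, y • a = x}
  have hblock : ∀ g ∈ K, ∀ x ∈ B, g • x ∈ B → g ∈ L := by
    rintro g hg _ ⟨y, hy, rfl⟩ ⟨z, hz, e⟩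
    have : z⁻¹ * g * y ∈ H := hK ⟨K.mul_mem (K.mul_mem (K.inv_mem (hLK hz)) hg) (hLK hy), by
      change _ • a = a
      rw [mul_smul, mul_smul, ← e, inv_smul_smul]⟩
    have := L.mul_mem (L.mul_mem hz (hHL this)) (L.inv_mem hy)
    convert this using 1; group
  have hstab : ∀ g ∈ L, ∀ x ∈ B, g • x ∈ B := by
    rintro g hg _ ⟨y, hy, rfl⟩
    exact ⟨g * y, L.mul_mem hg hy, mul_smul _ _ _⟩
  have haB : a ∈ B := ⟨1, L.one_mem, one_smul _ _⟩
  have hbB : l • a ∈ B := ⟨l, hl, rfl⟩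
  have hkB : ∀ x ∈ B, k • x ∉ B := fun x hx h => hkL (hblock k hk x hx h)
  have hwx : k • a ≠ k • l • a := fun h => hla (smul_left_cancel k h).symm
  -- a point outside both blocks
  obtain ⟨z, hz1, hz2⟩ : ∃ z, z ∉ B ∧ k⁻¹ • z ∉ B := by
    by_contra hc
    push Not at hc
    have e : Bᶜ = k • B := by
      ext x
      rw [Set.mem_smul_set_iff_inv_smul_mem]
      exact ⟨hc x, fun h h' => hkB _ h (by rwa [smul_inv_smul])⟩
    have := Set.ncard_add_ncard_compl B
    rw [e, Set.ncard_smul_set] at this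
    rw [← this] at hodd
    exact Nat.not_odd_iff_even.mpr ⟨_, rfl⟩ hodd
  let X : Subgroup G := stabilizer G a ⊓ stabilizer G B
  have hHX : H ≤ X := by
    intro h hh
    refine ⟨hH hh, ?_⟩
    change _ • B = B
    ext x
    rw [Set.mem_smul_set_iff_inv_smul_mem]
    exact ⟨fun hx => by simpa using hstab h (hHL hh) _ hx, hstab _ (L.inv_mem (hHL hh)) x⟩
  rcases hmax X hHX inf_le_left with hX | hX
  · have hz3 : k • a ≠ z := fun h => hz2 (by rw [← h, inv_smul_smul]; exact haB)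
    have hz4 : k • l • a ≠ z := fun h => hz2 (by rw [← h, inv_smul_smul]; exact hbB)
    obtain ⟨g, hg1, hg2, hg3⟩ := h3 _ _ _ hwx hz3 hz4
    have hfix : ∀ x ∈ B, g • x = x := fun x hx =>
      hg3 x (fun h => hkB a haB (h ▸ hx)) (fun h => hkB _ hbB (h ▸ hx)) (fun h => hz1 (h ▸ hx))
    have hgX : g ∈ X := by
      refine ⟨hfix a haB, ?_⟩
      change _ • B = B
      ext x
      exact ⟨by rintro ⟨y, hy, rfl⟩; simpa [hfix y hy] using hy, fun hx => ⟨x, hx, hfix x hx⟩⟩
    have hgK : g ∈ K := hLK (hHL (hX ▸ hgX))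
    have h1 : k⁻¹ * g * k ∈ L := hblock _ (K.mul_mem (K.mul_mem (K.inv_mem hk) hgK) hk) a haB (by
      rw [mul_smul, mul_smul, hg1, inv_smul_smul]; exact hbB)
    have h2 := hstab _ h1 _ hbB
    rw [mul_smul, mul_smul, hg2] at h2
    exact hz2 h2
  · have h1 : l • a ≠ k • a := fun h => hkB a haB (h ▸ hbB)
    have h2 : l • a ≠ k • l • a := fun h => hkB _ hbB (h ▸ hbB)
    obtain ⟨g, hg1, -, hg3⟩ := h3 _ _ _ h1 h2 hwx
    have hga : g ∈ stabilizer G a :=
      hg3 a hla.symm (fun h => hkB a haB (h ▸ haB)) (fun h => hkB _ hbB (h ▸ haB))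
    have hgB : g • B = B := (hX.ge hga).2
    apply hkB a haB
    rw [← hg1, ← hgB]
    exact Set.smul_mem_smul_set hbB

theorem coatom_subgroupOf_iff {G : Type*} [Group G] {H M : Subgroup G} (h : H ≤ M) :
    IsCoatom (H.subgroupOf M) ↔ ¬ M ≤ H ∧ ∀ X, H ≤ X → X ≤ M → X = H ∨ X = M := by
  constructor
  · intro hc
    refine ⟨fun hle => hc.1 (Subgroup.subgroupOf_eq_top.mpr hle), fun X h1 h2 => ?_⟩
    rcases (Subgroup.subgroupOf_mono M h1).eq_or_lt with e | e
    · left
      rw [Subgroup.subgroupOf_inj, inf_eq_left.mpr h, inf_eq_left.mpr h2] at e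
      exact e.symm
    · exact Or.inr (le_antisymm h2 (Subgroup.subgroupOf_eq_top.mp (hc.2 _ e)))
  · rintro ⟨h1, h2⟩
    refine ⟨fun e => h1 (Subgroup.subgroupOf_eq_top.mp e), fun Y hY => ?_⟩
    have hle : H ≤ Y.map M.subtype := fun x hx => ⟨⟨x, h hx⟩, hY.le hx, rfl⟩
    rcases h2 _ hle (Subgroup.map_subtype_le Y) with e | e
    · exact (hY.not_ge fun y hy => (e.le ⟨y, hy, rfl⟩ : (y : G) ∈ H)).elim
    · rw [eq_top_iff]
      intro y _
      obtain ⟨z, hz, e'⟩ := e.ge y.2
      rwa [← Subtype.ext e']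


/-- Let n be an odd positive integer such that every primitive permutation group of degree n contains the alternating group (so the symmetric and alternating groups are the only primitive groups of degree n). Let G be a finite group, M a maximal subgroup of G of index n, and H a maximal subgroup of M. Then H is a second maximal subgroup of G: H is maximal in every maximal subgroup K of G containing H. -/
theorem result {G : Type*} [Group G]
    [Finite G] (n : ℕ) (hodd : Odd n)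
    (hA : ∀ P : Subgroup (Equiv.Perm (Fin n)), MulAction.IsPreprimitive P (Fin n) → alternatingGroup (Fin n) ≤ P)
    (M : Subgroup G) (hM : IsCoatom M) (hn : M.index = n) (H : Subgroup G) (hHM : H ≤ M)
    (hmax : IsCoatom (H.subgroupOf M)) (K : Subgroup G) (hK : IsCoatom K) (hHK : H ≤ K) :
    IsCoatom (H.subgroupOf K) := by
  by_cases hKM : K = M
  · rwa [hKM]
  classical
  have hcard : Nat.card (G ⧸ M) = n := hn
  have hnt : Nontrivial (G ⧸ M) := by
    rw [← Finite.one_lt_card_iff_nontrivial]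
    exact Subgroup.one_lt_index_of_ne_top hM.1
  have hst : stabilizer G ((1 : G) : G ⧸ M) = M := stabilizer_quotient M
  have hprim : IsPreprimitive G (G ⧸ M) :=
    (isCoatom_stabilizer_iff_preprimitive G ((1 : G) : G ⧸ M)).mp (by rwa [hst])
  let e : (G ⧸ M) ≃ Fin n := Finite.equivFinOfCardEq hcard
  let φ : G →* Equiv.Perm (Fin n) := e.permCongrHom.toMonoidHom.comp (toPermHom G (G ⧸ M))
  have hφ : ∀ (g : G) (x : G ⧸ M), φ g (e x) = e (g • x) := fun g x => by simp [φ]
  let f : (G ⧸ M) →ₑ[φ.rangeRestrict] Fin n :=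
    { toFun := e
      map_smul' := fun g x => (hφ g x).symm }
  have hP : IsPreprimitive φ.range (Fin n) := IsPreprimitive.of_surjective (f := f) e.surjective
  have h3 : ∀ a b c : G ⧸ M, a ≠ b → a ≠ c → b ≠ c → ∃ g : G, g • a = b ∧ g • b = c ∧
      ∀ d, d ≠ a → d ≠ b → d ≠ c → g • d = d := by
    intro a b c hab hac hbc
    have hab' := e.injective.ne hab
    have hac' := e.injective.ne hac
    have hbc' := e.injective.ne hbc
    obtain ⟨g, hg⟩ := hA _ hP (cyc3_mem_alternatingGroup hab' hbc')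
    refine ⟨g, e.injective ?_, e.injective ?_, fun d h1 h2 h3 => e.injective ?_⟩
    · rw [← hφ, hg, cyc3_apply_fst hab' hac']
    · rw [← hφ, hg, cyc3_apply_snd hac' hbc']
    · rw [← hφ, hg, cyc3_apply_of_ne (e.injective.ne h1) (e.injective.ne h2) (e.injective.ne h3)]
  rw [coatom_subgroupOf_iff hHM] at hmax
  have hKM' : K ⊓ M = H := by
    refine (hmax.2 _ (le_inf hHK hHM) inf_le_right).resolve_right fun h => hKM ?_
    exact ((hM.le_iff.mp (inf_eq_right.mp h)).resolve_left hK.1)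
  rw [coatom_subgroupOf_iff hHK]
  refine ⟨fun h => hKM ?_, fun X h1 h2 => ?_⟩
  · exact ((hK.le_iff.mp (h.trans hHM)).resolve_left hM.1).symm
  · have := key (hcard ▸ hodd) h3 ((1 : G) : G ⧸ M) H K X (by rwa [hst]) (by rw [hst]; exact hmax.2)
      h1 h2 (by rw [hst, hKM'])
    exact this.imp (fun h => le_antisymm h h1) (le_antisymm h2)

end Cfsg.Agent.S5885
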