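import Mathlib
import Cfsg.Statements.S5890
import Cfsg.Agent.Cl.PSL2MaxPGL

set_option autoImplicit false
open Cfsg

set_option linter.unusedVariables false

namespace Cfsg.Agent.S5890

open Cfsg.Agent.Cl.L2 Matrix MulAction
open scoped MatrixGroups

/-- Let F be a finite field with q ≥ 4 elements, let L ≤ PGL₂(F) be the image of SL₂(F) (a copy of PSL₂(F), of index gcd(2, q − 1)), and let M be a maximal subgroup of PGL₂(F) that does not contain L. Suppose q ∉ {7, 9, 11} and that q is not a prime congruent to ±11 or ±19 modulo 40. Then M ∩ L is a maximal subgroup of L. (For the excluded q there are maximal subgroups of PGL₂(q) — dihedral groups of order 12 and 16 at q = 7, of order 20 and 16 at q = 9, of order 20 at q = 11, and S₄ at the excluded primes — whose intersection with L is not maximal in L.) -/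
theorem result {F : Type*} [Field F]
    [Fintype F] (h4 : 4 ≤ Fintype.card F) (h7 : Fintype.card F ≠ 7) (h9 : Fintype.card F ≠ 9) (h11 : Fintype.card F ≠ 11)
    (h40 : (Fintype.card F).Prime → Fintype.card F % 40 ∉ ({11, 19, 21, 29} : Finset ℕ))
    (M : Subgroup (Matrix.ProjGenLinGroup (Fin 2) F)) (hM : IsCoatom M)
    (hML : ¬ (Matrix.ProjGenLinGroup.mk.comp Matrix.SpecialLinearGroup.toGL).range ≤ M) :
    IsCoatom ((M ⊓ (Matrix.ProjGenLinGroup.mk.comp Matrix.SpecialLinearGroup.toGL).range).subgroupOf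
      (Matrix.ProjGenLinGroup.mk.comp Matrix.SpecialLinearGroup.toGL).range) := by
  rw [← Nat.card_eq_fintype_card] at h4 h7 h9 h11 h40
  refine isCoatom_subgroupOf_psl ?_
  by_cases h2 : (2 : F) = 0
  · exact Subgroup.isCoatom_comap_of_surjective (emb_surjective h2) hM
  have hodd := two_ne_zero_iff_odd.1 h2
  rcases coatom_cases_pgl h2 h4 hM hML with ⟨x, rfl⟩ | ⟨g, ht, rfl, h⟩ | ⟨hp, h8, ⟨e⟩⟩ |
    ⟨l, c, r, hr, hr', hl, rfl⟩
  · rw [comap_stabilizer]; exact isCoatom_stabilizerS x
  · obtain ⟨g', ht', h1, h3⟩ := exists_torS_of_tor h4 ht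
    have h5 := card_torS_mul ht'
    rw [h1, gcd_of_two_ne_zero h2] at h5
    rw [← h3]
    exact isCoatom_ntorS ht' (by omega) (by omega) (fun _ => by omega) fun _ _ _ => by omega
  · obtain ⟨φ, hφ, rfl⟩ := exists_range_eq e
    have h1 := h40 hp
    simp only [Finset.mem_insert, Finset.mem_singleton] at h1
    have h3 := (map_comap_emb φ.range).trans
      (range_inf_psl hφ fun h => by have := isSquare_two_iff.1 h; omega)
    exact isCoatom_of_A4 hp (by omega) h8 (by omega) ((mapEmbEquiv _).trans
      ((MulEquiv.subgroupCongr h3).trans (A4.equivMapOfInjective φ hφ).symm))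
  · refine isCoatom_subPSL h2 hr (by rintro rfl; exact absurd hr' (by decide)) hl (c := c) ?_
    rw [map_comap_emb, ← subPGL_inf_psl fun h => Nat.not_even_iff_odd.2 hr'
      ((subPGL_le_psl_iff_even h2 hl).1 h), cj_inf, cj_of_normal c (psl F)]

end Cfsg.Agent.S5890
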