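import Mathlib
import Cfsg.Statements.S5891
import Cfsg.Agent.Cl.PSL2MaxPGL

set_option autoImplicit false
open Cfsg

set_option linter.unusedVariables false

namespace Cfsg.Agent.S5891

open Cfsg.Agent.Cl.L2 Matrix MulAction
open scoped MatrixGroups

/-- Let F be a finite field of odd order q > 3 and characteristic p, and let M be a maximal subgroup of PGL₂(F) not containing the image L of SL₂(F) (a copy of PSL₂(F) of index 2). Then one of the following holds: |M| = q(q − 1) (M is the stabiliser of a point of the projective line); q ≠ 5 and M is dihedral of order 2(q − 1); M is dihedral of order 2(q + 1); q = p ≡ ±3 (mod 8) and M ≅ S₄; or q = q₀^r for an odd prime r and M ≅ PGL₂(F₀) with |F₀| = q₀. -/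
theorem result {F : Type*} [Field F] [Fintype F]
    (hodd : Odd (Fintype.card F)) (h3 : 3 < Fintype.card F) (M : Subgroup (Matrix.ProjGenLinGroup (Fin 2) F)) (hM : IsCoatom M)
    (hML : ¬ (Matrix.ProjGenLinGroup.mk.comp Matrix.SpecialLinearGroup.toGL).range ≤ M) :
    Nat.card M = Fintype.card F * (Fintype.card F - 1) ∨
    (Fintype.card F ≠ 5 ∧ Nonempty (M ≃* DihedralGroup (Fintype.card F - 1))) ∨
    Nonempty (M ≃* DihedralGroup (Fintype.card F + 1)) ∨
    ((Fintype.card F).Prime ∧ (Fintype.card F % 8 = 3 ∨ Fintype.card F % 8 = 5) ∧ Nonempty (M ≃* Equiv.Perm (Fin 4))) ∨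
    (∃ (F₀ : Type) (_ : Field F₀) (_ : Fintype F₀) (r : ℕ), r.Prime ∧ Odd r ∧ Fintype.card F = Fintype.card F₀ ^ r ∧
        Nonempty (M ≃* Matrix.ProjGenLinGroup (Fin 2) F₀)) := by
  rw [← Nat.card_eq_fintype_card] at hodd h3 ⊢
  have h2 : (2 : F) ≠ 0 := two_ne_zero_iff_odd.2 (Nat.odd_iff.1 hodd)
  rcases coatom_cases_pgl h2 h3 hM hML with ⟨x, rfl⟩ | ⟨g, ht, rfl, h | h⟩ | h |
    ⟨l, c, r, hr, hr', hl, rfl⟩
  · exact Or.inl (card_stabilizer x)
  · exact Or.inr (Or.inl ⟨h.1, h.2 ▸ nonempty_ntor_dihedral ht⟩)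
  · exact Or.inr (Or.inr (Or.inl (h ▸ nonempty_ntor_dihedral ht)))
  · exact Or.inr (Or.inr (Or.inr (Or.inl h)))
  · obtain ⟨K, _, _, f, rfl, hK⟩ := exists_copy l
    exact Or.inr (Or.inr (Or.inr (Or.inr ⟨K, _, _, r, hr, hr', by rw [hK, hl],
      ⟨((subPGLEquiv f).trans (cjEquiv c _)).symm⟩⟩)))

end Cfsg.Agent.S5891
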