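import Mathlib
import Cfsg.Statements.S5893
import Cfsg.Agent.Cl.PSL2MaxClass

set_option autoImplicit false
open Cfsg

set_option linter.unusedVariables false

namespace Cfsg.Agent.S5893

open Cfsg.Agent.Cl.L2 Matrix MulAction
open scoped MatrixGroups

/-- Let F be a finite field of even order q ≥ 4 and let M be a maximal subgroup of PSL₂(F) (= SL₂(F) = PGL₂(F)). Then one of the following holds: |M| = q(q − 1) (the stabiliser of a point of the projective line, elementary abelian of order q extended by a cyclic group of order q − 1); M is dihedral of order 2(q − 1); M is dihedral of order 2(q + 1); or q = q₀^r for a prime r with q₀ ≠ 2 and M ≅ PSL₂(F₀) with |F₀| = q₀. -/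
theorem result {F : Type*} [Field F] [Fintype F]
    (heven : Even (Fintype.card F)) (h4 : 4 ≤ Fintype.card F) (M : Subgroup (Matrix.ProjectiveSpecialLinearGroup (Fin 2) F)) (hM : IsCoatom M) :
    Nat.card M = Fintype.card F * (Fintype.card F - 1) ∨
    Nonempty (M ≃* DihedralGroup (Fintype.card F - 1)) ∨
    Nonempty (M ≃* DihedralGroup (Fintype.card F + 1)) ∨
    (∃ (F₀ : Type) (_ : Field F₀) (_ : Fintype F₀) (r : ℕ), r.Prime ∧ Fintype.card F₀ ≠ 2 ∧
        Fintype.card F = Fintype.card F₀ ^ r ∧ Nonempty (M ≃* Matrix.ProjectiveSpecialLinearGroup (Fin 2) F₀)) := by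
  rw [← Nat.card_eq_fintype_card] at heven h4 ⊢
  have h2 : (2 : F) = 0 := two_eq_zero_iff_even.2 (Nat.even_iff.1 heven)
  rcases coatom_cases_even h2 h4 hM with ⟨x, rfl⟩ | ⟨g, ht, rfl⟩ | ⟨l, c, r, hr, hl, h⟩
  · have := card_stabilizerS_mul x
    rw [gcd_of_two_eq_zero h2, mul_one] at this
    exact Or.inl this
  · have h := card_torS_mul_or ht
    rw [gcd_of_two_eq_zero h2, mul_one] at h
    rcases h with h | h
    · exact Or.inr (Or.inl (h ▸ nonempty_ntorS_dihedral ht))
    · exact Or.inr (Or.inr (Or.inl (h ▸ nonempty_ntorS_dihedral ht)))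
  · obtain ⟨K, _, _, f, rfl, hK⟩ := exists_copy l
    exact Or.inr (Or.inr (Or.inr ⟨K, _, _, r, hr, hK ▸ hl, by rw [hK, h.1],
      nonempty_equiv_of_map_eq_subPSL f h.2⟩))

end Cfsg.Agent.S5893
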