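import Cfsg.Statements.S5894
import Cfsg.Agent.Sym.Partition

set_option autoImplicit false
open Cfsg

namespace Cfsg.Agent.S5894

open scoped Pointwise

/-- For every m ≥ 2 the symmetric group on 2m letters has a maximal subgroup M of index 2m together with a maximal subgroup H of M that is not second maximal: some maximal subgroup K of the symmetric group contains H without H being maximal in K. (One may take M the stabiliser of a letter, H ≅ S_m × S_{m−1} inside it, and K ≅ S_m ≀ S₂ the stabiliser of a partition into two m-sets, with H < S_m × S_m < K.) So the prime-index hypothesis in the second-maximality criterion cannot be relaxed to any even index ≥ 4. -/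
theorem result (m : ℕ) (hm : 2 ≤ m) :
    ∃ M H K : Subgroup (Equiv.Perm (Fin (2 * m))), IsCoatom M ∧ M.index = 2 * m ∧ H ≤ M ∧ IsCoatom (H.subgroupOf M) ∧
      IsCoatom K ∧ H ≤ K ∧ ¬ IsCoatom (H.subgroupOf K) := by
  classical
  let a : Fin (2 * m) := ⟨0, by omega⟩
  let O : Set (Fin (2 * m)) := {x | m ≤ x.val}
  have hO : O.ncard = m := by
    have : O = ↑(Finset.Ici (⟨m, by omega⟩ : Fin (2 * m))) := by
      ext x; simp [O, Fin.le_def]
    rw [this, Set.ncard_coe_finset, Fin.card_Ici]; simp; omega
  have hO' : Oᶜ.ncard = m := by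
    have := Set.ncard_add_ncard_compl O
    simp only [Nat.card_eq_fintype_card, Fintype.card_fin] at this
    omega
  have hf : ∀ i : Prop, Nat.card {x // (x ∈ O) = i} = m := by
    intro i
    by_cases hi : i
    · simp only [hi, eq_iff_iff, iff_true]; exact (Nat.card_coe_set_eq O).trans hO
    · simp only [hi, eq_iff_iff, iff_false]; exact (Nat.card_coe_set_eq Oᶜ).trans hO'
  have haO : a ∉ O := by simp [a, O]; omega
  let e := Sym.stabilizerEquivPerm a
  let s : Set {x // x ≠ a} := Subtype.val ⁻¹' O
  have hs : s.ncard = m := by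
    rw [← Set.ncard_image_of_injective s Subtype.val_injective,
      Set.image_preimage_eq_of_subset, hO]
    intro x hx
    exact ⟨⟨x, fun h => haO (h ▸ hx)⟩, rfl⟩
  have hc : Nat.card {x // x ≠ a} = 2 * m - 1 := by
    rw [Nat.card_eq_fintype_card, Fintype.card_subtype_compl]; simp
  have hs' := Set.ncard_add_ncard_compl s
  have h1 := Equiv.Perm.isCoatom_stabilizer (s := s) (Set.nonempty_of_ncard_ne_zero (by omega))
    (Set.nonempty_of_ncard_ne_zero (by omega)) (by omega)
  have h2 : MulAction.stabilizer (Equiv.Perm (Fin (2 * m))) O ≤ Sym.partStab (· ∈ O) := by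
    intro g hg
    refine Sym.mem_partStab_of_apply_eq 1 fun x => ?_
    rw [MulAction.mem_stabilizer_set] at hg
    simpa using hg x
  have h3 : ((MulAction.stabilizer (Equiv.Perm {x // x ≠ a}) s).map e.toMonoidHom).map
      (MulAction.stabilizer (Equiv.Perm (Fin (2 * m))) a).subtype ≤
      MulAction.stabilizer (Equiv.Perm (Fin (2 * m))) O := by
    rintro _ ⟨_, ⟨g, hg, rfl⟩, rfl⟩
    rw [SetLike.mem_coe, MulAction.mem_stabilizer_set] at hg
    rw [MulAction.mem_stabilizer_set]
    intro x
    change Equiv.Perm.ofSubtype g x ∈ O ↔ _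
    by_cases hx : x ≠ a
    · rw [Equiv.Perm.ofSubtype_apply_of_mem g hx]
      exact hg ⟨x, hx⟩
    · rw [Equiv.Perm.ofSubtype_apply_of_not_mem g hx]
  refine ⟨MulAction.stabilizer _ a, _, Sym.partStab (· ∈ O), ?_, ?_, Subgroup.map_subtype_le _, ?_,
    Sym.isCoatom_partStab hm hf, h3.trans h2, fun h => ?_⟩
  · haveI : Nontrivial (Fin (2 * m)) := Fin.nontrivial_iff_two_le.2 (by omega)
    exact MulAction.IsPreprimitive.isCoatom_stabilizer_of_isPreprimitive _ a
  · simp [Sym.index_stabilizer_perm]
  · rw [Subgroup.subgroupOf, Subgroup.comap_map_eq_self_of_injective Subtype.val_injective]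
    exact (OrderIso.isCoatom_iff e.mapSubgroup _).2 h1
  · have h4 := h.2 ((MulAction.stabilizer (Equiv.Perm (Fin (2 * m))) O).subgroupOf _)
      (lt_of_le_of_ne (Subgroup.subgroupOf_mono _ h3) fun h5 => ?_)
    · obtain ⟨g, h6, -⟩ := Sym.exists_lift_of_card_fiber hf (Equiv.swap True False)
      have h7 := Subgroup.subgroupOf_eq_top.1 h4 (Sym.mem_partStab_of_apply_eq _ h6)
      rw [MulAction.mem_stabilizer_set] at h7
      have h8 := h6 a
      have h9 : g a ∉ O := fun h => haO ((h7 a).1 h)
      simp [haO, h9] at h8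
    · let b : Fin (2 * m) := ⟨1, by omega⟩
      have hb : b ∉ O := by simp [b, O]; omega
      have h6 : Equiv.swap a b ∈ MulAction.stabilizer (Equiv.Perm (Fin (2 * m))) O := by
        rw [← stabilizer_compl]
        exact Equiv.Perm.swap_mem_stabilizer haO hb
      have h7 : (⟨_, h2 h6⟩ : Sym.partStab (· ∈ O)) ∈
        (MulAction.stabilizer (Equiv.Perm (Fin (2 * m))) O).subgroupOf _ := h6
      rw [← h5] at h7
      have h8 : Equiv.swap a b a = a := Subgroup.map_subtype_le _ h7
      simp [a, b] at h8

end Cfsg.Agent.S5894
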