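import Mathlib
import Cfsg.Statements.S5895
import Cfsg.Agent.S5885
-- import your own Cfsg.Agent.* helpers here

set_option autoImplicit false
open Cfsg

namespace Cfsg.Agent.S5895

open Subgroup SemidirectProduct

/-- `L` acts irreducibly through `φ` -/
def Irr {A V : Type} [Group A] [Group V] (φ : A →* MulAut V) (L : Subgroup A) : Prop :=
  ∀ W : Subgroup V, (∀ a ∈ L, ∀ w ∈ W, φ a w ∈ W) → W = ⊥ ∨ W = ⊤

theorem aux {A V : Type} [Group A] [Finite A] [CommGroup V] [Finite V] [Nontrivial V] (φ : A →* MulAut V)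
    (hφ : Irr φ ⊤) (H : Subgroup A) (hH : IsCoatom H) (hr : ¬ Irr φ H) :
    ∃ (G : Type) (_ : Group G) (_ : Finite G) (M H K : Subgroup G), IsCoatom M ∧ M.index = Nat.card V ∧
      H ≤ M ∧ IsCoatom (H.subgroupOf M) ∧ IsCoatom K ∧ H ≤ K ∧ ¬ IsCoatom (H.subgroupOf K) := by
  let X : ∀ (W : Subgroup V) (L : Subgroup A), (∀ a ∈ L, ∀ w ∈ W, φ a w ∈ W) → Subgroup (V ⋊[φ] A) :=
    fun W L h =>
    { carrier := {g | g.left ∈ W ∧ g.right ∈ L}
      one_mem' := ⟨W.one_mem, L.one_mem⟩
      mul_mem' := fun {a b} ha hb => ⟨W.mul_mem ha.1 (h _ ha.2 _ hb.1), L.mul_mem ha.2 hb.2⟩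
      inv_mem' := fun {a} ha => ⟨h _ (L.inv_mem ha.2) _ (W.inv_mem ha.1), L.inv_mem ha.2⟩ }
  have hM : ∀ g : V ⋊[φ] A, g ∈ (inr (φ := φ)).range ↔ g.left = 1 := fun g =>
    ⟨by rintro ⟨a, rfl⟩; rfl, fun h => ⟨g.right, by ext <;> simp [h]⟩⟩
  have hHK : H.map (inr (φ := φ)) ≤ H.comap rightHom := by
    rintro _ ⟨a, ha, rfl⟩; exact ha
  obtain ⟨v, hv⟩ := exists_ne (1 : V)
  refine ⟨V ⋊[φ] A, inferInstance, Finite.of_equiv _ equivProd.symm, inr.range, H.map inr,
    H.comap rightHom, ⟨fun h => hv ?_, fun Y hY => ?_⟩, ?_, map_le_range _ _, ?_,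
    isCoatom_comap_of_surjective rightHom_surjective hH, hHK, ?_⟩
  · exact (hM (inl v)).mp (h ▸ mem_top _)
  · obtain ⟨g, hg, hg'⟩ := SetLike.exists_of_lt hY
    have h1 : ∀ g ∈ Y, inl g.left ∈ Y := fun g hg => by
      rw [show inl g.left = g * (inr g.right)⁻¹ by rw [eq_mul_inv_iff_mul_eq, inl_left_mul_inr_right]]
      exact Y.mul_mem hg (Y.inv_mem (hY.le ⟨_, rfl⟩))
    rcases hφ (Y.comap inl) (fun a _ w hw => by
      rw [mem_comap, inl_aut]
      exact Y.mul_mem (Y.mul_mem (hY.le ⟨_, rfl⟩) hw) (hY.le ⟨_, rfl⟩)) with h | h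
    · exact absurd ((hM g).mpr (mem_bot.mp (h ▸ h1 g hg))) hg'
    · rw [eq_top_iff]
      intro x _
      rw [← inl_left_mul_inr_right x]
      exact Y.mul_mem (show x.left ∈ Y.comap inl from h ▸ mem_top _) (hY.le ⟨_, rfl⟩)
  · have h1 := (inr (φ := φ)).range.index_mul_card
    rw [SemidirectProduct.card, ← Nat.card_congr (MonoidHom.ofInjective inr_injective).toEquiv] at h1
    exact Nat.eq_of_mul_eq_mul_right Nat.card_pos h1
  · rw [← isCoatom_comap (MonoidHom.ofInjective (inr_injective (φ := φ)))]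
    convert hH using 1
    ext a
    exact (mem_map_iff_mem inr_injective)
  · rw [S5885.coatom_subgroupOf_iff hHK]
    rintro ⟨-, h⟩
    apply hr
    intro W hW
    rcases h (X W H hW) (by rintro _ ⟨a, ha, rfl⟩; exact ⟨W.one_mem, ha⟩) (fun g hg => hg.2) with h | h
    · refine Or.inl (eq_bot_iff.mpr fun w hw => ?_)
      have : inl w ∈ H.map (inr (φ := φ)) := h ▸ (show inl w ∈ X W H hW from ⟨hw, H.one_mem⟩)
      exact (hM _).mp (map_le_range _ _ this)
    · refine Or.inr (eq_top_iff.mpr fun w _ => ?_)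
      have : inl w ∈ X W H hW := h ▸ (show inl w ∈ H.comap rightHom from H.one_mem)
      exact this.1

/-- For every prime p and every d ≥ 2 there is a finite group G with a maximal subgroup M of index p^d and a maximal subgroup H of M that is not second maximal in G: some maximal subgroup K of G contains H without H being maximal in K. (One may take G the affine group V ⋊ GL(V) of V = 𝔽_p^d, M = GL(V), H the stabiliser in M of a line W of V, and K = V ⋊ H, with H < W ⋊ H < K.) So the prime-index hypothesis in the second-maximality criterion cannot be relaxed to prime-power index. -/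
theorem result (p d : ℕ) (hp : p.Prime)
    (hd : 2 ≤ d) :
    ∃ (G : Type) (_ : Group G) (_ : Finite G) (M H K : Subgroup G), IsCoatom M ∧ M.index = p ^ d ∧ H ≤ M ∧
      IsCoatom (H.subgroupOf M) ∧ IsCoatom K ∧ H ≤ K ∧ ¬ IsCoatom (H.subgroupOf K) := by
  have := Fact.mk hp
  let F := GaloisField p d
  have hF : Nat.card (Multiplicative F) = p ^ d := GaloisField.card p d (by omega)
  let φ : Fˣ →* MulAut (Multiplicative F) :=
    { toFun := fun u => AddEquiv.toMultiplicative (DistribMulAction.toAddEquiv F u)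
      map_one' := by ext x; exact one_smul Fˣ x.toAdd
      map_mul' := fun a b => by ext x; exact mul_smul a b x.toAdd }
  have hφ : Irr φ ⊤ := fun W hW => by
    by_cases h : W = ⊥
    · exact Or.inl h
    obtain ⟨⟨w, hw⟩, hw1⟩ := ne_bot_iff_exists_ne_one.mp h
    have hw0 : w.toAdd ≠ 0 := fun e => hw1 (Subtype.ext e)
    refine Or.inr (eq_top_iff.mpr fun x _ => ?_)
    by_cases hx : x.toAdd = 0
    · exact (show x = 1 from hx) ▸ W.one_mem
    convert hW (Units.mk0 _ (div_ne_zero hx hw0)) trivial w hw using 1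
    exact (div_mul_cancel₀ x.toAdd hw0).symm
  obtain ⟨L, hL, hmin⟩ := WellFounded.has_min (wellFounded_lt (α := Subgroup Fˣ)) {L | Irr φ L} ⟨⊤, hφ⟩
  have hL1 : Nontrivial L := by
    rw [nontrivial_iff_ne_bot]
    rintro rfl
    obtain ⟨W, hW⟩ := Sylow.exists_subgroup_card_pow_prime (G := Multiplicative F) p (n := 1)
      (by rw [hF]; exact pow_dvd_pow p (by omega))
    rcases hL W (fun a ha w hw => by rw [mem_bot.mp ha, map_one]; exact hw) with h | h
    · rw [h, card_bot, pow_one] at hW; exact hp.one_lt.ne hW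
    · rw [h, card_top, hF] at hW
      have := Nat.pow_right_injective hp.two_le hW
      omega
  obtain ⟨H, hH, -⟩ := (eq_top_or_exists_le_coatom (⊥ : Subgroup L)).resolve_left bot_ne_top
  rw [← hF]
  refine aux (φ.comp L.subtype) (fun W hW => hL W fun a ha => hW ⟨a, ha⟩ trivial) H hH fun h => ?_
  refine hmin (H.map L.subtype) (fun W hW => h W fun a ha => hW a ⟨a, ha, rfl⟩) ?_
  refine lt_of_le_of_ne (map_subtype_le _) fun e => hH.1 (map_injective L.subtype_injective ?_)
  rw [e, ← MonoidHom.range_eq_map, range_subtype]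

end Cfsg.Agent.S5895
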