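import Mathlib
import Cfsg.Statements.S5896
import Cfsg.Agent.GT.PiGroups
import Cfsg.Agent.Perm.CompLen
import Cfsg.Agent.Sym.Sylow
-- import your own Cfsg.Agent.* helpers here

set_option autoImplicit false
open Cfsg

namespace Cfsg.Agent.S5896

open Subgroup RegularWreathProduct

theorem aux {S T : Type} [Group S] [Finite S] [Group T] [Finite T] [Nontrivial T] (hS : IsPGroup 2 S)
    (d : ℕ) (hd : derivedSeries S d ≠ ⊥) (hT : commutator T = ⊤) (M : Subgroup T) (hM : IsCoatom M)
    (hMs : Group.IsSolvable M) :
    ∃ (G : Type) (_ : Group G) (_ : Finite G) (H : Subgroup G), commutator G = ⊤ ∧ IsCoatom H ∧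
      Group.IsSolvable H ∧ derivedSeries H d ≠ ⊥ := by
  classical
  let β : (T → S) →* S ≀ᵣ T :=
    { toFun := fun f => ⟨f, 1⟩, map_one' := rfl, map_mul' := fun a b => by ext <;> simp }
  let G : Subgroup (S ≀ᵣ T) := normalClosure (inl (D := S) (Q := T)).range
  have hinl : ∀ t, inl t ∈ G := fun t => subset_normalClosure ⟨t, rfl⟩
  let π : G →* T := rightHom.comp G.subtype
  have hπ : Function.Surjective π := fun t => ⟨⟨inl t, hinl t⟩, rfl⟩
  let g : M.comap π →* M := (π.comp (M.comap π).subtype).codRestrict M fun x => x.2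
  have hg : ∀ x : g.ker, (((x : M.comap π) : G) : S ≀ᵣ T).right = 1 :=
    fun x => congrArg Subtype.val x.2
  refine ⟨G, inferInstance, inferInstance, M.comap π, ?_, isCoatom_comap_of_surjective hπ hM, ?_, ?_⟩
  · refine map_injective G.subtype_injective ?_
    rw [map_subtype_commutator, ← MonoidHom.range_eq_map, range_subtype]
    refine le_antisymm (commutator_le_left _ _) (normalClosure_le_normal ?_)
    have h1 : ⁅(inl (D := S) (Q := T)).range, (inl (D := S) (Q := T)).range⁆ = inl.range := by
      rw [MonoidHom.range_eq_map, ← map_commutator, ← _root_.commutator_def, hT]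
    rw [← h1]
    exact commutator_mono le_normalClosure le_normalClosure
  · have h1 : IsPGroup 2 (T → S) := by
      obtain ⟨k, hk⟩ := hS.exists_card_eq
      exact IsPGroup.of_card (n := k * Nat.card T) (by rw [Nat.card_fun, hk, pow_mul])
    have h2 : IsPGroup 2 g.ker := fun x => by
      obtain ⟨k, hk⟩ := h1 (((x : M.comap π) : G) : S ≀ᵣ T).left
      refine ⟨k, Subtype.ext (Subtype.ext (Subtype.ext ?_))⟩
      have e : (((x : M.comap π) : G) : S ≀ᵣ T) = β (((x : M.comap π) : G) : S ≀ᵣ T).left := by
        ext1
        · rfl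
        · exact hg x
      change (((x : M.comap π) : G) : S ≀ᵣ T) ^ 2 ^ k = 1
      rw [e, ← map_pow, hk, map_one]
    have := h2.isNilpotent
    exact Group.isSolvable_of_ker_le_range g.ker.subtype g (by rw [range_subtype])
  · let ev : g.ker →* S :=
      { toFun := fun x => (((x : M.comap π) : G) : S ≀ᵣ T).left 1
        map_one' := rfl
        map_mul' := fun a b => by simp [hg a] }
    have hev : Function.Surjective ev := by
      intro s
      obtain ⟨t, ht⟩ := exists_ne (1 : T)
      have h1 : β (Pi.mulSingle 1 s) * inl t * (β (Pi.mulSingle 1 s))⁻¹ * (inl t)⁻¹ ∈ G :=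
        G.mul_mem (normalClosure_normal.conj_mem _ (hinl t) _) (G.inv_mem (hinl t))
      have h2 : π ⟨_, h1⟩ = 1 := by simp [π, β]
      refine ⟨⟨⟨⟨_, h1⟩, by rw [mem_comap, h2]; exact M.one_mem⟩, Subtype.ext h2⟩, ?_⟩
      simp [ev, β, ht]
    intro h
    apply hd
    have h3 : derivedSeries g.ker d = ⊥ := (map_eq_bot_iff_of_injective _ g.ker.subtype_injective).mp
      (le_bot_iff.mp (h ▸ map_derivedSeries_le_derivedSeries g.ker.subtype d))
    rw [← map_derivedSeries_eq hev, h3, Subgroup.map_bot]

/-- Finite perfect groups have solvable maximal subgroups of unbounded derived length: for every d there is a finite perfect group G (equal to its commutator subgroup) with a solvable maximal subgroup H whose derived length exceeds d, i.e. the d-th term of the derived series of H is non-trivial. (Take the derived subgroup of a wreath product S ≀ A₅ with S solvable of large derived length, and H the preimage of a maximal subgroup of A₅.) -/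
theorem result (d : ℕ) :
    ∃ (G : Type) (_ : Group G) (_ : Finite G) (H : Subgroup G), commutator G = ⊤ ∧ IsCoatom H ∧ Group.IsSolvable H ∧
      derivedSeries H d ≠ ⊥ := by
  obtain ⟨P⟩ : Nonempty (Sylow 2 (Equiv.Perm (Fin (2 ^ (d + 1))))) := inferInstance
  obtain ⟨M, hM, -⟩ := (eq_top_or_exists_le_coatom (⊥ : Subgroup (alternatingGroup (Fin 5)))).resolve_left
    bot_ne_top
  have hc : Nat.card (alternatingGroup (Fin 5)) = 60 := by
    rw [nat_card_alternatingGroup]; simp [Nat.factorial]
  refine aux P.2 d (Sym.derivedSeries_sylow_ne_bot P (by simp)) ?_ M hM ?_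
  · exact commutator_alternatingGroup_eq_top (by simp)
  · refine Perm.CompLen.isSolvable_of_card_lt_sixty ?_
    rw [← hc, ← card_top (G := alternatingGroup (Fin 5))]
    exact GT.card_lt_of_lt hM.1.lt_top

end Cfsg.Agent.S5896
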