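import Mathlib
import Cfsg.Statements.S5902
import Cfsg.Agent.S5901
-- import your own Cfsg.Agent.* helpers here

set_option autoImplicit false
open Cfsg

namespace Cfsg.Agent.S5902

theorem conj_compl {G : Type*} [Group G] (H : Subgroup G) (g : G)
    (h : ∃ C : Subgroup G, H.map (MulAut.conj g).toMonoidHom ⊔ C = ⊤ ∧
      H.map (MulAut.conj g).toMonoidHom ⊓ C = ⊥) :
    ∃ C : Subgroup G, H ⊔ C = ⊤ ∧ H ⊓ C = ⊥ := by
  obtain ⟨C, h1, h2⟩ := h
  let e := (MulAut.conj g).mapSubgroup
  refine ⟨e.symm C, e.injective ?_, e.injective ?_⟩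
  · rw [e.map_sup, e.apply_symm_apply, e.map_top]; exact h1
  · rw [e.map_inf, e.apply_symm_apply, e.map_bot]; exact h2

theorem exists_conj_not_le {G : Type*} [Group G] (H M : Subgroup G) (h : ¬ H ≤ M.normalCore) :
    ∃ g : G, ¬ H.map (MulAut.conj g).toMonoidHom ≤ M := by
  by_contra hc
  push Not at hc
  exact h fun x hx g => hc g ⟨x, hx, rfl⟩

/-- Let G be a finite group, X a subgroup whose own subgroup lattice is complemented, and suppose X lies in exactly one maximal subgroup M of G. Then every subgroup H of G not contained in the normal core of M has a complement in the subgroup lattice of G (some C with H ⊔ C = G and H ⊓ C = 1); in particular the subgroup lattice of G modulo the normal core of M is complemented. -/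
theorem result {G : Type*} [Group G] [Finite G] (X M : Subgroup G)
    (hK : ComplementedLattice (Subgroup X))
    (hM : IsCoatom M) (hXM : X ≤ M) (huniq : ∀ M' : Subgroup G, IsCoatom M' → X ≤ M' → M' = M) :
    (∀ H : Subgroup G, ¬ H ≤ M.normalCore → ∃ C : Subgroup G, H ⊔ C = ⊤ ∧ H ⊓ C = ⊥) ∧
    ComplementedLattice (Subgroup (G ⧸ M.normalCore)) := by
  have key : ∀ H : Subgroup G, ¬ H ≤ M.normalCore → ∃ C : Subgroup G, H ⊔ C = ⊤ ∧ H ⊓ C = ⊥ := by
    intro H hH
    obtain ⟨g, hg⟩ := exists_conj_not_le H M hH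
    apply conj_compl H g
    refine S5901.result ⊥ X M bot_le (fun h => hM.1 (eq_top_iff.mpr (h ▸ hXM))) ?_ hM hXM huniq _ hg
      (inf_bot_eq _)
    intro Y _ hY
    obtain ⟨C, hC⟩ := exists_isCompl (Y.subgroupOf X)
    refine ⟨C.map X.subtype, bot_le, Subgroup.map_subtype_le C, ?_, ?_⟩
    · have := congrArg (Subgroup.map X.subtype) hC.sup_eq_top
      rwa [Subgroup.map_sup, Subgroup.map_subgroupOf_eq_of_le hY, ← MonoidHom.range_eq_map,
        Subgroup.range_subtype] at this
    · have := congrArg (Subgroup.map X.subtype) hC.inf_eq_bot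
      rwa [Subgroup.map_inf _ _ _ X.subtype_injective, Subgroup.map_subgroupOf_eq_of_le hY,
        Subgroup.map_bot] at this
  refine ⟨key, ⟨fun Hb => ?_⟩⟩
  by_cases hb : Hb = ⊥
  · exact ⟨⊤, hb ▸ isCompl_bot_top⟩
  set π := QuotientGroup.mk' M.normalCore with hπ
  have hsurj : Function.Surjective π := QuotientGroup.mk'_surjective _
  obtain ⟨C, h1, h2⟩ := key (Hb.comap π) (fun h => hb (by
    rw [eq_bot_iff]
    intro x hx
    obtain ⟨y, rfl⟩ := hsurj x
    exact (QuotientGroup.eq_one_iff y).mpr (h hx)))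
  refine ⟨C.map π, ⟨?_, ?_⟩⟩
  · rw [disjoint_iff, eq_bot_iff]
    rintro _ ⟨hx, c, hc, rfl⟩
    have : c ∈ Hb.comap π ⊓ C := ⟨hx, hc⟩
    rw [h2, Subgroup.mem_bot] at this
    rw [this, map_one]; exact Subgroup.one_mem _
  · rw [codisjoint_iff, ← Subgroup.map_comap_eq_self_of_surjective hsurj Hb, ← Subgroup.map_sup, h1,
      Subgroup.map_top_of_surjective _ hsurj]

end Cfsg.Agent.S5902
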