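import Mathlib
import Cfsg.Statements.S5903
import Cfsg.Agent.S5902
-- import your own Cfsg.Agent.* helpers here

set_option autoImplicit false
open Cfsg

namespace Cfsg.Agent.S5903

/-- Let G be a finite simple group, X a subgroup lying in exactly one maximal subgroup M of G, and N a subgroup of prime order with N ≤ X that is central in M. If the subgroup lattice of X/N is complemented, then the subgroup lattice of G is complemented. -/
theorem result {G : Type*} [Group G] [Finite G] [IsSimpleGroup G] (X M N : Subgroup G)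
    (hM : IsCoatom M) (hXM : X ≤ M) (huniq : ∀ M' : Subgroup G, IsCoatom M' → X ≤ M' → M' = M)
    (hNX : N ≤ X) (hN : (Nat.card N).Prime) (hcen : ∀ n ∈ N, ∀ m ∈ M, m * n = n * m)
    [(N.subgroupOf X).Normal] (hK : ComplementedLattice (Subgroup (X ⧸ N.subgroupOf X))) :
    ComplementedLattice (Subgroup G) := by
  have hXtop : X ≠ ⊤ := fun h => hM.1 (eq_top_iff.mpr (h ▸ hXM))
  have hcore : M.normalCore = ⊥ := by
    rcases (Subgroup.normalCore_normal M).eq_bot_or_eq_top with h | h
    · exact h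
    · exact absurd (eq_top_iff.mpr (h ▸ M.normalCore_le)) hM.1
  set π := QuotientGroup.mk' (N.subgroupOf X) with hπ
  have hsurj : Function.Surjective π := QuotientGroup.mk'_surjective _
  have hker : π.ker = N.subgroupOf X := QuotientGroup.ker_mk' _
  have hint : ∀ Y : Subgroup G, N ≤ Y → Y ≤ X →
      ∃ C : Subgroup G, N ≤ C ∧ C ≤ X ∧ Y ⊔ C = X ∧ Y ⊓ C = N := by
    intro Y hNY hY
    obtain ⟨C, hC⟩ := exists_isCompl ((Y.subgroupOf X).map π)
    have hY' : ((Y.subgroupOf X).map π).comap π = Y.subgroupOf X := by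
      rw [Subgroup.comap_map_eq, hker, sup_eq_left]
      exact Subgroup.subgroupOf_mono X hNY
    refine ⟨(C.comap π).map X.subtype, ?_, Subgroup.map_subtype_le _, ?_, ?_⟩
    · intro n hn
      refine ⟨⟨n, hNX hn⟩, ?_, rfl⟩
      exact Subgroup.ker_le_comap π C (by rw [hker]; exact hn)
    · have := congrArg (fun Z => (Subgroup.comap π Z).map X.subtype) hC.sup_eq_top
      rwa [← Subgroup.comap_sup_eq π _ _ hsurj, hY', Subgroup.map_sup,
        Subgroup.map_subgroupOf_eq_of_le hY, Subgroup.comap_top, ← MonoidHom.range_eq_map,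
        Subgroup.range_subtype] at this
    · have := congrArg (fun Z => (Subgroup.comap π Z).map X.subtype) hC.inf_eq_bot
      rwa [Subgroup.comap_inf, hY', Subgroup.map_inf _ _ _ X.subtype_injective,
        Subgroup.map_subgroupOf_eq_of_le hY, MonoidHom.comap_bot, hker,
        Subgroup.map_subgroupOf_eq_of_le hNX] at this
  have hN1 : N ≠ ⊥ := by
    intro h; rw [h, Subgroup.card_bot] at hN; exact Nat.not_prime_one hN
  have := Fact.mk hN
  have hNat : ∀ H : Subgroup G, N ≤ H ∨ H ⊓ N = ⊥ := by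
    intro H
    rcases Subgroup.eq_bot_or_eq_top_of_prime_card (H.subgroupOf N) with h | h
    · right
      rw [Subgroup.subgroupOf_eq_bot] at h
      exact disjoint_iff.mp h
    · left; exact Subgroup.subgroupOf_eq_top.mp h
  refine ⟨fun H => ?_⟩
  suffices h : ∃ C : Subgroup G, H ⊔ C = ⊤ ∧ H ⊓ C = ⊥ by
    obtain ⟨C, h1, h2⟩ := h
    exact ⟨C, disjoint_iff.mpr h2, codisjoint_iff.mpr h1⟩
  by_cases hb : H = ⊥
  · exact ⟨⊤, by simp, by simp [hb]⟩
  by_cases ht : H = ⊤
  · exact ⟨⊥, by simp [ht], by simp⟩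
  by_cases hex : ∃ g : G, ¬ H.map (MulAut.conj g).toMonoidHom ≤ M ∧
      H.map (MulAut.conj g).toMonoidHom ⊓ N = ⊥
  · obtain ⟨g, h1, h2⟩ := hex
    exact S5902.conj_compl H g (S5901.result N X M hNX hXtop hint hM hXM huniq _ h1 h2)
  exfalso
  push Not at hex
  -- every conjugate of `H` lies in `M` or contains `N`
  have hall : ∀ g : G, H.map (MulAut.conj g).toMonoidHom ≤ M ∨
      N ≤ H.map (MulAut.conj g).toMonoidHom := by
    intro g
    by_cases h : H.map (MulAut.conj g).toMonoidHom ≤ M
    · exact Or.inl h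
    · exact Or.inr ((hNat _).resolve_right (hex g h))
  have hle : Subgroup.normalClosure (N : Set G) ≤ Subgroup.normalizer (H : Set G) := by
    apply (Subgroup.closure_le _).mpr
    intro y hy
    obtain ⟨n, hn, hc⟩ := Group.mem_conjugatesOfSet_iff.mp hy
    obtain ⟨c, rfl⟩ := isConj_iff.mp hc
    rcases hall c⁻¹ with h | h
    · apply Subgroup.centralizer_le_normalizer
      intro x hx
      have h1 := hcen n hn _ (h ⟨x, hx, rfl⟩)
      change c⁻¹ * x * c⁻¹⁻¹ * n = n * (c⁻¹ * x * c⁻¹⁻¹) at h1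
      rw [inv_inv] at h1
      calc x * (c * n * c⁻¹) = c * (c⁻¹ * x * c * n) * c⁻¹ := by group
        _ = c * n * c⁻¹ * x := by rw [h1]; group
    · apply Subgroup.le_normalizer
      obtain ⟨x, hx, e⟩ := h hn
      change c⁻¹ * x * c⁻¹⁻¹ = n at e
      rw [← e]
      simpa [mul_assoc] using hx
  have htop : Subgroup.normalClosure (N : Set G) = ⊤ :=
    (Subgroup.normalClosure_normal.eq_bot_or_eq_top).resolve_left
      (fun h => hN1 (eq_bot_iff.mpr (h ▸ Subgroup.le_normalClosure)))
  have hHn : H.Normal := Subgroup.normalizer_eq_top_iff.mp (eq_top_iff.mpr (htop ▸ hle))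
  exact hHn.eq_bot_or_eq_top.elim hb ht

end Cfsg.Agent.S5903
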