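import Cfsg.Statements.S5904
import Cfsg.Agent.Sym.Partition

set_option autoImplicit false
open scoped Pointwise
open Cfsg

namespace Cfsg.Agent.S5904

/-- Let Ω be a finite set with more than two elements and O ⊆ Ω a subset with exactly as many elements as its complement. Then the setwise stabilizer of O in the symmetric group on Ω is not a maximal subgroup (it is properly contained in the stabilizer of the partition {O, Ω ∖ O}, which is proper). -/
theorem result {Ω : Type*} [Fintype Ω] [DecidableEq Ω] (hΩ : 2 < Fintype.card Ω)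
    (O : Set Ω) (hO : Nat.card O = Nat.card ↥Oᶜ) :
    ¬ IsCoatom (MulAction.stabilizer (Equiv.Perm Ω) O) := by
  classical
  have h1 := Set.ncard_add_ncard_compl O
  rw [Nat.card_coe_set_eq, Nat.card_coe_set_eq] at hO
  rw [Nat.card_eq_fintype_card] at h1
  have hf : ∀ i : Prop, Nat.card {x // (x ∈ O) = i} = O.ncard := by
    intro i
    by_cases hi : i
    · simp only [hi, eq_iff_iff, iff_true]; exact Nat.card_coe_set_eq O
    · simp only [hi, eq_iff_iff, iff_false]; exact (Nat.card_coe_set_eq Oᶜ).trans hO.symm
  intro h
  refine Sym.partStab_ne_top (by omega) hf (h.2 _ (lt_of_le_of_ne (fun g hg => ?_) fun e => ?_))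
  · refine Sym.mem_partStab_of_apply_eq 1 fun x => ?_
    rw [MulAction.mem_stabilizer_set] at hg
    simpa using hg x
  · obtain ⟨g, h2, -⟩ := Sym.exists_lift_of_card_fiber hf (Equiv.swap True False)
    have h3 := Sym.mem_partStab_of_apply_eq _ h2
    rw [← e, MulAction.mem_stabilizer_set] at h3
    obtain ⟨x, hx⟩ := Set.nonempty_of_ncard_ne_zero (show O.ncard ≠ 0 by omega)
    have h4 := h2 x
    have h5 : g x ∈ O := (h3 x).2 hx
    simp [hx, h5] at h4

end Cfsg.Agent.S5904
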