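import Mathlib
import Cfsg.Statements.S5908
import Cfsg.Agent.Cl.Sm.U32

set_option autoImplicit false
open Cfsg

namespace Cfsg.Agent.S5908

/-- The subgroup lattice of PSU₃(2) (the solvable group of order 72, realised over the field with 4 elements) is not complemented: some subgroup H has no subgroup X with H ⊔ X = ⊤ and H ⊓ X = ⊥. -/
theorem result {F : Type*} [Field F] [Fintype F] (hF : Fintype.card F = 4) :
    ¬ ComplementedLattice (Subgroup (Cfsg.PSU 3 F 2)) := by
  intro h
  obtain ⟨f, h1, -⟩ := Cl.Sm.exists_hom_U32 F hF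
  obtain ⟨X, hX⟩ := h.exists_isCompl ((Subgroup.center (QuaternionGroup 2)).comap f)
  have a1 : X ≤ (Subgroup.center (QuaternionGroup 2)).comap f := fun x hx => by
    have b1 : x * x ∈ (Subgroup.center (QuaternionGroup 2)).comap f ⊓ X := by
      refine ⟨Subgroup.mem_center_iff.2 fun r => ?_, X.mul_mem hx hx⟩
      rw [map_mul]
      exact (by decide : ∀ q r : QuaternionGroup 2, r * (q * q) = q * q * r) _ r
    rw [hX.inf_eq_bot, Subgroup.mem_bot] at b1
    have b2 : f x * f x = 1 := by rw [← map_mul, b1, map_one]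
    exact Subgroup.mem_center_iff.2 fun r =>
      (by decide : ∀ q r : QuaternionGroup 2, q * q = 1 → r * q = q * r) _ r b2
  have a2 := hX.sup_eq_top
  rw [sup_eq_left.2 a1] at a2
  obtain ⟨x, hx⟩ := h1 (.a 1)
  have a3 : x ∈ (Subgroup.center (QuaternionGroup 2)).comap f := a2 ▸ Subgroup.mem_top x
  have a4 := Subgroup.mem_center_iff.1 a3 (.xa 0)
  rw [hx] at a4
  exact absurd a4 (by decide)

end Cfsg.Agent.S5908
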