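import Cfsg.Statements.S5910
import Cfsg.Agent.Sym.Partition

set_option autoImplicit false
open Cfsg

namespace Cfsg.Agent.S5910

/-- The affine group of the space of order `8`. -/
def aff : Subgroup (Equiv.Perm ((ZMod 2 × ZMod 2) × ZMod 2)) where
  carrier := {g | ∀ x y z w, x + y = z + w ↔ g x + g y = g z + g w}
  one_mem' := fun _ _ _ _ => Iff.rfl
  mul_mem' := fun {g h} hg hh x y z w => (hh x y z w).trans (hg _ _ _ _)
  inv_mem' := fun {g} hg x y z w => by simpa using (hg (g⁻¹ x) (g⁻¹ y) (g⁻¹ z) (g⁻¹ w)).symm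

theorem aff_four : ∀ σ : Equiv.Perm (ZMod 2 × ZMod 2), ∀ x y z w,
    x + y = z + w ↔ σ x + σ y = σ z + σ w := by
  decide +kernel

theorem aff_sum : ∀ c : ZMod 2 × ZMod 2 → ZMod 2,
    ∏ k, Equiv.Perm.sign (Equiv.addLeft (c k)) = 1 →
    ∀ x y z w, x + y = z + w → c x + c y = c z + c w := by
  decide +kernel

theorem mem_aff (g : Equiv.Perm ((ZMod 2 × ZMod 2) × ZMod 2))
    (hg : ∀ x y, x.1 = y.1 ↔ (g x).1 = (g y).1) (hs : Equiv.Perm.sign g = 1) : g ∈ aff := by
  let σ : Equiv.Perm (ZMod 2 × ZMod 2) := Equiv.ofBijective (fun i => (g (i, 0)).1)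
    (Finite.injective_iff_bijective.1 fun i j h => (hg (i, 0) (j, 0)).2 h)
  let c : ZMod 2 × ZMod 2 → ZMod 2 := fun i => (g (i, 0)).2
  have h1 : g = Equiv.prodCongrLeft (fun _ => σ) *
      Equiv.prodCongrRight fun i => Equiv.addLeft (c i) := by
    ext1 ⟨i, s⟩
    have h2 : (g (i, s)).1 = (g (i, 0)).1 := (hg (i, s) (i, 0)).1 rfl
    refine Prod.ext h2 ?_
    change (g (i, s)).2 = (g (i, 0)).2 + s
    have h3 : ∀ s t u : ZMod 2, (s = 0 ↔ t = u) → t = u + s := by decide
    refine h3 _ _ _ ⟨fun h => by rw [h], fun h => ?_⟩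
    simpa using g.injective (Prod.ext h2 h)
  rw [h1, Equiv.Perm.sign_mul, Equiv.Perm.sign_prodCongrLeft, Equiv.Perm.sign_prodCongrRight] at hs
  simp only [Finset.prod_const, Finset.card_univ, ZMod.card, Int.units_sq, one_mul] at hs
  rw [h1]
  refine mul_mem ?_ ?_
  · rintro ⟨x, x'⟩ ⟨y, y'⟩ ⟨z, z'⟩ ⟨w, w'⟩
    simp [aff_four σ x y z w]
  · rintro ⟨x, x'⟩ ⟨y, y'⟩ ⟨z, z'⟩ ⟨w, w'⟩
    simp only [Prod.mk_add_mk, Prod.mk.injEq, Equiv.prodCongrRight_apply, Equiv.coe_addLeft,
      and_congr_right_iff]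
    intro h
    have := aff_sum c hs x y z w h
    exact ⟨fun h' => by linear_combination h' + this, fun h' => by linear_combination h' - this⟩

/-- Let Ω be a set with 8 elements and f : Ω → Fin 4 a labelling whose four fibres all have size 2 (a partition of the 8 points into 4 pairs). Then the group of even permutations preserving this partition, (S₂ ≀ S₄) ∩ A₈, is not a maximal subgroup of the alternating group A₈ (it lies in a subgroup isomorphic to the affine group AGL₃(2)). -/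
theorem result {Ω : Type*} [Fintype Ω] [DecidableEq Ω] (h8 : Fintype.card Ω = 8)
    (f : Ω → Fin 4) (hf : ∀ i : Fin 4, Nat.card {x : Ω // f x = i} = 2) :
    ¬ IsCoatom ((Subgroup.closure {g : Equiv.Perm Ω | ∀ x y : Ω, f x = f y ↔ f (g x) = f (g y)} ⊓ alternatingGroup Ω).subgroupOf (alternatingGroup Ω)) := by
  rw [Sym.closure_partStab, Subgroup.inf_subgroupOf_right]
  obtain ⟨e₀, he₀⟩ := Sym.exists_equiv_prod_of_card_fiber hf
  let φ : Fin 4 ≃ ZMod 2 × ZMod 2 := Fintype.equivOfCardEq (by simp)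
  let e : Ω ≃ (ZMod 2 × ZMod 2) × ZMod 2 := e₀.trans (Equiv.prodCongr φ (Equiv.refl _))
  have he : ∀ x y, f x = f y ↔ (e x).1 = (e y).1 := fun x y => by
    rw [← he₀, ← he₀]
    exact φ.injective.eq_iff.symm
  intro h
  have hle : (Sym.partStab f).subgroupOf (alternatingGroup Ω) ≤
      (aff.comap e.permCongrHom.toMonoidHom).subgroupOf (alternatingGroup Ω) := by
    intro g hg
    refine mem_aff _ (fun x y => ?_) (by simpa using Equiv.Perm.mem_alternatingGroup.1 g.2)
    simpa [he] using hg (e.symm x) (e.symm y)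
  have hs : ∀ g : Equiv.Perm ((ZMod 2 × ZMod 2) × ZMod 2), Equiv.Perm.sign g = 1 →
      e.symm.permCongr g ∈ alternatingGroup Ω := fun g hg => by simpa using hg
  have h1 := h.2 _ (lt_of_le_of_ne hle fun h2 => ?_)
  · have h2 := Subgroup.subgroupOf_eq_top.1 h1 (hs (Sym.cyc3 ((0, 0), 0) ((0, 0), 1) ((0, 1), 0))
      (Sym.sign_cyc3 (by decide) (by decide)))
    have h3 := h2 ((0, 0), 0) ((0, 0), 1) ((1, 0), 0) ((1, 0), 1)
    simp only [MulEquiv.toMonoidHom_eq_coe, MonoidHom.coe_coe, Equiv.permCongrHom_coe,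
      Equiv.permCongr_apply, Equiv.symm_symm, Equiv.apply_symm_apply] at h3
    revert h3
    decide
  · have h3 : (⟨_, hs (Equiv.swap ((0, 0), 1) ((0, 1), 0) * Equiv.swap ((1, 0), 1) ((1, 1), 0))
        (by decide)⟩ : alternatingGroup Ω) ∈
        (aff.comap e.permCongrHom.toMonoidHom).subgroupOf (alternatingGroup Ω) := by
      intro x y z w
      simp only [MulEquiv.toMonoidHom_eq_coe, MonoidHom.coe_coe, Equiv.permCongrHom_coe,
        Equiv.permCongr_apply, Equiv.symm_symm, Equiv.apply_symm_apply, Subgroup.coe_subtype]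
      revert x y z w
      decide +kernel
    rw [← h2] at h3
    have h4 := h3 (e.symm ((0, 0), 0)) (e.symm ((0, 0), 1))
    simp only [he, Subgroup.coe_subtype, Equiv.permCongr_apply, Equiv.symm_symm,
      Equiv.apply_symm_apply] at h4
    revert h4
    decide

end Cfsg.Agent.S5910
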