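import Cfsg.Statements.S5912
import Mathlib
import Cfsg.Agent.Sym.Index

set_option autoImplicit false
open Cfsg

namespace Cfsg.Agent.S5912

/-- The symmetric group on a 6-element set Ω has exactly two conjugacy classes of subgroups of index 6: there are two non-conjugate subgroups of index 6 (a point stabilizer and a transitive subgroup isomorphic to S₅), and every subgroup of index 6 is conjugate to one of them. -/
theorem result {Ω : Type*} [Fintype Ω] [DecidableEq Ω] (h6 : Fintype.card Ω = 6) :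
    ∃ H₁ H₂ : Subgroup (Equiv.Perm Ω), H₁.index = 6 ∧ H₂.index = 6 ∧
      (¬ ∃ g : Equiv.Perm Ω, Subgroup.map (MulAut.conj g).toMonoidHom H₁ = H₂) ∧
      ∀ H : Subgroup (Equiv.Perm Ω), H.index = 6 →
        ∃ g : Equiv.Perm Ω, Subgroup.map (MulAut.conj g).toMonoidHom H₁ = H ∨ Subgroup.map (MulAut.conj g).toMonoidHom H₂ = H := by
  obtain ⟨ψ, hψ, -⟩ := Sym.exists_outer_six h6
  obtain ⟨x⟩ : Nonempty Ω := Fintype.card_pos_iff.1 (by omega)
  refine ⟨MulAction.stabilizer _ x, (MulAction.stabilizer _ x).comap ψ.toMonoidHom, ?_, ?_, ?_, ?_⟩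
  · rw [Sym.index_stabilizer_perm, h6]
  · rw [Subgroup.index_comap_of_surjective _ ψ.surjective, Sym.index_stabilizer_perm, h6]
  · rintro ⟨g, hg⟩
    rw [Sym.map_conj_stabilizer_perm] at hg
    exact Sym.comap_stabilizer_ne_stabilizer h6 hψ x _ hg.symm
  · intro H hH
    obtain ⟨y, rfl | rfl⟩ := Sym.index_eq_six_cases h6 hψ hH
    · exact ⟨Equiv.swap x y, Or.inl (by rw [Sym.map_conj_stabilizer_perm, Equiv.swap_apply_left])⟩
    · refine ⟨ψ.symm (Equiv.swap x y), Or.inr ?_⟩
      ext g
      rw [Subgroup.mem_map_equiv]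
      simp only [Subgroup.mem_comap, MulAction.mem_stabilizer_iff, MulAut.conj_symm_apply,
        MulEquiv.coe_toMonoidHom, map_mul, map_inv, MulEquiv.apply_symm_apply, Equiv.swap_inv,
        Equiv.Perm.smul_def, Equiv.Perm.mul_apply, Equiv.swap_apply_left]
      rw [Equiv.swap_apply_eq_iff, Equiv.swap_apply_left]

end Cfsg.Agent.S5912
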