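import Mathlib
import Cfsg.Statements.S5914
import Cfsg.Agent.GT.CharSimple

set_option autoImplicit false
open Cfsg

namespace Cfsg.Agent.S5914

open Cfsg.Agent.GT

/-- A non-trivial finite group G is characteristically simple (its only characteristic subgroups are 1 and G) if and only if G is isomorphic to a direct power S^n (n ≥ 1) of some simple group S (possibly cyclic of prime order). -/
theorem result {G : Type*} [Group G] [Finite G] [Nontrivial G] :
    (∀ H : Subgroup G, H.Characteristic → H = ⊥ ∨ H = ⊤) ↔
    ∃ (S : Type) (_ : Group S) (_ : IsSimpleGroup S) (n : ℕ), 1 ≤ n ∧ Nonempty (G ≃* (Fin n → S)) := by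
  refine ⟨exists_mulEquiv_pow_of_charSimple', ?_⟩
  rintro ⟨S, _, _, n, -, ⟨e⟩⟩
  exact charSimple_of_mulEquiv e charSimple_pow

end Cfsg.Agent.S5914
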