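import Mathlib
import Cfsg.Statements.S5939
import Cfsg.Agent.Cl.PSL2Max

set_option autoImplicit false
open Cfsg

set_option linter.unusedVariables false

namespace Cfsg.Agent.S5939

open Cfsg.Agent.Cl.L2 Matrix MulAction
open scoped MatrixGroups

/-- Let p be a prime and F a finite field of characteristic p such that either F has p elements and p ≡ ±1 (mod 10), or F has p² elements and p ≡ ±3 (mod 10). Then PSL_2(F) has a maximal subgroup isomorphic to the alternating group A_5. -/
theorem result {F : Type*} [Field F] [Fintype F] (p : ℕ) [Fact p.Prime] [CharP F p] (h : (Fintype.card F = p ∧ (p % 10 = 1 ∨ p % 10 = 9)) ∨ (Fintype.card F = p ^ 2 ∧ (p % 10 = 3 ∨ p % 10 = 7))) : ∃ H : Subgroup (Matrix.ProjectiveSpecialLinearGroup (Fin 2) F), IsCoatom H ∧ Nonempty (H ≃* alternatingGroup (Fin 5)) := by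
  rw [← Nat.card_eq_fintype_card] at h
  have hp : p.Prime := Fact.out
  have hp2 := hp.two_le
  have h5 : Nat.card F % 5 = 1 ∨ Nat.card F % 5 = 4 := by
    rcases h with ⟨h, h'⟩ | ⟨h, h'⟩
    · omega
    · rw [h, Nat.pow_mod]
      rcases h' with h' | h'
      · rw [show p % 5 = 3 by omega]; norm_num
      · rw [show p % 5 = 2 by omega]; norm_num
  obtain ⟨H, ⟨e⟩⟩ := (exists_A5S_iff (F := F)).2 (Or.inr h5)
  refine ⟨H, isCoatom_of_A5 ?_ (fun k hk => ?_) e, ⟨e⟩⟩
  · rcases h with ⟨h, h'⟩ | ⟨h, h'⟩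
    · omega
    · have : 3 ^ 2 ≤ p ^ 2 := Nat.pow_le_pow_left (by omega) 2
      omega
  · rcases h with ⟨h, h'⟩ | ⟨h, h'⟩
    · exact absurd (subfield_eq_top_of_prime (h ▸ hp) k) hk
    · obtain ⟨m, hm, e⟩ := sq_le_of_ne_top hk
      obtain ⟨n, hn, e'⟩ := exists_card_eq_prime_pow (F := k) p
      rw [e', h, ← pow_mul] at e
      have := Nat.pow_right_injective hp2 e
      obtain rfl : n = 1 := by nlinarith
      rw [e', pow_one]; omega

end Cfsg.Agent.S5939
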