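import Mathlib
import Cfsg.Statements.S5947
import Cfsg.Agent.Cl.ClassSinger
import Cfsg.Agent.NT.Zsigmondy
import Cfsg.Agent.S3784

set_option autoImplicit false
open Cfsg

namespace Cfsg.Agent.S5947

/-- Let F ⊆ K be finite fields with |F| = q and [K : F] = n ≥ 2, regard K as an n-dimensional F-vector space, and let M ≤ GL_F(K) be the Singer group of multiplications by non-zero elements of K (cyclic of order q^n − 1). Assume (n, q) ≠ (6, 2), and that it is not the case that n = 2 with q a prime such that q + 1 is a power of 2. Then every abelian subgroup of GL_F(K) of order q^n − 1 is conjugate to M. -/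
theorem result {F K : Type*} [Field F] [Fintype F] [Field K] [Fintype K] [Algebra F K] (n : ℕ) (hn : 2 ≤ n) (hdim : Module.finrank F K = n)
    (hex1 : ¬ (n = 6 ∧ Fintype.card F = 2))
    (hex2 : ¬ (n = 2 ∧ (Fintype.card F).Prime ∧ ∃ a : ℕ, Fintype.card F + 1 = 2 ^ a))
    (U : Subgroup (Module.End F K)ˣ) (hU : IsMulCommutative U) (hcard : Nat.card U = Fintype.card K - 1) :
    ∃ g : (Module.End F K)ˣ, U.map (MulAut.conj g).toMonoidHom = (Units.map ((Algebra.lmul F K : K →ₐ[F] Module.End F K) : K →* Module.End F K)).range := by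
  obtain ⟨p, hp, f, hpp, hf⟩ := FiniteField.card' F
  obtain ⟨r, hr, hro⟩ := NT.zsigmondy_orderOf (a := Fintype.card F) (n := n) Fintype.one_lt_card
    (by omega) (fun h => hex1 ⟨h.2, h.1⟩) (by
      rintro ⟨h1, m, hm⟩
      refine hex2 ⟨h1, ?_, m, hm⟩
      have h2 : 1 < Fintype.card F := Fintype.one_lt_card
      have hm1 : 1 ≤ m := by
        rcases m with _ | m
        · omega
        · omega
      rcases S3784.result 2 p m f Nat.prime_two hpp hm1 f.2 (by rw [← hf, hm]) with h | h | h
      · rw [hf, h.2.1, pow_one]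
        exact hpp
      · rw [h.2.1] at hm
        omega
      · exact absurd (h.1 ▸ dvd_pow_self 2 (by omega) : 2 ∣ 9) (by norm_num))
  have := Fact.mk hr
  have h1 : (Fintype.card F : ZMod r) ^ n = 1 := hro ▸ pow_orderOf_eq_one _
  have h2 : r ∣ Nat.card U := by
    rw [hcard, Module.card_eq_pow_finrank (K := F) (V := K), hdim,
      ← ZMod.natCast_eq_zero_iff, Nat.cast_sub (Nat.one_le_pow _ _ Fintype.card_pos), Nat.cast_pow,
      h1, Nat.cast_one, sub_self]
  have : Finite (Module.End F K) := Finite.of_injective _ LinearMap.coe_injective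
  obtain ⟨x, hx⟩ := exists_prime_orderOf_dvd_card' r h2
  obtain ⟨P, hP, hxP⟩ := Cl.Cls.ed_eq_singleton_of_orderOf (x := (x.1 : Module.End F K)) hr
    (by rw [orderOf_units, Subgroup.orderOf_coe, hx])
    (by rw [Nat.card_eq_fintype_card, hro, hdim]) (by
      rw [Ne, CharP.cast_eq_zero_iff F p, Nat.prime_dvd_prime_iff_eq hpp hr]
      rintro rfl
      rw [hf, Nat.cast_pow, CharP.cast_eq_zero, zero_pow f.ne_zero, zero_pow (by omega)] at h1
      exact zero_ne_one h1)
  obtain ⟨g, a, ha, hg⟩ := Cl.Cls.exists_conj_singer hP hxP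
  refine ⟨g, Subgroup.eq_of_le_of_card_ge ?_ ?_⟩
  · rintro _ ⟨u, hu, rfl⟩
    refine Cl.Cls.mem_singer_iff.2 fun b y => ?_
    obtain ⟨c, rfl⟩ := ha b
    have h3 : Commute x.1 u := congrArg Subtype.val (hU.is_comm.comm x ⟨u, hu⟩)
    have h4 : Commute (Algebra.lmul F K a) ((MulAut.conj g u : (Module.End F K)ˣ) : Module.End F K) :=
      hg ▸ (h3.map (MulAut.conj g)).map (Units.coeHom _)
    have h5 := Cl.Cls.intertwine_aeval (f := Algebra.lmul F K a) (g := Algebra.lmul F K a)
      ((MulAut.conj g u : (Module.End F K)ˣ) : Module.End F K) (fun v => LinearMap.congr_fun h4.symm v) c y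
    rwa [Polynomial.aeval_algHom_apply] at h5
  · rw [Subgroup.card_map_of_injective (MulAut.conj g).injective, hcard, Cl.Cls.card_singer,
      Nat.card_eq_fintype_card]

end Cfsg.Agent.S5947
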